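import Cfsg.Statements.S0111
import Mathlib

set_option autoImplicit false
open Cfsg

namespace Cfsg.Agent.S0111

/-- The Thompson transfer lemma states that an involution of a Sylow 2-subgroup P lying outside a subgroup Q of index 2 in P either lies outside some normal subgroup of index 2 in G or is conjugate to an element of Q. -/
theorem result {G : Type*} [Group G] [Finite G] (P : Sylow 2 G) (Q : Subgroup G) (hQP : Q ≤ (P : Subgroup G)) (hQi : Q.relIndex (P : Subgroup G) = 2) (u : G) (hu : orderOf u = 2) (huP : u ∈ (P : Subgroup G)) (huQ : u ∉ Q) : (∃ M : Subgroup G, M.Normal ∧ M.index = 2 ∧ u ∉ M) ∨ ∃ g : G, g * u * g⁻¹ ∈ Q := by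
  classical
  by_cases hex : ∃ g : G, g * u * g⁻¹ ∈ Q
  · exact Or.inr hex
  · left
    push Not at hex
    haveI : Fintype (G ⧸ Q) := Fintype.ofFinite _
    obtain ⟨φ, hφ⟩ : ∃ φ : G →* ℤˣ,
        φ = Equiv.Perm.sign.comp (MulAction.toPermHom G (G ⧸ Q)) := ⟨_, rfl⟩
    obtain ⟨σ, hσ⟩ : ∃ σ : Equiv.Perm (G ⧸ Q), σ = MulAction.toPermHom G (G ⧸ Q) u := ⟨_, rfl⟩
    have hu2 : u ^ 2 = 1 := by rw [← hu]; exact pow_orderOf_eq_one u
    have hfix : ∀ x : G ⧸ Q, σ x ≠ x := by
      intro x
      induction x using QuotientGroup.induction_on with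
      | H g =>
        rw [hσ]
        show ((u * g : G) : G ⧸ Q) ≠ (g : G ⧸ Q)
        intro h
        rw [QuotientGroup.eq] at h
        have h2 : g⁻¹ * u * g⁻¹⁻¹ ∈ Q := by
          have h3 := Q.inv_mem h
          have e : ((u * g)⁻¹ * g)⁻¹ = g⁻¹ * u * g⁻¹⁻¹ := by group
          rw [e] at h3; exact h3
        exact hex g⁻¹ h2
    have hσ2 : σ ^ 2 = 1 := by
      rw [hσ, ← map_pow, hu2, map_one]
    have hσ1 : σ ≠ 1 := by
      intro h
      apply hfix ((1 : G) : G ⧸ Q)
      rw [h]; rfl
    have hord : orderOf σ = 2 := orderOf_eq_prime hσ2 hσ1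
    obtain ⟨n, hn⟩ := Equiv.Perm.cycleType_prime_order (σ := σ) (by rw [hord]; exact Nat.prime_two)
    rw [hord] at hn
    have hsupp : σ.support = Finset.univ := by
      ext x; simp [Equiv.Perm.mem_support, hfix x]
    have hcard : Fintype.card (G ⧸ Q) = 2 * (n + 1) := by
      have := Equiv.Perm.sum_cycleType σ
      rw [hn, hsupp, Multiset.sum_replicate, Finset.card_univ] at this
      rw [← this]; simp [mul_comm]
    have hidx : Fintype.card (G ⧸ Q) = 2 * (P : Subgroup G).index := by
      rw [← Nat.card_eq_fintype_card, ← Subgroup.index_eq_card,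
        ← Subgroup.relIndex_mul_index hQP, hQi]
    have hodd : ¬ 2 ∣ (P : Subgroup G).index := P.not_dvd_index
    have hn1 : ¬ 2 ∣ (n + 1) := by
      have : n + 1 = (P : Subgroup G).index := by omega
      rw [this]; exact hodd
    have hsign : Equiv.Perm.sign σ = -1 := by
      rw [Equiv.Perm.sign_of_cycleType, hn, Multiset.sum_replicate, Multiset.card_replicate]
      have hodd' : Odd ((n + 1) • 2 + (n + 1)) := by
        rw [Nat.odd_iff]; simp only [smul_eq_mul]; omega
      exact hodd'.neg_one_pow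
    have hφu : φ u = -1 := by
      rw [hφ, MonoidHom.comp_apply, ← hσ]; exact hsign
    have huM : u ∉ φ.ker := by
      rw [MonoidHom.mem_ker, hφu]; decide
    refine ⟨φ.ker, MonoidHom.normal_ker φ, ?_, huM⟩
    have h1 : φ.ker.index ∣ 2 := by
      rw [Subgroup.index_ker]
      have := Subgroup.card_subgroup_dvd_card φ.range
      rwa [Nat.card_eq_fintype_card (α := ℤˣ), Fintype.card_units_int] at this
    have h2 : φ.ker.index ≠ 1 := by
      rw [Ne, Subgroup.index_eq_one]
      intro h
      apply huM; rw [h]; trivial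
    rcases (Nat.dvd_prime Nat.prime_two).mp h1 with h | h
    · exact absurd h h2
    · exact h

end Cfsg.Agent.S0111
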