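import Cfsg.Statements.S2324
import Mathlib
import Cfsg.Agent.Helper12.SL2Half

set_option autoImplicit false
open Cfsg

namespace Cfsg.Agent.S2324

open Cfsg.Agent.Helper12
open Cfsg.Agent.S2305 (th)
open Cfsg.Agent.S2308 (belG)


/-- Over a finite field F with q elements, q odd and q ≥ 5, let u be the upper unitriangular matrix of SL₂ with off-diagonal entry 1 and let δ = (−1)^((q−1)/2). Every irreducible complex character χ of SL₂ of degree (q + 1)/2 satisfies (2χ(u) − 1)² = δq, and every irreducible complex character χ of degree (q − 1)/2 satisfies (2χ(u) + 1)² = δq; that is, χ(u) = (1 ± √(δq))/2 in the first case and χ(u) = (−1 ± √(δq))/2 in the second. Moreover two different irreducible characters of degree (q + 1)/2 take the two different values (their values at u add up to 1), and likewise for degree (q − 1)/2 (values adding up to −1). -/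
theorem result {F : Type*} [Field F] [Fintype F] (hodd : Odd (Fintype.card F)) (hq : 5 ≤ Fintype.card F)
    (u : Matrix.SpecialLinearGroup (Fin 2) F) (hu : (u : Matrix (Fin 2) (Fin 2) F) = !![1, 1; 0, 1]) :
    (∀ χ : Matrix.SpecialLinearGroup (Fin 2) F → ℂ, Cfsg.IsIrrCharacter (Matrix.SpecialLinearGroup (Fin 2) F) χ → χ 1 = (((Fintype.card F + 1) / 2 : ℕ) : ℂ) → (2 * χ u - 1) ^ 2 = (-1 : ℂ) ^ ((Fintype.card F - 1) / 2) * (Fintype.card F : ℂ)) ∧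
    (∀ χ : Matrix.SpecialLinearGroup (Fin 2) F → ℂ, Cfsg.IsIrrCharacter (Matrix.SpecialLinearGroup (Fin 2) F) χ → χ 1 = (((Fintype.card F - 1) / 2 : ℕ) : ℂ) → (2 * χ u + 1) ^ 2 = (-1 : ℂ) ^ ((Fintype.card F - 1) / 2) * (Fintype.card F : ℂ)) ∧
    (∀ χ₁ χ₂ : Matrix.SpecialLinearGroup (Fin 2) F → ℂ, Cfsg.IsIrrCharacter (Matrix.SpecialLinearGroup (Fin 2) F) χ₁ → Cfsg.IsIrrCharacter (Matrix.SpecialLinearGroup (Fin 2) F) χ₂ → χ₁ ≠ χ₂ →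
      χ₁ 1 = (((Fintype.card F + 1) / 2 : ℕ) : ℂ) → χ₂ 1 = (((Fintype.card F + 1) / 2 : ℕ) : ℂ) → χ₁ u + χ₂ u = 1) ∧
    (∀ χ₁ χ₂ : Matrix.SpecialLinearGroup (Fin 2) F → ℂ, Cfsg.IsIrrCharacter (Matrix.SpecialLinearGroup (Fin 2) F) χ₁ → Cfsg.IsIrrCharacter (Matrix.SpecialLinearGroup (Fin 2) F) χ₂ → χ₁ ≠ χ₂ →
      χ₁ 1 = (((Fintype.card F - 1) / 2 : ℕ) : ℂ) → χ₂ 1 = (((Fintype.card F - 1) / 2 : ℕ) : ℂ) → χ₁ u + χ₂ u = -1) := by
  classical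
  obtain ⟨m, hm⟩ : ∃ m : ℕ, Fintype.card F = m + 1 := ⟨Fintype.card F - 1, by omega⟩
  have hm4 : 4 ≤ m := by omega
  have hodd' := hodd
  obtain ⟨k0, hk0⟩ := hodd'
  have hu' : u = bel (1 : Fˣ) (1 : F) := by
    apply Subtype.ext
    rw [hu, bel_val, inv_one, Units.val_one]
  subst hu'
  have hdegp : 2 * ((Fintype.card F + 1) / 2) = m + 2 := by omega
  have hdegm : 2 * ((Fintype.card F - 1) / 2) = m := by omega
  refine ⟨?_, ?_, ?_, ?_⟩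
  · intro χ hχ h1
    obtain ⟨χ', hχ'⟩ : ∃ χ' : Cfsg.IrrCharacter (Matrix.SpecialLinearGroup (Fin 2) F), (χ' : (Matrix.SpecialLinearGroup (Fin 2) F) → ℂ) = χ := ⟨⟨χ, hχ⟩, rfl⟩
    subst hχ'
    obtain ⟨χ₂, d, hP, hcase⟩ := half_pair_of_deg m hm hm4 χ' _ h1 (Or.inl hdegp)
    rcases hcase with ⟨-, hs⟩ | ⟨h2, -⟩
    · have hsq := hp_sq hodd hP
      have e : 2 * (χ' : (Matrix.SpecialLinearGroup (Fin 2) F) → ℂ) (bel 1 1) - 1 =
          (χ' : (Matrix.SpecialLinearGroup (Fin 2) F) → ℂ) (bel 1 1) - (χ₂ : (Matrix.SpecialLinearGroup (Fin 2) F) → ℂ) (bel 1 1) := by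
        linear_combination hs
      rw [e]
      exact hsq
    · omega
  · intro χ hχ h1
    obtain ⟨χ', hχ'⟩ : ∃ χ' : Cfsg.IrrCharacter (Matrix.SpecialLinearGroup (Fin 2) F), (χ' : (Matrix.SpecialLinearGroup (Fin 2) F) → ℂ) = χ := ⟨⟨χ, hχ⟩, rfl⟩
    subst hχ'
    obtain ⟨χ₂, d, hP, hcase⟩ := half_pair_of_deg m hm hm4 χ' _ h1 (Or.inr hdegm)
    rcases hcase with ⟨h2, -⟩ | ⟨-, hs⟩
    · omega
    · have hsq := hp_sq hodd hP
      have e : 2 * (χ' : (Matrix.SpecialLinearGroup (Fin 2) F) → ℂ) (bel 1 1) + 1 =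
          (χ' : (Matrix.SpecialLinearGroup (Fin 2) F) → ℂ) (bel 1 1) - (χ₂ : (Matrix.SpecialLinearGroup (Fin 2) F) → ℂ) (bel 1 1) := by
        linear_combination hs
      rw [e]
      exact hsq
  · intro χ₁ χ₂ hχ₁ hχ₂ hne h1 h2
    obtain ⟨A₁, hA₁⟩ : ∃ A : Cfsg.IrrCharacter (Matrix.SpecialLinearGroup (Fin 2) F), (A : (Matrix.SpecialLinearGroup (Fin 2) F) → ℂ) = χ₁ := ⟨⟨χ₁, hχ₁⟩, rfl⟩
    obtain ⟨A₂, hA₂⟩ : ∃ A : Cfsg.IrrCharacter (Matrix.SpecialLinearGroup (Fin 2) F), (A : (Matrix.SpecialLinearGroup (Fin 2) F) → ℂ) = χ₂ := ⟨⟨χ₂, hχ₂⟩, rfl⟩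
    subst hA₁
    subst hA₂
    obtain ⟨φ, φ₂, d₀, η, hP₀, hη1, hη2, hdec, -, -⟩ := exists_ps_pair (F := F) hodd
    have hmem1 := ps_half_mem m hm hm4 φ φ₂ η hη1 hη2 hdec A₁ _ h1 hdegp
    have hmem2 := ps_half_mem m hm hm4 φ φ₂ η hη1 hη2 hdec A₂ _ h2 hdegp
    have hval : (φ : (Matrix.SpecialLinearGroup (Fin 2) F) → ℂ) (bel 1 1) + (φ₂ : (Matrix.SpecialLinearGroup (Fin 2) F) → ℂ) (bel 1 1) = 1 := by
      rw [← hdec, RS_unip]
    rcases hmem1 with e1 | e1 <;> rcases hmem2 with e2 | e2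
    · exact absurd (by rw [e1, e2]) hne
    · rw [e1, e2]
      exact hval
    · rw [e1, e2, add_comm]
      exact hval
    · exact absurd (by rw [e1, e2]) hne
  · intro χ₁ χ₂ hχ₁ hχ₂ hne h1 h2
    obtain ⟨A₁, hA₁⟩ : ∃ A : Cfsg.IrrCharacter (Matrix.SpecialLinearGroup (Fin 2) F), (A : (Matrix.SpecialLinearGroup (Fin 2) F) → ℂ) = χ₁ := ⟨⟨χ₁, hχ₁⟩, rfl⟩
    obtain ⟨A₂, hA₂⟩ : ∃ A : Cfsg.IrrCharacter (Matrix.SpecialLinearGroup (Fin 2) F), (A : (Matrix.SpecialLinearGroup (Fin 2) F) → ℂ) = χ₂ := ⟨⟨χ₂, hχ₂⟩, rfl⟩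
    subst hA₁
    subst hA₂
    obtain ⟨B₁, d₁, hP₁, hc₁⟩ := half_pair_of_deg m hm hm4 A₁ _ h1 (Or.inr hdegm)
    obtain ⟨B₂, d₂, hP₂, hc₂⟩ := half_pair_of_deg m hm hm4 A₂ _ h2 (Or.inr hdegm)
    rcases hc₁ with ⟨h3, -⟩ | ⟨-, hs⟩
    · omega
    · rcases cusp_pair_mem hodd m hm hP₁ hP₂ _ _ h1 h2 hdegm hdegm with e | e
      · exact absurd (by rw [e]) hne
      · rw [e]
        exact hs

end Cfsg.Agent.S2324
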