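import Mathlib
import Cfsg.Statements.S0670

set_option autoImplicit false
open Cfsg

namespace Cfsg.Agent.S0670

theorem sylow_transitive {G : Type*} [Group G] [Finite G] {p f : ℕ} [hp : Fact p.Prime]
    {Ω : Type*} [Fintype Ω] [MulAction G Ω] [MulAction.IsPretransitive G Ω]
    (hcard : Fintype.card Ω = p ^ f) (P : Sylow p G) (x y : Ω) :
    ∃ g : G, g ∈ (P : Subgroup G) ∧ g • x = y := by
  have hPcard : Nat.card (P : Subgroup G) = p ^ (Nat.card G).factorization p :=
    P.card_eq_multiplicity
  have hQ : IsPGroup p (P : Subgroup G) := P.isPGroup'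
  generalize (P : Subgroup G) = Q at hPcard hQ ⊢
  have hS : (MulAction.stabilizer G x).index = p ^ f := by
    rw [MulAction.index_stabilizer_of_transitive, Nat.card_eq_fintype_card, hcard]
  have hG : Nat.card G = p ^ f * Nat.card (MulAction.stabilizer G x) := by
    rw [← hS]; exact (Subgroup.index_mul_card _).symm
  have hSpos : Nat.card (MulAction.stabilizer G x) ≠ 0 := Nat.card_pos.ne'
  have hfac : (Nat.card G).factorization p
      = f + (Nat.card (MulAction.stabilizer G x)).factorization p := by
    rw [hG, Nat.factorization_mul (pow_ne_zero f hp.out.ne_zero) hSpos, Finsupp.add_apply,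
      Nat.factorization_pow_self hp.out]
  obtain ⟨c, hc⟩ := IsPGroup.iff_card.mp (hQ.to_subgroup (MulAction.stabilizer Q x))
  let φ : MulAction.stabilizer Q x →* MulAction.stabilizer G x :=
    { toFun := fun h => ⟨(h.1 : G), h.2⟩
      map_one' := rfl
      map_mul' := fun _ _ => rfl }
  have hφ : Function.Injective φ := fun a b hab =>
    Subtype.ext (Subtype.ext (congrArg (fun z : MulAction.stabilizer G x => (z : G)) hab))
  have hdvd : Nat.card (MulAction.stabilizer Q x) ∣ Nat.card (MulAction.stabilizer G x) :=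
    Subgroup.card_dvd_of_injective φ hφ
  rw [hc] at hdvd
  have hcle : c ≤ (Nat.card (MulAction.stabilizer G x)).factorization p :=
    (hp.out.pow_dvd_iff_le_factorization hSpos).mp hdvd
  generalize (Nat.card (MulAction.stabilizer G x)).factorization p = vS at hfac hcle
  have hidx := Subgroup.index_mul_card (MulAction.stabilizer Q x)
  rw [hc, hPcard, hfac, MulAction.index_stabilizer] at hidx
  have horb : MulAction.orbit Q x = Set.univ := by
    apply Set.eq_of_subset_of_ncard_le (Set.subset_univ _) _ Set.finite_univ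
    rw [Set.ncard_univ, Nat.card_eq_fintype_card, hcard]
    have h1 : p ^ (f + vS) = p ^ (f + vS - c) * p ^ c := by
      rw [← pow_add]; congr 1; omega
    rw [h1] at hidx
    have h2 := Nat.eq_of_mul_eq_mul_right (pow_pos hp.out.pos c) hidx
    rw [h2]
    exact Nat.pow_le_pow_right hp.out.pos (by omega)
  have hy : y ∈ MulAction.orbit Q x := horb ▸ Set.mem_univ y
  obtain ⟨g, hg⟩ := hy
  exact ⟨g.1, g.2, hg⟩

/-- In characteristic `p`, the permutation module of a transitive action of degree `p ^ f` has the line of constant functions as its only irreducible submodule: every non-zero subrepresentation contains it. -/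
theorem result {G : Type*} [Group G] [Finite G] {K : Type*} [Field K] {p f : ℕ} [Fact p.Prime] [CharP K p] {Ω : Type*} [Fintype Ω] [MulAction G Ω] [MulAction.IsPretransitive G Ω] (hf : 1 ≤ f) (hcard : Fintype.card Ω = p ^ f) (W : Subrepresentation (Cfsg.permRep K G Ω)) (hW : W.toSubmodule ≠ ⊥) : (Cfsg.permConstants K G Ω).toSubmodule ≤ W.toSubmodule := by
  classical
  have P : Sylow p G := default
  have htrans := sylow_transitive hcard P
  have hQ : IsPGroup p (P : Subgroup G) := P.isPGroup'
  generalize (P : Subgroup G) = Q at htrans hQ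
  obtain ⟨w₀, hw₀W, hw₀⟩ := (Submodule.ne_bot_iff _).mp hW
  letI := ZMod.algebra K p
  let B : Submodule (ZMod p) K := Submodule.span (ZMod p) (Set.range w₀)
  haveI : Module.Finite (ZMod p) B := Module.Finite.span_of_finite _ (Set.finite_range w₀)
  haveI : Finite B := Module.finite_of_finite (ZMod p)
  let A : AddSubgroup (Ω → K) :=
    { carrier := {v | v ∈ W.toSubmodule ∧ ∀ x, v x ∈ B}
      add_mem' := fun {a b} ha hb =>
        ⟨W.toSubmodule.add_mem ha.1 hb.1, fun x => B.add_mem (ha.2 x) (hb.2 x)⟩
      zero_mem' := ⟨W.toSubmodule.zero_mem, fun x => B.zero_mem⟩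
      neg_mem' := fun {a} ha => ⟨W.toSubmodule.neg_mem ha.1, fun x => B.neg_mem (ha.2 x)⟩ }
  haveI : Finite A := Finite.of_injective (fun v : A => fun x => (⟨v.1 x, v.2.2 x⟩ : B)) (by
    intro v v' h
    apply Subtype.ext
    funext x
    exact congrArg Subtype.val (congrFun h x))
  letI : MulAction Q A :=
    { smul := fun g v =>
        ⟨permRep K G Ω (g : G) v.1, W.apply_mem_toSubmodule (g : G) v.2.1, fun x => v.2.2 _⟩
      one_smul := fun v => Subtype.ext (by
        show permRep K G Ω ((1 : Q) : G) v.1 = v.1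
        rw [Subgroup.coe_one, map_one]; rfl)
      mul_smul := fun g h v => Subtype.ext (by
        show permRep K G Ω ((g * h : Q) : G) v.1
          = permRep K G Ω (g : G) (permRep K G Ω (h : G) v.1)
        rw [Subgroup.coe_mul, map_mul]; rfl) }
  have hsmul : ∀ (g : Q) (v : A), ((g • v : A) : Ω → K) = permRep K G Ω (g : G) v.1 :=
    fun _ _ => rfl
  let w₀' : A := ⟨w₀, hw₀W, fun x => Submodule.subset_span ⟨x, rfl⟩⟩
  have hpdvd : p ∣ Nat.card A := by
    have h1 : addOrderOf w₀' = p := by
      apply addOrderOf_eq_prime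
      · apply Subtype.ext
        funext x
        show (p • w₀) x = 0
        rw [Pi.smul_apply, nsmul_eq_mul, CharP.cast_eq_zero K p, zero_mul]
      · intro h
        exact hw₀ (congrArg Subtype.val h)
    rw [← h1]; exact addOrderOf_dvd_natCard w₀'
  have h0fix : (0 : A) ∈ MulAction.fixedPoints Q A := by
    intro g
    apply Subtype.ext
    rw [hsmul]
    exact map_zero _
  obtain ⟨v, hvfix, hv0⟩ := hQ.exists_fixed_point_of_prime_dvd_card_of_fixed_point A hpdvd h0fix
  have hconst : ∀ x y, v.1 x = v.1 y := by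
    intro x y
    obtain ⟨g, hgQ, hg⟩ := htrans x y
    have h1 := congrArg Subtype.val (hvfix ⟨g, hgQ⟩)
    rw [hsmul] at h1
    have h2 := congrFun h1 y
    have h3 : permRep K G Ω g v.1 y = v.1 (g⁻¹ • y) := rfl
    rw [h3, ← hg, inv_smul_smul] at h2
    rw [← hg]
    exact h2
  have hne : Nonempty Ω := by
    rw [← Fintype.card_pos_iff, hcard]; exact pow_pos (Fact.out : p.Prime).pos f
  obtain ⟨ω⟩ := hne
  have hc : v.1 ω ≠ 0 := by
    intro h
    apply hv0
    apply Subtype.ext
    funext x
    rw [hconst x ω, h]; rfl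
  have hone : (fun _ => (1:K)) = (v.1 ω)⁻¹ • v.1 := by
    funext x
    rw [Pi.smul_apply, smul_eq_mul, hconst x ω, inv_mul_cancel₀ hc]
  show Submodule.span K {fun _ => 1} ≤ W.toSubmodule
  rw [Submodule.span_singleton_le_iff_mem, hone]
  exact W.toSubmodule.smul_mem _ v.2.1

end Cfsg.Agent.S0670
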