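import Cfsg.Statements.S0671
import Mathlib
import Cfsg.Agent.S0670

set_option autoImplicit false
open Cfsg

namespace Cfsg.Agent.S0671


/-- If the heart of the permutation module in characteristic `p` of a transitive action of degree `p ^ f` has no trivial composition factor, the action is doubly transitive. The hypothesis is phrased without composition series: no invariant subspaces `W < W'` between the constants and the sum-zero functions with trivial action on the quotient. -/
theorem result {G : Type*} [Group G] [Finite G] {K : Type*} [Field K] {p f : ℕ} [Fact p.Prime] [CharP K p] {Ω : Type*} [Fintype Ω] [MulAction G Ω] [MulAction.IsPretransitive G Ω] (hf : 1 ≤ f) (hcard : Fintype.card Ω = p ^ f) (h : ∀ W W' : Subrepresentation (Cfsg.permRep K G Ω), (Cfsg.permConstants K G Ω).toSubmodule ≤ W.toSubmodule → W.toSubmodule < W'.toSubmodule → W'.toSubmodule ≤ (Cfsg.permSumZero K G Ω).toSubmodule → ∃ g : G, ∃ v ∈ W'.toSubmodule, Cfsg.permRep K G Ω g v - v ∉ W.toSubmodule) : MulAction.IsMultiplyPretransitive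 G Ω 2 := by
  classical
  rw [MulAction.is_two_pretransitive_iff]
  intro a b c d hab hcd
  by_contra hno
  obtain ⟨g₀, hg₀⟩ := MulAction.exists_smul_eq G a c
  obtain ⟨O, hOdef⟩ : ∃ O : Ω → Ω → Prop, O = fun x y => ∃ g : G, g • a = x ∧ g • b = y :=
    ⟨_, rfl⟩
  have hOinv : ∀ (g : G) (x y : Ω), O (g • x) (g • y) ↔ O x y := by
    intro g x y
    rw [hOdef]
    constructor
    · rintro ⟨k, hk1, hk2⟩
      refine ⟨g⁻¹ * k, ?_, ?_⟩
      · rw [mul_smul, hk1, inv_smul_smul]
      · rw [mul_smul, hk2, inv_smul_smul]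
    · rintro ⟨k, rfl, rfl⟩
      exact ⟨g * k, mul_smul _ _ _, mul_smul _ _ _⟩
  have hO1 : O c (g₀ • b) := by rw [hOdef]; exact ⟨g₀, hg₀, rfl⟩
  have hO2 : ¬ O c d := by rw [hOdef]; exact hno
  have hne1 : c ≠ g₀ • b := by
    rw [← hg₀]
    intro h
    exact hab (smul_left_cancel g₀ h)
  obtain ⟨A, hAapp⟩ : ∃ A : (Ω → K) →ₗ[K] (Ω → K),
      ∀ f x, A f x = ∑ y, if O x y then f y else 0 := by
    refine ⟨{ toFun := fun f x => ∑ y, if O x y then f y else 0
              map_add' := ?_
              map_smul' := ?_ }, fun f x => rfl⟩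
    · intro f₁ f₂
      funext x
      simp only [Pi.add_apply]
      rw [← Finset.sum_add_distrib]
      apply Finset.sum_congr rfl
      intro y _
      split_ifs <;> simp
    · intro k f
      funext x
      simp only [Pi.smul_apply, smul_eq_mul, RingHom.id_apply]
      rw [Finset.mul_sum]
      apply Finset.sum_congr rfl
      intro y _
      split_ifs <;> simp
  have hAcomm : ∀ (g : G) (f : Ω → K),
      A (Cfsg.permRep K G Ω g f) = Cfsg.permRep K G Ω g (A f) := by
    intro g f
    funext x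
    have h1 : Cfsg.permRep K G Ω g (A f) x = A f (g⁻¹ • x) := rfl
    rw [h1, hAapp, hAapp]
    rw [← Equiv.sum_comp (MulAction.toPerm g⁻¹) (fun y => if O (g⁻¹ • x) y then f y else 0)]
    apply Finset.sum_congr rfl
    intro y _
    show (if O x y then f (g⁻¹ • y) else 0) = if O (g⁻¹ • x) (g⁻¹ • y) then f (g⁻¹ • y) else 0
    exact if_congr (hOinv g⁻¹ x y).symm rfl rfl
  obtain ⟨one, hone⟩ : ∃ one : Ω → K, one = fun _ => 1 := ⟨_, rfl⟩
  have hfix : ∀ f : Ω → K, (∀ g : G, Cfsg.permRep K G Ω g f = f) → ∀ x, f x = f c := by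
    intro f hf x
    obtain ⟨g, hg⟩ := MulAction.exists_smul_eq G x c
    have h1 := congrFun (hf g⁻¹) x
    have h2 : Cfsg.permRep K G Ω g⁻¹ f x = f (g • x) := by
      show f ((g⁻¹)⁻¹ • x) = _
      rw [inv_inv]
    rw [← h1, h2, hg]
  have hrho1 : ∀ g : G, Cfsg.permRep K G Ω g one = one := by
    intro g; rw [hone]; rfl
  have hA1 : A one = (A one c) • one := by
    funext x
    rw [hfix (A one) (fun g => by rw [← hAcomm, hrho1]) x, hone]
    simp
  obtain ⟨B, hBapp⟩ : ∃ B : (Ω → K) →ₗ[K] (Ω → K), ∀ f, B f = A f - (A one c) • f :=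
    ⟨A - (A one c) • LinearMap.id, fun f => rfl⟩
  have hB1 : B one = 0 := by
    rw [hBapp, ← hA1, sub_self]
  have hBcomm : ∀ (g : G) (f : Ω → K),
      B (Cfsg.permRep K G Ω g f) = Cfsg.permRep K G Ω g (B f) := by
    intro g f
    rw [hBapp, hBapp, hAcomm, map_sub, map_smul]
  have hCfix : ∀ v ∈ (Cfsg.permConstants K G Ω).toSubmodule, ∀ g : G,
      Cfsg.permRep K G Ω g v = v := by
    intro v hv g
    obtain ⟨k, rfl⟩ := Submodule.mem_span_singleton.mp hv
    rw [map_smul]; rfl
  have hone_C : one ∈ (Cfsg.permConstants K G Ω).toSubmodule := by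
    rw [hone]; exact Submodule.mem_span_singleton_self _
  have hone_S : one ∈ (Cfsg.permSumZero K G Ω).toSubmodule := by
    show ∑ x, one x = 0
    rw [hone]
    rw [Finset.sum_const, Finset.card_univ, nsmul_eq_mul, mul_one, hcard, Nat.cast_pow,
      CharP.cast_eq_zero K p, zero_pow (by omega)]
  let Wr : Subrepresentation (Cfsg.permRep K G Ω) :=
    { toSubmodule := (Cfsg.permSumZero K G Ω).toSubmodule ⊓ LinearMap.ker B
      apply_mem_toSubmodule := by
        intro g v hv
        refine ⟨(Cfsg.permSumZero K G Ω).apply_mem_toSubmodule g hv.1, ?_⟩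
        show B (Cfsg.permRep K G Ω g v) = 0
        rw [hBcomm, show B v = 0 from hv.2, map_zero] }
  let Zr : Subrepresentation (Cfsg.permRep K G Ω) :=
    { toSubmodule := (Cfsg.permSumZero K G Ω).toSubmodule ⊓
        (Cfsg.permConstants K G Ω).toSubmodule.comap B
      apply_mem_toSubmodule := by
        intro g v hv
        refine ⟨(Cfsg.permSumZero K G Ω).apply_mem_toSubmodule g hv.1, ?_⟩
        show B (Cfsg.permRep K G Ω g v) ∈ (Cfsg.permConstants K G Ω).toSubmodule
        rw [hBcomm]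
        exact (Cfsg.permConstants K G Ω).apply_mem_toSubmodule g hv.2 }
  have hCW : (Cfsg.permConstants K G Ω).toSubmodule ≤ Wr.toSubmodule := by
    intro v hv
    obtain ⟨k, rfl⟩ := Submodule.mem_span_singleton.mp hv
    rw [← hone]
    refine ⟨Submodule.smul_mem _ k hone_S, ?_⟩
    show B (k • one) = 0
    rw [map_smul, hB1, smul_zero]
  have hZS : Zr.toSubmodule ≤ (Cfsg.permSumZero K G Ω).toSubmodule := inf_le_left
  have hstar : ∀ s ∈ (Cfsg.permSumZero K G Ω).toSubmodule,
      B s ∈ (Cfsg.permConstants K G Ω).toSubmodule → B s = 0 := by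
    intro s hs hBs
    by_contra hne
    have hlt : Wr.toSubmodule < Zr.toSubmodule := by
      rw [SetLike.lt_iff_le_and_exists]
      refine ⟨fun v hv => ⟨hv.1, ?_⟩, s, ⟨hs, hBs⟩, fun hsW => hne (LinearMap.mem_ker.mp hsW.2)⟩
      show B v ∈ (Cfsg.permConstants K G Ω).toSubmodule
      rw [show B v = 0 from hv.2]
      exact Submodule.zero_mem _
    obtain ⟨g, v, hv, hnot⟩ := h Wr Zr hCW hlt hZS
    apply hnot
    refine ⟨Submodule.sub_mem _ ((Cfsg.permSumZero K G Ω).apply_mem_toSubmodule g hv.1) hv.1, ?_⟩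
    show B (Cfsg.permRep K G Ω g v - v) = 0
    rw [map_sub, hBcomm, hCfix _ hv.2 g, sub_self]
  let Rr : Subrepresentation (Cfsg.permRep K G Ω) :=
    { toSubmodule := (Cfsg.permSumZero K G Ω).toSubmodule.map B
      apply_mem_toSubmodule := by
        rintro g _ ⟨s, hs, rfl⟩
        exact ⟨Cfsg.permRep K G Ω g s,
          (Cfsg.permSumZero K G Ω).apply_mem_toSubmodule g hs, hBcomm g s⟩ }
  have hR0 : Rr.toSubmodule = ⊥ := by
    by_contra hne
    have hC := S0670.result (K := K) hf hcard Rr hne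
    obtain ⟨s, hs, hs1⟩ := hC hone_C
    have h0 := hstar s hs (by rw [hs1]; exact hone_C)
    rw [hs1] at h0
    have h00 := congrFun h0 c
    rw [hone] at h00
    simp at h00
  have hBS : ∀ s ∈ (Cfsg.permSumZero K G Ω).toSubmodule, B s = 0 := by
    intro s hs
    have h1 : B s ∈ Rr.toSubmodule := ⟨s, hs, rfl⟩
    rw [hR0] at h1
    exact (Submodule.mem_bot K).mp h1
  have hdelta : (Pi.single (g₀ • b) 1 - Pi.single d 1 : Ω → K) ∈
      (Cfsg.permSumZero K G Ω).toSubmodule := by
    show ∑ x, (Pi.single (g₀ • b) 1 - Pi.single d 1 : Ω → K) x = 0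
    simp [Finset.sum_sub_distrib]
  have hAd : ∀ y : Ω, A (Pi.single y 1) c = if O c y then 1 else 0 := by
    intro y
    rw [hAapp, Finset.sum_eq_single y]
    · simp
    · intro z _ hz
      simp [Pi.single_apply, hz]
    · intro hy
      exact absurd (Finset.mem_univ y) hy
  have h5 := congrFun (hBS _ hdelta) c
  rw [hBapp] at h5
  simp only [map_sub, Pi.sub_apply, Pi.smul_apply, hAd, if_pos hO1, if_neg hO2, Pi.single_apply,
    if_neg hne1, if_neg hcd, smul_eq_mul] at h5
  simp at h5

end Cfsg.Agent.S0671
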