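import Cfsg.Statements.S0673
import Mathlib

set_option autoImplicit false
open Cfsg

namespace Cfsg.Agent.S0673

open Polynomial

/-- the cast ring hom `ZMod p →+* K` -/
noncomputable def cst (p : ℕ) [Fact p.Prime] (K : Type*) [Field K] [CharP K p] : ZMod p →+* K :=
  ZMod.castHom (dvd_refl p) K

theorem cst_apply {p : ℕ} [Fact p.Prime] {K : Type*} [Field K] [CharP K p] (j : ZMod p) :
    cst p K j = (ZMod.cast j : K) := rfl

theorem cst_inj {p : ℕ} [Fact p.Prime] {K : Type*} [Field K] [CharP K p] :
    Function.Injective (cst p K) := ZMod.castHom_injective K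

/-- evaluation of polynomials at the points of the prime field -/
noncomputable def ev (p : ℕ) [Fact p.Prime] (K : Type*) [Field K] [CharP K p] :
    K[X] →ₗ[K] (ZMod p → K) :=
  LinearMap.pi (fun j => Polynomial.leval (cst p K j))

theorem ev_apply {p : ℕ} [Fact p.Prime] {K : Type*} [Field K] [CharP K p] (P : K[X])
    (j : ZMod p) : ev p K P j = P.eval (cst p K j) := rfl

theorem ev_inj {p : ℕ} [Fact p.Prime] {K : Type*} [Field K] [CharP K p] (P : K[X])
    (hP : P.degree < (p : ℕ)) (h : ev p K P = 0) : P = 0 := by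
  apply Polynomial.eq_zero_of_degree_lt_of_eval_index_eq_zero (v := cst p K) Finset.univ
    (cst_inj.injOn)
  · rw [Finset.card_univ, ZMod.card]; exact hP
  · intro i _; exact congrFun h i

/-- translation operator `f ↦ (j ↦ f (j - 1))` -/
noncomputable def tr (p : ℕ) [Fact p.Prime] (K : Type*) [Field K] [CharP K p] :
    (ZMod p → K) →ₗ[K] (ZMod p → K) :=
  LinearMap.funLeft K K (fun j : ZMod p => j - 1)

theorem tr_apply {p : ℕ} [Fact p.Prime] {K : Type*} [Field K] [CharP K p] (f : ZMod p → K)
    (j : ZMod p) : tr p K f j = f (j - 1) := rfl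

theorem drop {K : Type*} [Field K] (P : K[X]) (hP : P ≠ 0) :
    (P.comp (X - C 1) - P).degree < P.degree := by
  have hnd : (X - C (1:K)).natDegree ≠ 0 := by rw [natDegree_X_sub_C]; exact one_ne_zero
  have hlc : (P.comp (X - C 1)).leadingCoeff = P.leadingCoeff := by
    rw [leadingCoeff_comp hnd, leadingCoeff_X_sub_C, one_pow, mul_one]
  have hne : P.comp (X - C 1) ≠ 0 := by
    intro h
    rw [h, leadingCoeff_zero] at hlc
    exact hP (leadingCoeff_eq_zero.mp hlc.symm)
  have hdeg : (P.comp (X - C 1)).degree = P.degree := by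
    rw [degree_eq_natDegree hne, degree_eq_natDegree hP, natDegree_comp, natDegree_X_sub_C,
      mul_one]
  have := degree_sub_lt_left hdeg hne hlc
  rwa [hdeg] at this

theorem tr_ev {p : ℕ} [Fact p.Prime] {K : Type*} [Field K] [CharP K p] (P : K[X]) :
    tr p K (ev p K P) - ev p K P = ev p K (P.comp (X - C 1) - P) := by
  funext j
  show (ev p K P) (j - 1) - ev p K P j = _
  rw [ev_apply, ev_apply, ev_apply, eval_sub, eval_comp, eval_sub, eval_X, eval_C, map_sub,
    map_one]

theorem nil_apply {p : ℕ} [Fact p.Prime] {K : Type*} [Field K] [CharP K p] (f : ZMod p → K) :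
    (tr p K - 1) f = tr p K f - f := rfl

theorem pow_ev {p : ℕ} [Fact p.Prime] {K : Type*} [Field K] [CharP K p] (r : ℕ) :
    ∀ P : K[X], P.degree < (r : ℕ) → ((tr p K - 1) ^ r) (ev p K P) = 0 := by
  induction r with
  | zero =>
    intro P hP
    have : P = 0 := by
      by_contra h
      have := (natDegree_lt_iff_degree_lt h).mpr hP
      omega
    rw [this, map_zero, map_zero]
  | succ r ih =>
    intro P hP
    rw [pow_succ, Module.End.mul_apply, nil_apply, tr_ev]
    by_cases h0 : P = 0
    · rw [h0]; simp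
    · apply ih
      have h1 := drop P h0
      have h2 : P.natDegree < r + 1 := (natDegree_lt_iff_degree_lt h0).mpr hP
      refine lt_of_lt_of_le h1 ?_
      rw [degree_eq_natDegree h0]
      exact_mod_cast Nat.lt_succ_iff.mp h2

theorem ker_one {p : ℕ} [Fact p.Prime] {K : Type*} [Field K] [CharP K p] (f : ZMod p → K)
    (hf : (tr p K - 1) f = 0) : ∀ j, f j = f 0 := by
  haveI : NeZero p := ⟨(Fact.out : p.Prime).ne_zero⟩
  have h1 : ∀ j, f (j - 1) = f j := by
    intro j
    have := congrFun hf j
    exact sub_eq_zero.mp this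
  have h2 : ∀ k : ℕ, f (k : ZMod p) = f 0 := by
    intro k
    induction k with
    | zero => simp
    | succ k ih =>
      have := h1 ((k + 1 : ℕ) : ZMod p)
      rw [← this, ← ih]
      congr 1
      push_cast; ring
  intro j
  have := h2 j.val
  rwa [ZMod.natCast_zmod_val] at this

theorem ker_pow_succ_le {K V : Type*} [Field K] [AddCommGroup V] [Module K V]
    [FiniteDimensional K V] (f : V →ₗ[K] V) (r : ℕ) :
    Module.finrank K (LinearMap.ker (f ^ (r + 1)))
      ≤ Module.finrank K (LinearMap.ker (f ^ r)) + Module.finrank K (LinearMap.ker f) := by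
  have hps : ∀ v : V, (f ^ (r + 1)) v = (f ^ r) (f v) := fun v => by rw [pow_succ]; rfl
  let g : LinearMap.ker (f ^ (r + 1)) →ₗ[K] LinearMap.ker (f ^ r) :=
    LinearMap.codRestrict _ (f.comp (LinearMap.ker (f ^ (r + 1))).subtype) (by
      intro x
      rw [LinearMap.mem_ker]
      have h2 : (f ^ (r + 1)) x.1 = 0 := LinearMap.mem_ker.mp x.2
      rw [hps] at h2
      exact h2)
  have h1 := LinearMap.finrank_range_add_finrank_ker g
  have h2 : Module.finrank K (LinearMap.range g) ≤ Module.finrank K (LinearMap.ker (f ^ r)) :=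
    Submodule.finrank_le _
  have h3 : Module.finrank K (LinearMap.ker g) ≤ Module.finrank K (LinearMap.ker f) := by
    apply LinearMap.finrank_le_finrank_of_injective
      (f := LinearMap.codRestrict (LinearMap.ker f)
        ((LinearMap.ker (f ^ (r + 1))).subtype.comp (LinearMap.ker g).subtype) (by
        intro x
        rw [LinearMap.mem_ker]
        have := x.2
        rw [LinearMap.mem_ker] at this
        exact congrArg Subtype.val this))
    intro x y hxy
    have h := congrArg Subtype.val hxy
    exact Subtype.ext (Subtype.ext h)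
  omega

theorem finrank_ker_pow {p : ℕ} [Fact p.Prime] {K : Type*} [Field K] [CharP K p] (r : ℕ) :
    Module.finrank K (LinearMap.ker ((tr p K - 1) ^ r)) ≤ r := by
  have h1 : Module.finrank K (LinearMap.ker (tr p K - 1)) ≤ 1 := by
    have hle : LinearMap.ker (tr p K - 1) ≤ Submodule.span K {(fun _ => 1 : ZMod p → K)} := by
      intro f hf
      rw [LinearMap.mem_ker] at hf
      rw [Submodule.mem_span_singleton]
      refine ⟨f 0, ?_⟩
      funext j
      rw [ker_one f hf j]
      simp
    refine le_trans (Submodule.finrank_mono hle) ?_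
    refine le_trans (finrank_span_le_card _) ?_
    simp
  induction r with
  | zero =>
    rw [pow_zero]
    have : LinearMap.ker (1 : Module.End K (ZMod p → K)) = ⊥ := by
      ext x; simp
    rw [this, finrank_bot]
  | succ r ih =>
    have := ker_pow_succ_le (tr p K - 1) r
    omega

/-- the space of polynomial functions of degree `< r` -/
noncomputable def polyFun (p : ℕ) [Fact p.Prime] (K : Type*) [Field K] [CharP K p] (r : ℕ) :
    Submodule K (ZMod p → K) :=
  LinearMap.range ((ev p K).comp (degreeLT K r).subtype)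

theorem mem_polyFun {p : ℕ} [Fact p.Prime] {K : Type*} [Field K] [CharP K p] (r : ℕ)
    (f : ZMod p → K) : f ∈ polyFun p K r ↔ ∃ P : K[X], P.degree < (r : ℕ) ∧ ev p K P = f := by
  constructor
  · rintro ⟨⟨P, hP⟩, rfl⟩
    exact ⟨P, mem_degreeLT.mp hP, rfl⟩
  · rintro ⟨P, hP, rfl⟩
    exact ⟨⟨P, mem_degreeLT.mpr hP⟩, rfl⟩

theorem finrank_polyFun {p : ℕ} [Fact p.Prime] {K : Type*} [Field K] [CharP K p] (r : ℕ)
    (hr : r ≤ p) : Module.finrank K (polyFun p K r) = r := by
  have hinj : Function.Injective ((ev p K).comp (degreeLT K r).subtype) := by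
    rw [← LinearMap.ker_eq_bot, LinearMap.ker_eq_bot']
    intro x hx
    apply Subtype.ext
    apply ev_inj x.1 _ hx
    refine lt_of_lt_of_le (mem_degreeLT.mp x.2) ?_
    exact_mod_cast hr
  rw [polyFun, LinearMap.finrank_range_of_inj hinj, (degreeLTEquiv K r).finrank_eq,
    Module.finrank_fin_fun]

theorem polyFun_le_ker {p : ℕ} [Fact p.Prime] {K : Type*} [Field K] [CharP K p] (r : ℕ) :
    polyFun p K r ≤ LinearMap.ker ((tr p K - 1) ^ r) := by
  intro f hf
  obtain ⟨P, hP, rfl⟩ := (mem_polyFun r f).mp hf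
  exact pow_ev r P hP

theorem polyFun_eq_ker {p : ℕ} [Fact p.Prime] {K : Type*} [Field K] [CharP K p] (r : ℕ)
    (hr : r ≤ p) : polyFun p K r = LinearMap.ker ((tr p K - 1) ^ r) := by
  apply Submodule.eq_of_le_of_finrank_le (polyFun_le_ker r)
  rw [finrank_polyFun r hr]
  exact finrank_ker_pow r

theorem polyFun_top {p : ℕ} [Fact p.Prime] {K : Type*} [Field K] [CharP K p] :
    polyFun p K p = ⊤ := by
  apply Submodule.eq_top_of_finrank_eq
  rw [finrank_polyFun p le_rfl, Module.finrank_fintype_fun_eq_card, ZMod.card]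

theorem nil_pow {p : ℕ} [Fact p.Prime] {K : Type*} [Field K] [CharP K p] :
    (tr p K - 1) ^ p = 0 := by
  apply LinearMap.ext
  intro f
  have : f ∈ polyFun p K p := by rw [polyFun_top]; trivial
  exact polyFun_le_ker p this

/-- translation invariant subspaces are the `polyFun`s -/
theorem inv_eq {p : ℕ} [Fact p.Prime] {K : Type*} [Field K] [CharP K p]
    (W : Submodule K (ZMod p → K))
    (hW : ∀ f : ZMod p → K, f ∈ W → (fun j : ZMod p => f (j - 1)) ∈ W) :
    Module.finrank K W ≤ p ∧ W = polyFun p K (Module.finrank K W) := by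
  have hrp : Module.finrank K W ≤ p := by
    have := Submodule.finrank_le W
    rwa [Module.finrank_fintype_fun_eq_card, ZMod.card] at this
  refine ⟨hrp, ?_⟩
  have hNW : ∀ x : ZMod p → K, x ∈ W → (tr p K - 1) x ∈ W :=
    fun x hx => W.sub_mem (hW x hx) hx
  have hnil : ((tr p K - 1).restrict hNW) ^ p = 0 := by
    rw [Module.End.pow_restrict p hNW]
    apply LinearMap.ext
    intro x
    apply Subtype.ext
    show ((tr p K - 1) ^ p) x.1 = 0
    rw [nil_pow]
    rfl
  have hker := Module.End.ker_pow_eq_ker_pow_finrank_of_le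
    (f := (tr p K - 1).restrict hNW) (m := p) hrp
  rw [hnil, LinearMap.ker_zero] at hker
  have hWker : W ≤ LinearMap.ker ((tr p K - 1) ^ (Module.finrank K W)) := by
    intro x hx
    have h1 : (⟨x, hx⟩ : W) ∈ LinearMap.ker
        (((tr p K - 1).restrict hNW) ^ (Module.finrank K W)) := by
      rw [← hker]; trivial
    rw [LinearMap.mem_ker, Module.End.pow_restrict (Module.finrank K W) hNW] at h1
    exact congrArg Subtype.val h1
  rw [polyFun_eq_ker _ hrp]
  apply Submodule.eq_of_le_of_finrank_le hWker
  exact finrank_ker_pow _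

/-- In characteristic `p`, the translation-invariant subspaces of the space of functions on `ZMod p` are exactly the spaces of polynomial functions of degree less than `r`, one for each `r ≤ p`, of dimension `r`. -/
theorem result {p : ℕ} [Fact p.Prime] {K : Type*} [Field K] [CharP K p] (W : Submodule K (ZMod p → K)) (hW : ∀ f ∈ W, (fun j => f (j - 1)) ∈ W) : ∃ r : ℕ, r ≤ p ∧ Module.finrank K W = r ∧ ∀ f : ZMod p → K, f ∈ W ↔ ∃ P : Polynomial K, P.degree < r ∧ ∀ j : ZMod p, f j = P.eval (ZMod.cast j : K) := by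
  obtain ⟨hrp, hWeq⟩ := inv_eq W (fun f hf => hW f hf)
  refine ⟨Module.finrank K W, hrp, rfl, ?_⟩
  intro f
  constructor
  · intro hf
    rw [hWeq, mem_polyFun] at hf
    obtain ⟨P, hP, rfl⟩ := hf
    exact ⟨P, hP, fun j => rfl⟩
  · rintro ⟨P, hP, hf⟩
    rw [hWeq, mem_polyFun]
    exact ⟨P, hP, funext fun j => (hf j).symm⟩

end Cfsg.Agent.S0673
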