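import Cfsg.Statements.S0674
import Mathlib
import Cfsg.Agent.S0673

set_option autoImplicit false
open Cfsg

namespace Cfsg.Agent.S0674

open Polynomial

/-- a self-map of `ZMod p` preserving the polynomial functions of degree `< s`
(`2 ≤ s ≤ (p+1)/2`) is affine -/
theorem affine {p : ℕ} [Fact p.Prime] {K : Type*} [Field K] [CharP K p] (s : ℕ) (hs2 : 2 ≤ s)
    (hsp : 2 * s ≤ p + 1) (π : ZMod p → ZMod p)
    (hπ : ∀ f : ZMod p → K, f ∈ S0673.polyFun p K s →
      (fun j : ZMod p => f (π j)) ∈ S0673.polyFun p K s) :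
    ∀ j, π j = (π 1 - π 0) * j + π 0 := by
  have hX : S0673.ev p K X ∈ S0673.polyFun p K s := by
    rw [S0673.mem_polyFun]
    exact ⟨X, by rw [degree_X]; exact_mod_cast hs2, rfl⟩
  obtain ⟨Q, hQdeg, hQ⟩ := (S0673.mem_polyFun s _).mp (hπ _ hX)
  have hQj : ∀ j, Q.eval (S0673.cst p K j) = S0673.cst p K (π j) := by
    intro j
    have h1 := congrFun hQ j
    rw [S0673.ev_apply] at h1
    rw [h1]
    show S0673.ev p K X (π j) = _
    rw [S0673.ev_apply, eval_X]
  have hd : Q.natDegree ≤ 1 := by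
    by_contra hd
    push_neg at hd
    have hQ0 : Q ≠ 0 := by
      rintro rfl
      simp at hd
    have hds : Q.natDegree < s := (natDegree_lt_iff_degree_lt hQ0).mpr hQdeg
    obtain ⟨d, hd_def⟩ : ∃ d, d = Q.natDegree := ⟨_, rfl⟩
    rw [← hd_def] at hd hds
    obtain ⟨i, hi⟩ : ∃ i, i = (s + d - 1) / d := ⟨_, rfl⟩
    have h1 : d * i ≤ s + d - 1 := by
      rw [hi, Nat.mul_comm]; exact Nat.div_mul_le_self _ _
    have h2 : s + d - 1 < d * i + d := by
      have := Nat.lt_mul_div_succ (s + d - 1) (show 0 < d by omega)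
      rw [← hi, mul_add, mul_one] at this
      exact this
    have hid : s ≤ d * i := by omega
    have his : i < s := by
      by_contra hge
      push_neg at hge
      have h3 : d * s ≤ d * i := Nat.mul_le_mul_left d hge
      have h4 : 2 * s ≤ d * s := Nat.mul_le_mul_right s hd
      have h5 : d * 2 ≤ d * s := Nat.mul_le_mul_left d hs2
      omega
    have hXi : S0673.ev p K (X ^ i) ∈ S0673.polyFun p K s := by
      rw [S0673.mem_polyFun]
      exact ⟨X ^ i, by rw [degree_X_pow]; exact_mod_cast his, rfl⟩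
    obtain ⟨R, hRdeg, hR⟩ := (S0673.mem_polyFun s _).mp (hπ _ hXi)
    have hev : S0673.ev p K (Q ^ i - R) = 0 := by
      funext j
      have h3 := congrFun hR j
      rw [S0673.ev_apply] at h3
      show S0673.ev p K (Q ^ i - R) j = 0
      rw [S0673.ev_apply, eval_sub, eval_pow, hQj j, h3]
      show _ - S0673.ev p K (X ^ i) (π j) = 0
      rw [S0673.ev_apply, eval_pow, eval_X, sub_self]
    have hnd : (Q ^ i).natDegree = d * i := by
      rw [natDegree_pow, ← hd_def, Nat.mul_comm]
    have hdeg : (Q ^ i - R).degree < (p : ℕ) := by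
      refine lt_of_le_of_lt (degree_sub_le _ _) (max_lt ?_ ?_)
      · refine lt_of_le_of_lt degree_le_natDegree ?_
        rw [hnd]
        exact_mod_cast (show d * i < p by omega)
      · refine lt_of_lt_of_le hRdeg ?_
        exact_mod_cast (show s ≤ p by omega)
    have hQR : Q ^ i = R := sub_eq_zero.mp (S0673.ev_inj _ hdeg hev)
    rw [← hQR, degree_eq_natDegree (pow_ne_zero i hQ0), hnd] at hRdeg
    have : d * i < s := by exact_mod_cast hRdeg
    omega
  obtain ⟨a, b, hab⟩ := exists_eq_X_add_C_of_natDegree_le_one hd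
  have hval : ∀ j, S0673.cst p K (π j) = a * S0673.cst p K j + b := by
    intro j
    rw [← hQj j, hab]
    simp
  have hb : b = S0673.cst p K (π 0) := by
    have := hval 0
    rw [map_zero, mul_zero, zero_add] at this
    exact this.symm
  have ha : a = S0673.cst p K (π 1) - S0673.cst p K (π 0) := by
    have := hval 1
    rw [map_one, mul_one] at this
    rw [this, ← hb]; ring
  intro j
  apply S0673.cst_inj (p := p) (K := K)
  rw [hval j, ha, hb, map_add, map_mul, map_sub]

/-- small-dimensional case -/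
theorem coreB' {p : ℕ} [Fact p.Prime] {K : Type*} [Field K] [CharP K p]
    (W₀ : Submodule K (ZMod p → K)) (H : Subgroup (Equiv.Perm (ZMod p)))
    (hτ : Equiv.subRight (1 : ZMod p) ∈ H)
    (hinv : ∀ π ∈ H, ∀ f : ZMod p → K, f ∈ W₀ → (fun j : ZMod p => f (π j)) ∈ W₀)
    (h2 : 2 ≤ Module.finrank K W₀) (hr : 2 * Module.finrank K W₀ ≤ p + 1) :
    ∀ π ∈ H, ∀ j, π j = (π 1 - π 0) * j + π 0 := by
  have hW : ∀ f : ZMod p → K, f ∈ W₀ → (fun j : ZMod p => f (j - 1)) ∈ W₀ := by
    intro f hf
    exact hinv _ hτ f hf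
  obtain ⟨hrp, hWeq⟩ := S0673.inv_eq W₀ hW
  intro π hπ
  apply affine (K := K) (Module.finrank K W₀) h2 hr π
  intro f hf
  rw [← hWeq] at hf ⊢
  exact hinv π hπ f hf

/-- general case via the orthogonal complement -/
theorem coreB {p : ℕ} [Fact p.Prime] {K : Type*} [Field K] [CharP K p]
    (W₀ : Submodule K (ZMod p → K)) (H : Subgroup (Equiv.Perm (ZMod p)))
    (hτ : Equiv.subRight (1 : ZMod p) ∈ H)
    (hinv : ∀ π ∈ H, ∀ f : ZMod p → K, f ∈ W₀ → (fun j : ZMod p => f (π j)) ∈ W₀)
    (h2 : 2 ≤ Module.finrank K W₀) (h2' : Module.finrank K W₀ + 2 ≤ p) :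
    ∀ π ∈ H, ∀ j, π j = (π 1 - π 0) * j + π 0 := by
  by_cases hr : 2 * Module.finrank K W₀ ≤ p + 1
  · exact coreB' W₀ H hτ hinv h2 hr
  · push_neg at hr
    obtain ⟨B, hB⟩ : ∃ B : LinearMap.BilinForm K (ZMod p → K),
        B = Matrix.toBilin' (1 : Matrix (ZMod p) (ZMod p) K) := ⟨_, rfl⟩
    have hBapp : ∀ n f : ZMod p → K, B n f = ∑ j, n j * f j := by
      intro n f
      rw [hB, Matrix.toBilin'_apply', Matrix.one_mulVec]
      rfl
    have hBnd : B.Nondegenerate := by
      rw [hB]
      apply LinearMap.BilinForm.nondegenerate_toBilin'_of_det_ne_zero'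
      rw [Matrix.det_one]
      exact one_ne_zero
    have hfr := LinearMap.BilinForm.finrank_orthogonal hBnd W₀
    rw [Module.finrank_fintype_fun_eq_card, ZMod.card] at hfr
    apply coreB' (B.orthogonal W₀) H hτ
    · intro π hπ f hf
      rw [LinearMap.BilinForm.mem_orthogonal_iff] at hf ⊢
      intro n hn
      have h1 := hf _ (hinv π⁻¹ (H.inv_mem hπ) n hn)
      rw [hBapp] at h1
      show B n (fun j : ZMod p => f (π j)) = 0
      rw [hBapp, ← h1]
      rw [← Equiv.sum_comp π (fun j => n (π⁻¹ j) * f j)]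
      apply Finset.sum_congr rfl
      intro j _
      show n j * f (π j) = n (π⁻¹ (π j)) * f (π j)
      rw [Equiv.Perm.inv_def, Equiv.symm_apply_apply]
    · omega
    · omega

/-- a group of affine permutations of `ZMod p` is solvable -/
theorem solvable_of_affine {p : ℕ} [Fact p.Prime] (H : Subgroup (Equiv.Perm (ZMod p)))
    (hH : ∀ π ∈ H, ∀ j, π j = (π 1 - π 0) * j + π 0) : Group.IsSolvable H := by
  let φ₀ : H →* ZMod p :=
    { toFun := fun π => π.1 1 - π.1 0
      map_one' := by
        show (1 : Equiv.Perm (ZMod p)) 1 - (1 : Equiv.Perm (ZMod p)) 0 = 1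
        simp
      map_mul' := by
        intro π σ
        show π.1 (σ.1 1) - π.1 (σ.1 0) = (π.1 1 - π.1 0) * (σ.1 1 - σ.1 0)
        rw [hH π.1 π.2 (σ.1 1), hH π.1 π.2 (σ.1 0)]; ring }
  have hker : ∀ π : H, π ∈ φ₀.toHomUnits.ker → ∀ j, π.1 j = j + π.1 0 := by
    intro π hπ j
    have h1 : φ₀ π = 1 := by
      have := congrArg Units.val (MonoidHom.mem_ker.mp hπ)
      rwa [MonoidHom.coe_toHomUnits] at this
    have h2 : π.1 1 - π.1 0 = 1 := h1
    rw [hH π.1 π.2 j, h2, one_mul]
  haveI : Group.IsSolvable φ₀.toHomUnits.ker := Group.isSolvable_of_comm (by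
    rintro ⟨π, hπ⟩ ⟨σ, hσ⟩
    apply Subtype.ext
    apply Subtype.ext
    apply Equiv.ext
    intro j
    show π.1 (σ.1 j) = σ.1 (π.1 j)
    rw [hker ⟨π, _⟩ hπ (σ.1 j), hker ⟨σ, _⟩ hσ j, hker ⟨σ, _⟩ hσ (π.1 j), hker ⟨π, _⟩ hπ j]; ring)
  exact Group.isSolvable_of_ker_le_range φ₀.toHomUnits.ker.subtype φ₀.toHomUnits
    (by rw [Subgroup.range_subtype])

/-- a transitive group of prime degree contains a full cycle -/
theorem exists_cycle_equiv {α : Type*} [Fintype α] [DecidableEq α] {p : ℕ} [Fact p.Prime]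
    (hα : Fintype.card α = p) (G : Subgroup (Equiv.Perm α)) [MulAction.IsPretransitive G α] :
    ∃ t ∈ G, ∃ e : ZMod p ≃ α, ∀ k, e (k + 1) = t (e k) := by
  have hp : p.Prime := Fact.out
  haveI : NeZero p := ⟨hp.ne_zero⟩
  haveI : Fact (1 < p) := ⟨hp.one_lt⟩
  haveI : Nonempty α := by
    rw [← Fintype.card_pos_iff, hα]; exact hp.pos
  obtain ⟨x₀⟩ := ‹Nonempty α›
  have hdvd : p ∣ Nat.card G := by
    have h1 := MulAction.index_stabilizer_of_transitive G x₀
    have h2 := Subgroup.index_dvd_card (MulAction.stabilizer G x₀)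
    rw [h1, Nat.card_eq_fintype_card, hα] at h2
    exact h2
  obtain ⟨⟨t, htG⟩, ht⟩ := exists_prime_orderOf_dvd_card' p hdvd
  have ht' : orderOf t = p := by
    rw [← ht]; exact (Subgroup.orderOf_mk t htG).symm
  have hcyc : t.IsCycle :=
    Equiv.Perm.isCycle_of_prime_order' (by rw [ht']; exact hp) (by rw [ht', hα]; have := hp.pos; omega)
  have hsupp : t.support = Finset.univ := by
    apply Finset.eq_univ_of_card
    rw [← hcyc.orderOf, ht', hα]
  have hmem : ∀ x, t x ≠ x := fun x => by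
    rw [← Equiv.Perm.mem_support, hsupp]; exact Finset.mem_univ x
  have hsurj : Function.Surjective (fun k : ZMod p => (t ^ k.val) x₀) := by
    intro y
    obtain ⟨i, hi⟩ := hcyc.exists_pow_eq (hmem x₀) (hmem y)
    refine ⟨(i : ZMod p), ?_⟩
    show (t ^ (i : ZMod p).val) x₀ = y
    rw [ZMod.val_natCast, ← ht', pow_mod_orderOf, hi]
  have hbij : Function.Bijective (fun k : ZMod p => (t ^ k.val) x₀) := by
    rw [Fintype.bijective_iff_surjective_and_card]
    exact ⟨hsurj, by rw [ZMod.card, hα]⟩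
  refine ⟨t, htG, Equiv.ofBijective _ hbij, ?_⟩
  intro k
  show (t ^ (k + 1).val) x₀ = t ((t ^ k.val) x₀)
  rw [← Equiv.Perm.mul_apply, ← pow_succ']
  congr 1
  rw [pow_eq_pow_iff_modEq, ht', ZMod.val_add, ZMod.val_one]
  exact Nat.mod_modEq _ _

/-- Let `G` be a non-solvable transitive permutation group of prime degree `p` and `K` a field of characteristic `p`. Then the heart of the permutation module is irreducible: an invariant subspace containing the constants and contained in the sum-zero functions is one or the other. -/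
theorem result {α : Type*} [Fintype α] [DecidableEq α] {p : ℕ} [Fact p.Prime] (hα : Fintype.card α = p) (G : Subgroup (Equiv.Perm α)) [MulAction.IsPretransitive G α] (hG : ¬ Group.IsSolvable G) {K : Type*} [Field K] [CharP K p] (W : Subrepresentation (Cfsg.permRep K G α)) (h₁ : (Cfsg.permConstants K G α).toSubmodule ≤ W.toSubmodule) (h₂ : W.toSubmodule ≤ (Cfsg.permSumZero K G α).toSubmodule) : W = Cfsg.permConstants K G α ∨ W = Cfsg.permSumZero K G α := by
  have hp : p.Prime := Fact.out
  obtain ⟨t, htG, e, he⟩ := exists_cycle_equiv hα G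
  haveI : Nonempty α := ⟨e 0⟩
  have hC1 : Module.finrank K (Cfsg.permConstants K G α).toSubmodule = 1 := by
    show Module.finrank K (Submodule.span K {(fun _ => 1 : α → K)}) = 1
    apply finrank_span_singleton
    intro h
    have := congrFun h (e 0)
    simp at this
  have hSlt : Module.finrank K (Cfsg.permSumZero K G α).toSubmodule < p := by
    have hne : (Cfsg.permSumZero K G α).toSubmodule ≠ ⊤ := by
      intro h
      have hmem : (Pi.single (e 0) 1 : α → K) ∈ (Cfsg.permSumZero K G α).toSubmodule := by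
        rw [h]; trivial
      have h0 : ∑ x, (Pi.single (e 0) 1 : α → K) x = 0 := hmem
      rw [Finset.sum_pi_single'] at h0
      simp at h0
    have := Submodule.finrank_lt hne
    rwa [Module.finrank_fintype_fun_eq_card, hα] at this
  have hr1 : 1 ≤ Module.finrank K W.toSubmodule := by
    rw [← hC1]; exact Submodule.finrank_mono h₁
  have hr2 : Module.finrank K W.toSubmodule < p :=
    lt_of_le_of_lt (Submodule.finrank_mono h₂) hSlt
  by_cases hcase1 : Module.finrank K W.toSubmodule = 1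
  · left
    apply Subrepresentation.toSubmodule_injective
    exact (Submodule.eq_of_le_of_finrank_le h₁ (by rw [hC1, hcase1])).symm
  by_cases hcase2 : Module.finrank K W.toSubmodule + 1 = p
  · right
    apply Subrepresentation.toSubmodule_injective
    exact Submodule.eq_of_le_of_finrank_le h₂ (by omega)
  exfalso
  apply hG
  obtain ⟨L, hL⟩ : ∃ L : (α → K) ≃ₗ[K] (ZMod p → K), L = LinearEquiv.funCongrLeft K K e :=
    ⟨_, rfl⟩
  have hLapp : ∀ (f : α → K) (j : ZMod p), L f j = f (e j) := by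
    intro f j; rw [hL]; rfl
  obtain ⟨W₀, hW₀⟩ : ∃ W₀, W₀ = W.toSubmodule.map (L : (α → K) →ₗ[K] (ZMod p → K)) :=
    ⟨_, rfl⟩
  have hfr : Module.finrank K W₀ = Module.finrank K W.toSubmodule := by
    rw [hW₀]; exact LinearEquiv.finrank_map_eq L _
  obtain ⟨H, hH⟩ : ∃ H, H = G.comap (e.permCongrHom : Equiv.Perm (ZMod p) ≃* Equiv.Perm α).toMonoidHom :=
    ⟨_, rfl⟩
  have hmemH : ∀ π, π ∈ H ↔ e.permCongr π ∈ G := by
    intro π; rw [hH]; exact Iff.rfl
  have hτ : Equiv.subRight (1 : ZMod p) ∈ H := by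
    rw [hmemH]
    have : e.permCongr (Equiv.subRight 1) = t⁻¹ := by
      apply Equiv.ext
      intro x
      rw [Equiv.permCongr_apply, Equiv.Perm.eq_inv_iff_eq, ← he, Equiv.subRight_apply,
        sub_add_cancel, Equiv.apply_symm_apply]
    rw [this]; exact G.inv_mem htG
  have hinv : ∀ π ∈ H, ∀ f : ZMod p → K, f ∈ W₀ → (fun j : ZMod p => f (π j)) ∈ W₀ := by
    intro π hπ f hf
    rw [hW₀, Submodule.mem_map] at hf ⊢
    obtain ⟨f', hf', rfl⟩ := hf
    refine ⟨Cfsg.permRep K G α (⟨e.permCongr π, (hmemH π).mp hπ⟩ : G)⁻¹ f',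
      W.apply_mem_toSubmodule _ hf', ?_⟩
    funext j
    show L (fun x => f' (((⟨e.permCongr π, (hmemH π).mp hπ⟩ : G)⁻¹)⁻¹ • x)) j = L f' (π j)
    rw [hLapp, hLapp, inv_inv]
    show f' (e.permCongr π (e j)) = _
    rw [Equiv.permCongr_apply, Equiv.symm_apply_apply]
  have haff := coreB W₀ H hτ hinv (by omega) (by omega)
  haveI := solvable_of_affine H haff
  let ψ : G →* H :=
    ((e.permCongrHom : Equiv.Perm (ZMod p) ≃* Equiv.Perm α).symm.toMonoidHom.comp
      G.subtype).codRestrict H (by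
        intro g
        rw [hmemH]
        have : e.permCongr ((e.permCongrHom : Equiv.Perm (ZMod p) ≃* Equiv.Perm α).symm g.1)
            = g.1 := (e.permCongrHom : Equiv.Perm (ZMod p) ≃* Equiv.Perm α).apply_symm_apply g.1
        show e.permCongr ((e.permCongrHom : Equiv.Perm (ZMod p) ≃* Equiv.Perm α).symm g.1) ∈ G
        rw [this]; exact g.2)
  have hψ : Function.Injective ψ := by
    intro g₁ g₂ h12
    have h3 := congrArg Subtype.val h12
    apply Subtype.ext
    exact (e.permCongrHom : Equiv.Perm (ZMod p) ≃* Equiv.Perm α).symm.injective h3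
  exact Group.isSolvable_of_isSolvable_injective hψ

end Cfsg.Agent.S0674
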