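import Cfsg.Statements.S0675
import Mathlib
import Cfsg.Agent.S0671
import Cfsg.Agent.S0674

set_option autoImplicit false
open Cfsg

namespace Cfsg.Agent.S0675

/-- if every element acts trivially on the heart modulo constants, the group is abelian -/
theorem comm_of_trivial {α : Type*} [Fintype α] [DecidableEq α] {p : ℕ} [Fact p.Prime]
    (hα : Fintype.card α = p) (G : Subgroup (Equiv.Perm α))
    (hno : ∀ g : G, ∀ v ∈ (Cfsg.permSumZero (ZMod p) G α).toSubmodule,
      Cfsg.permRep (ZMod p) G α g v - v ∈ (Cfsg.permConstants (ZMod p) G α).toSubmodule) :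
    ∀ a b : G, a * b = b * a := by
  have hp : p.Prime := Fact.out
  by_cases hp2 : p = 2
  · have hcard : Nat.card (Equiv.Perm α) = 2 := by
      rw [Nat.card_eq_fintype_card, Fintype.card_perm, hα, hp2]; rfl
    haveI : Fact (Nat.Prime 2) := ⟨Nat.prime_two⟩
    haveI : IsCyclic (Equiv.Perm α) := isCyclic_of_prime_card hcard
    intro a b
    apply Subtype.ext
    exact (IsCyclic.commGroup (α := Equiv.Perm α)).mul_comm a.1 b.1
  have h2ne : (1 : ZMod p) ≠ -1 := by
    intro h
    have h2 : ((2 : ℕ) : ZMod p) = 0 := by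
      push_cast
      have : (2 : ZMod p) = 1 + 1 := by norm_num
      rw [this]
      nth_rewrite 1 [h]
      ring
    rw [ZMod.natCast_eq_zero_iff] at h2
    exact hp2 ((Nat.prime_dvd_prime_iff_eq hp Nat.prime_two).mp h2)
  have hCfix : ∀ v ∈ (Cfsg.permConstants (ZMod p) G α).toSubmodule, ∀ g : G,
      Cfsg.permRep (ZMod p) G α g v = v := by
    intro v hv g
    obtain ⟨k, rfl⟩ := Submodule.mem_span_singleton.mp hv
    rw [map_smul]; rfl
  have key : ∀ g h : G, ∀ v ∈ (Cfsg.permSumZero (ZMod p) G α).toSubmodule,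
      Cfsg.permRep (ZMod p) G α (g * h) v
        = v + (Cfsg.permRep (ZMod p) G α g v - v) + (Cfsg.permRep (ZMod p) G α h v - v) := by
    intro g h v hv
    rw [map_mul]
    calc Cfsg.permRep (ZMod p) G α g (Cfsg.permRep (ZMod p) G α h v)
        = Cfsg.permRep (ZMod p) G α g (v + (Cfsg.permRep (ZMod p) G α h v - v)) := by
          congr 1; abel
      _ = Cfsg.permRep (ZMod p) G α g v
            + Cfsg.permRep (ZMod p) G α g (Cfsg.permRep (ZMod p) G α h v - v) := map_add _ _ _
      _ = Cfsg.permRep (ZMod p) G α g v + (Cfsg.permRep (ZMod p) G α h v - v) := by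
          rw [hCfix _ (hno h v hv) g]
      _ = _ := by abel
  have hfaith : ∀ k k' : G, (∀ v ∈ (Cfsg.permSumZero (ZMod p) G α).toSubmodule,
      Cfsg.permRep (ZMod p) G α k v = Cfsg.permRep (ZMod p) G α k' v) → k = k' := by
    intro k k' hkk
    apply Subtype.ext
    apply Equiv.ext
    intro x
    show k • x = k' • x
    have hcard2 : 1 < Fintype.card α := by rw [hα]; exact hp.one_lt
    obtain ⟨y, hxy⟩ := Fintype.exists_ne_of_one_lt_card hcard2 x
    have hv : (Pi.single x 1 - Pi.single y 1 : α → ZMod p) ∈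
        (Cfsg.permSumZero (ZMod p) G α).toSubmodule := by
      show ∑ z, (Pi.single x 1 - Pi.single y 1 : α → ZMod p) z = 0
      simp [Finset.sum_sub_distrib]
    have h0 := congrFun (hkk _ hv) (k • x)
    have h1 : Cfsg.permRep (ZMod p) G α k (Pi.single x 1 - Pi.single y 1) (k • x)
        = (Pi.single x 1 - Pi.single y 1 : α → ZMod p) (k⁻¹ • (k • x)) := rfl
    have h2 : Cfsg.permRep (ZMod p) G α k' (Pi.single x 1 - Pi.single y 1) (k • x)
        = (Pi.single x 1 - Pi.single y 1 : α → ZMod p) (k'⁻¹ • (k • x)) := rfl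
    rw [h1, h2, inv_smul_smul] at h0
    by_contra hne
    have hw : k'⁻¹ • (k • x) ≠ x := fun h => hne (inv_smul_eq_iff.mp h)
    have hxy' : x ≠ y := fun h => hxy h.symm
    simp only [Pi.sub_apply, Pi.single_apply, if_true, if_neg hxy', if_neg hw, sub_zero,
      zero_sub] at h0
    split_ifs at h0
    · exact h2ne h0
    · rw [neg_zero] at h0
      exact one_ne_zero h0
  intro a b
  apply hfaith
  intro v hv
  rw [key a b v hv, key b a v hv]
  abel

/-- Burnside's Theorem on permutation groups of prime degree: a transitive permutation group of prime degree that is not solvable is doubly transitive. -/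
theorem result {α : Type*} [Fintype α] [DecidableEq α] (hα : (Fintype.card α).Prime) (G : Subgroup (Equiv.Perm α)) [MulAction.IsPretransitive G α] : Group.IsSolvable G ∨ MulAction.IsMultiplyPretransitive G α 2 := by
  by_cases hsol : Group.IsSolvable G
  · left; exact hsol
  right
  obtain ⟨p, hp⟩ : ∃ p, p = Fintype.card α := ⟨_, rfl⟩
  haveI : Fact p.Prime := ⟨hp ▸ hα⟩
  have hcard : Fintype.card α = p ^ 1 := by rw [pow_one, hp]
  apply S0671.result (K := ZMod p) (p := p) (f := 1) le_rfl hcard
  intro W W' hCW hlt hW'S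
  have hWS : W.toSubmodule ≤ (Cfsg.permSumZero (ZMod p) G α).toSubmodule :=
    le_trans hlt.le hW'S
  have hCW' : (Cfsg.permConstants (ZMod p) G α).toSubmodule ≤ W'.toSubmodule :=
    le_trans hCW hlt.le
  have h1 := S0674.result hp.symm G hsol W hCW hWS
  have h2 := S0674.result hp.symm G hsol W' hCW' hW'S
  have hW : W = Cfsg.permConstants (ZMod p) G α := by
    rcases h1 with h | h
    · exact h
    · exfalso
      rw [h] at hlt
      exact absurd (lt_of_lt_of_le hlt hW'S) (lt_irrefl _)
  have hW' : W' = Cfsg.permSumZero (ZMod p) G α := by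
    rcases h2 with h | h
    · exfalso
      rw [h, hW] at hlt
      exact lt_irrefl _ hlt
    · exact h
  rw [hW, hW']
  by_contra hno
  apply hsol
  apply Group.isSolvable_of_comm
  apply comm_of_trivial hp.symm G
  intro g v hv
  by_contra hnot
  exact hno ⟨g, v, hv, hnot⟩

end Cfsg.Agent.S0675
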