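import Cfsg.Statements.S4508
import Cfsg.Agent.Helper21.DegPm1
import Cfsg.Agent.Helper21.DetRoots

set_option autoImplicit false
set_option maxHeartbeats 400000
open Cfsg

namespace Cfsg.Agent.S4508

open Cfsg.Agent.Helper24 Cfsg.Agent.Helper21.CAChar Cfsg.Agent.Helper21.DegPm1
  Cfsg.Agent.Helper21.DetRoots

open scoped Pointwise

section grp

variable {G : Type*} [Group G]

theorem comm_le_ker {H : Type*} [Group H] (f : G →* H) (hcomm : ∀ a b : H, a * b = b * a) :
    commutator G ≤ f.ker := by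
  rw [commutator_def, Subgroup.commutator_le]
  intro g₁ _ g₂ _
  rw [MonoidHom.mem_ker, map_commutatorElement, commutatorElement_def, hcomm (f g₁) (f g₂)]
  group

theorem mem_nz_of_conj (H : Subgroup G) [Finite H] (g : G)
    (h : ∀ a ∈ H, g * a * g⁻¹ ∈ H) : g ∈ Subgroup.normalizer (H : Set G) := by
  rw [Subgroup.mem_normalizer_iff]
  intro b
  refine ⟨h b, fun hb => ?_⟩
  have hinj : Function.Injective (fun a : H => (⟨g * a * g⁻¹, h a a.2⟩ : H)) := by
    intro a a' haa
    have h1 : g * (a : G) * g⁻¹ = g * (a' : G) * g⁻¹ := congrArg Subtype.val haa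
    apply Subtype.ext
    simpa using h1
  obtain ⟨a, ha⟩ := (Finite.injective_iff_surjective.mp hinj) ⟨g * b * g⁻¹, hb⟩
  have h1 : g * (a : G) * g⁻¹ = g * b * g⁻¹ := congrArg Subtype.val ha
  have h2 : (a : G) = b := by simpa using h1
  rw [← h2]
  exact a.2

variable (p : ℕ) [hp : Fact p.Prime]

include hp in
theorem ne_one_of_order {x : G} (hx : orderOf x = p) : x ≠ 1 := by
  rintro rfl
  rw [orderOf_one] at hx
  exact hp.out.one_lt.ne' hx.symm

/-- A non-identity element of `⟨x⟩` generates it. -/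
theorem gen_of_mem {x : G} (hx : orderOf x = p) {k : G} (hk : k ∈ Subgroup.zpowers x)
    (hk1 : k ≠ 1) : x ∈ Subgroup.zpowers k := by
  have hcard : Nat.card (Subgroup.zpowers x) = p := by rw [Nat.card_zpowers, hx]
  have h1 : (⟨k, hk⟩ : Subgroup.zpowers x) ≠ 1 := fun h => hk1 (congrArg Subtype.val h)
  have h2 := zpowers_eq_top_of_prime_card hcard h1
  have h3 : (⟨x, Subgroup.mem_zpowers x⟩ : Subgroup.zpowers x) ∈
      Subgroup.zpowers (⟨k, hk⟩ : Subgroup.zpowers x) := by rw [h2]; trivial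
  obtain ⟨i, hi⟩ := Subgroup.mem_zpowers_iff.mp h3
  rw [Subgroup.mem_zpowers_iff]
  exact ⟨i, by simpa using congrArg Subtype.val hi⟩

theorem tidata [Finite G] {x : G} (hx : orderOf x = p)
    (hC : Subgroup.centralizer ({x} : Set G) = Subgroup.zpowers x) :
    TIData (Subgroup.zpowers x) := by
  have hx1 : x ≠ 1 := ne_one_of_order p hx
  refine ⟨?_, ?_, ?_, ?_⟩
  · intro g hg k hk hgk
    by_contra hk1
    apply hg
    apply mem_nz_of_conj
    intro a ha
    have hxk := gen_of_mem p hx hk hk1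
    have hak : a ∈ Subgroup.zpowers k := (Subgroup.zpowers_le.mpr hxk) ha
    obtain ⟨i, rfl⟩ := Subgroup.mem_zpowers_iff.mp hak
    rw [← conj_zpow]
    exact Subgroup.zpow_mem _ hgk i
  · intro k hk hk1 c hc
    rw [← hC, Subgroup.mem_centralizer_iff]
    intro y hy
    rw [Set.mem_singleton_iff] at hy
    rw [hy]
    have hxk := gen_of_mem p hx hk hk1
    obtain ⟨i, hi⟩ := Subgroup.mem_zpowers_iff.mp hxk
    have h1 : Commute k c := Subgroup.mem_centralizer_iff.mp hc k (Set.mem_singleton k)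
    rw [← hi]
    exact (h1.zpow_left i).eq
  · intro a ha b hb
    obtain ⟨i, rfl⟩ := Subgroup.mem_zpowers_iff.mp ha
    obtain ⟨j, rfl⟩ := Subgroup.mem_zpowers_iff.mp hb
    exact (Commute.zpow_zpow_self x i j).eq
  · intro h
    have h1 : x ∈ (⊥ : Subgroup G) := h ▸ Subgroup.mem_zpowers x
    exact hx1 (Subgroup.mem_bot.mp h1)

theorem exists_sylow [Finite G] {x : G} (hx : orderOf x = p)
    (hC : Subgroup.centralizer ({x} : Set G) = Subgroup.zpowers x) :
    ∃ S : Sylow p G, (S : Subgroup G) = Subgroup.zpowers x := by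
  have hx1 : x ≠ 1 := ne_one_of_order p hx
  have hcard : Nat.card (Subgroup.zpowers x) = p ^ 1 := by rw [Nat.card_zpowers, hx, pow_one]
  obtain ⟨Q, hQ⟩ := (IsPGroup.of_card hcard).exists_le_sylow
  refine ⟨Q, le_antisymm ?_ hQ⟩
  have hxQ : x ∈ (Q : Subgroup G) := hQ (Subgroup.mem_zpowers x)
  haveI : Nontrivial (Q : Subgroup G) :=
    ⟨⟨⟨x, hxQ⟩, 1, fun h => hx1 (congrArg Subtype.val h)⟩⟩
  haveI := Q.isPGroup'.center_nontrivial
  obtain ⟨z, hz1⟩ := exists_ne (1 : Subgroup.center (Q : Subgroup G))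
  have hzc : ∀ q : (Q : Subgroup G),
      (q : G) * ((z : (Q : Subgroup G)) : G) = ((z : (Q : Subgroup G)) : G) * (q : G) := by
    intro q
    have h1 := Subgroup.mem_center_iff.mp z.2 q
    exact congrArg Subtype.val h1
  have hz' : ((z : (Q : Subgroup G)) : G) ∈ Subgroup.zpowers x := by
    rw [← hC, Subgroup.mem_centralizer_iff]
    intro y hy
    rw [Set.mem_singleton_iff] at hy
    rw [hy]
    exact hzc ⟨x, hxQ⟩
  have hz'1 : ((z : (Q : Subgroup G)) : G) ≠ 1 := by
    intro h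
    apply hz1
    apply Subtype.ext
    apply Subtype.ext
    exact h
  obtain ⟨i, hi⟩ := Subgroup.mem_zpowers_iff.mp (gen_of_mem p hx hz' hz'1)
  intro q hq
  rw [← hC, Subgroup.mem_centralizer_iff]
  intro y hy
  rw [Set.mem_singleton_iff] at hy
  rw [hy, ← hi]
  have h1 : Commute (q : G) ((z : (Q : Subgroup G)) : G) := hzc ⟨q, hq⟩
  exact ((h1.zpow_right i).eq).symm

theorem conj_into [Finite G] {x : G} (hx : orderOf x = p)
    (hC : Subgroup.centralizer ({x} : Set G) = Subgroup.zpowers x) (g : G)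
    (hg : orderOf g = p) : ∃ h : G, h * g * h⁻¹ ∈ Subgroup.zpowers x := by
  obtain ⟨S, hS⟩ := exists_sylow p hx hC
  have hcard : Nat.card (Subgroup.zpowers g) = p ^ 1 := by rw [Nat.card_zpowers, hg, pow_one]
  obtain ⟨Q, hQ⟩ := (IsPGroup.of_card hcard).exists_le_sylow
  obtain ⟨h, hh⟩ := MulAction.exists_smul_eq G Q S
  refine ⟨h, ?_⟩
  rw [← hS, ← hh, Sylow.coe_subgroup_smul]
  have h1 : MulAut.conj h • g ∈ MulAut.conj h • (Q : Subgroup G) :=
    Subgroup.smul_mem_pointwise_smul _ _ _ (hQ (Subgroup.mem_zpowers g))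
  simpa [MulAut.smul_def] using h1

/-- The power of `x` attached to a unit of `ZMod p`. -/
def yv (x : G) (u : (ZMod p)ˣ) : G := x ^ (u : ZMod p).val

include hp in
theorem yv_one (x : G) : yv p x 1 = x := by
  haveI : Fact (1 < p) := ⟨hp.out.one_lt⟩
  unfold yv
  rw [Units.val_one, ZMod.val_one, pow_one]

theorem yv_mul {x : G} (hx : orderOf x = p) (u v : (ZMod p)ˣ) :
    yv p x (u * v) = (yv p x u) ^ (v : ZMod p).val := by
  unfold yv
  rw [Units.val_mul, ZMod.val_mul, ← pow_mul]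
  have h := pow_mod_orderOf x ((u : ZMod p).val * (v : ZMod p).val)
  rw [hx] at h
  exact h

theorem yv_eq_iff {x : G} (hx : orderOf x = p) (u : (ZMod p)ˣ) : yv p x u = x ↔ u = 1 := by
  constructor
  · intro h
    unfold yv at h
    have h1 : x ^ (u : ZMod p).val = x ^ 1 := by rw [h, pow_one]
    rw [pow_eq_pow_iff_modEq, hx] at h1
    have h2 : (((u : ZMod p).val : ℕ) : ZMod p) = ((1 : ℕ) : ZMod p) :=
      (ZMod.natCast_eq_natCast_iff _ _ _).mpr h1
    rw [ZMod.natCast_zmod_val, Nat.cast_one] at h2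
    exact Units.ext h2
  · rintro rfl
    exact yv_one p x

theorem yv_order {x : G} (hx : orderOf x = p) (u : (ZMod p)ˣ) : orderOf (yv p x u) = p := by
  have hk : ¬ p ∣ (u : ZMod p).val := by
    intro hdvd
    have h1 := (ZMod.natCast_eq_zero_iff _ _).mpr hdvd
    rw [ZMod.natCast_zmod_val] at h1
    exact Units.ne_zero u h1
  have hcop : (orderOf x).Coprime (u : ZMod p).val := by
    rw [hx]
    exact (Nat.Prime.coprime_iff_not_dvd hp.out).mpr hk
  unfold yv
  rw [hcop.orderOf_pow, hx]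

theorem yv_of_pow {x : G} (hx : orderOf x = p) (j : ℕ) (hj : x ^ j ≠ 1) :
    ∃ u : (ZMod p)ˣ, yv p x u = x ^ j := by
  have hj0 : (j : ZMod p) ≠ 0 := by
    intro h
    rw [ZMod.natCast_eq_zero_iff] at h
    apply hj
    rw [← hx] at h
    exact orderOf_dvd_iff_pow_eq_one.mp h
  refine ⟨Units.mk0 (j : ZMod p) hj0, ?_⟩
  unfold yv
  rw [Units.val_mk0, ZMod.val_natCast]
  have h := pow_mod_orderOf x j
  rw [hx] at h
  exact h

theorem yv_conj {x : G} (hx : orderOf x = p) (g : G) (u v : (ZMod p)ˣ)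
    (h : g * x * g⁻¹ = yv p x u) : g * yv p x v * g⁻¹ = yv p x (u * v) := by
  rw [yv_mul p hx, ← h, conj_pow]
  rfl

theorem yv_inv_pow {x : G} (hx : orderOf x = p) (u : (ZMod p)ˣ) :
    x = (yv p x u) ^ ((u⁻¹ : (ZMod p)ˣ) : ZMod p).val := by
  have h2 := yv_mul p hx u u⁻¹
  rw [mul_inv_cancel, yv_one] at h2
  exact h2

/-- The units `u` with `x ^ u` conjugate to `x`. -/
def HU (x : G) (hx : orderOf x = p) : Subgroup (ZMod p)ˣ where
  carrier := {u | ∃ g : G, g * x * g⁻¹ = yv p x u}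
  one_mem' := ⟨1, by rw [yv_one]; group⟩
  mul_mem' := by
    rintro u v ⟨g₁, h₁⟩ ⟨g₂, h₂⟩
    refine ⟨g₁ * g₂, ?_⟩
    have h3 := yv_conj p hx g₁ u v h₁
    rw [← h3, ← h₂]
    group
  inv_mem' := by
    rintro u ⟨g, h⟩
    refine ⟨g⁻¹, ?_⟩
    have h1 : g⁻¹ * yv p x u * g⁻¹⁻¹ = x := by rw [← h]; group
    have h2 := yv_inv_pow p hx u
    have h3 := yv_mul p hx 1 u⁻¹
    rw [one_mul, yv_one] at h3
    calc g⁻¹ * x * g⁻¹⁻¹
        = g⁻¹ * (yv p x u) ^ ((u⁻¹ : (ZMod p)ˣ) : ZMod p).val * g⁻¹⁻¹ := by rw [← h2]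
      _ = (g⁻¹ * yv p x u * g⁻¹⁻¹) ^ ((u⁻¹ : (ZMod p)ˣ) : ZMod p).val := conj_pow.symm
      _ = x ^ ((u⁻¹ : (ZMod p)ˣ) : ZMod p).val := by rw [h1]
      _ = yv p x u⁻¹ := h3.symm

theorem card_classes [Finite G] {x : G} (hx : orderOf x = p)
    (hC : Subgroup.centralizer ({x} : Set G) = Subgroup.zpowers x) :
    Nat.card {C : ConjClasses G // ∃ g ∈ C.carrier, orderOf g = p} = (HU p x hx).index := by
  rw [Subgroup.index_eq_card]
  symm
  have hwd : ∀ u v : (ZMod p)ˣ, u⁻¹ * v ∈ HU p x hx →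
      ConjClasses.mk (yv p x u) = ConjClasses.mk (yv p x v) := by
    intro u v huv
    obtain ⟨g, hg⟩ := huv
    rw [ConjClasses.mk_eq_mk_iff_isConj, isConj_iff]
    refine ⟨g, ?_⟩
    rw [yv_conj p hx g (u⁻¹ * v) u hg]
    congr 1
    rw [mul_comm, mul_inv_cancel_left]
  let φ : (ZMod p)ˣ ⧸ (HU p x hx) → {C : ConjClasses G // ∃ g ∈ C.carrier, orderOf g = p} :=
    Quotient.lift (fun u => ⟨ConjClasses.mk (yv p x u), yv p x u, ConjClasses.mem_carrier_mk,
      yv_order p hx u⟩) (fun u v huv => Subtype.ext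
        (hwd u v (QuotientGroup.leftRel_apply.mp huv)))
  apply Nat.card_congr (Equiv.ofBijective φ ⟨?_, ?_⟩)
  · intro a b
    refine Quotient.inductionOn₂ a b ?_
    intro u v huv
    have h1 : ConjClasses.mk (yv p x u) = ConjClasses.mk (yv p x v) := congrArg Subtype.val huv
    rw [ConjClasses.mk_eq_mk_iff_isConj, isConj_iff] at h1
    obtain ⟨g, hg⟩ := h1
    apply Quotient.sound
    apply QuotientGroup.leftRel_apply.mpr
    refine ⟨g, ?_⟩
    have h2 := yv_inv_pow p hx u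
    have h3 := yv_mul p hx v u⁻¹
    calc g * x * g⁻¹
        = g * (yv p x u) ^ ((u⁻¹ : (ZMod p)ˣ) : ZMod p).val * g⁻¹ := by rw [← h2]
      _ = (g * yv p x u * g⁻¹) ^ ((u⁻¹ : (ZMod p)ˣ) : ZMod p).val := conj_pow.symm
      _ = (yv p x v) ^ ((u⁻¹ : (ZMod p)ˣ) : ZMod p).val := by rw [hg]
      _ = yv p x (v * u⁻¹) := h3.symm
      _ = yv p x (u⁻¹ * v) := by rw [mul_comm]
  · rintro ⟨C, g, hgC, hg⟩
    obtain ⟨h, hh⟩ := conj_into p hx hC g hg
    obtain ⟨j, hj⟩ := (Submonoid.mem_powers_iff _ _).mp (mem_powers_iff_mem_zpowers.mpr hh)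
    have hg1 : g ≠ 1 := ne_one_of_order p hg
    obtain ⟨u, hu⟩ := yv_of_pow p hx j (by
      rw [hj]
      intro h1
      exact hg1 (conj_eq_one_iff.mp h1))
    refine ⟨QuotientGroup.mk u, ?_⟩
    apply Subtype.ext
    show ConjClasses.mk (yv p x u) = C
    rw [← ConjClasses.mem_carrier_iff_mk_eq.mp hgC, ConjClasses.mk_eq_mk_iff_isConj, hu, hj,
      isConj_comm, isConj_iff]
    exact ⟨h, rfl⟩

end grp

theorem p_two {G : Type*} [Group G] [Finite G] (x : G) (hx : orderOf x = 2)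
    (hC : Subgroup.centralizer ({x} : Set G) = Subgroup.zpowers x) :
    Even (commutator G).index := by
  haveI : Fact (Nat.Prime 2) := ⟨Nat.prime_two⟩
  obtain ⟨S, hS⟩ := exists_sylow 2 hx hC
  have hx1 : x ≠ 1 := ne_one_of_order 2 hx
  have hx2 : x ^ 2 = 1 := by
    have h := pow_orderOf_eq_one x
    rw [hx] at h
    exact h
  have hmem : ∀ y : G, y ∈ (S : Subgroup G) ↔ y ∈ Subgroup.zpowers x := fun y => by rw [hS]
  have hcomm : ∀ a b : (S : Subgroup G), a * b = b * a := by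
    intro a b
    apply Subtype.ext
    obtain ⟨i, hi⟩ := Subgroup.mem_zpowers_iff.mp ((hmem _).mp a.2)
    obtain ⟨j, hj⟩ := Subgroup.mem_zpowers_iff.mp ((hmem _).mp b.2)
    show (a : G) * (b : G) = (b : G) * (a : G)
    rw [← hi, ← hj]
    exact (Commute.zpow_zpow_self x i j).eq
  have hN : Subgroup.normalizer (S : Set G) ≤ Subgroup.centralizer (S : Set G) := by
    intro g hg
    rw [Subgroup.mem_centralizer_iff]
    intro a ha
    have hgx : g * x * g⁻¹ ∈ Subgroup.zpowers x := by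
      have h1 := (Subgroup.mem_set_normalizer_iff.mp hg x).mp
        ((hmem x).mpr (Subgroup.mem_zpowers x))
      exact (hmem _).mp h1
    have hgx' : g * x * g⁻¹ = x := by
      obtain ⟨j, hj⟩ := (Submonoid.mem_powers_iff _ _).mp (mem_powers_iff_mem_zpowers.mpr hgx)
      rcases Nat.even_or_odd j with ⟨k, hk⟩ | ⟨k, hk⟩
      · exfalso
        have h1 : x ^ j = 1 := by rw [hk, ← two_mul, pow_mul, hx2, one_pow]
        rw [h1] at hj
        exact hx1 (conj_eq_one_iff.mp hj.symm)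
      · rw [← hj, hk, pow_succ, pow_mul, hx2, one_pow, one_mul]
    have hgc : Commute g x := by
      show g * x = x * g
      calc g * x = g * x * g⁻¹ * g := by group
        _ = x * g := by rw [hgx']
    obtain ⟨i, hi⟩ := Subgroup.mem_zpowers_iff.mp ((hmem a).mp ha)
    rw [← hi]
    exact ((hgc.zpow_right i).eq).symm
  have hcompl := MonoidHom.ker_transferSylow_isComplement' S hN
  have hidx : (MonoidHom.transferSylow S hN).ker.index = 2 := by
    rw [hcompl.symm.index_eq_card, hS, Nat.card_zpowers, hx]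
  have hle := comm_le_ker (MonoidHom.transferSylow S hN) hcomm
  have hdvd := Subgroup.index_dvd_of_le hle
  rw [hidx] at hdvd
  exact even_iff_two_dvd.mpr hdvd

theorem p_odd {G : Type*} [Group G] [Finite G] (p : ℕ) [hp : Fact p.Prime] (hp2 : p ≠ 2) (x : G)
    (hx : orderOf x = p) (hC : Subgroup.centralizer ({x} : Set G) = Subgroup.zpowers x) (t : ℕ)
    (ht : Nat.card {C : ConjClasses G // ∃ g ∈ C.carrier, orderOf g = p} = t) (hte : ¬ Even t)
    (χ : Cfsg.IrrCharacter G) (hχ : Cfsg.charDegree (χ : G → ℂ) + 1 = p) :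
    Even (commutator G).index := by
  classical
  haveI : Fintype G := Fintype.ofFinite G
  haveI : Fintype (Nz (Subgroup.zpowers x)) := Fintype.ofFinite _
  have hcardP : Nat.card (Subgroup.zpowers x) = p := by rw [Nat.card_zpowers, hx]
  have hp3 : 3 ≤ p := by
    have h1 := hp.out.two_le
    omega
  have hpodd : Odd p := hp.out.odd_of_ne_two hp2
  have hxp : x ^ p = 1 := by
    have h := pow_orderOf_eq_one x
    rw [hx] at h
    exact h
  -- counting
  rw [card_classes p hx hC] at ht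
  have hmul := Subgroup.index_mul_card (HU p x hx)
  rw [ht, Nat.card_eq_fintype_card (α := (ZMod p)ˣ), ZMod.card_units] at hmul
  have hto : Odd t := Nat.not_even_iff_odd.mp hte
  have hee : Even (Nat.card (HU p x hx)) := by
    have h1 : Even (t * Nat.card (HU p x hx)) := by
      rw [hmul]
      exact Nat.Odd.sub_odd hpodd odd_one
    rcases Nat.even_mul.mp h1 with h | h
    · exact absurd h hte
    · exact h
  have he0 : 0 < Nat.card (HU p x hx) := Nat.card_pos
  have he2 : 2 ≤ Nat.card (HU p x hx) := by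
    obtain ⟨k, hk⟩ := hee
    omega
  -- generator
  obtain ⟨u₀, hu₀⟩ := IsCyclic.exists_generator (α := HU p x hx)
  have hord : orderOf (u₀ : (ZMod p)ˣ) = Nat.card (HU p x hx) := by
    rw [Subgroup.orderOf_coe, orderOf_eq_card_of_forall_mem_zpowers hu₀]
  obtain ⟨g, hg⟩ := u₀.2
  have hpow : ∀ (a : G) (u : (ZMod p)ˣ), a * x * a⁻¹ = yv p x u →
      ∀ j : ℕ, a ^ j * x * (a ^ j)⁻¹ = yv p x (u ^ j) := by
    intro a u ha j
    induction j with
    | zero => rw [pow_zero, pow_zero, yv_one]; group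
    | succ j ih =>
      rw [pow_succ' u, ← yv_conj p hx a u (u ^ j) ha, ← ih, pow_succ']
      group
  have hup : (u₀ : (ZMod p)ˣ) ^ p = u₀ := by
    have h1 := ZMod.units_pow_card_sub_one_eq_one p (u₀ : (ZMod p)ˣ)
    have h2 := pow_succ (u₀ : (ZMod p)ˣ) (p - 1)
    rw [Nat.sub_add_cancel hp.out.one_le] at h2
    rw [h2, h1, one_mul]
  have hue : (u₀ : (ZMod p)ˣ) ^ Nat.card (HU p x hx) = 1 := by
    rw [← hord]
    exact pow_orderOf_eq_one _
  have hs1 : g ^ p * x * (g ^ p)⁻¹ = yv p x u₀ := by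
    have h1 := hpow g u₀ hg p
    rw [hup] at h1
    exact h1
  have hsj : ∀ j : ℕ, (g ^ p) ^ j * x * ((g ^ p) ^ j)⁻¹ = yv p x ((u₀ : (ZMod p)ˣ) ^ j) :=
    hpow (g ^ p) u₀ hs1
  have hse : (g ^ p) ^ Nat.card (HU p x hx) = 1 := by
    have h1 := hpow g u₀ hg (Nat.card (HU p x hx))
    rw [hue, yv_one] at h1
    have h2 : g ^ Nat.card (HU p x hx) ∈ Subgroup.zpowers x := by
      rw [← hC, Subgroup.mem_centralizer_iff]
      intro y hy
      rw [Set.mem_singleton_iff] at hy
      rw [hy]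
      calc x * g ^ Nat.card (HU p x hx)
          = (g ^ Nat.card (HU p x hx) * x * (g ^ Nat.card (HU p x hx))⁻¹) *
              g ^ Nat.card (HU p x hx) := by rw [h1]
        _ = g ^ Nat.card (HU p x hx) * x := by group
    obtain ⟨i, hi⟩ := Subgroup.mem_zpowers_iff.mp h2
    calc (g ^ p) ^ Nat.card (HU p x hx) = (g ^ Nat.card (HU p x hx)) ^ p := by
          rw [← pow_mul, ← pow_mul, mul_comm]
      _ = (x ^ i) ^ p := by rw [hi]
      _ = (x ^ p) ^ i := by
          rw [← zpow_natCast, ← zpow_natCast, ← zpow_mul, ← zpow_mul, mul_comm]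
      _ = 1 := by rw [hxp, one_zpow]
  have hyvP : ∀ u : (ZMod p)ˣ, yv p x u ∈ Subgroup.zpowers x := by
    intro u
    unfold yv
    exact Subgroup.pow_mem _ (Subgroup.mem_zpowers x) _
  have hsN : g ^ p ∈ Nz (Subgroup.zpowers x) := by
    apply mem_nz_of_conj
    intro a ha
    obtain ⟨i, rfl⟩ := Subgroup.mem_zpowers_iff.mp ha
    rw [← conj_zpow, hs1]
    exact Subgroup.zpow_mem _ (hyvP u₀) i
  have hsP : ∀ j : ℕ, 0 < j → j < Nat.card (HU p x hx) →
      (g ^ p) ^ j ∉ Subgroup.zpowers x := by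
    intro j hj0 hje hmem
    obtain ⟨i, hi⟩ := Subgroup.mem_zpowers_iff.mp hmem
    have h1 : (g ^ p) ^ j * x * ((g ^ p) ^ j)⁻¹ = x := by
      rw [← hi]
      group
    rw [hsj j, yv_eq_iff p hx] at h1
    have h2 : orderOf (u₀ : (ZMod p)ˣ) ∣ j := orderOf_dvd_of_pow_eq_one h1
    rw [hord] at h2
    exact absurd (Nat.le_of_dvd hj0 h2) (not_le.mpr hje)
  -- TI data and values
  have hd : TIData (Subgroup.zpowers x) := tidata p hx hC
  obtain ⟨n, ρ, hirr, hρ⟩ := χ.2
  have hχ1 : (χ : G → ℂ) 1 = (n : ℂ) := by rw [← hρ]; exact char_one_fin ρ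
  have hn : n + 1 = p := by
    have h1 : Cfsg.charDegree (χ : G → ℂ) = n := by
      unfold Cfsg.charDegree
      rw [hχ1]
      simp
    rw [h1] at hχ
    exact hχ
  have hdeg : (χ : G → ℂ) 1 = (Nat.card (Subgroup.zpowers x) : ℂ) - 1 := by
    rw [hχ1, hcardP, ← hn]
    push_cast
    ring
  have hl2 : 2 ≤ ((Subgroup.zpowers x).subgroupOf (Nz (Subgroup.zpowers x))).index := by
    have h0 : ((Subgroup.zpowers x).subgroupOf (Nz (Subgroup.zpowers x))).index ≠ 0 :=
      Subgroup.index_ne_zero_of_finite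
    have h1 : ((Subgroup.zpowers x).subgroupOf (Nz (Subgroup.zpowers x))).index ≠ 1 := by
      intro h
      rw [Subgroup.index_eq_one] at h
      have h2 : (⟨g ^ p, hsN⟩ : Nz (Subgroup.zpowers x)) ∈
          (Subgroup.zpowers x).subgroupOf (Nz (Subgroup.zpowers x)) := by rw [h]; trivial
      rw [Subgroup.mem_subgroupOf] at h2
      have h3 := hsP 1 one_pos (by omega)
      rw [pow_one] at h3
      exact h3 h2
    omega
  have hval := val_neg_one hd χ (by rw [hcardP]; exact hp3) hl2 hdeg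
  have hvan := vanish_off hd (isCharacter_of_isIrrCharacter χ.2) hdeg hval
  -- the operator
  have hf : (ρ (g ^ p)) ^ Nat.card (HU p x hx) = 1 := by rw [← map_pow, hse, map_one]
  have htr : ∀ j, 0 < j → j < Nat.card (HU p x hx) →
      LinearMap.trace ℂ (Fin n → ℂ) ((ρ (g ^ p)) ^ j) = 0 := by
    intro j hj0 hje
    rw [← map_pow]
    have h1 := hvan ⟨(g ^ p) ^ j, (Nz (Subgroup.zpowers x)).pow_mem hsN j⟩ (hsP j hj0 hje)
    rw [← hρ] at h1
    exact h1
  have hdim : Module.finrank ℂ (Fin n → ℂ) = t * Nat.card (HU p x hx) := by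
    rw [Module.finrank_fin_fun, hmul]
    omega
  have hdet := det_eq_neg_one (ρ (g ^ p)) (Nat.card (HU p x hx)) t he0 hee hto hf hdim htr
  -- the linear character
  let δ : G →* ℂˣ :=
    (Units.map (LinearMap.det : Module.End ℂ (Fin n → ℂ) →* ℂ)).comp ρ.asGroupHom
  have hδ : ((δ (g ^ p) : ℂˣ) : ℂ) = -1 := by
    rw [← hdet]
    simp [δ, Representation.asGroupHom_apply]
  have hker : commutator G ≤ δ.ker := comm_le_ker δ (fun a b => mul_comm a b)
  have hdvd := Subgroup.index_dvd_of_le hker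
  rw [Subgroup.index_ker] at hdvd
  have hδ2 : orderOf (δ (g ^ p)) = 2 := by
    haveI : Fact (Nat.Prime 2) := ⟨Nat.prime_two⟩
    apply orderOf_eq_prime
    · apply Units.ext
      rw [Units.val_pow_eq_pow_val, hδ]
      norm_num
    · intro h
      rw [h] at hδ
      norm_num at hδ
  have h2 : 2 ∣ Nat.card δ.range := by
    rw [← hδ2]
    have h3 := orderOf_dvd_natCard (⟨δ (g ^ p), MonoidHom.mem_range.mpr ⟨g ^ p, rfl⟩⟩ : δ.range)
    rwa [Subgroup.orderOf_mk] at h3
  exact even_iff_two_dvd.mpr (h2.trans hdvd)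

/-- Let the finite group G contain an element x of prime order p with C_G(x) = ⟨x⟩, and let t be the number of conjugacy classes of elements of order p. If G has an irreducible character of degree p − 1, then t is even or the commutator subgroup has even index. -/
theorem result {G : Type*} [Group G] [Finite G] (p : ℕ) (hp : p.Prime) (x : G) (hx : orderOf x = p) (hC : Subgroup.centralizer ({x} : Set G) = Subgroup.zpowers x) (t : ℕ) (ht : Nat.card {C : ConjClasses G // ∃ g ∈ C.carrier, orderOf g = p} = t) (χ : Cfsg.IrrCharacter G) (hχ : Cfsg.charDegree (χ : G → ℂ) + 1 = p) : Even t ∨ Even (commutator G).index := by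
  haveI : Fact p.Prime := ⟨hp⟩
  by_cases hp2 : p = 2
  · right
    subst hp2
    exact p_two x hx hC
  by_cases hte : Even t
  · exact Or.inl hte
  right
  exact p_odd p hp2 x hx hC t ht hte χ hχ

end Cfsg.Agent.S4508
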