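import Cfsg.Statements.S0427
import Mathlib
import Cfsg.Agent.Helper29.S3622
import Cfsg.Agent.S0350

set_option autoImplicit false
open Cfsg

namespace Cfsg.Agent.S0427

open Cfsg.Agent.Helper2.Steiner Cfsg.Agent.Helper29.S3622

section
variable {α : Type*} [Fintype α] [DecidableEq α]

theorem adj_iff {B : Set (Finset α)} (hB : Cfsg.IsSteinerSystem 3 6 B) (b c : B) :
    (Cfsg.blockGraph B).Adj b c ↔ ((b : Finset α) ∩ (c : Finset α)).card = 0 := by
  unfold Cfsg.blockGraph
  rw [SimpleGraph.fromRel_adj]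
  constructor
  · rintro ⟨_, h | h⟩
    · rw [Finset.card_eq_zero, ← Finset.disjoint_iff_inter_eq_empty]
      exact h
    · rw [Finset.card_eq_zero, ← Finset.disjoint_iff_inter_eq_empty]
      exact h.symm
  · intro h
    constructor
    · rintro rfl
      rw [Finset.inter_self, hB.1 _ b.2] at h
      omega
    · left
      rw [Finset.disjoint_iff_inter_eq_empty]
      exact Finset.card_eq_zero.1 h

theorem ncard_val {B : Set (Finset α)} (s : Set ↥B) (F : Finset (Finset α))
    (h : ∀ d : Finset α, d ∈ F ↔ ∃ hd : d ∈ B, (⟨d, hd⟩ : ↥B) ∈ s) : s.ncard = F.card := by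
  rw [← Set.ncard_image_of_injective s Subtype.val_injective, ← Set.ncard_coe_finset]
  congr 1
  ext d
  rw [Finset.mem_coe, h]
  constructor
  · rintro ⟨⟨d', hd'⟩, hs, rfl⟩
    exact ⟨hd', hs⟩
  · rintro ⟨hd, hs⟩
    exact ⟨⟨d, hd⟩, hs, rfl⟩

theorem nbr_ncard {B : Set (Finset α)} (hB : Cfsg.IsSteinerSystem 3 6 B) (v : B) :
    ((Cfsg.blockGraph B).neighborSet v).ncard = m B (v : Finset α) 0 := by
  apply ncard_val
  intro d
  rw [Finset.mem_filter, mem_blocks]
  constructor
  · rintro ⟨hd, h0⟩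
    refine ⟨hd, ?_⟩
    rw [SimpleGraph.mem_neighborSet, adj_iff hB]
    exact h0
  · rintro ⟨hd, hs⟩
    rw [SimpleGraph.mem_neighborSet, adj_iff hB] at hs
    exact ⟨hd, hs⟩

theorem common_ncard {B : Set (Finset α)} (hB : Cfsg.IsSteinerSystem 3 6 B) (v w : B) :
    ((Cfsg.blockGraph B).commonNeighbors v w).ncard
      = m B ((v : Finset α) ∪ (w : Finset α)) 0 := by
  apply ncard_val
  intro d
  rw [Finset.mem_filter, mem_blocks]
  have key : (((v : Finset α) ∪ (w : Finset α)) ∩ d).card = 0 ↔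
      (((v : Finset α) ∩ d).card = 0 ∧ ((w : Finset α) ∩ d).card = 0) := by
    rw [Finset.union_inter_distrib_right, Finset.card_eq_zero, Finset.card_eq_zero,
      Finset.card_eq_zero, Finset.union_eq_empty]
  constructor
  · rintro ⟨hd, h0⟩
    refine ⟨hd, ?_⟩
    rw [SimpleGraph.commonNeighbors, Set.mem_inter_iff, SimpleGraph.mem_neighborSet,
      SimpleGraph.mem_neighborSet, adj_iff hB, adj_iff hB]
    exact key.1 h0
  · rintro ⟨hd, hs⟩
    rw [SimpleGraph.commonNeighbors, Set.mem_inter_iff, SimpleGraph.mem_neighborSet,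
      SimpleGraph.mem_neighborSet, adj_iff hB, adj_iff hB] at hs
    exact ⟨hd, key.2 hs⟩

end

/-- The block graph (adjacent = disjoint) of an S(3, 6, 22) is strongly regular with parameters (77, 16, 0, 4). -/
theorem result {α : Type*} [Fintype α] (hα : Fintype.card α = 22) {B : Set (Finset α)} (hB : Cfsg.IsSteinerSystem 3 6 B) [Fintype B] [DecidableRel (Cfsg.blockGraph B).Adj] : (Cfsg.blockGraph B).IsSRGWith 77 16 0 4 := by
  classical
  refine ⟨?_, ?_, ?_, ?_⟩
  · rw [← Nat.card_eq_fintype_card, Nat.card_coe_set_eq]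
    have h := Cfsg.Agent.S0350.result hB
    rw [hα] at h
    norm_num [Nat.choose] at h
    omega
  · intro v
    rw [← SimpleGraph.card_neighborSet_eq_degree, ← Nat.card_eq_fintype_card,
      Nat.card_coe_set_eq, nbr_ncard hB]
    exact deg hα hB _ v.2
  · intro v w hvw
    rw [← Nat.card_eq_fintype_card, Nat.card_coe_set_eq, common_ncard hB]
    apply adj0 hα hB _ _ v.2 w.2
    rw [adj_iff hB] at hvw
    rw [Finset.disjoint_iff_inter_eq_empty]
    exact Finset.card_eq_zero.1 hvw
  · intro v w hne hvw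
    rw [← Nat.card_eq_fintype_card, Nat.card_coe_set_eq, common_ncard hB]
    apply nonadj4 hα hB _ _ v.2 w.2
    · intro h
      exact hne (Subtype.ext h)
    · intro hd
      apply hvw
      rw [adj_iff hB, Finset.card_eq_zero, ← Finset.disjoint_iff_inter_eq_empty]
      exact hd

end Cfsg.Agent.S0427
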