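import Cfsg.Statements.S0428
import Mathlib
import Cfsg.Agent.S0427

set_option autoImplicit false
open Cfsg

namespace Cfsg.Agent.S0428

open Cfsg.Agent.Helper2.Steiner Cfsg.Agent.Helper29.S3622
open Cfsg.Agent.S0427 (ncard_val)

open Classical in
theorem ncard_eq_sum {γ : Type*} [Fintype γ] (S : Set γ) :
    S.ncard = ∑ x : γ, if x ∈ S then 1 else 0 := by
  classical
  rw [← Finset.card_filter, ← Set.ncard_coe_finset]
  congr 1
  ext x
  simp

section
variable {α : Type*} [Fintype α] [DecidableEq α]

open Classical in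
theorem ncard_split {B : Set (Finset α)} (S : Set (Option (α ⊕ ↥B))) :
    S.ncard = (if none ∈ S then 1 else 0) + {a : α | some (Sum.inl a) ∈ S}.ncard
      + {b : ↥B | some (Sum.inr b) ∈ S}.ncard := by
  classical
  have : Fintype ↥B := Fintype.ofFinite _
  rw [ncard_eq_sum S, Fintype.sum_option, Fintype.sum_sum_type, ncard_eq_sum, ncard_eq_sum]
  simp only [Set.mem_ofPred_eq]
  ring

theorem adj_def {B : Set (Finset α)} (x y : Option (α ⊕ ↥B)) :
    (Cfsg.pointBlockGraph B).Adj x y ↔
      x ≠ y ∧ (Cfsg.pointBlockRel B x y ∨ Cfsg.pointBlockRel B y x) := by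
  unfold Cfsg.pointBlockGraph
  rw [SimpleGraph.fromRel_adj]

theorem adj_none_none {B : Set (Finset α)} :
    ¬ (Cfsg.pointBlockGraph B).Adj (none : Option (α ⊕ ↥B)) none := by
  rw [adj_def]
  simp

theorem adj_none_inl {B : Set (Finset α)} (a : α) :
    (Cfsg.pointBlockGraph B).Adj (none : Option (α ⊕ ↥B)) (some (Sum.inl a)) := by
  rw [adj_def]
  simp [Cfsg.pointBlockRel]

theorem adj_inl_none {B : Set (Finset α)} (a : α) :
    (Cfsg.pointBlockGraph B).Adj (some (Sum.inl a)) (none : Option (α ⊕ ↥B)) := by
  rw [adj_def]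
  simp [Cfsg.pointBlockRel]

theorem adj_none_inr {B : Set (Finset α)} (b : ↥B) :
    ¬ (Cfsg.pointBlockGraph B).Adj (none : Option (α ⊕ ↥B)) (some (Sum.inr b)) := by
  rw [adj_def]
  simp [Cfsg.pointBlockRel]

theorem adj_inr_none {B : Set (Finset α)} (b : ↥B) :
    ¬ (Cfsg.pointBlockGraph B).Adj (some (Sum.inr b)) (none : Option (α ⊕ ↥B)) := by
  rw [adj_def]
  simp [Cfsg.pointBlockRel]

theorem adj_inl_inl {B : Set (Finset α)} (a a' : α) :
    ¬ (Cfsg.pointBlockGraph B).Adj (some (Sum.inl a) : Option (α ⊕ ↥B)) (some (Sum.inl a')) := by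
  rw [adj_def]
  simp [Cfsg.pointBlockRel]

theorem adj_inl_inr {B : Set (Finset α)} (a : α) (b : ↥B) :
    (Cfsg.pointBlockGraph B).Adj (some (Sum.inl a) : Option (α ⊕ ↥B)) (some (Sum.inr b))
      ↔ a ∈ (b : Finset α) := by
  rw [adj_def]
  simp [Cfsg.pointBlockRel]

theorem adj_inr_inl {B : Set (Finset α)} (a : α) (b : ↥B) :
    (Cfsg.pointBlockGraph B).Adj (some (Sum.inr b) : Option (α ⊕ ↥B)) (some (Sum.inl a))
      ↔ a ∈ (b : Finset α) := by
  rw [adj_def]
  simp [Cfsg.pointBlockRel]

theorem adj_inr_inr {B : Set (Finset α)} (hB : Cfsg.IsSteinerSystem 3 6 B) (b c : ↥B) :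
    (Cfsg.pointBlockGraph B).Adj (some (Sum.inr b) : Option (α ⊕ ↥B)) (some (Sum.inr c))
      ↔ ((b : Finset α) ∩ (c : Finset α)).card = 0 := by
  rw [adj_def]
  simp only [ne_eq, Option.some.injEq, Sum.inr.injEq, Cfsg.pointBlockRel]
  constructor
  · rintro ⟨_, h | h⟩
    · rw [Finset.card_eq_zero, ← Finset.disjoint_iff_inter_eq_empty]
      exact h
    · rw [Finset.card_eq_zero, ← Finset.disjoint_iff_inter_eq_empty]
      exact h.symm
  · intro h
    constructor
    · rintro rfl
      rw [Finset.inter_self, hB.1 _ b.2] at h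
      omega
    · left
      rw [Finset.disjoint_iff_inter_eq_empty]
      exact Finset.card_eq_zero.1 h

/-- number of blocks through a point -/
theorem through_one (hα : Fintype.card α = 22) {B : Set (Finset α)}
    (hB : Cfsg.IsSteinerSystem 3 6 B) (a : α) : {b : ↥B | a ∈ (b : Finset α)}.ncard = 21 := by
  rw [ncard_val {b : ↥B | a ∈ (b : Finset α)} ((blocks B).filter (fun c => {a} ⊆ c))
    (fun d => by
      rw [Finset.mem_filter, mem_blocks, Finset.singleton_subset_iff]
      exact ⟨fun h => ⟨h.1, h.2⟩, fun ⟨h1, h2⟩ => ⟨h1, h2⟩⟩)]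
  have h := lambda_count hB ({a} : Finset α) (by simp)
  rw [Finset.card_singleton, hα] at h
  generalize ((blocks B).filter (fun c => {a} ⊆ c)).card = N at h ⊢
  norm_num [Nat.choose] at h
  omega

/-- number of blocks through two points -/
theorem through_two (hα : Fintype.card α = 22) {B : Set (Finset α)}
    (hB : Cfsg.IsSteinerSystem 3 6 B) (a a' : α) (hne : a ≠ a') :
    {b : ↥B | a ∈ (b : Finset α) ∧ a' ∈ (b : Finset α)}.ncard = 5 := by
  rw [ncard_val {b : ↥B | a ∈ (b : Finset α) ∧ a' ∈ (b : Finset α)}
    ((blocks B).filter (fun c => {a, a'} ⊆ c))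
    (fun d => by
      rw [Finset.mem_filter, mem_blocks, Finset.insert_subset_iff, Finset.singleton_subset_iff]
      exact ⟨fun h => ⟨h.1, h.2⟩, fun ⟨h1, h2⟩ => ⟨h1, h2⟩⟩)]
  have h := lambda_count hB ({a, a'} : Finset α) (by rw [Finset.card_pair hne]; omega)
  rw [Finset.card_pair hne, hα] at h
  generalize ((blocks B).filter (fun c => {a, a'} ⊆ c)).card = N at h ⊢
  norm_num [Nat.choose] at h
  omega

/-- number of blocks through a point and disjoint from a block not containing it -/
theorem through_disj (hα : Fintype.card α = 22) {B : Set (Finset α)}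
    (hB : Cfsg.IsSteinerSystem 3 6 B) (a : α) (b : Finset α) (hb : b ∈ B) (hab : a ∉ b) :
    {c : ↥B | a ∈ (c : Finset α) ∧ (b ∩ (c : Finset α)).card = 0}.ncard = 6 := by
  have hins : ∀ d : Finset α, ((insert a b) ∩ d).card
      = (if a ∈ d then 1 else 0) + (b ∩ d).card := by
    intro d
    by_cases had : a ∈ d
    · rw [if_pos had, Finset.insert_inter_of_mem had, Finset.card_insert_of_notMem
        (fun h => hab (Finset.mem_inter.1 h).1), add_comm]
    · rw [if_neg had, Finset.insert_inter_of_notMem had, zero_add]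
  have hkey : {c : ↥B | a ∈ (c : Finset α) ∧ (b ∩ (c : Finset α)).card = 0}.ncard
      = m B (insert a b) 1 := by
    apply ncard_val
    intro d
    rw [Finset.mem_filter, mem_blocks, hins]
    constructor
    · rintro ⟨hd, h1⟩
      refine ⟨hd, ?_⟩
      show a ∈ d ∧ (b ∩ d).card = 0
      by_cases hdb : d = b
      · rw [hdb, Finset.inter_self, hB.1 b hb, if_neg hab] at h1
        omega
      · rcases Cfsg.Agent.S0356.result hα hB hb hd (Ne.symm hdb) with h | h
        · rw [h] at h1
          by_cases had : a ∈ d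
          · exact ⟨had, h⟩
          · rw [if_neg had] at h1
            omega
        · rw [h] at h1
          split_ifs at h1 <;> omega
    · rintro ⟨hd, hs⟩
      have hs' : a ∈ d ∧ (b ∩ d).card = 0 := hs
      refine ⟨hd, ?_⟩
      rw [if_pos hs'.1, hs'.2]
  rw [hkey]
  have hval : ∀ d ∈ B, d ≠ b → ((insert a b) ∩ d).card ≤ 3 := by
    intro d hd hdb
    rw [hins]
    rcases Cfsg.Agent.S0356.result hα hB hb hd (Ne.symm hdb) with h | h <;>
      rw [h] <;> split_ifs <;> omega
  have ht : ∀ d ∈ B, ((insert a b) ∩ d).card ∈ ({0, 1, 2, 3, 6} : Finset ℕ) := by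
    intro d hd
    by_cases hdb : d = b
    · rw [hins, hdb, Finset.inter_self, hB.1 b hb, if_neg hab]
      simp
    · have := hval d hd hdb
      generalize ((insert a b) ∩ d).card = x at this ⊢
      interval_cases x <;> simp
  have h6 : m B (insert a b) 6 = 1 := by
    unfold m
    have h : (blocks B).filter (fun d => ((insert a b) ∩ d).card = 6) = {b} := by
      ext d
      rw [Finset.mem_filter, mem_blocks, Finset.mem_singleton]
      constructor
      · rintro ⟨hd, h6⟩
        by_contra hne
        have := hval d hd hne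
        omega
      · rintro rfl
        exact ⟨hb, by rw [hins, Finset.inter_self, hB.1 d hb, if_neg hab]⟩
    rw [h, Finset.card_singleton]
  have hU : (insert a b).card = 7 := by
    rw [Finset.card_insert_of_notMem hab, hB.1 b hb]
  have h0 := moments hα hB (insert a b) _ ht 0 (by omega)
  have h1 := moments hα hB (insert a b) _ ht 1 (by omega)
  have h2 := moments hα hB (insert a b) _ ht 2 (by omega)
  have h3 := moments hα hB (insert a b) _ ht 3 (by omega)
  rw [hU] at h0 h1 h2 h3
  simp only [Finset.sum_insert, Finset.mem_insert, Finset.mem_singleton, Finset.sum_singleton,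
    show (0 : ℕ) ≠ 1 from by decide, show (0 : ℕ) ≠ 2 from by decide,
    show (0 : ℕ) ≠ 3 from by decide, show (0 : ℕ) ≠ 6 from by decide,
    show (1 : ℕ) ≠ 2 from by decide, show (1 : ℕ) ≠ 3 from by decide,
    show (1 : ℕ) ≠ 6 from by decide, show (2 : ℕ) ≠ 3 from by decide,
    show (2 : ℕ) ≠ 6 from by decide, show (3 : ℕ) ≠ 6 from by decide,
    or_self, not_false_eq_true] at h0 h1 h2 h3
  generalize m B (insert a b) 0 = n0 at h0 h1 h2 h3 ⊢
  generalize m B (insert a b) 1 = n1 at h0 h1 h2 h3 ⊢
  generalize m B (insert a b) 2 = n2 at h0 h1 h2 h3 ⊢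
  generalize m B (insert a b) 3 = n3 at h0 h1 h2 h3 ⊢
  generalize m B (insert a b) 6 = n6 at h0 h1 h2 h3 h6 ⊢
  norm_num [Nat.choose] at h0 h1 h2 h3
  omega

theorem disj_count (hα : Fintype.card α = 22) {B : Set (Finset α)}
    (hB : Cfsg.IsSteinerSystem 3 6 B) (b : ↥B) :
    {c : ↥B | ((b : Finset α) ∩ (c : Finset α)).card = 0}.ncard = 16 := by
  rw [ncard_val {c : ↥B | ((b : Finset α) ∩ (c : Finset α)).card = 0}
    ((blocks B).filter (fun c => ((b : Finset α) ∩ c).card = 0))
    (fun d => by
      rw [Finset.mem_filter, mem_blocks]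
      exact ⟨fun h => ⟨h.1, h.2⟩, fun ⟨h1, h2⟩ => ⟨h1, h2⟩⟩)]
  exact deg hα hB _ b.2

theorem disj2_count {B : Set (Finset α)} (b c : ↥B) :
    {d : ↥B | ((b : Finset α) ∩ (d : Finset α)).card = 0 ∧
      ((c : Finset α) ∩ (d : Finset α)).card = 0}.ncard
      = m B ((b : Finset α) ∪ (c : Finset α)) 0 := by
  apply ncard_val
  intro d
  rw [Finset.mem_filter, mem_blocks]
  have key : (((b : Finset α) ∪ (c : Finset α)) ∩ d).card = 0 ↔
      (((b : Finset α) ∩ d).card = 0 ∧ ((c : Finset α) ∩ d).card = 0) := by
    rw [Finset.union_inter_distrib_right, Finset.card_eq_zero, Finset.card_eq_zero,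
      Finset.card_eq_zero, Finset.union_eq_empty]
  constructor
  · rintro ⟨hd, h0⟩
    exact ⟨hd, key.1 h0⟩
  · rintro ⟨hd, hs⟩
    exact ⟨hd, key.2 hs⟩

theorem pts_count (s : Finset α) : {a : α | a ∈ s}.ncard = s.card := by
  rw [← Set.ncard_coe_finset]
  rfl

theorem pts2_count (s t : Finset α) : {a : α | a ∈ s ∧ a ∈ t}.ncard = (s ∩ t).card := by
  rw [← Set.ncard_coe_finset]
  congr 1
  ext a
  simp

end

/-- The point-block graph of an S(3, 6, 22) is strongly regular with parameters (100, 22, 0, 6). -/
theorem result {α : Type*} [Fintype α] (hα : Fintype.card α = 22) {B : Set (Finset α)} (hB : Cfsg.IsSteinerSystem 3 6 B) [Fintype B] [DecidableRel (Cfsg.pointBlockGraph B).Adj] : (Cfsg.pointBlockGraph B).IsSRGWith 100 22 0 6 := by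
  classical
  have hB77 : Fintype.card ↥B = 77 := by
    rw [← Nat.card_eq_fintype_card, Nat.card_coe_set_eq]
    have h := Cfsg.Agent.S0350.result hB
    rw [hα] at h
    norm_num [Nat.choose] at h
    omega
  have huniv : (Set.univ : Set α).ncard = 22 := by
    rw [Set.ncard_univ, Nat.card_eq_fintype_card, hα]
  have hcn : ∀ v w x, x ∈ (Cfsg.pointBlockGraph B).commonNeighbors v w ↔
      ((Cfsg.pointBlockGraph B).Adj v x ∧ (Cfsg.pointBlockGraph B).Adj w x) := by
    intro v w x
    rw [SimpleGraph.commonNeighbors, Set.mem_inter_iff, SimpleGraph.mem_neighborSet,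
      SimpleGraph.mem_neighborSet]
  refine ⟨?_, ?_, ?_, ?_⟩
  · rw [Fintype.card_option, Fintype.card_sum, hα, hB77]
  · intro v
    rw [← SimpleGraph.card_neighborSet_eq_degree, ← Nat.card_eq_fintype_card,
      Nat.card_coe_set_eq, ncard_split]
    simp only [SimpleGraph.mem_neighborSet]
    rcases v with _ | (a | b)
    · simp only [adj_none_none, adj_none_inl, adj_none_inr, if_false, Set.ofPred_true,
        Set.ofPred_false, Set.ncard_empty, huniv]
    · simp only [adj_inl_none, adj_inl_inl, adj_inl_inr, if_true, Set.ofPred_false,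
        Set.ncard_empty, through_one hα hB a]
    · simp only [adj_inr_none, adj_inr_inl, adj_inr_inr hB, if_false, disj_count hα hB b,
        pts_count, hB.1 _ b.2]
  · intro v w hvw
    rw [← Nat.card_eq_fintype_card, Nat.card_coe_set_eq, ncard_split]
    simp only [hcn]
    rcases v with _ | (a | b) <;> rcases w with _ | (a' | b')
    · exact absurd hvw adj_none_none
    · simp only [adj_none_none, adj_none_inl, adj_none_inr, adj_inl_none, adj_inl_inl,
        adj_inl_inr, false_and, and_false, if_false, Set.ofPred_false, Set.ncard_empty]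
    · exact absurd hvw (adj_none_inr b')
    · simp only [adj_none_none, adj_none_inl, adj_none_inr, adj_inl_none, adj_inl_inl,
        adj_inl_inr, false_and, and_false, if_false, Set.ofPred_false, Set.ncard_empty]
    · exact absurd hvw (adj_inl_inl a a')
    · rw [adj_inl_inr] at hvw
      simp only [adj_inl_none, adj_inr_none, adj_inl_inl, adj_inr_inl, adj_inl_inr,
        adj_inr_inr hB, false_and, and_false, if_false, Set.ofPred_false, Set.ncard_empty]
      have h0 : {b : ↥B | a ∈ (b : Finset α) ∧ ((b' : Finset α) ∩ (b : Finset α)).card = 0} = ∅ := by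
        ext c
        simp only [Set.mem_ofPred_eq, Set.mem_empty_iff_false, iff_false, not_and]
        intro hac h0
        rw [Finset.card_eq_zero] at h0
        have : a ∈ (b' : Finset α) ∩ (c : Finset α) := Finset.mem_inter.2 ⟨hvw, hac⟩
        rw [h0] at this
        exact absurd this (Finset.notMem_empty a)
      rw [h0, Set.ncard_empty]
    · exact absurd hvw (adj_inr_none b)
    · rw [adj_inr_inl] at hvw
      simp only [adj_inl_none, adj_inr_none, adj_inl_inl, adj_inr_inl, adj_inl_inr,
        adj_inr_inr hB, false_and, and_false, if_false, Set.ofPred_false, Set.ncard_empty]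
      have h0 : {c : ↥B | ((b : Finset α) ∩ (c : Finset α)).card = 0 ∧ a' ∈ (c : Finset α)} = ∅ := by
        ext c
        simp only [Set.mem_ofPred_eq, Set.mem_empty_iff_false, iff_false, not_and]
        intro h0 hac
        rw [Finset.card_eq_zero] at h0
        have : a' ∈ (b : Finset α) ∩ (c : Finset α) := Finset.mem_inter.2 ⟨hvw, hac⟩
        rw [h0] at this
        exact absurd this (Finset.notMem_empty a')
      rw [h0, Set.ncard_empty]
    · rw [adj_inr_inr hB] at hvw
      simp only [adj_inr_none, adj_inr_inl, adj_inr_inr hB, false_and, if_false]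
      rw [pts2_count, hvw, disj2_count]
      have hd : Disjoint (b : Finset α) (b' : Finset α) := by
        rw [Finset.disjoint_iff_inter_eq_empty]
        exact Finset.card_eq_zero.1 hvw
      rw [adj0 hα hB _ _ b.2 b'.2 hd]
  · intro v w hne hvw
    rw [← Nat.card_eq_fintype_card, Nat.card_coe_set_eq, ncard_split]
    simp only [hcn]
    rcases v with _ | (a | b) <;> rcases w with _ | (a' | b')
    · exact absurd rfl hne
    · exact absurd (adj_none_inl a') hvw
    · simp only [adj_none_none, adj_none_inl, adj_none_inr, adj_inr_none, adj_inr_inl,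
        adj_inr_inr hB, false_and, and_false, true_and, if_false, Set.ofPred_false,
        Set.ncard_empty, pts_count, hB.1 _ b'.2]
    · exact absurd (adj_inl_none a) hvw
    · have haa : a ≠ a' := by
        rintro rfl
        exact hne rfl
      simp only [adj_inl_none, adj_inl_inl, adj_inl_inr, and_self, if_true, Set.ofPred_false,
        Set.ncard_empty, through_two hα hB a a' haa]
    · rw [adj_inl_inr] at hvw
      simp only [adj_inl_none, adj_inr_none, adj_inl_inl, adj_inr_inl, adj_inl_inr,
        adj_inr_inr hB, false_and, and_false, if_false, Set.ofPred_false, Set.ncard_empty,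
        through_disj hα hB a _ b'.2 hvw]
    · simp only [adj_none_none, adj_none_inl, adj_none_inr, adj_inr_none, adj_inr_inl,
        adj_inr_inr hB, false_and, and_false, and_true, if_false, Set.ofPred_false,
        Set.ncard_empty, pts_count, hB.1 _ b.2]
    · rw [adj_inr_inl] at hvw
      simp only [adj_inl_none, adj_inr_none, adj_inl_inl, adj_inr_inl, adj_inl_inr,
        adj_inr_inr hB, false_and, and_false, if_false, Set.ofPred_false, Set.ncard_empty]
      have h6 := through_disj hα hB a' _ b.2 hvw
      have hsw : {c : ↥B | ((b : Finset α) ∩ (c : Finset α)).card = 0 ∧ a' ∈ (c : Finset α)}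
          = {c : ↥B | a' ∈ (c : Finset α) ∧ ((b : Finset α) ∩ (c : Finset α)).card = 0} := by
        ext c
        exact and_comm
      rw [hsw, h6]
    · have hbb : (b : Finset α) ≠ (b' : Finset α) := by
        intro h
        exact hne (by rw [Subtype.ext h])
      rw [adj_inr_inr hB] at hvw
      have h2 : ((b : Finset α) ∩ (b' : Finset α)).card = 2 := by
        rcases Cfsg.Agent.S0356.result hα hB b.2 b'.2 hbb with h | h
        · exact absurd h hvw
        · exact h
      have hnd : ¬ Disjoint (b : Finset α) (b' : Finset α) := by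
        intro hd
        rw [Finset.disjoint_iff_inter_eq_empty] at hd
        rw [hd, Finset.card_empty] at h2
        omega
      simp only [adj_inr_none, adj_inr_inl, adj_inr_inr hB, false_and, if_false]
      rw [pts2_count, h2, disj2_count, nonadj4 hα hB _ _ b.2 b'.2 hbb hnd]

end Cfsg.Agent.S0428
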