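import Cfsg.Statements.S0351
import Cfsg.Agent.Helper2.Steiner

set_option autoImplicit false
open Cfsg

namespace Cfsg.Agent.S0351

/-- Derived design: removing a point p from the blocks through p of an S(t+1, k+1, v) yields an S(t, k, v-1) on the points other than p. -/
theorem result {α : Type*} [Fintype α] [DecidableEq α] {t k : ℕ} {B : Set (Finset α)} (hB : Cfsg.IsSteinerSystem (t + 1) (k + 1) B) (p : α) : Cfsg.IsSteinerSystem t k {b' : Finset {a : α // a ≠ p} | ∃ b ∈ B, p ∈ b ∧ b' = Finset.subtype (fun a => a ≠ p) b} := by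
  refine ⟨?_, ?_⟩
  · rintro b' ⟨b, hb, hpb, rfl⟩
    have h1 := hB.1 b hb
    rw [Finset.card_subtype, Finset.filter_ne', Finset.card_erase_of_mem hpb]
    omega
  · intro s hs
    have hpn : p ∉ s.map (Function.Embedding.subtype (fun a => a ≠ p)) := by
      intro hmem
      rw [Finset.mem_map] at hmem
      obtain ⟨x, _, hx⟩ := hmem
      exact x.2 hx
    have hS : (insert p (s.map (Function.Embedding.subtype (fun a => a ≠ p)))).card = t + 1 := by
      rw [Finset.card_insert_of_notMem hpn, Finset.card_map, hs]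
    obtain ⟨b, ⟨hb, hSb⟩, huniq⟩ := hB.2 _ hS
    have hpb : p ∈ b := hSb (Finset.mem_insert_self _ _)
    have key : ∀ b2 : Finset α,
        (insert p (s.map (Function.Embedding.subtype (fun a => a ≠ p))) ⊆ b2) ↔
          (p ∈ b2 ∧ s ⊆ Finset.subtype (fun a => a ≠ p) b2) := by
      intro b2
      constructor
      · intro h
        refine ⟨h (Finset.mem_insert_self _ _), ?_⟩
        intro x hx
        rw [Finset.mem_subtype]
        exact h (Finset.mem_insert_of_mem (Finset.mem_map_of_mem _ hx))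
      · rintro ⟨h1, h2⟩ x hx
        rw [Finset.mem_insert, Finset.mem_map] at hx
        rcases hx with hx | ⟨y, hy, hyx⟩
        · rw [hx]; exact h1
        · rw [← hyx]; exact Finset.mem_subtype.1 (h2 hy)
    refine ⟨Finset.subtype (fun a => a ≠ p) b, ⟨⟨b, hb, hpb, rfl⟩, ((key b).1 hSb).2⟩, ?_⟩
    rintro b'' ⟨⟨b2, hb2, hpb2, rfl⟩, hs2⟩
    have := huniq b2 ⟨hb2, (key b2).2 ⟨hpb2, hs2⟩⟩
    rw [this]

end Cfsg.Agent.S0351
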