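import Cfsg.Statements.S0410
import Mathlib
import Cfsg.Agent.Helper29.S3622U

set_option autoImplicit false
open Cfsg

namespace Cfsg.Agent.S0410

open Cfsg.Agent.Helper29.S3622U Cfsg.Agent.Helper2.Steiner in
/-- Uniqueness of the Steiner system S(3, 6, 22) up to isomorphism. -/
theorem result {α β : Type*} [Fintype α] [DecidableEq α] [Fintype β] [DecidableEq β] (hα : Fintype.card α = 22) (hβ : Fintype.card β = 22) {B : Set (Finset α)} {B' : Set (Finset β)} (hB : Cfsg.IsSteinerSystem 3 6 B) (hB' : Cfsg.IsSteinerSystem 3 6 B') : Cfsg.SetSystemIso B B' := by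
  have hne : Nonempty α := Fintype.card_pos_iff.1 (by omega)
  have hne' : Nonempty β := Fintype.card_pos_iff.1 (by omega)
  obtain ⟨p⟩ := hne
  obtain ⟨p'⟩ := hne'
  obtain ⟨b, hb, hpb⟩ := exists_block_off hα hB p
  obtain ⟨b', hb', hpb'⟩ := exists_block_off hβ hB' p'
  obtain ⟨e, _, _, he⟩ := exists_iso hα hβ hB hB' hb hpb hb' hpb'
    (Finset.equivOfCardEq ((hB.1 b hb).trans (hB'.1 b' hb').symm))
  refine ⟨e, ?_⟩
  apply Set.eq_of_subset_of_ncard_le
  · rintro _ ⟨l, hl, rfl⟩
    exact he l hl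
  · rw [Set.ncard_image_of_injective _ (Finset.image_injective e.injective)]
    rw [ncard_eq, ncard_eq, card_blocks hα hB, card_blocks hβ hB']
  · exact Set.toFinite _

end Cfsg.Agent.S0410
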