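import Mathlib
import Cfsg.Statements.S1226
import Cfsg.Agent.Helper6.ConjMap
import Cfsg.Agent.Helper6.PResidual

set_option autoImplicit false
open Cfsg Cfsg.Agent.Helper6

namespace Cfsg.Agent.S1226

/-- Let G be a finite group with a Sylow 2-subgroup T that is neither cyclic nor normal, such that the centralizer of every involution is an elementary abelian 2-group. Then N_G(T) is a strongly embedded subgroup of G. -/
theorem result {G : Type*} [Group G] [Finite G] (T : Sylow 2 G) (hnc : ¬ IsCyclic (T : Subgroup G)) (hnn : ¬ (T : Subgroup G).Normal) (hC : ∀ t : G, orderOf t = 2 → IsMulCommutative (Subgroup.centralizer ({t} : Set G)) ∧ ∀ c ∈ Subgroup.centralizer ({t} : Set G), c ^ 2 = 1) : Cfsg.IsStronglyEmbedded (Subgroup.normalizer ((T : Subgroup G) : Set G)) := by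
  classical
  have hp2 : Fact (Nat.Prime 2) := ⟨Nat.prime_two⟩
  have hTne : (T : Subgroup G) ≠ ⊥ := by
    intro h
    apply hnc
    rw [h]
    infer_instance
  have hT2 : IsPGroup 2 (T : Subgroup G) := T.isPGroup'
  have hnt : Nontrivial (T : Subgroup G) := (Subgroup.nontrivial_iff_ne_bot _).mpr hTne
  have hcn : Nontrivial (Subgroup.center (T : Subgroup G)) := hT2.center_nontrivial
  have hZ2 : IsPGroup 2 (Subgroup.center (T : Subgroup G)) := hT2.to_subgroup _
  obtain ⟨z, hz⟩ : ∃ z : Subgroup.center (T : Subgroup G), orderOf z = 2 := by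
    apply exists_prime_orderOf_dvd_card' 2
    rcases hZ2.card_eq_or_dvd with h | h
    · exfalso
      have := Subgroup.eq_bot_of_card_eq _ h
      exact (Subgroup.nontrivial_iff_ne_bot _).mp hcn this
    · exact h
  have hz'2 : orderOf (((z : (T : Subgroup G)) : G)) = 2 := by
    rw [Subgroup.orderOf_coe, Subgroup.orderOf_coe]; exact hz
  have hz'c : ∀ t ∈ (T : Subgroup G), t * ((z : (T : Subgroup G)) : G) = ((z : (T : Subgroup G)) : G) * t := by
    intro t ht
    have := Subgroup.mem_center_iff.mp z.2 ⟨t, ht⟩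
    exact congrArg Subtype.val this
  have hTC : ∀ s : G, orderOf s = 2 → (T : Subgroup G) ≤ Subgroup.centralizer ({s} : Set G) →
      Subgroup.centralizer ({s} : Set G) = T := by
    intro s hs hle
    have h2 : IsPGroup 2 (Subgroup.centralizer ({s} : Set G)) := by
      intro c
      refine ⟨1, ?_⟩
      apply Subtype.ext
      simpa using (hC s hs).2 c c.2
    exact T.3 h2 hle
  have h1 : Subgroup.centralizer ({((z : (T : Subgroup G)) : G)} : Set G) = T :=
    hTC _ hz'2 (fun t ht => Subgroup.mem_centralizer_iff.mpr (fun u hu => by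
      rw [Set.mem_singleton_iff.mp hu]; exact (hz'c t ht).symm))
  have hTab : ∀ u ∈ (T : Subgroup G), ∀ v ∈ (T : Subgroup G), u * v = v * u := by
    intro u hu v hv
    have hcm := (hC _ hz'2).1
    rw [← h1] at hu hv
    exact congrArg Subtype.val (hcm.is_comm.comm ⟨u, hu⟩ ⟨v, hv⟩)
  have hA : ∀ s ∈ (T : Subgroup G), orderOf s = 2 → Subgroup.centralizer ({s} : Set G) = T :=
    fun s hs ho => hTC s ho (fun t ht => Subgroup.mem_centralizer_iff.mpr (fun u hu => by
      rw [Set.mem_singleton_iff.mp hu]; exact hTab _ hs _ ht))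
  have hinvT : ∀ x ∈ Subgroup.normalizer ((T : Subgroup G) : Set G), orderOf x = 2 → x ∈ (T : Subgroup G) := by
    intro x hx ho
    have hzx : IsPGroup 2 (Subgroup.zpowers x) :=
      IsPGroup.of_card (n := 1) (by rw [Nat.card_zpowers, ho, pow_one])
    have hle : Subgroup.zpowers x ≤ Subgroup.normalizer ((T : Subgroup G) : Set G) :=
      (Subgroup.zpowers_le).mpr hx
    have h2 : IsPGroup 2 (Subgroup.zpowers x ⊔ T : Subgroup G) :=
      IsPGroup.to_sup_of_normal_right' hzx hT2 hle
    have := T.3 h2 le_sup_right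
    rw [← this]
    exact Subgroup.mem_sup_left (Subgroup.mem_zpowers x)
  refine ⟨?_, ?_, ?_⟩
  · intro h
    exact hnn (Subgroup.normalizer_eq_top_iff.mp h)
  · have h2T : 2 ∣ Nat.card (T : Subgroup G) :=
      (hT2.card_eq_or_dvd).resolve_left (fun h => hTne (Subgroup.eq_bot_of_card_eq _ h))
    exact even_iff_two_dvd.mpr (h2T.trans (Subgroup.card_dvd_of_le Subgroup.le_normalizer))
  · intro g hg
    by_contra hodd
    rw [Nat.not_odd_iff_even] at hodd
    obtain ⟨x, hx⟩ := exists_prime_orderOf_dvd_card' 2 (even_iff_two_dvd.mp hodd)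
    have hxG : orderOf (x : G) = 2 := by rw [Subgroup.orderOf_coe]; exact hx
    obtain ⟨hx1, hx2⟩ := Subgroup.mem_inf.mp x.2
    have hxT : (x : G) ∈ (T : Subgroup G) := hinvT _ hx1 hxG
    rw [mem_conj_map] at hx2
    have hxG' : orderOf (g⁻¹ * (x : G) * g) = 2 := by
      have e : g⁻¹ * (x : G) * g = g⁻¹ * x * g⁻¹⁻¹ := by group
      rw [e, orderOf_conj_eq']; exact hxG
    have hxT' : g⁻¹ * (x : G) * g ∈ (T : Subgroup G) := hinvT _ hx2 hxG'
    have hA1 := hA _ hxT hxG
    have hA2 := hA _ hxT' hxG'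
    apply hg
    rw [Subgroup.mem_normalizer_iff]
    intro n
    constructor
    · intro hn
      rw [← hA2, Subgroup.mem_centralizer_iff] at hn
      have h3 := hn _ rfl
      rw [← hA1, Subgroup.mem_centralizer_iff]
      intro u hu
      rw [Set.mem_singleton_iff.mp hu]
      calc (x : G) * (g * n * g⁻¹) = g * ((g⁻¹ * x * g) * n) * g⁻¹ := by group
        _ = g * (n * (g⁻¹ * x * g)) * g⁻¹ := by rw [h3]
        _ = g * n * g⁻¹ * x := by group
    · intro hn
      rw [← hA1, Subgroup.mem_centralizer_iff] at hn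
      have h3 := hn _ rfl
      rw [← hA2, Subgroup.mem_centralizer_iff]
      intro u hu
      rw [Set.mem_singleton_iff.mp hu]
      calc g⁻¹ * (x : G) * g * n = g⁻¹ * (x * (g * n * g⁻¹)) * g := by group
        _ = g⁻¹ * ((g * n * g⁻¹) * x) * g := by rw [h3]
        _ = n * (g⁻¹ * x * g) := by group

end Cfsg.Agent.S1226
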