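import Cfsg.Statements.S5643
import Cfsg.Agent.Helper2.Parab
import Cfsg.Agent.Helper2.SLGen

set_option autoImplicit false
open Cfsg

namespace Cfsg.Agent.S5643

open Matrix
open Cfsg.Agent.Helper2

section FieldLemmas

variable {F : Type*} [Field F]

theorem dmc {a b : F} (h : b ≠ 0) : a / b * b = a := by
  field_simp

/-- an element moved by a non-trivial automorphism -/
theorem exists_moved (σ : F ≃+* F) (hne : σ ≠ RingEquiv.refl F) : ∃ b, σ b ≠ b := by
  by_contra hcon
  push Not at hcon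
  exact hne (RingEquiv.ext hcon)

/-- a non-zero skew element -/
theorem exists_skew (σ : F ≃+* F) (hinv : ∀ a, σ (σ a) = a) (hne : σ ≠ RingEquiv.refl F) :
    ∃ a, a ≠ 0 ∧ σ a = -a := by
  obtain ⟨b, hb⟩ := exists_moved σ hne
  refine ⟨b - σ b, fun h => hb (sub_eq_zero.1 h).symm, ?_⟩
  rw [map_sub, hinv]
  ring

/-- the trace is onto the fixed field -/
theorem exists_trace (σ : F ≃+* F) (hinv : ∀ a, σ (σ a) = a) (hne : σ ≠ RingEquiv.refl F)
    (c : F) (hc : σ c = c) : ∃ x, x + σ x = c := by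
  obtain ⟨b, hb⟩ := exists_moved σ hne
  by_cases hd : b + σ b = 0
  · have h2 : (2 : F) ≠ 0 := by
      intro h2
      apply hb
      have h3 : (2 : F) * b = 0 := by rw [h2, zero_mul]
      linear_combination hd - h3
    refine ⟨c / 2, ?_⟩
    rw [map_div₀, hc, map_ofNat, ← add_div, ← two_mul, mul_div_cancel_left₀ c h2]
  · have hσd : σ (b + σ b) = b + σ b := by
      rw [map_add, hinv]
      ring
    refine ⟨c / (b + σ b) * b, ?_⟩
    rw [map_mul, map_div₀, hc, hσd, ← mul_add, dmc hd]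

/-- decomposition `F = F₀ + A τ` when the trace of `τ` is non-zero -/
theorem exists_decomp (σ : F ≃+* F) (hinv : ∀ a, σ (σ a) = a) (τ : F) (hτ : τ + σ τ ≠ 0)
    (x : F) : ∃ r a, σ r = r ∧ σ a = -a ∧ x = r + a * τ := by
  have hs : σ (τ + σ τ) = τ + σ τ := by
    rw [map_add, hinv]
    ring
  refine ⟨x - (x - σ x) / (τ + σ τ) * τ, (x - σ x) / (τ + σ τ), ?_, ?_, by ring⟩
  · rw [map_sub, map_mul, map_div₀, hs, map_sub, hinv]
    field_simp
    ring
  · rw [map_div₀, hs, map_sub, hinv]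
    ring

/-- the norm is onto the fixed field (finite fields) -/
theorem exists_norm [Finite F] (σ : F ≃+* F) (hinv : ∀ a, σ (σ a) = a)
    (hne : σ ≠ RingEquiv.refl F) (c : F) (hc : σ c = c) : ∃ μ, μ * σ μ = c := by
  by_cases hc0 : c = 0
  · exact ⟨0, by rw [map_zero, mul_zero, hc0]⟩
  let sU : Fˣ →* Fˣ := Units.map (σ.toRingHom.toMonoidHom)
  have hsU : ∀ μ : Fˣ, ((sU μ : Fˣ) : F) = σ (μ : F) := fun μ => rfl
  let N : Fˣ →* Fˣ := MonoidHom.id Fˣ * sU
  let β : Fˣ →* Fˣ := MonoidHom.id Fˣ / sU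
  have hN : ∀ μ : Fˣ, N μ = μ * sU μ := fun μ => rfl
  have hβ : ∀ μ : Fˣ, β μ = μ / sU μ := fun μ => rfl
  have hss : ∀ μ : Fˣ, sU (sU μ) = μ := fun μ => Units.ext (by rw [hsU, hsU, hinv])
  obtain ⟨b, hb⟩ := exists_moved σ hne
  have h1 : β.range = N.ker := by
    ext μ
    rw [MonoidHom.mem_range, MonoidHom.mem_ker]
    constructor
    · rintro ⟨ν, rfl⟩
      rw [hN, hβ, map_div, hss, div_mul_div_cancel, div_self']
    · intro hμ
      have hμ' : (μ : F) * σ (μ : F) = 1 := by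
        have h := congrArg Units.val hμ
        rw [hN, Units.val_mul, hsU, Units.val_one] at h
        exact h
      have hcl : ∀ x : F, (μ : F) * σ (x + (μ : F) * σ x) = x + (μ : F) * σ x := by
        intro x
        rw [map_add, map_mul, hinv]
        linear_combination x * hμ'
      obtain ⟨x, hx⟩ : ∃ x : F, x + (μ : F) * σ x ≠ 0 := by
        by_cases h1μ : (1 : F) + (μ : F) = 0
        · refine ⟨b, fun h => hb ?_⟩
          have h2 : (μ : F) = -1 := by linear_combination h1μ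
          rw [h2] at h
          linear_combination -h
        · exact ⟨1, by rw [map_one, mul_one]; exact h1μ⟩
      refine ⟨Units.mk0 _ hx, ?_⟩
      rw [hβ, div_eq_iff_eq_mul]
      apply Units.ext
      rw [Units.val_mul, hsU, Units.val_mk0]
      exact (hcl x).symm
  have h2 : N.range ≤ β.ker := by
    rintro _ ⟨μ, rfl⟩
    rw [MonoidHom.mem_ker, hβ, hN, map_mul, hss, mul_comm (sU μ) μ, div_self']
  have h3 : Nat.card β.ker * Nat.card β.range = Nat.card Fˣ := by
    rw [← Subgroup.index_ker]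
    exact Subgroup.card_mul_index _
  have h4 : Nat.card N.ker * Nat.card N.range = Nat.card Fˣ := by
    rw [← Subgroup.index_ker]
    exact Subgroup.card_mul_index _
  have h5 : Nat.card β.ker = Nat.card N.range := by
    rw [h1] at h3
    have hpos : 0 < Nat.card N.ker := Nat.card_pos
    have h6 : Nat.card N.ker * Nat.card β.ker = Nat.card N.ker * Nat.card N.range := by
      rw [h4, mul_comm, h3]
    exact Nat.eq_of_mul_eq_mul_left hpos h6
  have h6 : N.range = β.ker := Subgroup.eq_of_le_of_card_ge h2 (le_of_eq h5)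
  have h7 : Units.mk0 c hc0 ∈ β.ker := by
    rw [MonoidHom.mem_ker, hβ, div_eq_one]
    apply Units.ext
    rw [hsU, Units.val_mk0, hc]
  rw [← h6] at h7
  obtain ⟨μ, hμ⟩ := h7
  refine ⟨(μ : F), ?_⟩
  have h := congrArg Units.val hμ
  rw [hN, Units.val_mul, hsU, Units.val_mk0] at h
  exact h

end FieldLemmas

section Form

variable {F : Type*} [Field F] {ι : Type} [Fintype ι] [DecidableEq ι]
variable {σ : F ≃+* F} {f : (ι → F) → (ι → F) → F}

theorem f_add_right (hf : Cfsg.Geo.IsUnitaryForm σ f) (v x y : ι → F) :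
    f v (x + y) = f v x + f v y := by
  rw [hf.herm v (x + y), hf.add_left, map_add, ← hf.herm, ← hf.herm]

theorem f_smul_right (hf : Cfsg.Geo.IsUnitaryForm σ f) (c : F) (v x : ι → F) :
    f v (c • x) = σ c * f v x := by
  rw [hf.herm v (c • x), hf.smul_left, map_mul, ← hf.herm]

theorem f_zero_left (hf : Cfsg.Geo.IsUnitaryForm σ f) (x : ι → F) : f 0 x = 0 := by
  have h := hf.smul_left 0 0 x
  rw [zero_smul, zero_mul] at h
  exact h

theorem f_zero_right (hf : Cfsg.Geo.IsUnitaryForm σ f) (x : ι → F) : f x 0 = 0 := by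
  rw [hf.herm, f_zero_left hf, map_zero]

theorem f_neg_left (hf : Cfsg.Geo.IsUnitaryForm σ f) (x y : ι → F) : f (-x) y = - f x y := by
  have h := hf.smul_left (-1) x y
  rw [neg_one_smul, neg_one_mul] at h
  exact h

theorem f_neg_right (hf : Cfsg.Geo.IsUnitaryForm σ f) (x y : ι → F) : f x (-y) = - f x y := by
  rw [hf.herm, f_neg_left hf, map_neg, ← hf.herm]

theorem f_self (hf : Cfsg.Geo.IsUnitaryForm σ f) (x : ι → F) : σ (f x x) = f x x :=
  (hf.herm x x).symm

theorem f_swap_zero (hf : Cfsg.Geo.IsUnitaryForm σ f) {x y : ι → F} (h : f x y = 0) :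
    f y x = 0 := by
  rw [hf.herm, h, map_zero]

theorem f_swap_ne (hf : Cfsg.Geo.IsUnitaryForm σ f) {x y : ι → F} (h : f x y ≠ 0) :
    f y x ≠ 0 := fun h' => h (f_swap_zero hf h')

theorem f_comb (hf : Cfsg.Geo.IsUnitaryForm σ f) (x y x' y' : ι → F) (l m : F) :
    f (x + l • y) (x' + m • y') =
      f x x' + σ m * f x y' + l * f y x' + l * σ m * f y y' := by
  rw [hf.add_left, f_add_right hf, f_add_right hf, hf.smul_left, hf.smul_left,
    f_smul_right hf, f_smul_right hf]
  ring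

/-- the functional `x ↦ f x w` -/
def Lf (hf : Cfsg.Geo.IsUnitaryForm σ f) (w : ι → F) : (ι → F) →ₗ[F] F where
  toFun x := f x w
  map_add' x y := hf.add_left x y w
  map_smul' c x := by rw [hf.smul_left, RingHom.id_apply, smul_eq_mul]

theorem Lf_apply (hf : Cfsg.Geo.IsUnitaryForm σ f) (w x : ι → F) : Lf hf w x = f x w := rfl

theorem f_expand (hf : Cfsg.Geo.IsUnitaryForm σ f) (x w : ι → F) :
    f x w = ∑ i, x i * f (fun j => if i = j then 1 else 0) w := by
  have h := LinearMap.pi_apply_eq_sum_univ (Lf hf w) x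
  rw [Lf_apply] at h
  rw [h]
  exact Finset.sum_congr rfl (fun i _ => by rw [Lf_apply, smul_eq_mul])

/-- Riesz representation -/
theorem exists_riesz (hf : Cfsg.Geo.IsUnitaryForm σ f) (L : (ι → F) →ₗ[F] F) :
    ∃ w, ∀ x, f x w = L x := by
  let Φ : (ι → F) →ₗ[F] (ι → F) :=
    { toFun := fun w i => f w (fun j => if i = j then 1 else 0)
      map_add' := fun x y => by
        funext i
        exact hf.add_left x y _
      map_smul' := fun c x => by
        funext i
        show f (c • x) _ = c * f x _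
        exact hf.smul_left c x _ }
  have hΦ : ∀ w i, Φ w i = f w (fun j => if i = j then 1 else 0) := fun w i => rfl
  have hinj : Function.Injective Φ := by
    rw [← LinearMap.ker_eq_bot, LinearMap.ker_eq_bot']
    intro w hw
    by_contra hne
    obtain ⟨x, hx⟩ := (hf.nondegenerate w hne).1
    apply hx
    rw [f_expand hf x w]
    apply Finset.sum_eq_zero
    intro i _
    have h1 : f w (fun j => if i = j then 1 else 0) = 0 := by
      rw [← hΦ, hw]
      rfl
    rw [hf.herm, h1, map_zero, mul_zero]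
  obtain ⟨w, hw⟩ := LinearMap.injective_iff_surjective.1 hinj
    (fun i => σ (L (fun j => if i = j then 1 else 0)))
  refine ⟨w, fun x => ?_⟩
  rw [f_expand hf x w, LinearMap.pi_apply_eq_sum_univ L x]
  apply Finset.sum_congr rfl
  intro i _
  have h1 : f w (fun j => if i = j then 1 else 0) = σ (L (fun j => if i = j then 1 else 0)) := by
    rw [← hΦ, hw]
  rw [hf.herm, h1, hf.involutive, smul_eq_mul]

/-- separation: a vector outside the line `F p` is detected on `p^⊥` -/
theorem exists_sep (hf : Cfsg.Geo.IsUnitaryForm σ f) (p z : ι → F) (hp : p ≠ 0)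
    (hz : ∀ c : F, z ≠ c • p) : ∃ x, f x p = 0 ∧ f x z ≠ 0 := by
  obtain ⟨x₁, hx₁⟩ := (hf.nondegenerate p hp).1
  by_contra hcon
  push Not at hcon
  have key : ∀ x, f x (z - σ (f x₁ z / f x₁ p) • p) = 0 := by
    intro x
    have h1 : f (x - (f x p / f x₁ p) • x₁) p = 0 := by
      rw [sub_eq_add_neg, hf.add_left, f_neg_left hf, hf.smul_left, dmc hx₁]
      ring
    have h2 := hcon _ h1
    rw [sub_eq_add_neg, hf.add_left, f_neg_left hf, hf.smul_left] at h2
    rw [sub_eq_add_neg, f_add_right hf, f_neg_right hf, f_smul_right hf, hf.involutive]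
    linear_combination h2
  apply hz (σ (f x₁ z / f x₁ p))
  by_contra hne
  have hne' : z - σ (f x₁ z / f x₁ p) • p ≠ 0 := sub_ne_zero.2 hne
  obtain ⟨x, hx⟩ := (hf.nondegenerate _ hne').1
  exact hx (key x)

/-- shifting along an isotropic vector to reach an isotropic vector -/
theorem exists_iso_shift (hf : Cfsg.Geo.IsUnitaryForm σ f) (y x : ι → F) (hy : f y y = 0)
    (hxy : f y x ≠ 0) : ∃ l : F, f (x + l • y) (x + l • y) = 0 := by
  obtain ⟨t, ht⟩ := exists_trace σ hf.involutive hf.ne_refl (-(f x x))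
    (by rw [map_neg, f_self hf])
  refine ⟨t / f y x, ?_⟩
  rw [f_comb hf, hy, hf.herm x y, ← map_mul, dmc hxy, mul_zero, add_zero]
  linear_combination ht

/-- polarisation -/
theorem exists_noniso_comb (hf : Cfsg.Geo.IsUnitaryForm σ f) (x z : ι → F) (hxz : f z x ≠ 0) :
    f z z ≠ 0 ∨ f x x ≠ 0 ∨ ∃ l : F, f (x + l • z) (x + l • z) ≠ 0 := by
  by_cases hz : f z z = 0
  · by_cases hx : f x x = 0
    · right
      right
      obtain ⟨t, ht⟩ := exists_trace σ hf.involutive hf.ne_refl 1 (map_one σ)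
      refine ⟨t / f z x, ?_⟩
      rw [f_comb hf, hz, hx, hf.herm x z, ← map_mul, dmc hxz, mul_zero, add_zero, zero_add,
        add_comm, ht]
      exact one_ne_zero
    · right
      left
      exact hx
  · left
    exact hz

/-- a non-isotropic vector orthogonal to three given vectors -/
theorem exists_noniso (hf : Cfsg.Geo.IsUnitaryForm σ f) (hcard : 7 ≤ Fintype.card ι)
    (p₁ p₂ p₃ : ι → F) : ∃ z, f z p₁ = 0 ∧ f z p₂ = 0 ∧ f z p₃ = 0 ∧ f z z ≠ 0 := by
  classical
  let L : Fin 3 → ((ι → F) →ₗ[F] F) := ![Lf hf p₁, Lf hf p₂, Lf hf p₃]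
  let Ψ : (ι → F) →ₗ[F] (Fin 3 → F) := LinearMap.pi L
  have hU : ∀ x, x ∈ LinearMap.ker Ψ ↔ f x p₁ = 0 ∧ f x p₂ = 0 ∧ f x p₃ = 0 := by
    intro x
    rw [LinearMap.mem_ker]
    constructor
    · intro h
      exact ⟨congrFun h 0, congrFun h 1, congrFun h 2⟩
    · rintro ⟨h0, h1, h2⟩
      funext i
      fin_cases i
      · exact h0
      · exact h1
      · exact h2
  have hdimU : 4 ≤ Module.finrank F (LinearMap.ker Ψ) := by
    have h1 := LinearMap.finrank_range_add_finrank_ker Ψ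
    have h2 : Module.finrank F (LinearMap.range Ψ) ≤ 3 := by
      have h3 := Submodule.finrank_le (LinearMap.range Ψ)
      rw [Module.finrank_fin_fun] at h3
      exact h3
    rw [Module.finrank_fintype_fun_eq_card] at h1
    omega
  have hdimR : Module.finrank F (Submodule.span F (Set.range ![p₁, p₂, p₃])) ≤ 3 := by
    have h3 := finrank_range_le_card (R := F) ![p₁, p₂, p₃]
    rw [Fintype.card_fin] at h3
    exact h3
  obtain ⟨z₁, hz₁U, hz₁R⟩ : ∃ z₁ ∈ LinearMap.ker Ψ,
      z₁ ∉ Submodule.span F (Set.range ![p₁, p₂, p₃]) := by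
    by_contra hcon
    push Not at hcon
    have hle : LinearMap.ker Ψ ≤ Submodule.span F (Set.range ![p₁, p₂, p₃]) := hcon
    have h3 := Submodule.finrank_mono hle
    omega
  obtain ⟨x, hxU, hx⟩ : ∃ x ∈ LinearMap.ker Ψ, f x z₁ ≠ 0 := by
    by_contra hcon
    push Not at hcon
    have hle : ⨅ i, LinearMap.ker (L i) ≤ LinearMap.ker (Lf hf z₁) := by
      rw [← LinearMap.ker_pi]
      intro x hx
      exact LinearMap.mem_ker.2 (hcon x hx)
    have hmem := mem_span_of_iInf_ker_le_ker hle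
    obtain ⟨c, hc⟩ := (Submodule.mem_span_range_iff_exists_fun F).1 hmem
    have hcy : ∀ y, f y z₁ = c 0 * f y p₁ + c 1 * f y p₂ + c 2 * f y p₃ := by
      intro y
      have h := congrArg (fun M : (ι → F) →ₗ[F] F => M y) hc
      simp only [Fin.sum_univ_three, LinearMap.add_apply, LinearMap.smul_apply,
        smul_eq_mul] at h
      exact h.symm
    apply hz₁R
    have hz : z₁ = σ (c 0) • p₁ + σ (c 1) • p₂ + σ (c 2) • p₃ := by
      by_contra hne
      have hne' : z₁ - (σ (c 0) • p₁ + σ (c 1) • p₂ + σ (c 2) • p₃) ≠ 0 := sub_ne_zero.2 hne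
      obtain ⟨y, hy⟩ := (hf.nondegenerate _ hne').1
      apply hy
      rw [sub_eq_add_neg, f_add_right hf, f_neg_right hf, f_add_right hf, f_add_right hf,
        f_smul_right hf, f_smul_right hf, f_smul_right hf, hf.involutive, hf.involutive,
        hf.involutive, hcy y]
      ring
    rw [hz]
    refine Submodule.add_mem _ (Submodule.add_mem _ ?_ ?_) ?_
    · exact Submodule.smul_mem _ _ (Submodule.subset_span ⟨0, rfl⟩)
    · exact Submodule.smul_mem _ _ (Submodule.subset_span ⟨1, rfl⟩)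
    · exact Submodule.smul_mem _ _ (Submodule.subset_span ⟨2, rfl⟩)
  have hxU' := (hU x).1 hxU
  have hzU' := (hU z₁).1 hz₁U
  have hzx : f z₁ x ≠ 0 := f_swap_ne hf hx
  rcases exists_noniso_comb hf x z₁ hzx with h | h | ⟨l, h⟩
  · exact ⟨z₁, hzU'.1, hzU'.2.1, hzU'.2.2, h⟩
  · exact ⟨x, hxU'.1, hxU'.2.1, hxU'.2.2, h⟩
  · refine ⟨x + l • z₁, ?_, ?_, ?_, h⟩
    · rw [hf.add_left, hf.smul_left, hxU'.1, hzU'.1, mul_zero, add_zero]
    · rw [hf.add_left, hf.smul_left, hxU'.2.1, hzU'.2.1, mul_zero, add_zero]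
    · rw [hf.add_left, hf.smul_left, hxU'.2.2, hzU'.2.2, mul_zero, add_zero]

/-- completing a non-isotropic vector to an isotropic one -/
theorem exists_iso_compl [Finite F] (hf : Cfsg.Geo.IsUnitaryForm σ f)
    (hcard : 7 ≤ Fintype.card ι) (z p₁ p₂ : ι → F) (hz : f z z ≠ 0) :
    ∃ x, f x z = 0 ∧ f x p₁ = 0 ∧ f x p₂ = 0 ∧ f (z + x) (z + x) = 0 := by
  obtain ⟨x₁, h1, h2, h3, h4⟩ := exists_noniso hf hcard z p₁ p₂
  have hc : σ (-(f z z) / f x₁ x₁) = -(f z z) / f x₁ x₁ := by
    rw [map_div₀, map_neg, f_self hf, f_self hf]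
  obtain ⟨m, hm⟩ := exists_norm σ hf.involutive hf.ne_refl _ hc
  refine ⟨m • x₁, ?_, ?_, ?_, ?_⟩
  · rw [hf.smul_left, h1, mul_zero]
  · rw [hf.smul_left, h2, mul_zero]
  · rw [hf.smul_left, h3, mul_zero]
  · rw [f_comb hf, h1, f_swap_zero hf h1, hm, mul_zero, mul_zero, add_zero, add_zero, dmc h4]
    ring

end Form

section GroupSide

variable {F : Type*} [Field F] {ι : Type} [Fintype ι] [DecidableEq ι]
variable {σ : F ≃+* F} {f : (ι → F) → (ι → F) → F}

/-- the action of `GL` on vectors -/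
def act (g : Matrix.GeneralLinearGroup ι F) (x : ι → F) : ι → F := (g : Matrix ι ι F) *ᵥ x

theorem act_mul (g h : Matrix.GeneralLinearGroup ι F) (x : ι → F) :
    act (g * h) x = act g (act h x) := by
  unfold act
  rw [Units.val_mul, Matrix.mulVec_mulVec]

theorem act_one (x : ι → F) : act (1 : Matrix.GeneralLinearGroup ι F) x = x := by
  unfold act
  rw [Units.val_one, Matrix.one_mulVec]

theorem act_add (g : Matrix.GeneralLinearGroup ι F) (x y : ι → F) :
    act g (x + y) = act g x + act g y := Matrix.mulVec_add _ _ _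

theorem act_smul (g : Matrix.GeneralLinearGroup ι F) (c : F) (x : ι → F) :
    act g (c • x) = c • act g x := Matrix.mulVec_smul _ _ _

theorem act_zero (g : Matrix.GeneralLinearGroup ι F) : act g (0 : ι → F) = 0 :=
  Matrix.mulVec_zero _

theorem act_inv_act (g : Matrix.GeneralLinearGroup ι F) (x : ι → F) :
    act g⁻¹ (act g x) = x := by
  rw [← act_mul, inv_mul_cancel, act_one]

theorem act_act_inv (g : Matrix.GeneralLinearGroup ι F) (x : ι → F) :
    act g (act g⁻¹ x) = x := by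
  rw [← act_mul, mul_inv_cancel, act_one]

theorem act_ext {g h : Matrix.GeneralLinearGroup ι F} (H : ∀ x, act g x = act h x) : g = h := by
  apply Units.ext
  apply Matrix.toLin'.injective
  apply LinearMap.ext
  intro x
  rw [Matrix.toLin'_apply, Matrix.toLin'_apply]
  exact H x

theorem act_ne_zero (g : Matrix.GeneralLinearGroup ι F) {x : ι → F} (hx : x ≠ 0) :
    act g x ≠ 0 := by
  intro h
  apply hx
  have h1 := congrArg (act g⁻¹) h
  rw [act_inv_act, act_zero] at h1
  exact h1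

/-- the transvection `x ↦ x + f x w • u` lies in `K` -/
def TT (K : Subgroup (Matrix.GeneralLinearGroup ι F)) (f : (ι → F) → (ι → F) → F)
    (u w : ι → F) : Prop :=
  f u w = 0 ∧ ∃ g ∈ K, ∀ x, act g x = x + f x w • u

variable {K : Subgroup (Matrix.GeneralLinearGroup ι F)}

theorem TT_add_left (hf : Cfsg.Geo.IsUnitaryForm σ f) {u u' w : ι → F} (h : TT K f u w)
    (h' : TT K f u' w) : TT K f (u + u') w := by
  obtain ⟨h0, g, hg, hgx⟩ := h
  obtain ⟨h0', g', hg', hgx'⟩ := h'
  refine ⟨by rw [hf.add_left, h0, h0', add_zero], g * g', K.mul_mem hg hg', fun x => ?_⟩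
  rw [act_mul, hgx', hgx, hf.add_left, hf.smul_left, h0', mul_zero, add_zero, smul_add]
  abel

theorem TT_add_right (hf : Cfsg.Geo.IsUnitaryForm σ f) {u w w' : ι → F} (h : TT K f u w)
    (h' : TT K f u w') : TT K f u (w + w') := by
  obtain ⟨h0, g, hg, hgx⟩ := h
  obtain ⟨h0', g', hg', hgx'⟩ := h'
  refine ⟨by rw [f_add_right hf, h0, h0', add_zero], g * g', K.mul_mem hg hg', fun x => ?_⟩
  rw [act_mul, hgx', hgx, hf.add_left, hf.smul_left, h0, mul_zero, add_zero, f_add_right hf,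
    add_smul]
  abel

theorem TT_neg_left (hf : Cfsg.Geo.IsUnitaryForm σ f) {u w : ι → F} (h : TT K f u w) :
    TT K f (-u) w := by
  obtain ⟨h0, g, hg, hgx⟩ := h
  refine ⟨by rw [f_neg_left hf, h0, neg_zero], g⁻¹, K.inv_mem hg, fun x => ?_⟩
  have h1 : act g (x + f x w • -u) = x := by
    rw [hgx, hf.add_left, hf.smul_left, f_neg_left hf, h0, neg_zero, mul_zero, add_zero,
      smul_neg]
    abel
  have h2 := congrArg (act g⁻¹) h1
  rw [act_inv_act] at h2
  exact h2.symm

theorem TT_neg_right (hf : Cfsg.Geo.IsUnitaryForm σ f) {u w : ι → F} (h : TT K f u w) :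
    TT K f u (-w) := by
  obtain ⟨h0, g, hg, hgx⟩ := TT_neg_left hf h
  refine ⟨by rw [f_neg_right hf, h.1, neg_zero], g, hg, fun x => ?_⟩
  rw [hgx, f_neg_right hf, smul_neg, neg_smul]

theorem TT_conj (hf : Cfsg.Geo.IsUnitaryForm σ f) {k : Matrix.GeneralLinearGroup ι F}
    (hk : k ∈ K) {u w w' : ι → F} (h : TT K f u w)
    (hw : ∀ x, f (act k⁻¹ x) w = f x w') : TT K f (act k u) w' := by
  obtain ⟨h0, g, hg, hgx⟩ := h
  refine ⟨?_, k * g * k⁻¹, K.mul_mem (K.mul_mem hk hg) (K.inv_mem hk), fun x => ?_⟩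
  · rw [← hw, act_inv_act, h0]
  · rw [act_mul, act_mul, hgx, act_add, act_smul, act_act_inv, hw]

theorem TT_isom (hf : Cfsg.Geo.IsUnitaryForm σ f) {k : Matrix.GeneralLinearGroup ι F}
    (hk : k ∈ K) (hiso : ∀ x y, f (act k x) (act k y) = f x y) {u w : ι → F}
    (h : TT K f u w) : TT K f (act k u) (act k w) := by
  apply TT_conj hf hk h
  intro x
  rw [← hiso (act k⁻¹ x) w, act_act_inv]

theorem tv_isom (hf : Cfsg.Geo.IsUnitaryForm σ f) {k : Matrix.GeneralLinearGroup ι F}
    {y : ι → F} {a : F} (hy : f y y = 0) (ha : σ a = -a)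
    (hk : ∀ x, act k x = x + f x y • (a • y)) :
    ∀ x x', f (act k x) (act k x') = f x x' := by
  intro x x'
  rw [hk, hk, smul_smul, smul_smul, f_comb hf, hy, map_mul, ha, ← hf.herm y x']
  ring

/-- the transvection with given centre and axis, as an element of `GL` -/
theorem exists_tv (hf : Cfsg.Geo.IsUnitaryForm σ f) (u w : ι → F) (huw : f u w = 0) :
    ∃ t : Matrix.GeneralLinearGroup ι F, (t : Matrix ι ι F).det = 1 ∧
      ∀ x, act t x = x + f x w • u := by
  let φ : ι → F := fun i => f (fun j => if i = j then 1 else 0) w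
  have hφ : ∀ x, φ ⬝ᵥ x = f x w := by
    intro x
    rw [f_expand hf x w]
    show ∑ i, f (fun j => if i = j then 1 else 0) w * x i = _
    exact Finset.sum_congr rfl (fun i _ => mul_comm _ _)
  have hdet : 1 + φ ⬝ᵥ u ≠ 0 := by
    rw [hφ, huw, add_zero]
    exact one_ne_zero
  refine ⟨Parab.tgl u φ hdet, ?_, fun x => ?_⟩
  · rw [Parab.tgl_val, Parab.tmat_det, hφ, huw, add_zero]
  · unfold act
    rw [Parab.tgl_val, Parab.tmat_mulVec, hφ]

theorem S1 (hf : Cfsg.Geo.IsUnitaryForm σ f)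
    (hK : Cfsg.Geo.similarityGroup f ⊓ Cfsg.Geo.specialLinear ι F ≤ K)
    (y : ι → F) (a : F) (hy : f y y = 0) (ha : σ a = -a) :
    ∃ k ∈ K, ∀ x, act k x = x + f x y • (a • y) := by
  obtain ⟨t, hdet, hact⟩ := exists_tv hf (a • y) y (by rw [hf.smul_left, hy, mul_zero])
  refine ⟨t, hK (Subgroup.mem_inf.2 ⟨?_, (Parab.mem_sl_iff t).2 hdet⟩), hact⟩
  show ∃ c : Fˣ, ∀ u w, f ((t : Matrix ι ι F) *ᵥ u) ((t : Matrix ι ι F) *ᵥ w) = (c : F) * f u w
  refine ⟨1, fun u w => ?_⟩
  rw [Units.val_one, one_mul]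
  exact tv_isom hf hy ha hact u w

/-- a determinant one transvection that is not a similarity -/
theorem exists_sl_not_sim (hf : Cfsg.Geo.IsUnitaryForm σ f) (hcard : 7 ≤ Fintype.card ι) :
    ∃ t ∈ Cfsg.Geo.specialLinear ι F, t ∉ Cfsg.Geo.similarityGroup f := by
  obtain ⟨u, -, -, -, hu⟩ := exists_noniso hf hcard (0 : ι → F) 0 0
  obtain ⟨w, hwu, -, -, hw⟩ := exists_noniso hf hcard u 0 0
  have huw : f u w = 0 := f_swap_zero hf hwu
  obtain ⟨t, hdet, hact⟩ := exists_tv hf u w huw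
  refine ⟨t, (Parab.mem_sl_iff t).2 hdet, ?_⟩
  rintro ⟨c, hc⟩
  have h1 := hc w u
  change f (act t w) (act t u) = (c : F) * f w u at h1
  rw [hact, hact, huw, zero_smul, add_zero, hf.add_left, hf.smul_left, hwu, mul_zero,
    zero_add] at h1
  exact mul_ne_zero hw hu h1

/-- the closure lemma: a subgroup of `p^⊥` closed under the transvection moves and containing
a vector outside `F p` is all of `p^⊥` -/
theorem closure_lemma [Finite F] (hf : Cfsg.Geo.IsUnitaryForm σ f) (hcard : 7 ≤ Fintype.card ι)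
    (p : ι → F) (hp : p ≠ 0) (Z : Set (ι → F))
    (hZ0 : ∀ z ∈ Z, f z p = 0)
    (hadd : ∀ z ∈ Z, ∀ z' ∈ Z, z + z' ∈ Z) (hneg : ∀ z ∈ Z, -z ∈ Z)
    (hop : ∀ z ∈ Z, ∀ (y : ι → F) (a : F), f y y = 0 → f y p = 0 → σ a = -a →
      (a * f z y) • y ∈ Z)
    (z₀ : ι → F) (hz₀ : z₀ ∈ Z) (hz₀p : ∀ c : F, z₀ ≠ c • p) :
    ∀ x, f x p = 0 → x ∈ Z := by
  obtain ⟨a₀, ha₀, hσa₀⟩ := exists_skew σ hf.involutive hf.ne_refl
  have hz₀p0 : f z₀ p = 0 := hZ0 z₀ hz₀
  -- Step A: an isotropic vector of `p^⊥` not orthogonal to `z₀`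
  obtain ⟨y₁, hy₁, hy₁p, hzy₁⟩ : ∃ y₁, f y₁ y₁ = 0 ∧ f y₁ p = 0 ∧ f z₀ y₁ ≠ 0 := by
    by_cases hz₀iso : f z₀ z₀ = 0
    · obtain ⟨x, hxp, hxz⟩ := exists_sep hf p z₀ hp hz₀p
      obtain ⟨l, hl⟩ := exists_iso_shift hf z₀ x hz₀iso (f_swap_ne hf hxz)
      refine ⟨x + l • z₀, hl, ?_, ?_⟩
      · rw [hf.add_left, hf.smul_left, hxp, hz₀p0, mul_zero, add_zero]
      · rw [f_add_right hf, f_smul_right hf, hz₀iso, mul_zero, add_zero]
        exact f_swap_ne hf hxz
    · obtain ⟨x, hxz, hxp, -, hx⟩ := exists_iso_compl hf hcard z₀ p p hz₀iso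
      refine ⟨z₀ + x, hx, ?_, ?_⟩
      · rw [hf.add_left, hz₀p0, hxp, add_zero]
      · rw [f_add_right hf, f_swap_zero hf hxz, add_zero]
        exact hz₀iso
  have hy₁z : f y₁ z₀ ≠ 0 := f_swap_ne hf hzy₁
  have hc₁ : (a₀ * f z₀ y₁) • y₁ ∈ Z := hop z₀ hz₀ y₁ a₀ hy₁ hy₁p hσa₀
  -- the second vertex of the triangle
  obtain ⟨l, hl⟩ := exists_iso_shift hf y₁ z₀ hy₁ hy₁z
  obtain ⟨y', hy'⟩ : ∃ y', y' = z₀ + l • y₁ := ⟨_, rfl⟩
  rw [← hy'] at hl
  have hy'p : f y' p = 0 := by
    rw [hy', hf.add_left, hf.smul_left, hz₀p0, hy₁p, mul_zero, add_zero]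
  have hh : f y₁ y' = f y₁ z₀ := by
    rw [hy', f_add_right hf, f_smul_right hf, hy₁, mul_zero, add_zero]
  have hh0 : f y₁ y' ≠ 0 := by
    rw [hh]
    exact hy₁z
  have hσh : σ (f y₁ y') = f y' y₁ := (hf.herm y' y₁).symm
  have hσh0 : σ (f y₁ y') ≠ 0 := by
    rw [hσh]
    exact f_swap_ne hf hh0
  -- the third vertex
  obtain ⟨z, hzp, hzy₁', hzy', hzz⟩ := exists_noniso hf hcard p y₁ y'
  have hy₁z' : f y₁ z = 0 := f_swap_zero hf hzy₁'
  have hy'z : f y' z = 0 := f_swap_zero hf hzy'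
  obtain ⟨t, ht⟩ := exists_trace σ hf.involutive hf.ne_refl (-(f z z))
    (by rw [map_neg, f_self hf])
  have hww : f (y' + z) (y' + z) = f z z := by
    rw [hf.add_left, f_add_right hf, f_add_right hf, hl, hy'z, hzy']
    ring
  have hy₁w : f y₁ (y' + z) = f y₁ y' := by
    rw [f_add_right hf, hy₁z', add_zero]
  have hwy₁ : f (y' + z) y₁ = f y' y₁ := by
    rw [hf.add_left, hzy₁', add_zero]
  have hy'w : f y' (y' + z) = 0 := by
    rw [f_add_right hf, hl, hy'z, add_zero]
  have hwp : f (y' + z) p = 0 := by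
    rw [hf.add_left, hy'p, hzp, add_zero]
  obtain ⟨y'', hy''⟩ : ∃ y'', y'' = (y' + z) + (t / f y₁ y') • y₁ := ⟨_, rfl⟩
  have hy''iso : f y'' y'' = 0 := by
    rw [hy'', f_comb hf, hww, hwy₁, hy₁w, hy₁, mul_zero, add_zero, ← hσh, ← map_mul, dmc hh0]
    linear_combination ht
  have hy''p : f y'' p = 0 := by
    rw [hy'', hf.add_left, hf.smul_left, hwp, hy₁p, mul_zero, add_zero]
  have hy'y'' : f y' y'' = σ t := by
    rw [hy'', f_add_right hf, f_smul_right hf, hy'w, zero_add, ← hσh, ← map_mul, dmc hh0]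
  have hy₁y'' : f y₁ y'' = f y₁ y' := by
    rw [hy'', f_add_right hf, f_smul_right hf, hy₁w, hy₁, mul_zero, add_zero]
  have hy''y₁ : f y'' y₁ = σ (f y₁ y') := by
    rw [hf.herm y'' y₁, hy₁y'']
  -- moving along an edge
  have hchain : ∀ (y yy : ι → F) (c a : F), f yy yy = 0 → f yy p = 0 → σ a = -a → c • y ∈ Z →
      (a * (c * f y yy)) • yy ∈ Z := by
    intro y yy c a h1 h2 h3 h4
    have h5 := hop (c • y) h4 yy a h1 h2 h3
    rw [hf.smul_left] at h5
    exact h5
  have hσa₀inv : σ a₀⁻¹ = -a₀⁻¹ := by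
    rw [map_inv₀, hσa₀, inv_neg]
  have two : ∀ c r : F, c • y₁ ∈ Z → σ r = r → (r * c) • y₁ ∈ Z := by
    intro c r hc hr
    have h1 := hchain y₁ y' c a₀ hl hy'p hσa₀ hc
    have ha' : σ (r / (a₀ * (f y₁ y' * σ (f y₁ y')))) = -(r / (a₀ * (f y₁ y' * σ (f y₁ y')))) := by
      rw [map_div₀, map_mul, map_mul, hf.involutive, hr, hσa₀]
      field_simp
    have h2 := hchain y' y₁ _ _ hy₁ hy₁p ha' h1
    rw [← hσh] at h2
    have e : r / (a₀ * (f y₁ y' * σ (f y₁ y'))) * (a₀ * (c * f y₁ y') * σ (f y₁ y')) = r * c := by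
      field_simp
    rw [e] at h2
    exact h2
  have three : ∀ c a : F, c • y₁ ∈ Z → σ a = -a →
      (a * (f y₁ y' * σ t * σ (f y₁ y')) * c) • y₁ ∈ Z := by
    intro c a hc ha
    have h1 := hchain y₁ y' c a₀ hl hy'p hσa₀ hc
    have h2 := hchain y' y'' _ a₀⁻¹ hy''iso hy''p hσa₀inv h1
    have h3 := hchain y'' y₁ _ a hy₁ hy₁p ha h2
    rw [hy'y'', hy''y₁] at h3
    have e : a * (a₀⁻¹ * (a₀ * (c * f y₁ y') * σ t) * σ (f y₁ y'))
        = a * (f y₁ y' * σ t * σ (f y₁ y')) * c := by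
      rw [mul_assoc a₀, inv_mul_cancel_left₀ ha₀]
      ring
    rw [e] at h3
    exact h3
  have hτ : f y₁ y' * σ t * σ (f y₁ y') + σ (f y₁ y' * σ t * σ (f y₁ y')) ≠ 0 := by
    rw [map_mul, map_mul, hf.involutive, hf.involutive]
    have e : f y₁ y' * σ t * σ (f y₁ y') + σ (f y₁ y') * t * f y₁ y'
        = f y₁ y' * σ (f y₁ y') * (-(f z z)) := by
      rw [← ht]
      ring
    rw [e]
    exact mul_ne_zero (mul_ne_zero hh0 hσh0) (neg_ne_zero.2 hzz)
  have hc₁ne : a₀ * f z₀ y₁ ≠ 0 := mul_ne_zero ha₀ hzy₁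
  -- the whole line through `y₁`
  have hline : ∀ s : F, s • y₁ ∈ Z := by
    intro s
    obtain ⟨r, a, hr, ha, hdec⟩ := exists_decomp σ hf.involutive _ hτ (s / (a₀ * f z₀ y₁))
    have e : s = r * (a₀ * f z₀ y₁)
        + a * (f y₁ y' * σ t * σ (f y₁ y')) * (a₀ * f z₀ y₁) := by
      have h1 : s = s / (a₀ * f z₀ y₁) * (a₀ * f z₀ y₁) := (dmc hc₁ne).symm
      rw [hdec] at h1
      rw [h1]
      ring
    rw [e, add_smul]
    exact hadd _ (two _ r hc₁ hr) _ (three _ a hc₁ ha)
  have key : ∀ x, f x p = 0 → f y₁ x ≠ 0 → x ∈ Z := by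
    intro x hxp hyx
    obtain ⟨l', hl'⟩ := exists_iso_shift hf y₁ x hy₁ hyx
    have hyp' : f (x + l' • y₁) p = 0 := by
      rw [hf.add_left, hf.smul_left, hxp, hy₁p, mul_zero, add_zero]
    have hval : f y₁ (x + l' • y₁) = f y₁ x := by
      rw [f_add_right hf, f_smul_right hf, hy₁, mul_zero, add_zero]
    have h1 := hchain y₁ (x + l' • y₁) (1 / (a₀ * f y₁ x)) a₀ hl' hyp' hσa₀ (hline _)
    rw [hval] at h1
    have e : a₀ * (1 / (a₀ * f y₁ x) * f y₁ x) = 1 := by
      field_simp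
    rw [e, one_smul] at h1
    have h2 := hadd _ h1 _ (hline (-l'))
    have e2 : x + l' • y₁ + (-l') • y₁ = x := by
      rw [neg_smul]
      abel
    rw [e2] at h2
    exact h2
  intro x hxp
  by_cases hyx : f y₁ x = 0
  · have h1 : f y₁ (x + z₀) ≠ 0 := by
      rw [f_add_right hf, hyx, zero_add]
      exact hy₁z
    have h2 := key (x + z₀) (by rw [hf.add_left, hxp, hz₀p0, add_zero]) h1
    have h3 := hadd _ h2 _ (hneg z₀ hz₀)
    have e : x + z₀ + -z₀ = x := by abel
    rw [e] at h3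
    exact h3
  · exact key x hxp hyx

end GroupSide

section Main

variable {F : Type*} [Field F] {ι : Type} [Fintype ι] [DecidableEq ι]
variable {σ : F ≃+* F} {f : (ι → F) → (ι → F) → F}
variable {K : Subgroup (Matrix.GeneralLinearGroup ι F)}

/-- a non-similarity in `K` yields a transvection in `K` with independent centre and axis -/
theorem exists_pair [Finite F] (hf : Cfsg.Geo.IsUnitaryForm σ f) (hcard : 7 ≤ Fintype.card ι)
    (hK : Cfsg.Geo.similarityGroup f ⊓ Cfsg.Geo.specialLinear ι F ≤ K)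
    (g : Matrix.GeneralLinearGroup ι F) (hgK : g ∈ K) (hg : g ∉ Cfsg.Geo.similarityGroup f) :
    ∃ u w, TT K f u w ∧ u ≠ 0 ∧ ∀ c : F, w ≠ c • u := by
  by_contra hcon
  push Not at hcon
  apply hg
  obtain ⟨a₀, ha₀, hσa₀⟩ := exists_skew σ hf.involutive hf.ne_refl
  have hd : ∀ v : ι → F, f v v = 0 → v ≠ 0 →
      ∃ d : F, d ≠ 0 ∧ ∀ y, f (act g y) (act g v) = d * f y v := by
    intro v hv hv0
    obtain ⟨k, hkK, hk⟩ := S1 hf hK v a₀ hv hσa₀
    have hTT : TT K f (a₀ • v) v := ⟨by rw [hf.smul_left, hv, mul_zero], k, hkK, hk⟩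
    obtain ⟨w', hw'⟩ := exists_riesz hf ((Lf hf v).comp
      (Matrix.toLin' ((g⁻¹ : Matrix.GeneralLinearGroup ι F) : Matrix ι ι F)))
    have hw'' : ∀ x, f (act g⁻¹ x) v = f x w' := by
      intro x
      have h1 := hw' x
      rw [LinearMap.comp_apply, Matrix.toLin'_apply, Lf_apply] at h1
      exact h1.symm
    have hTT' := TT_conj hf hgK hTT hw''
    have hne : act g (a₀ • v) ≠ 0 := act_ne_zero g (smul_ne_zero ha₀ hv0)
    obtain ⟨c, hc⟩ := hcon _ _ hTT' hne
    have hyv : ∀ y, f y v = σ (c * a₀) * f (act g y) (act g v) := by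
      intro y
      have h1 := hw'' (act g y)
      rw [act_inv_act, hc, act_smul, smul_smul, f_smul_right hf] at h1
      exact h1
    have he : σ (c * a₀) ≠ 0 := by
      intro he
      obtain ⟨y, hy⟩ := (hf.nondegenerate v hv0).1
      apply hy
      rw [hyv y, he, zero_mul]
    refine ⟨(σ (c * a₀))⁻¹, inv_ne_zero he, fun y => ?_⟩
    rw [hyv y, ← mul_assoc, inv_mul_cancel₀ he, one_mul]
  obtain ⟨z, -, -, -, hzz⟩ := exists_noniso hf hcard (0 : ι → F) 0 0
  obtain ⟨x, hxz, -, -, hx⟩ := exists_iso_compl hf hcard z 0 0 hzz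
  obtain ⟨v₁, hv₁⟩ : ∃ v₁, v₁ = z + x := ⟨_, rfl⟩
  rw [← hv₁] at hx
  have hv₁0 : v₁ ≠ 0 := by
    intro h0
    apply hzz
    have h1 : f v₁ z = f z z := by
      rw [hv₁, hf.add_left, hxz, add_zero]
    rw [← h1, h0, f_zero_left hf]
  obtain ⟨d₁, hd₁0, hd₁⟩ := hd v₁ hx hv₁0
  have hiso : ∀ v : ι → F, f v v = 0 → ∀ y, f (act g y) (act g v) = d₁ * f y v := by
    intro v hv
    by_cases hv0 : v = 0
    · intro y
      rw [hv0, act_zero, f_zero_right hf, f_zero_right hf, mul_zero]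
    by_cases hdep : ∃ c : F, v = c • v₁
    · obtain ⟨c, rfl⟩ := hdep
      intro y
      rw [act_smul, f_smul_right hf, f_smul_right hf, hd₁ y]
      ring
    · push Not at hdep
      obtain ⟨d, hd0, hdv⟩ := hd v hv hv0
      obtain ⟨l, hl0, hl⟩ : ∃ l : F, l ≠ 0 ∧ f (v₁ + l • v) (v₁ + l • v) = 0 := by
        by_cases hvv : f v v₁ = 0
        · refine ⟨1, one_ne_zero, ?_⟩
          rw [f_comb hf, hx, hv, hvv, f_swap_zero hf hvv]
          ring
        · refine ⟨a₀ / f v v₁, div_ne_zero ha₀ hvv, ?_⟩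
          rw [f_comb hf, hx, hv, hf.herm v₁ v, ← map_mul, dmc hvv, hσa₀]
          ring
      have hne : v₁ + l • v ≠ 0 := by
        intro h0
        have h1 : l • v = -v₁ := eq_neg_of_add_eq_zero_right h0
        apply hdep (-(l⁻¹))
        rw [neg_smul, ← smul_neg, ← h1, smul_smul, inv_mul_cancel₀ hl0, one_smul]
      obtain ⟨d'', hd''0, hd''⟩ := hd (v₁ + l • v) hl hne
      have hrel : ∀ y, f y (σ (d'' - d₁) • v₁ + (l * σ (d'' - d)) • v) = 0 := by
        intro y
        have h1 := hd'' y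
        simp only [act_add, act_smul, f_add_right hf, f_smul_right hf, hd₁ y, hdv y] at h1
        simp only [f_add_right hf, f_smul_right hf, map_mul, hf.involutive]
        linear_combination (-1 : F) * h1
      have hzero : σ (d'' - d₁) • v₁ + (l * σ (d'' - d)) • v = 0 := by
        by_contra hne0
        obtain ⟨y, hy⟩ := (hf.nondegenerate _ hne0).1
        exact hy (hrel y)
      have hdd : d'' = d := by
        by_contra hne1
        have hcoef : l * σ (d'' - d) ≠ 0 := by
          apply mul_ne_zero hl0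
          intro h0
          apply hne1
          have h2 := congrArg σ h0
          rw [hf.involutive, map_zero] at h2
          exact sub_eq_zero.1 h2
        have h1 : (l * σ (d'' - d)) • v = -(σ (d'' - d₁) • v₁) :=
          eq_neg_of_add_eq_zero_right hzero
        apply hdep (-((l * σ (d'' - d))⁻¹ * σ (d'' - d₁)))
        rw [neg_smul, mul_smul, ← smul_neg, ← h1, smul_smul, inv_mul_cancel₀ hcoef, one_smul]
      have hd1 : d'' = d₁ := by
        rw [hdd, sub_self, map_zero, mul_zero, zero_smul, add_zero] at hzero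
        rcases smul_eq_zero.1 hzero with h0 | h0
        · have h2 := congrArg σ h0
          rw [hf.involutive, map_zero] at h2
          rw [hdd]
          exact sub_eq_zero.1 h2
        · exact absurd h0 hv₁0
      intro y
      rw [hdv y, ← hdd, hd1]
  have hall : ∀ v y, f (act g y) (act g v) = d₁ * f y v := by
    have hsum : ∀ v v', (∀ y, f (act g y) (act g v) = d₁ * f y v) →
        (∀ y, f (act g y) (act g v') = d₁ * f y v') →
        ∀ y, f (act g y) (act g (v + v')) = d₁ * f y (v + v') := by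
      intro v v' h h' y
      rw [act_add, f_add_right hf, f_add_right hf, h y, h' y, mul_add]
    have key : ∀ v, f v₁ v ≠ 0 → ∀ y, f (act g y) (act g v) = d₁ * f y v := by
      intro v hv
      obtain ⟨l, hl⟩ := exists_iso_shift hf v₁ v hx hv
      have h1 := hiso _ hl
      have h2 : f ((-l) • v₁) ((-l) • v₁) = 0 := by
        rw [hf.smul_left, f_smul_right hf, hx, mul_zero, mul_zero]
      have h3 := hsum _ _ h1 (hiso _ h2)
      have e : v + l • v₁ + (-l) • v₁ = v := by
        rw [neg_smul]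
        abel
      rw [e] at h3
      exact h3
    intro v
    by_cases hv : f v₁ v = 0
    · obtain ⟨x', hx'⟩ := (hf.nondegenerate v₁ hv₁0).2
      have h1 := key (v + x') (by rw [f_add_right hf, hv, zero_add]; exact hx')
      have h2 := key (-x') (by rw [f_neg_right hf]; exact neg_ne_zero.2 hx')
      have h3 := hsum _ _ h1 h2
      have e : v + x' + -x' = v := by abel
      rw [e] at h3
      exact h3
    · exact key v hv
  show ∃ c : Fˣ, ∀ u v, f ((g : Matrix ι ι F) *ᵥ u) ((g : Matrix ι ι F) *ᵥ v) = (c : F) * f u v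
  exact ⟨Units.mk0 d₁ hd₁0, fun u v => by rw [Units.val_mk0]; exact hall v u⟩

/-- **Key lemma**: a subgroup containing the determinant-one similarities of a unitary form
and a non-similarity contains `SL`. -/
theorem sl_le [Finite F] (hf : Cfsg.Geo.IsUnitaryForm σ f) (hcard : 7 ≤ Fintype.card ι)
    (K : Subgroup (Matrix.GeneralLinearGroup ι F))
    (hK : Cfsg.Geo.similarityGroup f ⊓ Cfsg.Geo.specialLinear ι F ≤ K)
    (g : Matrix.GeneralLinearGroup ι F) (hgK : g ∈ K) (hg : g ∉ Cfsg.Geo.similarityGroup f) :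
    Cfsg.Geo.specialLinear ι F ≤ K := by
  haveI : Nontrivial ι := Fintype.one_lt_card_iff_nontrivial.1 (by omega)
  obtain ⟨u₀, w₀, hTT₀, hu₀, hind⟩ := exists_pair hf hcard hK g hgK hg
  have op1 : ∀ (u w y : ι → F) (a : F), TT K f u w → f y y = 0 → f w y = 0 → σ a = -a →
      TT K f ((a * f u y) • y) w := by
    intro u w y a hT hy hwy ha
    obtain ⟨k, hkK, hk⟩ := S1 hf hK y a hy ha
    have h1 := TT_isom hf hkK (tv_isom hf hy ha hk) hT
    rw [hk, hk, hwy, zero_smul, add_zero] at h1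
    have h2 := TT_add_left hf h1 (TT_neg_left hf hT)
    have e : u + f u y • a • y + -u = (a * f u y) • y := by
      rw [smul_smul, mul_comm]
      abel
    rw [e] at h2
    exact h2
  have op2 : ∀ (u w y : ι → F) (a : F), TT K f u w → f y y = 0 → f u y = 0 → σ a = -a →
      TT K f u ((a * f w y) • y) := by
    intro u w y a hT hy huy ha
    obtain ⟨k, hkK, hk⟩ := S1 hf hK y a hy ha
    have h1 := TT_isom hf hkK (tv_isom hf hy ha hk) hT
    rw [hk, hk, huy, zero_smul, add_zero] at h1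
    have h2 := TT_add_right hf h1 (TT_neg_right hf hT)
    have e : w + f w y • a • y + -w = (a * f w y) • y := by
      rw [smul_smul, mul_comm]
      abel
    rw [e] at h2
    exact h2
  have left : ∀ w u₁ : ι → F, w ≠ 0 → TT K f u₁ w → (∀ c : F, u₁ ≠ c • w) →
      ∀ u, f u w = 0 → TT K f u w := by
    intro w u₁ hw hT hind'
    exact closure_lemma hf hcard w hw {u | TT K f u w} (fun z hz => hz.1)
      (fun z hz z' hz' => TT_add_left hf hz hz') (fun z hz => TT_neg_left hf hz)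
      (fun z hz y a hy hyw ha => op1 z w y a hz hy (f_swap_zero hf hyw) ha) u₁ hT hind'
  have right : ∀ u w₁ : ι → F, u ≠ 0 → TT K f u w₁ → (∀ c : F, w₁ ≠ c • u) →
      ∀ w, f u w = 0 → TT K f u w := by
    intro u w₁ hu hT hind' w hw
    exact closure_lemma hf hcard u hu {w | TT K f u w} (fun z hz => f_swap_zero hf hz.1)
      (fun z hz z' hz' => TT_add_right hf hz hz') (fun z hz => TT_neg_right hf hz)
      (fun z hz y a hy hyu ha => op2 u z y a hz hy (f_swap_zero hf hyu) ha) w₁ hT hind' w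
      (f_swap_zero hf hw)
  have hu₀w₀ : ∀ c : F, u₀ ≠ c • w₀ := by
    intro c hc
    by_cases hc0 : c = 0
    · rw [hc0, zero_smul] at hc
      exact hu₀ hc
    · apply hind c⁻¹
      rw [hc, smul_smul, inv_mul_cancel₀ hc0, one_smul]
  have hw₀ : w₀ ≠ 0 := by
    intro h
    apply hind 0
    rw [h, zero_smul]
  have stepA : ∀ u, f u w₀ = 0 → TT K f u w₀ := left w₀ u₀ hw₀ hTT₀ hu₀w₀
  have hall : ∀ u w : ι → F, f u w = 0 → TT K f u w := by
    intro u w huw
    by_cases hw : w = 0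
    · rw [hw]
      exact ⟨f_zero_right hf u, 1, K.one_mem, fun x => by
        rw [act_one, f_zero_right hf, zero_smul, add_zero]⟩
    obtain ⟨u₂, h1, h2, -, h3⟩ := exists_noniso hf hcard w₀ w 0
    have hu₂0 : u₂ ≠ 0 := by
      intro h
      apply h3
      rw [h, f_zero_left hf]
    have hA : TT K f u₂ w₀ := stepA u₂ h1
    have hB : TT K f u₂ w := by
      refine right u₂ w₀ hu₂0 hA ?_ w h2
      intro c hc
      have h4 : f u₂ w₀ = σ c * f u₂ u₂ := by
        rw [hc, f_smul_right hf]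
      rw [h1] at h4
      rcases mul_eq_zero.1 h4.symm with h5 | h5
      · have h6 : c = 0 := by
          have h7 := congrArg σ h5
          rw [hf.involutive, map_zero] at h7
          exact h7
        apply hw₀
        rw [hc, h6, zero_smul]
      · exact h3 h5
    refine left w u₂ hw hB ?_ u huw
    intro c hc
    apply h3
    calc f u₂ u₂ = f u₂ (c • w) := by rw [← hc]
      _ = 0 := by rw [f_smul_right hf, h2, mul_zero]
  have step4 : ∀ (i j : ι) (hij : i ≠ j) (a : F),
      Matrix.SpecialLinearGroup.toGL (Matrix.SpecialLinearGroup.transvection hij a) ∈ K := by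
    intro i j hij a
    obtain ⟨w, hw⟩ := exists_riesz hf (a • (LinearMap.proj j : (ι → F) →ₗ[F] F))
    have hw' : ∀ x : ι → F, f x w = a * x j := fun x => hw x
    have h0 : f (Pi.single i 1) w = 0 := by
      rw [hw', Pi.single_apply, if_neg hij.symm, mul_zero]
    obtain ⟨-, g₁, hg₁, hgx⟩ := hall (Pi.single i 1) w h0
    have heq : Matrix.SpecialLinearGroup.toGL (Matrix.SpecialLinearGroup.transvection hij a)
        = g₁ := by
      apply act_ext
      intro x
      rw [hgx, hw']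
      have hval : ((Matrix.SpecialLinearGroup.toGL
          (Matrix.SpecialLinearGroup.transvection hij a) : Matrix.GeneralLinearGroup ι F) :
            Matrix ι ι F) = 1 + Matrix.vecMulVec (Pi.single i 1) (a • Pi.single j 1) := by
        have hs : (Matrix.single i j a : Matrix ι ι F)
            = Matrix.vecMulVec (Pi.single i 1) (a • Pi.single j 1) := by
          rw [Matrix.vecMulVec_smul, ← Matrix.single_eq_single_vecMulVec_single,
            Matrix.smul_single, smul_eq_mul, mul_one]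
        rw [← hs]
        rfl
      unfold act
      rw [hval, Parab.tmat_mulVec, smul_dotProduct, single_dotProduct, one_mul, smul_eq_mul]
    rw [heq]
    exact hg₁
  have htop : K.comap (Matrix.SpecialLinearGroup.toGL :
      Matrix.SpecialLinearGroup ι F →* Matrix.GeneralLinearGroup ι F) = ⊤ := by
    apply SLGen.eq_top_of_transvection_mem
    intro i j hij a
    exact step4 i j hij a
  intro g' hg'
  rw [Parab.mem_sl_iff] at hg'
  have h1' : ∀ s : Matrix.SpecialLinearGroup ι F, Matrix.SpecialLinearGroup.toGL s ∈ K := by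
    intro s
    have h3 : s ∈ K.comap (Matrix.SpecialLinearGroup.toGL :
        Matrix.SpecialLinearGroup ι F →* Matrix.GeneralLinearGroup ι F) := by
      rw [htop]
      exact Subgroup.mem_top _
    exact h3
  have h2 : Matrix.SpecialLinearGroup.toGL
      (⟨(g' : Matrix ι ι F), hg'⟩ : Matrix.SpecialLinearGroup ι F) = g' := Units.ext rfl
  rw [← h2]
  exact h1' _

end Main


/-- For a finite field F and n ≥ 13, let σ be a field automorphism of F of order two and f a non-degenerate unitary form on F^n with respect to σ. Then the elements of SL_n(F) that are similarities of f form a maximal subgroup of SL_n(F). -/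
theorem result {F : Type*} [Field F] [Fintype F] (n : ℕ) (hn : 13 ≤ n) (σ : F ≃+* F) (f : (Fin n → F) → (Fin n → F) → F) (hf : Cfsg.Geo.IsUnitaryForm σ f) : Cfsg.Geo.IsMaximalIn (Cfsg.Geo.specialLinear (Fin n) F) (Cfsg.Geo.similarityGroup f ⊓ Cfsg.Geo.specialLinear (Fin n) F) := by

  have hcard : 7 ≤ Fintype.card (Fin n) := by
    rw [Fintype.card_fin]
    omega
  refine ⟨lt_of_le_of_ne inf_le_right ?_, fun M hHM hMK => ?_⟩
  · intro heq
    obtain ⟨t, htSL, htSim⟩ := exists_sl_not_sim hf hcard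
    apply htSim
    have h1 : t ∈ Cfsg.Geo.similarityGroup f ⊓ Cfsg.Geo.specialLinear (Fin n) F := by
      rw [heq]
      exact htSL
    exact (Subgroup.mem_inf.1 h1).1
  · by_cases hM : M ≤ Cfsg.Geo.similarityGroup f
    · left
      exact le_antisymm (le_inf hM hMK) hHM
    · right
      obtain ⟨g, hgM, hg⟩ := SetLike.not_le_iff_exists.1 hM
      exact le_antisymm hMK (sl_le hf hcard M hHM g hgM hg)

end Cfsg.Agent.S5643
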