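import Cfsg.Statements.S0007
import Mathlib

set_option autoImplicit false
open Pointwise
open Cfsg

namespace Cfsg.Agent.S0007

/-- Subgroups of coprime index: the intersection has index equal to the product of the indices, and every element is a product of an element of the first subgroup and an element of the second. -/
theorem result {G : Type*} [Group G] [Finite G] (H K : Subgroup G)
    (h : H.index.Coprime K.index) :
    (H ⊓ K).index = H.index * K.index ∧ ∀ g : G, ∃ x ∈ H, ∃ y ∈ K, g = x * y := by
  have h1 : (H ⊓ K).index = H.index * K.index := by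
    apply Nat.le_antisymm (Subgroup.index_inf_le)
    apply Nat.le_of_dvd (Nat.pos_of_ne_zero Subgroup.index_ne_zero_of_finite)
    exact Nat.Coprime.mul_dvd_of_dvd_of_dvd h (Subgroup.index_dvd_of_le inf_le_left)
      (Subgroup.index_dvd_of_le inf_le_right)
  refine ⟨h1, ?_⟩
  -- relIndex of K in H equals index of K
  have h2 : K.relIndex H = K.index := by
    have := Subgroup.relIndex_mul_index (inf_le_left : H ⊓ K ≤ H)
    rw [h1, Subgroup.inf_relIndex_left, mul_comm] at this
    exact Nat.eq_of_mul_eq_mul_left (Nat.pos_of_ne_zero Subgroup.index_ne_zero_of_finite) this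
  -- orbit of the coset K under H
  have h3 : (MulAction.orbit H (QuotientGroup.mk 1 : G ⧸ K)).ncard = K.index := by
    rw [← MulAction.index_stabilizer, ← h2, Subgroup.relIndex]
    congr 1
    ext x
    rw [MulAction.mem_stabilizer_iff, Subgroup.mem_subgroupOf]
    show (QuotientGroup.mk ((x : G) * 1) : G ⧸ K) = QuotientGroup.mk 1 ↔ _
    rw [QuotientGroup.eq]
    simp
  have h4 : MulAction.orbit H (QuotientGroup.mk 1 : G ⧸ K) = Set.univ := by
    rw [Set.eq_univ_iff_ncard, h3, Subgroup.index]
  intro g
  have : (QuotientGroup.mk g : G ⧸ K) ∈ MulAction.orbit H (QuotientGroup.mk 1 : G ⧸ K) := by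
    rw [h4]; trivial
  obtain ⟨x, hx⟩ := this
  refine ⟨x, x.2, (x : G)⁻¹ * g, ?_, by group⟩
  have hx' : (QuotientGroup.mk ((x : G) * 1) : G ⧸ K) = QuotientGroup.mk g := hx
  rw [QuotientGroup.eq] at hx'
  simpa using hx'

end Cfsg.Agent.S0007
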