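import Cfsg.Statements.S0024
import Cfsg.Agent.Lead.Coprime2
import Mathlib

set_option autoImplicit false
open Pointwise
open Cfsg

namespace Cfsg.Agent.S0024

open Cfsg.Agent.S0001 Cfsg.Agent.Lead

/-- Under coprime action (A normalising K, coprime orders, A or K solvable), any two A-invariant Sylow p-subgroups of K are conjugate by an element of the centraliser of A in K. -/
theorem result {G : Type*} [Group G] [Finite G] (A K : Subgroup G) (hAK : A ≤ Subgroup.normalizer (K : Set G))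
    (hcop : (Nat.card A).Coprime (Nat.card K)) (hsolv : Group.IsSolvable A ∨ Group.IsSolvable K)
    (p : ℕ) [Fact p.Prime] (P Q : Sylow p K)
    (hP : A ≤ Subgroup.normalizer ((P : Subgroup K).map K.subtype : Set G))
    (hQ : A ≤ Subgroup.normalizer ((Q : Subgroup K).map K.subtype : Set G)) :
    ∃ c : K, (c : G) ∈ Subgroup.centralizer (A : Set G) ∧ MulAut.conj c • P = Q := by
  obtain ⟨k, hk⟩ := MulAction.exists_smul_eq K P Q
  set S : Subgroup G := (P : Subgroup K).map K.subtype with hS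
  set S' : Subgroup G := (Q : Subgroup K).map K.subtype with hS'
  have hPQ : ConjTo k (P : Subgroup K) (Q : Subgroup K) := by
    apply conjTo_of_smul
    rw [← hk]; rfl
  have hSS' : ConjTo (k : G) S S' := conjTo_map_subtype K k _ _ hPQ
  set T : Subgroup G := Subgroup.normalizer (S : Set G) with hT
  set N' : Subgroup G := T ⊓ K with hN'
  have hN'K : N' ≤ K := inf_le_right
  set B : Subgroup G := A.map (MulAut.conj (k : G)⁻¹).toMonoidHom with hB
  have hAB : ConjTo (k : G)⁻¹ A B := conjTo_map _ A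
  have hAB' : ∀ z, z ∈ B ↔ (k : G) * z * (k : G)⁻¹ ∈ A := fun z => by simpa using hAB z
  have hBT : B ≤ T := by
    intro z hz
    have ha := (hAB' z).1 hz
    have := (conjTo_normalizer hSS' _).1 (hQ ha)
    simpa [mul_assoc] using this
  have hAN' : A ≤ Subgroup.normalizer (N' : Set G) := by
    intro a ha
    rw [Subgroup.mem_normalizer_iff]
    intro h
    have haT : a ∈ T := hP ha
    have h2 := (Subgroup.mem_normalizer_iff.1 (hAK ha)) h
    constructor
    · rintro ⟨h1, hK⟩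
      exact ⟨T.mul_mem (T.mul_mem haT h1) (T.inv_mem haT), h2.1 hK⟩
    · rintro ⟨h1, hK⟩
      refine ⟨?_, h2.2 hK⟩
      have : a⁻¹ * (a * h * a⁻¹) * a ∈ T := T.mul_mem (T.mul_mem (T.inv_mem haT) h1) haT
      simpa [mul_assoc] using this
  have hBsup : B ⊔ N' = A ⊔ N' := by
    apply le_antisymm
    · apply sup_le _ le_sup_right
      intro z hz
      have ha := (hAB' z).1 hz
      have e : z = ((k:G) * z * (k:G)⁻¹) * (((k:G) * z * (k:G)⁻¹)⁻¹ * z) := by group
      rw [e]
      refine Subgroup.mul_mem_sup ha ⟨T.mul_mem (T.inv_mem (hP ha)) (hBT hz), ?_⟩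
      have h3 : ((k:G) * z * (k:G)⁻¹)⁻¹ * (k:G)⁻¹ * ((k:G) * z * (k:G)⁻¹)⁻¹⁻¹ ∈ K :=
        ((Subgroup.mem_normalizer_iff.1 (hAK (A.inv_mem ha))) _).1 (K.inv_mem k.2)
      have h4 := K.mul_mem h3 k.2
      have e2 : ((k:G) * z * (k:G)⁻¹)⁻¹ * z =
          ((k:G) * z * (k:G)⁻¹)⁻¹ * (k:G)⁻¹ * ((k:G) * z * (k:G)⁻¹)⁻¹⁻¹ * k := by group
      rw [e2]; exact h4
    · apply sup_le _ le_sup_right
      intro a ha
      have hb : (k:G)⁻¹ * a * k ∈ B := by rw [hAB']; simpa [mul_assoc] using ha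
      have e : a = ((k:G)⁻¹ * a * k) * (((k:G)⁻¹ * a * k)⁻¹ * a) := by group
      rw [e]
      refine Subgroup.mul_mem_sup hb ⟨T.mul_mem (T.inv_mem (hBT hb)) (hP ha), ?_⟩
      have h3 : a⁻¹ * (k:G) * a⁻¹⁻¹ ∈ K :=
        ((Subgroup.mem_normalizer_iff.1 (hAK (A.inv_mem ha))) _).1 k.2
      have h4 := K.mul_mem (K.inv_mem k.2) h3
      have e2 : ((k:G)⁻¹ * a * k)⁻¹ * a = (k:G)⁻¹ * (a⁻¹ * (k:G) * a⁻¹⁻¹) := by group
      rw [e2]; exact h4
  have hcN : (Nat.card A).Coprime (Nat.card N') := coprime_of_le le_rfl hN'K hcop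
  have hcB : (Nat.card B).Coprime (Nat.card N') := by
    rw [show Nat.card B = Nat.card A from
      Subgroup.card_map_of_injective (MulAut.conj (k:G)⁻¹).injective]
    exact hcN
  have hsolv' : Group.IsSolvable A ∨ Group.IsSolvable N' := hsolv.imp id (isSolvable_of_le hN'K)
  obtain ⟨n, hn, hnconj⟩ := conj_complement A N' B hAN' hcN hsolv' hBsup hcB
  have hnK : n ∈ K := hN'K hn
  have hcK : ((k:G) * n)⁻¹ ∈ K := K.inv_mem (K.mul_mem k.2 hnK)
  have hcent : ((k:G) * n)⁻¹ ∈ Subgroup.centralizer (A : Set G) := by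
    apply centralizes_of_normalizes A K hAK (inf_eq_bot_of_coprime' hcop) _ hcK
    intro a ha
    have hb : (k:G)⁻¹ * a * k ∈ B := by rw [hAB']; simpa [mul_assoc] using ha
    have := (hnconj _).1 hb
    simpa [mul_assoc] using this
  refine ⟨k * ⟨n, hnK⟩, ?_, ?_⟩
  · have := Subgroup.inv_mem _ hcent
    simpa using this
  · rw [← Sylow.smul_def, mul_smul]
    have hnP : (⟨n, hnK⟩ : K) • P = P := by
      rw [Sylow.smul_eq_iff_mem_normalizer]
      exact mem_normalizer_of_map_subtype K _ ⟨n, hnK⟩ hn.1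
    rw [hnP, hk]

end Cfsg.Agent.S0024
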