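import Cfsg.Statements.S0025
import Cfsg.Agent.S0023
import Mathlib

set_option autoImplicit false
open Cfsg

namespace Cfsg.Agent.S0025

open Cfsg.Agent.S0001 Cfsg.Agent.Lead

/-- Under coprime action (A normalising K, coprime orders, A or K solvable), an A-invariant p-subgroup of K is contained in an A-invariant Sylow p-subgroup of K. -/
theorem result {G : Type*} [Group G] [Finite G] (A K : Subgroup G) (hAK : A ≤ Subgroup.normalizer (K : Set G))
    (hcop : (Nat.card A).Coprime (Nat.card K)) (hsolv : Group.IsSolvable A ∨ Group.IsSolvable K)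
    (p : ℕ) [Fact p.Prime] (U : Subgroup G) (hUK : U ≤ K) (hU : IsPGroup p U) (hUA : A ≤ Subgroup.normalizer (U : Set G)) :
    ∃ P : Sylow p K, U ≤ (P : Subgroup K).map K.subtype ∧ A ≤ Subgroup.normalizer ((P : Subgroup K).map K.subtype : Set G) := by
  have hp : p.Prime := Fact.out
  obtain ⟨V, hUV, hVmax⟩ := Finite.exists_le_maximal
    (p := fun V : Subgroup G => U ≤ V ∧ V ≤ K ∧ IsPGroup p V ∧ A ≤ Subgroup.normalizer (V : Set G))
    (a := U) ⟨le_rfl, hUK, hU, hUA⟩
  obtain ⟨⟨-, hVK, hVp, hVA⟩, hVmax'⟩ := hVmax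
  set M : Subgroup G := Subgroup.normalizer (V : Set G) ⊓ K with hM
  have hMK : M ≤ K := inf_le_right
  have hVM : V ≤ M := le_inf Subgroup.le_normalizer hVK
  have hAM : A ≤ Subgroup.normalizer (M : Set G) := by
    intro a ha
    rw [Subgroup.mem_normalizer_iff]
    intro h
    have haT : a ∈ Subgroup.normalizer (V : Set G) := hVA ha
    have h2 := (Subgroup.mem_normalizer_iff.1 (hAK ha)) h
    constructor
    · rintro ⟨h1, hK⟩
      exact ⟨Subgroup.mul_mem _ (Subgroup.mul_mem _ haT h1) (Subgroup.inv_mem _ haT), h2.1 hK⟩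
    · rintro ⟨h1, hK⟩
      refine ⟨?_, h2.2 hK⟩
      have : a⁻¹ * (a * h * a⁻¹) * a ∈ Subgroup.normalizer (V : Set G) :=
        Subgroup.mul_mem _ (Subgroup.mul_mem _ (Subgroup.inv_mem _ haT) h1) haT
      simpa [mul_assoc] using this
  obtain ⟨R, hR⟩ := Cfsg.Agent.S0023.result A M hAM (coprime_of_le le_rfl hMK hcop)
    (hsolv.imp id (isSolvable_of_le hMK)) p
  set W : Subgroup G := (R : Subgroup M).map M.subtype with hW
  have hWM : W ≤ M := Subgroup.map_subtype_le _
  have hWp : IsPGroup p W := R.isPGroup'.map _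
  have hVn : (V.subgroupOf M).Normal := Subgroup.normal_subgroupOf_of_le_normalizer inf_le_left
  have hVW : V ≤ W := by
    have hVp' : IsPGroup p (V.subgroupOf M) := hVp.comap_subtype
    have h1 : V.subgroupOf M ≤ R := IsPGroup.le_sylow_of_normal hVp' R
    intro x hx
    exact ⟨⟨x, hVM hx⟩, h1 (by simpa [Subgroup.mem_subgroupOf] using hx), rfl⟩
  have hWV : W ≤ V := hVmax' ⟨hUV.trans hVW, hWM.trans hMK, hWp, hR⟩ hVW
  have hVWeq : V = W := le_antisymm hVW hWV
  obtain ⟨n, hn⟩ : ∃ n, n = (Nat.card M).factorization p := ⟨_, rfl⟩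
  have hcardV : Nat.card V = p ^ n := by
    rw [hVWeq, hW, Subgroup.card_map_of_injective M.subtype_injective, hn]
    exact R.card_eq_multiplicity
  have hcardVK : Nat.card (V.subgroupOf K) = p ^ n := by
    rw [Nat.card_congr (Subgroup.subgroupOfEquivOfLe hVK).toEquiv, hcardV]
  have hmod := Sylow.card_normalizer_modEq_card (G := K) (H := V.subgroupOf K) hcardVK
  have hcardN : Nat.card (Subgroup.normalizer ((V.subgroupOf K : Subgroup K) : Set K)) = Nat.card M := by
    rw [← Subgroup.subgroupOf_normalizer_eq hVK, ← Subgroup.inf_subgroupOf_right]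
    exact Nat.card_congr (Subgroup.subgroupOfEquivOfLe hMK).toEquiv
  rw [hcardN] at hmod
  have hK0 : Nat.card K ≠ 0 := Nat.card_pos.ne'
  have hM0 : Nat.card M ≠ 0 := Nat.card_pos.ne'
  have h1 : ¬ p ^ (n + 1) ∣ Nat.card M := by
    rw [hp.pow_dvd_iff_le_factorization hM0, ← hn]; omega
  have h2 : ¬ p ^ (n + 1) ∣ Nat.card K := fun h => h1 ((hmod.dvd_iff dvd_rfl).2 h)
  have h3 : p ^ n ∣ Nat.card K := by rw [← hcardV]; exact Subgroup.card_dvd_of_le hVK
  have hfac : (Nat.card K).factorization p = n := by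
    rw [hp.pow_dvd_iff_le_factorization hK0] at h2 h3
    omega
  have hcard' : Nat.card (V.subgroupOf K) = p ^ (Nat.card K).factorization p := by
    rw [hfac]; exact hcardVK
  have e : ((Sylow.ofCard (V.subgroupOf K) hcard' : Sylow p K) : Subgroup K).map K.subtype = V := by
    show (V.subgroupOf K).map K.subtype = V
    rw [Subgroup.subgroupOf_map_subtype, inf_eq_left.2 hVK]
  refine ⟨Sylow.ofCard (V.subgroupOf K) hcard', ?_, ?_⟩
  · rw [e]; exact hUV
  · rw [e]; exact hVA

end Cfsg.Agent.S0025
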