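import Cfsg.Statements.S0066
import Cfsg.Agent.S0001
import Cfsg.Agent.S0540
import Mathlib

set_option autoImplicit false
open Pointwise
open Cfsg

namespace Cfsg.Agent.S0066

universe u

theorem mem_conj {G : Type*} [Group G] (g y : G) (X : Subgroup G) :
    y ∈ MulAut.conj g • X ↔ g⁻¹ * y * g ∈ X := by
  rw [Subgroup.mem_pointwise_smul_iff_inv_smul_mem]
  simp [MulAut.smul_def, mul_assoc]

theorem conj_one_smul {G : Type*} [Group G] (X : Subgroup G) : MulAut.conj (1 : G) • X = X := by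
  ext y
  rw [mem_conj]
  simp

theorem sn_restrict {G : Type*} [Group G] {K C N : Subgroup G} (hCN : C ≤ N)
    (h : (K.subgroupOf N).IsSubnormal) : (K.subgroupOf C).IsSubnormal := by
  rw [← Subgroup.comap_inclusion_subgroupOf hCN]
  exact h.comap _

theorem sn_conj {G : Type*} [Group G] (a : G) {A K : Subgroup G}
    (h : (A.subgroupOf K).IsSubnormal) :
    ((MulAut.conj a • A).subgroupOf (MulAut.conj a • K)).IsSubnormal := by
  have hmem : ∀ x : ↥(MulAut.conj a • K),
      ((MulAut.conj a⁻¹).toMonoidHom.comp (MulAut.conj a • K).subtype) x ∈ K := by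
    intro x
    have hx := (mem_conj a (x : G) K).1 x.2
    show a⁻¹ * (x : G) * a⁻¹⁻¹ ∈ K
    rw [inv_inv]; exact hx
  have e : (MulAut.conj a • A).subgroupOf (MulAut.conj a • K) =
      (A.subgroupOf K).comap
        (((MulAut.conj a⁻¹).toMonoidHom.comp (MulAut.conj a • K).subtype).codRestrict K hmem) := by
    ext x
    rw [Subgroup.mem_subgroupOf, Subgroup.mem_comap, Subgroup.mem_subgroupOf, mem_conj]
    show a⁻¹ * (x : G) * a ∈ A ↔ a⁻¹ * (x : G) * a⁻¹⁻¹ ∈ A
    rw [inv_inv]
  rw [e]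
  exact h.comap _

theorem wiel_aux : ∀ (n : ℕ) (G : Type u) [Group G] [Finite G],
    Nat.card G = n → ∀ X : Subgroup G,
    (∀ a b : G, ((MulAut.conj a • X).subgroupOf
      (MulAut.conj a • X ⊔ MulAut.conj b • X)).IsSubnormal) → X.IsSubnormal := by
  intro n
  induction n using Nat.strong_induction_on with
  | _ n ih =>
    intro G _ _ hn X hX
    by_contra hnot
    have stepA : ∀ (V : Subgroup G), V ≠ ⊤ → ∀ a : G, MulAut.conj a • X ≤ V →
        ((MulAut.conj a • X).subgroupOf V).IsSubnormal := by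
      intro V hV a haV
      have hlt : Nat.card V < n := by rw [← hn]; exact Cfsg.Agent.S0001.card_sub_lt V hV
      apply ih _ hlt ↥V rfl
      intro v w
      have hE : ∀ u : ↥V, MulAut.conj u • ((MulAut.conj a • X).subgroupOf V)
          = (MulAut.conj ((u : G) * a) • X).subgroupOf V := by
        intro u
        ext y
        rw [mem_conj, Subgroup.mem_subgroupOf, Subgroup.mem_subgroupOf, mem_conj, mem_conj]
        have e : ((u : G) * a)⁻¹ * (y : G) * ((u : G) * a)
            = a⁻¹ * ((u : G)⁻¹ * (y : G) * (u : G)) * a := by group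
        rw [e]
        exact Iff.rfl
      obtain ⟨Yv, hYv⟩ : ∃ Y, Y = MulAut.conj ((v : G) * a) • X := ⟨_, rfl⟩
      obtain ⟨Yw, hYw⟩ : ∃ Y, Y = MulAut.conj ((w : G) * a) • X := ⟨_, rfl⟩
      have hsn : (Yv.subgroupOf (Yv ⊔ Yw)).IsSubnormal := by rw [hYv, hYw]; exact hX _ _
      rw [hE v, hE w, ← hYv, ← hYw]
      have hJ : Yv.subgroupOf V ⊔ Yw.subgroupOf V ≤ (Yv ⊔ Yw).subgroupOf V :=
        sup_le (Subgroup.comap_mono le_sup_left) (Subgroup.comap_mono le_sup_right)
      have e2 : (Yv.subgroupOf V).subgroupOf (Yv.subgroupOf V ⊔ Yw.subgroupOf V)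
          = (Yv.subgroupOf (Yv ⊔ Yw)).comap
            ((V.subtype.comp (Subgroup.subtype (Yv.subgroupOf V ⊔ Yw.subgroupOf V))).codRestrict
              (Yv ⊔ Yw) (fun x => hJ x.2)) :=
        Subgroup.ext fun x => Iff.rfl
      rw [e2]
      exact hsn.comap _
    have hXtop : X ≠ ⊤ := by
      intro h
      apply hnot
      rw [h]
      exact Subgroup.IsSubnormal.top
    have hX1 : ∀ V : Subgroup G, V ≠ ⊤ → X ≤ V → (X.subgroupOf V).IsSubnormal := by
      intro V hV hXV
      have h1 := stepA V hV 1 (by rw [conj_one_smul]; exact hXV)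
      rw [conj_one_smul] at h1
      exact h1
    have h3core : ∀ V : Subgroup G, V ≠ ⊤ → X ≤ V → ∀ T : Set (Subgroup G), X ∈ T →
        (∀ B ∈ T, B ≤ V) →
        Subgroup.normalizer ((sSup T : Subgroup G) : Set G) ≠ ⊤ ∧
          X ≤ Subgroup.normalizer ((sSup T : Subgroup G) : Set G) := by
      intro V hV hXV T hXT hTV
      have hXs : X ≤ sSup T := le_sSup hXT
      refine ⟨?_, hXs.trans Subgroup.le_normalizer⟩
      intro htop
      have hn : (sSup T).Normal := Subgroup.normalizer_eq_top_iff.1 htop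
      have hsV : sSup T ≤ V := sSup_le hTV
      have h2 : (X.subgroupOf (sSup T)).IsSubnormal := sn_restrict hsV (hX1 V hV hXV)
      exact hnot (Subgroup.IsSubnormal.trans hXs h2 (Subgroup.Normal.isSubnormal hn))
    obtain ⟨S, hSdef⟩ : ∃ S : Subgroup G → Set (Subgroup G), ∀ V B : Subgroup G,
        B ∈ S V ↔ (∃ g : G, B = MulAut.conj g • X) ∧ B ≤ V ∧ (B.subgroupOf V).IsSubnormal :=
      ⟨fun V => {B : Subgroup G | (∃ g : G, B = MulAut.conj g • X) ∧ B ≤ V ∧
        (B.subgroupOf V).IsSubnormal}, fun V B => Iff.rfl⟩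
    have hmemS : ∀ V : Subgroup G, V ≠ ⊤ → X ≤ V → X ∈ S V := by
      intro V hV hXV
      exact (hSdef V X).2 ⟨⟨1, (conj_one_smul X).symm⟩, hXV, hX1 V hV hXV⟩
    obtain ⟨M, hMU, hMmax⟩ := Cfsg.Agent.S0540.result X {V : Subgroup G | V ≠ ⊤ ∧ X ≤ V}
      ⟨X, hXtop, le_rfl⟩ S hSdef
      (fun V hV => hmemS V hV.1 hV.2)
      (by
        intro V hV W hW B hB hBV
        obtain ⟨⟨g, rfl⟩, -, -⟩ := (hSdef W B).1 hB
        exact (hSdef V _).2 ⟨⟨g, rfl⟩, hBV, stepA V hV.1 g hBV⟩)
      (by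
        intro V hV W hW
        exact ⟨Subgroup.normalizer ((sSup (S V ∩ S W) : Subgroup G) : Set G),
          h3core V hV.1 hV.2 (S V ∩ S W) ⟨hmemS V hV.1 hV.2, hmemS W hW.1 hW.2⟩
            (fun B hB => ((hSdef V B).1 hB.1).2.1), le_rfl⟩)
    have hconjM : ∀ g : G, MulAut.conj g • X ≤ M := by
      intro g
      by_cases hT : X ⊔ MulAut.conj g • X = ⊤
      · exfalso
        have h1 := hX 1 g
        rw [conj_one_smul, hT] at h1
        exact hnot (Subgroup.IsSubnormal.trans le_top h1 Subgroup.IsSubnormal.top)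
      · exact le_sup_right.trans (hMmax (X ⊔ MulAut.conj g • X) ⟨hT, le_sup_left⟩)
    obtain ⟨N, hNdef⟩ : ∃ N : Subgroup G, N = Subgroup.normalClosure (X : Set G) := ⟨_, rfl⟩
    have hNn : N.Normal := by rw [hNdef]; exact Subgroup.normalClosure_normal
    have hXN : X ≤ N := by rw [hNdef]; exact Subgroup.le_normalClosure
    have hNM : N ≤ M := by
      rw [hNdef]
      show Subgroup.closure (Group.conjugatesOfSet (X : Set G)) ≤ M
      rw [Subgroup.closure_le]
      intro y hy
      rw [Group.mem_conjugatesOfSet_iff] at hy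
      obtain ⟨x, hx, hc⟩ := hy
      obtain ⟨c, rfl⟩ := isConj_iff.1 hc
      apply hconjM c
      rw [mem_conj]
      have e : c⁻¹ * (c * x * c⁻¹) * c = x := by group
      rw [e]; exact hx
    have hNtop : N ≠ ⊤ := by
      intro h
      rw [h] at hNM
      exact hMU.1 (top_le_iff.1 hNM)
    exact hnot (Subgroup.IsSubnormal.trans hXN (hX1 N hNtop hXN) (Subgroup.Normal.isSubnormal hNn))

/-- Wielandt's subnormality criterion: a subgroup that is subnormal in its join with each of its conjugates is subnormal in the whole finite group. -/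
theorem result {G : Type*} [Group G] [Finite G] (A : Subgroup G)
    (h : ∀ g : G, (A.subgroupOf (A ⊔ MulAut.conj g • A)).IsSubnormal) : A.IsSubnormal := by
  apply wiel_aux _ G rfl A
  intro a b
  have h1 := sn_conj a (h (a⁻¹ * b))
  rw [Subgroup.smul_sup, Cfsg.Agent.S0540.conj_smul_smul, mul_inv_cancel_left] at h1
  exact h1

end Cfsg.Agent.S0066
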