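import Cfsg.Statements.S5120
import Cfsg.Agent.Helper25.FratEngine
import Cfsg.Agent.Helper25.FusAut
import Cfsg.Agent.S5124

set_option autoImplicit false
open Cfsg

namespace Cfsg.Agent.S5120

open Cfsg.FusionSystem Cfsg.Agent.Helper26

variable {Ω : Type*} [Group Ω] {S : Subgroup Ω}

/-! ### Part (a): `T` is strongly closed -/

/-- The maps preserving membership in `T`. -/
def TPr (T : Subgroup Ω) (P : Subgroup Ω) (φ : P →* Ω) : Prop :=
  ∀ x : P, ((x : Ω) ∈ T ↔ φ x ∈ T)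

theorem conj_iff_T {T : Subgroup Ω} (hTS : T ≤ S) (hTn : (T.subgroupOf S).Normal) {s : Ω}
    (hs : s ∈ S) (y : Ω) : y ∈ T ↔ s * y * s⁻¹ ∈ T := by
  have key : ∀ (s : Ω), s ∈ S → ∀ y ∈ T, s * y * s⁻¹ ∈ T := by
    intro s hs y hy
    exact Subgroup.mem_subgroupOf.1
      (hTn.conj_mem ⟨y, hTS hy⟩ (Subgroup.mem_subgroupOf.2 hy) ⟨s, hs⟩)
  refine ⟨key s hs y, fun h => ?_⟩
  have h1 := key s⁻¹ (S.inv_mem hs) _ h
  have h2 : s⁻¹ * (s * y * s⁻¹) * s⁻¹⁻¹ = y := by group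
  rw [h2] at h1
  exact h1

/-- The subsystem of maps preserving membership in `T`. -/
def tSys (F : Cfsg.FusionSystem S) {T : Subgroup Ω} (hTS : T ≤ S)
    (hTn : (T.subgroupOf S).Normal) : Cfsg.FusionSystem S :=
  subSys F (TPr T)
    (fun _ hg x => conj_iff_T hTS hTn hg x)
    (fun _ _ hφ hψ h x => (hφ x).trans (hψ ⟨_, h x⟩))
    (fun _ hφ ψ _ hψx => by
      rintro ⟨_, x, rfl⟩
      have h1 := hψx x
      show _ ↔ ψ ⟨_, ⟨x, rfl⟩⟩ ∈ T
      rw [h1]
      exact (hφ x).symm)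

theorem sc_of_hyp [Finite S] {p : ℕ} [Fact p.Prime] (hS : IsPGroup p S) (F : FusionSystem S)
    (hF : F.IsSaturated p) {T : Subgroup Ω} (hTS : T ≤ S) (hTn : (T.subgroupOf S).Normal)
    (hT : F.hyperfocalSubgroup p ≤ T) : F.StronglyClosed T := by
  have hle : F ≤ tSys F hTS hTn := by
    apply alperin hS F hF
    intro Q hn ha hr hc hrad α hα
    have hQS := hr.1
    have : Finite Q := finite_of_le hQS
    apply Subgroup.subset_closure
    show Q.subtype.comp α.toMonoidHom ∈ F.Hom Q ∧ TPr T Q (Q.subtype.comp α.toMonoidHom)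
    refine ⟨(mem_autGroup_iff F hQS α).1 hα, fun x => ?_⟩
    obtain ⟨-, R, hR⟩ := ha
    obtain ⟨β, hβ, γ, hγ, hαβγ⟩ := exists_mul_pResidual_sylow R ⟨α, hα⟩
    rw [hR] at hγ
    have hγ' : (γ : MulAut Q) ∈ autInducedBy S Q := Subgroup.mem_subgroupOf.1 hγ
    obtain ⟨s, hs, hsγ⟩ := (mem_autInducedBy_iff S Q _).1 hγ'
    have hαx : α x = (β : MulAut Q) ((γ : MulAut Q) x) :=
      congrArg (fun z : F.autGroup Q => (z : MulAut Q) x) hαβγ
    have hgen := hT (S5124.hyp_gen_mem F p hQS β hβ ((γ : MulAut Q) x))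
    show (x : Ω) ∈ T ↔ ((α x : Q) : Ω) ∈ T
    rw [hαx]
    have h1 : (((β : MulAut Q) ((γ : MulAut Q) x) : Q) : Ω)
        = (((γ : MulAut Q) x : Q) : Ω) * ((((γ : MulAut Q) x : Q) : Ω)⁻¹ *
          (((β : MulAut Q) ((γ : MulAut Q) x) : Q) : Ω)) := by
      rw [mul_inv_cancel_left]
    rw [h1, Subgroup.mul_mem_cancel_right _ hgen, hsγ]
    exact conj_iff_T hTS hTn hs x
  refine ⟨hTS, fun R hR φ hφ x => ?_⟩
  exact ((show φ ∈ F.Hom R ∧ TPr T R φ from hle R hφ).2 x).1 (hR x.2)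

/-! ### Part (b): invariance under `Aut_F(T)` -/

theorem autInv_of_ppower [Finite S] {p : ℕ} [Fact p.Prime] (hS : IsPGroup p S)
    (F : FusionSystem S) {T : Subgroup Ω} (hTS : T ≤ S) (E : FusionSystem T)
    (hEs : E.IsSaturated p) (hEi : E.HasPPowerIndexIn F p) : Helper25.AutInv F E := by
  have hfT : Finite T := finite_of_le hTS
  have hTp : IsPGroup p T := isPGroup_of_le hS hTS
  have hle : E ≤ Helper25.invCore F E := by
    apply alperin hTp E hEs
    intro Q hn ha hr hc hrad γ hγ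
    have hQT := hr.1
    have hQS := hQT.trans hTS
    have : Finite Q := finite_of_le hQS
    apply Helper25.mem_invCore_autGroup hQT hγ
    intro α hα Q' e he
    have hαiso : IsIso F α := (mem_autGroup_iff F hTS α).1 hα
    have heiso : IsIso F e := by
      have h1 : (T.subtype.comp α.toMonoidHom).comp (Subgroup.inclusion hQT) ∈ F.Hom Q :=
        fs_restrict F hQT hαiso
      exact fs_congr F h1 (fun x => he x)
    have hQ'T : Q' ≤ T := by
      intro y hy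
      have h1 := he (e.symm ⟨y, hy⟩)
      rw [MulEquiv.apply_symm_apply] at h1
      have h2 : y = ((α ⟨(e.symm ⟨y, hy⟩ : Q), hQT (e.symm ⟨y, hy⟩).2⟩ : T) : Ω) := h1
      rw [h2]; exact (α _).2
    have hQ'S := hQ'T.trans hTS
    have hcongr : (e.symm.trans γ).trans e = MulAut.congr e γ := MulEquiv.ext (fun _ => rfl)
    rw [hcongr]
    obtain ⟨-, R, hR⟩ := ha
    obtain ⟨β, hβ, c, hc', hγβc⟩ := exists_mul_pResidual_sylow R ⟨γ, hγ⟩
    rw [hR] at hc'
    have hc'' : (c : MulAut Q) ∈ autInducedBy T Q := Subgroup.mem_subgroupOf.1 hc'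
    obtain ⟨t, ht, htc⟩ := (mem_autInducedBy_iff T Q _).1 hc''
    have hγeq0 := Subtype.ext_iff.1 hγβc
    have hγeq : γ = (β : MulAut Q) * (c : MulAut Q) := hγeq0
    rw [hγeq, map_mul]
    refine Subgroup.mul_mem _ ?_ ?_
    · have hmem : ∀ δ : E.autGroup Q,
          ((MulAut.congr e).toMonoidHom.comp (E.autGroup Q).subtype) δ ∈ F.autGroup Q' := by
        intro δ
        have hδ : IsIso F (δ : MulAut Q) := hEi.1 Q ((mem_autGroup_iff E hQT _).1 δ.2)
        exact (mem_autGroup_iff F hQ'S _).2 (heiso.symm.trans (hδ.trans heiso))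
      obtain ⟨Tr, hTr⟩ : ∃ Tr : ↥(E.autGroup Q) →* ↥(F.autGroup Q'),
          ∀ δ : E.autGroup Q, ((Tr δ : F.autGroup Q') : MulAut Q')
            = MulAut.congr e (δ : MulAut Q) :=
        ⟨((MulAut.congr e).toMonoidHom.comp (E.autGroup Q).subtype).codRestrict _ hmem,
          fun δ => rfl⟩
      have h1 : Tr β ∈ pResidual p (F.autGroup Q') := S5124.map_pResidual_mem p Tr hβ
      have h2 := hEi.2.2 Q' hQ'T ⟨Tr β, h1, rfl⟩
      rw [← hTr]; exact h2
    · apply autInducedBy_le_autGroup E hQ'T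
      rw [mem_autInducedBy_iff]
      refine ⟨((α ⟨t, ht⟩ : T) : Ω), (α ⟨t, ht⟩).2, fun y => ?_⟩
      show ((e ((c : MulAut Q) (e.symm y)) : Q') : Ω) = _
      rw [he]
      have hx : ((e (e.symm y) : Q') : Ω)
          = ((α ⟨(e.symm y : Q), hQT (e.symm y).2⟩ : T) : Ω) := he (e.symm y)
      rw [MulEquiv.apply_symm_apply] at hx
      have h3 : (⟨(((c : MulAut Q) (e.symm y) : Q) : Ω),
            hQT ((c : MulAut Q) (e.symm y)).2⟩ : T)
          = ⟨t, ht⟩ * ⟨(e.symm y : Q), hQT (e.symm y).2⟩ * ⟨t, ht⟩⁻¹ :=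
        Subtype.ext (htc (e.symm y))
      rw [h3, map_mul, map_mul, map_inv]
      show ((α ⟨t, ht⟩ : T) : Ω) * ((α ⟨(e.symm y : Q), _⟩ : T) : Ω)
        * ((α ⟨t, ht⟩ : T) : Ω)⁻¹ = _
      rw [← hx]
  intro P φ hφ
  exact (hle P hφ).2

/-! ### Part (d): the extension condition -/

/-- The extension property of the normality condition. -/
def ExtProp (F : FusionSystem S) (T : Subgroup Ω) (α : MulAut T) : Prop :=
  ∃ β ∈ F.autGroup (T ⊔ centralizerIn S T),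
    (∀ x : T, ((β (Subgroup.inclusion le_sup_left x) : ↥(T ⊔ centralizerIn S T)) : Ω)
      = ((α x : T) : Ω)) ∧
    ∀ c : ↥(T ⊔ centralizerIn S T), (c : Ω) ∈ centralizerIn S T →
      (c : Ω)⁻¹ * ((β c : ↥(T ⊔ centralizerIn S T)) : Ω)
        ∈ T ⊓ Subgroup.centralizer (T : Set Ω)

theorem extProp_one (F : FusionSystem S) (T : Subgroup Ω) : ExtProp F T 1 :=
  ⟨1, Subgroup.one_mem _, fun _ => rfl, fun c _ => by
    show (c : Ω)⁻¹ * (c : Ω) ∈ _
    rw [inv_mul_cancel]; exact Subgroup.one_mem _⟩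

theorem aut_center_mem {T : Subgroup Ω} (α : MulAut T) {z : Ω}
    (hz : z ∈ T ⊓ Subgroup.centralizer (T : Set Ω)) :
    ((α ⟨z, hz.1⟩ : T) : Ω) ∈ T ⊓ Subgroup.centralizer (T : Set Ω) := by
  refine Subgroup.mem_inf.2 ⟨(α _).2, ?_⟩
  rw [Subgroup.mem_centralizer_iff]
  intro t ht
  have h2 : (α⁻¹ ⟨t, ht⟩ : T) * ⟨z, hz.1⟩ = ⟨z, hz.1⟩ * (α⁻¹ ⟨t, ht⟩ : T) := by
    apply Subtype.ext
    exact (Subgroup.mem_centralizer_iff.1 hz.2 _ (α⁻¹ ⟨t, ht⟩ : T).2)
  have h3 : α (α⁻¹ ⟨t, ht⟩) * α ⟨z, hz.1⟩ = α ⟨z, hz.1⟩ * α (α⁻¹ ⟨t, ht⟩) := by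
    rw [← map_mul, ← map_mul, h2]
  rw [MulAut.apply_inv_self] at h3
  have h4 := Subtype.ext_iff.1 h3
  exact h4

theorem extProp_mul (F : FusionSystem S) (T : Subgroup Ω) {α₁ α₂ : MulAut T}
    (h1 : ExtProp F T α₁) (h2 : ExtProp F T α₂) : ExtProp F T (α₁ * α₂) := by
  obtain ⟨β₁, hβ₁, r₁, c₁⟩ := h1
  obtain ⟨β₂, hβ₂, r₂, c₂⟩ := h2
  refine ⟨β₁ * β₂, Subgroup.mul_mem _ hβ₁ hβ₂, fun x => ?_, fun c hc => ?_⟩
  · show ((β₁ (β₂ (Subgroup.inclusion le_sup_left x)) : ↥(T ⊔ centralizerIn S T)) : Ω)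
      = ((α₁ (α₂ x) : T) : Ω)
    have e : β₂ (Subgroup.inclusion le_sup_left x) = Subgroup.inclusion le_sup_left (α₂ x) :=
      Subtype.ext (r₂ x)
    rw [e, r₁]
  · show (c : Ω)⁻¹ * ((β₁ (β₂ c) : ↥(T ⊔ centralizerIn S T)) : Ω) ∈ _
    have hz := c₂ c hc
    have e : β₂ c = c * Subgroup.inclusion le_sup_left
        (⟨(c : Ω)⁻¹ * ((β₂ c : ↥(T ⊔ centralizerIn S T)) : Ω), hz.1⟩ : T) := by
      apply Subtype.ext
      show _ = (c : Ω) * ((c : Ω)⁻¹ * _)
      rw [mul_inv_cancel_left]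
    have h3 : (c : Ω)⁻¹ * ((β₁ (β₂ c) : ↥(T ⊔ centralizerIn S T)) : Ω)
        = ((c : Ω)⁻¹ * ((β₁ c : ↥(T ⊔ centralizerIn S T)) : Ω))
          * ((α₁ ⟨(c : Ω)⁻¹ * ((β₂ c : ↥(T ⊔ centralizerIn S T)) : Ω), hz.1⟩ : T) : Ω) := by
      rw [← r₁, mul_assoc]
      congr 1
      have h4 := congrArg (fun w : ↥(T ⊔ centralizerIn S T) =>
        ((β₁ w : ↥(T ⊔ centralizerIn S T)) : Ω)) e
      simp only [map_mul] at h4
      exact h4
    rw [h3]
    exact Subgroup.mul_mem _ (c₁ c hc) (aut_center_mem α₁ hz)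

theorem extProp_pow (F : FusionSystem S) (T : Subgroup Ω) {α : MulAut T}
    (h : ExtProp F T α) (n : ℕ) : ExtProp F T (α ^ n) := by
  induction n with
  | zero => rw [pow_zero]; exact extProp_one F T
  | succ n ih => rw [pow_succ]; exact extProp_mul F T ih h

theorem extProp_inv (F : FusionSystem S) (T : Subgroup Ω) [Finite T] {α : MulAut T}
    (h : ExtProp F T α) : ExtProp F T α⁻¹ := by
  have h1 : α⁻¹ = α ^ (orderOf α - 1) := by
    apply inv_eq_of_mul_eq_one_right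
    rw [← pow_succ', Nat.sub_add_cancel (orderOf_pos α), pow_orderOf_eq_one]
  rw [h1]; exact extProp_pow F T h _

theorem extProp_conj (F : FusionSystem S) {T : Subgroup Ω} (hTS : T ≤ S) {α : MulAut T} {t : Ω}
    (ht : t ∈ T) (h : ∀ x : T, ((α x : T) : Ω) = t * (x : Ω) * t⁻¹) : ExtProp F T α := by
  have hMS : T ⊔ centralizerIn S T ≤ S := sup_le hTS inf_le_left
  have hTM : T ≤ T ⊔ centralizerIn S T := le_sup_left
  have htM : t ∈ T ⊔ centralizerIn S T := hTM ht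
  have htN : t ∈ Subgroup.normalizer ((T ⊔ centralizerIn S T : Subgroup Ω) : Set Ω) :=
    Subgroup.le_normalizer htM
  refine ⟨conjAut _ t htN, autInducedBy_le_autGroup F hMS (conjAut_mem S _ t (hTS ht) htN),
    fun x => ?_, fun c hc => ?_⟩
  · rw [conjAut_apply, h]; rfl
  · rw [conjAut_apply]
    have hct : t * (c : Ω) = (c : Ω) * t := Subgroup.mem_centralizer_iff.1 hc.2 t ht
    have e : (c : Ω)⁻¹ * (t * (c : Ω) * t⁻¹) = 1 := by rw [hct]; group
    rw [e]; exact Subgroup.one_mem _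

theorem exists_pow_coprime {G H : Type*} [Group G] [Group H] [Finite G] [Finite H] (p : ℕ)
    [Fact p.Prime] (b : G) (α : H) (hcop : Nat.Coprime (orderOf α) p) :
    ∃ N : ℕ, α ^ N = α ∧ Nat.Coprime (orderOf (b ^ N)) p := by
  have hp : p.Prime := Fact.out
  have hb0 : orderOf b ≠ 0 := (orderOf_pos b).ne'
  obtain ⟨a, m, hm, hbm⟩ := Nat.exists_eq_pow_mul_and_not_dvd hb0 p hp.ne_one
  have hk : 0 < orderOf α := orderOf_pos α
  have hφ : 0 < Nat.totient (orderOf α) := Nat.totient_pos.2 hk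
  have hN1 : (p ^ a) ^ Nat.totient (orderOf α) ≡ 1 [MOD orderOf α] :=
    Nat.ModEq.pow_totient (Nat.Coprime.pow_left a hcop.symm)
  refine ⟨(p ^ a) ^ Nat.totient (orderOf α), ?_, ?_⟩
  · have h1 := pow_eq_pow_iff_modEq.2 hN1
    rw [h1, pow_one]
  · have hb'ord : (b ^ ((p ^ a) ^ Nat.totient (orderOf α))) ^ m = 1 := by
      rw [← pow_mul]
      apply orderOf_dvd_iff_pow_eq_one.1
      rw [hbm]
      exact Nat.mul_dvd_mul_right (dvd_pow_self _ hφ.ne') m
    have h1 : orderOf (b ^ ((p ^ a) ^ Nat.totient (orderOf α))) ∣ m :=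
      orderOf_dvd_of_pow_eq_one hb'ord
    have h2 : Nat.Coprime m p := ((Nat.Prime.coprime_iff_not_dvd hp).2 hm).symm
    exact Nat.Coprime.coprime_dvd_left h1 h2

theorem extProp_of_coprime [Finite S] {p : ℕ} [Fact p.Prime] (hS : IsPGroup p S)
    (F : FusionSystem S) (hF : F.IsSaturated p) {T : Subgroup Ω} (hTsc : F.StronglyClosed T)
    (hT : F.hyperfocalSubgroup p ≤ T) {α : MulAut T} (hα : α ∈ F.autGroup T)
    (hcop : Nat.Coprime (orderOf α) p) : ExtProp F T α := by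
  have hTS := hTsc.1
  have hfT : Finite T := finite_of_le hTS
  have hMS : T ⊔ centralizerIn S T ≤ S := sup_le hTS inf_le_left
  have hfM : Finite ↥(T ⊔ centralizerIn S T) := finite_of_le hMS
  have hTM : T ≤ T ⊔ centralizerIn S T := le_sup_left
  have hCM : centralizerIn S T ≤ T ⊔ centralizerIn S T := le_sup_right
  have hwc := weaklyClosed_of_stronglyClosed F hTsc
  have hfn : F.IsFullyNormalized T := by
    refine ⟨hTS, fun Q hQ => ?_⟩
    obtain ⟨φ, hφ, rfl⟩ := hQ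
    rw [hwc.2 φ hφ]
  have hrec := (sat_of_fullyNormalized hS F hF hfn).2.2
  have hαiso : IsIso F α := (mem_autGroup_iff F hTS α).1 hα
  obtain ⟨χ, hχ, hχα⟩ := receptive_ext F hrec hαiso
  have hMN : T ⊔ centralizerIn S T ≤ extender S T (T.subtype.comp α.toMonoidHom) :=
    sup_le (le_extender F hαiso) (centralizerIn_le_extender S T _)
  have hχ' : χ.comp (Subgroup.inclusion hMN) ∈ F.Hom (T ⊔ centralizerIn S T) :=
    fs_restrict F hMN hχ
  have hχT : ∀ x : ↥(T ⊔ centralizerIn S T), ∀ hx : (x : Ω) ∈ T,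
      (χ.comp (Subgroup.inclusion hMN)) x = ((α ⟨x, hx⟩ : T) : Ω) := by
    intro x hx
    exact hχα ⟨x, hx⟩ (hMN x.2)
  have hmapM : ∀ z : ↥(T ⊔ centralizerIn S T),
      (χ.comp (Subgroup.inclusion hMN)) z ∈ T ⊔ centralizerIn S T := by
    apply sup_map_mem
    · intro x hx
      rw [hχT x hx]; exact hTM (α _).2
    · intro x hx
      apply hCM
      refine hom_mem_centralizerIn F hχ' (Q := T) (P := T) ?_ hx
      intro y hy
      refine ⟨Subgroup.inclusion hTM (α⁻¹ ⟨y, hy⟩), (α⁻¹ ⟨y, hy⟩).2, ?_⟩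
      rw [hχT _ (α⁻¹ ⟨y, hy⟩).2]
      show ((α (α⁻¹ ⟨y, hy⟩) : T) : Ω) = y
      rw [MulAut.apply_inv_self]
  obtain ⟨b, hb, hbχ⟩ := exists_iso_of_hom_of_card F hχ' hmapM le_rfl
  have hbmem : b ∈ F.autGroup (T ⊔ centralizerIn S T) := (mem_autGroup_iff F hMS b).2 hb
  have hbT : ∀ x : T, b ⟨x, hTM x.2⟩ = ⟨α x, hTM (α x).2⟩ := by
    intro x
    apply Subtype.ext
    rw [hbχ]
    exact hχT ⟨x, hTM x.2⟩ x.2
  obtain ⟨N, hαN, hNcop⟩ := exists_pow_coprime p b α hcop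
  have hb'mem : b ^ N ∈ F.autGroup (T ⊔ centralizerIn S T) := Subgroup.pow_mem _ hbmem N
  have hb'T : ∀ x : T, (((b ^ N) ⟨x, hTM x.2⟩ : ↥(T ⊔ centralizerIn S T)) : Ω)
      = ((α x : T) : Ω) := by
    intro x
    have h1 := Helper25.pow_restrict hTM b α hbT N x
    rw [h1]
    show (((α ^ N) x : T) : Ω) = _
    rw [hαN]
  have hres : (⟨b ^ N, hb'mem⟩ : F.autGroup (T ⊔ centralizerIn S T))
      ∈ pResidual p (F.autGroup (T ⊔ centralizerIn S T)) := by
    apply Subgroup.subset_closure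
    show Nat.Coprime (orderOf (⟨b ^ N, hb'mem⟩ : F.autGroup (T ⊔ centralizerIn S T))) p
    rw [Subgroup.orderOf_mk]
    exact hNcop
  refine ⟨b ^ N, hb'mem, fun x => hb'T x, fun c hc => ⟨?_, ?_⟩⟩
  · exact hT (S5124.hyp_gen_mem F p hMS ⟨b ^ N, hb'mem⟩ hres c)
  · refine Subgroup.mul_mem _ (Subgroup.inv_mem _ hc.2) ?_
    rw [Subgroup.mem_centralizer_iff]
    intro t ht
    have h1 : (b ^ N) ⟨(α⁻¹ ⟨t, ht⟩ : T), hTM (α⁻¹ ⟨t, ht⟩ : T).2⟩ = ⟨t, hTM ht⟩ := by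
      apply Subtype.ext
      rw [hb'T]
      show ((α (α⁻¹ ⟨t, ht⟩) : T) : Ω) = t
      rw [MulAut.apply_inv_self]
    have h2 : (⟨(α⁻¹ ⟨t, ht⟩ : T), hTM (α⁻¹ ⟨t, ht⟩ : T).2⟩ : ↥(T ⊔ centralizerIn S T)) * c
        = c * ⟨(α⁻¹ ⟨t, ht⟩ : T), hTM (α⁻¹ ⟨t, ht⟩ : T).2⟩ := by
      apply Subtype.ext
      exact Subgroup.mem_centralizer_iff.1 hc.2 _ (α⁻¹ ⟨t, ht⟩ : T).2
    have h3 : (b ^ N) ⟨(α⁻¹ ⟨t, ht⟩ : T), hTM (α⁻¹ ⟨t, ht⟩ : T).2⟩ * (b ^ N) c
        = (b ^ N) c * (b ^ N) ⟨(α⁻¹ ⟨t, ht⟩ : T), hTM (α⁻¹ ⟨t, ht⟩ : T).2⟩ := by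
      rw [← map_mul, ← map_mul, h2]
    rw [h1] at h3
    have h4 := Subtype.ext_iff.1 h3
    exact h4

/-- Let F be a saturated fusion system over a finite p-group S and T a subgroup of S containing the hyperfocal subgroup of F and normal in S. Then every saturated subsystem of F over T of p-power index is a normal subsystem of F. -/
theorem result {Ω : Type*} [Group Ω] {S : Subgroup Ω} [Finite S] (p : ℕ) [Fact p.Prime] (hS : IsPGroup p S) (F : Cfsg.FusionSystem S) (hF : F.IsSaturated p) (T : Subgroup Ω) (hTS : T ≤ S) (hTn : (T.subgroupOf S).Normal) (hT : F.hyperfocalSubgroup p ≤ T) (E : Cfsg.FusionSystem T) (hEs : E.IsSaturated p) (hEi : E.HasPPowerIndexIn F p) : E.IsNormalIn F p := by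
  have hfT : Finite T := finite_of_le hTS
  have hTp : IsPGroup p T := isPGroup_of_le hS hTS
  have hTsc := sc_of_hyp hS F hF hTS hTn hT
  have hInv := autInv_of_ppower hS F hTS E hEs hEi
  have hTnorm : ∀ s ∈ S, s ∈ Subgroup.normalizer (T : Set Ω) := by
    intro s hs
    rw [Subgroup.mem_normalizer_iff]
    exact fun y => conj_iff_T hTS hTn hs y
  have hfrat : ∀ (P : Subgroup Ω), P ≤ T → ∀ φ ∈ F.Hom P, Helper25.InD F E φ := by
    apply Helper25.frat_engine hS F hF E hTsc hInv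
    intro P' hP'T hne hfn IH γ hγ
    have hP'S := hP'T.trans hTS
    have : Finite P' := finite_of_le hP'S
    obtain ⟨-, R, hR⟩ := (sat_of_fullyNormalized hS F hF hfn).2.1
    obtain ⟨β, hβ, c, hc, hγβc⟩ := exists_mul_pResidual_sylow R ⟨γ, hγ⟩
    rw [hR] at hc
    have hc' : (c : MulAut P') ∈ autInducedBy S P' := Subgroup.mem_subgroupOf.1 hc
    obtain ⟨s, hs, hsc⟩ := (mem_autInducedBy_iff S P' _).1 hc'
    have hβE : (β : MulAut P') ∈ E.autGroup P' := hEi.2.2 P' hP'T ⟨β, hβ, rfl⟩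
    have h1 : Helper25.InD F E (P'.subtype.comp (β : MulAut P').toMonoidHom) :=
      Helper25.inD_of_mem ((mem_autGroup_iff E hP'T _).1 hβE)
    have h2 : Helper25.InD F E (P'.subtype.comp (c : MulAut P').toMonoidHom) := by
      refine Helper25.inD_of_aut hP'T
        (autInducedBy_le_autGroup F hTS (conjAut_mem S T s hs (hTnorm s hs))) (fun x => ?_)
      show (((c : MulAut P') x : P') : Ω) = _
      rw [hsc, conjAut_apply]
    refine Helper25.InD.comp hInv hP'T h2 h1 (fun x => ((c : MulAut P') x).2) (fun x => ?_)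
    have hγx : γ x = (β : MulAut P') ((c : MulAut P') x) :=
      congrArg (fun z : F.autGroup P' => (z : MulAut P') x) hγβc
    show ((γ x : P') : Ω) = (((β : MulAut P') ⟨_, _⟩ : P') : Ω)
    rw [hγx]
    rfl
  refine ⟨⟨hEs, hF, hEi.1, hTsc, hInv.toInvariant, fun P hPT φ hφ => hfrat P hPT φ hφ⟩, ?_⟩
  have hfnE : E.IsFullyNormalized T := by
    refine ⟨le_rfl, fun Q hQ => ?_⟩
    have h1 : normalizerIn T Q ≤ normalizerIn T T := by
      intro g hg
      exact ⟨hg.1, Subgroup.le_normalizer hg.1⟩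
    have : Finite ↥(normalizerIn T T) := finite_of_le (S := T) inf_le_left
    exact Subgroup.card_le_of_le h1
  obtain ⟨-, R, hR⟩ := (sat_of_fullyNormalized hTp E hEs hfnE).2.1
  have hres : ∀ β : E.autGroup T, β ∈ pResidual p (E.autGroup T) →
      ExtProp F T (β : MulAut T) := by
    intro β hβ
    refine Subgroup.closure_induction
      (p := fun (g : E.autGroup T) _ => ExtProp F T (g : MulAut T)) ?_ ?_ ?_ ?_ hβ
    · intro g hg
      have hgF : (g : MulAut T) ∈ F.autGroup T :=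
        (mem_autGroup_iff F hTS _).2 (hEi.1 T ((mem_autGroup_iff E le_rfl _).1 g.2))
      have hord : orderOf (g : MulAut T) = orderOf g := Subgroup.orderOf_coe g
      exact extProp_of_coprime hS F hF hTsc hT hgF (by rw [hord]; exact hg)
    · exact extProp_one F T
    · intro x y _ _ hx hy; exact extProp_mul F T hx hy
    · intro x _ hx; exact extProp_inv F T hx
  intro α hα
  obtain ⟨β, hβ, c, hc, hαβc⟩ := exists_mul_pResidual_sylow R ⟨α, hα⟩
  rw [hR] at hc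
  have hc' : (c : MulAut T) ∈ autInducedBy T T := Subgroup.mem_subgroupOf.1 hc
  obtain ⟨t, ht, htc⟩ := (mem_autInducedBy_iff T T _).1 hc'
  have hαeq0 := Subtype.ext_iff.1 hαβc
  have hαeq : α = (β : MulAut T) * (c : MulAut T) := hαeq0
  have hfinal : ExtProp F T α := by
    rw [hαeq]
    exact extProp_mul F T (hres β hβ) (extProp_conj F hTS ht htc)
  exact hfinal

end Cfsg.Agent.S5120
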