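import Cfsg.Statements.S5093
import Cfsg.Agent.Helper25.SubFus
import Cfsg.Agent.Helper25.GroupFusion2
import Cfsg.Agent.Helper26.FusHyp
import Cfsg.Agent.S5120

set_option autoImplicit false
open Cfsg

namespace Cfsg.Agent.S5093

open Cfsg.FusionSystem Cfsg.Agent.Helper26
open scoped commutatorElement

/-- `O^p(O^p(G)) = O^p(G)`. -/
theorem pResidual_idem (p : ℕ) (G : Type*) [Group G] : pResidual p ↥(pResidual p G) = ⊤ := by
  rw [eq_top_iff]
  rintro ⟨y, hy⟩ -
  have key : ∀ (g : G) (hg : g ∈ pResidual p G),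
      (⟨g, hg⟩ : ↥(pResidual p G)) ∈ pResidual p ↥(pResidual p G) := by
    intro g hg
    refine Subgroup.closure_induction
      (p := fun g hg => (⟨g, hg⟩ : ↥(pResidual p G)) ∈ pResidual p ↥(pResidual p G))
      ?_ ?_ ?_ ?_ hg
    · intro g hg
      have hmem : g ∈ pResidual p G := Subgroup.subset_closure hg
      have h : orderOf (⟨g, hmem⟩ : ↥(pResidual p G)) = orderOf g := Subgroup.orderOf_mk g hmem
      have hg' : Nat.Coprime (orderOf g) p := hg
      rw [← h] at hg'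
      exact Subgroup.subset_closure hg'
    · exact Subgroup.one_mem _
    · intro a b ha hb h1 h2; exact Subgroup.mul_mem _ h1 h2
    · intro a ha h1; exact Subgroup.inv_mem _ h1
  exact key y hy

theorem comm_coprime_of_mem {A : Type*} [CommGroup A] (p : ℕ) {a : A}
    (ha : a ∈ pResidual p A) : Nat.Coprime (orderOf a) p := by
  refine Subgroup.closure_induction (p := fun a _ => Nat.Coprime (orderOf a) p) ?_ ?_ ?_ ?_ ha
  · intro a ha; exact ha
  · rw [orderOf_one]; exact Nat.coprime_one_left p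
  · intro a b _ _ h1 h2
    exact Nat.Coprime.coprime_dvd_left
      ((Commute.orderOf_mul_dvd_lcm (Commute.all a b)).trans (Nat.lcm_dvd_mul _ _))
      (Nat.Coprime.mul_left h1 h2)
  · intro a _ h1; rw [orderOf_inv]; exact h1

/-- A Sylow `p`-subgroup of a group generated by `p'`-elements lies in the commutator subgroup. -/
theorem sylow_le_commutator {K : Type*} [Group K] [Finite K] {p : ℕ} [Fact p.Prime]
    (hK : pResidual p K = ⊤) (R : Sylow p K) : (R : Subgroup K) ≤ commutator K := by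
  intro x hx
  rw [← Abelianization.ker_of K, MonoidHom.mem_ker]
  have h1 : Abelianization.of x ∈ pResidual p (Abelianization K) :=
    S5124.map_pResidual_mem p Abelianization.of (by rw [hK]; trivial)
  have h2 := comm_coprime_of_mem p h1
  obtain ⟨k, hk⟩ := R.isPGroup' ⟨x, hx⟩
  have h3 : (Abelianization.of x) ^ (p ^ k) = 1 := by
    rw [← map_pow]
    have h5 := Subtype.ext_iff.1 hk
    have h4 : x ^ p ^ k = 1 := h5
    rw [h4, map_one]
  have h6 : orderOf (Abelianization.of x) ∣ p ^ k := orderOf_dvd_of_pow_eq_one h3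
  have h7 : orderOf (Abelianization.of x) = 1 :=
    Nat.Coprime.eq_one_of_dvd (Nat.Coprime.pow_right k h2) h6
  exact orderOf_eq_one_iff.1 h7

/-- A `p`-group `P` with `P = H [P,P]` for a normal subgroup `H` equals `H`. -/
theorem le_of_le_sup_commutator {G : Type*} [Group G] {p : ℕ} [Fact p.Prime] {P H : Subgroup G}
    [Finite P] (hP : IsPGroup p P) (hHP : H ≤ P) (hn : ∀ s ∈ P, ∀ y ∈ H, s * y * s⁻¹ ∈ H)
    (h : P ≤ H ⊔ ⁅P, P⁆) : P ≤ H := by
  haveI hK : (H.subgroupOf P).Normal := by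
    refine ⟨fun y hy s => ?_⟩
    exact Subgroup.mem_subgroupOf.2 (hn s s.2 y (Subgroup.mem_subgroupOf.1 hy))
  have hQp : IsPGroup p (↥P ⧸ H.subgroupOf P) := hP.to_quotient _
  haveI : Group.IsNilpotent (↥P ⧸ H.subgroupOf P) := hQp.isNilpotent
  have hall : ∀ x : ↥P, (QuotientGroup.mk' (H.subgroupOf P)) x
      ∈ commutator (↥P ⧸ H.subgroupOf P) := by
    have hM : H ⊔ ⁅P, P⁆ ≤
        ((commutator (↥P ⧸ H.subgroupOf P)).comap (QuotientGroup.mk' (H.subgroupOf P))).map
          P.subtype := by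
      refine sup_le ?_ ?_
      · intro y hy
        refine ⟨⟨y, hHP hy⟩, Subgroup.mem_comap.2 ?_, rfl⟩
        have h1 : (QuotientGroup.mk' (H.subgroupOf P)) ⟨y, hHP hy⟩ = 1 :=
          (QuotientGroup.eq_one_iff _).2 (Subgroup.mem_subgroupOf.2 hy)
        rw [h1]; exact Subgroup.one_mem _
      · rw [Subgroup.commutator_le]
        intro a ha b hb
        refine ⟨⁅(⟨a, ha⟩ : ↥P), ⟨b, hb⟩⁆, Subgroup.mem_comap.2 ?_, rfl⟩
        rw [map_commutatorElement, commutator_def]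
        exact Subgroup.commutator_mem_commutator (Subgroup.mem_top _) (Subgroup.mem_top _)
    intro x
    obtain ⟨x', hx', hxx'⟩ := hM (h x.2)
    have : x' = x := Subtype.ext hxx'
    rw [← this]; exact hx'
  have hcomm : commutator (↥P ⧸ H.subgroupOf P) = ⊤ := by
    rw [eq_top_iff]
    intro q _
    obtain ⟨x, rfl⟩ := QuotientGroup.mk'_surjective (H.subgroupOf P) q
    exact hall x
  have hsub : Subsingleton (↥P ⧸ H.subgroupOf P) := by
    by_contra hns
    haveI : Nontrivial (↥P ⧸ H.subgroupOf P) := not_subsingleton_iff_nontrivial.1 hns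
    have h1 := Group.IsSolvable.commutator_lt_top_of_nontrivial (↥P ⧸ H.subgroupOf P)
    rw [hcomm] at h1
    exact lt_irrefl _ h1
  have htop : H.subgroupOf P = ⊤ := QuotientGroup.subgroup_eq_top_of_subsingleton _ hsub
  exact Subgroup.subgroupOf_eq_top.1 htop

/-- The maps acting trivially modulo `D`. -/
def DPr {Ω : Type*} [Group Ω] (D : Subgroup Ω) (P : Subgroup Ω) (φ : P →* Ω) : Prop :=
  ∀ x : P, (x : Ω)⁻¹ * φ x ∈ D

/-- The subsystem of maps acting trivially modulo `D ≥ [T,T]`. -/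
def dSys {Ω : Type*} [Group Ω] {T : Subgroup Ω} (F : FusionSystem T) (D : Subgroup Ω)
    (hc : ⁅T, T⁆ ≤ D) : FusionSystem T :=
  subSys F (DPr D)
    (fun {P g} hP hg x => hc (by
      have h1 : (x : Ω)⁻¹ * (conjHom P g x) = ⁅(x : Ω)⁻¹, g⁆ := by
        show (x : Ω)⁻¹ * (g * (x : Ω) * g⁻¹) = (x : Ω)⁻¹ * g * (x : Ω)⁻¹⁻¹ * g⁻¹
        group
      rw [h1]
      exact Subgroup.commutator_mem_commutator (T.inv_mem (hP x.2)) hg))
    (fun {P Q φ ψ} _ _ hφ hψ h x => by
      have h1 : (x : Ω)⁻¹ * (ψ.comp (φ.codRestrict Q h)) x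
          = ((x : Ω)⁻¹ * φ x) * ((φ x)⁻¹ * ψ ⟨φ x, h x⟩) := by
        show (x : Ω)⁻¹ * ψ ⟨φ x, h x⟩ = _
        group
      rw [h1]
      exact D.mul_mem (hφ x) (hψ ⟨φ x, h x⟩))
    (fun {P φ} _ hφ ψ _ hψx => by
      rintro ⟨_, x, rfl⟩
      have h1 := hψx x
      show (φ x)⁻¹ * ψ ⟨_, ⟨x, rfl⟩⟩ ∈ D
      rw [h1]
      have h2 : (φ x)⁻¹ * (x : Ω) = ((x : Ω)⁻¹ * φ x)⁻¹ := by group
      rw [h2]
      exact D.inv_mem (hφ x))

theorem conj_mem_D {G : Type*} [Group G] [Finite G] (p : ℕ) [Fact p.Prime] (S : Sylow p G)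
    {S₀ : Subgroup G} (hS₀G₀ : S₀ ≤ pResidual p G) (hS₀S : S₀ ≤ S)
    (hcard : Nat.card S₀ = p ^ (Nat.card (pResidual p G)).factorization p)
    {D : Subgroup G} (hH : (groupFusionSystem (S : Subgroup G)).hyperfocalSubgroup p ≤ D)
    (hc : ⁅S₀, S₀⁆ ≤ D) (P : Subgroup G) (φ : P →* G)
    (hφ : φ ∈ (fusionSystemOfSubgroup (pResidual p G) S₀ hS₀G₀).Hom P) (x : P) :
    (x : G)⁻¹ * φ x ∈ D := by
  have hsat := Helper25.fusionSystemOfSubgroup_isSaturated p (pResidual p G) S₀ hS₀G₀ hcard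
  have hS₀p : IsPGroup p S₀ := S.isPGroup'.to_le hS₀S
  have hle : fusionSystemOfSubgroup (pResidual p G) S₀ hS₀G₀
      ≤ dSys (fusionSystemOfSubgroup (pResidual p G) S₀ hS₀G₀) D hc := by
    apply alperin hS₀p _ hsat
    intro Q hn ha hr hcen hrad α hα
    have hQS₀ := hr.1
    have hQS := hQS₀.trans hS₀S
    apply Subgroup.subset_closure
    show Q.subtype.comp α.toMonoidHom ∈ (fusionSystemOfSubgroup (pResidual p G) S₀ hS₀G₀).Hom Q
      ∧ DPr D Q (Q.subtype.comp α.toMonoidHom)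
    refine ⟨(mem_autGroup_iff _ hQS₀ α).1 hα, fun x => ?_⟩
    obtain ⟨-, R, hR⟩ := ha
    obtain ⟨β, hβ, γ, hγ, hαβγ⟩ := exists_mul_pResidual_sylow R ⟨α, hα⟩
    rw [hR] at hγ
    have hγ' : (γ : MulAut Q) ∈ autInducedBy S₀ Q := Subgroup.mem_subgroupOf.1 hγ
    obtain ⟨s, hs, hsγ⟩ := (mem_autInducedBy_iff S₀ Q _).1 hγ'
    have hαx : α x = (β : MulAut Q) ((γ : MulAut Q) x) :=
      congrArg (fun z : (fusionSystemOfSubgroup (pResidual p G) S₀ hS₀G₀).autGroup Q =>
        (z : MulAut Q) x) hαβγ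
    have hAut : (fusionSystemOfSubgroup (pResidual p G) S₀ hS₀G₀).autGroup Q
        ≤ (groupFusionSystem (S : Subgroup G)).autGroup Q := by
      apply Subgroup.closure_mono
      rintro δ ⟨h1, h2, g, -, hg⟩
      exact ⟨hQS, fun y => hS₀S (h2 y), g, hg⟩
    have hβ' := S5124.map_pResidual_mem p (Subgroup.inclusion hAut) hβ
    have hgen := hH (S5124.hyp_gen_mem (groupFusionSystem (S : Subgroup G)) p hQS _ hβ'
      ((γ : MulAut Q) x))
    show (x : G)⁻¹ * ((α x : Q) : G) ∈ D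
    rw [hαx]
    have h1 : (x : G)⁻¹ * (((β : MulAut Q) ((γ : MulAut Q) x) : Q) : G)
        = ((x : G)⁻¹ * (((γ : MulAut Q) x : Q) : G)) * ((((γ : MulAut Q) x : Q) : G)⁻¹ *
          (((β : MulAut Q) ((γ : MulAut Q) x) : Q) : G)) := by group
    rw [h1]
    refine D.mul_mem ?_ hgen
    rw [hsγ]
    apply hc
    have h2 : (x : G)⁻¹ * (s * (x : G) * s⁻¹) = ⁅(x : G)⁻¹, s⁆ := by
      show _ = (x : G)⁻¹ * s * (x : G)⁻¹⁻¹ * s⁻¹
      group
    rw [h2]
    exact Subgroup.commutator_mem_commutator (S₀.inv_mem (hQS₀ x.2)) hs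
  exact (hle P hφ).2 x

theorem fwd {G : Type*} [Group G] [Finite G] (p : ℕ) [Fact p.Prime] (S : Sylow p G) :
    (groupFusionSystem (S : Subgroup G)).hyperfocalSubgroup p
      ≤ (S : Subgroup G) ⊓ pResidual p G := by
  haveI hN : (pResidual p G).Normal := pResidual_normal'' p G
  refine le_inf (S5124.hyp_le _ p) (hyperfocal_le _ p _ ?_)
  intro P hP a ha hco x
  rw [Helper25.autGroup_groupFusionSystem hP] at ha
  obtain ⟨g, -, hg⟩ := Helper25.mem_autInducedBy_iff.1 ha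
  obtain ⟨N, haN, hNco⟩ := S5120.exists_pow_coprime p g a hco
  have h1 := autInducedBy_pow hg N x
  rw [haN] at h1
  rw [h1]
  have hgN : g ^ N ∈ pResidual p G := Subgroup.subset_closure hNco
  have h2 : (x : G)⁻¹ * (g ^ N * (x : G) * (g ^ N)⁻¹)
      = ((x : G)⁻¹ * g ^ N * (x : G)⁻¹⁻¹) * (g ^ N)⁻¹ := by group
  rw [h2]
  exact Subgroup.mul_mem _ (hN.conj_mem _ hgN _) (Subgroup.inv_mem _ hgN)

theorem rev {G : Type*} [Group G] [Finite G] (p : ℕ) [Fact p.Prime] (S : Sylow p G) :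
    (S : Subgroup G) ⊓ pResidual p G
      ≤ (groupFusionSystem (S : Subgroup G)).hyperfocalSubgroup p := by
  haveI hN : (pResidual p G).Normal := pResidual_normal'' p G
  have hS₀G₀ : (S : Subgroup G) ⊓ pResidual p G ≤ pResidual p G := inf_le_right
  have hS₀S : (S : Subgroup G) ⊓ pResidual p G ≤ S := inf_le_left
  have hcard := Helper25.card_sylow_inf_normal S (pResidual p G)
  have hstep : (S : Subgroup G) ⊓ pResidual p G
      ≤ (groupFusionSystem (S : Subgroup G)).hyperfocalSubgroup p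
        ⊔ ⁅(S : Subgroup G) ⊓ pResidual p G, (S : Subgroup G) ⊓ pResidual p G⁆ := by
    obtain ⟨R, hR⟩ := (Helper25.isSylowIn_iff_card hS₀G₀).mpr hcard
    have hRc : (R : Subgroup ↥(pResidual p G)) ≤ commutator ↥(pResidual p G) :=
      sylow_le_commutator (pResidual_idem p G) R
    have hfoc : (R : Subgroup ↥(pResidual p G)).focalSubgroup = R := by
      rw [← Subgroup.commutator_inf_eq_focalSubgroup R]
      exact inf_eq_right.2 hRc
    have hRD : (R : Subgroup ↥(pResidual p G)) ≤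
        ((groupFusionSystem (S : Subgroup G)).hyperfocalSubgroup p
          ⊔ ⁅(S : Subgroup G) ⊓ pResidual p G, (S : Subgroup G) ⊓ pResidual p G⁆).comap
            (pResidual p G).subtype := by
      rw [← hfoc, Subgroup.focalSubgroup_def, Subgroup.closure_le]
      rintro g ⟨hgR, x, hxR, u, rfl⟩
      show (x : G) * (u : G) * (x : G)⁻¹ * (u : G)⁻¹ ∈
        ((groupFusionSystem (S : Subgroup G)).hyperfocalSubgroup p
          ⊔ ⁅(S : Subgroup G) ⊓ pResidual p G, (S : Subgroup G) ⊓ pResidual p G⁆)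
      rw [hR] at hxR hgR
      have hx : (x : G) ∈ (S : Subgroup G) ⊓ pResidual p G := Subgroup.mem_subgroupOf.1 hxR
      have hg : (x : G) * (u : G) * (x : G)⁻¹ * (u : G)⁻¹ ∈ (S : Subgroup G) ⊓ pResidual p G :=
        Subgroup.mem_subgroupOf.1 hgR
      have hφ : conjHom (((S : Subgroup G) ⊓ pResidual p G) ⊓
            ((S : Subgroup G) ⊓ pResidual p G).comap (MulAut.conj (u : G)).toMonoidHom) (u : G)
          ∈ (fusionSystemOfSubgroup (pResidual p G) ((S : Subgroup G) ⊓ pResidual p G)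
            hS₀G₀).Hom _ :=
        ⟨inf_le_left, fun y => y.2.2, (u : G), u.2, fun y => rfl⟩
      have hxP : (x : G)⁻¹ ∈ ((S : Subgroup G) ⊓ pResidual p G) ⊓
            ((S : Subgroup G) ⊓ pResidual p G).comap (MulAut.conj (u : G)).toMonoidHom := by
        refine Subgroup.mem_inf.2 ⟨Subgroup.inv_mem _ hx, ?_⟩
        show (u : G) * (x : G)⁻¹ * (u : G)⁻¹ ∈ (S : Subgroup G) ⊓ pResidual p G
        have h1 : (u : G) * (x : G)⁻¹ * (u : G)⁻¹
            = (x : G)⁻¹ * ((x : G) * (u : G) * (x : G)⁻¹ * (u : G)⁻¹) := by group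
        rw [h1]
        exact Subgroup.mul_mem _ (Subgroup.inv_mem _ hx) hg
      have h2 := conj_mem_D p S hS₀G₀ hS₀S hcard le_sup_left le_sup_right _ _ hφ ⟨_, hxP⟩
      have h3 : ((x : G)⁻¹)⁻¹ * ((u : G) * (x : G)⁻¹ * (u : G)⁻¹)
          = (x : G) * (u : G) * (x : G)⁻¹ * (u : G)⁻¹ := by group
      rw [← h3]
      exact h2
    intro z hz
    have hzR : (⟨z, hS₀G₀ hz⟩ : ↥(pResidual p G)) ∈ (R : Subgroup ↥(pResidual p G)) := by
      rw [hR]; exact Subgroup.mem_subgroupOf.2 hz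
    exact hRD hzR
  exact le_of_le_sup_commutator (S.isPGroup'.to_le hS₀S) (fwd p S)
    (fun s hs y hy => S5124.hyp_conj _ p (hS₀S hs) y hy) hstep

/-- Hyperfocal subgroup Theorem: for a finite group G with Sylow p-subgroup S, the hyperfocal subgroup of the fusion system of G on S equals S ∩ O^p(G), where O^p(G) is the subgroup generated by the elements of order prime to p. -/
theorem result {G : Type*} [Group G] [Finite G] (p : ℕ) [Fact p.Prime] (S : Sylow p G) : (Cfsg.groupFusionSystem (S : Subgroup G)).hyperfocalSubgroup p = (S : Subgroup G) ⊓ Cfsg.pResidual p G := by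
  exact le_antisymm (fwd p S) (rev p S)

end Cfsg.Agent.S5093
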