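import Cfsg.Statements.S0078
import Mathlib
import Cfsg.Agent.S5093
import Cfsg.Agent.Helper5.Grp
import Cfsg.Agent.Helper6.PResidual

set_option autoImplicit false
open Cfsg

namespace Cfsg.Agent.S0078

open scoped Pointwise

/-- Elements of `Aut_F(R)` for the fusion system of a group are conjugations. -/
theorem autGroup_conj {G : Type*} [Group G] (S R : Subgroup G)
    (α : MulAut R) (hα : α ∈ (Cfsg.groupFusionSystem S).autGroup R) :
    ∃ g : G, ∀ x : R, ((α x : R) : G) = g * x * g⁻¹ := by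
  unfold Cfsg.FusionSystem.autGroup at hα
  induction hα using Subgroup.closure_induction with
  | mem a ha =>
    obtain ⟨-, -, g, hg⟩ := ha
    exact ⟨g, fun x => hg x⟩
  | one => exact ⟨1, fun x => by simp⟩
  | mul a b _ _ ha hb =>
    obtain ⟨g, hg⟩ := ha
    obtain ⟨k, hk⟩ := hb
    refine ⟨g * k, fun x => ?_⟩
    rw [MulAut.mul_apply, hg, hk]; group
  | inv a _ ha =>
    obtain ⟨g, hg⟩ := ha
    refine ⟨g⁻¹, fun x => ?_⟩
    have h1 := hg (a⁻¹ x)
    rw [MulAut.apply_inv_self] at h1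
    rw [h1]; group

theorem le_normalizer_center {G : Type*} [Group G] [Finite G] (P : Subgroup G) :
    P ≤ Subgroup.normalizer ((P ⊓ Subgroup.centralizer (P : Set G) : Subgroup G) : Set G) := by
  intro u hu
  apply Helper5.mem_normalizer_of_conj_mem
  intro z hz
  have h1 : u * z = z * u := Subgroup.mem_centralizer_iff.mp hz.2 u hu
  have e : u * z * u⁻¹ = z := by rw [h1]; group
  rw [e]; exact hz

/-- Control of fusion in a `p`-normal group by the normalizer of `Z(P)`. -/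
theorem control {G : Type*} [Group G] [Finite G] {p : ℕ} [Fact p.Prime] (P : Sylow p G)
    (hn : ∀ Q : Sylow p G, (P : Subgroup G) ⊓ Subgroup.centralizer (P : Set G) ≤ (Q : Subgroup G) →
      (Q : Subgroup G) ⊓ Subgroup.centralizer (Q : Set G)
        = (P : Subgroup G) ⊓ Subgroup.centralizer (P : Set G))
    (R : Subgroup G) (hR : R ≤ P) (g : G) (hg : ∀ x ∈ R, g * x * g⁻¹ ∈ (P : Subgroup G)) :
    ∃ v ∈ Subgroup.normalizer
        (((P : Subgroup G) ⊓ Subgroup.centralizer (P : Set G) : Subgroup G) : Set G),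
      ∀ x ∈ R, v * x * v⁻¹ = g * x * g⁻¹ := by
  obtain ⟨ZP, hZP⟩ : ∃ Z : Subgroup G,
      Z = (P : Subgroup G) ⊓ Subgroup.centralizer (P : Set G) := ⟨_, rfl⟩
  rw [← hZP]
  have hn' : ∀ Q : Sylow p G, ZP ≤ (Q : Subgroup G) →
      (Q : Subgroup G) ⊓ Subgroup.centralizer (Q : Set G) = ZP := by
    intro Q hQ; rw [hZP] at hQ ⊢; exact hn Q hQ
  have hZPp : IsPGroup p ZP := by
    rw [hZP]; exact P.2.to_le inf_le_left
  obtain ⟨C, hCdef⟩ : ∃ C : Subgroup G,
      C = Subgroup.centralizer ((fun x => g * x * g⁻¹) '' (R : Set G)) := ⟨_, rfl⟩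
  have hZC : ZP ≤ C := by
    intro z hz
    rw [hZP] at hz
    rw [hCdef, Subgroup.mem_centralizer_iff]
    rintro _ ⟨x, hx, rfl⟩
    exact Subgroup.mem_centralizer_iff.mp hz.2 _ (hg x hx)
  have hZgC : ZP.map (MulAut.conj g).toMonoidHom ≤ C := by
    rintro _ ⟨z, hz, rfl⟩
    rw [hZP] at hz
    rw [hCdef, Subgroup.mem_centralizer_iff]
    rintro _ ⟨x, hx, rfl⟩
    have h1 : x * z = z * x := Subgroup.mem_centralizer_iff.mp hz.2 x (hR hx)
    show g * x * g⁻¹ * (g * z * g⁻¹) = g * z * g⁻¹ * (g * x * g⁻¹)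
    calc g * x * g⁻¹ * (g * z * g⁻¹) = g * (x * z) * g⁻¹ := by group
      _ = g * (z * x) * g⁻¹ := by rw [h1]
      _ = _ := by group
  obtain ⟨S, hS⟩ := (IsPGroup.comap_subtype hZPp : IsPGroup p (ZP.subgroupOf C)).exists_le_sylow
  obtain ⟨c, hcC, hc⟩ := Helper5.exists_conj_mem_of_sylow_map C S
    (ZP.map (MulAut.conj g).toMonoidHom) (hZPp.map _) hZgC
  obtain ⟨Q, hQ⟩ := (S.2.map C.subtype).exists_le_sylow
  have hZQ : ZP ≤ (Q : Subgroup G) := by
    intro z hz
    exact hQ ⟨⟨z, hZC hz⟩, hS (Subgroup.mem_subgroupOf.mpr hz), rfl⟩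
  obtain ⟨v, hvdef⟩ : ∃ v : G, v = c * g := ⟨_, rfl⟩
  have hvQ : ∀ z ∈ ZP, v * z * v⁻¹ ∈ (Q : Subgroup G) := by
    intro z hz
    have h1 := hQ (hc (g * z * g⁻¹) ⟨z, hz, rfl⟩)
    have e : v * z * v⁻¹ = c * (g * z * g⁻¹) * c⁻¹ := by rw [hvdef]; group
    rw [e]; exact h1
  have hZQ' : ZP ≤ ((v⁻¹ • Q : Sylow p G) : Subgroup G) := by
    intro z hz
    rw [Helper5.mem_sylow_smul]
    have e : (v⁻¹)⁻¹ * z * v⁻¹ = v * z * v⁻¹ := by group
    rw [e]; exact hvQ z hz
  have hQZ := hn' Q hZQ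
  have hQ'Z := hn' (v⁻¹ • Q) hZQ'
  have hvN : v ∈ Subgroup.normalizer (ZP : Set G) := by
    apply Helper5.mem_normalizer_of_conj_mem
    intro z hz
    have hz' : z ∈ ((v⁻¹ • Q : Sylow p G) : Subgroup G) ⊓
        Subgroup.centralizer ((v⁻¹ • Q : Sylow p G) : Set G) := by
      rw [hQ'Z]; exact hz
    rw [← hQZ]
    refine Subgroup.mem_inf.mpr ⟨hvQ z hz, ?_⟩
    rw [Subgroup.mem_centralizer_iff]
    intro y hy
    have hy' : v⁻¹ * y * v ∈ ((v⁻¹ • Q : Sylow p G) : Subgroup G) := by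
      rw [Helper5.mem_sylow_smul]
      have e : (v⁻¹)⁻¹ * (v⁻¹ * y * v) * v⁻¹ = y := by group
      rw [e]; exact hy
    have h2 := Subgroup.mem_centralizer_iff.mp (Subgroup.mem_inf.mp hz').2 _ hy'
    calc y * (v * z * v⁻¹) = v * (v⁻¹ * y * v * z) * v⁻¹ := by group
      _ = v * (z * (v⁻¹ * y * v)) * v⁻¹ := by rw [h2]
      _ = v * z * v⁻¹ * y := by group
  refine ⟨v, hvN, fun x hx => ?_⟩
  have h3 : g * x * g⁻¹ * c = c * (g * x * g⁻¹) := by
    rw [hCdef] at hcC
    exact Subgroup.mem_centralizer_iff.mp hcC _ ⟨x, hx, rfl⟩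
  rw [hvdef]
  calc c * g * x * (c * g)⁻¹ = c * (g * x * g⁻¹) * c⁻¹ := by group
    _ = g * x * g⁻¹ * c * c⁻¹ := by rw [h3]
    _ = g * x * g⁻¹ := by group

theorem aux {G : Type*} [Group G] [Finite G] {p : ℕ} [hp : Fact p.Prime] (P : Sylow p G)
    (hn : ∀ Q : Sylow p G, (P : Subgroup G) ⊓ Subgroup.centralizer (P : Set G) ≤ (Q : Subgroup G) →
      (Q : Subgroup G) ⊓ Subgroup.centralizer (Q : Set G)
        = (P : Subgroup G) ⊓ Subgroup.centralizer (P : Set G))
    (V : Subgroup G)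
    (hV : Subgroup.normalizer
      (((P : Subgroup G) ⊓ Subgroup.centralizer (P : Set G) : Subgroup G) : Set G) ≤ V)
    (R : Subgroup G) (hRP : R ≤ P)
    (α : (Cfsg.groupFusionSystem (P : Subgroup G)).autGroup R)
    (hα : α ∈ Cfsg.pResidual p ((Cfsg.groupFusionSystem (P : Subgroup G)).autGroup R)) (x : R) :
    (x : G)⁻¹ * (((α : MulAut R) x : R) : G) ∈ (Cfsg.pResidual p V).map V.subtype := by
  have hPV : (P : Subgroup G) ≤ V := le_trans (le_normalizer_center (P : Subgroup G)) hV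
  revert x
  unfold Cfsg.pResidual at hα
  induction hα using Subgroup.closure_induction with
  | mem β hβ =>
    intro x
    have hβ' : Nat.Coprime (orderOf β) p := hβ
    rw [← Subgroup.orderOf_coe] at hβ'
    obtain ⟨g, hg⟩ := autGroup_conj (P : Subgroup G) R (β : MulAut R) β.2
    have hgP : ∀ y ∈ R, g * y * g⁻¹ ∈ (P : Subgroup G) := by
      intro y hy
      have := hg ⟨y, hy⟩
      rw [← this]
      exact hRP (((β : MulAut R) ⟨y, hy⟩)).2
    obtain ⟨v, hvN, hv⟩ := control P hn R hRP g hgP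
    have hv' : ∀ y : R, ((((β : MulAut R) y : R)) : G) = v * y * v⁻¹ := by
      intro y; rw [hg, hv y y.2]
    have hpow : ∀ (n : ℕ) (y : R), ((((β : MulAut R) ^ n) y : R) : G) = v ^ n * y * (v ^ n)⁻¹ := by
      intro n
      induction n with
      | zero => intro y; simp
      | succ n ih =>
        intro y
        rw [pow_succ, MulAut.mul_apply, ih, hv', pow_succ]; group
    by_cases hd1 : orderOf (β : MulAut R) = 1
    · have hb1 : (β : MulAut R) = 1 := orderOf_eq_one_iff.mp hd1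
      rw [hb1]
      simp
    · have hd0 : orderOf (β : MulAut R) ≠ 0 := by
        intro h0
        rw [h0, Nat.coprime_zero_left] at hβ'
        exact hp.out.ne_one hβ'
      have hd : 1 < orderOf (β : MulAut R) := by omega
      obtain ⟨a, m', hm', hcard⟩ :=
        Nat.exists_eq_pow_mul_and_not_dvd (Nat.card_pos (α := G)).ne' p hp.out.ne_one
      have hcop : Nat.Coprime (p ^ a) (orderOf (β : MulAut R)) :=
        Nat.Coprime.pow_left a hβ'.symm
      obtain ⟨t, -, ht⟩ := Nat.exists_mul_mod_eq_one_of_coprime hcop hd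
      obtain ⟨w, hwdef⟩ : ∃ w : G, w = v ^ (p ^ a * t) := ⟨_, rfl⟩
      have hwx : ∀ y : R, ((((β : MulAut R) y : R)) : G) = w * y * w⁻¹ := by
        intro y
        have h1 := hpow (p ^ a * t) y
        rw [← pow_mod_orderOf, ht, pow_one] at h1
        rw [h1, hwdef]
      have hwm : w ^ m' = 1 := by
        rw [hwdef, ← pow_mul]
        have e : p ^ a * t * m' = Nat.card G * t := by rw [hcard]; ring
        rw [e, pow_mul, pow_card_eq_one', one_pow]
      have hwV : w ∈ V := by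
        rw [hwdef]; exact pow_mem (hV hvN) _
      have hxV : (x : G) ∈ V := hPV (hRP x.2)
      have hw1 : (⟨w, hwV⟩ : V) ∈ Cfsg.pResidual p V := by
        apply Helper6.mem_pResidual_of_pow_eq_one p
          ((Nat.Prime.coprime_iff_not_dvd hp.out).mpr hm')
        apply Subtype.ext
        simpa using hwm
      have hw2 := (Helper6.pResidual_normal p V).conj_mem _ hw1 (⟨(x : G), hxV⟩ : V)⁻¹
      have hw3 := mul_mem hw2 (inv_mem hw1)
      refine ⟨_, hw3, ?_⟩
      rw [hwx]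
      simp only [Subgroup.coe_subtype, Subgroup.coe_mul, Subgroup.coe_inv, inv_inv]
      group
  | one => intro x; simp
  | mul β₁ β₂ _ _ h1 h2 =>
    intro x
    have e : (x : G)⁻¹ * (((((β₁ * β₂ : (Cfsg.groupFusionSystem (P : Subgroup G)).autGroup R)
          : MulAut R) x : R)) : G)
        = ((x : G)⁻¹ * ((((β₂ : MulAut R) x : R)) : G)) *
          (((((β₂ : MulAut R) x : R)) : G)⁻¹ *
            ((((β₁ : MulAut R) ((β₂ : MulAut R) x) : R)) : G)) := by
      rw [Subgroup.coe_mul, MulAut.mul_apply]; group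
    rw [e]; exact mul_mem (h2 x) (h1 ((β₂ : MulAut R) x))
  | inv β _ h =>
    intro x
    have h' := h (((β : MulAut R))⁻¹ x)
    rw [MulAut.apply_inv_self] at h'
    have e : (x : G)⁻¹ * (((((β⁻¹ : (Cfsg.groupFusionSystem (P : Subgroup G)).autGroup R)
          : MulAut R) x : R)) : G)
        = (((((β : MulAut R))⁻¹ x : R) : G)⁻¹ * (x : G))⁻¹ := by
      rw [Subgroup.coe_inv]; group
    rw [e]; exact inv_mem h'

/-- In a p-normal group, a Sylow p-subgroup P meets O^p(G) exactly where it meets O^p(V), for any subgroup V containing the normalizer of the centre of P. -/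
theorem result {G : Type*} [Group G] [Finite G] {p : ℕ} [Fact p.Prime] (P : Sylow p G) (hn : ∀ Q : Sylow p G, (P : Subgroup G) ⊓ Subgroup.centralizer (P : Set G) ≤ (Q : Subgroup G) → (Q : Subgroup G) ⊓ Subgroup.centralizer (Q : Set G) = (P : Subgroup G) ⊓ Subgroup.centralizer (P : Set G)) (V : Subgroup G) (hV : Subgroup.normalizer (((P : Subgroup G) ⊓ Subgroup.centralizer (P : Set G) : Subgroup G) : Set G) ≤ V) : (P : Subgroup G) ⊓ Cfsg.pResidual p G = (P : Subgroup G) ⊓ (Cfsg.pResidual p V).map V.subtype := by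
  apply le_antisymm
  · rw [← Cfsg.Agent.S5093.result p P]
    unfold Cfsg.FusionSystem.hyperfocalSubgroup
    rw [Subgroup.closure_le]
    rintro y ⟨R, α, x, hRP, hα, rfl⟩
    have key := aux P hn V hV R hRP α hα x
    exact Subgroup.mem_inf.mpr
      ⟨mul_mem (inv_mem (hRP x.2)) (hRP (((α : MulAut R) x)).2), key⟩
  · exact inf_le_inf_left _ (Helper6.map_pResidual_le p V)

end Cfsg.Agent.S0078
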