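import Cfsg.Statements.S0082
import Cfsg.Agent.S0075
import Cfsg.Agent.S0055
import Mathlib

set_option autoImplicit false
open Cfsg
open scoped commutatorElement

namespace Cfsg.Agent.S0082

theorem cyc_mem_zpowers {C : Type*} [Group C] [Finite C] [IsCyclic C] (p : ℕ) (hp : p.Prime)
    (x y : C) (hx : orderOf x = p) (hy : y ^ p = 1) : y ∈ Subgroup.zpowers x := by
  classical
  haveI : Fintype C := Fintype.ofFinite C
  by_contra hy'
  have hxp : x ^ p = 1 := by rw [← hx]; exact pow_orderOf_eq_one x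
  have h1 := IsCyclic.card_pow_eq_one_le (α := C) hp.pos
  have h2 : insert y (Subgroup.zpowers x : Set C) ⊆
      ↑(Finset.univ.filter fun a : C => a ^ p = 1) := by
    intro z hz
    simp only [Finset.coe_filter, Finset.mem_univ, true_and, Set.mem_setOf_eq]
    rcases hz with rfl | hz
    · exact hy
    · obtain ⟨i, rfl⟩ := Subgroup.mem_zpowers_iff.mp hz
      rw [← zpow_natCast, ← zpow_mul, mul_comm, zpow_mul, zpow_natCast, hxp, one_zpow]
  have h3 := Set.ncard_le_ncard h2 (Finset.finite_toSet _)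
  rw [Set.ncard_insert_of_notMem hy' (Set.toFinite _), Set.ncard_coe_finset] at h3
  have h4 : (Subgroup.zpowers x : Set C).ncard = p := by
    rw [← Nat.card_coe_set_eq]; exact (Nat.card_zpowers x).trans hx
  omega

theorem cyc_inf_ne_bot {G : Type*} [Group G] [Finite G] {p : ℕ} [Fact p.Prime] (P : Sylow p G)
    (hP : IsCyclic P) (H₁ H₂ : Subgroup G) (h₁ : H₁ ≤ (P : Subgroup G))
    (h₂ : H₂ ≤ (P : Subgroup G)) (hb₁ : H₁ ≠ ⊥) (hb₂ : H₂ ≠ ⊥) : H₁ ⊓ H₂ ≠ ⊥ := by
  have hp : p.Prime := Fact.out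
  have key : ∀ H : Subgroup G, H ≤ (P : Subgroup G) → H ≠ ⊥ → ∃ x ∈ H, orderOf x = p := by
    intro H hH hHb
    have hpg : IsPGroup p H := P.isPGroup'.to_le hH
    obtain ⟨k, hk⟩ := IsPGroup.iff_card.mp hpg
    have hk0 : k ≠ 0 := by
      rintro rfl
      rw [pow_zero] at hk
      exact hHb (Subgroup.eq_bot_of_card_eq _ hk)
    have hdvd : p ∣ Nat.card H := by rw [hk]; exact dvd_pow_self p hk0
    obtain ⟨x, hx⟩ := exists_prime_orderOf_dvd_card' p hdvd
    exact ⟨x, x.2, by rw [Subgroup.orderOf_coe, hx]⟩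
  obtain ⟨x, hxH, hx⟩ := key H₁ h₁ hb₁
  obtain ⟨y, hyH, hy⟩ := key H₂ h₂ hb₂
  haveI : IsCyclic (P : Subgroup G) := hP
  have hmem := cyc_mem_zpowers (C := (P : Subgroup G)) p hp ⟨x, h₁ hxH⟩ ⟨y, h₂ hyH⟩
    (by rw [Subgroup.orderOf_mk, hx])
    (Subtype.ext (by show y ^ p = 1; rw [← hy]; exact pow_orderOf_eq_one y))
  obtain ⟨i, hi⟩ := Subgroup.mem_zpowers_iff.mp hmem
  have hi' : x ^ i = y := congrArg Subtype.val hi
  have hy1 : y ∈ H₁ := hi' ▸ Subgroup.zpow_mem _ hxH i
  intro hbot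
  have hy2 : y ∈ H₁ ⊓ H₂ := Subgroup.mem_inf.mpr ⟨hy1, hyH⟩
  rw [hbot, Subgroup.mem_bot] at hy2
  rw [hy2, orderOf_one] at hy
  exact hp.one_lt.ne hy

/-- With a cyclic Sylow p-subgroup, either there is a normal p-complement or the elements of order prime to p generate the whole group. -/
theorem result {G : Type*} [Group G] [Finite G] {p : ℕ} [Fact p.Prime] (P : Sylow p G) (hP : IsCyclic P) : Cfsg.HasNormalPComplement p G ∨ Cfsg.pResidual p G = ⊤ := by
  have hp : p.Prime := Fact.out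
  haveI : IsCyclic (P : Subgroup G) := hP
  have hPc : IsMulCommutative (P : Subgroup G) := inferInstance
  have hPc' : IsMulCommutative P := hPc
  have hPC := Cfsg.Agent.S0074.le_centralizer_of_comm P hPc'
  by_cases hNC : Subgroup.normalizer (P : Set G) ≤ Subgroup.centralizer (P : Set G)
  · left
    exact ⟨P, (MonoidHom.transferSylow P hNC).ker, MonoidHom.normal_ker _,
      MonoidHom.ker_transferSylow_isComplement' P hNC⟩
  · right
    obtain ⟨n, hn, hnC⟩ := SetLike.not_le_iff_exists.mp hNC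
    obtain ⟨a, b, e, m, hm, hsplit, hpow⟩ := Cfsg.Agent.S1242.exists_parts p n
    obtain ⟨u, hu⟩ : ∃ u : G, u = (n ^ m) ^ a := ⟨_, rfl⟩
    obtain ⟨v, hv⟩ : ∃ v : G, v = (n ^ (p ^ e)) ^ b := ⟨_, rfl⟩
    have hnuv : n = u * v := by rw [hu, hv]; exact hsplit
    have huN : u ∈ Subgroup.normalizer (P : Set G) := by
      rw [hu]; exact Subgroup.zpow_mem _ (Subgroup.pow_mem _ hn m) a
    have hvN : v ∈ Subgroup.normalizer (P : Set G) := by
      rw [hv]; exact Subgroup.zpow_mem _ (Subgroup.pow_mem _ hn (p ^ e)) b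
    have hue : u ^ (p ^ e) = 1 := by
      rw [hu]
      exact Cfsg.Agent.S1242.zpow_pow_eq_one n m (p ^ e) a (by rw [mul_comm]; exact hpow)
    have huP : u ∈ (P : Subgroup G) :=
      Cfsg.Agent.S0075.mem_sylow_of_normalizer_of_pow P u huN e hue
    have hvm : v ^ m = 1 := by
      rw [hv]; exact Cfsg.Agent.S1242.zpow_pow_eq_one n (p ^ e) m b hpow
    have hvC : v ∉ Subgroup.centralizer (P : Set G) := by
      intro h
      apply hnC
      rw [hnuv]
      exact Subgroup.mul_mem _ (hPC huP) h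
    have hAV : Subgroup.zpowers v ≤ Subgroup.normalizer ((P : Subgroup G) : Set G) :=
      Subgroup.zpowers_le.mpr hvN
    have hcop : (Nat.card (Subgroup.zpowers v)).Coprime (Nat.card (P : Subgroup G)) := by
      rw [Nat.card_zpowers]
      obtain ⟨k, hk⟩ := IsPGroup.iff_card.mp P.isPGroup'
      have hk' : Nat.card (P : Subgroup G) = p ^ k := hk
      rw [hk']
      apply Nat.Coprime.pow_right
      exact Nat.Coprime.coprime_dvd_left (orderOf_dvd_of_pow_eq_one hvm) hm.symm
    haveI := hPc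
    obtain ⟨h1, h2⟩ := Cfsg.Agent.S0055.result (Subgroup.zpowers v) (P : Subgroup G) hAV hcop
    have hcomm_ne : ⁅(P : Subgroup G), Subgroup.zpowers v⁆ ≠ ⊥ := by
      intro h
      apply hvC
      rw [Subgroup.commutator_eq_bot_iff_le_centralizer] at h
      rw [Subgroup.mem_centralizer_iff]
      intro x hx
      have := Subgroup.mem_centralizer_iff.mp (h hx) v (Subgroup.mem_zpowers v)
      exact this.symm
    have hcomm_le : ⁅(P : Subgroup G), Subgroup.zpowers v⁆ ≤ (P : Subgroup G) := by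
      conv_rhs => rw [← h2]
      exact le_sup_right
    have hfix : (P : Subgroup G) ⊓ Subgroup.centralizer (Subgroup.zpowers v : Set G) = ⊥ := by
      by_contra hne
      exact cyc_inf_ne_bot P hP _ _ inf_le_left hcomm_le hne hcomm_ne h1
    have hPeq : ⁅(P : Subgroup G), Subgroup.zpowers v⁆ = (P : Subgroup G) := by
      rw [hfix, bot_sup_eq] at h2; exact h2
    have hPle : (P : Subgroup G) ≤ Cfsg.pResidual p G := by
      have h3 : ⁅(P : Subgroup G), Subgroup.zpowers v⁆ ≤
          ⁅(P : Subgroup G), Subgroup.normalizer (P : Set G)⁆ :=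
        Subgroup.commutator_mono le_rfl hAV
      rw [hPeq, ← Cfsg.Agent.S0075.result P hPc'] at h3
      exact h3.trans inf_le_right
    haveI := Cfsg.Agent.Helper6.pResidual_normal p G
    have hQ : IsPGroup p (G ⧸ Cfsg.pResidual p G) :=
      Cfsg.Agent.Helper6.isPGroup_quotient_pResidual p _ le_rfl
    obtain ⟨j, hj⟩ := IsPGroup.iff_card.mp hQ
    rw [← Subgroup.index_eq_card] at hj
    have hdvd : (Cfsg.pResidual p G).index ∣ (P : Subgroup G).index :=
      Subgroup.index_dvd_of_le hPle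
    have hj0 : j = 0 := by
      by_contra hj0
      have h5 : p ∣ (Cfsg.pResidual p G).index := by rw [hj]; exact dvd_pow_self p hj0
      exact P.not_dvd_index (h5.trans hdvd)
    rw [hj0, pow_zero] at hj
    exact Subgroup.index_eq_one.mp hj

end Cfsg.Agent.S0082
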