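import Cfsg.Statements.S0199
import Mathlib
import Cfsg.Agent.Helper1.BaerSuzuki

set_option autoImplicit false
open Cfsg

namespace Cfsg.Agent.S0199

/-- Baer–Suzuki Theorem: a p-subgroup X of a finite group such that X and any of its conjugates generate a p-group is contained in a normal p-subgroup. -/
theorem result {G : Type*} [Group G] [Finite G] {p : ℕ} [Fact p.Prime] (X : Subgroup G) (hX : IsPGroup p X) (h : ∀ g : G, IsPGroup p ↥(X ⊔ X.map (MulAut.conj g).toMonoidHom)) : ∃ N : Subgroup G, N.Normal ∧ IsPGroup p N ∧ X ≤ N := by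
  obtain ⟨D, hDdef⟩ : ∃ D : Set G, D = {a | ∃ g : G, ∃ x ∈ X, a = g * x * g⁻¹} := ⟨_, rfl⟩
  have hD : ∀ a ∈ D, ∀ g : G, g * a * g⁻¹ ∈ D := by
    intro a ha g
    rw [hDdef] at ha ⊢
    obtain ⟨k, x, hx, rfl⟩ := ha
    exact ⟨g * k, x, hx, by group⟩
  have hpair : ∀ a ∈ D, ∀ b ∈ D, IsPGroup p (Subgroup.closure ({a, b} : Set G)) := by
    intro a ha b hb
    rw [hDdef] at ha hb
    obtain ⟨g, x, hx, rfl⟩ := ha
    obtain ⟨k, y, hy, rfl⟩ := hb
    have h1 : IsPGroup p ((X ⊔ X.map (MulAut.conj (g⁻¹ * k)).toMonoidHom).map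
        (MulAut.conj g).toMonoidHom) := (h (g⁻¹ * k)).map _
    apply h1.to_le
    rw [Subgroup.closure_le]
    rintro z (hz | hz)
    · rw [hz]
      exact ⟨x, (le_sup_left : X ≤ X ⊔ X.map (MulAut.conj (g⁻¹ * k)).toMonoidHom) hx, rfl⟩
    · rw [Set.mem_singleton_iff] at hz
      rw [hz]
      refine ⟨g⁻¹ * k * y * (g⁻¹ * k)⁻¹,
        (le_sup_right : X.map (MulAut.conj (g⁻¹ * k)).toMonoidHom ≤
          X ⊔ X.map (MulAut.conj (g⁻¹ * k)).toMonoidHom) ⟨y, hy, rfl⟩, ?_⟩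
      show g * (g⁻¹ * k * y * (g⁻¹ * k)⁻¹) * g⁻¹ = k * y * k⁻¹
      group
  have hBS := Cfsg.Agent.Helper1.baer_suzuki p D hD hpair
  refine ⟨Subgroup.closure D, Cfsg.Agent.Helper1.closure_normal_of_conj D hD, hBS, ?_⟩
  intro x hx
  apply Subgroup.subset_closure
  rw [hDdef]
  exact ⟨1, x, hx, by simp⟩

end Cfsg.Agent.S0199
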