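import Cfsg.Statements.S0828
import Mathlib
import Cfsg.Agent.S0766
import Cfsg.Agent.S0755
-- import your own Cfsg.Agent.* helpers here

set_option autoImplicit false
open Cfsg

namespace Cfsg.Agent.S0828


open Matrix

section flags

variable {F : Type*} [Field F] [Fintype F] {V : Type*} [AddCommGroup V] [Module F V] [Finite V]

theorem card_sub (W : Submodule F V) (k : ℕ) (h : Module.finrank F W = k) :
    Nat.card W = Fintype.card F ^ k := by
  rw [Module.natCard_eq_pow_finrank (K := F), Nat.card_eq_fintype_card, h]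

theorem card_ne_zero_sub (W : Submodule F V) (k : ℕ) (h : Module.finrank F W = k) :
    Nat.card {v : {v : V // v ≠ 0} // v.1 ∈ W} = Fintype.card F ^ k - 1 := by
  classical
  have h1 : Nat.card W = Nat.card {u : W // u ≠ 0} + 1 := by
    rw [← Finite.card_option]
    exact (Nat.card_congr (Equiv.optionSubtypeNe (0 : W))).symm
  have h2 : Nat.card {v : {v : V // v ≠ 0} // v.1 ∈ W} = Nat.card {u : W // u ≠ 0} := by
    apply Nat.card_congr
    exact
      { toFun := fun v => ⟨⟨v.1.1, v.2⟩, fun h0 => v.1.2 (congrArg Subtype.val h0)⟩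
        invFun := fun u => ⟨⟨u.1.1, fun h0 => u.2 (Subtype.ext h0)⟩, u.1.2⟩
        left_inv := fun v => rfl
        right_inv := fun u => rfl }
  rw [h2, ← card_sub W k h]
  omega

theorem card_ne_zero : Nat.card {v : V // v ≠ 0} = Nat.card V - 1 := by
  classical
  have h1 : Nat.card V = Nat.card {u : V // u ≠ 0} + 1 := by
    rw [← Finite.card_option]
    exact (Nat.card_congr (Equiv.optionSubtypeNe (0 : V))).symm
  omega

theorem finrank_span_pair (v w : V) (hv : v ≠ 0) (hw : w ∉ Submodule.span F {v}) :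
    Module.finrank F (Submodule.span F {v, w}) = 2 := by
  have hli : LinearIndependent F ![v, w] := by
    rw [LinearIndependent.pair_iff]
    intro s t hst
    have ht : t = 0 := by
      by_contra ht
      apply hw
      rw [Submodule.mem_span_singleton]
      refine ⟨-(t⁻¹ * s), ?_⟩
      have h1 : t • w = -(s • v) := by
        rw [eq_neg_iff_add_eq_zero, add_comm]
        exact hst
      calc (-(t⁻¹ * s)) • v = t⁻¹ • (-(s • v)) := by rw [neg_smul, mul_smul, smul_neg]
        _ = t⁻¹ • (t • w) := by rw [h1]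
        _ = w := by rw [smul_smul, inv_mul_cancel₀ ht, one_smul]
    subst ht
    rw [zero_smul, add_zero] at hst
    exact ⟨(smul_eq_zero.1 hst).resolve_right hv, rfl⟩
  have h1 := finrank_span_eq_card hli
  rw [Fintype.card_fin, Matrix.range_cons_cons_empty] at h1
  exact h1

theorem span_pair_eq (W : Submodule F V) (hW : Module.finrank F W = 2) (v : V) (hv : v ≠ 0)
    (hvW : v ∈ W) (w : V) (hwW : w ∈ W) (hw : w ∉ Submodule.span F {v}) :
    Submodule.span F {v, w} = W := by
  have hle : Submodule.span F {v, w} ≤ W := by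
    rw [Submodule.span_le]
    intro x hx
    rcases hx with rfl | rfl
    · exact hvW
    · exact hwW
  exact Submodule.eq_of_le_of_finrank_eq hle (by rw [finrank_span_pair v w hv hw, hW])

theorem card_compl (W : Submodule F V) (k : ℕ) (hW : Module.finrank F W = k) (v : V)
    (hv : v ≠ 0) (hvW : v ∈ W) :
    Nat.card {w : W // (w : V) ∉ Submodule.span F {v}}
      = Fintype.card F ^ k - Fintype.card F := by
  classical
  have h1 : Nat.card {w : W // (w : V) ∈ Submodule.span F {v}}
      + Nat.card {w : W // (w : V) ∉ Submodule.span F {v}} = Nat.card W := by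
    rw [← Nat.card_sum]
    exact Nat.card_congr (Equiv.sumCompl _)
  rw [card_sub W k hW] at h1
  have h2 : Nat.card {w : W // (w : V) ∈ Submodule.span F {v}} = Fintype.card F := by
    have e : {w : W // (w : V) ∈ Submodule.span F {v}}
        ≃ (Submodule.span F {v} : Submodule F V) :=
      { toFun := fun w => ⟨w.1.1, w.2⟩
        invFun := fun u => ⟨⟨u.1, (Submodule.span_le.2 (Set.singleton_subset_iff.2 hvW)) u.2⟩,
          u.2⟩
        left_inv := fun w => rfl
        right_inv := fun u => rfl }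
    have h3 : Module.finrank F (Submodule.span F {v} : Submodule F V) = 1 :=
      finrank_span_singleton hv
    have h4 := card_sub (Submodule.span F {v} : Submodule F V) 1 h3
    rw [Nat.card_congr e, h4, pow_one]
  omega

theorem flags_total (P : Submodule F V → Prop) (hP : ∀ W, P W → Module.finrank F W = 2) :
    Nat.card {W : Submodule F V // P W} * (Fintype.card F ^ 2 - 1)
      = Nat.card (Σ v : {v : V // v ≠ 0}, {W : Submodule F V // P W ∧ v.1 ∈ W}) := by
  classical
  haveI : Fintype {W : Submodule F V // P W} := Fintype.ofFinite _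
  have e1 : (Σ v : {v : V // v ≠ 0}, {W : Submodule F V // P W ∧ v.1 ∈ W})
      ≃ Σ W : {W : Submodule F V // P W}, {v : {v : V // v ≠ 0} // v.1 ∈ W.1} :=
    { toFun := fun x => ⟨⟨x.2.1, x.2.2.1⟩, ⟨x.1, x.2.2.2⟩⟩
      invFun := fun y => ⟨y.2.1, ⟨y.1.1, y.1.2, y.2.2⟩⟩
      left_inv := fun x => rfl
      right_inv := fun y => rfl }
  rw [Nat.card_congr e1, Nat.card_sigma,
    Finset.sum_congr rfl (fun W _ => card_ne_zero_sub W.1 2 (hP W.1 W.2)), Finset.sum_const,
    Finset.card_univ, smul_eq_mul, Nat.card_eq_fintype_card]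

theorem flags_point (P : Submodule F V → Prop) (hP : ∀ W, P W → Module.finrank F W = 2)
    (v : V) (hv : v ≠ 0) :
    Nat.card {W : Submodule F V // P W ∧ v ∈ W} * (Fintype.card F ^ 2 - Fintype.card F)
      = Nat.card {w : V // w ∉ Submodule.span F {v} ∧ P (Submodule.span F {v, w})} := by
  classical
  haveI : Fintype {W : Submodule F V // P W ∧ v ∈ W} := Fintype.ofFinite _
  obtain ⟨φ, hφ⟩ : ∃ φ : {w : V // w ∉ Submodule.span F {v} ∧ P (Submodule.span F {v, w})} →
      {W : Submodule F V // P W ∧ v ∈ W}, ∀ w, (φ w).1 = Submodule.span F {v, w.1} :=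
    ⟨fun w => ⟨Submodule.span F {v, w.1}, w.2.2, Submodule.subset_span (Set.mem_insert _ _)⟩,
      fun w => rfl⟩
  have hfib : ∀ W : {W : Submodule F V // P W ∧ v ∈ W},
      Nat.card {w // φ w = W} = Fintype.card F ^ 2 - Fintype.card F := by
    intro W
    have hW2 := hP W.1 W.2.1
    have e : {w // φ w = W} ≃ {w : W.1 // (w : V) ∉ Submodule.span F {v}} :=
      { toFun := fun w => ⟨⟨w.1.1, by
            have h1 : Submodule.span F {v, w.1.1} = W.1 := by
              rw [← hφ]
              exact congrArg Subtype.val w.2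
            rw [← h1]
            exact Submodule.subset_span (Set.mem_insert_of_mem _ (Set.mem_singleton _))⟩,
            w.1.2.1⟩
        invFun := fun w => ⟨⟨w.1.1, w.2, by
            rw [span_pair_eq W.1 hW2 v hv W.2.2 w.1.1 w.1.2 w.2]
            exact W.2.1⟩, Subtype.ext (by
            rw [hφ]
            exact span_pair_eq W.1 hW2 v hv W.2.2 w.1.1 w.1.2 w.2)⟩
        left_inv := fun w => rfl
        right_inv := fun w => rfl }
    rw [Nat.card_congr e]
    exact card_compl W.1 2 hW2 v hv W.2.2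
  rw [← Nat.card_congr (Equiv.sigmaFiberEquiv φ), Nat.card_sigma,
    Finset.sum_congr rfl (fun W _ => hfib W), Finset.sum_const, Finset.card_univ, smul_eq_mul,
    Nat.card_eq_fintype_card]

end flags

theorem tiso_iff {F : Type*} [Field F] (v w : Fin 2 ⊕ Fin 2 → F) :
    (∀ u ∈ Submodule.span F {v, w}, ∀ u' ∈ Submodule.span F {v, w}, sympForm 2 F u u' = 0)
      ↔ S0766.sB 2 F v w = 0 := by
  constructor
  · intro h
    rw [S0766.sB_apply]
    exact h v (Submodule.subset_span (Set.mem_insert _ _)) w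
      (Submodule.subset_span (Set.mem_insert_of_mem _ (Set.mem_singleton _)))
  · intro h u hu u' hu'
    obtain ⟨a, b, rfl⟩ := Submodule.mem_span_pair.1 hu
    obtain ⟨c, d, rfl⟩ := Submodule.mem_span_pair.1 hu'
    have hvv : S0766.sB 2 F v v = 0 := (S0766.sB_alt 2 F).self_eq_zero v
    have hww : S0766.sB 2 F w w = 0 := (S0766.sB_alt 2 F).self_eq_zero w
    have hwv : S0766.sB 2 F w v = 0 := by
      rw [← (S0766.sB_alt 2 F).neg_eq v w, h, neg_zero]
    rw [← S0766.sB_apply]
    simp only [map_add, map_smul, LinearMap.add_apply, LinearMap.smul_apply, smul_eq_mul, hvv,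
      hww, h, hwv]
    ring

theorem main {F : Type*} [Field F] [Fintype F] {q : ℕ} (hF : Fintype.card F = q) :
    (∀ v : Fin 2 ⊕ Fin 2 → F, v ≠ 0 →
      Nat.card {W : Submodule F (Fin 2 ⊕ Fin 2 → F) // (Module.finrank F W = 2 ∧
        ∀ u ∈ W, ∀ w ∈ W, Cfsg.sympForm 2 F u w = 0) ∧ v ∈ W} = q + 1) ∧
    Nat.card {W : Submodule F (Fin 2 ⊕ Fin 2 → F) // Module.finrank F W = 2 ∧
        ∀ u ∈ W, ∀ v ∈ W, Cfsg.sympForm 2 F u v = 0} = (q + 1) * (q ^ 2 + 1) := by
  classical
  have hq : 2 ≤ q := by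
    rw [← hF]
    exact Fintype.one_lt_card
  have hq2 : q ≤ q ^ 2 := by nlinarith
  have hq3 : q ≤ q ^ 3 := by nlinarith [pow_pos (show 0 < q by omega) 2]
  have hq2' : 1 ≤ q ^ 2 := Nat.one_le_pow _ _ (by omega)
  have hq4' : 1 ≤ q ^ 4 := Nat.one_le_pow _ _ (by omega)
  have hP : ∀ W : Submodule F (Fin 2 ⊕ Fin 2 → F), (Module.finrank F W = 2 ∧
      ∀ u ∈ W, ∀ w ∈ W, Cfsg.sympForm 2 F u w = 0) → Module.finrank F W = 2 := fun W h => h.1
  have hpt : ∀ v : Fin 2 ⊕ Fin 2 → F, v ≠ 0 →
      Nat.card {W : Submodule F (Fin 2 ⊕ Fin 2 → F) // (Module.finrank F W = 2 ∧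
        ∀ u ∈ W, ∀ w ∈ W, Cfsg.sympForm 2 F u w = 0) ∧ v ∈ W} = q + 1 := by
    intro v hv
    have h1 := flags_point (fun W : Submodule F (Fin 2 ⊕ Fin 2 → F) => Module.finrank F W = 2 ∧
      ∀ u ∈ W, ∀ w ∈ W, Cfsg.sympForm 2 F u w = 0) hP v hv
    have hx : ∃ x, S0766.sB 2 F v x ≠ 0 := by
      by_contra hno
      push Not at hno
      exact hv ((S0766.sB_nondeg 2 F).1 v hno)
    obtain ⟨x, hx⟩ := hx
    have hdim := S0755.finrank_ker_functional (S0766.sB 2 F v) x hx
    have hV : Module.finrank F (Fin 2 ⊕ Fin 2 → F) = 4 := by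
      rw [Module.finrank_fintype_fun_eq_card]
      rfl
    have hK : Module.finrank F (LinearMap.ker (S0766.sB 2 F v)) = 3 := by omega
    have hvK : v ∈ LinearMap.ker (S0766.sB 2 F v) := (S0766.sB_alt 2 F).self_eq_zero v
    have h2 : Nat.card {w : Fin 2 ⊕ Fin 2 → F // w ∉ Submodule.span F {v} ∧
        (Module.finrank F (Submodule.span F {v, w}) = 2 ∧
          ∀ u ∈ Submodule.span F {v, w}, ∀ u' ∈ Submodule.span F {v, w},
            Cfsg.sympForm 2 F u u' = 0)} = q ^ 3 - q := by
      rw [← hF, ← card_compl (LinearMap.ker (S0766.sB 2 F v)) 3 hK v hv hvK]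
      apply Nat.card_congr
      exact
        { toFun := fun w => ⟨⟨w.1, (tiso_iff v w.1).1 w.2.2.2⟩, w.2.1⟩
          invFun := fun w => ⟨w.1.1, w.2, finrank_span_pair v w.1.1 hv w.2,
            (tiso_iff v w.1.1).2 w.1.2⟩
          left_inv := fun w => rfl
          right_inv := fun w => rfl }
    rw [h2, hF] at h1
    have h3 : 0 < q ^ 2 - q := by
      have : q < q ^ 2 := by nlinarith
      omega
    apply Nat.eq_of_mul_eq_mul_right h3
    rw [h1]
    zify [hq2, hq3]
    ring
  refine ⟨hpt, ?_⟩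
  have h1 := flags_total (fun W : Submodule F (Fin 2 ⊕ Fin 2 → F) => Module.finrank F W = 2 ∧
      ∀ u ∈ W, ∀ w ∈ W, Cfsg.sympForm 2 F u w = 0) hP
  haveI : Fintype {v : Fin 2 ⊕ Fin 2 → F // v ≠ 0} := Fintype.ofFinite _
  rw [Nat.card_sigma, Finset.sum_congr rfl (fun v _ => hpt v.1 v.2), Finset.sum_const,
    Finset.card_univ, smul_eq_mul,
    ← Nat.card_eq_fintype_card (α := {v : Fin 2 ⊕ Fin 2 → F // v ≠ 0}), card_ne_zero,
    Nat.card_eq_fintype_card (α := Fin 2 ⊕ Fin 2 → F), Fintype.card_fun, hF] at h1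
  have h4 : Fintype.card (Fin 2 ⊕ Fin 2) = 4 := rfl
  rw [h4] at h1
  have h3 : 0 < q ^ 2 - 1 := by
    have : 1 < q ^ 2 := by nlinarith
    omega
  apply Nat.eq_of_mul_eq_mul_right h3
  rw [h1]
  zify [hq2', hq4']
  ring


/-- The symplectic generalised quadrangle over a field with q elements: the number of 2-dimensional subspaces of F^4 on which the symplectic form vanishes is (q + 1)(q² + 1), and every non-zero vector lies in exactly q + 1 of them. -/
theorem result {F : Type*} [Field F] [Fintype F] {q : ℕ} (hF : Fintype.card F = q) : Nat.card {W : Submodule F (Fin 2 ⊕ Fin 2 → F) // Module.finrank F W = 2 ∧ ∀ u ∈ W, ∀ v ∈ W, Cfsg.sympForm 2 F u v = 0} = (q + 1) * (q ^ 2 + 1) ∧ ∀ v : Fin 2 ⊕ Fin 2 → F, v ≠ 0 → Nat.card {W : Submodule F (Fin 2 ⊕ Fin 2 → F) // Module.finrank F W = 2 ∧ v ∈ W ∧ ∀ u ∈ W, ∀ w ∈ W, Cfsg.sympForm 2 F u w = 0} = q + 1 := by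
  obtain ⟨h1, h2⟩ := main hF
  refine ⟨h2, fun v hv => ?_⟩
  rw [← h1 v hv]
  apply Nat.card_congr
  exact Equiv.subtypeEquivRight (fun W => ⟨fun h => ⟨⟨h.1, h.2.2⟩, h.2.1⟩,
    fun h => ⟨h.1.1, h.2, h.1.2⟩⟩)


end Cfsg.Agent.S0828
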