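import Cfsg.Statements.S0829
import Mathlib
import Cfsg.Agent.S0284
import Cfsg.Agent.S0285
import Cfsg.Agent.S0277
import Cfsg.Agent.S0755
import Cfsg.Agent.S0828
-- import your own Cfsg.Agent.* helpers here

set_option autoImplicit false
open Cfsg

namespace Cfsg.Agent.S0829


open Matrix

universe u

section structural

variable {F : Type*} [Field F] {V : Type u} [AddCommGroup V] [Module F V] {σ : F →+* F}
  (B : V →ₛₗ[σ] V →ₗ[F] F)

/-- The orthogonal complement of the pair `v, v'`. -/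
def W0 (v v' : V) : Submodule F V := LinearMap.ker (B v) ⊓ LinearMap.ker (B v')

theorem mem_W0 (v v' x : V) : x ∈ W0 B v v' ↔ B v x = 0 ∧ B v' x = 0 := Iff.rfl

theorem sym_one (hS : B.IsSymm) (v v' : V) (hvv' : B v v' = 1) : B v' v = 1 := by
  have h := LinearMap.isSymm_def.mp hS v v'
  rw [hvv', map_one] at h
  exact h.symm

theorem W0_proj (hS : B.IsSymm) (v v' : V) (hvv : B v v = 0) (hvv' : B v v' = 1) (u : V) :
    u - (B v' u - B v u * B v' v') • v - B v u • v' ∈ W0 B v v' := by
  have hv'v : B v' v = 1 := sym_one B hS v v' hvv'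
  rw [mem_W0]
  constructor
  · simp only [map_sub, map_smul, smul_eq_mul, hvv, hvv']
    ring
  · simp only [map_sub, map_smul, smul_eq_mul, hv'v]
    ring

theorem W0_nondeg (hS : B.IsSymm) (hB : B.Nondegenerate) (v v' : V) (hvv : B v v = 0)
    (hvv' : B v v' = 1) :
    (B.domRestrict₁₂ (W0 B v v') (W0 B v v')).Nondegenerate := by
  have hsym : ∀ x y, σ (B x y) = B y x := LinearMap.isSymm_def.mp hS
  have hsep : ∀ x : W0 B v v', (∀ y : W0 B v v', B (x : V) (y : V) = 0) → x = 0 := by
    intro x hx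
    apply Subtype.ext
    apply hB.1 x
    intro u
    have h3 := hx ⟨_, W0_proj B hS v v' hvv hvv' u⟩
    have hx' := (mem_W0 B v v' x).1 x.2
    have hxv : B (x : V) v = 0 := by rw [← hsym v x, hx'.1, map_zero]
    have hxv' : B (x : V) v' = 0 := by rw [← hsym v' x, hx'.2, map_zero]
    simpa [hxv, hxv'] using h3
  refine ⟨fun x hx => hsep x (fun y => hx y), fun y hy => hsep y (fun x => ?_)⟩
  rw [← hsym]
  have h4 : B (x : V) (y : V) = 0 := hy x
  rw [h4, map_zero]

theorem W0_finrank [FiniteDimensional F V] (hS : B.IsSymm) (v v' : V) (hvv : B v v = 0)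
    (hvv' : B v v' = 1) (k : ℕ) (hn : Module.finrank F V = k + 2) :
    Module.finrank F (W0 B v v') = k := by
  have hv'v : B v' v = 1 := sym_one B hS v v' hvv'
  have h1 := LinearMap.finrank_range_add_finrank_ker ((B v).prod (B v'))
  have h2 : LinearMap.range ((B v).prod (B v')) = ⊤ := by
    rw [LinearMap.range_eq_top]
    rintro ⟨a, b⟩
    refine ⟨a • v' + (b - a * B v' v') • v, ?_⟩
    apply Prod.ext
    · show B v (a • v' + (b - a * B v' v') • v) = a
      simp only [map_add, map_smul, smul_eq_mul, hvv, hvv']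
      ring
    · show B v' (a • v' + (b - a * B v' v') • v) = b
      simp only [map_add, map_smul, smul_eq_mul, hv'v]
      ring
  have h3 : LinearMap.ker ((B v).prod (B v')) = W0 B v v' := LinearMap.ker_prod _ _
  rw [h2, h3, finrank_top, Module.finrank_prod, Module.finrank_self, hn] at h1
  omega

/-- The isotropic vectors orthogonal to `v` but outside `span {v}`. -/
noncomputable def perpEquiv (hS : B.IsSymm) (v v' : V) (hvv : B v v = 0) (hvv' : B v v' = 1) :
    {w : V // w ∉ Submodule.span F {v} ∧ B v w = 0 ∧ B w w = 0} ≃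
    F × {x : W0 B v v' // x ≠ 0 ∧ B (x : V) (x : V) = 0} where
  toFun w := (B v' w.1, ⟨⟨w.1 - B v' w.1 • v, by
      rw [mem_W0]
      constructor
      · rw [map_sub, map_smul, hvv, w.2.2.1, smul_zero, sub_zero]
      · rw [map_sub, map_smul, sym_one B hS v v' hvv', smul_eq_mul, mul_one, sub_self]⟩, by
      constructor
      · intro h0
        apply w.2.1
        have h1 : w.1 - B v' w.1 • v = 0 := congrArg Subtype.val h0
        rw [Submodule.mem_span_singleton]
        exact ⟨B v' w.1, (sub_eq_zero.1 h1).symm⟩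
      · have hwv : B w.1 v = 0 := by
          rw [← LinearMap.isSymm_def.mp hS v w.1, w.2.2.1, map_zero]
        show B (w.1 - B v' w.1 • v) (w.1 - B v' w.1 • v) = 0
        simp only [map_sub, LinearMap.map_smulₛₗ, LinearMap.sub_apply, LinearMap.smul_apply,
          map_smul, smul_eq_mul, hvv, hwv, w.2.2.1, w.2.2.2, mul_zero, sub_zero]⟩)
  invFun p := ⟨(p.2.1 : V) + p.1 • v, by
      have hx := (mem_W0 B v v' _).1 p.2.1.2
      have hxv : B (p.2.1 : V) v = 0 := by
        rw [← LinearMap.isSymm_def.mp hS v (p.2.1 : V), hx.1, map_zero]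
      refine ⟨?_, ?_, ?_⟩
      · intro hmem
        obtain ⟨s, hs⟩ := Submodule.mem_span_singleton.1 hmem
        apply p.2.2.1
        apply Subtype.ext
        have h1 : (p.2.1 : V) = (s - p.1) • v := by
          rw [sub_smul, hs]
          abel
        have h2 : B v' (p.2.1 : V) = s - p.1 := by
          rw [h1, map_smul, sym_one B hS v v' hvv', smul_eq_mul, mul_one]
        rw [hx.2] at h2
        rw [h1, ← h2, zero_smul]
        rfl
      · rw [map_add, map_smul, hvv, hx.1, smul_zero, add_zero]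
      · simp only [map_add, LinearMap.map_smulₛₗ, LinearMap.add_apply, LinearMap.smul_apply,
          map_smul, smul_eq_mul, hvv, hxv, hx.1, p.2.2.2, mul_zero, add_zero]⟩
  left_inv w := by
    apply Subtype.ext
    show w.1 - B v' w.1 • v + B v' w.1 • v = w.1
    abel
  right_inv p := by
    obtain ⟨t, ⟨⟨x, hx⟩, hx2⟩⟩ := p
    have hx' := (mem_W0 B v v' x).1 hx
    have e1 : B v' (x + t • v) = t := by
      rw [map_add, map_smul, hx'.2, sym_one B hS v v' hvv', smul_eq_mul, mul_one, zero_add]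
    refine Prod.ext e1 (Subtype.ext (Subtype.ext ?_))
    show x + t • v - B v' (x + t • v) • v = x
    rw [e1]
    abel

end structural

theorem card_ne_zero_pred {M : Type*} [AddCommGroup M] [Finite M] (p : M → Prop) (h0 : p 0) :
    Nat.card {x : M // x ≠ 0 ∧ p x} + 1 = Nat.card {x : M // p x} := by
  classical
  rw [← Nat.card_congr (Equiv.optionSubtypeNe (⟨0, h0⟩ : {x : M // p x})), Finite.card_option]
  congr 1
  apply Nat.card_congr
  exact
    { toFun := fun x => ⟨⟨x.1, x.2.2⟩, fun h => x.2.1 (congrArg Subtype.val h)⟩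
      invFun := fun y => ⟨y.1.1, fun h => y.2 (Subtype.ext h), y.1.2⟩
      left_inv := fun x => rfl
      right_inv := fun y => rfl }

theorem card_val {F : Type*} [Field F] [Fintype F] {q : ℕ} (hF : Fintype.card F = q ^ 2)
    (n : ℕ) {V : Type*} [AddCommGroup V] [Module F V] [FiniteDimensional F V]
    (B : V →ₛₗ[S0284.frob hF] V →ₗ[F] F) (hS : B.IsSymm) (hB : B.Nondegenerate)
    (hn : Module.finrank F V = n) (c : F) :
    Nat.card {v : V // B v v = c} = Nat.card {x : Fin n → F // hermForm n F q x x = c} := by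
  obtain ⟨b, hb⟩ := S0755.main (S0284.frob hF) (S0284.frob_ne hF) (S0284.frob_invol hF) n B hS hB
    hn
  apply Nat.card_congr
  refine Equiv.subtypeEquiv b.equivFun.toEquiv (fun v => ?_)
  have key : B v v = hermForm n F q (b.equivFun v) (b.equivFun v) := by
    obtain ⟨x, hx⟩ : ∃ x, x = b.equivFun v := ⟨_, rfl⟩
    have hv : v = ∑ i, x i • b i := by
      rw [hx]
      exact (b.sum_equivFun v).symm
    rw [← hx, hv, S0277.sesq_sum (S0284.frob hF) B b hb x x]
    unfold hermForm
    apply Finset.sum_congr rfl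
    intro i _
    rw [S0284.frob_apply, mul_comm]
  show B v v = c ↔ hermForm n F q (b.equivFun v) (b.equivFun v) = c
  rw [key]

theorem count_perp {F : Type*} [Field F] [Fintype F] {q : ℕ} (hF : Fintype.card F = q ^ 2)
    (k : ℕ) {V : Type u} [AddCommGroup V] [Module F V] [FiniteDimensional F V]
    (B : V →ₛₗ[S0284.frob hF] V →ₗ[F] F) (hS : B.IsSymm) (hB : B.Nondegenerate)
    (hn : Module.finrank F V = k + 2) (v : V) (hv : v ≠ 0) (hvv : B v v = 0) :
    Nat.card {w : V // w ∉ Submodule.span F {v} ∧ B v w = 0 ∧ B w w = 0} + q ^ 2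
      = q ^ 2 * Nat.card {x : Fin k → F // hermForm k F q x x = 0} := by
  haveI : Finite V := Module.finite_of_finite F
  obtain ⟨v', hvv'⟩ : ∃ v', B v v' = 1 := by
    have h1 : ∃ y, B v y ≠ 0 := by
      by_contra hno
      push Not at hno
      exact hv (hB.1 v hno)
    obtain ⟨y, hy⟩ := h1
    refine ⟨(B v y)⁻¹ • y, ?_⟩
    rw [map_smul, smul_eq_mul, inv_mul_cancel₀ hy]
  have hdim := W0_finrank B hS v v' hvv hvv' k hn
  have hS' : (B.domRestrict₁₂ (W0 B v v') (W0 B v v')).IsSymm :=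
    ⟨fun x y => LinearMap.isSymm_def.mp hS x y⟩
  have hB' := W0_nondeg B hS hB v v' hvv hvv'
  have h1 := card_val hF k (B.domRestrict₁₂ (W0 B v v') (W0 B v v')) hS' hB' hdim 0
  have h2 := card_ne_zero_pred (fun x : W0 B v v' => B (x : V) (x : V) = 0) (by simp)
  have h3 : Nat.card {x : W0 B v v' // B (x : V) (x : V) = 0}
      = Nat.card {x : Fin k → F // hermForm k F q x x = 0} := h1
  rw [Nat.card_congr (perpEquiv B hS v v' hvv hvv'), Nat.card_prod, Nat.card_eq_fintype_card,
    hF, ← h3, ← h2]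
  ring

theorem herm_tiso_iff {F : Type*} [Field F] [Fintype F] {q : ℕ} (hF : Fintype.card F = q ^ 2)
    (n : ℕ) (v w : Fin n → F) :
    (∀ u ∈ Submodule.span F {v, w}, ∀ u' ∈ Submodule.span F {v, w}, hermForm n F q u u' = 0)
      ↔ (S0277.hB hF n v v = 0 ∧ S0277.hB hF n v w = 0 ∧ S0277.hB hF n w w = 0) := by
  have hv : v ∈ Submodule.span F ({v, w} : Set (Fin n → F)) :=
    Submodule.subset_span (Set.mem_insert _ _)
  have hw : w ∈ Submodule.span F ({v, w} : Set (Fin n → F)) :=
    Submodule.subset_span (Set.mem_insert_of_mem _ (Set.mem_singleton _))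
  constructor
  · intro h
    exact ⟨h v hv v hv, h w hw v hv, h w hw w hw⟩
  · rintro ⟨h1, h2, h3⟩ u hu u' hu'
    obtain ⟨a, b, rfl⟩ := Submodule.mem_span_pair.1 hu
    obtain ⟨c, d, rfl⟩ := Submodule.mem_span_pair.1 hu'
    have h4 : S0277.hB hF n w v = 0 := by
      rw [← LinearMap.isSymm_def.mp (S0277.hB_symm hF n) v w, h2, map_zero]
    rw [← S0277.hB_apply hF]
    simp only [map_add, LinearMap.map_smulₛₗ, LinearMap.add_apply, LinearMap.smul_apply,
      map_smul, smul_eq_mul, h1, h2, h3, h4, mul_zero, add_zero]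

theorem planes_count {F : Type*} [Field F] [Fintype F] {q : ℕ} (hF : Fintype.card F = q ^ 2)
    (k t : ℕ)
    (ht : t * (q ^ 4 - q ^ 2) + q ^ 2
      = q ^ 2 * Nat.card {x : Fin k → F // hermForm k F q x x = 0}) :
    Nat.card {W : Submodule F (Fin (k + 2) → F) // Module.finrank F W = 2 ∧
        ∀ u ∈ W, ∀ v ∈ W, hermForm (k + 2) F q u v = 0} * (q ^ 4 - 1) + t
      = t * Nat.card {x : Fin (k + 2) → F // hermForm (k + 2) F q x x = 0} := by
  classical
  have hq := S0284.q_two_le hF
  have hq42 : 0 < q ^ 4 - q ^ 2 := by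
    have h1 : q ^ 2 < q ^ 4 := Nat.pow_lt_pow_right (by omega) (by norm_num)
    omega
  have hP : ∀ W : Submodule F (Fin (k + 2) → F), (Module.finrank F W = 2 ∧
      ∀ u ∈ W, ∀ w ∈ W, hermForm (k + 2) F q u w = 0) → Module.finrank F W = 2 := fun W h => h.1
  have hQ4 : Fintype.card F ^ 2 = q ^ 4 := by
    rw [hF, ← pow_mul]
  have hpt : ∀ v : Fin (k + 2) → F, v ≠ 0 →
      Nat.card {W : Submodule F (Fin (k + 2) → F) // (Module.finrank F W = 2 ∧
        ∀ u ∈ W, ∀ w ∈ W, hermForm (k + 2) F q u w = 0) ∧ v ∈ W}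
        = if hermForm (k + 2) F q v v = 0 then t else 0 := by
    intro v hv
    split_ifs with hiso
    · have h1 := S0828.flags_point (fun W : Submodule F (Fin (k + 2) → F) =>
        Module.finrank F W = 2 ∧ ∀ u ∈ W, ∀ w ∈ W, hermForm (k + 2) F q u w = 0) hP v hv
      have hvv : S0277.hB hF (k + 2) v v = 0 := hiso
      have h2 := count_perp hF k (S0277.hB hF (k + 2)) (S0277.hB_symm hF (k + 2))
        (S0277.hB_nondeg hF (k + 2)) (Module.finrank_fin_fun F) v hv hvv
      have h3 : Nat.card {w : Fin (k + 2) → F // w ∉ Submodule.span F {v} ∧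
          (Module.finrank F (Submodule.span F {v, w}) = 2 ∧
            ∀ u ∈ Submodule.span F {v, w}, ∀ u' ∈ Submodule.span F {v, w},
              hermForm (k + 2) F q u u' = 0)}
          = Nat.card {w : Fin (k + 2) → F // w ∉ Submodule.span F {v} ∧
            S0277.hB hF (k + 2) v w = 0 ∧ S0277.hB hF (k + 2) w w = 0} := by
        apply Nat.card_congr
        refine Equiv.subtypeEquivRight (fun w => ?_)
        constructor
        · intro h
          have h5 := (herm_tiso_iff hF (k + 2) v w).1 h.2.2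
          exact ⟨h.1, h5.2.1, h5.2.2⟩
        · intro h
          exact ⟨h.1, S0828.finrank_span_pair v w hv h.1,
            (herm_tiso_iff hF (k + 2) v w).2 ⟨hvv, h.2.1, h.2.2⟩⟩
      rw [h3, hQ4, hF] at h1
      have h6 : Nat.card {W : Submodule F (Fin (k + 2) → F) // (Module.finrank F W = 2 ∧
          ∀ u ∈ W, ∀ w ∈ W, hermForm (k + 2) F q u w = 0) ∧ v ∈ W} * (q ^ 4 - q ^ 2)
          = t * (q ^ 4 - q ^ 2) := by omega
      exact Nat.eq_of_mul_eq_mul_right hq42 h6
    · have hE : IsEmpty {W : Submodule F (Fin (k + 2) → F) // (Module.finrank F W = 2 ∧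
          ∀ u ∈ W, ∀ w ∈ W, hermForm (k + 2) F q u w = 0) ∧ v ∈ W} :=
        ⟨fun W => hiso (W.2.1.2 v W.2.2 v W.2.2)⟩
      exact Nat.card_of_isEmpty
  have h1 := S0828.flags_total (fun W : Submodule F (Fin (k + 2) → F) =>
      Module.finrank F W = 2 ∧ ∀ u ∈ W, ∀ w ∈ W, hermForm (k + 2) F q u w = 0) hP
  haveI : Fintype {v : Fin (k + 2) → F // v ≠ 0} := Fintype.ofFinite _
  rw [Nat.card_sigma, Finset.sum_congr rfl (fun v _ => hpt v.1 v.2), ← Finset.sum_filter,
    Finset.sum_const, smul_eq_mul, ← Fintype.card_subtype,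
    ← Nat.card_eq_fintype_card (α := {v : {v : Fin (k + 2) → F // v ≠ 0} //
      hermForm (k + 2) F q v.1 v.1 = 0}), hQ4] at h1
  have h2 := card_ne_zero_pred (fun x : Fin (k + 2) → F => hermForm (k + 2) F q x x = 0)
    (by simp [hermForm, (show q ≠ 0 by omega)])
  have h3 : Nat.card {v : {v : Fin (k + 2) → F // v ≠ 0} // hermForm (k + 2) F q v.1 v.1 = 0}
      = Nat.card {x : Fin (k + 2) → F // x ≠ 0 ∧ hermForm (k + 2) F q x x = 0} :=
    Nat.card_congr (Equiv.subtypeSubtypeEquivSubtypeInter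
      (fun x : Fin (k + 2) → F => x ≠ 0) (fun x => hermForm (k + 2) F q x x = 0))
  rw [h3] at h1
  rw [h1, ← h2]
  ring


/-- The unitary quadrangle of PSU_4(q): with |F| = q², the number of 2-dimensional subspaces of F^4 on which the Hermitian form Σ x_i y_i^q vanishes is (q + 1)(q³ + 1). -/
theorem result {F : Type*} [Field F] [Fintype F] {q : ℕ} (hF : Fintype.card F = q ^ 2) : Nat.card {W : Submodule F (Fin 4 → F) // Module.finrank F W = 2 ∧ ∀ u ∈ W, ∀ v ∈ W, Cfsg.hermForm 4 F q u v = 0} = (q + 1) * (q ^ 3 + 1) := by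
  have hq := S0284.q_two_le hF
  have hq2 : 1 ≤ q ^ 2 := Nat.one_le_pow _ _ (by omega)
  have hq4 : 1 ≤ q ^ 4 := Nat.one_le_pow _ _ (by omega)
  have hq42 : q ^ 2 ≤ q ^ 4 := Nat.pow_le_pow_right (by omega) (by norm_num)
  have hI2 := S0285.result hF 2
  rw [if_pos (by decide)] at hI2
  have hI4 := S0285.result hF 4
  rw [if_pos (by decide)] at hI4
  norm_num at hI2 hI4
  have h := planes_count hF 2 (q + 1) (by
    rw [hI2]
    zify [hq2, hq42]
    ring)
  rw [hI4] at h
  have h3 : 0 < q ^ 4 - 1 := by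
    have : 1 < q ^ 4 := Nat.one_lt_pow (by norm_num) (by omega)
    omega
  have h6 : Nat.card {W : Submodule F (Fin 4 → F) // Module.finrank F W = 2 ∧
      ∀ u ∈ W, ∀ v ∈ W, Cfsg.hermForm 4 F q u v = 0} * (q ^ 4 - 1) + (q + 1)
      = (q + 1) * ((q ^ 4 - 1) * (q ^ 3 + 1) + 1) := h
  apply Nat.eq_of_mul_eq_mul_right h3
  have h7 : (q + 1) * ((q ^ 4 - 1) * (q ^ 3 + 1) + 1)
      = (q + 1) * (q ^ 3 + 1) * (q ^ 4 - 1) + (q + 1) := by ring
  omega


end Cfsg.Agent.S0829
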