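import Cfsg.Statements.S2618
import Mathlib
import Cfsg.Agent.S0752
-- import your own Cfsg.Agent.* helpers here

set_option autoImplicit false
open Cfsg

namespace Cfsg.Agent.S2618


variable {F V : Type*} [Field F] [AddCommGroup V] [Module F V]

/-- Chevalley–Warning for ternary quadratic forms over a finite field. -/
theorem cw3 [Finite F] (q0 q1 q2 b01 b02 b12 : F) :
    ∃ x y z : F, (x ≠ 0 ∨ y ≠ 0 ∨ z ≠ 0) ∧
      q0 * x * x + q1 * y * y + q2 * z * z + b01 * x * y + b02 * x * z + b12 * y * z = 0 := by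
  classical
  cases nonempty_fintype F
  obtain ⟨p, hp⟩ := CharP.exists F
  haveI := hp
  have hpp : p.Prime := CharP.char_is_prime F p
  obtain ⟨P, hP⟩ : ∃ P : MvPolynomial (Fin 3) F, P =
      MvPolynomial.C q0 * MvPolynomial.X 0 * MvPolynomial.X 0
      + MvPolynomial.C q1 * MvPolynomial.X 1 * MvPolynomial.X 1
      + MvPolynomial.C q2 * MvPolynomial.X 2 * MvPolynomial.X 2
      + MvPolynomial.C b01 * MvPolynomial.X 0 * MvPolynomial.X 1
      + MvPolynomial.C b02 * MvPolynomial.X 0 * MvPolynomial.X 2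
      + MvPolynomial.C b12 * MvPolynomial.X 1 * MvPolynomial.X 2 := ⟨_, rfl⟩
  have hterm : ∀ (c : F) (i j : Fin 3),
      (MvPolynomial.C c * MvPolynomial.X i * MvPolynomial.X j :
        MvPolynomial (Fin 3) F).totalDegree ≤ 2 := by
    intro c i j
    calc (MvPolynomial.C c * MvPolynomial.X i * MvPolynomial.X j :
          MvPolynomial (Fin 3) F).totalDegree
        ≤ (MvPolynomial.C c * MvPolynomial.X i : MvPolynomial (Fin 3) F).totalDegree
          + (MvPolynomial.X j : MvPolynomial (Fin 3) F).totalDegree :=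
          MvPolynomial.totalDegree_mul _ _
      _ ≤ ((MvPolynomial.C c : MvPolynomial (Fin 3) F).totalDegree
          + (MvPolynomial.X i : MvPolynomial (Fin 3) F).totalDegree)
          + (MvPolynomial.X j : MvPolynomial (Fin 3) F).totalDegree :=
          Nat.add_le_add_right (MvPolynomial.totalDegree_mul _ _) _
      _ = 2 := by
          rw [MvPolynomial.totalDegree_C, MvPolynomial.totalDegree_X, MvPolynomial.totalDegree_X]
  have hdeg : P.totalDegree < Fintype.card (Fin 3) := by
    have h2 : P.totalDegree ≤ 2 := by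
      rw [hP]
      refine (MvPolynomial.totalDegree_add _ _).trans (max_le ?_ (hterm _ _ _))
      refine (MvPolynomial.totalDegree_add _ _).trans (max_le ?_ (hterm _ _ _))
      refine (MvPolynomial.totalDegree_add _ _).trans (max_le ?_ (hterm _ _ _))
      refine (MvPolynomial.totalDegree_add _ _).trans (max_le ?_ (hterm _ _ _))
      exact (MvPolynomial.totalDegree_add _ _).trans (max_le (hterm _ _ _) (hterm _ _ _))
    rw [Fintype.card_fin]
    omega
  have hdvd : p ∣ Nat.card {x : Fin 3 → F // MvPolynomial.eval x P = 0} := by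
    have h := char_dvd_card_solutions p hdeg
    rwa [← Nat.card_eq_fintype_card] at h
  have h0 : MvPolynomial.eval (0 : Fin 3 → F) P = 0 := by
    rw [hP]
    simp
  haveI : Nonempty {x : Fin 3 → F // MvPolynomial.eval x P = 0} := ⟨⟨0, h0⟩⟩
  have hcard : 1 < Nat.card {x : Fin 3 → F // MvPolynomial.eval x P = 0} := by
    have hpos : 0 < Nat.card {x : Fin 3 → F // MvPolynomial.eval x P = 0} := Nat.card_pos
    have h1 := Nat.le_of_dvd hpos hdvd
    have h2 := hpp.two_le
    omega
  haveI : Nontrivial {x : Fin 3 → F // MvPolynomial.eval x P = 0} :=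
    Finite.one_lt_card_iff_nontrivial.mp hcard
  obtain ⟨⟨x, hx⟩, hne⟩ := exists_ne (⟨0, h0⟩ : {x : Fin 3 → F // MvPolynomial.eval x P = 0})
  refine ⟨x 0, x 1, x 2, ?_, ?_⟩
  · by_contra hcon
    push Not at hcon
    apply hne
    apply Subtype.ext
    funext i
    fin_cases i
    · exact hcon.1
    · exact hcon.2.1
    · exact hcon.2.2
  · rw [hP] at hx
    simpa using hx

theorem pB_symm (Q : QuadraticForm F V) (x y : V) :
    QuadraticMap.polarBilin Q x y = QuadraticMap.polarBilin Q y x :=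
  QuadraticMap.polar_comm Q x y

theorem Q_add (Q : QuadraticForm F V) (x y : V) :
    Q (x + y) = Q x + Q y + QuadraticMap.polarBilin Q x y :=
  QuadraticMap.map_add Q x y

theorem Q_smul (Q : QuadraticForm F V) (a : F) (x : V) : Q (a • x) = a * a * Q x := by
  rw [QuadraticMap.map_smul, smul_eq_mul]

theorem pB_self (Q : QuadraticForm F V) (x : V) :
    QuadraticMap.polarBilin Q x x = 2 * Q x := by
  show QuadraticMap.polar Q x x = 2 * Q x
  rw [QuadraticMap.polar_self]
  simp

theorem sym_fe (B : LinearMap.BilinForm F V) (hS : ∀ x y, B x y = B y x) (k : ℕ)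
    (e f : Fin k → V) (h : S0752.IsHyp B k e f) :
    ∀ i j, B (f i) (e j) = if i = j then 1 else 0 := by
  intro i j
  rw [hS, h.1]
  by_cases hij : i = j
  · subst hij
    simp
  · simp [hij, Ne.symm hij]

theorem sym_sums (B : LinearMap.BilinForm F V) (hS : ∀ x y, B x y = B y x) (k : ℕ)
    (e f : Fin k → V) (h : S0752.IsHyp B k e f) :
    (∀ (j) (c : Fin k → F), B (e j) (∑ i, c i • e i) = 0) ∧
    (∀ (j) (c : Fin k → F), B (e j) (∑ i, c i • f i) = c j) ∧
    (∀ (j) (c : Fin k → F), B (f j) (∑ i, c i • e i) = c j) ∧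
    (∀ (j) (c : Fin k → F), B (f j) (∑ i, c i • f i) = 0) := by
  classical
  have hfe := sym_fe B hS k e f h
  obtain ⟨h1, h2, h3⟩ := h
  refine ⟨?_, ?_, ?_, ?_⟩
  · intro j c; simp [h2]
  · intro j c; simp [h1]
  · intro j c; simp [hfe]
  · intro j c; simp [h3]

theorem sym_li (B : LinearMap.BilinForm F V) (hS : ∀ x y, B x y = B y x) (k : ℕ)
    (e f : Fin k → V) (h : S0752.IsHyp B k e f) : LinearIndependent F (Sum.elim e f) := by
  classical
  obtain ⟨s1, s2, s3, s4⟩ := sym_sums B hS k e f h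
  rw [Fintype.linearIndependent_iff]
  intro g hg
  rw [Fintype.sum_sum_type] at hg
  simp only [Sum.elim_inl, Sum.elim_inr] at hg
  have key1 : ∀ j, g (Sum.inr j) = 0 := by
    intro j
    have h5 := congrArg (B (e j)) hg
    rw [map_add, s1, s2, map_zero, zero_add] at h5
    exact h5
  have key2 : ∀ j, g (Sum.inl j) = 0 := by
    intro j
    have h5 := congrArg (B (f j)) hg
    rw [map_add, s3, s4, map_zero, add_zero] at h5
    exact h5
  rintro (i | i)
  · exact key2 i
  · exact key1 i

theorem sym_cons (B : LinearMap.BilinForm F V) (hS : ∀ x y, B x y = B y x) (k : ℕ)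
    (e f : Fin k → V) (h : S0752.IsHyp B k e f) (u v : V)
    (hu : ∀ i, B (e i) u = 0 ∧ B (f i) u = 0) (hv : ∀ i, B (e i) v = 0 ∧ B (f i) v = 0)
    (huv : B u v = 1) (huu : B u u = 0) (hvv : B v v = 0) :
    S0752.IsHyp B (k+1) (Fin.cons u e) (Fin.cons v f) := by
  obtain ⟨h1, h2, h3⟩ := h
  have hue : ∀ i, B u (e i) = 0 := fun i => by rw [hS, (hu i).1]
  have huf : ∀ i, B u (f i) = 0 := fun i => by rw [hS, (hu i).2]
  have hve : ∀ i, B v (e i) = 0 := fun i => by rw [hS, (hv i).1]
  have hvf : ∀ i, B v (f i) = 0 := fun i => by rw [hS, (hv i).2]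
  refine ⟨?_, ?_, ?_⟩
  · intro i j
    refine Fin.cases ?_ (fun i => ?_) i <;> refine Fin.cases ?_ (fun j => ?_) j
    · simp [huv]
    · simp [huf, (Fin.succ_ne_zero j).symm]
    · simp [(hv i).1, Fin.succ_ne_zero]
    · simp [h1]
  · intro i j
    refine Fin.cases ?_ (fun i => ?_) i <;> refine Fin.cases ?_ (fun j => ?_) j
    · simp [huu]
    · simp [hue]
    · simp [(hu i).1]
    · simp [h2]
  · intro i j
    refine Fin.cases ?_ (fun i => ?_) i <;> refine Fin.cases ?_ (fun j => ?_) j
    · simp [hvv]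
    · simp [hvf]
    · simp [(hv i).2]
    · simp [h3]

/-- Structure of a nondegenerate quadratic space: a maximal system of singular hyperbolic pairs
and its anisotropic orthogonal complement. -/
theorem qstruct [FiniteDimensional F V] (B : LinearMap.BilinForm F V) (q : V → F)
    (hB : B.Nondegenerate) (hS : ∀ x y, B x y = B y x)
    (hadd : ∀ x y, q (x + y) = q x + q y + B x y)
    (hsmul : ∀ (a : F) x, q (a • x) = a * a * q x)
    (hself : ∀ x, B x x = 2 * q x) :
    ∃ (k : ℕ) (e f : Fin k → V) (W : Submodule F V),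
      S0752.IsHyp B k e f ∧ (∀ i, q (e i) = 0) ∧ (∀ i, q (f i) = 0) ∧
      LinearIndependent F (Sum.elim e f) ∧
      (∀ w, w ∈ W ↔ ∀ i, B (e i) w = 0 ∧ B (f i) w = 0) ∧
      IsCompl (Submodule.span F (Set.range (Sum.elim e f))) W ∧
      (∀ w ∈ W, w ≠ 0 → q w ≠ 0) ∧
      (∀ x ∈ W, x ≠ 0 → ∃ y ∈ W, B x y = 1) := by
  classical
  obtain ⟨k, e, f, h, hqe, hqf, hmax⟩ : ∃ (k : ℕ) (e f : Fin k → V), S0752.IsHyp B k e f ∧
      (∀ i, q (e i) = 0) ∧ (∀ i, q (f i) = 0) ∧
      ∀ (e' f' : Fin (k+1) → V), ¬ (S0752.IsHyp B (k+1) e' f' ∧ (∀ i, q (e' i) = 0) ∧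
        (∀ i, q (f' i) = 0)) := by
    by_contra hno
    have hall : ∀ k : ℕ, ∃ e f : Fin k → V, S0752.IsHyp B k e f ∧ (∀ i, q (e i) = 0) ∧
        (∀ i, q (f i) = 0) := by
      intro k
      induction k with
      | zero =>
        exact ⟨fun i => i.elim0, fun i => i.elim0,
          ⟨fun i => i.elim0, fun i => i.elim0, fun i => i.elim0⟩,
          fun i => i.elim0, fun i => i.elim0⟩
      | succ k ih =>
        obtain ⟨e, f, h, h1, h2⟩ := ih
        by_contra hk
        apply hno
        refine ⟨k, e, f, h, h1, h2, fun e' f' h' => hk ⟨e', f', h'⟩⟩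
    obtain ⟨e, f, h, -, -⟩ := hall (Module.finrank F V + 1)
    have h1 := (sym_li B hS _ e f h).fintype_card_le_finrank
    rw [Fintype.card_sum, Fintype.card_fin] at h1
    omega
  have hli := sym_li B hS k e f h
  obtain ⟨s1, s2, s3, s4⟩ := sym_sums B hS k e f h
  obtain ⟨W, hWmem⟩ : ∃ W : Submodule F V, ∀ w, w ∈ W ↔ ∀ i, B (e i) w = 0 ∧ B (f i) w = 0 := by
    refine ⟨⨅ i, (LinearMap.ker (B (e i)) ⊓ LinearMap.ker (B (f i))), fun w => ?_⟩
    simp only [Submodule.mem_iInf, Submodule.mem_inf, LinearMap.mem_ker]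
  have hproj : ∀ v, v - (∑ i, B v (f i) • e i + ∑ i, B v (e i) • f i) ∈ W := by
    intro v
    rw [hWmem]
    intro j
    constructor
    · rw [map_sub, map_add, s1, s2, hS (e j) v]
      ring
    · rw [map_sub, map_add, s3, s4, hS (f j) v]
      ring
  have heH : ∀ i, e i ∈ Submodule.span F (Set.range (Sum.elim e f)) :=
    fun i => Submodule.subset_span ⟨Sum.inl i, rfl⟩
  have hfH : ∀ i, f i ∈ Submodule.span F (Set.range (Sum.elim e f)) :=
    fun i => Submodule.subset_span ⟨Sum.inr i, rfl⟩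
  have hcompl : IsCompl (Submodule.span F (Set.range (Sum.elim e f))) W := by
    constructor
    · rw [Submodule.disjoint_def]
      intro x hxH hxW
      rw [Submodule.mem_span_range_iff_exists_fun] at hxH
      obtain ⟨g, rfl⟩ := hxH
      rw [Fintype.sum_sum_type] at hxW ⊢
      simp only [Sum.elim_inl, Sum.elim_inr] at hxW ⊢
      rw [hWmem] at hxW
      have ha : ∀ j, g (Sum.inl j) = 0 := by
        intro j
        have h5 := (hxW j).2
        rw [map_add, s3, s4, add_zero] at h5
        exact h5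
      have hc : ∀ j, g (Sum.inr j) = 0 := by
        intro j
        have h5 := (hxW j).1
        rw [map_add, s1, s2, zero_add] at h5
        exact h5
      simp [ha, hc]
    · rw [codisjoint_iff, eq_top_iff]
      intro v _
      have hv : v = (∑ i, B v (f i) • e i + ∑ i, B v (e i) • f i) +
          (v - (∑ i, B v (f i) • e i + ∑ i, B v (e i) • f i)) := by abel
      rw [hv]
      apply Submodule.add_mem_sup
      · apply Submodule.add_mem
        · exact Submodule.sum_mem _ (fun i _ => Submodule.smul_mem _ _ (heH i))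
        · exact Submodule.sum_mem _ (fun i _ => Submodule.smul_mem _ _ (hfH i))
      · exact hproj v
  have hWe : ∀ w ∈ W, ∀ i, B w (e i) = 0 := fun w hw i => by
    rw [hS, ((hWmem w).mp hw i).1]
  have hWf : ∀ w ∈ W, ∀ i, B w (f i) = 0 := fun w hw i => by
    rw [hS, ((hWmem w).mp hw i).2]
  have hnd : ∀ x ∈ W, x ≠ 0 → ∃ y ∈ W, B x y = 1 := by
    intro x hx hx0
    obtain ⟨z, hz⟩ : ∃ z, B x z ≠ 0 := by
      by_contra hcon
      push Not at hcon
      exact hx0 (hB.1 x hcon)
    have hz' : B x (z - (∑ i, B z (f i) • e i + ∑ i, B z (e i) • f i)) = B x z := by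
      rw [map_sub, map_add, map_sum, map_sum]
      simp [hWe x hx, hWf x hx]
    refine ⟨(B x z)⁻¹ • (z - (∑ i, B z (f i) • e i + ∑ i, B z (e i) • f i)),
      W.smul_mem _ (hproj z), ?_⟩
    rw [map_smul, hz', smul_eq_mul, inv_mul_cancel₀ hz]
  have haniso : ∀ w ∈ W, w ≠ 0 → q w ≠ 0 := by
    intro w hw hw0 hqw
    obtain ⟨y, hyW, hy⟩ := hnd w hw hw0
    have hvW : y - q y • w ∈ W := W.sub_mem hyW (W.smul_mem _ hw)
    have hqv : q (y - q y • w) = 0 := by
      have h1 : y - q y • w = y + (-(q y)) • w := by rw [neg_smul, sub_eq_add_neg]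
      rw [h1, hadd, hsmul, hqw, map_smul, smul_eq_mul, hS y w, hy]
      ring
    have hwv : B w (y - q y • w) = 1 := by
      rw [map_sub, map_smul, hy, hself, hqw]
      simp
    apply hmax (Fin.cons w e) (Fin.cons (y - q y • w) f)
    refine ⟨sym_cons B hS k e f h w (y - q y • w) ((hWmem w).mp hw) ((hWmem _).mp hvW) hwv
      (by rw [hself, hqw, mul_zero]) (by rw [hself, hqv, mul_zero]), ?_, ?_⟩
    · intro i
      refine Fin.cases ?_ (fun i => ?_) i
      · simpa using hqw
      · simpa using hqe i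
    · intro i
      refine Fin.cases ?_ (fun i => ?_) i
      · simpa using hqv
      · simpa using hqf i
  exact ⟨k, e, f, W, h, hqe, hqf, hli, hWmem, hcompl, haniso, hnd⟩

/-- An anisotropic subspace of a quadratic space over a finite field has dimension at most 2. -/
theorem aniso_le_two [Finite F] [FiniteDimensional F V] (B : LinearMap.BilinForm F V)
    (q : V → F) (hadd : ∀ x y, q (x + y) = q x + q y + B x y)
    (hsmul : ∀ (a : F) x, q (a • x) = a * a * q x)
    (W : Submodule F V) (haniso : ∀ w ∈ W, w ≠ 0 → q w ≠ 0) : Module.finrank F W ≤ 2 := by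
  by_contra hcon
  push Not at hcon
  obtain ⟨u, hu⟩ := exists_linearIndependent_of_le_finrank (R := F) (M := W) (n := 3)
    (by omega)
  obtain ⟨x, y, z, hne, hxyz⟩ := cw3 (q (u 0)) (q (u 1)) (q (u 2)) (B (u 0) (u 1))
    (B (u 0) (u 2)) (B (u 1) (u 2))
  have hw : (x • u 0 + y • u 1 + z • u 2 : W) ≠ 0 := by
    intro h0
    rw [Fintype.linearIndependent_iff] at hu
    have h1 := hu ![x, y, z] (by rw [Fin.sum_univ_three]; simpa using h0)
    have hx := h1 0
    have hy := h1 1
    have hz := h1 2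
    simp at hx hy hz
    rcases hne with h | h | h
    · exact h hx
    · exact h hy
    · exact h hz
  apply haniso _ (x • u 0 + y • u 1 + z • u 2 : W).2 (fun h0 => hw (Subtype.ext h0))
  simp only [Submodule.coe_add, Submodule.coe_smul]
  rw [hadd, hadd, hsmul, hsmul, hsmul]
  simp only [map_add, map_smul, LinearMap.add_apply, LinearMap.smul_apply, smul_eq_mul]
  linear_combination hxyz



/-- Standard (parabolic) basis of a non-degenerate quadratic space of odd dimension 2m + 1 over a finite field (the non-degeneracy of the polar form forces the characteristic to be odd): there is a basis e_i, f_i (i < m), x with Q(e_i) = Q(f_i) = 0, B(e_i, f_j) = δ_ij (B the polar form), the e's pairwise orthogonal and the f's pairwise orthogonal, x orthogonal to all of them and Q(x) ≠ 0. -/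
theorem result {F V : Type*} [Field F] [Finite F] [AddCommGroup V] [Module F V] [FiniteDimensional F V] {m : ℕ} (hV : Module.finrank F V = 2 * m + 1) (Q : QuadraticForm F V) (hQ : (QuadraticMap.polarBilin Q).Nondegenerate) : ∃ b : Module.Basis (Unit ⊕ (Fin m ⊕ Fin m)) F V, Q (b (Sum.inl ())) ≠ 0 ∧ (∀ i, QuadraticMap.polar ⇑Q (b (Sum.inl ())) (b (Sum.inr (Sum.inl i))) = 0 ∧ QuadraticMap.polar ⇑Q (b (Sum.inl ())) (b (Sum.inr (Sum.inr i))) = 0) ∧ (∀ i, Q (b (Sum.inr (Sum.inl i))) = 0 ∧ Q (b (Sum.inr (Sum.inr i))) = 0) ∧ (∀ i j, QuadraticMap.polar ⇑Q (b (Sum.inr (Sum.inl i))) (b (Sum.inr (Sum.inr j))) = if i = j then 1 else 0) ∧ (∀ i j, QuadraticMap.polar ⇑Q (b (Sum.inr (Sum.inl i))) (b (Sum.inr (Sum.inl j))) = 0 ∧ QuadraticMap.polar ⇑Q (b (Sum.inr (Sum.inr i))) (b (Sum.inr (Sum.inr j))) = 0) := by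
  classical
  obtain ⟨k, e, f, W, h, hqe, hqf, hli, hWmem, hcompl, haniso, hnd⟩ :=
    qstruct (QuadraticMap.polarBilin Q) (⇑Q) hQ (pB_symm Q) (Q_add Q) (Q_smul Q) (pB_self Q)
  have hW2 := aniso_le_two (QuadraticMap.polarBilin Q) (⇑Q) (Q_add Q) (Q_smul Q) W haniso
  have hdim := Submodule.finrank_add_eq_of_isCompl hcompl
  rw [finrank_span_eq_card hli, Fintype.card_sum, Fintype.card_fin, hV] at hdim
  have hk : k = m := by omega
  have hW1 : Module.finrank F W = 1 := by omega
  subst hk
  obtain ⟨x, hx0⟩ : ∃ x : W, x ≠ 0 := by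
    haveI : Nontrivial W := Module.nontrivial_of_finrank_pos (R := F) (by omega)
    exact exists_ne 0
  have hxV : (x : V) ≠ 0 := fun h0 => hx0 (Subtype.ext h0)
  have hli2 : LinearIndependent F (Sum.elim (fun _ : Unit => (x : V)) (Sum.elim e f)) := by
    apply LinearIndependent.sum_type
    · exact (linearIndependent_unique_iff (R := F) (v := fun _ : Unit => (x : V))).mpr hxV
    · exact hli
    · refine Disjoint.mono_left ?_ hcompl.disjoint.symm
      apply Submodule.span_le.mpr
      rintro _ ⟨_, rfl⟩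
      exact x.2
  have hcard : Fintype.card (Unit ⊕ (Fin k ⊕ Fin k)) = Module.finrank F V := by
    rw [Fintype.card_sum, Fintype.card_sum, Fintype.card_fin, Fintype.card_unit, hV]
    omega
  refine ⟨basisOfLinearIndependentOfCardEqFinrank' _ hli2 hcard, ?_, ?_, ?_, ?_, ?_⟩
  all_goals simp only [coe_basisOfLinearIndependentOfCardEqFinrank', Sum.elim_inl, Sum.elim_inr]
  · exact haniso x x.2 hxV
  · intro i
    have h1 := (hWmem x).mp x.2 i
    exact ⟨by rw [QuadraticMap.polar_comm]; exact h1.1, by rw [QuadraticMap.polar_comm]; exact h1.2⟩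
  · intro i
    exact ⟨hqe i, hqf i⟩
  · intro i j
    exact h.1 i j
  · intro i j
    exact ⟨h.2.1 i j, h.2.2 i j⟩


end Cfsg.Agent.S2618
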