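import Cfsg.Statements.S0287
import Mathlib
import Cfsg.Agent.S0752
import Cfsg.Agent.S0245
import Cfsg.Agent.S2618
import Cfsg.Agent.S0829
-- import your own Cfsg.Agent.* helpers here

set_option autoImplicit false
open Cfsg

namespace Cfsg.Agent.S0287


open Matrix
open Cfsg.Agent.S0752 (IsHyp)
open Cfsg.Agent.S0245 (Wp mem_Wp)

universe u

section abstract

variable {F : Type*} {V : Type u} [Field F] [AddCommGroup V] [Module F V]

/-- `Q` is a quadratic function with nondegenerate polar form `B`. -/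
structure IsQS (B : LinearMap.BilinForm F V) (Q : V → F) : Prop where
  add : ∀ x y, Q (x + y) = Q x + Q y + B x y
  smul : ∀ (a : F) x, Q (a • x) = a * a * Q x
  nd : ∀ x, x ≠ 0 → ∃ y, B x y = 1

variable {B : LinearMap.BilinForm F V} {Q : V → F}

theorem IsQS.symm (h : IsQS B Q) (x y : V) : B x y = B y x := by
  have h1 := h.add x y
  have h2 := h.add y x
  rw [add_comm y x] at h2
  linear_combination h2 - h1

theorem IsQS.zero (h : IsQS B Q) : Q 0 = 0 := by
  have h1 := h.smul 0 0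
  simpa using h1

theorem IsQS.self (h : IsQS B Q) (x : V) : B x x = 2 * Q x := by
  have h1 := h.add x x
  have h2 := h.smul 2 x
  rw [two_smul] at h2
  linear_combination h2 - h1

theorem proj_mem (h : IsQS B Q) (u v : V) (hu : Q u = 0) (hv : Q v = 0) (huv : B u v = 1)
    (x : V) : x - B v x • u - B u x • v ∈ Wp B u v := by
  have huu : B u u = 0 := by rw [h.self, hu, mul_zero]
  have hvv : B v v = 0 := by rw [h.self, hv, mul_zero]
  have hvu : B v u = 1 := by rw [h.symm, huv]
  rw [mem_Wp]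
  constructor
  · simp only [map_sub, map_smul, smul_eq_mul, huu, huv]
    ring
  · simp only [map_sub, map_smul, smul_eq_mul, hvv, hvu]
    ring

noncomputable def splitQ (h : IsQS B Q) (u v : V) (hu : Q u = 0) (hv : Q v = 0)
    (huv : B u v = 1) : V ≃ ↥(Wp B u v) × (F × F) where
  toFun x := (⟨x - B v x • u - B u x • v, proj_mem h u v hu hv huv x⟩, (B u x, B v x))
  invFun y := (y.1 : V) + y.2.2 • u + y.2.1 • v
  left_inv x := by
    show (x - B v x • u - B u x • v) + B v x • u + B u x • v = x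
    abel
  right_inv y := by
    obtain ⟨⟨w, hw⟩, a, b⟩ := y
    have hw' : B u w = 0 ∧ B v w = 0 := hw
    have huu : B u u = 0 := by rw [h.self, hu, mul_zero]
    have hvv : B v v = 0 := by rw [h.self, hv, mul_zero]
    have hvu : B v u = 1 := by rw [h.symm, huv]
    have e1 : B u (w + b • u + a • v) = a := by
      rw [map_add, map_add, map_smul, map_smul, hw'.1, huu, huv]
      simp
    have e2 : B v (w + b • u + a • v) = b := by
      rw [map_add, map_add, map_smul, map_smul, hw'.2, hvu, hvv]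
      simp
    refine Prod.ext (Subtype.ext ?_) (Prod.ext e1 e2)
    show (w + b • u + a • v) - B v (w + b • u + a • v) • u - B u (w + b • u + a • v) • v = w
    rw [e1, e2]
    abel

theorem Q_split (h : IsQS B Q) (u v : V) (hu : Q u = 0) (hv : Q v = 0) (huv : B u v = 1)
    (w : V) (hw : w ∈ Wp B u v) (a b : F) :
    Q (w + b • u + a • v) = Q w + a * b := by
  have hw' := (mem_Wp B u v w).1 hw
  have hwu : B w u = 0 := by rw [h.symm, hw'.1]
  have hwv : B w v = 0 := by rw [h.symm, hw'.2]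
  rw [h.add, h.add, h.smul, h.smul, hu, hv]
  simp only [map_add, map_smul, LinearMap.add_apply, LinearMap.smul_apply, smul_eq_mul, hwu, hwv,
    huv]
  ring

theorem restrict_qs (h : IsQS B Q) (u v : V) (hu : Q u = 0) (hv : Q v = 0) (huv : B u v = 1) :
    IsQS (B.restrict (Wp B u v)) (fun w : Wp B u v => Q (w : V)) where
  add x y := h.add x y
  smul a x := h.smul a x
  nd := by
    intro w hw
    have hw0 : (w : V) ≠ 0 := fun h0 => hw (Subtype.ext h0)
    obtain ⟨x, hx⟩ := h.nd w hw0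
    refine ⟨⟨_, proj_mem h u v hu hv huv x⟩, ?_⟩
    show B (w : V) (x - B v x • u - B u x • v) = 1
    have hw' := (mem_Wp B u v w).1 w.2
    have hwu : B (w : V) u = 0 := by rw [h.symm, hw'.1]
    have hwv : B (w : V) v = 0 := by rw [h.symm, hw'.2]
    rw [map_sub, map_sub, map_smul, map_smul, hwu, hwv, hx]
    simp

theorem card_pairs_mul [Fintype F] [DecidableEq F] (d : F) :
    Nat.card {p : F × F // p.1 * p.2 = d}
      = (Fintype.card F - 1) + (if d = 0 then Fintype.card F else 0) := by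
  rw [Nat.card_congr (Equiv.subtypeProdEquivSigmaSubtype (fun a b : F => a * b = d)),
    Nat.card_sigma]
  have key : ∀ a : F, Nat.card {b : F // a * b = d}
      = if a = 0 then (if d = 0 then Fintype.card F else 0) else 1 := by
    intro a
    split_ifs with ha hd
    · subst ha
      subst hd
      rw [Nat.card_congr (Equiv.subtypeUnivEquiv (fun b : F => zero_mul b)),
        Nat.card_eq_fintype_card]
    · subst ha
      haveI : IsEmpty {b : F // 0 * b = d} := ⟨fun b => hd (by rw [← b.2, zero_mul])⟩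
      exact Nat.card_of_isEmpty
    · have e : {b : F // a * b = d} ≃ Unit :=
        { toFun := fun _ => ()
          invFun := fun _ => ⟨a⁻¹ * d, by rw [← mul_assoc, mul_inv_cancel₀ ha, one_mul]⟩
          left_inv := fun b => Subtype.ext (by
            show a⁻¹ * d = b.1
            have h1 : a⁻¹ * d = a⁻¹ * (a * b.1) := by rw [b.2]
            rw [h1, ← mul_assoc, inv_mul_cancel₀ ha, one_mul])
          right_inv := fun _ => rfl }
      rw [Nat.card_congr e, Nat.card_unique]
  rw [Finset.sum_congr rfl (fun a _ => key a),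
    ← Finset.add_sum_erase Finset.univ _ (Finset.mem_univ (0 : F)), if_pos rfl,
    Finset.sum_congr rfl (fun x hx => if_neg (Finset.ne_of_mem_erase hx)), Finset.sum_const,
    Finset.card_erase_of_mem (Finset.mem_univ _), Finset.card_univ, smul_eq_mul, mul_one,
    add_comm]

theorem card_Wp [Fintype F] [Finite V] (h : IsQS B Q) (u v : V) (hu : Q u = 0) (hv : Q v = 0)
    (huv : B u v = 1) (d : ℕ) (hV : Nat.card V = Fintype.card F ^ (d + 2)) :
    Nat.card (Wp B u v) = Fintype.card F ^ d := by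
  have h1 := Nat.card_congr (splitQ h u v hu hv huv)
  rw [Nat.card_prod, Nat.card_prod, Nat.card_eq_fintype_card (α := F), hV] at h1
  have hq : 0 < Fintype.card F := Fintype.card_pos
  have h2 : Fintype.card F ^ (d + 2) = Fintype.card F ^ d * (Fintype.card F * Fintype.card F) := by
    ring
  rw [h2] at h1
  exact (Nat.eq_of_mul_eq_mul_right (Nat.mul_pos hq hq) h1).symm

theorem val_rec [Fintype F] [Finite V] (h : IsQS B Q) (u v : V) (hu : Q u = 0) (hv : Q v = 0)
    (huv : B u v = 1) (c : F) :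
    Nat.card {x : V // Q x = c}
      = Fintype.card F * Nat.card {w : Wp B u v // Q (w : V) = c}
        + (Fintype.card F - 1) * Nat.card (Wp B u v) := by
  classical
  haveI : Fintype (Wp B u v) := Fintype.ofFinite _
  have e : {x : V // Q x = c}
      ≃ {t : ↥(Wp B u v) × (F × F) // t.2.1 * t.2.2 = c - Q (t.1 : V)} := by
    refine (splitQ h u v hu hv huv).subtypeEquiv (fun x => ?_)
    have h1 : Q ((x - B v x • u - B u x • v) + B v x • u + B u x • v)
        = Q (x - B v x • u - B u x • v) + B u x * B v x :=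
      Q_split h u v hu hv huv _ (proj_mem h u v hu hv huv x) (B u x) (B v x)
    have h2 : (x - B v x • u - B u x • v) + B v x • u + B u x • v = x := by abel
    rw [h2] at h1
    show Q x = c ↔ B u x * B v x = c - Q (x - B v x • u - B u x • v)
    rw [h1]
    constructor
    · intro h3
      rw [← h3]
      ring
    · intro h3
      rw [h3]
      ring
  rw [Nat.card_congr e, Nat.card_congr (Equiv.subtypeProdEquivSigmaSubtype
    (fun (w : Wp B u v) (p : F × F) => p.1 * p.2 = c - Q (w : V))), Nat.card_sigma,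
    Finset.sum_congr rfl (fun (w : Wp B u v) _ => card_pairs_mul (c - Q (w : V))),
    Finset.sum_add_distrib,
    Finset.sum_const, Finset.card_univ, smul_eq_mul, ← Nat.card_eq_fintype_card (α := Wp B u v)]
  have h4 : Nat.card {w : Wp B u v // Q (w : V) = c}
      = ∑ w : Wp B u v, (if Q (w : V) = c then 1 else 0) := by
    rw [Nat.card_eq_fintype_card, Fintype.card_subtype, Finset.card_filter]
  have h5 : ∑ w : Wp B u v, (if c - Q (w : V) = 0 then Fintype.card F else 0)
      = Fintype.card F * Nat.card {w : Wp B u v // Q (w : V) = c} := by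
    rw [h4, Finset.mul_sum]
    apply Finset.sum_congr rfl
    intro w _
    by_cases hc : Q (w : V) = c
    · rw [if_pos hc, if_pos (by rw [hc, sub_self]), mul_one]
    · rw [if_neg hc, if_neg (fun h0 => hc (sub_eq_zero.1 h0).symm), mul_zero]
  rw [h5]
  ring

theorem card_sing_pairs [Fintype F] [Finite V] (h : IsQS B Q) (d : ℕ)
    (hV : Nat.card V = Fintype.card F ^ (d + 2)) :
    Nat.card {p : V × V // Q p.1 = 0 ∧ Q p.2 = 0 ∧ B p.1 p.2 = 1}
      = (Nat.card {x : V // Q x = 0} - 1) * Fintype.card F ^ d := by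
  classical
  haveI : Fintype {e : V // e ≠ 0 ∧ Q e = 0} := Fintype.ofFinite _
  have e1 : {p : V × V // Q p.1 = 0 ∧ Q p.2 = 0 ∧ B p.1 p.2 = 1}
      ≃ Σ e : {e : V // e ≠ 0 ∧ Q e = 0}, {f : V // Q f = 0 ∧ B e.1 f = 1} :=
    { toFun := fun p => ⟨⟨p.1.1, by
          intro h0
          have h1 := p.2.2.2
          rw [h0, map_zero, LinearMap.zero_apply] at h1
          exact zero_ne_one h1, p.2.1⟩, ⟨p.1.2, p.2.2.1, p.2.2.2⟩⟩
      invFun := fun s => ⟨(s.1.1, s.2.1), s.1.2.2, s.2.2.1, s.2.2.2⟩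
      left_inv := fun p => rfl
      right_inv := fun s => rfl }
  have key : ∀ e : {e : V // e ≠ 0 ∧ Q e = 0},
      Nat.card {f : V // Q f = 0 ∧ B e.1 f = 1} = Fintype.card F ^ d := by
    rintro ⟨e, he0, hQe⟩
    obtain ⟨y, hy⟩ := h.nd e he0
    have hee : B e e = 0 := by rw [h.self, hQe, mul_zero]
    obtain ⟨f₀, hf₀, hef₀⟩ : ∃ f₀, Q f₀ = 0 ∧ B e f₀ = 1 := by
      refine ⟨y + (-Q y) • e, ?_, ?_⟩
      · rw [h.add, h.smul, hQe, map_smul, h.symm y e, hy]
        simp
      · rw [map_add, map_smul, hee, hy]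
        simp
    rw [← card_Wp h e f₀ hQe hf₀ hef₀ d hV]
    have e2 : {f : V // Q f = 0 ∧ B e f = 1}
        ≃ {t : ↥(Wp B e f₀) × (F × F) // t.2.1 = 1 ∧ t.2.2 = -Q (t.1 : V)} := by
      refine (splitQ h e f₀ hQe hf₀ hef₀).subtypeEquiv (fun x => ?_)
      have h1 : Q ((x - B f₀ x • e - B e x • f₀) + B f₀ x • e + B e x • f₀)
          = Q (x - B f₀ x • e - B e x • f₀) + B e x * B f₀ x :=
        Q_split h e f₀ hQe hf₀ hef₀ _ (proj_mem h e f₀ hQe hf₀ hef₀ x) (B e x) (B f₀ x)
      have h2 : (x - B f₀ x • e - B e x • f₀) + B f₀ x • e + B e x • f₀ = x := by abel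
      rw [h2] at h1
      show (Q x = 0 ∧ B e x = 1) ↔ (B e x = 1 ∧ B f₀ x = -Q (x - B f₀ x • e - B e x • f₀))
      obtain ⟨P, hP⟩ : ∃ P, P = x - B f₀ x • e - B e x • f₀ := ⟨_, rfl⟩
      rw [← hP] at h1 ⊢
      constructor
      · rintro ⟨h3, h4⟩
        refine ⟨h4, ?_⟩
        rw [h3, h4, one_mul] at h1
        linear_combination -h1
      · rintro ⟨h4, h5⟩
        refine ⟨?_, h4⟩
        rw [h1, h4, h5]
        ring
    have e3 : {t : ↥(Wp B e f₀) × (F × F) // t.2.1 = 1 ∧ t.2.2 = -Q (t.1 : V)} ≃ ↥(Wp B e f₀) :=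
      { toFun := fun t => t.1.1
        invFun := fun w => ⟨(w, (1, -Q (w : V))), rfl, rfl⟩
        left_inv := fun t => Subtype.ext (Prod.ext rfl (Prod.ext t.2.1.symm t.2.2.symm))
        right_inv := fun w => rfl }
    exact Nat.card_congr (e2.trans e3)
  rw [Nat.card_congr e1, Nat.card_sigma, Finset.sum_congr rfl (fun e _ => key e),
    Finset.sum_const, Finset.card_univ, smul_eq_mul, ← Nat.card_eq_fintype_card,
    ← S0829.card_ne_zero_pred (fun x : V => Q x = 0) h.zero]
  simp

end abstract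

section frames

variable {F : Type*} {V : Type u} [Field F] [AddCommGroup V] [Module F V]

/-- Frames: `k` singular hyperbolic pairs together with `s` base vectors orthogonal to them,
with prescribed Gram data on the base vectors. -/
def IsFrame (B : LinearMap.BilinForm F V) (Q : V → F) {s : ℕ} (c : Fin s → F)
    (g : Fin s → Fin s → F) (k : ℕ) (e f : Fin k → V) (w : Fin s → V) : Prop :=
  IsHyp B k e f ∧ (∀ i, Q (e i) = 0) ∧ (∀ i, Q (f i) = 0) ∧
    (∀ i j, B (e i) (w j) = 0) ∧ (∀ i j, B (f i) (w j) = 0) ∧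
    (∀ j, Q (w j) = c j) ∧ (∀ j j', B (w j) (w j') = g j j')

abbrev Frame (B : LinearMap.BilinForm F V) (Q : V → F) {s : ℕ} (c : Fin s → F)
    (g : Fin s → Fin s → F) (k : ℕ) : Type u :=
  {t : (Fin k → V) × (Fin k → V) × (Fin s → V) // IsFrame B Q c g k t.1 t.2.1 t.2.2}

variable {B : LinearMap.BilinForm F V} {Q : V → F} {s : ℕ} {c : Fin s → F}
  {g : Fin s → Fin s → F}

def headP (k : ℕ) (t : Frame B Q c g (k + 1)) :
    {p : V × V // Q p.1 = 0 ∧ Q p.2 = 0 ∧ B p.1 p.2 = 1} :=
  ⟨(t.1.1 0, t.1.2.1 0), t.2.2.1 0, t.2.2.2.1 0, by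
    have h1 := t.2.1.1 0 0
    rw [if_pos rfl] at h1
    exact h1⟩

theorem headP_eq_iff (k : ℕ) (t : Frame B Q c g (k + 1)) (u v : V)
    (hp : Q u = 0 ∧ Q v = 0 ∧ B u v = 1) :
    headP k t = ⟨(u, v), hp⟩ ↔ t.1.1 0 = u ∧ t.1.2.1 0 = v := by
  constructor
  · intro hh
    have h1 := congrArg Subtype.val hh
    exact ⟨congrArg Prod.fst h1, congrArg Prod.snd h1⟩
  · rintro ⟨h1, h2⟩
    exact Subtype.ext (Prod.ext h1 h2)

theorem tail_mem (h : IsQS B Q) (k : ℕ) (e f : Fin (k + 1) → V) (w : Fin s → V)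
    (hfr : IsFrame B Q c g (k + 1) e f w) (u v : V) (he : e 0 = u) (hf : f 0 = v) :
    (∀ i : Fin k, e i.succ ∈ Wp B u v) ∧ (∀ i : Fin k, f i.succ ∈ Wp B u v) ∧
      (∀ j, w j ∈ Wp B u v) := by
  subst he
  subst hf
  have hfe := S2618.sym_fe B h.symm (k + 1) e f hfr.1
  refine ⟨fun i => ?_, fun i => ?_, fun j => ?_⟩
  · rw [mem_Wp]
    exact ⟨hfr.1.2.1 0 i.succ, by rw [hfe 0 i.succ, if_neg (Fin.succ_ne_zero i).symm]⟩
  · rw [mem_Wp]
    exact ⟨by rw [hfr.1.1 0 i.succ, if_neg (Fin.succ_ne_zero i).symm], hfr.1.2.2 0 i.succ⟩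
  · rw [mem_Wp]
    exact ⟨hfr.2.2.2.1 0 j, hfr.2.2.2.2.1 0 j⟩

theorem tail_frame (k : ℕ) (e f : Fin (k + 1) → V) (w : Fin s → V)
    (hfr : IsFrame B Q c g (k + 1) e f w) (u v : V)
    (he' : ∀ i : Fin k, e i.succ ∈ Wp B u v) (hf' : ∀ i : Fin k, f i.succ ∈ Wp B u v)
    (hw' : ∀ j, w j ∈ Wp B u v) :
    IsFrame (B.restrict (Wp B u v)) (fun x : Wp B u v => Q (x : V)) c g k
      (fun i => ⟨e i.succ, he' i⟩) (fun i => ⟨f i.succ, hf' i⟩) (fun j => ⟨w j, hw' j⟩) :=
  ⟨S0245.tail_hyp B k u v e f hfr.1 he' hf', fun i => hfr.2.1 i.succ, fun i => hfr.2.2.1 i.succ,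
    fun i j => hfr.2.2.2.1 i.succ j, fun i j => hfr.2.2.2.2.1 i.succ j,
    fun j => hfr.2.2.2.2.2.1 j, fun j j' => hfr.2.2.2.2.2.2 j j'⟩

theorem cons_frame (h : IsQS B Q) (k : ℕ) (u v : V) (hu : Q u = 0) (hv : Q v = 0)
    (huv : B u v = 1) (e' f' : Fin k → Wp B u v) (w' : Fin s → Wp B u v)
    (hfr : IsFrame (B.restrict (Wp B u v)) (fun x : Wp B u v => Q (x : V)) c g k e' f' w') :
    IsFrame B Q c g (k + 1) (Fin.cons u (fun i => (e' i : V))) (Fin.cons v (fun i => (f' i : V)))
      (fun j => (w' j : V)) := by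
  have huu : B u u = 0 := by rw [h.self, hu, mul_zero]
  have hvv : B v v = 0 := by rw [h.self, hv, mul_zero]
  have hyp : IsHyp B k (fun i => (e' i : V)) (fun i => (f' i : V)) :=
    ⟨fun i j => hfr.1.1 i j, fun i j => hfr.1.2.1 i j, fun i j => hfr.1.2.2 i j⟩
  have hme : ∀ i, B u (e' i : V) = 0 ∧ B v (e' i : V) = 0 :=
    fun i => (mem_Wp B u v _).1 (e' i).2
  have hmf : ∀ i, B u (f' i : V) = 0 ∧ B v (f' i : V) = 0 :=
    fun i => (mem_Wp B u v _).1 (f' i).2
  have hmw : ∀ j, B u (w' j : V) = 0 ∧ B v (w' j : V) = 0 :=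
    fun j => (mem_Wp B u v _).1 (w' j).2
  refine ⟨S2618.sym_cons B h.symm k _ _ hyp u v
      (fun i => ⟨by rw [h.symm, (hme i).1], by rw [h.symm, (hmf i).1]⟩)
      (fun i => ⟨by rw [h.symm, (hme i).2], by rw [h.symm, (hmf i).2]⟩) huv huu hvv,
    ?_, ?_, ?_, ?_, fun j => hfr.2.2.2.2.2.1 j, fun j j' => hfr.2.2.2.2.2.2 j j'⟩
  · intro i
    refine Fin.cases ?_ (fun i => ?_) i
    · rw [Fin.cons_zero]
      exact hu
    · rw [Fin.cons_succ]
      exact hfr.2.1 i
  · intro i
    refine Fin.cases ?_ (fun i => ?_) i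
    · rw [Fin.cons_zero]
      exact hv
    · rw [Fin.cons_succ]
      exact hfr.2.2.1 i
  · intro i j
    refine Fin.cases ?_ (fun i => ?_) i
    · rw [Fin.cons_zero]
      exact (hmw j).1
    · rw [Fin.cons_succ]
      exact hfr.2.2.2.1 i j
  · intro i j
    refine Fin.cases ?_ (fun i => ?_) i
    · rw [Fin.cons_zero]
      exact (hmw j).2
    · rw [Fin.cons_succ]
      exact hfr.2.2.2.2.1 i j

noncomputable def fiberEquiv (h : IsQS B Q) (k : ℕ) (u v : V) (hu : Q u = 0) (hv : Q v = 0)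
    (huv : B u v = 1) :
    {t : Frame B Q c g (k + 1) // t.1.1 0 = u ∧ t.1.2.1 0 = v} ≃
    Frame (B.restrict (Wp B u v)) (fun x : Wp B u v => Q (x : V)) c g k where
  toFun t := ⟨(fun i => ⟨t.1.1.1 i.succ, (tail_mem h k _ _ _ t.1.2 u v t.2.1 t.2.2).1 i⟩,
      fun i => ⟨t.1.1.2.1 i.succ, (tail_mem h k _ _ _ t.1.2 u v t.2.1 t.2.2).2.1 i⟩,
      fun j => ⟨t.1.1.2.2 j, (tail_mem h k _ _ _ t.1.2 u v t.2.1 t.2.2).2.2 j⟩),
    tail_frame k _ _ _ t.1.2 u v _ _ _⟩
  invFun r := ⟨⟨(Fin.cons u (fun i => (r.1.1 i : V)), Fin.cons v (fun i => (r.1.2.1 i : V)),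
      fun j => (r.1.2.2 j : V)),
    cons_frame h k u v hu hv huv r.1.1 r.1.2.1 r.1.2.2 r.2⟩, rfl, rfl⟩
  left_inv t := by
    obtain ⟨⟨⟨e, f, w⟩, hfr⟩, he, hf⟩ := t
    apply Subtype.ext
    apply Subtype.ext
    apply Prod.ext
    · funext i
      refine Fin.cases ?_ (fun j => ?_) i
      · exact he.symm
      · rfl
    · apply Prod.ext
      · funext i
        refine Fin.cases ?_ (fun j => ?_) i
        · exact hf.symm
        · rfl
      · rfl
  right_inv r := by
    obtain ⟨⟨e', f', w'⟩, hfr⟩ := r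
    exact Subtype.ext (Prod.ext (funext fun i => Subtype.ext rfl)
      (Prod.ext (funext fun i => Subtype.ext rfl) (funext fun j => Subtype.ext rfl)))

end frames

/-- Value distribution after adding `k` hyperbolic planes. -/
def Nk (F : Type*) [Fintype F] (r : ℕ) (n₀ : F → ℕ) : ℕ → F → ℕ
  | 0, x => n₀ x
  | (k + 1), x =>
    Fintype.card F * Nk F r n₀ k x + (Fintype.card F - 1) * Fintype.card F ^ (r + 2 * k)

theorem Nk_zero (F : Type*) [Fintype F] (r : ℕ) (n₀ : F → ℕ) (x : F) : Nk F r n₀ 0 x = n₀ x :=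
  rfl

theorem Nk_succ (F : Type*) [Fintype F] (r : ℕ) (n₀ : F → ℕ) (k : ℕ) (x : F) :
    Nk F r n₀ (k + 1) x
      = Fintype.card F * Nk F r n₀ k x + (Fintype.card F - 1) * Fintype.card F ^ (r + 2 * k) :=
  rfl

theorem count_frames (F : Type*) [Field F] [Fintype F] {s : ℕ} (c : Fin s → F)
    (g : Fin s → Fin s → F) (r : ℕ) (n₀ : F → ℕ) (β : ℕ)
    (hbase : ∀ {W : Type u} [AddCommGroup W] [Module F W] [Finite W]
      (B : LinearMap.BilinForm F W) (Q : W → F), IsQS B Q → Nat.card W = Fintype.card F ^ r →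
      (∀ x, Nat.card {w : W // Q w = x} = n₀ x) → Nat.card (Frame B Q c g 0) = β)
    (k : ℕ) :
    ∀ {V : Type u} [AddCommGroup V] [Module F V] [Finite V] (B : LinearMap.BilinForm F V)
      (Q : V → F), IsQS B Q → Nat.card V = Fintype.card F ^ (r + 2 * k) →
      (∀ x, Nat.card {v : V // Q v = x} = Nk F r n₀ k x) →
      Nat.card (Frame B Q c g k)
        = β * ∏ i ∈ Finset.range k,
            ((Nk F r n₀ (i + 1) 0 - 1) * Fintype.card F ^ (r + 2 * i)) := by
  induction k with
  | zero =>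
    intro V _ _ _ B Q h hV hN
    rw [Finset.prod_range_zero, mul_one]
    exact hbase B Q h hV hN
  | succ k ih =>
    intro V _ _ _ B Q h hV hN
    classical
    haveI : Fintype {p : V × V // Q p.1 = 0 ∧ Q p.2 = 0 ∧ B p.1 p.2 = 1} := Fintype.ofFinite _
    have hq : 0 < Fintype.card F := Fintype.card_pos
    have hexp : r + 2 * (k + 1) = r + 2 * k + 2 := by ring
    rw [hexp] at hV
    have hcard := Nat.card_congr (Equiv.sigmaFiberEquiv
      (headP (B := B) (Q := Q) (c := c) (g := g) k))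
    rw [Nat.card_sigma] at hcard
    have hfib : ∀ p : {p : V × V // Q p.1 = 0 ∧ Q p.2 = 0 ∧ B p.1 p.2 = 1},
        Nat.card {t // headP (c := c) (g := g) k t = p}
          = β * ∏ i ∈ Finset.range k,
              ((Nk F r n₀ (i + 1) 0 - 1) * Fintype.card F ^ (r + 2 * i)) := by
      rintro ⟨⟨u, v⟩, hu, hv, huv⟩
      have hu' : Q u = 0 := hu
      have hv' : Q v = 0 := hv
      have huv' : B u v = 1 := huv
      rw [Nat.card_congr (Equiv.subtypeEquivRight
        (fun t => headP_eq_iff k t u v ⟨hu, hv, huv⟩)),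
        Nat.card_congr (fiberEquiv h k u v hu' hv' huv')]
      have hW := card_Wp h u v hu' hv' huv' (r + 2 * k) hV
      apply ih (B.restrict (Wp B u v)) (fun x : Wp B u v => Q (x : V))
        (restrict_qs h u v hu' hv' huv') hW
      intro x
      have h1 := val_rec h u v hu' hv' huv' x
      rw [hN x, hW, Nk_succ] at h1
      exact (Nat.eq_of_mul_eq_mul_left hq (Nat.add_right_cancel h1)).symm
    rw [← hcard, Finset.sum_congr rfl (fun p _ => hfib p), Finset.sum_const, Finset.card_univ,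
      smul_eq_mul, ← Nat.card_eq_fintype_card, card_sing_pairs h (r + 2 * k) hV, hN 0,
      Finset.prod_range_succ]
    ring

theorem vd_of_frame (F : Type*) [Field F] [Fintype F] {s : ℕ} (c : Fin s → F)
    (g : Fin s → Fin s → F) (r : ℕ) (n₀ : F → ℕ)
    (hb : ∀ {W : Type u} [AddCommGroup W] [Module F W] [Finite W]
      (B : LinearMap.BilinForm F W) (Q : W → F), IsQS B Q → Nat.card W = Fintype.card F ^ r →
      Nonempty (Frame B Q c g 0) → ∀ x, Nat.card {w : W // Q w = x} = n₀ x)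
    (k : ℕ) :
    ∀ {V : Type u} [AddCommGroup V] [Module F V] [Finite V] (B : LinearMap.BilinForm F V)
      (Q : V → F), IsQS B Q → Nat.card V = Fintype.card F ^ (r + 2 * k) →
      Nonempty (Frame B Q c g k) → ∀ x, Nat.card {v : V // Q v = x} = Nk F r n₀ k x := by
  induction k with
  | zero =>
    intro V _ _ _ B Q h hV hne x
    exact hb B Q h hV hne x
  | succ k ih =>
    intro V _ _ _ B Q h hV hne x
    obtain ⟨t⟩ := hne
    have hexp : r + 2 * (k + 1) = r + 2 * k + 2 := by ring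
    rw [hexp] at hV
    have hp := (headP k t).2
    have hu : Q (t.1.1 0) = 0 := hp.1
    have hv : Q (t.1.2.1 0) = 0 := hp.2.1
    have huv : B (t.1.1 0) (t.1.2.1 0) = 1 := hp.2.2
    have hW := card_Wp h _ _ hu hv huv (r + 2 * k) hV
    have h1 := val_rec h _ _ hu hv huv x
    rw [ih (B.restrict (Wp B (t.1.1 0) (t.1.2.1 0))) (fun y => Q (y : V))
      (restrict_qs h _ _ hu hv huv) hW ⟨fiberEquiv h k _ _ hu hv huv ⟨t, rfl, rfl⟩⟩ x, hW] at h1
    rw [Nk_succ]
    exact h1

section group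

variable {F : Type*} [Field F]

theorem gram_sum {ι : Type*} {V V' : Type*} [AddCommGroup V] [Module F V] [AddCommGroup V']
    [Module F V'] (B : LinearMap.BilinForm F V) (Q : V → F) (B' : LinearMap.BilinForm F V')
    (Q' : V' → F) (hadd : ∀ x y, Q (x + y) = Q x + Q y + B x y)
    (hsmul : ∀ (a : F) x, Q (a • x) = a * a * Q x)
    (hadd' : ∀ x y, Q' (x + y) = Q' x + Q' y + B' x y)
    (hsmul' : ∀ (a : F) x, Q' (a • x) = a * a * Q' x)
    (t : ι → V) (t' : ι → V') (hq : ∀ i, Q (t i) = Q' (t' i))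
    (hb : ∀ i j, B (t i) (t j) = B' (t' i) (t' j)) (x : ι → F) (S : Finset ι) :
    Q (∑ i ∈ S, x i • t i) = Q' (∑ i ∈ S, x i • t' i) := by
  classical
  have h0 : Q 0 = 0 := by
    have h1 := hsmul 0 0
    simpa using h1
  have h0' : Q' 0 = 0 := by
    have h1 := hsmul' 0 0
    simpa using h1
  induction S using Finset.induction_on with
  | empty => rw [Finset.sum_empty, Finset.sum_empty, h0, h0']
  | insert a S ha ih =>
    rw [Finset.sum_insert ha, Finset.sum_insert ha, hadd, hadd', hsmul, hsmul', ih, hq]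
    congr 1
    simp only [map_sum, map_smul, LinearMap.smul_apply, smul_eq_mul, hb]

theorem mem_iso {ι : Type} [Fintype ι] [DecidableEq ι] (Qs : (ι → F) → F) (gg : GL ι F) :
    gg ∈ isometryGroup F Qs ↔ ∀ x, Qs ((gg : Matrix ι ι F) *ᵥ x) = Qs x :=
  ⟨fun h x => h x x, fun h x _ => h x⟩

theorem card_iso {ι : Type} [Fintype ι] [DecidableEq ι] (Qs : (ι → F) → F)
    (Bs : LinearMap.BilinForm F (ι → F))
    (hadd : ∀ x y, Qs (x + y) = Qs x + Qs y + Bs x y)
    (hsmul : ∀ (a : F) x, Qs (a • x) = a * a * Qs x)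
    (hnd : ∀ x, (∀ y, Bs x y = 0) → x = 0) :
    Nat.card (isometryGroup F Qs)
      = Nat.card {t : ι → (ι → F) // (∀ i, Qs (t i) = Qs (Pi.single i 1)) ∧
          ∀ i j, Bs (t i) (t j) = Bs (Pi.single i 1) (Pi.single j 1)} := by
  classical
  have hpres : ∀ M : Matrix ι ι F, (∀ x, Qs (M *ᵥ x) = Qs x) →
      ∀ x y, Bs (M *ᵥ x) (M *ᵥ y) = Bs x y := by
    intro M hM x y
    have h1 := hadd (M *ᵥ x) (M *ᵥ y)
    rw [← Matrix.mulVec_add, hM, hM, hM, hadd] at h1
    linear_combination -h1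
  refine Nat.card_eq_of_bijective (fun gg => ⟨fun i =>
    ((gg : GL ι F) : Matrix ι ι F) *ᵥ Pi.single i 1, fun i => (mem_iso Qs gg.1).1 gg.2 _,
    fun i j => hpres _ ((mem_iso Qs gg.1).1 gg.2) _ _⟩) ⟨?_, ?_⟩
  · intro gg gg' h
    apply Subtype.ext
    apply Units.ext
    ext a b
    have h1 : (((gg : GL ι F) : Matrix ι ι F) *ᵥ Pi.single b 1) a
        = (((gg' : GL ι F) : Matrix ι ι F) *ᵥ Pi.single b 1) a :=
      congrFun (congrFun (congrArg Subtype.val h) b) a
    rw [Matrix.mulVec_single_one, Matrix.mulVec_single_one] at h1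
    exact h1
  · rintro ⟨t, ht1, ht2⟩
    obtain ⟨M, hM⟩ : ∃ M : Matrix ι ι F, ∀ x, M *ᵥ x = ∑ i, x i • t i := by
      refine ⟨Matrix.of (fun a i => t i a), fun x => ?_⟩
      funext a
      simp [Matrix.mulVec, dotProduct, mul_comm]
    have hx : ∀ x : ι → F, ∑ i, x i • (Pi.single i 1 : ι → F) = x := by
      intro x
      funext j
      simp [Finset.sum_apply, Pi.single_apply]
    have hQ : ∀ x, Qs (M *ᵥ x) = Qs x := by
      intro x
      have h3 : Qs (∑ i ∈ Finset.univ, x i • t i)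
          = Qs (∑ i ∈ Finset.univ, x i • (Pi.single i 1 : ι → F)) :=
        gram_sum Bs Qs Bs Qs hadd hsmul hadd hsmul t (fun i => Pi.single i 1) ht1 ht2 x
          Finset.univ
      rw [hM, h3, hx]
    have hinj : Function.Injective M.mulVec := by
      intro x x' hxx
      have h2 : ∀ y, Bs (x - x') y = 0 := by
        intro y
        rw [← hpres M hQ, Matrix.mulVec_sub, show M *ᵥ x = M *ᵥ x' from hxx, sub_self, map_zero,
          LinearMap.zero_apply]
      exact sub_eq_zero.1 (hnd _ h2)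
    have hU : IsUnit M := Matrix.mulVec_injective_iff_isUnit.1 hinj
    refine ⟨⟨hU.unit, (mem_iso Qs _).2 (fun x => by
      rw [IsUnit.unit_spec]
      exact hQ x)⟩, ?_⟩
    apply Subtype.ext
    funext i
    show (hU.unit : Matrix ι ι F) *ᵥ Pi.single i 1 = t i
    rw [IsUnit.unit_spec, hM, Finset.sum_eq_single i]
    · rw [Pi.single_eq_same, one_smul]
    · intro j _ hji
      rw [Pi.single_eq_of_ne hji, zero_smul]
    · intro h
      exact absurd (Finset.mem_univ i) h

theorem card_gram_frame {ι : Type} [Fintype ι] [DecidableEq ι] (Qs : (ι → F) → F)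
    (Bs : LinearMap.BilinForm F (ι → F)) (hsymm : ∀ x y, Bs x y = Bs y x) {s k : ℕ}
    (c : Fin s → F) (g : Fin s → Fin s → F) (σ : Fin k ⊕ (Fin k ⊕ Fin s) ≃ ι)
    (hstd : IsFrame Bs Qs c g k (fun i => Pi.single (σ (.inl i)) 1)
      (fun i => Pi.single (σ (.inr (.inl i))) 1) (fun j => Pi.single (σ (.inr (.inr j))) 1)) :
    Nat.card {t : ι → (ι → F) // (∀ i, Qs (t i) = Qs (Pi.single i 1)) ∧
        ∀ i j, Bs (t i) (t j) = Bs (Pi.single i 1) (Pi.single j 1)}
      = Nat.card (Frame Bs Qs c g k) := by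
  apply Nat.card_congr
  exact
    { toFun := fun t => ⟨(fun i => t.1 (σ (.inl i)), fun i => t.1 (σ (.inr (.inl i))),
          fun j => t.1 (σ (.inr (.inr j)))),
        ⟨fun i j => (t.2.2 _ _).trans (hstd.1.1 i j), fun i j => (t.2.2 _ _).trans (hstd.1.2.1 i j),
          fun i j => (t.2.2 _ _).trans (hstd.1.2.2 i j)⟩,
        fun i => (t.2.1 _).trans (hstd.2.1 i), fun i => (t.2.1 _).trans (hstd.2.2.1 i),
        fun i j => (t.2.2 _ _).trans (hstd.2.2.2.1 i j),
        fun i j => (t.2.2 _ _).trans (hstd.2.2.2.2.1 i j),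
        fun j => (t.2.1 _).trans (hstd.2.2.2.2.2.1 j),
        fun j j' => (t.2.2 _ _).trans (hstd.2.2.2.2.2.2 j j')⟩
      invFun := fun r => ⟨fun a => Sum.elim r.1.1 (Sum.elim r.1.2.1 r.1.2.2) (σ.symm a), by
          obtain ⟨⟨e, f, w⟩, hr⟩ := r
          have hr' : IsFrame Bs Qs c g k e f w := hr
          constructor
          · intro a
            obtain ⟨b, rfl⟩ := σ.surjective a
            show Qs (Sum.elim e (Sum.elim f w) (σ.symm (σ b))) = Qs (Pi.single (σ b) 1)
            rw [Equiv.symm_apply_apply]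
            rcases b with i | i | j
            · exact (hr'.2.1 i).trans (hstd.2.1 i).symm
            · exact (hr'.2.2.1 i).trans (hstd.2.2.1 i).symm
            · exact (hr'.2.2.2.2.2.1 j).trans (hstd.2.2.2.2.2.1 j).symm
          · intro a a'
            obtain ⟨b, rfl⟩ := σ.surjective a
            obtain ⟨b', rfl⟩ := σ.surjective a'
            show Bs (Sum.elim e (Sum.elim f w) (σ.symm (σ b)))
              (Sum.elim e (Sum.elim f w) (σ.symm (σ b')))
              = Bs (Pi.single (σ b) 1) (Pi.single (σ b') 1)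
            rw [Equiv.symm_apply_apply, Equiv.symm_apply_apply]
            rcases b with i | i | j <;> rcases b' with i' | i' | j'
            · exact (hr'.1.2.1 i i').trans (hstd.1.2.1 i i').symm
            · exact (hr'.1.1 i i').trans (hstd.1.1 i i').symm
            · exact (hr'.2.2.2.1 i j').trans (hstd.2.2.2.1 i j').symm
            · show Bs (f i) (e i') = _
              rw [hsymm (f i) (e i'), hsymm (Pi.single _ 1) (Pi.single _ 1)]
              exact (hr'.1.1 i' i).trans (hstd.1.1 i' i).symm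
            · exact (hr'.1.2.2 i i').trans (hstd.1.2.2 i i').symm
            · exact (hr'.2.2.2.2.1 i j').trans (hstd.2.2.2.2.1 i j').symm
            · show Bs (w j) (e i') = _
              rw [hsymm (w j) (e i'), hsymm (Pi.single _ 1) (Pi.single _ 1)]
              exact (hr'.2.2.2.1 i' j).trans (hstd.2.2.2.1 i' j).symm
            · show Bs (w j) (f i') = _
              rw [hsymm (w j) (f i'), hsymm (Pi.single _ 1) (Pi.single _ 1)]
              exact (hr'.2.2.2.2.1 i' j).trans (hstd.2.2.2.2.1 i' j).symm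
            · exact (hr'.2.2.2.2.2.2 j j').trans (hstd.2.2.2.2.2.2 j j').symm⟩
      left_inv := fun t => by
        apply Subtype.ext
        funext a
        obtain ⟨b, rfl⟩ := σ.surjective a
        show Sum.elim (fun i => t.1 (σ (.inl i)))
          (Sum.elim (fun i => t.1 (σ (.inr (.inl i)))) (fun j => t.1 (σ (.inr (.inr j)))))
          (σ.symm (σ b)) = t.1 (σ b)
        rw [Equiv.symm_apply_apply]
        rcases b with i | i | j <;> rfl
      right_inv := fun r => by
        obtain ⟨⟨e, f, w⟩, hr⟩ := r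
        apply Subtype.ext
        refine Prod.ext (funext fun i => ?_) (Prod.ext (funext fun i => ?_) (funext fun j => ?_))
        · show Sum.elim e (Sum.elim f w) (σ.symm (σ (.inl i))) = e i
          rw [Equiv.symm_apply_apply]
          rfl
        · show Sum.elim e (Sum.elim f w) (σ.symm (σ (.inr (.inl i)))) = f i
          rw [Equiv.symm_apply_apply]
          rfl
        · show Sum.elim e (Sum.elim f w) (σ.symm (σ (.inr (.inr j)))) = w j
          rw [Equiv.symm_apply_apply]
          rfl }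

end group

section base0

variable {F : Type*} [Field F]

theorem nd_of_sep {V : Type*} [AddCommGroup V] [Module F V] (B : LinearMap.BilinForm F V)
    (hsep : ∀ x, (∀ y, B x y = 0) → x = 0) (x : V) (hx : x ≠ 0) : ∃ y, B x y = 1 := by
  by_contra hcon
  apply hx
  apply hsep
  intro y
  by_contra hy
  exact hcon ⟨(B x y)⁻¹ • y, by rw [map_smul, smul_eq_mul, inv_mul_cancel₀ hy]⟩

open Classical in
/-- Value distribution of the zero space. -/
noncomputable def n0P (F : Type*) [Field F] (x : F) : ℕ := if x = 0 then 1 else 0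

theorem n0P_zero : n0P F 0 = 1 := if_pos rfl

theorem n0P_ne (x : F) (hx : x ≠ 0) : n0P F x = 0 := if_neg hx

theorem base0_card {W : Type u} [AddCommGroup W] [Module F W] (B : LinearMap.BilinForm F W)
    (Q : W → F) (c : Fin 0 → F) (g : Fin 0 → Fin 0 → F) : Nat.card (Frame B Q c g 0) = 1 := by
  rw [Nat.card_eq_one_iff_unique]
  refine ⟨⟨fun a b => Subtype.ext (Prod.ext (funext fun i => i.elim0)
    (Prod.ext (funext fun i => i.elim0) (funext fun i => i.elim0)))⟩,
    ⟨⟨(Fin.elim0, Fin.elim0, Fin.elim0), ⟨fun i => i.elim0, fun i => i.elim0, fun i => i.elim0⟩,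
      fun i => i.elim0, fun i => i.elim0, fun i => i.elim0, fun i => i.elim0, fun i => i.elim0,
      fun i => i.elim0⟩⟩⟩

theorem base0_vd [Fintype F] {W : Type u} [AddCommGroup W] [Module F W] [Finite W]
    (B : LinearMap.BilinForm F W) (Q : W → F) (h : IsQS B Q)
    (hW : Nat.card W = Fintype.card F ^ 0) (x : F) :
    Nat.card {w : W // Q w = x} = n0P F x := by
  rw [pow_zero] at hW
  have hs : Subsingleton W := (Nat.card_eq_one_iff_unique.1 hW).1
  by_cases hx : x = 0
  · rw [hx, n0P_zero, Nat.card_eq_one_iff_unique]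
    exact ⟨⟨fun a b => Subtype.ext (Subsingleton.elim _ _)⟩, ⟨⟨0, h.zero⟩⟩⟩
  · rw [n0P_ne x hx]
    haveI : IsEmpty {w : W // Q w = x} :=
      ⟨fun w => hx (by rw [← w.2, Subsingleton.elim w.1 0, h.zero])⟩
    exact Nat.card_of_isEmpty

theorem NkP (F : Type*) [Field F] [Fintype F] (j : ℕ) :
    Nk F 0 (n0P F) (j + 1) 0
      = (Fintype.card F ^ (j + 1) - 1) * (Fintype.card F ^ j + 1) + 1 := by
  have hq : 1 ≤ Fintype.card F := Fintype.card_pos
  induction j with
  | zero =>
    rw [Nk_succ, Nk_zero, n0P_zero]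
    simp only [zero_add, pow_one, pow_zero, mul_zero, add_zero]
    omega
  | succ j ih =>
    rw [Nk_succ, ih]
    have h2 : 1 ≤ Fintype.card F ^ (j + 1) := Nat.one_le_pow _ _ hq
    have h3 : 1 ≤ Fintype.card F ^ (j + 1 + 1) := Nat.one_le_pow _ _ hq
    zify [hq, h2, h3]
    ring

theorem prodP (q : ℕ) (hq : 1 ≤ q) (n : ℕ) :
    ∏ i ∈ Finset.range (n + 1), (((q ^ (i + 1) - 1) * (q ^ i + 1) + 1 - 1) * q ^ (0 + 2 * i))
      = 2 * q ^ ((n + 1) * n) * (q ^ (n + 1) - 1)
        * ∏ i ∈ Finset.range n, (q ^ (2 * (i + 1)) - 1) := by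
  induction n with
  | zero =>
    simp
    ring
  | succ n ih =>
    rw [Finset.prod_range_succ, ih, Finset.prod_range_succ (fun i => q ^ (2 * (i + 1)) - 1)]
    have h1 : (q ^ (n + 1) - 1) * (q ^ (n + 1) + 1) = q ^ (2 * (n + 1)) - 1 := by
      obtain ⟨a, ha⟩ : ∃ a, q ^ (n + 1) = a + 1 :=
        ⟨q ^ (n + 1) - 1, by have := Nat.one_le_pow (n + 1) q hq; omega⟩
      rw [show q ^ (2 * (n + 1)) = q ^ (n + 1) * q ^ (n + 1) by ring, ha, Nat.add_sub_cancel]
      have h5 : (a + 1) * (a + 1) = a * (a + 1 + 1) + 1 := by ring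
      rw [h5, Nat.add_sub_cancel]
    have h2 : q ^ ((n + 1) * n) * q ^ (0 + 2 * (n + 1)) = q ^ ((n + 1 + 1) * (n + 1)) := by
      rw [← pow_add]
      congr 1
      ring
    rw [Nat.add_sub_cancel, ← h1, ← h2]
    ring

end base0

section plus

variable (m : ℕ) (F : Type*) [Field F]

/-- Polar form of `quadFormPlus`. -/
def BsP : LinearMap.BilinForm F (Fin m ⊕ Fin m → F) :=
  LinearMap.mk₂ F (fun x y => ∑ i : Fin m, (x (.inl i) * y (.inr i) + x (.inr i) * y (.inl i)))
    (by
      intro x x' y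
      simp only [Pi.add_apply, ← Finset.sum_add_distrib]
      exact Finset.sum_congr rfl (fun i _ => by ring))
    (by
      intro a x y
      simp only [Pi.smul_apply, smul_eq_mul, Finset.mul_sum]
      exact Finset.sum_congr rfl (fun i _ => by ring))
    (by
      intro x y y'
      simp only [Pi.add_apply, ← Finset.sum_add_distrib]
      exact Finset.sum_congr rfl (fun i _ => by ring))
    (by
      intro a x y
      simp only [Pi.smul_apply, smul_eq_mul, Finset.mul_sum]
      exact Finset.sum_congr rfl (fun i _ => by ring))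

theorem BsP_apply (x y : Fin m ⊕ Fin m → F) :
    BsP m F x y = ∑ i : Fin m, (x (.inl i) * y (.inr i) + x (.inr i) * y (.inl i)) := rfl

theorem BsP_single_inl (x : Fin m ⊕ Fin m → F) (j : Fin m) :
    BsP m F x (Pi.single (.inl j) 1) = x (.inr j) := by
  rw [BsP_apply, Finset.sum_eq_single j]
  · simp
  · intro i _ hij
    simp [Pi.single_apply, hij]
  · intro h
    exact absurd (Finset.mem_univ j) h

theorem BsP_single_inr (x : Fin m ⊕ Fin m → F) (j : Fin m) :
    BsP m F x (Pi.single (.inr j) 1) = x (.inl j) := by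
  rw [BsP_apply, Finset.sum_eq_single j]
  · simp
  · intro i _ hij
    simp [Pi.single_apply, hij]
  · intro h
    exact absurd (Finset.mem_univ j) h

theorem plus_add (x y : Fin m ⊕ Fin m → F) :
    quadFormPlus m F (x + y) = quadFormPlus m F x + quadFormPlus m F y + BsP m F x y := by
  rw [BsP_apply]
  unfold quadFormPlus
  simp only [Pi.add_apply, ← Finset.sum_add_distrib]
  exact Finset.sum_congr rfl (fun i _ => by ring)

theorem plus_smul (a : F) (x : Fin m ⊕ Fin m → F) :
    quadFormPlus m F (a • x) = a * a * quadFormPlus m F x := by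
  unfold quadFormPlus
  simp only [Pi.smul_apply, smul_eq_mul, Finset.mul_sum]
  exact Finset.sum_congr rfl (fun i _ => by ring)

theorem plus_sep (x : Fin m ⊕ Fin m → F) (h : ∀ y, BsP m F x y = 0) : x = 0 := by
  funext a
  rcases a with i | i
  · have h1 := h (Pi.single (.inr i) 1)
    rwa [BsP_single_inr] at h1
  · have h1 := h (Pi.single (.inl i) 1)
    rwa [BsP_single_inl] at h1

theorem plus_qs : IsQS (BsP m F) (quadFormPlus m F) :=
  ⟨plus_add m F, plus_smul m F, nd_of_sep _ (plus_sep m F)⟩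

theorem plus_single (a : Fin m ⊕ Fin m) : quadFormPlus m F (Pi.single a 1) = 0 := by
  unfold quadFormPlus
  apply Finset.sum_eq_zero
  intro i _
  rcases a with j | j
  · simp [Pi.single_apply]
  · simp [Pi.single_apply]

/-- The index equivalence for the standard frame of the plus-type form. -/
def σP : Fin m ⊕ (Fin m ⊕ Fin 0) ≃ Fin m ⊕ Fin m :=
  Equiv.sumCongr (Equiv.refl (Fin m)) (Equiv.sumEmpty (Fin m) (Fin 0))

theorem plus_std : IsFrame (BsP m F) (quadFormPlus m F) (Fin.elim0 : Fin 0 → F)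
    (fun i _ => i.elim0) m
    (fun i => Pi.single (σP m (.inl i)) 1) (fun i => Pi.single (σP m (.inr (.inl i))) 1)
    (fun j => Pi.single (σP m (.inr (.inr j))) 1) := by
  refine ⟨⟨fun i j => ?_, fun i j => ?_, fun i j => ?_⟩, fun i => plus_single m F _,
    fun i => plus_single m F _, fun i j => j.elim0, fun i j => j.elim0, fun j => j.elim0,
    fun j => j.elim0⟩
  · show BsP m F (Pi.single (Sum.inl i) 1) (Pi.single (Sum.inr j) 1) = _
    rw [BsP_single_inr, Pi.single_apply]
    simp only [Sum.inl.injEq]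
    by_cases h : i = j
    · rw [if_pos h, if_pos h.symm]
    · rw [if_neg h, if_neg (Ne.symm h)]
  · show BsP m F (Pi.single (Sum.inl i) 1) (Pi.single (Sum.inl j) 1) = _
    rw [BsP_single_inl, Pi.single_apply]
    simp
  · show BsP m F (Pi.single (Sum.inr i) 1) (Pi.single (Sum.inr j) 1) = _
    rw [BsP_single_inr, Pi.single_apply]
    simp

end plus


/-- |GO^+_{2m}(q)| = 2 q^(m(m-1)) (q^m - 1) prod_{i=1}^{m-1} (q^(2i) - 1), m at least 1, all q. -/
theorem result {F : Type*} [Field F] [Fintype F] {q : ℕ} (hF : Fintype.card F = q) (m : ℕ) (hm : 1 ≤ m) : Nat.card (Cfsg.isometryGroup F (Cfsg.quadFormPlus m F)) = 2 * q ^ (m * (m - 1)) * (q ^ m - 1) * ∏ i ∈ Finset.range (m - 1), (q ^ (2 * (i + 1)) - 1) := by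
  classical
  obtain ⟨n, rfl⟩ : ∃ n, m = n + 1 := ⟨m - 1, by omega⟩
  subst hF
  have hQS : IsQS (BsP (n + 1) F) (quadFormPlus (n + 1) F) := plus_qs (n + 1) F
  have hstd := plus_std (n + 1) F
  have hV : Nat.card (Fin (n + 1) ⊕ Fin (n + 1) → F) = Fintype.card F ^ (0 + 2 * (n + 1)) := by
    rw [Nat.card_eq_fintype_card, Fintype.card_fun, Fintype.card_sum, Fintype.card_fin]
    congr 1
    ring
  have hne : Nonempty (Frame (BsP (n + 1) F) (quadFormPlus (n + 1) F) (Fin.elim0 : Fin 0 → F)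
      (fun i _ => i.elim0) (n + 1)) := ⟨⟨(_, _, _), hstd⟩⟩
  have hN := vd_of_frame F (Fin.elim0 : Fin 0 → F) (fun i _ => i.elim0) 0 (n0P F)
    (fun B Q h hW _ x => base0_vd B Q h hW x) (n + 1) (BsP (n + 1) F) (quadFormPlus (n + 1) F)
    hQS hV hne
  have e1 := card_iso (quadFormPlus (n + 1) F) (BsP (n + 1) F) hQS.add hQS.smul
    (plus_sep (n + 1) F)
  have e2 := card_gram_frame (quadFormPlus (n + 1) F) (BsP (n + 1) F) hQS.symm
    (Fin.elim0 : Fin 0 → F) (fun i _ => i.elim0) (σP (n + 1)) hstd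
  have e3 := count_frames F (Fin.elim0 : Fin 0 → F) (fun i _ => i.elim0) 0 (n0P F) 1
    (fun B Q _ _ _ => base0_card B Q _ _) (n + 1) (BsP (n + 1) F) (quadFormPlus (n + 1) F)
    hQS hV hN
  have e4 : ∏ i ∈ Finset.range (n + 1),
      ((Nk F 0 (n0P F) (i + 1) 0 - 1) * Fintype.card F ^ (0 + 2 * i))
      = 2 * Fintype.card F ^ ((n + 1) * n) * (Fintype.card F ^ (n + 1) - 1)
        * ∏ i ∈ Finset.range n, (Fintype.card F ^ (2 * (i + 1)) - 1) := by
    rw [← prodP _ Fintype.card_pos n]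
    exact Finset.prod_congr rfl (fun i _ => by rw [NkP])
  rw [one_mul, e4] at e3
  rw [e1, e2, e3]
  simp only [Nat.add_sub_cancel]


end Cfsg.Agent.S0287
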