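import Cfsg.Statements.S0380
import Mathlib
import Cfsg.Agent.S0249
import Cfsg.Agent.S5626
import Cfsg.Agent.Helper2.SLCard
import Cfsg.Agent.Helper29.AutTransport
import Cfsg.Agent.Helper29.PG2.Plane
import Cfsg.Agent.Helper29.PG2.AutBound
import Cfsg.Agent.Helper29.PG2.M21

set_option autoImplicit false
open Cfsg

namespace Cfsg.Agent.S0380

open Cfsg.Agent.Helper29.PG2 Cfsg.Agent.Helper29.AutT

open scoped LinearAlgebra.Projectivization

theorem card_PSL34 (F : Type) [Field F] [Fintype F] (hF : Fintype.card F = 4) :
    Nat.card (Matrix.ProjectiveSpecialLinearGroup (Fin 3) F) = 20160 := by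
  have h1 := Cfsg.Agent.Helper2.SLCard.card_SL_mul F 3 (by norm_num)
  have h2 := Cfsg.Agent.Helper2.SLCard.card_PSL_mul F 3 (by norm_num)
  have h3 : Nat.card (GL (Fin 3) F) = 181440 := by
    rw [Matrix.card_GL_field, hF]
    rfl
  rw [hF] at h1 h2
  rw [h3] at h1
  norm_num at h1 h2
  omega

/-- a simple group of order 20160 inside a group of order at most `6 * 20160` coincides with
any other subgroup of order 20160 -/
theorem range_eq_of_simple {A S K : Type*} [Group A] [Group S] [Group K] [Finite A]
    [IsSimpleGroup S] (φ1 : K →* A) (φ2 : S →* A) (h1 : Function.Injective φ1)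
    (h2 : Function.Injective φ2) (hK : Nat.card K = 20160) (hS : Nat.card S = 20160)
    (hA : Nat.card A ≤ 120960) : φ2.range = φ1.range := by
  have hM : Nat.card φ1.range = 20160 := by
    rw [← hK]
    exact Nat.card_congr (MonoidHom.ofInjective h1).toEquiv.symm
  have hidx : φ1.range.index ≤ 6 := by
    have := Subgroup.card_mul_index φ1.range
    rw [hM] at this
    by_contra hcon
    push Not at hcon
    nlinarith
  let ρ : S →* Equiv.Perm (A ⧸ φ1.range) := (MulAction.toPermHom A (A ⧸ φ1.range)).comp φ2
  have hker : ρ.ker = ⊤ := by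
    rcases (ρ.normal_ker).eq_bot_or_eq_top with h | h
    · exfalso
      have hinj : Function.Injective ρ := (MonoidHom.ker_eq_bot_iff ρ).1 h
      have hle := Nat.card_le_card_of_injective ρ hinj
      have hperm : Nat.card (Equiv.Perm (A ⧸ φ1.range)) = (φ1.range.index).factorial := by
        rw [Nat.card_perm]
        rfl
      rw [hperm, hS] at hle
      have h6 := Nat.factorial_le hidx
      have h720 : Nat.factorial 6 = 720 := rfl
      omega
    · exact h
  have hle : φ2.range ≤ φ1.range := by
    rintro _ ⟨s, rfl⟩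
    have hs : ρ s = 1 := by
      have : s ∈ ρ.ker := by
        rw [hker]
        trivial
      exact this
    have := congrArg (fun σ : Equiv.Perm (A ⧸ φ1.range) => σ ((1 : A) : A ⧸ φ1.range)) hs
    simp only [ρ, MonoidHom.comp_apply, MulAction.toPermHom_apply, MulAction.toPerm_apply,
      Equiv.Perm.one_apply] at this
    rw [MulAction.Quotient.smul_mk, QuotientGroup.eq] at this
    simpa using this
  apply Subgroup.eq_of_le_of_card_ge hle
  rw [hM, ← hS]
  exact (Nat.card_congr (MonoidHom.ofInjective h2).toEquiv).le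

/-- A three-point stabiliser in the group of the length-24 code is isomorphic to PSL(3, F) for the field F with 4 elements. -/
theorem result (p q r : Cfsg.GolayPt) (hpq : p ≠ q) (hpr : p ≠ r) (hqr : q ≠ r) (F : Type) [Field F] [Fintype F] (hF : Fintype.card F = 4) : Nonempty (↥(MulAction.stabilizer Cfsg.M24 p ⊓ MulAction.stabilizer Cfsg.M24 q ⊓ MulAction.stabilizer Cfsg.M24 r) ≃* Matrix.ProjectiveSpecialLinearGroup (Fin 3) F) := by
  classical
  letI : Fintype (ℙ F (Fin 3 → F)) := Fintype.ofFinite _
  have hP := card_points hF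
  have hL := steiner_lines hF
  have hY := card_Y hpq hpr hqr
  have hD := steiner_Y hpq hpr hqr
  obtain ⟨e, he⟩ := Cfsg.Agent.S5626.result hY hP hD hL
  let φ1 : M21 p q r →* setSystemAut (lines (F := F)) :=
    (autEquiv e he).toMonoidHom.comp (M21Hom p q r)
  have h1 : Function.Injective φ1 := (autEquiv e he).injective.comp (M21Hom_injective p q r)
  have h2 := pslHom_injective (F := F)
  have hsimple := Cfsg.Agent.S0249.result (F := F) 3 (le_refl 3)
  have heq := range_eq_of_simple φ1 pslHom h1 h2 (card_M21 p q r hpq hpr hqr)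
    (card_PSL34 F hF) (card_aut_le hP hL)
  exact ⟨(MonoidHom.ofInjective h1).trans
    ((MulEquiv.subgroupCongr heq.symm).trans (MonoidHom.ofInjective h2).symm)⟩

end Cfsg.Agent.S0380
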