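import Cfsg.Statements.S0412
import Mathlib
import Cfsg.Agent.Helper29.GU.SteinerCode
import Cfsg.Agent.Helper29.AutTransport
import Cfsg.Agent.S0364
import Cfsg.Agent.S0365
import Cfsg.Agent.S0366
import Cfsg.Agent.S0369

set_option autoImplicit false
open Cfsg

namespace Cfsg.Agent.S0412

/-- Aut of an S(5, 8, 24) is simple of order 244823040 and 5-transitive on points. -/
theorem result {α : Type*} [Fintype α] [DecidableEq α] (hα : Fintype.card α = 24) {B : Set (Finset α)} (hB : Cfsg.IsSteinerSystem 5 8 B) : Cfsg.IsM24 (Cfsg.setSystemAut B) ∧ MulAction.IsMultiplyPretransitive (Cfsg.setSystemAut B) α 5 := by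
  obtain ⟨e, he⟩ := Cfsg.Agent.Helper29.GU.iso_octads hα hB
  have hsimple : IsSimpleGroup (Cfsg.setSystemAut Cfsg.octads) := by
    rw [← Cfsg.Agent.S0369.result]
    exact Cfsg.Agent.S0365.result
  have hcard : Nat.card (Cfsg.setSystemAut Cfsg.octads) = 244823040 := by
    rw [← Cfsg.Agent.S0369.result]
    exact Cfsg.Agent.S0364.result
  refine ⟨⟨?_, ?_⟩, ?_⟩
  · exact (MulEquiv.isSimpleGroup_congr (Cfsg.Agent.Helper29.AutT.autEquiv e he)).2 hsimple
  · rw [Nat.card_congr (Cfsg.Agent.Helper29.AutT.autEquiv e he).toEquiv]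
    exact hcard
  · apply Cfsg.Agent.Helper29.AutT.trans_of_iso e he
    intro x y
    obtain ⟨g, hg⟩ := (MulAction.isMultiplyPretransitive_iff).1 Cfsg.Agent.S0366.result x y
    refine ⟨g.1, ?_, ?_⟩
    · rw [← Cfsg.Agent.S0369.result]
      exact g.2
    · intro i
      exact DFunLike.congr_fun hg i

end Cfsg.Agent.S0412
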