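import Cfsg.Statements.S0413
import Mathlib
import Cfsg.Agent.Helper29.GU.S4723Aut
import Cfsg.Agent.S0376
import Cfsg.Agent.S0377

set_option autoImplicit false
open Cfsg

namespace Cfsg.Agent.S0413

/-- Aut of an S(4, 7, 23) is simple of order 10200960 and 4-transitive. -/
theorem result {α : Type*} [Fintype α] [DecidableEq α] (hα : Fintype.card α = 23) {B : Set (Finset α)} (hB : Cfsg.IsSteinerSystem 4 7 B) : Cfsg.IsM23 (Cfsg.setSystemAut B) ∧ MulAction.IsMultiplyPretransitive (Cfsg.setSystemAut B) α 4 := by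
  obtain ⟨e, he⟩ := Cfsg.Agent.Helper29.GU.iso_M23sys hα hB
  have φ := (Cfsg.Agent.Helper29.AutT.autEquiv e he).trans Cfsg.Agent.Helper29.GU.autM23
  refine ⟨⟨(MulEquiv.isSimpleGroup_congr φ).2 (Cfsg.Agent.S0377.result none), ?_⟩,
    Cfsg.Agent.Helper29.AutT.trans_of_iso e he 4 Cfsg.Agent.Helper29.GU.four_trans_M23sys⟩
  rw [Nat.card_congr φ.toEquiv]
  exact Cfsg.Agent.S0376.result none

end Cfsg.Agent.S0413
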