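import Cfsg.Statements.S0426
import Mathlib
import Cfsg.Agent.S0418
import Cfsg.Agent.Helper29.W12.Eleven

set_option autoImplicit false
open Cfsg

namespace Cfsg.Agent.S0426

open Cfsg.Agent.Helper29.W12 Cfsg.Agent.Helper29.S3622U

/-- Aut of an S(4, 5, 11) is simple of order 7920 and sharply 4-transitive on points. -/
theorem result {α : Type*} [Fintype α] [DecidableEq α] (hα : Fintype.card α = 11) {B : Set (Finset α)} (hB : Cfsg.IsSteinerSystem 4 5 B) : Cfsg.IsM11 (Cfsg.setSystemAut B) ∧ MulAction.IsMultiplyPretransitive (Cfsg.setSystemAut B) α 4 ∧ ∀ x : Fin 4 ↪ α, MulAction.stabilizer (Cfsg.setSystemAut B) x = ⊥ := by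
  have htrans : MulAction.IsMultiplyPretransitive (Cfsg.setSystemAut B) α 4 := by
    rw [MulAction.isMultiplyPretransitive_iff]
    intro x y
    obtain ⟨g, hg, hxy⟩ := four_trans11 hα hB x y
    refine ⟨⟨g, hg⟩, ?_⟩
    ext i
    exact hxy i
  have hsharp : ∀ x : Fin 4 ↪ α, MulAction.stabilizer (Cfsg.setSystemAut B) x = ⊥ := by
    intro x
    rw [Subgroup.eq_bot_iff_forall]
    intro g hg
    rw [MulAction.mem_stabilizer_iff] at hg
    apply Subtype.ext
    apply sharp11 hα hB (fun C hC => aut_image g.2 hC) x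
    intro i
    have := congrArg (fun f : Fin 4 ↪ α => f i) hg
    exact this
  exact ⟨@Cfsg.Agent.S0418.result _ _ _ hα (Cfsg.setSystemAut B) htrans hsharp, htrans, hsharp⟩

end Cfsg.Agent.S0426
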