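import Cfsg.Statements.S0436

set_option autoImplicit false
open Cfsg

namespace Cfsg.Agent.S0436

theorem sq_of_order_two {G : Type*} [Group G] {d : G} (h : orderOf d = 2) : d ^ 2 = 1 := by
  have := pow_orderOf_eq_one d
  rwa [h] at this

theorem commute_of_sq {G : Type*} [Group G] {x y : G} (hx : x ^ 2 = 1) (hy : y ^ 2 = 1)
    (h : (x * y) ^ 2 = 1) : Commute x y := by
  have hx' : x⁻¹ = x := by
    apply inv_eq_of_mul_eq_one_left; rw [← pow_two]; exact hx
  have hy' : y⁻¹ = y := by
    apply inv_eq_of_mul_eq_one_left; rw [← pow_two]; exact hy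
  have h1 : (x * y)⁻¹ = x * y := by
    apply inv_eq_of_mul_eq_one_left; rw [← pow_two]; exact h
  rw [mul_inv_rev, hx', hy'] at h1
  exact h1.symm

/-- For distinct commuting members a, b of a set of 3-transpositions E, a member e of E centralises the product a * b if and only if it centralises both a and b. -/
theorem result {G : Type*} [Group G] {E : Set G} (hE : Cfsg.IsThreeTranspositionSet E) {a b e : G} (ha : a ∈ E) (hb : b ∈ E) (he : e ∈ E) (hab : a ≠ b) (hcomm : Commute a b) : Commute e (a * b) ↔ (Commute e a ∧ Commute e b) := by
  obtain ⟨hord, hprod⟩ := hE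
  have ha2 := sq_of_order_two (hord a ha)
  have hb2 := sq_of_order_two (hord b hb)
  have he2 := sq_of_order_two (hord e he)
  constructor
  · intro h
    have hea : Commute e a := by
      rcases hprod e he a ha with h2 | h3
      · exact commute_of_sq he2 ha2 h2
      · -- (e a)^3 = 1
        have hc : Commute (e * a) (a * b) :=
          Commute.mul_left h ((Commute.refl a).mul_right hcomm)
        have heb : e * b = (e * a) * (a * b) := by
          rw [mul_assoc, ← mul_assoc a a b, ← pow_two, ha2, one_mul]
        have hab2 : (a * b) ^ 2 = 1 := by rw [hcomm.mul_pow, ha2, hb2, one_mul]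
        rcases hprod e he b hb with k2 | k3
        · rw [heb, hc.mul_pow, hab2, mul_one] at k2
          exact commute_of_sq he2 ha2 k2
        · exfalso
          rw [heb, hc.mul_pow, h3, one_mul, pow_succ, hab2, one_mul] at k3
          apply hab
          have : a = b⁻¹ := eq_inv_of_mul_eq_one_left k3
          rw [this]
          apply inv_eq_of_mul_eq_one_left; rw [← pow_two]; exact hb2
    refine ⟨hea, ?_⟩
    have : b = a⁻¹ * (a * b) := by rw [inv_mul_cancel_left]
    rw [this]
    exact Commute.mul_right hea.inv_right h
  · rintro ⟨h1, h2⟩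
    exact h1.mul_right h2

end Cfsg.Agent.S0436
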