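import Cfsg.Statements.S0437

set_option autoImplicit false
open Cfsg

namespace Cfsg.Agent.S0437

theorem sq_of_order_two {G : Type*} [Group G] {d : G} (h : orderOf d = 2) : d * d = 1 := by
  have := pow_orderOf_eq_one d
  rwa [h, pow_two] at this

theorem commute_of_sq {G : Type*} [Group G] {x y : G} (hx : x * x = 1) (hy : y * y = 1)
    (h : (x * y) ^ 2 = 1) : Commute x y := by
  have hx' : x⁻¹ = x := inv_eq_of_mul_eq_one_left hx
  have hy' : y⁻¹ = y := inv_eq_of_mul_eq_one_left hy
  have h1 : (x * y)⁻¹ = x * y := by
    apply inv_eq_of_mul_eq_one_left; rw [← pow_two]; exact h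
  rw [mul_inv_rev, hx', hy'] at h1
  exact h1.symm

theorem braid_of_cube {G : Type*} [Group G] {x y : G} (hx : x * x = 1) (hy : y * y = 1)
    (h : (x * y) ^ 3 = 1) : x * y * x = y * x * y := by
  have hx' : x⁻¹ = x := inv_eq_of_mul_eq_one_left hx
  have hy' : y⁻¹ = y := inv_eq_of_mul_eq_one_left hy
  have h3 : (x * y * x) * (y * x * y) = 1 := by
    have : (x * y) ^ 3 = (x * y * x) * (y * x * y) := by
      rw [pow_three]; simp only [mul_assoc]
    rw [← this]; exact h
  have e1 : x * y * x = (y * x * y)⁻¹ := eq_inv_of_mul_eq_one_left h3
  rw [e1, mul_inv_rev, mul_inv_rev, hx', hy', mul_assoc]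

/-- The two-element version (statement S0436, reproved locally). -/
theorem two {G : Type*} [Group G] {E : Set G} (hE : Cfsg.IsThreeTranspositionSet E) {a b e : G} (ha : a ∈ E) (hb : b ∈ E) (he : e ∈ E) (hab : a ≠ b) (hcomm : Commute a b) (h : Commute e (a * b)) : Commute e a ∧ Commute e b := by
  obtain ⟨hord, hprod⟩ := hE
  have ha2 := sq_of_order_two (hord a ha)
  have hb2 := sq_of_order_two (hord b hb)
  have he2 := sq_of_order_two (hord e he)
  have hea : Commute e a := by
    rcases hprod e he a ha with h2 | h3
    · exact commute_of_sq he2 ha2 h2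
    · have hc : Commute (e * a) (a * b) :=
        Commute.mul_left h ((Commute.refl a).mul_right hcomm)
      have heb : e * b = (e * a) * (a * b) := by
        rw [mul_assoc, ← mul_assoc a a b, ha2, one_mul]
      have hab2 : (a * b) ^ 2 = 1 := by rw [hcomm.mul_pow, pow_two, pow_two, ha2, hb2, one_mul]
      rcases hprod e he b hb with k2 | k3
      · rw [heb, hc.mul_pow, hab2, mul_one] at k2
        exact commute_of_sq he2 ha2 k2
      · exfalso
        rw [heb, hc.mul_pow, h3, one_mul, pow_succ, hab2, one_mul] at k3
        apply hab
        have : a = b⁻¹ := eq_inv_of_mul_eq_one_left k3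
        rw [this]
        exact inv_eq_of_mul_eq_one_left hb2
  refine ⟨hea, ?_⟩
  have : b = a⁻¹ * (a * b) := by rw [inv_mul_cancel_left]
  rw [this]
  exact Commute.mul_right hea.inv_right h

/-- The purely equational core of the three-element case. -/
theorem caseB {G : Type*} [Group G] (a b c e w : G) (ha : a * a = 1) (hb : b * b = 1)
    (he : e * e = 1) (hw2 : w * w = 1) (hab : a * b = c * w) (hba : a * b = b * a)
    (hwe : w * e = e * w) (hwb : w * b = b * w) (hca : c * a = a * c) (hcb : c * b = b * c)
    (hA : e * a * e = a * e * a) (hB : e * b * e = b * e * b) (hC : e * c * e = c * e * c)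
    (hcabw : c = a * b * w) : e = b := by
  have s2 : e * w * e = w := by
    rw [← hwe, mul_assoc, he, mul_one]
  have s1 : e * c * e = (e * a * e) * (e * b * e) * (e * w * e) := by
    have h : (e * a * e) * (e * b * e) * (e * w * e) = e * (a * (e * e) * b * (e * e) * w) * e := by
      simp only [mul_assoc]
    rw [h, he, mul_one, mul_one, ← hcabw]
  have s3 : c * e * c = (a * e * a) * (b * e * b) * w := by
    rw [← hC, s1, hA, hB, s2]
  have s4 : (a * e * a) * (b * e * b) * w = a * (e * c * e) * b := by
    calc (a * e * a) * (b * e * b) * w = a * e * (a * b) * e * (b * w) := by simp only [mul_assoc]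
      _ = a * e * (c * w) * e * (w * b) := by rw [hab, hwb]
      _ = a * e * c * (w * e) * w * b := by simp only [mul_assoc]
      _ = a * e * c * (e * w) * w * b := by rw [hwe]
      _ = a * e * c * e * (w * w) * b := by simp only [mul_assoc]
      _ = a * (e * c * e) * b := by rw [hw2, mul_one]; simp only [mul_assoc]
  have s5 : c * e * c = c * (a * e * b) * c := by
    calc c * e * c = a * (c * e * c) * b := s3.trans (s4.trans (by rw [hC]))
      _ = (a * c) * e * (c * b) := by simp only [mul_assoc]
      _ = (c * a) * e * (b * c) := by rw [hca, hcb]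
      _ = c * (a * e * b) * c := by simp only [mul_assoc]
  have s6 : e = a * e * b := by
    have := mul_right_cancel s5
    exact mul_left_cancel this
  have s7 : e * b = a * e := by
    calc e * b = (a * e * b) * b := by rw [← s6]
      _ = a * e * (b * b) := by simp only [mul_assoc]
      _ = a * e := by rw [hb, mul_one]
  have s8 : a * e * a = b := by
    rw [← hA]
    calc e * a * e = e * (a * e) := by simp only [mul_assoc]
      _ = e * (e * b) := by rw [s7]
      _ = (e * e) * b := by simp only [mul_assoc]
      _ = b := by rw [he, one_mul]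
  calc e = (a * a) * e * (a * a) := by rw [ha, one_mul, mul_one]
    _ = a * (a * e * a) * a := by simp only [mul_assoc]
    _ = a * b * a := by rw [s8]
    _ = b * a * a := by rw [hba]
    _ = b := by rw [mul_assoc, ha, mul_one]

/-- For three distinct, pairwise commuting members a, b, c of a set of 3-transpositions E, a member e of E centralises a * b * c if and only if it centralises each of a, b and c. -/
theorem result {G : Type*} [Group G] {E : Set G} (hE : Cfsg.IsThreeTranspositionSet E) {a b c e : G} (ha : a ∈ E) (hb : b ∈ E) (hc : c ∈ E) (he : e ∈ E) (hab : a ≠ b) (hac : a ≠ c) (hbc : b ≠ c) (h₁ : Commute a b) (h₂ : Commute a c) (h₃ : Commute b c) : Commute e (a * b * c) ↔ (Commute e a ∧ Commute e b ∧ Commute e c) := by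
  have hE' := hE
  obtain ⟨hord, hprod⟩ := hE
  have ha2 := sq_of_order_two (hord a ha)
  have hb2 := sq_of_order_two (hord b hb)
  have hc2 := sq_of_order_two (hord c hc)
  have he2 := sq_of_order_two (hord e he)
  constructor
  · intro h
    -- if e commutes with one of them, S0436 finishes
    by_cases hea : Commute e a
    · have hbc' : Commute e (b * c) := by
        have : b * c = a⁻¹ * (a * b * c) := by rw [mul_assoc, inv_mul_cancel_left]
        rw [this]; exact Commute.mul_right hea.inv_right h
      obtain ⟨h1, h2⟩ := two hE' hb hc he hbc h₃ hbc'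
      exact ⟨hea, h1, h2⟩
    by_cases heb : Commute e b
    · have hac' : Commute e (a * c) := by
        have : a * c = b⁻¹ * (a * b * c) := by
          rw [h₁.eq, mul_assoc b a c, inv_mul_cancel_left]
        rw [this]; exact Commute.mul_right heb.inv_right h
      obtain ⟨h1, h2⟩ := two hE' ha hc he hac h₂ hac'
      exact ⟨h1, heb, h2⟩
    by_cases hec : Commute e c
    · have hab' : Commute e (a * b) := by
        have : a * b = (a * b * c) * c⁻¹ := by rw [mul_inv_cancel_right]
        rw [this]; exact Commute.mul_right h hec.inv_right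
      obtain ⟨h1, h2⟩ := two hE' ha hb he hab h₁ hab'
      exact ⟨h1, h2, hec⟩
    exfalso
    have hA : e * a * e = a * e * a := by
      rcases hprod e he a ha with h2 | h3
      · exact absurd (commute_of_sq he2 ha2 h2) hea
      · exact braid_of_cube he2 ha2 h3
    have hB : e * b * e = b * e * b := by
      rcases hprod e he b hb with h2 | h3
      · exact absurd (commute_of_sq he2 hb2 h2) heb
      · exact braid_of_cube he2 hb2 h3
    have hC : e * c * e = c * e * c := by
      rcases hprod e he c hc with h2 | h3
      · exact absurd (commute_of_sq he2 hc2 h2) hec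
      · exact braid_of_cube he2 hc2 h3
    have hcabw : c = a * b * (a * b * c) := by
      calc c = (b * b) * c := by rw [hb2, one_mul]
        _ = b * ((a * a) * b) * c := by rw [ha2, one_mul]
        _ = (b * a) * (a * b) * c := by simp only [mul_assoc]
        _ = (a * b) * (a * b) * c := by rw [h₁.eq]
        _ = a * b * (a * b * c) := by simp only [mul_assoc]
    have hw2 : (a * b * c) * (a * b * c) = 1 := by
      have hc1 : Commute (a * b) c := Commute.mul_left h₂ h₃
      calc (a * b * c) * (a * b * c) = (a * b) * (c * (a * b)) * c := by simp only [mul_assoc]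
        _ = (a * b) * ((a * b) * c) * c := by rw [hc1.eq]
        _ = (a * b) * (a * b) * (c * c) := by simp only [mul_assoc]
        _ = a * (b * a) * b := by rw [hc2, mul_one, mul_assoc a (b * a) b, mul_assoc b a b, mul_assoc a b (a * b)]
        _ = a * (a * b) * b := by rw [h₁.eq]
        _ = (a * a) * (b * b) := by simp only [mul_assoc]
        _ = 1 := by rw [ha2, hb2, one_mul]
    have hab' : a * b = c * (a * b * c) := by
      have hc1 : Commute (a * b) c := Commute.mul_left h₂ h₃
      calc a * b = (a * b) * (c * c) := by rw [hc2, mul_one]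
        _ = ((a * b) * c) * c := by simp only [mul_assoc]
        _ = (c * (a * b)) * c := by rw [hc1.eq]
        _ = c * (a * b * c) := by simp only [mul_assoc]
    have hwb : (a * b * c) * b = b * (a * b * c) := by
      have : Commute (a * b * c) b := Commute.mul_left (Commute.mul_left h₁ (Commute.refl b)) h₃.symm
      exact this.eq
    have heq : e = b :=
      caseB a b c e (a * b * c) ha2 hb2 he2 hw2 hab' h₁.eq h.eq.symm hwb h₂.eq.symm h₃.eq.symm
        hA hB hC hcabw
    exact heb (heq ▸ Commute.refl e)
  · rintro ⟨h1, h2, h3⟩
    exact (h1.mul_right h2).mul_right h3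

end Cfsg.Agent.S0437
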