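import Cfsg.Statements.S0447
import Mathlib
import Cfsg.Agent.Helper17.SchurCos.DCovAlt
import Cfsg.Agent.Helper17.SchurCos.An8Cov

set_option autoImplicit false
open Cfsg

namespace Cfsg.Agent.S0447

/-- Involutions in double covers of alternating groups: for n ≤ 7, a finite non-split double cover of the alternating group of degree n has exactly one element of order 2 (the central one); for degree 8 there is a non-split double cover with two distinct involutions. -/
theorem result : (∀ (n : ℕ) (H : Type) (_ : Group H) (_ : Finite H), n ≤ 7 → Cfsg.IsNonsplitDoubleCover H (alternatingGroup (Fin n)) → ∀ x y : H, orderOf x = 2 → orderOf y = 2 → x = y) ∧ ∃ (H : Type) (_ : Group H) (_ : Finite H), Cfsg.IsNonsplitDoubleCover H (alternatingGroup (Fin 8)) ∧ ∃ x y : H, x ≠ y ∧ orderOf x = 2 ∧ orderOf y = 2 := by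
  exact ⟨fun n H _ _ hn hcov x y hx hy =>
    Cfsg.Agent.Helper17.SchurCos.double_cover_invol_unique n H hn hcov x y hx hy,
    Cfsg.Agent.Helper17.SchurCos.An8.double_cover⟩

end Cfsg.Agent.S0447
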