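import Cfsg.Statements.S0547
import Cfsg.Agent.S0043

set_option autoImplicit false
open Cfsg

namespace Cfsg.Agent.S0547

/-- a minimal normal subgroup of a faithful primitive solvable group is transitive, abelian and
regular -/
theorem core {G : Type*} [Group G] [Finite G] [Group.IsSolvable G] {Ω : Type*} [MulAction G Ω]
    [FaithfulSMul G Ω] (hprim : MulAction.IsPreprimitive G Ω) (M : Subgroup G) [M.Normal]
    (hM : M ≠ ⊥) (hmin : ∀ K : Subgroup G, K.Normal → K ≤ M → K = ⊥ ∨ K = M) :
    MulAction.IsPretransitive M Ω ∧ (∀ x ∈ M, ∀ y ∈ M, x * y = y * x) ∧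
      (∀ ω : Ω, ∀ m ∈ M, m • ω = ω → m = 1) := by
  haveI := hprim
  have hfix : MulAction.fixedPoints M Ω ≠ Set.univ := by
    intro h
    apply hM
    rw [eq_bot_iff]
    intro m hm
    rw [Subgroup.mem_bot]
    apply FaithfulSMul.eq_of_smul_eq_smul (α := Ω)
    intro ω
    have hω : ω ∈ MulAction.fixedPoints M Ω := by rw [h]; trivial
    have h1 : (⟨m, hm⟩ : M) • ω = ω := hω ⟨m, hm⟩
    rw [one_smul]; exact h1
  have htrans : MulAction.IsPretransitive M Ω :=
    MulAction.IsQuasiPreprimitive.isPretransitive_of_normal hfix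
  have hcomm : ∀ x ∈ M, ∀ y ∈ M, x * y = y * x := by
    intro x hx y hy
    have hc : M ≤ Subgroup.centralizer (M : Set G) :=
      Subgroup.le_centralizer_iff_isMulCommutative.mpr
        (Cfsg.Agent.S0043.result M hM hmin).1
    exact Subgroup.mem_centralizer_iff.mp (hc hy) x hx
  refine ⟨htrans, hcomm, ?_⟩
  intro ω m hm hfixω
  apply FaithfulSMul.eq_of_smul_eq_smul (α := Ω)
  intro ω'
  obtain ⟨n, rfl⟩ := MulAction.exists_smul_eq M ω ω'
  calc m • (n • ω) = m • ((n : G) • ω) := rfl
    _ = (m * (n : G)) • ω := (mul_smul _ _ _).symm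
    _ = ((n : G) * m) • ω := by rw [hcomm m hm n n.2]
    _ = (n : G) • (m • ω) := mul_smul _ _ _
    _ = (n : G) • ω := by rw [hfixω]
    _ = (1 : G) • (n • ω) := by rw [one_smul]; rfl

/-- Let a finite solvable group G act faithfully and primitively on a set, and let M be a minimal normal subgroup of G. Then M is transitive with trivial point stabilizers, and the number of points equals the order of M, which is a prime power p ^ d with d ≥ 1. -/
theorem result {G : Type*} [Group G] [Finite G] [Group.IsSolvable G] {Ω : Type*} [Nonempty Ω] [MulAction G Ω] [FaithfulSMul G Ω] (hprim : MulAction.IsPreprimitive G Ω) (M : Subgroup G) [M.Normal] (hM : M ≠ ⊥) (hmin : ∀ K : Subgroup G, K.Normal → K ≤ M → K = ⊥ ∨ K = M) : MulAction.IsPretransitive M Ω ∧ (∀ ω : Ω, MulAction.stabilizer M ω = ⊥) ∧ ∃ p d : ℕ, p.Prime ∧ 0 < d ∧ Nat.card Ω = p ^ d ∧ Nat.card M = p ^ d := by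
  obtain ⟨htrans, hcomm, hreg⟩ := core hprim M hM hmin
  haveI := htrans
  have hstab : ∀ ω : Ω, MulAction.stabilizer M ω = ⊥ := by
    intro ω
    rw [eq_bot_iff]
    intro m hm
    rw [Subgroup.mem_bot]
    have h1 : (m : G) • ω = ω := MulAction.mem_stabilizer_iff.mp hm
    exact Subtype.ext (hreg ω m m.2 h1)
  refine ⟨htrans, hstab, ?_⟩
  obtain ⟨_, p, hp, hexp⟩ := Cfsg.Agent.S0043.result M hM hmin
  haveI : Fact p.Prime := ⟨hp⟩
  have hpg : IsPGroup p M := by
    intro x
    refine ⟨1, ?_⟩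
    rw [pow_one]
    exact Subtype.ext (by simpa using hexp x x.2)
  obtain ⟨d, hd⟩ := IsPGroup.iff_card.mp hpg
  have hdpos : 0 < d := by
    rcases Nat.eq_zero_or_pos d with h0 | h0
    · exfalso
      rw [h0, pow_zero] at hd
      exact hM (Subgroup.eq_bot_of_card_eq M hd)
    · exact h0
  obtain ⟨ω⟩ : Nonempty Ω := inferInstance
  have hbij : Function.Bijective (fun m : M => m • ω) := by
    constructor
    · intro a b hab
      have hab' : a • ω = b • ω := hab
      have h1 : (b⁻¹ * a : M) • ω = ω := by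
        rw [mul_smul, hab', inv_smul_smul]
      have h2 : ((b⁻¹ * a : M) : G) = 1 := hreg ω _ (b⁻¹ * a : M).2 h1
      have h3 : b⁻¹ * a = 1 := Subtype.ext h2
      exact (inv_mul_eq_one.mp h3).symm
    · intro ω'
      obtain ⟨m, hm⟩ := MulAction.exists_smul_eq M ω ω'
      exact ⟨m, hm⟩
  have hcard : Nat.card M = Nat.card Ω := Nat.card_congr (Equiv.ofBijective _ hbij)
  exact ⟨p, d, hp, hdpos, by rw [← hcard, hd], hd⟩

end Cfsg.Agent.S0547
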