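import Cfsg.Statements.S0548
import Cfsg.Agent.S0547
import Cfsg.Agent.S0540

set_option autoImplicit false
open Cfsg
open scoped Pointwise

namespace Cfsg.Agent.S0548

/-- Let a finite solvable group G act faithfully and primitively on a set, let M be a minimal normal subgroup and H the stabilizer of a point. Then H is a complement to M, no non-identity element of H centralizes M, and the only subgroups of M normalized by H are the trivial subgroup and M. -/
theorem result {G : Type*} [Group G] [Finite G] [Group.IsSolvable G] {Ω : Type*} [MulAction G Ω] [FaithfulSMul G Ω] (hprim : MulAction.IsPreprimitive G Ω) (M : Subgroup G) [M.Normal] (hM : M ≠ ⊥) (hmin : ∀ K : Subgroup G, K.Normal → K ≤ M → K = ⊥ ∨ K = M) (ω : Ω) : Subgroup.IsComplement' M (MulAction.stabilizer G ω) ∧ MulAction.stabilizer G ω ⊓ Subgroup.centralizer (M : Set G) = ⊥ ∧ ∀ K : Subgroup G, K ≤ M → MulAction.stabilizer G ω ≤ Subgroup.normalizer (K : Set G) → K = ⊥ ∨ K = M := by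
  obtain ⟨htrans, hcomm, hreg⟩ := Cfsg.Agent.S0547.core hprim M hM hmin
  haveI := htrans
  have hdec : ∀ g : G, ∃ m ∈ M, ∃ h ∈ MulAction.stabilizer G ω, m * h = g := by
    intro g
    obtain ⟨m, hm⟩ := MulAction.exists_smul_eq M ω (g • ω)
    have hm' : (m : G) • ω = g • ω := hm
    refine ⟨m, m.2, (m : G)⁻¹ * g, ?_, by group⟩
    rw [MulAction.mem_stabilizer_iff, mul_smul, ← hm', inv_smul_smul]
  refine ⟨?_, ?_, ?_⟩
  · apply Subgroup.isComplement'_of_disjoint_and_mul_eq_univ
    · rw [disjoint_iff, eq_bot_iff]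
      intro m hm
      rw [Subgroup.mem_bot]
      exact hreg ω m hm.1 (MulAction.mem_stabilizer_iff.mp hm.2)
    · apply Set.eq_univ_of_forall
      intro g
      obtain ⟨m, hm, h, hh, rfl⟩ := hdec g
      exact Set.mem_mul.mpr ⟨m, hm, h, hh, rfl⟩
  · rw [eq_bot_iff]
    intro h hh
    rw [Subgroup.mem_bot]
    have hfix : h • ω = ω := MulAction.mem_stabilizer_iff.mp hh.1
    have hcent := Subgroup.mem_centralizer_iff.mp hh.2
    apply FaithfulSMul.eq_of_smul_eq_smul (α := Ω)
    intro ω'
    obtain ⟨n, rfl⟩ := MulAction.exists_smul_eq M ω ω'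
    calc h • (n • ω) = h • ((n : G) • ω) := rfl
      _ = (h * (n : G)) • ω := (mul_smul _ _ _).symm
      _ = ((n : G) * h) • ω := by rw [hcent n n.2]
      _ = (n : G) • (h • ω) := mul_smul _ _ _
      _ = (n : G) • ω := by rw [hfix]
      _ = (1 : G) • (n • ω) := by rw [one_smul]; rfl
  · intro K hKM hHK
    apply hmin K _ hKM
    apply Subgroup.normalizer_eq_top_iff.mp
    rw [eq_top_iff]
    intro g _
    obtain ⟨m, hm, h, hh, rfl⟩ := hdec g
    apply mul_mem _ (hHK hh)
    apply Cfsg.Agent.S0540.mem_normalizer_of_smul_le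
    intro y hy
    obtain ⟨k, hk, rfl⟩ := (Subgroup.mem_smul_pointwise_iff_exists _ _ _).mp hy
    have h1 : MulAut.conj m • k = k := by
      show m * k * m⁻¹ = k
      rw [hcomm m hm k (hKM hk), mul_inv_cancel_right]
    rw [h1]; exact hk

end Cfsg.Agent.S0548
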