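import Cfsg.Statements.S3781

set_option autoImplicit false
open Cfsg

namespace Cfsg.Agent.S3781

/-- iterated commutator with the whole group -/
def it {G : Type*} [Group G] (X : Subgroup G) : ℕ → Subgroup G
  | 0 => X
  | j + 1 => ⁅it X j, ⊤⁆

theorem it_shift {G : Type*} [Group G] (X : Subgroup G) (j : ℕ) :
    it ⁅X, ⊤⁆ j = it X (j + 1) := by
  induction j with
  | zero => rfl
  | succ j ih =>
    show ⁅it ⁅X, ⊤⁆ j, ⊤⁆ = ⁅it X (j + 1), ⊤⁆
    rw [ih]

theorem it_add {G : Type*} [Group G] (X : Subgroup G) (a b : ℕ) :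
    it X (a + b) = it (it X a) b := by
  induction b with
  | zero => rfl
  | succ b ih =>
    show ⁅it X (a + b), ⊤⁆ = ⁅it (it X a) b, ⊤⁆
    rw [ih]

theorem it_mono {G : Type*} [Group G] {X X' : Subgroup G} (h : X ≤ X') (j : ℕ) :
    it X j ≤ it X' j := by
  induction j with
  | zero => exact h
  | succ j ih => exact Subgroup.commutator_mono ih le_rfl

theorem it_normal {G : Type*} [Group G] (X : Subgroup G) [hX : X.Normal] (j : ℕ) :
    (it X j).Normal := by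
  induction j with
  | zero => exact hX
  | succ j ih =>
    have := ih
    show Subgroup.Normal ⁅it X j, ⊤⁆
    infer_instance

theorem it_le {G : Type*} [Group G] (X : Subgroup G) [hX : X.Normal] (j : ℕ) : it X j ≤ X := by
  induction j with
  | zero => exact le_rfl
  | succ j ih =>
    have := it_normal X j
    exact (Subgroup.commutator_le_left (it X j) ⊤).trans ih

theorem three_sub {G : Type*} [Group G] (N A B C : Subgroup G) [N.Normal]
    (h1 : ⁅⁅B, C⁆, A⁆ ≤ N) (h2 : ⁅⁅C, A⁆, B⁆ ≤ N) : ⁅⁅A, B⁆, C⁆ ≤ N := by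
  have key : ∀ H : Subgroup G, H ≤ N ↔ H.map (QuotientGroup.mk' N) = ⊥ := fun H => by
    rw [Subgroup.map_eq_bot_iff, QuotientGroup.ker_mk']
  rw [key, Subgroup.map_commutator, Subgroup.map_commutator] at h1 h2 ⊢
  exact Subgroup.commutator_commutator_eq_bot_of_rotate h1 h2

theorem comm_lcs_le {G : Type*} [Group G] (j : ℕ) : ∀ (X : Subgroup G) [X.Normal],
    ⁅X, (⊤ : Subgroup G).lowerCentralSeries j⁆ ≤ it X (j + 1) := by
  induction j with
  | zero => intro X _; exact le_rfl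
  | succ j ih =>
    intro X hX
    have hN : (it X (j + 2)).Normal := it_normal X (j + 2)
    rw [Subgroup.lowerCentralSeries_succ, Subgroup.commutator_comm X _]
    apply three_sub (it X (j + 2)) ((⊤ : Subgroup G).lowerCentralSeries j) ⊤ X
    · rw [Subgroup.commutator_comm ⊤ X]
      have h := ih ⁅X, ⊤⁆
      rw [it_shift] at h
      exact h
    · exact Subgroup.commutator_mono (ih X) le_rfl

theorem eq_bot_of_le_comm_top {Q : Type*} [Group Q] [hQ : Group.IsNilpotent Q] (Z : Subgroup Q)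
    (h : Z ≤ ⁅Z, ⊤⁆) : Z = ⊥ := by
  obtain ⟨k, hk⟩ := Subgroup.nilpotent_iff_lowerCentralSeries.mp hQ
  have h2 : ∀ j, Z ≤ (⊤ : Subgroup Q).lowerCentralSeries j := by
    intro j
    induction j with
    | zero => exact le_top
    | succ j ih => exact h.trans (Subgroup.commutator_mono ih le_rfl)
  exact eq_bot_iff.mpr (hk ▸ h2 k)

theorem le_of_le_comm_sup {G : Type*} [Group G] [Finite G] {p : ℕ} [Fact p.Prime]
    (hG : IsPGroup p G) (X Y : Subgroup G) [Y.Normal] (h : X ≤ ⁅X, ⊤⁆ ⊔ Y) : X ≤ Y := by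
  have hQ : Group.IsNilpotent (G ⧸ Y) := (hG.to_quotient Y).isNilpotent
  have hmap : X.map (QuotientGroup.mk' Y) ≤ ⁅X.map (QuotientGroup.mk' Y), ⊤⁆ := by
    have h1 := Subgroup.map_mono (f := QuotientGroup.mk' Y) h
    rw [Subgroup.map_sup, Subgroup.map_commutator] at h1
    have h2 : Y.map (QuotientGroup.mk' Y) = ⊥ := by
      rw [Subgroup.map_eq_bot_iff, QuotientGroup.ker_mk']
    rw [h2, sup_bot_eq] at h1
    exact h1.trans (Subgroup.commutator_mono le_rfl le_top)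
  have h3 := eq_bot_of_le_comm_top _ hmap
  rw [Subgroup.map_eq_bot_iff, QuotientGroup.ker_mk'] at h3
  exact h3

theorem it_le_of_relIndex {G : Type*} [Group G] [Finite G] {p : ℕ} [hp : Fact p.Prime]
    (hG : IsPGroup p G) (m : ℕ) :
    ∀ (X Y : Subgroup G) [X.Normal] [Y.Normal], Y ≤ X → Y.relIndex X ∣ p ^ m → it X m ≤ Y := by
  induction m with
  | zero =>
    intro X Y _ _ hYX hdiv
    rw [pow_zero, Nat.dvd_one, Subgroup.relIndex_eq_one] at hdiv
    exact hdiv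
  | succ m ih =>
    intro X Y hXn hYn hYX hdiv
    by_cases hcase : X ≤ ⁅X, ⊤⁆ ⊔ Y
    · exact (it_le X (m + 1)).trans (le_of_le_comm_sup hG X Y hcase)
    · have hYX' : Y ≤ ⁅X, ⊤⁆ ⊔ Y := le_sup_right
      have hX'X : ⁅X, ⊤⁆ ⊔ Y ≤ X := sup_le (Subgroup.commutator_le_left X ⊤) hYX
      have hmul := Subgroup.relIndex_mul_relIndex Y (⁅X, ⊤⁆ ⊔ Y) X hYX' hX'X
      have hne : (⁅X, ⊤⁆ ⊔ Y).relIndex X ≠ 1 := by
        rw [Ne, Subgroup.relIndex_eq_one]; exact hcase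
      have hd2 : (⁅X, ⊤⁆ ⊔ Y).relIndex X ∣ p ^ (m + 1) :=
        Dvd.dvd.trans (Dvd.intro_left _ hmul) hdiv
      obtain ⟨k, hk, hkeq⟩ := (Nat.dvd_prime_pow hp.out).mp hd2
      have hk0 : k ≠ 0 := by rintro rfl; exact hne (by rw [hkeq, pow_zero])
      have hpd : p ∣ (⁅X, ⊤⁆ ⊔ Y).relIndex X := by rw [hkeq]; exact dvd_pow_self p hk0
      have hd3 : Y.relIndex (⁅X, ⊤⁆ ⊔ Y) ∣ p ^ m := by
        have h5 : Y.relIndex (⁅X, ⊤⁆ ⊔ Y) * p ∣ p ^ m * p := by
          rw [← pow_succ]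
          refine Dvd.dvd.trans ?_ hdiv
          rw [← hmul]
          exact Nat.mul_dvd_mul_left _ hpd
        exact Nat.dvd_of_mul_dvd_mul_right hp.out.pos h5
      have h6 := ih (⁅X, ⊤⁆ ⊔ Y) Y hYX' hd3
      have h7 : it X (m + 1) = it ⁅X, ⊤⁆ m := (it_shift X m).symm
      rw [h7]
      exact (it_mono le_sup_left m).trans h6

theorem lcs_normal {G : Type*} [Group G] (N : Subgroup G) [hN : N.Normal] (j : ℕ) :
    (N.lowerCentralSeries j).Normal := by
  induction j with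
  | zero => exact hN
  | succ j ih =>
    have := ih
    show Subgroup.Normal ⁅N.lowerCentralSeries j, N⁆
    infer_instance

theorem aux {G : Type*} [Group G] [Finite G] {p : ℕ} [hp : Fact p.Prime] (hG : IsPGroup p G)
    (n : ℕ) (hn : 1 ≤ n) (N : Subgroup G) [N.Normal]
    (hN : N ≤ (⊤ : Subgroup G).lowerCentralSeries (n - 1)) (X : Subgroup G) [X.Normal]
    (hne : ⁅X, N⁆ ≠ ⊥) : p ^ n ≤ (⁅X, N⁆).relIndex X := by
  have hYX : ⁅X, N⁆ ≤ X := Subgroup.commutator_le_left X N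
  by_contra hlt
  obtain ⟨a, ha⟩ := (IsPGroup.iff_card).mp hG
  have hd : (⁅X, N⁆).relIndex X ∣ p ^ a := by
    rw [← ha]
    exact (Subgroup.relIndex_dvd_card ⁅X, N⁆ X).trans (Subgroup.card_subgroup_dvd_card X)
  obtain ⟨m, hm, hmeq⟩ := (Nat.dvd_prime_pow hp.out).mp hd
  have hmn : m < n := by
    by_contra h
    exact hlt (by rw [hmeq]; exact Nat.pow_le_pow_right hp.out.pos (not_lt.mp h))
  have h1 : it X m ≤ ⁅X, N⁆ := it_le_of_relIndex hG m X ⁅X, N⁆ hYX (by rw [hmeq])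
  have h2 : ⁅X, N⁆ ≤ it X n := by
    have h3 := comm_lcs_le (n - 1) X
    rw [show n - 1 + 1 = n by omega] at h3
    exact (Subgroup.commutator_mono le_rfl hN).trans h3
  have h4 : it X n ≤ ⁅⁅X, N⁆, ⊤⁆ := by
    obtain ⟨c, rfl⟩ : ∃ c, n = m + (c + 1) := ⟨n - m - 1, by omega⟩
    rw [it_add]
    refine (it_mono h1 (c + 1)).trans ?_
    rw [← it_shift]
    exact it_le ⁅⁅X, N⁆, ⊤⁆ c
  have hnil : Group.IsNilpotent G := hG.isNilpotent
  exact hne (eq_bot_of_le_comm_top ⁅X, N⁆ (h2.trans h4))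


/-- Let G be a finite p-group and n ≥ 1, and write γ_1(G) = G, γ_{k+1}(G) = [γ_k(G), G], and likewise γ_k(N) for a subgroup N. Let N be a normal subgroup of G contained in γ_n(G). If i > 1 and γ_{i+1}(N) ≠ 1, then |γ_i(N) : γ_{i+1}(N)| ≥ p^n. -/
theorem result {G : Type*} [Group G] [Finite G] {p : ℕ} [Fact p.Prime] (hG : IsPGroup p G) (n : ℕ) (hn : 1 ≤ n) (N : Subgroup G) [N.Normal] (hN : N ≤ (⊤ : Subgroup G).lowerCentralSeries (n - 1)) (i : ℕ) (hi : 1 < i) (hne : N.lowerCentralSeries i ≠ ⊥) : p ^ n ≤ (N.lowerCentralSeries i).relIndex (N.lowerCentralSeries (i - 1)) := by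
  obtain ⟨i', rfl⟩ : ∃ i', i = i' + 1 := ⟨i - 1, by omega⟩
  have hXn : (N.lowerCentralSeries i').Normal := lcs_normal N i'
  rw [Nat.add_sub_cancel]
  exact aux hG n hn N hN (N.lowerCentralSeries i') hne

end Cfsg.Agent.S3781
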