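import Cfsg.Statements.S0663
import Cfsg.Agent.S3781
import Cfsg.Agent.Helper14.Comm
import Cfsg.Agent.Helper14.Conj
import Cfsg.Agent.Helper14.PElem

set_option autoImplicit false
open Cfsg

namespace Cfsg.Agent.S0663
open Cfsg.Agent.Helper14
open scoped commutatorElement

theorem card_mul_relIndex' {L : Type*} [Group L] (A B : Subgroup L) (h : A ≤ B) :
    Nat.card A * A.relIndex B = Nat.card B := by
  have := Subgroup.relIndex_mul_relIndex (⊥ : Subgroup L) A B bot_le h
  rwa [Subgroup.relIndex_bot_left, Subgroup.relIndex_bot_left] at this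

theorem between {L : Type*} [Group L] {p : ℕ} (hp : p.Prime) (A B H : Subgroup L)
    (hidx : A.relIndex B = p) (hAH : A ≤ H) (hHB : H ≤ B) (hne : ¬ H ≤ A) : B ≤ H := by
  have h1 := Subgroup.relIndex_mul_relIndex A H B hAH hHB
  rw [hidx] at h1
  have h2 : A.relIndex H ∣ p := Dvd.intro _ h1
  rcases (Nat.dvd_prime hp).mp h2 with h3 | h3
  · exact absurd (Subgroup.relIndex_eq_one.mp h3) hne
  · rw [h3] at h1
    have h4 : H.relIndex B = 1 := Nat.eq_of_mul_eq_mul_left hp.pos (by rw [h1, mul_one])
    exact Subgroup.relIndex_eq_one.mp h4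

theorem comm_ne_self {L : Type*} [Group L] [Finite L] {p : ℕ} [Fact p.Prime] (H G : Subgroup L)
    (hH : IsPGroup p H) (hG : IsPGroup p G)
    (hGH : G ≤ Subgroup.normalizer (H : Set L)) (hne : H ≠ ⊥) : ⁅H, G⁆ ≠ H := by
  intro heq
  have hK : IsPGroup p (H ⊔ G : Subgroup L) := IsPGroup.to_sup_of_normal_left' hH hG hGH
  have hnil : Group.IsNilpotent ↥(H ⊔ G) := hK.isNilpotent
  have hX : H.subgroupOf (H ⊔ G) ≤ ⁅H.subgroupOf (H ⊔ G), (⊤ : Subgroup ↥(H ⊔ G))⁆ := by
    intro x hx
    have hx1 : (x : L) ∈ H := hx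
    have hmap : (⁅H.subgroupOf (H ⊔ G), (⊤ : Subgroup ↥(H ⊔ G))⁆).map (H ⊔ G).subtype
        = ⁅H, H ⊔ G⁆ := by
      rw [Subgroup.map_commutator, Subgroup.subgroupOf_map_subtype, ← MonoidHom.range_eq_map,
        Subgroup.range_subtype, inf_of_le_left le_sup_left]
    have hx2 : (x : L) ∈ ⁅H, H ⊔ G⁆ := by
      have hle : ⁅H, G⁆ ≤ ⁅H, H ⊔ G⁆ := Subgroup.commutator_mono le_rfl le_sup_right
      exact hle (by rw [heq]; exact hx1)
    rw [← hmap] at hx2
    obtain ⟨y, hy, hyx⟩ := Subgroup.mem_map.mp hx2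
    have hyx' : y = x := Subtype.ext hyx
    rw [← hyx']; exact hy
  have hbot := Cfsg.Agent.S3781.eq_bot_of_le_comm_top _ hX
  apply hne
  rw [Subgroup.subgroupOf_eq_bot] at hbot
  exact (inf_of_le_left (le_sup_left : H ≤ H ⊔ G)).symm.trans (disjoint_iff.mp hbot)

theorem ic_norm {L : Type*} [Group L] (N G : Subgroup L)
    (hGN : G ≤ Subgroup.normalizer (N : Set L)) (i : ℕ) :
    G ≤ Subgroup.normalizer ((iterCommutator N G i : Subgroup L) : Set L) := by
  cases i with
  | zero => exact hGN
  | succ i =>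
    show G ≤ Subgroup.normalizer ((⁅iterCommutator N G i, G⁆ : Subgroup L) : Set L)
    rw [Subgroup.commutator_comm]
    exact le_normalizer_commutator_left G _

theorem ic_succ_le {L : Type*} [Group L] (N G : Subgroup L)
    (hGN : G ≤ Subgroup.normalizer (N : Set L)) (i : ℕ) :
    iterCommutator N G (i+1) ≤ iterCommutator N G i :=
  commutator_le_left_of_le_normalizer _ G (ic_norm N G hGN i)

theorem ic_anti {L : Type*} [Group L] (N G : Subgroup L)
    (hGN : G ≤ Subgroup.normalizer (N : Set L)) {i j : ℕ} (h : i ≤ j) :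
    iterCommutator N G j ≤ iterCommutator N G i := by
  induction h with
  | refl => exact le_rfl
  | step _ ih => exact (ic_succ_le N G hGN _).trans ih

theorem ic_le {L : Type*} [Group L] (N G : Subgroup L)
    (hGN : G ≤ Subgroup.normalizer (N : Set L)) (i : ℕ) :
    iterCommutator N G i ≤ N := ic_anti N G hGN (Nat.zero_le i)

theorem ic_norm_left {L : Type*} [Group L] (N G : Subgroup L) (i : ℕ) :
    iterCommutator N G i ≤ Subgroup.normalizer ((iterCommutator N G (i+1) : Subgroup L) : Set L) :=
  le_normalizer_commutator_left _ G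

theorem cp_relIndex {L : Type*} [Group L] {p n : ℕ} (hp : p.Prime) (N G : Subgroup L)
    (hGN : G ≤ Subgroup.normalizer (N : Set L))
    (hCP : ∀ i ≤ n, Nat.card (iterCommutator N G i) = p ^ (n - i)) (i : ℕ) (hi : i < n) :
    (iterCommutator N G (i+1)).relIndex (iterCommutator N G i) = p := by
  have h1 := card_mul_relIndex' _ _ (ic_succ_le N G hGN i)
  rw [hCP i hi.le, hCP (i+1) hi] at h1
  have e : n - i = (n - (i+1)) + 1 := by omega
  rw [e, pow_succ] at h1
  exact Nat.eq_of_mul_eq_mul_left (pow_pos hp.pos _) h1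

theorem cp_injective {L : Type*} [Group L] {p n : ℕ} (hp : p.Prime) (N G : Subgroup L)
    (hCP : ∀ i ≤ n, Nat.card (iterCommutator N G i) = p ^ (n - i)) {i j : ℕ} (hi : i ≤ n)
    (hj : j ≤ n)
    (h : Nat.card (iterCommutator N G i) = Nat.card (iterCommutator N G j)) : i = j := by
  rw [hCP i hi, hCP j hj] at h
  have := Nat.pow_right_injective hp.two_le h
  omega

theorem cp_bot {L : Type*} [Group L] {p n : ℕ} (N G : Subgroup L)
    (hCP : ∀ i ≤ n, Nat.card (iterCommutator N G i) = p ^ (n - i)) :
    iterCommutator N G n = ⊥ :=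
  Subgroup.card_eq_one.mp (by rw [hCP n le_rfl, Nat.sub_self, pow_zero])

theorem conj_inv_step {L : Type*} [Group L] (A G K B : Subgroup L)
    (hGK : G ≤ Subgroup.normalizer (K : Set L))
    (hAB : A ≤ Subgroup.normalizer (B : Set L)) (hKB : K ≤ B)
    (hcomm : ⁅A, G⁆ ≤ Subgroup.normalizer (K : Set L))
    (huniq : ∀ K' : Subgroup L, K' ≤ B → G ≤ Subgroup.normalizer (K' : Set L) →
      Nat.card K' = Nat.card K → K' = K) :
    A ≤ Subgroup.normalizer (K : Set L) := by
  intro x hx
  have hK'B : K.map (MulAut.conj x).toMonoidHom ≤ B := by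
    intro y hy
    rw [mem_map_conj] at hy
    have h1 := (Subgroup.mem_normalizer_iff.mp (hAB hx) _).mp (hKB hy)
    have e : x * (x⁻¹ * y * x) * x⁻¹ = y := by group
    rwa [e] at h1
  have hkey : ∀ g ∈ G, ∀ y ∈ K.map (MulAut.conj x).toMonoidHom,
      g * y * g⁻¹ ∈ K.map (MulAut.conj x).toMonoidHom := by
    intro g hg y hy
    rw [mem_map_conj] at hy ⊢
    have hw : x⁻¹ * g * x ∈ Subgroup.normalizer (K : Set L) := by
      have h1 : ⁅x⁻¹, g⁆ ∈ Subgroup.normalizer (K : Set L) :=
        hcomm (Subgroup.commutator_mem_commutator (A.inv_mem hx) hg)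
      have h2 := Subgroup.mul_mem _ h1 (hGK hg)
      have e : ⁅x⁻¹, g⁆ * g = x⁻¹ * g * x := by rw [commutatorElement_def]; group
      rwa [e] at h2
    have h3 := (Subgroup.mem_normalizer_iff.mp hw _).mp hy
    have e : x⁻¹ * g * x * (x⁻¹ * y * x) * (x⁻¹ * g * x)⁻¹ = x⁻¹ * (g * y * g⁻¹) * x := by group
    rwa [e] at h3
  have hGK' : G ≤ Subgroup.normalizer ((K.map (MulAut.conj x).toMonoidHom : Subgroup L) : Set L) := by
    intro g hg
    apply mem_normalizer_of_forall _ g (hkey g hg)
    intro y hy
    have := hkey g⁻¹ (G.inv_mem hg) y hy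
    rwa [inv_inv] at this
  have hcard : Nat.card (K.map (MulAut.conj x).toMonoidHom) = Nat.card K :=
    Subgroup.card_map_of_injective (MulAut.conj x).injective
  have hK' := huniq _ hK'B hGK' hcard
  rw [Subgroup.mem_normalizer_iff]
  intro h
  constructor
  · intro hh
    have h1 : x * h * x⁻¹ ∈ K.map (MulAut.conj x).toMonoidHom := conj_mem_map_conj K x hh
    rwa [hK'] at h1
  · intro hh
    rw [← hK'] at hh
    have h1 := (mem_map_conj K x _).mp hh
    have e : x⁻¹ * (x * h * x⁻¹) * x = h := by group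
    rwa [e] at h1

theorem norm_desc {L : Type*} [Group L] {p n : ℕ} (hp : p.Prime) (N G : Subgroup L)
    (hGN : G ≤ Subgroup.normalizer (N : Set L))
    (hCP : ∀ i ≤ n, Nat.card (iterCommutator N G i) = p ^ (n - i)) (j : ℕ)
    (hR : ∀ H : Subgroup L, H ≤ iterCommutator N G (j+1) → G ≤ Subgroup.normalizer (H : Set L) →
      ∃ k ≤ n, H = iterCommutator N G k)
    (K : Subgroup L) (hK : K ≤ iterCommutator N G (j+1))
    (hGK : G ≤ Subgroup.normalizer (K : Set L)) :
    ∀ e i, i + e = n → j ≤ i → iterCommutator N G i ≤ Subgroup.normalizer (K : Set L) := by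
  intro e
  induction e with
  | zero =>
    intro i hi _
    have : i = n := by omega
    rw [this, cp_bot N G hCP]
    exact bot_le
  | succ e ih =>
    intro i hi hji
    have h1 := ih (i+1) (by omega) (by omega)
    apply conj_inv_step (iterCommutator N G i) G K (iterCommutator N G (j+1)) hGK
      ((ic_anti N G hGN hji).trans (ic_norm_left N G j)) hK h1
    intro K' hK' hGK' hcard
    obtain ⟨k', hk', hK'k⟩ := hR K' hK' hGK'
    obtain ⟨k, hk, hKk⟩ := hR K hK hGK
    rw [hK'k, hKk] at hcard
    have := cp_injective hp N G hCP hk' hk hcard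
    rw [hK'k, hKk, this]

def commSub {L : Type*} [Group L] (A G X : Subgroup L)
    (hAX : A ≤ Subgroup.normalizer (X : Set L)) : Subgroup L where
  carrier := {a | a ∈ A ∧ ∀ g ∈ G, ⁅a, g⁆ ∈ X}
  one_mem' := ⟨A.one_mem, fun g _ => by rw [commutatorElement_one_left]; exact X.one_mem⟩
  mul_mem' := by
    rintro a b ⟨ha, ha'⟩ ⟨hb, hb'⟩
    refine ⟨A.mul_mem ha hb, fun g hg => ?_⟩
    have e : ⁅a * b, g⁆ = a * ⁅b, g⁆ * a⁻¹ * ⁅a, g⁆ := by
      simp only [commutatorElement_def]; group
    rw [e]
    exact X.mul_mem ((Subgroup.mem_normalizer_iff.mp (hAX ha) _).mp (hb' g hg)) (ha' g hg)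
  inv_mem' := by
    rintro a ⟨ha, ha'⟩
    refine ⟨A.inv_mem ha, fun g hg => ?_⟩
    have e : ⁅a⁻¹, g⁆ = a⁻¹ * (⁅a, g⁆)⁻¹ * (a⁻¹)⁻¹ := by
      simp only [commutatorElement_def]; group
    rw [e]
    exact (Subgroup.mem_normalizer_iff.mp (hAX (A.inv_mem ha)) _).mp (X.inv_mem (ha' g hg))

theorem classify {L : Type*} [Group L] [Finite L] {p n : ℕ} (hp : p.Prime) (N G : Subgroup L)
    (hGN : G ≤ Subgroup.normalizer (N : Set L))
    (hCP : ∀ i ≤ n, Nat.card (iterCommutator N G i) = p ^ (n - i)) :
    ∀ d j, j + d = n → ∀ H : Subgroup L, H ≤ iterCommutator N G j →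
      G ≤ Subgroup.normalizer (H : Set L) → ∃ k ≤ n, H = iterCommutator N G k := by
  intro d
  induction d with
  | zero =>
    intro j hj H hH _
    have hjn : j = n := by omega
    rw [hjn, cp_bot N G hCP] at hH
    exact ⟨n, le_rfl, by rw [cp_bot N G hCP]; exact le_bot_iff.mp hH⟩
  | succ d ih =>
    intro j hj H hH hGH
    have hR := ih (j+1) (by omega)
    by_cases hle : H ≤ iterCommutator N G (j+1)
    · exact hR H hle hGH
    · have hjn : j < n := by omega
      have hidx := cp_relIndex hp N G hGN hCP j hjn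
      have claim : iterCommutator N G (j+1) ≤ H := by
        by_contra hnot
        have hD_le : H ⊓ iterCommutator N G (j+1) ≤ iterCommutator N G (j+1) := inf_le_right
        have hGD : G ≤ Subgroup.normalizer ((H ⊓ iterCommutator N G (j+1) : Subgroup L) : Set L) :=
          fun g hg => mem_normalizer_inf H _ g (hGH hg) (ic_norm N G hGN (j+1) hg)
        obtain ⟨k, hk, hDk⟩ := hR _ hD_le hGD
        have hk2 : j + 2 ≤ k := by
          by_contra hlt
          have h1 : iterCommutator N G (j+1) ≤ iterCommutator N G k :=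
            ic_anti N G hGN (by omega)
          rw [← hDk] at h1
          exact hnot (h1.trans inf_le_left)
        have hX1 : iterCommutator N G (j+2) ≤ iterCommutator N G (j+1) := ic_succ_le N G hGN (j+1)
        have hNX : iterCommutator N G j ≤
            Subgroup.normalizer ((iterCommutator N G (j+2) : Subgroup L) : Set L) :=
          norm_desc hp N G hGN hCP j hR _ hX1 (ic_norm N G hGN (j+2)) (n - j) j (by omega) le_rfl
        have hS_le : commSub (iterCommutator N G j) G (iterCommutator N G (j+2)) hNX ≤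
            iterCommutator N G j := fun a ha => ha.1
        have hS1 : iterCommutator N G (j+1) ≤
            commSub (iterCommutator N G j) G (iterCommutator N G (j+2)) hNX :=
          fun a ha => ⟨ic_succ_le N G hGN j ha, fun g hg =>
            Subgroup.commutator_mem_commutator ha hg⟩
        have hS2 : H ≤ commSub (iterCommutator N G j) G (iterCommutator N G (j+2)) hNX := by
          intro a ha
          refine ⟨hH ha, fun g hg => ?_⟩
          have h1 : ⁅a, g⁆ ∈ H :=
            commutator_le_left_of_le_normalizer H G hGH (Subgroup.commutator_mem_commutator ha hg)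
          have h2 : ⁅a, g⁆ ∈ iterCommutator N G (j+1) :=
            Subgroup.commutator_mem_commutator (hH ha) hg
          have h3 : ⁅a, g⁆ ∈ H ⊓ iterCommutator N G (j+1) := ⟨h1, h2⟩
          rw [hDk] at h3
          exact ic_anti N G hGN hk2 h3
        have hS3 : ¬ commSub (iterCommutator N G j) G (iterCommutator N G (j+2)) hNX ≤
            iterCommutator N G (j+1) := fun h => hle (hS2.trans h)
        have hS4 := between hp _ _ _ hidx hS1 hS_le hS3
        have hcomm : iterCommutator N G (j+1) ≤ iterCommutator N G (j+2) := by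
          show ⁅iterCommutator N G j, G⁆ ≤ _
          rw [Subgroup.commutator_le]
          intro a ha g hg
          exact (hS4 ha).2 g hg
        have hc := Subgroup.card_le_of_le hcomm
        rw [hCP (j+1) (by omega), hCP (j+2) (by omega)] at hc
        have e : n - (j+1) = (n - (j+2)) + 1 := by omega
        rw [e, pow_succ] at hc
        have hpos := pow_pos hp.pos (n - (j+2))
        have h2 := hp.two_le
        nlinarith
      exact ⟨j, by omega, le_antisymm hH (between hp _ _ H hidx claim hH hle)⟩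

theorem cp_of_unis {L : Type*} [Group L] {p n : ℕ} (hp : p.Prime) (N G : Subgroup L)
    (hGN : G ≤ Subgroup.normalizer (N : Set L)) (hn : Nat.card N = p ^ n)
    (hU : ∀ H : Subgroup L, H ≤ N → G ≤ Subgroup.normalizer (H : Set L) → H ≠ ⊥ →
      (⁅H, G⁆).relIndex H = p) :
    ∀ i ≤ n, Nat.card (iterCommutator N G i) = p ^ (n - i) := by
  intro i
  induction i with
  | zero => intro _; exact hn
  | succ i ih =>
    intro hi
    have h0 := ih (by omega)
    have hne : iterCommutator N G i ≠ ⊥ := by
      intro h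
      rw [h, Subgroup.card_bot] at h0
      have : 1 < p ^ (n - i) := Nat.one_lt_pow (by omega) hp.one_lt
      omega
    have h1 : (iterCommutator N G (i+1)).relIndex (iterCommutator N G i) = p :=
      hU _ (ic_le N G hGN i) (ic_norm N G hGN i) hne
    have h2 := card_mul_relIndex' _ _ (ic_succ_le N G hGN i)
    rw [h1, h0] at h2
    have e : n - i = (n - (i+1)) + 1 := by omega
    rw [e, pow_succ] at h2
    exact Nat.eq_of_mul_eq_mul_right hp.pos h2

theorem cp_of_ne_bot {L : Type*} [Group L] [Finite L] {p n : ℕ} [Fact p.Prime] (N G : Subgroup L)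
    (hN : IsPGroup p N) (hG : IsPGroup p G)
    (hGN : G ≤ Subgroup.normalizer (N : Set L)) (hn : Nat.card N = p ^ n) (hn1 : 1 ≤ n)
    (hne : iterCommutator N G (n-1) ≠ ⊥) :
    ∀ i ≤ n, Nat.card (iterCommutator N G i) = p ^ (n - i) := by
  have hp : p.Prime := Fact.out
  have hPi : ∀ i, IsPGroup p (iterCommutator N G i) := fun i => hN.to_le (ic_le N G hGN i)
  have step : ∀ i, i ≤ n - 1 →
      Nat.card (iterCommutator N G (i+1)) * p ∣ Nat.card (iterCommutator N G i) := by
    intro i hi
    have hne_i : iterCommutator N G i ≠ ⊥ := by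
      intro h
      have h1 := ic_anti N G hGN hi
      rw [h] at h1
      exact hne (le_bot_iff.mp h1)
    have hlt := comm_ne_self (iterCommutator N G i) G (hPi i) hG (ic_norm N G hGN i) hne_i
    have h1 := card_mul_relIndex' _ _ (ic_succ_le N G hGN i)
    have h2 : p ∣ (iterCommutator N G (i+1)).relIndex (iterCommutator N G i) := by
      obtain ⟨a, ha⟩ := (hPi i).exists_card_eq
      have hd : (iterCommutator N G (i+1)).relIndex (iterCommutator N G i) ∣ p ^ a := by
        rw [← ha]; exact Subgroup.relIndex_dvd_card _ _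
      obtain ⟨b, hb, hbe⟩ := (Nat.dvd_prime_pow hp).mp hd
      rw [hbe]
      cases b with
      | zero =>
        exfalso; apply hlt
        exact le_antisymm (ic_succ_le N G hGN i)
          (Subgroup.relIndex_eq_one.mp (hbe.trans (pow_zero p)))
      | succ b => exact Dvd.intro_left (p ^ b) (pow_succ p b).symm
    obtain ⟨c, hc⟩ := h2
    rw [hc] at h1
    exact ⟨c, by rw [← h1]; ring⟩
  have up : ∀ i, i ≤ n → Nat.card (iterCommutator N G i) * p ^ i ∣ p ^ n := by
    intro i
    induction i with
    | zero =>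
      intro _
      show Nat.card N * p ^ 0 ∣ p ^ n
      rw [pow_zero, mul_one, hn]
    | succ i ih =>
      intro hi
      have h1 := step i (by omega)
      have h2 := ih (by omega)
      calc Nat.card (iterCommutator N G (i+1)) * p ^ (i+1)
          = (Nat.card (iterCommutator N G (i+1)) * p) * p ^ i := by ring
        _ ∣ Nat.card (iterCommutator N G i) * p ^ i := Nat.mul_dvd_mul_right h1 _
        _ ∣ p ^ n := h2
  have low : ∀ d i, i + d = n - 1 → p ^ (d+1) ∣ Nat.card (iterCommutator N G i) := by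
    intro d
    induction d with
    | zero =>
      intro i hi
      have hin : i = n - 1 := by omega
      rw [hin, zero_add, pow_one]
      exact dvd_card_of_isPGroup_ne_bot _ (hPi _) hne
    | succ d ih =>
      intro i hi
      have h1 := step i (by omega)
      have h2 := ih (i+1) (by omega)
      calc p ^ (d+1+1) = p ^ (d+1) * p := pow_succ _ _
        _ ∣ Nat.card (iterCommutator N G (i+1)) * p := Nat.mul_dvd_mul_right h2 p
        _ ∣ _ := h1
  intro i hi
  by_cases hin : i = n
  · rw [hin, Nat.sub_self, pow_zero]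
    have h1 := up n le_rfl
    have hpos : 0 < p ^ n := pow_pos hp.pos n
    have h3 : Nat.card (iterCommutator N G n) ∣ 1 := by
      have h4 : Nat.card (iterCommutator N G n) * p ^ n ∣ 1 * p ^ n := by rwa [one_mul]
      exact Nat.dvd_of_mul_dvd_mul_right hpos h4
    exact Nat.dvd_one.mp h3
  · have hlow := low (n - 1 - i) i (by omega)
    have hup := up i hi
    have e1 : n - 1 - i + 1 = n - i := by omega
    rw [e1] at hlow
    have h3 : Nat.card (iterCommutator N G i) ∣ p ^ (n - i) := by
      have h4 : Nat.card (iterCommutator N G i) * p ^ i ∣ p ^ (n - i) * p ^ i := by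
        rw [← pow_add, show n - i + i = n by omega]; exact hup
      exact Nat.dvd_of_mul_dvd_mul_right (pow_pos hp.pos i) h4
    exact Nat.dvd_antisymm h3 hlow


/-- A p-group acts uniserially on a p-group N of order p^n exactly when the iterated commutator chain from N has length n; in that case the chain terms are all the invariant subgroups of N and they are normal in N. -/
theorem result {L : Type*} [Group L] [Finite L] {p : ℕ} [Fact p.Prime] (N G : Subgroup L) (hN : IsPGroup p N) (hG : IsPGroup p G) (hGN : G ≤ Subgroup.normalizer (N : Set L)) (n : ℕ) (hn : Nat.card N = p ^ n) : ((∀ H : Subgroup L, H ≤ N → G ≤ Subgroup.normalizer (H : Set L) → H ≠ ⊥ → (⁅H, G⁆).relIndex H = p) ↔ Cfsg.iterCommutator N G (n - 1) ≠ ⊥ ∨ n = 0) ∧ ((∀ H : Subgroup L, H ≤ N → G ≤ Subgroup.normalizer (H : Set L) → H ≠ ⊥ → (⁅H, G⁆).relIndex H = p) → ∀ H : Subgroup L, H ≤ N → G ≤ Subgroup.normalizer (H : Set L) → (∃ i ≤ n, H = Cfsg.iterCommutator N G i) ∧ N ≤ Subgroup.normalizer (H : Set L)) := by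
  have hp : p.Prime := Fact.out
  have main : (∀ i ≤ n, Nat.card (iterCommutator N G i) = p ^ (n - i)) →
      ∀ H : Subgroup L, H ≤ N → G ≤ Subgroup.normalizer (H : Set L) →
        (∃ i ≤ n, H = iterCommutator N G i) ∧ N ≤ Subgroup.normalizer (H : Set L) := by
    intro hCP H hH hGH
    obtain ⟨k, hk, hHk⟩ := classify hp N G hGN hCP n 0 (by omega) H hH hGH
    refine ⟨⟨k, hk, hHk⟩, ?_⟩
    rcases Nat.eq_zero_or_pos k with h0 | h0
    · rw [hHk, h0]; exact Subgroup.le_normalizer
    · have hR := classify hp N G hGN hCP (n - 1) 1 (by omega)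
      have hK : H ≤ iterCommutator N G (0+1) := by
        rw [hHk]; exact ic_anti N G hGN (by omega)
      exact norm_desc hp N G hGN hCP 0 hR H hK hGH n 0 (by omega) le_rfl
  have unis_of_cp : (∀ i ≤ n, Nat.card (iterCommutator N G i) = p ^ (n - i)) →
      ∀ H : Subgroup L, H ≤ N → G ≤ Subgroup.normalizer (H : Set L) → H ≠ ⊥ →
        (⁅H, G⁆).relIndex H = p := by
    intro hCP H hH hGH hne
    obtain ⟨⟨k, hk, hHk⟩, _⟩ := main hCP H hH hGH
    have hkn : k < n := by
      rcases Nat.lt_or_ge k n with h | h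
      · exact h
      · exfalso; apply hne
        have hkn' : k = n := by omega
        rw [hHk, hkn']; exact cp_bot N G hCP
    rw [hHk]
    exact cp_relIndex hp N G hGN hCP k hkn
  have zero_case : n = 0 → ∀ H : Subgroup L, H ≤ N → G ≤ Subgroup.normalizer (H : Set L) →
      H ≠ ⊥ → (⁅H, G⁆).relIndex H = p := by
    intro h0 H hH _ hHne
    exfalso; apply hHne
    have hNbot : N = ⊥ := Subgroup.card_eq_one.mp (by rw [hn, h0, pow_zero])
    rw [hNbot] at hH; exact le_bot_iff.mp hH
  refine ⟨⟨?_, ?_⟩, ?_⟩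
  · intro hU
    have hCP := cp_of_unis hp N G hGN hn hU
    rcases Nat.eq_zero_or_pos n with h0 | h0
    · right; exact h0
    · left
      intro hbot
      have h1 := hCP (n - 1) (by omega)
      rw [hbot, Subgroup.card_bot, show n - (n - 1) = 1 by omega, pow_one] at h1
      have := hp.one_lt; omega
  · rintro (hne | h0)
    · rcases Nat.eq_zero_or_pos n with h0 | h0
      · exact zero_case h0
      · exact unis_of_cp (cp_of_ne_bot N G hN hG hGN hn h0 hne)
    · exact zero_case h0
  · intro hU
    exact main (cp_of_unis hp N G hGN hn hU)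

end Cfsg.Agent.S0663
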