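import Cfsg.Statements.S0694
import Mathlib
import Cfsg.Agent.S2904

set_option autoImplicit false
open Cfsg

namespace Cfsg.Agent.S0694

theorem geom_dvd (s : ℕ) (Q : ℤ) (h : (s : ℤ) ∣ Q - 1) :
    (s : ℤ) ∣ ∑ j ∈ Finset.range s, Q ^ j := by
  have := dvd_geom_sum₂_self (x := Q) (y := 1) (n := s) h
  simpa using this

theorem l2Z (s : ℕ) (hs : 0 < s) (Q : ℤ) (b : ℕ) (hb : 1 ≤ b) (h : (s : ℤ) ^ b ∣ Q - 1) :
    ∀ (a i : ℕ), s ^ a ∣ i → (s : ℤ) ^ (a + b) ∣ Q ^ i - 1 := by
  intro a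
  induction a with
  | zero =>
    intro i _
    rw [zero_add]
    exact h.trans (by simpa using sub_dvd_pow_sub_pow Q 1 i)
  | succ a ih =>
    intro i hi
    obtain ⟨i', rfl⟩ : s ∣ i := (dvd_pow_self s (Nat.succ_ne_zero a)).trans hi
    have hi' : s ^ a ∣ i' := by
      rw [pow_succ'] at hi
      exact Nat.dvd_of_mul_dvd_mul_left hs hi
    have h1 := ih i' hi'
    have h2 : (s:ℤ) ∣ Q ^ i' - 1 := (dvd_pow_self (s:ℤ) (by omega : a + b ≠ 0)).trans h1
    have h3 := geom_dvd s (Q ^ i') h2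
    have h4 : (Q ^ i') ^ s - 1 = (∑ j ∈ Finset.range s, (Q ^ i') ^ j) * (Q ^ i' - 1) :=
      (geom_sum_mul (Q ^ i') s).symm
    have h5 : Q ^ (s * i') - 1 = (Q ^ i') ^ s - 1 := by rw [← pow_mul, mul_comm]
    rw [h5, h4]
    have h6 : (s:ℤ) ^ (a + 1 + b) = s * s ^ (a + b) := by ring
    rw [h6]
    exact mul_dvd_mul h3 h1

theorem l2 (s Q b a i : ℕ) (hs : 0 < s) (hQ : 1 ≤ Q) (hb : 1 ≤ b) (h : s ^ b ∣ Q - 1)
    (hi : s ^ a ∣ i) : s ^ (a + b) ∣ Q ^ i - 1 := by
  have h1 : ((s:ℤ)) ^ b ∣ (Q:ℤ) - 1 := by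
    have := Int.natCast_dvd_natCast.mpr h
    rwa [Nat.cast_pow, Nat.cast_sub hQ, Nat.cast_one] at this
  have h2 := l2Z s hs (Q:ℤ) b hb h1 a i hi
  have h3 : ((s ^ (a + b) : ℕ) : ℤ) ∣ ((Q ^ i - 1 : ℕ) : ℤ) := by
    rw [Nat.cast_pow, Nat.cast_sub (Nat.one_le_pow _ _ hQ), Nat.cast_pow, Nat.cast_one]
    exact h2
  exact Int.natCast_dvd_natCast.mp h3

theorem lteE (s Q i : ℕ) [Fact s.Prime] (hQ : 1 < Q) (hs : s ∣ Q - 1) (h2 : s = 2 → 4 ∣ Q - 1)
    (hi : i ≠ 0) :
    padicValNat s (Q ^ i - 1) = padicValNat s (Q - 1) + padicValNat s i := by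
  have hsp : s.Prime := Fact.out
  have hsQ : ¬ s ∣ Q := by
    intro h
    have : s ∣ 1 := by
      have h3 := Nat.dvd_sub h hs
      rwa [Nat.sub_sub_self (by omega)] at h3
    exact hsp.one_lt.ne' (Nat.dvd_one.mp this)
  rcases hsp.eq_two_or_odd' with h2' | hodd
  · subst h2'
    have h4 := h2 rfl
    have hX0 : Q ^ i - 1 ≠ 0 := by
      have : 1 < Q ^ i := Nat.one_lt_pow hi hQ
      omega
    have hQ0 : Q - 1 ≠ 0 := by omega
    rw [← Nat.cast_inj (R := ℕ∞), Nat.cast_add, padicValNat_eq_emultiplicity hX0,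
      padicValNat_eq_emultiplicity hQ0, padicValNat_eq_emultiplicity hi]
    have e1 : ((Q ^ i - 1 : ℕ) : ℤ) = (Q:ℤ) ^ i - 1 ^ i := by
      rw [Nat.cast_sub (Nat.one_le_pow _ _ (by omega)), one_pow]; push_cast; rfl
    have e2 : ((Q - 1 : ℕ) : ℤ) = (Q:ℤ) - 1 := by rw [Nat.cast_sub (by omega)]; rfl
    rw [← Int.natCast_emultiplicity 2 (Q ^ i - 1), ← Int.natCast_emultiplicity 2 (Q - 1),
      ← Int.natCast_emultiplicity 2 i, e1, e2]
    exact Int.two_pow_sub_pow' i (by rw [← e2]; exact_mod_cast h4)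
      (by intro h; exact hsQ (by exact_mod_cast h))
  · have := padicValNat.pow_sub_pow hodd (x := Q) (y := 1) hQ hs hsQ hi
    rwa [one_pow] at this

theorem assemble (n q X : ℕ) (hn : 0 < n) (hq : 2 ≤ q) (hX : q - 1 ∣ X)
    (h : ∀ s : ℕ, s.Prime → s ∣ n → s ^ (padicValNat s n + padicValNat s (q - 1)) ∣ X) :
    n * (q - 1) ∣ X := by
  rw [Nat.dvd_iff_prime_pow_dvd_dvd]
  intro s k hs hk
  haveI := Fact.mk hs
  have hN0 : n * (q - 1) ≠ 0 := mul_ne_zero hn.ne' (by omega)
  have hk' : k ≤ padicValNat s n + padicValNat s (q - 1) := by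
    rw [← padicValNat.mul hn.ne' (by omega)]
    exact (padicValNat_dvd_iff_le hN0).mp hk
  by_cases hsn : s ∣ n
  · exact (pow_dvd_pow s hk').trans (h s hs hsn)
  · rw [padicValNat.eq_zero_of_not_dvd hsn, zero_add] at hk'
    exact ((pow_dvd_pow s hk').trans pow_padicValNat_dvd).trans hX


/-- The Dickson pair condition: for a prime power `q` and `n > 1`, (every prime factor of `n` divides `q - 1`, and `4 ∣ n → 4 ∣ q - 1`) holds exactly when `q ^ n ≡ 1` modulo `n * (q - 1)` but `q ^ i` is not, for `0 < i < n`. -/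
theorem result (q n : ℕ) (hq : IsPrimePow q) (hn : 1 < n) : ((∀ r : ℕ, r.Prime → r ∣ n → r ∣ q - 1) ∧ (4 ∣ n → 4 ∣ q - 1)) ↔ (q ^ n ≡ 1 [MOD n * (q - 1)] ∧ ∀ i : ℕ, 0 < i → i < n → ¬ q ^ i ≡ 1 [MOD n * (q - 1)]) := by
  have hq2 : 2 ≤ q := hq.two_le
  have hn0 : 0 < n := by omega
  have hmod : ∀ i, q ^ i ≡ 1 [MOD n * (q - 1)] ↔ n * (q - 1) ∣ q ^ i - 1 := by
    intro i
    rw [Nat.ModEq.comm]
    exact Nat.modEq_iff_dvd' (Nat.one_le_pow _ _ (by omega))
  simp only [hmod]
  have hbase : ∀ i, q - 1 ∣ q ^ i - 1 := fun i => Nat.sub_one_dvd_pow_sub_one q i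
  constructor
  · rintro ⟨H1, H2⟩
    constructor
    · apply assemble n q _ hn0 hq2 (hbase n)
      intro s hs hsn
      haveI := Fact.mk hs
      have hb : 1 ≤ padicValNat s (q - 1) :=
        one_le_padicValNat_of_dvd (by omega) (H1 s hs hsn)
      exact l2 s q _ _ n hs.pos (by omega) hb pow_padicValNat_dvd pow_padicValNat_dvd
    · intro i hi hin hdvd
      have hni : n ∣ i := by
        rw [Nat.dvd_iff_prime_pow_dvd_dvd]
        intro s k hs hk
        haveI := Fact.mk hs
        rcases Nat.eq_zero_or_pos k with rfl | hkpos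
        · simp
        have hsn : s ∣ n := (dvd_pow_self s hkpos.ne').trans hk
        have hsq : s ∣ q - 1 := H1 s hs hsn
        have hka : k ≤ padicValNat s n := (padicValNat_dvd_iff_le hn0.ne').mp hk
        have hsab : s ^ (padicValNat s n + padicValNat s (q - 1)) ∣ q ^ i - 1 := by
          refine Dvd.dvd.trans ?_ hdvd
          rw [pow_add]
          exact mul_dvd_mul pow_padicValNat_dvd pow_padicValNat_dvd
        have hX0 : q ^ i - 1 ≠ 0 := by
          have : 1 < q ^ i := Nat.one_lt_pow hi.ne' (by omega)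
          omega
        have hle := (padicValNat_dvd_iff_le hX0).mp hsab
        by_cases hcase : s = 2 ∧ ¬ 4 ∣ q - 1
        · obtain ⟨rfl, h4⟩ := hcase
          have h4n : ¬ 4 ∣ n := fun h => h4 (H2 h)
          have hk1 : k = 1 := by
            by_contra hk1
            have h22 : 2 ^ 2 ∣ 2 ^ k := pow_dvd_pow 2 (by omega)
            exact h4n ((by norm_num : (4:ℕ) = 2 ^ 2) ▸ h22.trans hk)
          subst hk1
          rw [pow_one]
          by_contra hodd
          have h4i : 4 ∣ q ^ i - 1 := by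
            have h1 : 1 ≤ padicValNat 2 n := one_le_padicValNat_of_dvd hn0.ne' hsn
            have h2 : 1 ≤ padicValNat 2 (q - 1) := one_le_padicValNat_of_dvd (by omega) hsq
            have h22 : 2 ^ 2 ∣ 2 ^ (padicValNat 2 n + padicValNat 2 (q - 1)) :=
              pow_dvd_pow 2 (by omega)
            exact (by norm_num : (4:ℕ) = 2 ^ 2) ▸ h22.trans hsab
          have hq4 : q % 4 = 3 := by omega
          obtain ⟨j, rfl⟩ : ∃ j, i = 2 * j + 1 := ⟨i / 2, by omega⟩
          have h3 : q ^ (2 * j + 1) % 4 = 3 := by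
            rw [Nat.pow_mod, hq4, pow_succ, pow_mul]
            norm_num [Nat.mul_mod, Nat.pow_mod]
          have h1 : 1 ≤ q ^ (2 * j + 1) := Nat.one_le_pow _ _ (by omega)
          omega
        · have hE := lteE s q i (by omega) hsq (fun h2 => by
            by_contra h4; exact hcase ⟨h2, h4⟩) hi.ne'
          rw [hE] at hle
          have : k ≤ padicValNat s i := by omega
          exact (padicValNat_dvd_iff_le hi.ne').mpr this
      exact absurd (Nat.le_of_dvd hi hni) (by omega)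
  · rintro ⟨R1, R2⟩
    have H1 : ∀ r : ℕ, r.Prime → r ∣ n → r ∣ q - 1 := by
      classical
      by_contra hcon
      push_neg at hcon
      obtain ⟨r0, hr0, hr0n, hr0q⟩ := hcon
      obtain ⟨P, hP⟩ : ∃ P : ℕ → Prop, P = fun r => r.Prime ∧ r ∣ n ∧ ¬ r ∣ q - 1 := ⟨_, rfl⟩
      have hP0 : P r0 := by rw [hP]; exact ⟨hr0, hr0n, hr0q⟩
      have hr0le : r0 ≤ n := Nat.le_of_dvd hn0 hr0n
      obtain ⟨r, hr⟩ : ∃ r, r = Nat.findGreatest P n := ⟨_, rfl⟩
      have hPr : P r := by rw [hr]; exact Nat.findGreatest_spec hr0le hP0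
      have hmax : ∀ s, s.Prime → s ∣ n → ¬ s ∣ q - 1 → s ≤ r := by
        intro s hs1 hs2 hs3
        rw [hr]
        exact Nat.le_findGreatest (Nat.le_of_dvd hn0 hs2) (by rw [hP]; exact ⟨hs1, hs2, hs3⟩)
      rw [hP] at hPr
      obtain ⟨hrp, hrn, hrq⟩ := hPr
      obtain ⟨m, hm⟩ := hrn
      have hm0 : 0 < m := by
        rcases Nat.eq_zero_or_pos m with h | h
        · rw [h, mul_zero] at hm; omega
        · exact h
      have hmn : m < n := by rw [hm]; exact lt_mul_of_one_lt_left hm0 hrp.one_lt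
      apply R2 m hm0 hmn
      apply assemble n q _ hn0 hq2 (hbase m)
      intro s hs hsn
      haveI := Fact.mk hs
      obtain ⟨a, ha⟩ : ∃ a, a = padicValNat s n := ⟨_, rfl⟩
      obtain ⟨b, hb⟩ : ∃ b, b = padicValNat s (q - 1) := ⟨_, rfl⟩
      rw [← ha, ← hb]
      have hsa : s ^ a ∣ r * m := by rw [ha, ← hm]; exact pow_padicValNat_dvd
      have hsb : s ^ b ∣ q - 1 := by rw [hb]; exact pow_padicValNat_dvd
      have ha1 : 1 ≤ a := by rw [ha]; exact one_le_padicValNat_of_dvd hn0.ne' hsn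
      by_cases hsq : s ∣ q - 1
      · have hb1 : 1 ≤ b := by rw [hb]; exact one_le_padicValNat_of_dvd (by omega) hsq
        have hsr : s ≠ r := fun h => hrq (h ▸ hsq)
        have hcop : Nat.Coprime (s ^ a) r :=
          Nat.Coprime.pow_left a ((Nat.coprime_primes hs hrp).mpr hsr)
        have hsam : s ^ a ∣ m := hcop.dvd_of_dvd_mul_left hsa
        exact l2 s q b a m hs.pos (by omega) hb1 hsb hsam
      · have hb0 : b = 0 := by rw [hb]; exact padicValNat.eq_zero_of_not_dvd hsq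
        rw [hb0, add_zero]
        have hsr : s ≤ r := hmax s hs hsn hsq
        have hsN : s ∣ q ^ n - 1 := (hsn.trans (dvd_mul_right n (q - 1))).trans R1
        have hqs : (q : ZMod s) ^ n = 1 :=
          Cfsg.Agent.S2904.pow_eq_one_of_dvd q s n (by omega) hsN
        have hq0 : (q : ZMod s) ≠ 0 := by
          intro h0
          rw [h0, zero_pow hn0.ne'] at hqs
          exact zero_ne_one hqs
        obtain ⟨d, hd⟩ : ∃ d, d = orderOf (q : ZMod s) := ⟨_, rfl⟩
        have hdn : d ∣ n := by rw [hd]; exact orderOf_dvd_of_pow_eq_one hqs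
        have hds : d ∣ s - 1 := by
          rw [hd]; exact orderOf_dvd_of_pow_eq_one (ZMod.pow_card_sub_one_eq_one hq0)
        have hd0 : 0 < d := Nat.pos_of_dvd_of_pos hdn hn0
        have hs2 := hs.two_le
        have hdlt : d < s := by
          have := Nat.le_of_dvd (by omega) hds
          omega
        have hdr : Nat.Coprime d r := by
          rw [Nat.coprime_comm, Nat.Prime.coprime_iff_not_dvd hrp]
          intro h
          have := Nat.le_of_dvd hd0 h
          omega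
        have hdm : d ∣ m := hdr.dvd_of_dvd_mul_left (hm ▸ hdn)
        have hsam : s ^ (a - 1) ∣ m := by
          by_cases hsr' : s = r
          · subst hsr'
            have h1 : s * s ^ (a - 1) ∣ s * m := by
              rw [← pow_succ']
              have h2 : a - 1 + 1 = a := by omega
              rw [h2]; exact hsa
            exact Nat.dvd_of_mul_dvd_mul_left hs.pos h1
          · have hcop : Nat.Coprime (s ^ a) r :=
              Nat.Coprime.pow_left a ((Nat.coprime_primes hs hrp).mpr hsr')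
            exact (pow_dvd_pow s (Nat.sub_le a 1)).trans (hcop.dvd_of_dvd_mul_left hsa)
        have hds' : Nat.Coprime d (s ^ (a - 1)) := by
          apply Nat.Coprime.pow_right
          rw [Nat.coprime_comm, Nat.Prime.coprime_iff_not_dvd hs]
          intro h
          have := Nat.le_of_dvd hd0 h
          omega
        have hprod : d * s ^ (a - 1) ∣ m := hds'.mul_dvd_of_dvd_of_dvd hdm hsam
        have hsd : s ^ 1 ∣ q ^ d - 1 := by
          rw [pow_one]
          apply Cfsg.Agent.S2904.dvd_of_pow_eq_one q s d (by omega)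
          rw [hd]; exact pow_orderOf_eq_one _
        have h1 := l2 s (q ^ d) 1 (a - 1) (s ^ (a - 1)) hs.pos (Nat.one_le_pow _ _ (by omega))
          le_rfl hsd dvd_rfl
        have h2 : a - 1 + 1 = a := by omega
        rw [h2, ← pow_mul] at h1
        have h3 : q ^ (d * s ^ (a - 1)) - 1 ∣ q ^ m - 1 := by
          simpa using Nat.pow_sub_pow_dvd_pow_sub_pow q 1 hprod
        exact h1.trans h3
    refine ⟨H1, ?_⟩
    intro h4n
    by_contra h4q
    obtain ⟨m', hm'⟩ := h4n
    have hm'0 : 0 < m' := by omega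
    apply R2 (2 * m') (by omega) (by omega)
    apply assemble n q _ hn0 hq2 (hbase (2 * m'))
    intro s hs hsn
    haveI := Fact.mk hs
    obtain ⟨a, ha⟩ : ∃ a, a = padicValNat s n := ⟨_, rfl⟩
    obtain ⟨b, hb⟩ : ∃ b, b = padicValNat s (q - 1) := ⟨_, rfl⟩
    rw [← ha, ← hb]
    have hsa : s ^ a ∣ 4 * m' := by rw [ha, ← hm']; exact pow_padicValNat_dvd
    have hsb : s ^ b ∣ q - 1 := by rw [hb]; exact pow_padicValNat_dvd
    have hsq : s ∣ q - 1 := H1 s hs hsn
    have hb1 : 1 ≤ b := by rw [hb]; exact one_le_padicValNat_of_dvd (by omega) hsq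
    rcases hs.eq_two_or_odd' with h2' | hodd
    · subst h2'
      have hb2 : b < 2 := by
        by_contra hge
        have h22 : 2 ^ 2 ∣ 2 ^ b := pow_dvd_pow 2 (by omega)
        exact h4q ((by norm_num : (4:ℕ) = 2 ^ 2) ▸ h22.trans hsb)
      have hbe : b = 1 := by omega
      have ha2 : 2 ≤ a := by
        rw [ha]
        apply (padicValNat_dvd_iff_le hn0.ne').mp
        rw [hm']; exact Dvd.intro _ rfl
      have hqodd : Odd q := by
        rw [Nat.odd_iff]; omega
      have h8 : 2 ^ 3 ∣ q ^ 2 - 1 := by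
        have := Nat.eight_dvd_sq_sub_one_of_odd hqodd
        exact (by norm_num : (8:ℕ) = 2 ^ 3) ▸ this
      have ham : 2 ^ (a - 2) ∣ m' := by
        have h1 : 2 ^ 2 * 2 ^ (a - 2) ∣ 2 ^ 2 * m' := by
          rw [← pow_add]
          have h2 : 2 + (a - 2) = a := by omega
          rw [h2]; exact (by norm_num : (4:ℕ) = 2 ^ 2) ▸ hsa
        exact Nat.dvd_of_mul_dvd_mul_left (by norm_num) h1
      have h1 := l2 2 (q ^ 2) 3 (a - 2) m' (by norm_num) (Nat.one_le_pow _ _ (by omega))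
        (by norm_num) h8 ham
      rw [← pow_mul] at h1
      have h2 : a + b ≤ a - 2 + 3 := by omega
      exact (pow_dvd_pow 2 h2).trans h1
    · have hcop : Nat.Coprime (s ^ a) (2 ^ 2) := by
        apply Nat.Coprime.pow
        exact (Nat.coprime_primes hs Nat.prime_two).mpr (by
          rintro rfl; exact absurd hodd (by decide))
      have hsa' : s ^ a ∣ 2 ^ 2 * m' := (by norm_num : (4:ℕ) = 2 ^ 2) ▸ hsa
      have hsam : s ^ a ∣ 2 * m' := (hcop.dvd_of_dvd_mul_left hsa').trans (Dvd.intro_left 2 rfl)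
      exact l2 s q b a (2 * m') hs.pos (by omega) hb1 hsb hsam

end Cfsg.Agent.S0694
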