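import Cfsg.Statements.S0721
import Cfsg.Agent.Helper29.DirectPower

set_option autoImplicit false
open Cfsg

namespace Cfsg.Agent.S0721

/-- A minimal normal subgroup of a finite group is isomorphic to a direct power `T ^ m` of a simple group `T` (possibly of prime order). -/
theorem result {H : Type*} [Group H] [Finite H] (N : Subgroup H) [N.Normal] (hN : N ≠ ⊥) (hmin : ∀ M : Subgroup H, M.Normal → M ≤ N → M = ⊥ ∨ M = N) : ∃ (T : Type) (_ : Group T) (m : ℕ), IsSimpleGroup T ∧ 0 < m ∧ Nonempty (N ≃* (Fin m → T)) := by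
  have : Nontrivial N := (Subgroup.nontrivial_iff_ne_bot N).mpr hN
  refine Cfsg.Agent.Helper29.direct_power (MulAut.conjNormal (H := N)).range ?_
  intro M hMn hMinv
  have hnorm : (M.map N.subtype).Normal := by
    refine ⟨fun x hx g => ?_⟩
    obtain ⟨y, hy, rfl⟩ := hx
    exact ⟨MulAut.conjNormal g y, hMinv _ ⟨g, rfl⟩ y hy, MulAut.conjNormal_apply g y⟩
  rcases hmin (M.map N.subtype) hnorm (Subgroup.map_subtype_le M) with h | h
  · left
    exact (Subgroup.map_eq_bot_iff_of_injective M N.subtype_injective).mp h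
  · right
    rw [eq_top_iff]
    intro n _
    have hn : (n : H) ∈ M.map N.subtype := by rw [h]; exact n.2
    obtain ⟨y, hy, hyn⟩ := hn
    have h2 : y = n := Subtype.ext hyn
    rw [← h2]; exact hy

end Cfsg.Agent.S0721
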