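import Cfsg.Statements.S0750
import Mathlib
-- import your own Cfsg.Agent.* helpers here

set_option autoImplicit false
open Cfsg

namespace Cfsg.Agent.S0750

section
variable {F V : Type*} [Field F] [AddCommGroup V] [Module F V]

theorem riesz [Finite F] [FiniteDimensional F V]
    (P : V →ₗ[F] V →ₗ[F] F) (hP : ∀ x, (∀ y, P x y = 0) → x = 0) (μ : V →ₗ[F] F) :
    ∃ w, ∀ v, P w v = μ v := by
  classical
  have : Finite V := Module.finite_of_finite F
  have hinj : Function.Injective (fun w : V => P w) := by
    intro w w' h
    have h1 : P (w - w') = 0 := by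
      rw [map_sub]
      exact sub_eq_zero.mpr h
    have h2 := hP (w - w') (fun y => by rw [h1]; rfl)
    exact sub_eq_zero.mp h2
  have : Finite (V →ₗ[F] F) :=
    Finite.of_equiv V (Module.Free.chooseBasis F V).toDualEquiv.toEquiv
  have hcard : Nat.card (V →ₗ[F] F) ≤ Nat.card V :=
    le_of_eq (Nat.card_congr (Module.Free.chooseBasis F V).toDualEquiv.toEquiv).symm
  have hbij := Function.Injective.bijective_of_nat_card_le hinj hcard
  obtain ⟨w, hw⟩ := hbij.2 μ
  exact ⟨w, fun v => by rw [← hw]⟩

theorem stepA [Finite F] [FiniteDimensional F V] (Q : QuadraticForm F V)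
    (hQ : (QuadraticMap.polarBilin Q).Nondegenerate)
    (X : Submodule F V) (f : X →ₗ[F] V) (hinj : Function.Injective f)
    (hf : ∀ x : X, Q (f x) = Q (x : V))
    (x0 : X) (hdec : ∀ y : X, ∃ a : F, f (y - a • x0) = ((y - a • x0 : X) : V)) :
    ∃ g : V ≃ₗ[F] V, (∀ v : V, Q (g v) = Q v) ∧ ∀ x : X, g (x : V) = f x := by
  classical
  set P : V →ₗ[F] V →ₗ[F] F := QuadraticMap.polarBilin Q with hPdef
  have hQadd : ∀ x y, Q (x + y) = Q x + Q y + P x y := fun x y => QuadraticMap.map_add Q x y
  have hQsmul : ∀ (a : F) x, Q (a • x) = a * a * Q x := fun a x => by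
    rw [QuadraticMap.map_smul, smul_eq_mul]
  have hsym : ∀ x y, P x y = P y x := fun x y => QuadraticMap.polar_comm Q x y
  have hPself : ∀ x, P x x = 2 * Q x := fun x => by
    have := QuadraticMap.polar_self Q x
    rw [hPdef, QuadraticMap.polarBilin_apply_apply, this]
    simp
  have hsepL : ∀ x, (∀ y, P x y = 0) → x = 0 := hQ.1
  have hfP : ∀ x x' : X, P (f x) (f x') = P (x : V) (x' : V) := by
    intro x x'
    have e1 := hQadd (f x) (f x')
    have e2 := hQadd (x : V) (x' : V)
    rw [← map_add, hf, hf, hf] at e1
    rw [Submodule.coe_add] at e1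
    linear_combination e2 - e1
  set u : V := f x0 - x0 with hu
  have hF1 : ∀ y : X, ∃ a : F, f y = (y : V) + a • u ∧ P u ((y : V) - a • (x0 : V)) = 0 := by
    intro y
    obtain ⟨a, ha⟩ := hdec y
    refine ⟨a, ?_, ?_⟩
    · have h1 : f y = f (y - a • x0) + a • f x0 := by
        rw [← map_smul, ← map_add]
        congr 1
        abel
      rw [h1, ha, hu]
      simp only [Submodule.coe_sub, Submodule.coe_smul]
      module
    · have h2 : ((y : V) - a • (x0 : V)) = ((y - a • x0 : X) : V) := by simp
      rw [h2]
      have e1 : P (f x0) ((y - a • x0 : X) : V) = P (x0 : V) ((y - a • x0 : X) : V) := by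
        nth_rewrite 1 [← ha]
        exact hfP _ _
      rw [hu, LinearMap.map_sub₂, e1, sub_self]
  have hF2 : Q u + P u x0 = 0 := by
    have e1 := hQadd (x0 : V) u
    have e2 : (x0 : V) + u = f x0 := by rw [hu]; abel
    rw [e2, hf, hsym] at e1
    linear_combination -e1
  have hPG : ∀ G : V →ₗ[F] V, (∀ v, Q (G v) = Q v) → ∀ v w, P (G v) (G w) = P v w := by
    intro G hG v w
    have e1 := hQadd (G v) (G w)
    have e2 := hQadd v w
    rw [← map_add, hG, hG, hG] at e1
    linear_combination e2 - e1
  have hinj_of : ∀ G : V →ₗ[F] V, (∀ v, Q (G v) = Q v) → Function.Injective G := by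
    intro G hG
    rw [← LinearMap.ker_eq_bot, Submodule.eq_bot_iff]
    intro v hv
    rw [LinearMap.mem_ker] at hv
    apply hsepL v
    intro w
    rw [← hPG G hG v w, hv, map_zero, LinearMap.zero_apply]
  by_cases hu0 : u = 0
  · refine ⟨LinearEquiv.refl F V, fun _ => rfl, fun y => ?_⟩
    obtain ⟨a, ha, _⟩ := hF1 y
    rw [ha, hu0, smul_zero, add_zero]
    rfl
  by_cases hβ : P u x0 = 0
  · -- case 2
    have hQu : Q u = 0 := by
      rw [hβ, add_zero] at hF2
      exact hF2
    have huu : P u u = 0 := by rw [hPself, hQu, mul_zero]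
    have huX : ∀ y : X, P u (y : V) = 0 := by
      intro y
      obtain ⟨a, _, ha⟩ := hF1 y
      rw [map_sub, map_smul, hβ, smul_zero, sub_zero] at ha
      exact ha
    obtain ⟨t, ht⟩ : ∃ t, P t u ≠ 0 := by
      by_contra hcon
      push Not at hcon
      exact hu0 (hsepL u (fun y => by rw [hsym]; exact hcon y))
    set lamX : X →ₗ[F] F := ((P t u)⁻¹ • P t).comp (f - X.subtype) with hlamX
    have hlamX' : ∀ y : X, f y = (y : V) + lamX y • u := by
      intro y
      obtain ⟨a, ha, _⟩ := hF1 y
      have : lamX y = a := by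
        rw [hlamX]
        simp only [LinearMap.comp_apply, LinearMap.sub_apply, Submodule.subtype_apply,
          LinearMap.smul_apply, smul_eq_mul]
        rw [ha, add_sub_cancel_left, map_smul, smul_eq_mul]
        field_simp
      rw [this, ha]
    obtain ⟨lam0, hlam0⟩ := LinearMap.exists_extend lamX
    have hlam0' : ∀ y : X, lam0 (y : V) = lamX y := fun y => by
      rw [← hlam0]; rfl
    obtain ⟨lam, hlam, hlamu⟩ : ∃ lam : V →ₗ[F] F, (∀ y : X, lam (y : V) = lamX y) ∧
        1 + lam u ≠ 0 := by
      by_cases h1 : 1 + lam0 u = 0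
      · have huX' : u ∉ X := by
          intro huX'
          have h2 := hlamX' ⟨u, huX'⟩
          rw [← hlam0' ⟨u, huX'⟩] at h2
          have h3 : f ⟨u, huX'⟩ = 0 := by
            rw [h2]
            show u + lam0 u • u = 0
            have : lam0 u = -1 := by linear_combination h1
            rw [this]
            simp
          have h4 : (⟨u, huX'⟩ : X) = 0 := hinj (by rw [h3, map_zero])
          exact hu0 (congrArg Subtype.val h4)
        obtain ⟨ρ, hρu, hρX⟩ := Submodule.exists_dual_map_eq_bot_of_notMem huX' inferInstance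
        refine ⟨lam0 + ρ, fun y => ?_, ?_⟩
        · rw [LinearMap.add_apply, hlam0']
          have : ρ (y : V) ∈ X.map ρ := Submodule.mem_map_of_mem y.2
          rw [hρX, Submodule.mem_bot] at this
          rw [this, add_zero]
        · rw [LinearMap.add_apply]
          intro h
          apply hρu
          linear_combination h - h1
      · exact ⟨lam0, hlam0', h1⟩
    obtain ⟨z, hz⟩ : ∃ z, P u z ≠ 0 := by
      by_contra hcon
      push Not at hcon
      exact hu0 (hsepL u hcon)
    obtain ⟨w0, hw0⟩ := riesz P hsepL lam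
    have hzu : P z u ≠ 0 := by rw [hsym]; exact hz
    set η : F := P z u / (1 + lam u) with hη
    have hη0 : η ≠ 0 := div_ne_zero hzu hlamu
    set w : V := (-η) • w0 with hw
    have hwv : ∀ v, P w v = -η * lam v := by
      intro v
      rw [hw, map_smul, LinearMap.smul_apply, hw0, smul_eq_mul]
    set z1 : V := z + w with hz1
    have hz1u : P z1 u = η := by
      rw [hz1, map_add, LinearMap.add_apply, hwv, hη]
      field_simp
      ring
    set c : F := (Q z - Q z1) / η with hc
    set z' : V := z1 + c • u with hz'
    have hP2 : Q z' = Q z := by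
      rw [hz', hQadd, hQsmul, hQu, map_smul, smul_eq_mul, hz1u, hc]
      field_simp
      ring
    have hP1 : ∀ m, P u m = 0 → P z' (m + lam m • u) = P z m := by
      intro m hm
      simp only [hz', hz1, map_add, LinearMap.add_apply, map_smul,
        LinearMap.smul_apply, smul_eq_mul]
      rw [hwv, hwv, huu, hm, hη]
      field_simp
      ring
    set aF : V →ₗ[F] F := (P u z)⁻¹ • P u with haF
    set G : V →ₗ[F] V := LinearMap.id + (lam - (lam z) • aF).smulRight u
      + aF.smulRight (z' - z) with hG
    have hG1 : ∀ m, P u m = 0 → G m = m + lam m • u := by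
      intro m hm
      simp [hG, haF, hm]
    have hG2 : G z = z' := by
      have : aF z = 1 := by
        simp [haF, hz]
      simp [hG, this]
    have hkey : ∀ (m : V), P u m = 0 → ∀ a : F,
        Q (G (m + a • z)) = Q (m + a • z) := by
      intro m hm a
      have hmu : P m u = 0 := by rw [hsym, hm]
      have I2 : P (m + lam m • u) z' = P z m := by rw [hsym]; exact hP1 m hm
      have eG : G (m + a • z) = (m + lam m • u) + a • z' := by
        rw [map_add, map_smul, hG1 m hm, hG2]
      have e3 : P (m + lam m • u) (a • z') = a * P z m := by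
        rw [map_smul, smul_eq_mul, I2]
      have e4 : P m (lam m • u) = 0 := by rw [map_smul, hmu, smul_zero]
      have e5 : Q (m + a • z) = Q m + a * a * Q z + a * P z m := by
        rw [hQadd, hQsmul, map_smul, smul_eq_mul, hsym m z]
      rw [eG, hQadd (m + lam m • u) (a • z'), hQadd m (lam m • u), hQsmul, hQsmul, hQu, hP2,
        e3, e4, e5]
      ring
    have hGiso : ∀ v, Q (G v) = Q v := by
      intro v
      have h1 := hkey (v - aF v • z) (by
        rw [map_sub, map_smul, haF]
        simp only [LinearMap.smul_apply, smul_eq_mul]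
        field_simp
        ring) (aF v)
      simpa using h1
    refine ⟨LinearEquiv.ofInjectiveEndo G (hinj_of G hGiso), ?_, ?_⟩
    · intro v
      rw [LinearEquiv.coe_ofInjectiveEndo]
      exact hGiso v
    · intro y
      rw [LinearEquiv.coe_ofInjectiveEndo, hG1 _ (huX y), hlam, hlamX']
  · -- case 1
    set β : F := P u x0 with hβdef
    set G : V →ₗ[F] V := LinearMap.id + (β⁻¹ • P u).smulRight u with hG
    have hGv : ∀ v, G v = v + (β⁻¹ * P u v) • u := by
      intro v
      simp [hG]
    have hGiso : ∀ v, Q (G v) = Q v := by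
      intro v
      rw [hGv, hQadd, hQsmul, map_smul, smul_eq_mul, hsym v u]
      have : Q u = -β := by linear_combination hF2
      rw [this]
      field_simp
      ring
    refine ⟨LinearEquiv.ofInjectiveEndo G (hinj_of G hGiso), ?_, ?_⟩
    · intro v
      rw [LinearEquiv.coe_ofInjectiveEndo]
      exact hGiso v
    · intro y
      obtain ⟨a, ha, ha'⟩ := hF1 y
      rw [LinearEquiv.coe_ofInjectiveEndo, hGv, ha]
      congr 2
      rw [map_sub, map_smul, smul_eq_mul] at ha'
      have : P u (y : V) = a * β := by linear_combination ha'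
      rw [this]
      field_simp

theorem witt_aux [Finite F] [FiniteDimensional F V] (Q : QuadraticForm F V)
    (hQ : (QuadraticMap.polarBilin Q).Nondegenerate) :
    ∀ (d : ℕ) (X : Submodule F V) (f : X →ₗ[F] V), Module.finrank F X = d →
      Function.Injective f → (∀ x : X, Q (f x) = Q (x : V)) →
      ∃ g : V ≃ₗ[F] V, (∀ v : V, Q (g v) = Q v) ∧ ∀ x : X, g (x : V) = f x := by
  intro d
  induction d with
  | zero =>
    intro X f hd _ _
    refine ⟨LinearEquiv.refl F V, fun _ => rfl, fun x => ?_⟩
    have hX : X = ⊥ := Submodule.finrank_eq_zero.mp hd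
    have hx : x = 0 := by
      apply Subtype.ext
      exact (Submodule.eq_bot_iff X).mp hX (x : V) x.2
    subst hx
    simp
  | succ d ih =>
    intro X f hd hinj hf
    have hX : ∃ x0 : X, x0 ≠ 0 := by
      by_contra h
      push Not at h
      have : Subsingleton X := ⟨fun a b => by rw [h a, h b]⟩
      have : Module.finrank F X = 0 := Module.finrank_zero_of_subsingleton
      omega
    obtain ⟨x0, hx0⟩ := hX
    obtain ⟨H', hH'⟩ := Submodule.exists_isCompl (Submodule.span F {x0} : Submodule F X)
    set H : Submodule F V := H'.map X.subtype with hHdef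
    have hHX : H ≤ X := by
      rw [hHdef]
      exact Submodule.map_subtype_le X H'
    have hfin : Module.finrank F H = d := by
      have h1 := Submodule.finrank_add_eq_of_isCompl hH'
      have h2 : Module.finrank F (Submodule.span F {x0} : Submodule F X) = 1 :=
        finrank_span_singleton hx0
      have h3 : Module.finrank F H = Module.finrank F H' := by
        rw [hHdef]
        exact (Submodule.equivSubtypeMap X H').symm.finrank_eq
      omega
    obtain ⟨g0, hg0, hg0f⟩ := ih H (f.comp (Submodule.inclusion hHX)) hfin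
      (hinj.comp (Submodule.inclusion_injective hHX)) (fun x => hf _)
    have hg0s : ∀ v, Q (g0.symm v) = Q v := by
      intro v
      have := hg0 (g0.symm v)
      simpa using this.symm
    obtain ⟨g', hg', hg'f⟩ := stepA Q hQ X (g0.symm.toLinearMap.comp f)
      (g0.symm.injective.comp hinj) (fun x => by
        show Q (g0.symm (f x)) = _
        rw [hg0s, hf]) x0 (by
        intro y
        have hy : y ∈ (Submodule.span F {x0} ⊔ H' : Submodule F X) := by
          rw [hH'.sup_eq_top]
          trivial
        obtain ⟨s, hs, h, hh, rfl⟩ := Submodule.mem_sup.mp hy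
        obtain ⟨a, rfl⟩ := Submodule.mem_span_singleton.mp hs
        refine ⟨a, ?_⟩
        have e1 : a • x0 + h - a • x0 = h := by abel
        rw [e1]
        show g0.symm (f h) = (h : V)
        have hmem : (h : V) ∈ H := Submodule.mem_map_of_mem hh
        have e2 := hg0f ⟨(h : V), hmem⟩
        rw [LinearEquiv.symm_apply_eq]
        exact e2.symm)
    refine ⟨g'.trans g0, fun v => ?_, fun x => ?_⟩
    · show Q (g0 (g' v)) = Q v
      rw [hg0, hg']
    · show g0 (g' x) = f x
      rw [hg'f]
      show g0 (g0.symm (f x)) = f x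
      simp

theorem main [Finite F] [FiniteDimensional F V] (Q : QuadraticForm F V)
    (hQ : (QuadraticMap.polarBilin Q).Nondegenerate)
    (X Y : Submodule F V) (φ : X ≃ₗ[F] Y)
    (hφ : ∀ x : X, Q (φ x : V) = Q (x : V)) :
    ∃ g : V ≃ₗ[F] V, (∀ v : V, Q (g v) = Q v) ∧ ∀ x : X, g (x : V) = (φ x : V) :=
  witt_aux Q hQ _ X (Y.subtype.comp φ.toLinearMap) rfl
    (Y.subtype_injective.comp φ.injective) hφ

end


/-- Witt's Lemma for quadratic forms over a finite field, in any characteristic: if Q is a quadratic form on a finite-dimensional space V whose polar bilinear form is non-degenerate, then every linear equivalence between subspaces X, Y of V that preserves Q extends to a Q-preserving linear automorphism of V. (In odd characteristic this is the symmetric-bilinear case; in characteristic two it is the statement for non-degenerate quadratic forms.) -/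
theorem result {F V : Type*} [Field F] [Finite F] [AddCommGroup V] [Module F V] [FiniteDimensional F V] (Q : QuadraticForm F V) (hQ : (QuadraticMap.polarBilin Q).Nondegenerate) (X Y : Submodule F V) (φ : X ≃ₗ[F] Y) (hφ : ∀ x : X, Q (φ x : V) = Q (x : V)) : ∃ g : V ≃ₗ[F] V, (∀ v : V, Q (g v) = Q v) ∧ ∀ x : X, g (x : V) = (φ x : V) := by
  exact main Q hQ X Y φ hφ


end Cfsg.Agent.S0750
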