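import Cfsg.Statements.S0751
import Mathlib
-- import your own Cfsg.Agent.* helpers here

set_option autoImplicit false
open Cfsg

namespace Cfsg.Agent.S0751

section
variable {F V : Type*} [Field F] [AddCommGroup V] [Module F V]

theorem riesz [Finite F] [FiniteDimensional F V] (σ : F →+* F)
    (B : V →ₛₗ[σ] V →ₗ[F] F) (hB : B.Nondegenerate) (μ : V →ₗ[F] F) :
    ∃ w, ∀ v, B w v = μ v := by
  classical
  have : Finite V := Module.finite_of_finite F
  have hinj : Function.Injective (fun w : V => B w) := by
    intro w w' h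
    have h1 : B (w - w') = 0 := by
      rw [map_sub]
      exact sub_eq_zero.mpr h
    have h2 := hB.1 (w - w') (fun y => by rw [h1]; rfl)
    exact sub_eq_zero.mp h2
  have : Finite (V →ₗ[F] F) :=
    Finite.of_equiv V (Module.Free.chooseBasis F V).toDualEquiv.toEquiv
  have hcard : Nat.card (V →ₗ[F] F) ≤ Nat.card V :=
    le_of_eq (Nat.card_congr (Module.Free.chooseBasis F V).toDualEquiv.toEquiv).symm
  have hbij := Function.Injective.bijective_of_nat_card_le hinj hcard
  obtain ⟨w, hw⟩ := hbij.2 μ
  exact ⟨w, fun v => by rw [← hw]⟩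

theorem exists_theta (σ : F →+* F) (hσ : σ ≠ RingHom.id F) (hσ2 : ∀ a : F, σ (σ a) = a) :
    ∃ θ : F, θ + σ θ = 1 := by
  have h1 : ∃ t, σ t ≠ t := by
    by_contra hcon
    push Not at hcon
    exact hσ (RingHom.ext hcon)
  obtain ⟨t, ht⟩ := h1
  by_cases hs : t + σ t = 0
  · -- then σ t = -t ≠ t, so 2 ≠ 0 and θ = 1/2
    have h2 : (2 : F) ≠ 0 := by
      intro h2
      apply ht
      have : σ t = -t := by linear_combination hs
      rw [this]
      linear_combination (-t) * h2
    refine ⟨1 / 2, ?_⟩
    rw [map_div₀, map_one, map_ofNat]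
    field_simp
    norm_num
  · refine ⟨t / (t + σ t), ?_⟩
    rw [map_div₀, map_add, hσ2, add_comm (σ t) t, ← add_div, div_self hs]

theorem stepA [Finite F] [FiniteDimensional F V] (σ : F →+* F) (hσ : σ ≠ RingHom.id F)
    (hσ2 : ∀ a : F, σ (σ a) = a) (B : V →ₛₗ[σ] V →ₗ[F] F) (hS : B.IsSymm) (hB : B.Nondegenerate)
    (X : Submodule F V) (f : X →ₗ[F] V) (hinj : Function.Injective f)
    (hf : ∀ x x' : X, B (f x) (f x') = B (x : V) (x' : V))
    (x0 : X) (hdec : ∀ y : X, ∃ a : F, f (y - a • x0) = ((y - a • x0 : X) : V)) :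
    ∃ g : V ≃ₗ[F] V, (∀ u v : V, B (g u) (g v) = B u v) ∧ ∀ x : X, g (x : V) = f x := by
  classical
  have hsym : ∀ x y, σ (B x y) = B y x := fun x y => hS.eq x y
  set u : V := f x0 - x0 with hu
  have hF1 : ∀ y : X, ∃ a : F, f y = (y : V) + a • u ∧ B u ((y : V) - a • (x0 : V)) = 0 := by
    intro y
    obtain ⟨a, ha⟩ := hdec y
    refine ⟨a, ?_, ?_⟩
    · have h1 : f y = f (y - a • x0) + a • f x0 := by
        rw [← map_smul, ← map_add]
        congr 1
        abel
      rw [h1, ha, hu]
      simp only [Submodule.coe_sub, Submodule.coe_smul]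
      module
    · have h2 : ((y : V) - a • (x0 : V)) = ((y - a • x0 : X) : V) := by simp
      rw [h2]
      have e1 : B (f x0) ((y - a • x0 : X) : V) = B (x0 : V) ((y - a • x0 : X) : V) := by
        nth_rewrite 1 [← ha]
        exact hf _ _
      rw [hu, LinearMap.map_sub₂, e1, sub_self]
  have hF2 : B u x0 + σ (B u x0) + B u u = 0 := by
    have e1 := hf x0 x0
    have e2 := hsym (f x0) (x0 : V)
    have e3 := hsym (x0 : V) (x0 : V)
    simp only [hu, map_sub, LinearMap.sub_apply]
    rw [e2, e3, e1]
    ring
  have hinj_of : ∀ G : V →ₗ[F] V, (∀ v w, B (G v) (G w) = B v w) → Function.Injective G := by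
    intro G hG
    rw [← LinearMap.ker_eq_bot, Submodule.eq_bot_iff]
    intro v hv
    rw [LinearMap.mem_ker] at hv
    apply hB.1 v
    intro w
    rw [← hG v w, hv, map_zero, LinearMap.zero_apply]
  by_cases hu0 : u = 0
  · refine ⟨LinearEquiv.refl F V, fun _ _ => rfl, fun y => ?_⟩
    obtain ⟨a, ha, _⟩ := hF1 y
    rw [ha, hu0, smul_zero, add_zero]
    rfl
  by_cases hβ : B u x0 = 0
  · -- case 2
    have huu : B u u = 0 := by
      rw [hβ, map_zero] at hF2
      simpa using hF2
    have huX : ∀ y : X, B u (y : V) = 0 := by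
      intro y
      obtain ⟨a, _, ha⟩ := hF1 y
      rw [map_sub, map_smul, hβ, smul_zero, sub_zero] at ha
      exact ha
    -- a functional with ψ u = 1
    obtain ⟨t, ht⟩ : ∃ t, B t u ≠ 0 := by
      by_contra hcon
      push Not at hcon
      exact hu0 (hB.2 u hcon)
    set lamX : X →ₗ[F] F := ((B t u)⁻¹ • B t).comp (f - X.subtype) with hlamX
    have hlamX' : ∀ y : X, f y = (y : V) + lamX y • u := by
      intro y
      obtain ⟨a, ha, _⟩ := hF1 y
      have : lamX y = a := by
        rw [hlamX]
        simp only [LinearMap.comp_apply, LinearMap.sub_apply, Submodule.subtype_apply,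
          LinearMap.smul_apply, smul_eq_mul]
        rw [ha, add_sub_cancel_left, map_smul, smul_eq_mul]
        field_simp
      rw [this, ha]
    obtain ⟨lam0, hlam0⟩ := LinearMap.exists_extend lamX
    have hlam0' : ∀ y : X, lam0 (y : V) = lamX y := fun y => by
      rw [← hlam0]; rfl
    obtain ⟨lam, hlam, hlamu⟩ : ∃ lam : V →ₗ[F] F, (∀ y : X, lam (y : V) = lamX y) ∧
        1 + lam u ≠ 0 := by
      by_cases h1 : 1 + lam0 u = 0
      · have huX' : u ∉ X := by
          intro huX'
          have h2 := hlamX' ⟨u, huX'⟩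
          rw [← hlam0' ⟨u, huX'⟩] at h2
          have h3 : f ⟨u, huX'⟩ = 0 := by
            rw [h2]
            show u + lam0 u • u = 0
            have : lam0 u = -1 := by linear_combination h1
            rw [this]
            simp
          have h4 : (⟨u, huX'⟩ : X) = 0 := hinj (by rw [h3, map_zero])
          exact hu0 (congrArg Subtype.val h4)
        obtain ⟨ρ, hρu, hρX⟩ := Submodule.exists_dual_map_eq_bot_of_notMem huX' inferInstance
        refine ⟨lam0 + ρ, fun y => ?_, ?_⟩
        · rw [LinearMap.add_apply, hlam0']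
          have : ρ (y : V) ∈ X.map ρ := Submodule.mem_map_of_mem y.2
          rw [hρX, Submodule.mem_bot] at this
          rw [this, add_zero]
        · rw [LinearMap.add_apply]
          intro h
          apply hρu
          linear_combination h - h1
      · exact ⟨lam0, hlam0', h1⟩
    obtain ⟨z, hz⟩ : ∃ z, B u z ≠ 0 := by
      by_contra hcon
      push Not at hcon
      exact hu0 (hB.1 u hcon)
    obtain ⟨w0, hw0⟩ := riesz σ B hB lam
    obtain ⟨θ, hθ⟩ := exists_theta σ hσ hσ2
    have hzu : B z u ≠ 0 := by
      rw [← hsym u z]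
      intro h
      apply hz
      have := congrArg σ h
      rwa [hσ2, map_zero] at this
    set η : F := B z u / (1 + lam u) with hη
    have hη0 : η ≠ 0 := div_ne_zero hzu hlamu
    set w : V := σ (-η) • w0 with hw
    have hwv : ∀ v, B w v = -η * lam v := by
      intro v
      rw [hw, LinearMap.map_smulₛₗ, LinearMap.smul_apply, hσ2, hw0, smul_eq_mul]
    set z1 : V := z + w with hz1
    have hz1u : B z1 u = η := by
      rw [hz1, map_add, LinearMap.add_apply, hwv, hη]
      field_simp
      ring
    set δ : F := B z z - B z1 z1 with hδ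
    have hδσ : σ δ = δ := by
      rw [hδ, map_sub, hsym, hsym]
    set c : F := δ * θ / η with hc
    set z' : V := z1 + c • u with hz'
    have hP2 : B z' z' = B z z := by
      have e1 : B u z1 = σ η := by rw [← hsym z1 u, hz1u]
      have e2 : σ c = δ * σ θ / σ η := by
        rw [hc, map_div₀, map_mul, hδσ]
      have e3 : σ η ≠ 0 := by
        intro h
        apply hη0
        have := congrArg σ h
        rwa [hσ2, map_zero] at this
      simp only [hz', map_add, LinearMap.add_apply, LinearMap.map_smulₛₗ, map_smul,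
        LinearMap.smul_apply, smul_eq_mul]
      rw [huu, hz1u, e1, e2, hc]
      field_simp
      have hθ' : σ θ = 1 - θ := by linear_combination hθ
      rw [hθ', hδ]
      ring
    have hP1 : ∀ m, B u m = 0 → B z' (m + lam m • u) = B z m := by
      intro m hm
      simp only [hz', hz1, map_add, LinearMap.add_apply, LinearMap.map_smulₛₗ, map_smul,
        LinearMap.smul_apply, smul_eq_mul]
      rw [hwv, hwv, huu, hm, hη]
      field_simp
      ring
    -- the extension
    set aF : V →ₗ[F] F := (B u z)⁻¹ • B u with haF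
    set G : V →ₗ[F] V := LinearMap.id + (lam - (lam z) • aF).smulRight u
      + aF.smulRight (z' - z) with hG
    have hG1 : ∀ m, B u m = 0 → G m = m + lam m • u := by
      intro m hm
      simp [hG, haF, hm]
    have hG2 : G z = z' := by
      have : aF z = 1 := by
        simp [haF, hz]
      simp [hG, this]
    have hkey : ∀ (m m' : V), B u m = 0 → B u m' = 0 → ∀ a a' : F,
        B (G (m + a • z)) (G (m' + a' • z)) = B (m + a • z) (m' + a' • z) := by
      intro m m' hm hm' a a'
      have hmu : B m u = 0 := by rw [← hsym u m, hm, map_zero]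
      have hm'u : B m' u = 0 := by rw [← hsym u m', hm', map_zero]
      have I2 := hP1 m' hm'
      have I3 : B (m + lam m • u) z' = B m z := by
        rw [← hsym z' (m + lam m • u), hP1 m hm, hsym]
      have I1 : B (m + lam m • u) (m' + lam m' • u) = B m m' := by
        simp only [map_add, LinearMap.add_apply, LinearMap.map_smulₛₗ, map_smul,
          LinearMap.smul_apply, smul_eq_mul]
        rw [huu, hmu, hm']
        ring
      have eG : G (m + a • z) = (m + lam m • u) + a • z' := by
        rw [map_add, map_smul, hG1 m hm, hG2]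
      have eG' : G (m' + a' • z) = (m' + lam m' • u) + a' • z' := by
        rw [map_add, map_smul, hG1 m' hm', hG2]
      rw [eG, eG']
      simp only [map_add, LinearMap.add_apply, LinearMap.map_smulₛₗ, map_smul,
        LinearMap.smul_apply, smul_eq_mul] at I1 I2 I3 ⊢
      rw [hP2]
      linear_combination I1 + a' * I3 + σ a * I2
    have hGiso : ∀ v v', B (G v) (G v') = B v v' := by
      intro v v'
      have h1 := hkey (v - aF v • z) (v' - aF v' • z) (by
        rw [map_sub, map_smul, haF]
        simp only [LinearMap.smul_apply, smul_eq_mul]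
        field_simp
        ring) (by
        rw [map_sub, map_smul, haF]
        simp only [LinearMap.smul_apply, smul_eq_mul]
        field_simp
        ring) (aF v) (aF v')
      simpa using h1
    refine ⟨LinearEquiv.ofInjectiveEndo G (hinj_of G hGiso), ?_, ?_⟩
    · intro v v'
      rw [LinearEquiv.coe_ofInjectiveEndo]
      exact hGiso v v'
    · intro y
      rw [LinearEquiv.coe_ofInjectiveEndo, hG1 _ (huX y), hlam, hlamX']
  · -- case 1
    set β : F := B u x0 with hβdef
    set G : V →ₗ[F] V := LinearMap.id + (β⁻¹ • B u).smulRight u with hG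
    have hGv : ∀ v, G v = v + (β⁻¹ * B u v) • u := by
      intro v
      simp [hG]
    have hσβ : σ β ≠ 0 := by
      intro h
      apply hβ
      have := congrArg σ h
      rwa [hσ2, map_zero] at this
    have hGiso : ∀ v v', B (G v) (G v') = B v v' := by
      intro v v'
      rw [hGv, hGv]
      simp only [map_add, LinearMap.add_apply, LinearMap.map_smulₛₗ, map_smul,
        LinearMap.smul_apply, smul_eq_mul, map_mul, map_inv₀]
      rw [← hsym u v]
      field_simp
      linear_combination (σ (B u v) * B u v') * hF2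
    refine ⟨LinearEquiv.ofInjectiveEndo G (hinj_of G hGiso), ?_, ?_⟩
    · intro v v'
      rw [LinearEquiv.coe_ofInjectiveEndo]
      exact hGiso v v'
    · intro y
      obtain ⟨a, ha, ha'⟩ := hF1 y
      rw [LinearEquiv.coe_ofInjectiveEndo, hGv, ha]
      congr 2
      rw [map_sub, map_smul, smul_eq_mul] at ha'
      have : B u (y : V) = a * β := by linear_combination ha'
      rw [this]
      field_simp

theorem witt_aux [Finite F] [FiniteDimensional F V] (σ : F →+* F) (hσ : σ ≠ RingHom.id F)
    (hσ2 : ∀ a : F, σ (σ a) = a) (B : V →ₛₗ[σ] V →ₗ[F] F) (hS : B.IsSymm) (hB : B.Nondegenerate) :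
    ∀ (d : ℕ) (X : Submodule F V) (f : X →ₗ[F] V), Module.finrank F X = d →
      Function.Injective f → (∀ x x' : X, B (f x) (f x') = B (x : V) (x' : V)) →
      ∃ g : V ≃ₗ[F] V, (∀ u v : V, B (g u) (g v) = B u v) ∧ ∀ x : X, g (x : V) = f x := by
  intro d
  induction d with
  | zero =>
    intro X f hd _ _
    refine ⟨LinearEquiv.refl F V, fun _ _ => rfl, fun x => ?_⟩
    have hX : X = ⊥ := Submodule.finrank_eq_zero.mp hd
    have hx : x = 0 := by
      apply Subtype.ext
      exact (Submodule.eq_bot_iff X).mp hX (x : V) x.2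
    subst hx
    simp
  | succ d ih =>
    intro X f hd hinj hf
    have hX : ∃ x0 : X, x0 ≠ 0 := by
      by_contra h
      push Not at h
      have : Subsingleton X := ⟨fun a b => by rw [h a, h b]⟩
      have : Module.finrank F X = 0 := Module.finrank_zero_of_subsingleton
      omega
    obtain ⟨x0, hx0⟩ := hX
    obtain ⟨H', hH'⟩ := Submodule.exists_isCompl (Submodule.span F {x0} : Submodule F X)
    set H : Submodule F V := H'.map X.subtype with hHdef
    have hHX : H ≤ X := by
      rw [hHdef]
      exact Submodule.map_subtype_le X H'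
    have hfin : Module.finrank F H = d := by
      have h1 := Submodule.finrank_add_eq_of_isCompl hH'
      have h2 : Module.finrank F (Submodule.span F {x0} : Submodule F X) = 1 :=
        finrank_span_singleton hx0
      have h3 : Module.finrank F H = Module.finrank F H' := by
        rw [hHdef]
        exact (Submodule.equivSubtypeMap X H').symm.finrank_eq
      omega
    obtain ⟨g0, hg0, hg0f⟩ := ih H (f.comp (Submodule.inclusion hHX)) hfin
      (hinj.comp (Submodule.inclusion_injective hHX)) (fun x x' => hf _ _)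
    have hg0s : ∀ u v, B (g0.symm u) (g0.symm v) = B u v := by
      intro u v
      have := hg0 (g0.symm u) (g0.symm v)
      simpa using this.symm
    obtain ⟨g', hg', hg'f⟩ := stepA σ hσ hσ2 B hS hB X (g0.symm.toLinearMap.comp f)
      (g0.symm.injective.comp hinj) (fun x x' => by
        show B (g0.symm (f x)) (g0.symm (f x')) = _
        rw [hg0s, hf]) x0 (by
        intro y
        have hy : y ∈ (Submodule.span F {x0} ⊔ H' : Submodule F X) := by
          rw [hH'.sup_eq_top]
          trivial
        obtain ⟨s, hs, h, hh, rfl⟩ := Submodule.mem_sup.mp hy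
        obtain ⟨a, rfl⟩ := Submodule.mem_span_singleton.mp hs
        refine ⟨a, ?_⟩
        have e1 : a • x0 + h - a • x0 = h := by abel
        rw [e1]
        show g0.symm (f h) = (h : V)
        have hmem : (h : V) ∈ H := Submodule.mem_map_of_mem hh
        have e2 := hg0f ⟨(h : V), hmem⟩
        rw [LinearEquiv.symm_apply_eq]
        exact e2.symm)
    refine ⟨g'.trans g0, fun u v => ?_, fun x => ?_⟩
    · show B (g0 (g' u)) (g0 (g' v)) = B u v
      rw [hg0, hg']
    · show g0 (g' x) = f x
      rw [hg'f]
      show g0 (g0.symm (f x)) = f x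
      simp

theorem main [Finite F] [FiniteDimensional F V] (σ : F →+* F) (hσ : σ ≠ RingHom.id F)
    (hσ2 : ∀ a : F, σ (σ a) = a) (B : V →ₛₗ[σ] V →ₗ[F] F) (hS : B.IsSymm) (hB : B.Nondegenerate)
    (X Y : Submodule F V) (φ : X ≃ₗ[F] Y)
    (hφ : ∀ x x' : X, B (φ x : V) (φ x' : V) = B (x : V) (x' : V)) :
    ∃ g : V ≃ₗ[F] V, (∀ u v : V, B (g u) (g v) = B u v) ∧ ∀ x : X, g (x : V) = (φ x : V) :=
  witt_aux σ hσ hσ2 B hS hB _ X (Y.subtype.comp φ.toLinearMap) rfl
    (Y.subtype_injective.comp φ.injective) hφ

end


/-- Witt's Lemma for Hermitian forms. Let σ be a non-identity involutive automorphism of a finite field F and B a non-degenerate σ-sesquilinear form on a finite-dimensional F-space V which is conjugate-symmetric (σ (B x y) = B y x). Then every linear equivalence between subspaces X, Y of V preserving B extends to a B-preserving linear automorphism of V. -/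
theorem result {F V : Type*} [Field F] [Finite F] [AddCommGroup V] [Module F V] [FiniteDimensional F V] (σ : F →+* F) (hσ : σ ≠ RingHom.id F) (hσ2 : ∀ a : F, σ (σ a) = a) (B : V →ₛₗ[σ] V →ₗ[F] F) (hS : B.IsSymm) (hB : B.Nondegenerate) (X Y : Submodule F V) (φ : X ≃ₗ[F] Y) (hφ : ∀ x x' : X, B (φ x : V) (φ x' : V) = B (x : V) (x' : V)) : ∃ g : V ≃ₗ[F] V, (∀ u v : V, B (g u) (g v) = B u v) ∧ ∀ x : X, g (x : V) = (φ x : V) := by
  exact main σ hσ hσ2 B hS hB X Y φ hφ


end Cfsg.Agent.S0751
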