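import Cfsg.Statements.S0832
import Mathlib
import Cfsg.Agent.S0287
import Cfsg.Agent.S0828
-- import your own Cfsg.Agent.* helpers here

set_option autoImplicit false
open Cfsg

namespace Cfsg.Agent.S0832


open Cfsg.Agent.S0287

section abstract

variable {F : Type*} {V : Type*} [Field F] [Fintype F] [AddCommGroup V] [Module F V] [Finite V]
  {B : LinearMap.BilinForm F V} {Q : V → F}

theorem card_fiber (U : Submodule F V) (φ : U →ₗ[F] F) (u0 : U) (h0 : φ u0 = 1) (c : F) :
    Nat.card U = Fintype.card F * Nat.card {u : U // φ u = c} := by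
  rw [← Nat.card_eq_fintype_card (α := F), ← Nat.card_prod]
  apply Nat.card_congr
  exact
    { toFun := fun u => (φ u, ⟨u - (φ u - c) • u0, by
        rw [map_sub, map_smul, h0, smul_eq_mul, mul_one]
        ring⟩)
      invFun := fun p => p.2.1 + (p.1 - c) • u0
      left_inv := fun u => by
        show u - (φ u - c) • u0 + (φ u - c) • u0 = u
        abel
      right_inv := fun p => by
        obtain ⟨a, ⟨w, hw⟩⟩ := p
        have h1 : φ (w + (a - c) • u0) = a := by
          rw [map_add, map_smul, h0, hw, smul_eq_mul, mul_one]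
          ring
        refine Prod.ext h1 (Subtype.ext ?_)
        show w + (a - c) • u0 - (φ (w + (a - c) • u0) - c) • u0 = w
        rw [h1]
        abel }

theorem ts_count (h : IsQS B Q) (U : Submodule F V) (hU : ∀ u ∈ U, Q u = 0) :
    Fintype.card F * (Nat.card U * Nat.card {x : V // Q x = 0})
      = Fintype.card F * (Nat.card U * Nat.card {x : V // x ∈ B.orthogonal U ∧ Q x = 0})
        + Nat.card U * Nat.card {x : V // x ∉ B.orthogonal U} := by
  classical
  haveI : Fintype V := Fintype.ofFinite V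
  have e1 : {p : V × U // Q (p.1 + (p.2 : V)) = 0} ≃ U × {x : V // Q x = 0} :=
    { toFun := fun p => (p.1.2, ⟨p.1.1 + (p.1.2 : V), p.2⟩)
      invFun := fun r => ⟨(r.2.1 - (r.1 : V), r.1), by
        show Q (r.2.1 - (r.1 : V) + (r.1 : V)) = 0
        rw [sub_add_cancel]
        exact r.2.2⟩
      left_inv := fun p => Subtype.ext (Prod.ext (by
        show p.1.1 + (p.1.2 : V) - (p.1.2 : V) = p.1.1
        abel) rfl)
      right_inv := fun r => Prod.ext rfl (Subtype.ext (by
        show r.2.1 - (r.1 : V) + (r.1 : V) = r.2.1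
        abel)) }
  have h1 : Nat.card {p : V × U // Q (p.1 + (p.2 : V)) = 0}
      = Nat.card U * Nat.card {x : V // Q x = 0} := by
    rw [Nat.card_congr e1, Nat.card_prod]
  have h2 : Nat.card {p : V × U // Q (p.1 + (p.2 : V)) = 0}
      = ∑ x : V, Nat.card {u : U // Q (x + (u : V)) = 0} := by
    rw [Nat.card_congr (Equiv.subtypeProdEquivSigmaSubtype
      (fun (x : V) (u : U) => Q (x + (u : V)) = 0)), Nat.card_sigma]
  have hsymm := h.symm
  have h3 : ∀ x : V, Fintype.card F * Nat.card {u : U // Q (x + (u : V)) = 0}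
      = (if x ∈ B.orthogonal U ∧ Q x = 0 then Fintype.card F * Nat.card U else 0)
        + (if x ∉ B.orthogonal U then Nat.card U else 0) := by
    intro x
    by_cases hx : x ∈ B.orthogonal U
    · have hx' : ∀ u : U, B x (u : V) = 0 := fun u => by
        rw [hsymm]
        exact (LinearMap.BilinForm.mem_orthogonal_iff.1 hx) u u.2
      have hQ : ∀ u : U, Q (x + (u : V)) = Q x := fun u => by
        rw [h.add, hU u u.2, hx' u, add_zero, add_zero]
      rw [if_neg (not_not.2 hx), add_zero]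
      by_cases hq : Q x = 0
      · rw [if_pos ⟨hx, hq⟩]
        congr 1
        exact Nat.card_congr (Equiv.subtypeUnivEquiv (fun u => by rw [hQ u, hq]))
      · rw [if_neg (fun hh => hq hh.2)]
        haveI : IsEmpty {u : U // Q (x + (u : V)) = 0} :=
          ⟨fun u => hq (by rw [← hQ u.1]; exact u.2)⟩
        rw [Nat.card_of_isEmpty, mul_zero]
    · rw [if_neg (fun hh => hx hh.1), if_pos hx, zero_add]
      obtain ⟨u1, hu1⟩ : ∃ u1 : U, B x (u1 : V) ≠ 0 := by
        by_contra hcon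
        push Not at hcon
        apply hx
        rw [LinearMap.BilinForm.mem_orthogonal_iff]
        intro u hu
        rw [hsymm]
        exact hcon ⟨u, hu⟩
      obtain ⟨φ, hφ⟩ : ∃ φ : U →ₗ[F] F, ∀ u : U, φ u = B x (u : V) :=
        ⟨(B x).comp U.subtype, fun u => rfl⟩
      have h0 : φ ((B x (u1 : V))⁻¹ • u1) = 1 := by
        rw [map_smul, hφ, smul_eq_mul, inv_mul_cancel₀ hu1]
      rw [card_fiber U φ _ h0 (-Q x)]
      congr 1
      exact Nat.card_congr (Equiv.subtypeEquivRight (fun u => by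
        rw [hφ, h.add, hU u u.2, add_zero]
        constructor
        · intro h5
          linear_combination h5
        · intro h5
          linear_combination h5))
  rw [h1] at h2
  rw [h2, Finset.mul_sum, Finset.sum_congr rfl (fun x _ => h3 x), Finset.sum_add_distrib]
  congr 1
  · rw [← Finset.sum_filter, Finset.sum_const, smul_eq_mul,
      Nat.card_eq_fintype_card (α := {x : V // x ∈ B.orthogonal U ∧ Q x = 0}),
      Fintype.card_subtype]
    ring
  · rw [← Finset.sum_filter, Finset.sum_const, smul_eq_mul,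
      Nat.card_eq_fintype_card (α := {x : V // x ∉ B.orthogonal U}), Fintype.card_subtype]
    ring

theorem sup_facts (h : IsQS B Q) (U : Submodule F V) (hU : ∀ u ∈ U, Q u = 0) (n : ℕ)
    (hn : Module.finrank F U = n) (x : V) (hx : x ∈ B.orthogonal U) (hq : Q x = 0)
    (hxU : x ∉ U) :
    Module.finrank F (U ⊔ Submodule.span F {x} : Submodule F V) = n + 1 ∧
      ∀ w ∈ U ⊔ Submodule.span F {x}, Q w = 0 := by
  have hx0 : x ≠ 0 := fun h0 => hxU (by rw [h0]; exact U.zero_mem)
  constructor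
  · have h1 := Submodule.finrank_sup_add_finrank_inf_eq U (Submodule.span F {x})
    have h2 : U ⊓ Submodule.span F {x} = ⊥ :=
      disjoint_iff.1 ((Submodule.disjoint_span_singleton' hx0).2 hxU)
    rw [h2, finrank_bot, finrank_span_singleton hx0, hn] at h1
    omega
  · intro w hw
    obtain ⟨u, hu, y, hy, rfl⟩ := Submodule.mem_sup.1 hw
    obtain ⟨a, rfl⟩ := Submodule.mem_span_singleton.1 hy
    rw [h.add, h.smul, hU u hu, hq, map_smul,
      (LinearMap.BilinForm.mem_orthogonal_iff.1 hx) u hu]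
    simp

theorem card_diff (U W : Submodule F V) (hUW : U ≤ W) (n : ℕ)
    (hn : Module.finrank F U = n) (hW : Module.finrank F W = n + 1) :
    Nat.card {x : V // x ∈ W ∧ x ∉ U} = Fintype.card F ^ (n + 1) - Fintype.card F ^ n := by
  have h1 : Nat.card {x : V // x ∈ W ∧ x ∉ U} = ((W : Set V) \ (U : Set V)).ncard :=
    Nat.card_coe_set_eq ((W : Set V) \ (U : Set V))
  have h2 : Nat.card W = (W : Set V).ncard := Nat.card_coe_set_eq (W : Set V)
  have h3 : Nat.card U = (U : Set V).ncard := Nat.card_coe_set_eq (U : Set V)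
  rw [h1, Set.ncard_sdiff (fun x hx => hUW hx) (Set.toFinite _), ← h2, ← h3,
    S0828.card_sub W (n + 1) hW, S0828.card_sub U n hn]

theorem over_count (h : IsQS B Q) (U : Submodule F V) (hU : ∀ u ∈ U, Q u = 0) (n : ℕ)
    (hn : Module.finrank F U = n) :
    Nat.card {W : Submodule F V // Module.finrank F W = n + 1 ∧ (∀ w ∈ W, Q w = 0) ∧ U ≤ W}
        * (Fintype.card F ^ (n + 1) - Fintype.card F ^ n)
      = Nat.card {x : V // (x ∈ B.orthogonal U ∧ Q x = 0) ∧ x ∉ U} := by
  classical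
  haveI : Fintype {W : Submodule F V // Module.finrank F W = n + 1 ∧ (∀ w ∈ W, Q w = 0)
      ∧ U ≤ W} := Fintype.ofFinite _
  obtain ⟨f, hf⟩ : ∃ f : {x : V // (x ∈ B.orthogonal U ∧ Q x = 0) ∧ x ∉ U} →
      {W : Submodule F V // Module.finrank F W = n + 1 ∧ (∀ w ∈ W, Q w = 0) ∧ U ≤ W},
      ∀ x, (f x).1 = U ⊔ Submodule.span F {x.1} :=
    ⟨fun x => ⟨U ⊔ Submodule.span F {x.1},
      (sup_facts h U hU n hn x.1 x.2.1.1 x.2.1.2 x.2.2).1,
      (sup_facts h U hU n hn x.1 x.2.1.1 x.2.1.2 x.2.2).2, le_sup_left⟩, fun x => rfl⟩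
  have hfib : ∀ W : {W : Submodule F V // Module.finrank F W = n + 1 ∧ (∀ w ∈ W, Q w = 0)
      ∧ U ≤ W}, Nat.card {x // f x = W} = Fintype.card F ^ (n + 1) - Fintype.card F ^ n := by
    rintro ⟨W, hW1, hW2, hW3⟩
    rw [← card_diff U W hW3 n hn hW1]
    apply Nat.card_congr
    have horth : ∀ y : V, y ∈ W → y ∈ B.orthogonal U := by
      intro y hy
      rw [LinearMap.BilinForm.mem_orthogonal_iff]
      intro u hu
      have h1 := h.add u y
      rw [hW2 _ (W.add_mem (hW3 hu) hy), hW2 u (hW3 hu), hW2 y hy] at h1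
      simpa using h1.symm
    exact
      { toFun := fun x => ⟨x.1.1, by
          have h1 : (f x.1).1 = W := congrArg Subtype.val x.2
          rw [hf] at h1
          exact h1.le (Submodule.mem_sup_right (Submodule.mem_span_singleton_self _)), x.1.2.2⟩
        invFun := fun y => ⟨⟨y.1, ⟨horth y.1 y.2.1, hW2 y.1 y.2.1⟩, y.2.2⟩, by
          apply Subtype.ext
          rw [hf]
          show U ⊔ Submodule.span F {y.1} = W
          apply Submodule.eq_of_le_of_finrank_eq
          · exact sup_le hW3 ((Submodule.span_singleton_le_iff_mem _ _).2 y.2.1)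
          · rw [(sup_facts h U hU n hn y.1 (horth y.1 y.2.1) (hW2 y.1 y.2.1) y.2.2).1, hW1]⟩
        left_inv := fun x => Subtype.ext (Subtype.ext rfl)
        right_inv := fun y => Subtype.ext rfl }
  rw [← Nat.card_congr (Equiv.sigmaFiberEquiv f), Nat.card_sigma,
    Finset.sum_congr rfl (fun W _ => hfib W), Finset.sum_const, Finset.card_univ, smul_eq_mul,
    Nat.card_eq_fintype_card]

end abstract

theorem plus_zeros {F : Type*} [Field F] [Fintype F] (n : ℕ) :
    Nat.card {v : Fin (n + 1) ⊕ Fin (n + 1) → F // quadFormPlus (n + 1) F v = 0}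
      = (Fintype.card F ^ (n + 1) - 1) * (Fintype.card F ^ n + 1) + 1 := by
  have hQS : IsQS (BsP (n + 1) F) (quadFormPlus (n + 1) F) := plus_qs (n + 1) F
  have hstd := plus_std (n + 1) F
  have hV : Nat.card (Fin (n + 1) ⊕ Fin (n + 1) → F) = Fintype.card F ^ (0 + 2 * (n + 1)) := by
    rw [Nat.card_eq_fintype_card, Fintype.card_fun, Fintype.card_sum, Fintype.card_fin]
    congr 1
    ring
  have hne : Nonempty (Frame (BsP (n + 1) F) (quadFormPlus (n + 1) F) (Fin.elim0 : Fin 0 → F)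
      (fun i _ => i.elim0) (n + 1)) := ⟨⟨(_, _, _), hstd⟩⟩
  have hN := vd_of_frame F (Fin.elim0 : Fin 0 → F) (fun i _ => i.elim0) 0 (n0P F)
    (fun B Q h hW _ x => base0_vd B Q h hW x) (n + 1) (BsP (n + 1) F) (quadFormPlus (n + 1) F)
    hQS hV hne 0
  rw [hN, NkP]

theorem main {F : Type*} [Field F] [Fintype F] (n : ℕ)
    (U : Submodule F (Fin (n + 1) ⊕ Fin (n + 1) → F)) (hn : Module.finrank F U = n)
    (hU : ∀ u ∈ U, quadFormPlus (n + 1) F u = 0) :
    Nat.card {W : Submodule F (Fin (n + 1) ⊕ Fin (n + 1) → F) //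
      Module.finrank F W = n + 1 ∧ (∀ w ∈ W, quadFormPlus (n + 1) F w = 0) ∧ U ≤ W} = 2 := by
  classical
  have hQS : IsQS (BsP (n + 1) F) (quadFormPlus (n + 1) F) := plus_qs (n + 1) F
  have hq : 2 ≤ Fintype.card F := Fintype.one_lt_card
  obtain ⟨q, hqq⟩ : ∃ q, q = Fintype.card F := ⟨_, rfl⟩
  have hnd : (BsP (n + 1) F).Nondegenerate := by
    rw [LinearMap.BilinForm.nondegenerate_iff_ker_eq_bot]
    exact LinearMap.ker_eq_bot'.2 (fun x hx => plus_sep (n + 1) F x (fun y => by
      rw [hx]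
      rfl))
  have hfinV : Module.finrank F (Fin (n + 1) ⊕ Fin (n + 1) → F) = 2 * n + 2 := by
    rw [Module.finrank_fintype_fun_eq_card, Fintype.card_sum, Fintype.card_fin]
    ring
  have hperp : Module.finrank F ((BsP (n + 1) F).orthogonal U) = n + 2 := by
    rw [LinearMap.BilinForm.finrank_orthogonal hnd, hfinV, hn]
    omega
  have hcU : Nat.card U = q ^ n := by rw [hqq]; exact S0828.card_sub U n hn
  have hcP : Nat.card ((BsP (n + 1) F).orthogonal U) = q ^ (n + 2) := by
    rw [hqq]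
    exact S0828.card_sub _ (n + 2) hperp
  have hcV : Nat.card (Fin (n + 1) ⊕ Fin (n + 1) → F) = q ^ (2 * n + 2) := by
    rw [hqq, Module.natCard_eq_pow_finrank (K := F), Nat.card_eq_fintype_card, hfinV]
  have hcompl : Nat.card {x : Fin (n + 1) ⊕ Fin (n + 1) → F // x ∉ (BsP (n + 1) F).orthogonal U}
      + q ^ (n + 2) = q ^ (2 * n + 2) := by
    rw [← hcP, ← hcV]
    have h1 := Nat.card_congr (Equiv.sumCompl
      (fun x : Fin (n + 1) ⊕ Fin (n + 1) → F => x ∈ (BsP (n + 1) F).orthogonal U))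
    rw [Nat.card_sum] at h1
    rw [← h1]
    exact add_comm _ _
  have hts := ts_count hQS U hU
  rw [plus_zeros n, hcU, ← hqq] at hts
  obtain ⟨t, ht⟩ : ∃ t, t = Nat.card {x : Fin (n + 1) ⊕ Fin (n + 1) → F //
      x ∈ (BsP (n + 1) F).orthogonal U ∧ quadFormPlus (n + 1) F x = 0} := ⟨_, rfl⟩
  obtain ⟨c, hc⟩ : ∃ c, c = Nat.card {x : Fin (n + 1) ⊕ Fin (n + 1) → F //
      x ∉ (BsP (n + 1) F).orthogonal U} := ⟨_, rfl⟩
  rw [← ht, ← hc] at hts
  rw [← hc] at hcompl
  have hq1 : 1 ≤ q := by omega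
  have hp1 : 1 ≤ q ^ (n + 1) := Nat.one_le_pow _ _ hq1
  have hpn : 1 ≤ q ^ n := Nat.one_le_pow _ _ hq1
  have ht2 : t + q ^ n = 2 * q ^ (n + 1) := by
    have hz : ((q : ℤ) ^ (n + 1)) * ((t : ℤ) + (q : ℤ) ^ n) = (q : ℤ) ^ (n + 1) * (2 * (q : ℤ) ^ (n + 1)) := by
      have hts' := hts
      have hcompl' := hcompl
      zify [hp1] at hts' hcompl'
      have hc' : (c : ℤ) = (q : ℤ) ^ (2 * n + 2) - (q : ℤ) ^ (n + 2) := by linarith
      rw [hc'] at hts'
      linear_combination (-1 : ℤ) * hts'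
    have hz0 : ((q : ℤ) ^ (n + 1)) ≠ 0 := by positivity
    have hz2 := mul_left_cancel₀ hz0 hz
    exact_mod_cast hz2
  have hover := over_count hQS U hU n hn
  have hTU : Nat.card {x : Fin (n + 1) ⊕ Fin (n + 1) → F //
      (x ∈ (BsP (n + 1) F).orthogonal U ∧ quadFormPlus (n + 1) F x = 0) ∧ x ∉ U} + q ^ n = t := by
    rw [ht, ← hcU]
    have hUT : ∀ x : Fin (n + 1) ⊕ Fin (n + 1) → F, x ∈ U →
        x ∈ (BsP (n + 1) F).orthogonal U ∧ quadFormPlus (n + 1) F x = 0 := by
      intro x hx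
      refine ⟨?_, hU x hx⟩
      rw [LinearMap.BilinForm.mem_orthogonal_iff]
      intro u hu
      have h1 := hQS.add u x
      rw [hU _ (U.add_mem hu hx), hU u hu, hU x hx] at h1
      simpa using h1.symm
    have e1 : {x : Fin (n + 1) ⊕ Fin (n + 1) → F //
        x ∈ (BsP (n + 1) F).orthogonal U ∧ quadFormPlus (n + 1) F x = 0}
        ≃ {x : {x : Fin (n + 1) ⊕ Fin (n + 1) → F //
          x ∈ (BsP (n + 1) F).orthogonal U ∧ quadFormPlus (n + 1) F x = 0} // x.1 ∈ U}
          ⊕ {x : {x : Fin (n + 1) ⊕ Fin (n + 1) → F //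
          x ∈ (BsP (n + 1) F).orthogonal U ∧ quadFormPlus (n + 1) F x = 0} // x.1 ∉ U} :=
      (Equiv.sumCompl _).symm
    have e2 : {x : {x : Fin (n + 1) ⊕ Fin (n + 1) → F //
          x ∈ (BsP (n + 1) F).orthogonal U ∧ quadFormPlus (n + 1) F x = 0} // x.1 ∈ U} ≃ U :=
      { toFun := fun x => ⟨x.1.1, x.2⟩
        invFun := fun u => ⟨⟨u.1, hUT u.1 u.2⟩, u.2⟩
        left_inv := fun x => rfl
        right_inv := fun u => rfl }
    have e3 : {x : {x : Fin (n + 1) ⊕ Fin (n + 1) → F //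
          x ∈ (BsP (n + 1) F).orthogonal U ∧ quadFormPlus (n + 1) F x = 0} // x.1 ∉ U}
        ≃ {x : Fin (n + 1) ⊕ Fin (n + 1) → F //
          (x ∈ (BsP (n + 1) F).orthogonal U ∧ quadFormPlus (n + 1) F x = 0) ∧ x ∉ U} :=
      { toFun := fun x => ⟨x.1.1, x.1.2, x.2⟩
        invFun := fun x => ⟨⟨x.1, x.2.1⟩, x.2.2⟩
        left_inv := fun x => rfl
        right_inv := fun x => rfl }
    rw [Nat.card_congr e1, Nat.card_sum, Nat.card_congr e2, Nat.card_congr e3]
    exact add_comm _ _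
  rw [← hqq] at hover
  have hpos : 0 < q ^ (n + 1) - q ^ n := by
    have h1 : q ^ n < q ^ (n + 1) := Nat.pow_lt_pow_right (by omega) (by omega)
    omega
  have hfin : Nat.card {W : Submodule F (Fin (n + 1) ⊕ Fin (n + 1) → F) //
      Module.finrank F W = n + 1 ∧ (∀ w ∈ W, quadFormPlus (n + 1) F w = 0) ∧ U ≤ W}
      * (q ^ (n + 1) - q ^ n) = 2 * (q ^ (n + 1) - q ^ n) := by
    rw [hover]
    have h1 : q ^ n ≤ q ^ (n + 1) := Nat.pow_le_pow_right hq1 (by omega)
    omega
  exact Nat.eq_of_mul_eq_mul_right hpos hfin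


/-- For the form Σ x_i y_i on F^(2m) over a finite field, m ≥ 1: an (m−1)-dimensional subspace on which the form vanishes is contained in exactly two m-dimensional subspaces on which it vanishes. -/
theorem result {F : Type*} [Field F] [Finite F] (m : ℕ) (hm : 1 ≤ m) (U : Submodule F (Fin m ⊕ Fin m → F)) (hU : Module.finrank F U + 1 = m ∧ ∀ u ∈ U, Cfsg.quadFormPlus m F u = 0) : Nat.card {W : Submodule F (Fin m ⊕ Fin m → F) // Module.finrank F W = m ∧ (∀ w ∈ W, Cfsg.quadFormPlus m F w = 0) ∧ U ≤ W} = 2 := by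
  cases nonempty_fintype F
  obtain ⟨n, rfl⟩ : ∃ n, m = n + 1 := ⟨m - 1, by omega⟩
  exact main n U (by omega) hU.2


end Cfsg.Agent.S0832
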