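import Cfsg.Statements.S0775
import Mathlib
import Cfsg.Agent.S0245
import Cfsg.Agent.S0832
-- import your own Cfsg.Agent.* helpers here

set_option autoImplicit false
open Cfsg

namespace Cfsg.Agent.S0775


open Cfsg.Agent.S0752 Cfsg.Agent.S0245

universe u

section abstract

variable {F : Type*} {V : Type u} [Field F] [AddCommGroup V] [Module F V]

/-- adapted-frame predicate -/
def IsAd (B : LinearMap.BilinForm F V) (W : Submodule F V) (m k : ℕ)
    (p : (Fin m → V) × (Fin m → V)) : Prop :=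
  IsHyp B m p.1 p.2 ∧ ∀ i : Fin m, i.val < k → p.1 i ∈ W

/-- restriction of `W` to the complement of the pair -/
def Wres (B : LinearMap.BilinForm F V) (u v : V) (W : Submodule F V) :
    Submodule F (Wp B u v) :=
  W.comap (Wp B u v).subtype

/-- head pair of an adapted frame -/
def headAd (B : LinearMap.BilinForm F V) (W : Submodule F V) (m k : ℕ)
    (h : {p : (Fin (m+1) → V) × (Fin (m+1) → V) // IsAd B W (m+1) (k+1) p}) :
    {p : V × V // p.1 ∈ W ∧ B p.1 p.2 = 1} :=
  ⟨(h.1.1 0, h.1.2 0), h.2.2 0 (by simp), by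
    have h1 := h.2.1.1 0 0
    rw [if_pos rfl] at h1
    exact h1⟩

theorem headAd_eq_iff (B : LinearMap.BilinForm F V) (W : Submodule F V) (m k : ℕ)
    (h : {p : (Fin (m+1) → V) × (Fin (m+1) → V) // IsAd B W (m+1) (k+1) p}) (u v : V)
    (hu : u ∈ W) (huv : B u v = 1) :
    headAd B W m k h = ⟨(u, v), hu, huv⟩ ↔ h.1.1 0 = u ∧ h.1.2 0 = v := by
  constructor
  · intro hh
    have h1 := congrArg Subtype.val hh
    exact ⟨congrArg Prod.fst h1, congrArg Prod.snd h1⟩
  · rintro ⟨h1, h2⟩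
    apply Subtype.ext
    exact Prod.ext h1 h2

noncomputable def adFiber (B : LinearMap.BilinForm F V) (hA : B.IsAlt) (W : Submodule F V)
    (m k : ℕ) (u v : V) (hu : u ∈ W) (huv : B u v = 1) :
    {h : {p : (Fin (m+1) → V) × (Fin (m+1) → V) // IsAd B W (m+1) (k+1) p} //
      h.1.1 0 = u ∧ h.1.2 0 = v} ≃
    {r : (Fin m → Wp B u v) × (Fin m → Wp B u v) //
      IsAd (B.restrict (Wp B u v)) (Wres B u v W) m k r} where
  toFun h := ⟨(fun i => ⟨h.1.1.1 i.succ, tail_mem_e B hA m u v _ _ h.1.2.1 h.2.1 h.2.2 i⟩,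
      fun i => ⟨h.1.1.2 i.succ, tail_mem_f B m u v _ _ h.1.2.1 h.2.1 h.2.2 i⟩),
    tail_hyp B m u v _ _ h.1.2.1 _ _, fun i hi => h.1.2.2 i.succ (Nat.succ_lt_succ hi)⟩
  invFun r := ⟨⟨(Fin.cons u (fun i => (r.1.1 i : V)), Fin.cons v (fun i => (r.1.2 i : V))),
    cons_hyp B hA m u v huv r.1.1 r.1.2 r.2.1,
    fun i => Fin.cases (fun _ => hu) (fun j hj => r.2.2 j (Nat.lt_of_succ_lt_succ hj)) i⟩,
    rfl, rfl⟩
  left_inv h := by
    obtain ⟨⟨⟨e, f⟩, hyp⟩, he, hf⟩ := h
    apply Subtype.ext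
    apply Subtype.ext
    apply Prod.ext
    · funext i
      refine Fin.cases ?_ (fun j => ?_) i
      · exact he.symm
      · rfl
    · funext i
      refine Fin.cases ?_ (fun j => ?_) i
      · exact hf.symm
      · rfl
  right_inv r := by
    obtain ⟨⟨e', f'⟩, hyp'⟩ := r
    exact Subtype.ext (Prod.ext (funext fun i => Subtype.ext rfl)
      (funext fun i => Subtype.ext rfl))

end abstract

section counting

variable {F : Type*} {V : Type u} [Field F] [Fintype F] [AddCommGroup V] [Module F V] [Finite V]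

theorem card_pairsW (B : LinearMap.BilinForm F V)
    (hnd : ∀ u : V, u ≠ 0 → ∃ v, B u v = 1) (W : Submodule F V) :
    Nat.card {p : V × V // p.1 ∈ W ∧ B p.1 p.2 = 1} * Fintype.card F
      = (Nat.card W - 1) * Nat.card V := by
  classical
  choose! v₀ hv₀ using hnd
  have hne : ∀ p : {p : V × V // p.1 ∈ W ∧ B p.1 p.2 = 1}, p.1.1 ≠ 0 := by
    rintro ⟨⟨u, v⟩, hu, h⟩ h0
    have h' : B u v = 1 := h
    have h0' : u = 0 := h0
    rw [h0', map_zero, LinearMap.zero_apply] at h'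
    exact zero_ne_one h'
  have e : {p : V × V // p.1 ∈ W ∧ B p.1 p.2 = 1} × F ≃ {u : W // u ≠ 0} × V :=
    { toFun := fun y => (⟨⟨y.1.1.1, y.1.2.1⟩, fun h0 => hne y.1 (congrArg Subtype.val h0)⟩,
        y.1.1.2 + (y.2 - 1) • v₀ y.1.1.1)
      invFun := fun z => (⟨(z.1.1.1, z.2 - (B z.1.1.1 z.2 - 1) • v₀ z.1.1.1), z.1.1.2, by
          have hz : (z.1.1 : V) ≠ 0 := fun h0 => z.1.2 (Subtype.ext h0)
          show B z.1.1.1 (z.2 - (B z.1.1.1 z.2 - 1) • v₀ z.1.1.1) = 1
          rw [map_sub, map_smul, hv₀ _ hz, smul_eq_mul, mul_one]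
          ring⟩, B z.1.1.1 z.2)
      left_inv := by
        rintro ⟨⟨⟨u, v⟩, huW, h⟩, c⟩
        have hu : u ≠ 0 := hne ⟨⟨u, v⟩, huW, h⟩
        have h' : B u v = 1 := h
        have e1 : B u (v + (c - 1) • v₀ u) = c := by
          rw [map_add, map_smul, h', hv₀ u hu, smul_eq_mul, mul_one]
          ring
        apply Prod.ext
        · apply Subtype.ext
          apply Prod.ext
          · rfl
          · show v + (c - 1) • v₀ u - (B u (v + (c - 1) • v₀ u) - 1) • v₀ u = v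
            rw [e1]
            abel
        · exact e1
      right_inv := by
        rintro ⟨⟨⟨u, huW⟩, hu⟩, x⟩
        apply Prod.ext
        · rfl
        · show x - (B u x - 1) • v₀ u + (B u x - 1) • v₀ u = x
          abel }
  have h1 := Nat.card_congr e
  rw [Nat.card_prod, Nat.card_prod, Nat.card_eq_fintype_card (α := F)] at h1
  rw [h1]
  have h2 : Nat.card W = Nat.card {u : W // u ≠ 0} + 1 := by
    rw [← Finite.card_option]
    exact (Nat.card_congr (Equiv.optionSubtypeNe (0 : W))).symm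
  have h3 : Nat.card {u : W // u ≠ 0} = Nat.card W - 1 := by omega
  rw [h3]

theorem card_Wres (B : LinearMap.BilinForm F V) (hA : B.IsAlt) (W : Submodule F V)
    (hW : ∀ u ∈ W, ∀ v ∈ W, B u v = 0) (u v : V) (hu : u ∈ W) (huv : B u v = 1) :
    Nat.card W = Fintype.card F * Nat.card (Wres B u v W) := by
  have hvu : B v u = -1 := by rw [← hA.neg_eq u v, huv]
  have h1 := S0832.card_fiber W ((B v).domRestrict W) ⟨-u, W.neg_mem hu⟩ (by
    show B v (-u) = 1
    rw [map_neg, hvu, neg_neg]) 0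
  rw [h1]
  congr 1
  apply Nat.card_congr
  exact
    { toFun := fun w => ⟨⟨w.1.1, (mem_Wp B u v _).mpr ⟨hW u hu _ w.1.2, w.2⟩⟩, w.1.2⟩
      invFun := fun x => ⟨⟨x.1.1, x.2⟩, ((mem_Wp B u v _).mp x.1.2).2⟩
      left_inv := fun w => rfl
      right_inv := fun x => rfl }

/-- the recursive form of the count of adapted frames (first factor) -/
def RR (q : ℕ) : ℕ → ℕ → ℕ
  | _, 0 => 1
  | m, k + 1 => (q ^ (k + 1) - 1) * q ^ (2 * m - 1) * RR q (m - 1) k

theorem count_ad (F : Type*) [Field F] [Fintype F] (k : ℕ) :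
    ∀ (m : ℕ), k ≤ m → ∀ {V : Type u} [AddCommGroup V] [Module F V] [Finite V]
      (B : LinearMap.BilinForm F V), B.IsAlt → (∀ u : V, u ≠ 0 → ∃ v, B u v = 1) →
      Nat.card V = Fintype.card F ^ (2 * m) →
      ∀ W : Submodule F V, Nat.card W = Fintype.card F ^ k → (∀ u ∈ W, ∀ v ∈ W, B u v = 0) →
      Nat.card {p : (Fin m → V) × (Fin m → V) // IsAd B W m k p}
        = RR (Fintype.card F) m k * (Fintype.card F ^ ((m - k) ^ 2) *
            ∏ i ∈ Finset.range (m - k), (Fintype.card F ^ (2 * (i + 1)) - 1)) := by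
  induction k with
  | zero =>
    intro m _ V _ _ _ B hA hnd hV W hW hti
    have e : {p : (Fin m → V) × (Fin m → V) // IsAd B W m 0 p}
        ≃ {p : (Fin m → V) × (Fin m → V) // IsHyp B m p.1 p.2} :=
      Equiv.subtypeEquivRight (fun p => ⟨fun h => h.1,
        fun h => ⟨h, fun i hi => absurd hi (Nat.not_lt_zero _)⟩⟩)
    rw [Nat.card_congr e, count_hyp F m B hA hnd (by rw [hV, Nat.card_eq_fintype_card]),
      Nat.card_eq_fintype_card]
    simp [RR]
  | succ k ih =>
    intro m hkm V _ _ _ B hA hnd hV W hW hti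
    obtain ⟨m, rfl⟩ : ∃ m', m = m' + 1 := ⟨m - 1, by omega⟩
    classical
    have : Fintype {p : V × V // p.1 ∈ W ∧ B p.1 p.2 = 1} := Fintype.ofFinite _
    have hq : 0 < Fintype.card F := Fintype.card_pos
    have hcard := Nat.card_congr (Equiv.sigmaFiberEquiv (headAd B W m k))
    rw [Nat.card_sigma] at hcard
    have hfib : ∀ p : {p : V × V // p.1 ∈ W ∧ B p.1 p.2 = 1},
        Nat.card {h // headAd B W m k h = p}
          = RR (Fintype.card F) m k * (Fintype.card F ^ ((m - k) ^ 2) *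
            ∏ i ∈ Finset.range (m - k), (Fintype.card F ^ (2 * (i + 1)) - 1)) := by
      rintro ⟨⟨u, v⟩, hu, huv⟩
      have huv' : B u v = 1 := huv
      have hu' : u ∈ W := hu
      rw [Nat.card_congr (Equiv.subtypeEquivRight (fun h => headAd_eq_iff B W m k h u v hu' huv')),
        Nat.card_congr (adFiber B hA W m k u v hu' huv')]
      apply ih m (by omega) (B.restrict (Wp B u v)) (fun w => hA.self_eq_zero (w : V))
        (nd_restrict B hA hnd u v huv')
      · have h2 := Nat.card_congr (splitEquiv B hA u v huv')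
        rw [Nat.card_prod, Nat.card_prod, hV, Nat.card_eq_fintype_card (α := F)] at h2
        have h3 : Fintype.card F ^ (2 * (m + 1))
            = Fintype.card F ^ (2 * m) * (Fintype.card F * Fintype.card F) := by
          ring
        rw [h3] at h2
        exact (Nat.eq_of_mul_eq_mul_right (Nat.mul_pos hq hq) h2).symm
      · have h2 := card_Wres B hA W hti u v hu' huv'
        rw [hW, pow_succ'] at h2
        exact (Nat.eq_of_mul_eq_mul_left hq h2).symm
      · intro x hx y hy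
        exact hti _ hx _ hy
    rw [← hcard, Finset.sum_congr rfl (fun p _ => hfib p), Finset.sum_const, Finset.card_univ,
      smul_eq_mul, ← Nat.card_eq_fintype_card]
    have hP := card_pairsW B hnd W
    rw [hV, hW] at hP
    have hP' : Nat.card {p : V × V // p.1 ∈ W ∧ B p.1 p.2 = 1}
        = (Fintype.card F ^ (k + 1) - 1) * Fintype.card F ^ (2 * m + 1) := by
      apply Nat.eq_of_mul_eq_mul_right hq
      rw [hP]
      ring
    rw [hP']
    have h5 : m + 1 - (k + 1) = m - k := by omega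
    have h6 : 2 * (m + 1) - 1 = 2 * m + 1 := by omega
    have h7 : m + 1 - 1 = m := rfl
    rw [h5]
    show _ = (Fintype.card F ^ (k + 1) - 1) * Fintype.card F ^ (2 * (m + 1) - 1)
      * RR (Fintype.card F) (m + 1 - 1) k * _
    rw [h6, h7]
    ring

end counting

theorem RR_pos (q : ℕ) (hq : 2 ≤ q) : ∀ (k m : ℕ), 0 < RR q m k := by
  intro k
  induction k with
  | zero => intro m; simp [RR]
  | succ k ih =>
    intro m
    show 0 < (q ^ (k + 1) - 1) * q ^ (2 * m - 1) * RR q (m - 1) k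
    have h1 : 2 ≤ q ^ (k + 1) := by
      calc 2 ≤ q := hq
        _ = q ^ 1 := (pow_one q).symm
        _ ≤ q ^ (k + 1) := Nat.pow_le_pow_right (by omega) (by omega)
    have h2 : 0 < q ^ (2 * m - 1) := Nat.pow_pos (by omega)
    exact Nat.mul_pos (Nat.mul_pos (by omega) h2) (ih _)

theorem RR_eq (q : ℕ) : ∀ (k m : ℕ), k ≤ m →
    RR q m k = q ^ (k * (k + 1) / 2 + 2 * k * (m - k)) * ∏ i : Fin k, (q ^ k - q ^ (i : ℕ)) := by
  intro k
  induction k with
  | zero => intro m _; simp [RR]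
  | succ k ih =>
    intro m hkm
    obtain ⟨d, rfl⟩ : ∃ d, m = k + 1 + d := ⟨m - (k + 1), by omega⟩
    show (q ^ (k + 1) - 1) * q ^ (2 * (k + 1 + d) - 1) * RR q (k + 1 + d - 1) k = _
    have h1 : k + 1 + d - 1 = k + d := by omega
    have h2 : 2 * (k + 1 + d) - 1 = 2 * (k + d) + 1 := by omega
    have h3 : k + 1 + d - (k + 1) = d := by omega
    have h4 : k + d - k = d := by omega
    rw [h1, h2, ih (k + d) (by omega), h3, h4, Fin.prod_univ_succ]
    have h5 : ∀ i : Fin k, q ^ (k + 1) - q ^ ((i.succ : Fin (k + 1)) : ℕ)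
        = q * (q ^ k - q ^ (i : ℕ)) := by
      intro i
      rw [Fin.val_succ, Nat.mul_sub, ← pow_succ', ← pow_succ']
    simp only [h5, Fin.val_zero, pow_zero]
    rw [Finset.prod_mul_distrib, Finset.prod_const, Finset.card_univ, Fintype.card_fin]
    have h6 : (k + 1) * (k + 1 + 1) / 2 = k * (k + 1) / 2 + (k + 1) := by
      rw [show (k + 1) * (k + 1 + 1) = k * (k + 1) + 2 * (k + 1) by ring,
        Nat.add_mul_div_left _ _ (by norm_num)]
    rw [h6]
    have h7 : q ^ (2 * (k + d) + 1) * q ^ (k * (k + 1) / 2 + 2 * k * d)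
        = q ^ (k * (k + 1) / 2 + (k + 1) + 2 * (k + 1) * d) * q ^ k := by
      rw [← pow_add, ← pow_add]; congr 1; ring
    calc (q ^ (k + 1) - 1) * q ^ (2 * (k + d) + 1)
          * (q ^ (k * (k + 1) / 2 + 2 * k * d) * ∏ i : Fin k, (q ^ k - q ^ (i:ℕ)))
        = (q ^ (k + 1) - 1) * (q ^ (2 * (k + d) + 1) * q ^ (k * (k + 1) / 2 + 2 * k * d))
          * ∏ i : Fin k, (q ^ k - q ^ (i:ℕ)) := by ring
      _ = _ := by rw [h7]; ring

section mainsec
open Matrix

theorem main {F : Type*} [Field F] [Fintype F] (m k : ℕ) (hk : k ≤ m)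
    (W : Submodule F (Fin m ⊕ Fin m → F)) (hWk : Module.finrank F W = k)
    (hW : ∀ u ∈ W, ∀ v ∈ W, Cfsg.sympForm m F u v = 0) :
    Nat.card ↥(Cfsg.stabilizing (Cfsg.spToMat m F) (W : Set (Fin m ⊕ Fin m → F)))
      = RR (Fintype.card F) m k * (Fintype.card F ^ ((m - k) ^ 2) *
            ∏ i ∈ Finset.range (m - k), (Fintype.card F ^ (2 * (i + 1)) - 1)) := by
  classical
  have hA := S0766.sB_alt m F
  have hnd : ∀ u : Fin m ⊕ Fin m → F, u ≠ 0 → ∃ v, S0766.sB m F u v = 1 :=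
    S0287.nd_of_sep _ (fun x hx => (S0766.sB_nondeg m F).1 x hx)
  have hV : Nat.card (Fin m ⊕ Fin m → F) = Fintype.card F ^ (2 * m) := by
    rw [Nat.card_eq_fintype_card, Fintype.card_fun, Fintype.card_sum, Fintype.card_fin, two_mul]
  have hcW : Nat.card W = Fintype.card F ^ k := S0828.card_sub W k hWk
  have hti : ∀ u ∈ W, ∀ v ∈ W, S0766.sB m F u v = 0 := by
    intro u hu v hv; rw [S0766.sB_apply]; exact hW u hu v hv
  have hcount := count_ad F k m hk (S0766.sB m F) hA hnd hV W hcW hti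
  have hq2 : 2 ≤ Fintype.card F := Fintype.one_lt_card
  have hpos : 0 < RR (Fintype.card F) m k * (Fintype.card F ^ ((m - k) ^ 2) *
            ∏ i ∈ Finset.range (m - k), (Fintype.card F ^ (2 * (i + 1)) - 1)) := by
    apply Nat.mul_pos (RR_pos _ hq2 k m)
    apply Nat.mul_pos (Nat.pow_pos (by omega))
    apply Finset.prod_pos
    intro i _
    have : 2 ≤ Fintype.card F ^ (2 * (i + 1)) := by
      calc 2 ≤ Fintype.card F := hq2
        _ = Fintype.card F ^ 1 := (pow_one _).symm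
        _ ≤ _ := Nat.pow_le_pow_right (by omega) (by omega)
    omega
  rw [← hcount] at hpos
  obtain ⟨⟨⟨e, f⟩, hyp, had⟩⟩ := (Nat.card_pos_iff.mp hpos).1
  have hyp' : IsHyp (S0766.sB m F) m e f := hyp
  have had' : ∀ i : Fin m, i.val < k → e i ∈ W := had
  obtain ⟨g₀, hg₀⟩ := (spToHyp_bij m F).2 ⟨(e, f), hyp'⟩
  have hg₀e : ∀ i, (g₀ : Matrix (Fin m ⊕ Fin m) (Fin m ⊕ Fin m) F) *ᵥ e0 m F i = e i :=
    fun i => congrFun (congrArg (fun p => p.1.1) hg₀) i
  have hspan : W = Submodule.span F (Set.range fun i : Fin k => e (Fin.castLE hk i)) := by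
    have hli : LinearIndependent F (fun i : Fin k => e (Fin.castLE hk i)) :=
      (hyp_li (S0766.sB m F) hA m e f hyp').comp (fun i : Fin k => Sum.inl (Fin.castLE hk i))
        (fun a b hab => Fin.castLE_injective hk (Sum.inl.inj hab))
    have hle : Submodule.span F (Set.range fun i : Fin k => e (Fin.castLE hk i)) ≤ W := by
      rw [Submodule.span_le]
      rintro _ ⟨i, rfl⟩
      exact had' _ (by simp)
    exact (Submodule.eq_of_le_of_finrank_eq hle (by
      rw [finrank_span_eq_card hli, Fintype.card_fin, hWk])).symm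
  rw [← hcount]
  apply Nat.card_congr
  have hstab : ∀ g : Matrix.symplecticGroup (Fin m) F,
      g ∈ Cfsg.stabilizing (Cfsg.spToMat m F) (W : Set (Fin m ⊕ Fin m → F)) ↔
        ∀ v, v ∈ W ↔ (g : Matrix (Fin m ⊕ Fin m) (Fin m ⊕ Fin m) F) *ᵥ v ∈ W := fun g => Iff.rfl
  refine Equiv.ofBijective (fun g => ⟨(spToHyp m F (g.1 * g₀)).1, (spToHyp m F (g.1 * g₀)).2,
    fun i hi => ?_⟩) ⟨?_, ?_⟩
  · show ((g.1 * g₀ : Matrix.symplecticGroup (Fin m) F) :
      Matrix (Fin m ⊕ Fin m) (Fin m ⊕ Fin m) F) *ᵥ e0 m F i ∈ W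
    have h1 : ((g.1 * g₀ : Matrix.symplecticGroup (Fin m) F) :
        Matrix (Fin m ⊕ Fin m) (Fin m ⊕ Fin m) F) *ᵥ e0 m F i
        = (g.1 : Matrix (Fin m ⊕ Fin m) (Fin m ⊕ Fin m) F) *ᵥ e i := by
      rw [← hg₀e i, Matrix.mulVec_mulVec]; rfl
    rw [h1]
    exact ((hstab g.1).mp g.2 (e i)).mp (had' i hi)
  · intro g g' h
    have h0 := congrArg Subtype.val h
    have h1 : spToHyp m F (g.1 * g₀) = spToHyp m F (g'.1 * g₀) := Subtype.ext h0
    have h2 := (spToHyp_bij m F).1 h1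
    exact Subtype.ext (mul_right_cancel h2)
  · rintro ⟨⟨e', f'⟩, hyp1, had1⟩
    obtain ⟨h, hh⟩ := (spToHyp_bij m F).2 ⟨(e', f'), hyp1⟩
    have hhe : ∀ i, (h : Matrix (Fin m ⊕ Fin m) (Fin m ⊕ Fin m) F) *ᵥ e0 m F i = e' i :=
      fun i => congrFun (congrArg (fun p => p.1.1) hh) i
    have hge : ∀ i, ((h * g₀⁻¹ : Matrix.symplecticGroup (Fin m) F) :
        Matrix (Fin m ⊕ Fin m) (Fin m ⊕ Fin m) F) *ᵥ e i = e' i := by
      intro i
      rw [← hg₀e i, Matrix.mulVec_mulVec, ← hhe i]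
      have h3 : ((h * g₀⁻¹ : Matrix.symplecticGroup (Fin m) F) :
          Matrix (Fin m ⊕ Fin m) (Fin m ⊕ Fin m) F)
          * (g₀ : Matrix (Fin m ⊕ Fin m) (Fin m ⊕ Fin m) F)
          = (h : Matrix (Fin m ⊕ Fin m) (Fin m ⊕ Fin m) F) :=
        congrArg Subtype.val (inv_mul_cancel_right h g₀)
      rw [h3]
    have hfwd : ∀ w ∈ W, ((h * g₀⁻¹ : Matrix.symplecticGroup (Fin m) F) :
        Matrix (Fin m ⊕ Fin m) (Fin m ⊕ Fin m) F) *ᵥ w ∈ W := by
      intro w hw
      rw [hspan] at hw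
      induction hw using Submodule.span_induction with
      | mem x hx =>
        obtain ⟨i, rfl⟩ := hx
        rw [hge]; exact had1 _ (by simp)
      | zero => rw [Matrix.mulVec_zero]; exact W.zero_mem
      | add x y _ _ hx hy => rw [Matrix.mulVec_add]; exact W.add_mem hx hy
      | smul a x _ hx => rw [Matrix.mulVec_smul]; exact W.smul_mem a hx
    have hinj : Function.Injective (fun w : Fin m ⊕ Fin m → F =>
        ((h * g₀⁻¹ : Matrix.symplecticGroup (Fin m) F) :
          Matrix (Fin m ⊕ Fin m) (Fin m ⊕ Fin m) F) *ᵥ w) := by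
      intro x y hxy
      have h3 := congrArg (fun z => (((h * g₀⁻¹)⁻¹ : Matrix.symplecticGroup (Fin m) F) :
        Matrix (Fin m ⊕ Fin m) (Fin m ⊕ Fin m) F) *ᵥ z) hxy
      simp only [Matrix.mulVec_mulVec] at h3
      have h4 : (((h * g₀⁻¹)⁻¹ : Matrix.symplecticGroup (Fin m) F) :
          Matrix (Fin m ⊕ Fin m) (Fin m ⊕ Fin m) F)
          * ((h * g₀⁻¹ : Matrix.symplecticGroup (Fin m) F) :
            Matrix (Fin m ⊕ Fin m) (Fin m ⊕ Fin m) F) = 1 :=
        congrArg Subtype.val (inv_mul_cancel (h * g₀⁻¹))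
      rw [h4, Matrix.one_mulVec, Matrix.one_mulVec] at h3
      exact h3
    have hmem : h * g₀⁻¹ ∈ Cfsg.stabilizing (Cfsg.spToMat m F)
        (W : Set (Fin m ⊕ Fin m → F)) := by
      rw [hstab]
      intro v
      refine ⟨hfwd v, fun hv => ?_⟩
      have hsur : Function.Surjective (fun w : W => (⟨_, hfwd w.1 w.2⟩ : W)) :=
        Finite.surjective_of_injective
          (fun a b hab => Subtype.ext (hinj (congrArg Subtype.val hab)))
      obtain ⟨w, hw⟩ := hsur ⟨_, hv⟩
      have h5 := hinj (congrArg Subtype.val hw)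
      rw [← h5]; exact w.2
    refine ⟨⟨h * g₀⁻¹, hmem⟩, ?_⟩
    apply Subtype.ext
    show (spToHyp m F (h * g₀⁻¹ * g₀)).1 = (e', f')
    rw [inv_mul_cancel_right, hh]

end mainsec


/-- Maximal parabolics of the symplectic group: if W is a k-dimensional subspace of F^(2m) on which the symplectic form vanishes identically, its stabiliser in Sp_2m(q) has order q^(k(k+1)/2 + 2k(m−k)) · |Sp_(2m−2k)(q)| · |GL_k(q)|. -/
theorem result {F : Type*} [Field F] [Fintype F] {q : ℕ} (hF : Fintype.card F = q) (m k : ℕ) (hk : k ≤ m) (W : Submodule F (Fin m ⊕ Fin m → F)) (hWk : Module.finrank F W = k) (hW : ∀ u ∈ W, ∀ v ∈ W, Cfsg.sympForm m F u v = 0) : Nat.card ↥(Cfsg.stabilizing (Cfsg.spToMat m F) (W : Set (Fin m ⊕ Fin m → F))) = q ^ (k * (k + 1) / 2 + 2 * k * (m - k)) * (q ^ ((m - k) ^ 2) * ∏ i ∈ Finset.range (m - k), (q ^ (2 * (i + 1)) - 1)) * ∏ i : Fin k, (q ^ k - q ^ (i : ℕ)) := by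
  subst hF
  rw [main m k hk W hWk hW, RR_eq _ k m hk]
  ring


end Cfsg.Agent.S0775
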