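import Cfsg.Statements.S0792
import Mathlib
import Cfsg.Agent.Helper4.QuadMat
-- import your own Cfsg.Agent.* helpers here

set_option autoImplicit false
open Cfsg

namespace Cfsg.Agent.S0792

open Matrix Cfsg.Agent.Helper4

section
variable {F : Type*} [Field F] {n : ℕ}

theorem mat_ext_mulVec (A B : Matrix (Fin n) (Fin n) F) (h : ∀ x, A *ᵥ x = B *ᵥ x) : A = B := by
  ext i j
  have := congrFun (h (Pi.single j 1)) i
  simpa using this

theorem refl_sq (Q : QuadraticForm F (Fin n → F)) (v : Fin n → F) (hv : Q v ≠ 0) :
    reflectionMatrix ⇑Q v * reflectionMatrix ⇑Q v = 1 := by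
  apply mat_ext_mulVec
  intro x
  rw [← Matrix.mulVec_mulVec, Matrix.one_mulVec]
  have h1 := reflectionMatrix_mulVec Q v x
  rw [h1, Matrix.mulVec_sub, Matrix.mulVec_smul, reflectionMatrix_mulVec_self Q v hv, h1]
  simp

theorem polar_pres (Q : QuadraticForm F (Fin n → F)) (M : Matrix (Fin n) (Fin n) F)
    (hM : ∀ x, Q (M *ᵥ x) = Q x) (x y : Fin n → F) :
    QuadraticMap.polar ⇑Q (M *ᵥ x) (M *ᵥ y) = QuadraticMap.polar ⇑Q x y := by
  unfold QuadraticMap.polar
  rw [← Matrix.mulVec_add, hM, hM, hM]

theorem cd_aux (h2 : (2 : F) ≠ 0) (Q : QuadraticForm F (Fin n → F))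
    (hQ : (QuadraticMap.polarBilin Q).Nondegenerate) :
    ∀ (d : ℕ) (U : Submodule F (Fin n → F)),
      Disjoint U (LinearMap.BilinForm.orthogonal (QuadraticMap.polarBilin Q) U) →
      n - Module.finrank F U ≤ d →
      ∀ M : Matrix (Fin n) (Fin n) F, (∀ x, Q (M *ᵥ x) = Q x) → (∀ u ∈ U, M *ᵥ u = u) →
      ∃ l : List {v : Fin n → F // Q v ≠ 0},
        M = (l.map (fun v => reflectionMatrix ⇑Q v.1)).prod := by
  set B : LinearMap.BilinForm F (Fin n → F) := QuadraticMap.polarBilin Q with hB
  have hBp : ∀ x y, B x y = QuadraticMap.polar ⇑Q x y := fun x y => rfl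
  have hsym : ∀ x y, B x y = B y x := fun x y => QuadraticMap.polar_comm Q x y
  have hrefl : B.IsRefl := fun x y h => by rw [hsym]; exact h
  have hQadd : ∀ x y, Q (x + y) = Q x + Q y + B x y := fun x y => QuadraticMap.map_add Q x y
  have hself : ∀ x, B x x = 2 * Q x := fun x => by
    have := QuadraticMap.polar_self Q x
    rw [hBp, this]
    simp
  have hfin : Module.finrank F (Fin n → F) = n := by simp
  have htop : ∀ (U : Submodule F (Fin n → F)), U = ⊤ →
      ∀ M : Matrix (Fin n) (Fin n) F, (∀ u ∈ U, M *ᵥ u = u) →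
      ∃ l : List {v : Fin n → F // Q v ≠ 0},
        M = (l.map (fun v => reflectionMatrix ⇑Q v.1)).prod := by
    intro U hU' M hfix
    refine ⟨[], ?_⟩
    simp only [List.map_nil, List.prod_nil]
    apply mat_ext_mulVec
    intro x
    rw [Matrix.one_mulVec]
    exact hfix x (by rw [hU']; trivial)
  intro d
  induction d with
  | zero =>
    intro U hU hd M hM hfix
    have hle := Submodule.finrank_le U
    exact htop U (Submodule.eq_top_of_finrank_eq (by omega)) M hfix
  | succ d ih =>
    intro U hU hd M hM hfix
    by_cases hUt : U = ⊤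
    · exact htop U hUt M hfix
    · have hcompl : IsCompl U (B.orthogonal U) :=
        (LinearMap.BilinForm.isCompl_orthogonal_iff_disjoint hrefl).mpr hU
      obtain ⟨x, hxU, hQx⟩ : ∃ x ∈ B.orthogonal U, Q x ≠ 0 := by
        by_contra hcon
        push Not at hcon
        have hne : B.orthogonal U ≠ ⊥ := by
          intro h0
          have := hcompl.sup_eq_top
          rw [h0, sup_bot_eq] at this
          exact hUt this
        obtain ⟨x0, hx0, hx0ne⟩ := Submodule.exists_mem_ne_zero_of_ne_bot hne
        apply hx0ne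
        apply hQ.1
        intro v
        have hv : v ∈ U ⊔ B.orthogonal U := by rw [hcompl.sup_eq_top]; trivial
        obtain ⟨u, hu, w, hw, rfl⟩ := Submodule.mem_sup.mp hv
        have e1 : B x0 u = 0 := by rw [hsym]; exact hx0 u hu
        have e2 : B x0 w = 0 := by
          have := hQadd x0 w
          rw [hcon _ (Submodule.add_mem _ hx0 hw), hcon _ hx0, hcon _ hw] at this
          linear_combination -this
        show B x0 (u + w) = 0
        rw [map_add, e1, e2, add_zero]
      have hxorth : ∀ u ∈ U, B u x = 0 := fun u hu => hxU u hu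
      set y := M *ᵥ x with hy
      have hBM : ∀ a b, B (M *ᵥ a) (M *ᵥ b) = B a b := fun a b => polar_pres Q M hM a b
      have hyorth : ∀ u ∈ U, B u y = 0 := by
        intro u hu
        have := hBM u x
        rw [hfix u hu] at this
        rw [hy, this]
        exact hxorth u hu
      have hQy : Q y = Q x := hM x
      set U' : Submodule F (Fin n → F) := U ⊔ Submodule.span F {x} with hU'
      have hxU' : x ∈ U' := Submodule.mem_sup_right (Submodule.mem_span_singleton_self x)
      have hxnot : x ∉ U := by
        intro hx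
        have := Submodule.disjoint_def.mp hU x hx hxU
        rw [this, map_zero] at hQx
        exact hQx rfl
      have hlt : U < U' := lt_of_le_of_ne le_sup_left (fun h => hxnot (by rw [h]; exact hxU'))
      have hdisj' : Disjoint U' (B.orthogonal U') := by
        rw [Submodule.disjoint_def]
        intro z hz hz'
        obtain ⟨u, hu, w, hw, rfl⟩ := Submodule.mem_sup.mp hz
        obtain ⟨a, rfl⟩ := Submodule.mem_span_singleton.mp hw
        have h1 : B x (u + a • x) = 0 := hz' x hxU'
        rw [map_add, map_smul, smul_eq_mul, hsym x u, hxorth u hu, zero_add, hself] at h1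
        have ha : a = 0 := by
          rcases mul_eq_zero.mp h1 with h | h
          · exact h
          · exact absurd h (mul_ne_zero h2 hQx)
        subst ha
        rw [zero_smul, add_zero]
        apply Submodule.disjoint_def.mp hU u hu
        intro u' hu'
        have := hz' u' (Submodule.mem_sup_left hu')
        simpa using this
      have hd' : n - Module.finrank F U' ≤ d := by
        have h1 := Submodule.finrank_lt_finrank_of_lt hlt
        have h2 := Submodule.finrank_le U'
        omega
      have hfix' : ∀ (M' : Matrix (Fin n) (Fin n) F), (∀ u ∈ U, M' *ᵥ u = u) → M' *ᵥ x = x →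
          ∀ z ∈ U', M' *ᵥ z = z := by
        intro M' h1 h2' z hz
        obtain ⟨u, hu, w, hw, rfl⟩ := Submodule.mem_sup.mp hz
        obtain ⟨a, rfl⟩ := Submodule.mem_span_singleton.mp hw
        rw [Matrix.mulVec_add, Matrix.mulVec_smul, h1 u hu, h2']
      have hrefl_fix : ∀ s : Fin n → F, (∀ u ∈ U, B u s = 0) →
          ∀ u ∈ U, reflectionMatrix ⇑Q s *ᵥ u = u := by
        intro s hs u hu
        rw [reflectionMatrix_mulVec]
        have : QuadraticMap.polar ⇑Q s u = 0 := by
          have := hs u hu
          rw [hsym] at this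
          exact this
        rw [this]
        simp
      by_cases hcase : Q (y - x) ≠ 0
      · set s := y - x with hs
        have e0 : s + x = y := by rw [hs]; abel
        have hsy : reflectionMatrix ⇑Q s *ᵥ y = x := by
          rw [reflectionMatrix_mulVec]
          have e1 := hQadd s x
          rw [e0, hQy] at e1
          have e2 : B s y = B s s + B s x := by rw [← e0, map_add]
          rw [hself] at e2
          have e3 : QuadraticMap.polar ⇑Q s y = Q s := by
            rw [← hBp]
            linear_combination e2 - e1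
          rw [e3, inv_mul_cancel₀ hcase, one_smul, hs]
          abel
        have hsorth : ∀ u ∈ U, B u s = 0 := by
          intro u hu
          rw [hs, map_sub, hyorth u hu, hxorth u hu, sub_zero]
        obtain ⟨l, hl⟩ := ih U' hdisj' hd' (reflectionMatrix ⇑Q s * M)
          (fun z => by rw [← Matrix.mulVec_mulVec, reflectionMatrix_isometry Q s hcase, hM])
          (hfix' _ (fun u hu => by rw [← Matrix.mulVec_mulVec, hfix u hu, hrefl_fix s hsorth u hu])
            (by rw [← Matrix.mulVec_mulVec]; exact hsy))
        refine ⟨⟨s, hcase⟩ :: l, ?_⟩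
        rw [List.map_cons, List.prod_cons, ← hl, ← mul_assoc, refl_sq Q s hcase, one_mul]
      · push Not at hcase
        set s := y + x with hs
        have hQs : Q s ≠ 0 := by
          intro h0
          have e1 := hQadd y x
          rw [← hs, h0] at e1
          have e2 := hQadd y (-x)
          rw [← sub_eq_add_neg, hcase, QuadraticMap.map_neg, map_neg] at e2
          have : 4 * Q x = 0 := by
            rw [hQy] at e1 e2
            linear_combination -e1 - e2
          rcases mul_eq_zero.mp this with h | h
          · have h4 : (4 : F) = 2 * 2 := by norm_num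
            rw [h4] at h
            exact mul_ne_zero h2 h2 h
          · exact hQx h
        have hsy : reflectionMatrix ⇑Q s *ᵥ y = -x := by
          rw [reflectionMatrix_mulVec]
          have e1 := hQadd y x
          rw [← hs, hQy] at e1
          have e2 : B s y = B y y + B x y := by rw [hs, map_add, LinearMap.add_apply]
          rw [hself, hQy, hsym x y] at e2
          have e3 : QuadraticMap.polar ⇑Q s y = Q s := by
            rw [← hBp]
            linear_combination e2 - e1
          rw [e3, inv_mul_cancel₀ hQs, one_smul, hs]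
          abel
        have hsorth : ∀ u ∈ U, B u s = 0 := by
          intro u hu
          rw [hs, map_add, hyorth u hu, hxorth u hu, add_zero]
        have hxx : reflectionMatrix ⇑Q x *ᵥ (-x) = x := by
          rw [Matrix.mulVec_neg, reflectionMatrix_mulVec_self Q x hQx, neg_neg]
        obtain ⟨l, hl⟩ := ih U' hdisj' hd'
          (reflectionMatrix ⇑Q x * (reflectionMatrix ⇑Q s * M))
          (fun z => by
            rw [← Matrix.mulVec_mulVec, ← Matrix.mulVec_mulVec,
              reflectionMatrix_isometry Q x hQx, reflectionMatrix_isometry Q s hQs, hM])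
          (hfix' _ (fun u hu => by
              rw [← Matrix.mulVec_mulVec, ← Matrix.mulVec_mulVec, hfix u hu,
                hrefl_fix s hsorth u hu, hrefl_fix x hxorth u hu])
            (by rw [← Matrix.mulVec_mulVec, ← Matrix.mulVec_mulVec, hsy, hxx]))
        refine ⟨⟨s, hQs⟩ :: ⟨x, hQx⟩ :: l, ?_⟩
        rw [List.map_cons, List.prod_cons, List.map_cons, List.prod_cons, ← hl]
        show M = reflectionMatrix ⇑Q s * (reflectionMatrix ⇑Q x *
          (reflectionMatrix ⇑Q x * (reflectionMatrix ⇑Q s * M)))
        rw [← mul_assoc (reflectionMatrix ⇑Q x), refl_sq Q x hQx, one_mul, ← mul_assoc,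
          refl_sq Q s hQs, one_mul]

theorem cd (h2 : (2 : F) ≠ 0) (Q : QuadraticForm F (Fin n → F))
    (hQ : (QuadraticMap.polarBilin Q).Nondegenerate) (M : Matrix (Fin n) (Fin n) F)
    (hM : ∀ x, Q (M *ᵥ x) = Q x) :
    ∃ l : List {v : Fin n → F // Q v ≠ 0},
      M = (l.map (fun v => reflectionMatrix ⇑Q v.1)).prod :=
  cd_aux h2 Q hQ n ⊥ (by simp) (by omega) M hM (by
    intro u hu
    rw [(Submodule.mem_bot F).mp hu]
    simp)

/-- a reflection as an element of the isometry group -/
def rO (Q : QuadraticForm F (Fin n → F)) (v : {v : Fin n → F // Q v ≠ 0}) :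
    ↥(Cfsg.isometryGroup F ⇑Q) :=
  ⟨⟨reflectionMatrix ⇑Q v.1, reflectionMatrix ⇑Q v.1, refl_sq Q v.1 v.2, refl_sq Q v.1 v.2⟩,
    fun u _ => reflectionMatrix_isometry Q v.1 v.2 u⟩

theorem prod_coe (Q : QuadraticForm F (Fin n → F)) (l : List {v : Fin n → F // Q v ≠ 0}) :
    ((((l.map (rO Q)).prod : ↥(Cfsg.isometryGroup F ⇑Q)) : GL (Fin n) F) :
        Matrix (Fin n) (Fin n) F)
      = (l.map (fun v => reflectionMatrix ⇑Q v.1)).prod := by
  induction l with
  | nil => rfl
  | cons a l ih =>
    rw [List.map_cons, List.prod_cons, List.map_cons, List.prod_cons, ← ih]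
    rfl

theorem det_prod (Q : QuadraticForm F (Fin n → F)) (l : List {v : Fin n → F // Q v ≠ 0}) :
    ((l.map (fun v => reflectionMatrix ⇑Q v.1)).prod).det = (-1) ^ l.length := by
  induction l with
  | nil => simp
  | cons a l ih =>
    rw [List.map_cons, List.prod_cons, Matrix.det_mul, ih, reflectionMatrix_det Q a.1 a.2,
      List.length_cons, pow_succ]
    ring

theorem even_mem (Q : QuadraticForm F (Fin n → F)) :
    ∀ (k : ℕ) (l : List {v : Fin n → F // Q v ≠ 0}), l.length = 2 * k →
      (l.map (rO Q)).prod ∈ Subgroup.closure {g : ↥(Cfsg.isometryGroup F ⇑Q) |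
        ∃ u v : Fin n → F, Q u ≠ 0 ∧ Q v ≠ 0 ∧
          ((g : Matrix.GeneralLinearGroup (Fin n) F) : Matrix (Fin n) (Fin n) F)
            = Cfsg.reflectionMatrix ⇑Q u * Cfsg.reflectionMatrix ⇑Q v} := by
  intro k
  induction k with
  | zero =>
    intro l hl
    have : l = [] := List.length_eq_zero_iff.mp (by omega)
    subst this
    simp
  | succ k ih =>
    intro l hl
    match l, hl with
    | [], hl => simp at hl
    | [a], hl => simp at hl; omega
    | a :: b :: l', hl =>
      rw [List.map_cons, List.prod_cons, List.map_cons, List.prod_cons, ← mul_assoc]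
      refine Subgroup.mul_mem _ (Subgroup.subset_closure ⟨a.1, b.1, a.2, b.2, rfl⟩)
        (ih l' (by simp at hl; omega))

theorem main (h2 : (2 : F) ≠ 0) (Q : QuadraticForm F (Fin n → F))
    (hQ : (QuadraticMap.polarBilin Q).Nondegenerate) :
    Cfsg.specialIsometryGroup F ⇑Q = Subgroup.closure {g : ↥(Cfsg.isometryGroup F ⇑Q) |
      ∃ u v : Fin n → F, Q u ≠ 0 ∧ Q v ≠ 0 ∧
        ((g : Matrix.GeneralLinearGroup (Fin n) F) : Matrix (Fin n) (Fin n) F)
          = Cfsg.reflectionMatrix ⇑Q u * Cfsg.reflectionMatrix ⇑Q v} := by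
  apply le_antisymm
  · intro g hg
    have hdet : ((g : GL (Fin n) F) : Matrix (Fin n) (Fin n) F).det = 1 := by
      have h3 := congrArg (fun u : Fˣ => (u : F)) (MonoidHom.mem_ker.mp hg)
      simpa using h3
    obtain ⟨l, hl⟩ : ∃ l : List {v : Fin n → F // Q v ≠ 0},
        ((g : GL (Fin n) F) : Matrix (Fin n) (Fin n) F)
          = (l.map (fun v => reflectionMatrix ⇑Q v.1)).prod :=
      cd h2 Q hQ _ (fun x => g.2 x x)
    have hg' : g = (l.map (rO Q)).prod := by
      apply Subtype.ext
      apply Units.ext
      rw [prod_coe]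
      exact hl
    have hlen : Even l.length := by
      by_contra hodd
      rw [Nat.not_even_iff_odd] at hodd
      rw [hl, det_prod, hodd.neg_one_pow] at hdet
      apply h2
      linear_combination -hdet
    obtain ⟨k, hk⟩ := hlen
    rw [hg']
    exact even_mem Q k l (by omega)
  · rw [Subgroup.closure_le]
    rintro g ⟨u, v, hu, hv, hg⟩
    show g ∈ (Matrix.GeneralLinearGroup.det.comp (Cfsg.isometryGroup F ⇑Q).subtype).ker
    rw [MonoidHom.mem_ker]
    apply Units.ext
    show ((g : GL (Fin n) F) : Matrix (Fin n) (Fin n) F).det = 1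
    rw [hg, Matrix.det_mul, reflectionMatrix_det Q u hu, reflectionMatrix_det Q v hv]
    ring

end


/-- For q odd and Q with non-degenerate polar form on F^n, the determinant-one isometries form the subgroup generated by all products r_u r_v of two reflections (Q(u), Q(v) ≠ 0). -/
theorem result {F : Type*} [Field F] [Fintype F] (h2 : (2 : F) ≠ 0) {n : ℕ} (Q : QuadraticForm F (Fin n → F)) (hQ : (QuadraticMap.polarBilin Q).Nondegenerate) : Cfsg.specialIsometryGroup F ⇑Q = Subgroup.closure {g : ↥(Cfsg.isometryGroup F ⇑Q) | ∃ u v : Fin n → F, Q u ≠ 0 ∧ Q v ≠ 0 ∧ ((g : Matrix.GeneralLinearGroup (Fin n) F) : Matrix (Fin n) (Fin n) F) = Cfsg.reflectionMatrix ⇑Q u * Cfsg.reflectionMatrix ⇑Q v} := by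
  exact main h2 Q hQ


end Cfsg.Agent.S0792
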