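import Cfsg.Statements.S0781
import Mathlib
import Cfsg.Agent.S0284
import Cfsg.Agent.S0277
import Cfsg.Agent.S0751
import Cfsg.Agent.S0792
-- import your own Cfsg.Agent.* helpers here

set_option autoImplicit false
open Cfsg

namespace Cfsg.Agent.S0781

open Matrix

theorem det_one_add_nilp {F : Type*} [Field F] {n : ℕ} (N : Matrix (Fin n) (Fin n) F)
    (hN : IsNilpotent N) : (1 + N).det = 1 := by
  have h1 : IsNilpotent (-N) := hN.neg
  have h2 := Matrix.isNilpotent_charpoly_sub_pow_of_isNilpotent h1
  have h3 : (-N).charpoly = Polynomial.X ^ (Fintype.card (Fin n)) := by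
    have := h2.eq_zero
    exact sub_eq_zero.mp this
  have h4 := Matrix.eval_charpoly (-N) (1 : F)
  rw [h3] at h4
  simp only [Polynomial.eval_pow, Polynomial.eval_X, one_pow, map_one, sub_neg_eq_add] at h4
  exact h4.symm

section
variable {F : Type*} [Field F] {n : ℕ} (q : ℕ)

/-- The matrix of `x ↦ x + h(x,v) a - h(x,a) v + t h(x,v) v`. -/
def Emat (v a : Fin n → F) (t : F) : Matrix (Fin n) (Fin n) F :=
  1 + vecMulVec a (fun j => v j ^ q) - vecMulVec v (fun j => a j ^ q)
    + t • vecMulVec v (fun j => v j ^ q)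

theorem dot_pow (v x : Fin n → F) : (fun j => v j ^ q) ⬝ᵥ x = hermForm n F q x v := by
  unfold hermForm dotProduct
  exact Finset.sum_congr rfl (fun i _ => mul_comm _ _)

theorem Emat_mulVec (v a : Fin n → F) (t : F) (x : Fin n → F) :
    Emat q v a t *ᵥ x = x + hermForm n F q x v • a - hermForm n F q x a • v
      + (t * hermForm n F q x v) • v := by
  unfold Emat
  rw [Matrix.add_mulVec, Matrix.sub_mulVec, Matrix.add_mulVec, Matrix.one_mulVec,
    Matrix.smul_mulVec, Matrix.vecMulVec_mulVec, Matrix.vecMulVec_mulVec,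
    Matrix.vecMulVec_mulVec, dot_pow, dot_pow]
  simp only [op_smul_eq_smul, smul_smul]

theorem tv_mulVec (v : Fin n → F) (c : F) (x : Fin n → F) :
    unitaryTransvection n q v c *ᵥ x = x + (c * hermForm n F q x v) • v := by
  unfold unitaryTransvection
  rw [Matrix.add_mulVec, Matrix.one_mulVec,
    Matrix.smul_mulVec, Matrix.vecMulVec_mulVec, dot_pow]
  simp only [op_smul_eq_smul, smul_smul]

end

theorem main {F : Type*} [Field F] [Fintype F] {q : ℕ} (hF : Fintype.card F = q ^ 2) (n : ℕ)
    (hn : 3 ≤ n) (A : ↥(Cfsg.SU n F q)) (v : Fin n → F) (c : F)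
    (hv0 : Cfsg.hermForm n F q v v = 0)
    (hA : ((A : Matrix.SpecialLinearGroup (Fin n) F) : Matrix (Fin n) (Fin n) F)
      = Cfsg.unitaryTransvection n q v c) : A ∈ commutatorSet ↥(Cfsg.SU n F q) := by
  classical
  set σ : F →+* F := S0284.frob hF with hσ
  set B : (Fin n → F) →ₛₗ[σ] (Fin n → F) →ₗ[F] F := S0277.hB hF n with hB
  have hsym : ∀ x y, σ (B x y) = B y x := fun x y => S0284.herm_fix hF n y x
  have hσσ : ∀ x, σ (σ x) = x := S0284.frob_invol hF
  have hvv : B v v = 0 := hv0
  have hE : ∀ a t x, Emat q v a t *ᵥ x = x + B v x • a - B a x • v + (t * B v x) • v :=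
    fun a t x => Emat_mulVec q v a t x
  have hT : ∀ c x, unitaryTransvection n q v c *ᵥ x = x + (c * B v x) • v :=
    fun c x => tv_mulVec q v c x
  have hswap : ∀ a, B v a = 0 → B a v = 0 := by
    intro a ha
    rw [← hsym, ha, map_zero]
  -- composition
  have hcomp : ∀ a b t s, B v a = 0 → B v b = 0 →
      Emat q v a t * Emat q v b s = Emat q v (a + b) (t + s - B a b) := by
    intro a b t s ha hb
    have hav := hswap a ha
    apply S0792.mat_ext_mulVec
    intro x
    rw [← Matrix.mulVec_mulVec, hE b s x, hE a t, hE (a + b) _ x]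
    simp only [map_add, map_sub, map_smul, smul_eq_mul, hvv, hb, hav, LinearMap.add_apply]
    module
  have hTE : ∀ a t c, B v a = 0 →
      unitaryTransvection n q v c * Emat q v a t = Emat q v a (c + t) := by
    intro a t c ha
    apply S0792.mat_ext_mulVec
    intro x
    rw [← Matrix.mulVec_mulVec, hE a t x, hT c, hE a _ x]
    simp only [map_add, map_sub, map_smul, smul_eq_mul, hvv, ha]
    module
  have hiso : ∀ a t, B v a = 0 → t + σ t + B a a = 0 → ∀ x y,
      B (Emat q v a t *ᵥ y) (Emat q v a t *ᵥ x) = B y x := by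
    intro a t ha ht x y
    have hav := hswap a ha
    rw [hE, hE]
    simp only [map_add, map_sub, map_smul, map_smulₛₗ, LinearMap.add_apply, LinearMap.sub_apply,
      LinearMap.smul_apply, smul_eq_mul, map_mul, hvv, ha, hav]
    rw [← hsym a y, ← hsym v y]
    linear_combination (B v x * σ (B v y)) * ht
  have hdet : ∀ a t, B v a = 0 → (Emat q v a t).det = 1 := by
    intro a t ha
    have hav := hswap a ha
    set N := Emat q v a t - 1 with hN
    have hNx : ∀ x, N *ᵥ x = B v x • a - B a x • v + (t * B v x) • v := by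
      intro x
      rw [hN, Matrix.sub_mulVec, hE, Matrix.one_mulVec]
      abel
    have hN3 : N ^ 3 = 0 := by
      apply S0792.mat_ext_mulVec
      intro x
      rw [pow_succ, pow_succ, pow_one, ← Matrix.mulVec_mulVec, ← Matrix.mulVec_mulVec,
        Matrix.zero_mulVec, hNx x, hNx, hNx]
      simp only [map_add, map_sub, map_smul, smul_eq_mul, hvv, ha, hav]
      module
    have h1 : Emat q v a t = 1 + N := by
      rw [hN]
      abel
    rw [h1]
    exact det_one_add_nilp N ⟨3, hN3⟩
  -- the SU element with matrix E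
  have hEl : ∀ a t, B v a = 0 → t + σ t + B a a = 0 → ∃ g : ↥(Cfsg.SU n F q),
      ((g : Matrix.SpecialLinearGroup (Fin n) F) : Matrix (Fin n) (Fin n) F) = Emat q v a t := by
    intro a t ha ht
    exact ⟨⟨⟨Emat q v a t, hdet a t ha⟩, fun x y => hiso a t ha ht x y⟩, rfl⟩
  have htriv : ((A : Matrix.SpecialLinearGroup (Fin n) F) : Matrix (Fin n) (Fin n) F) = 1 →
      A ∈ commutatorSet ↥(Cfsg.SU n F q) := by
    intro h1
    have : A = 1 := Subtype.ext (Subtype.ext h1)
    rw [this]
    exact one_mem_commutatorSet _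
  by_cases hc : c = 0
  · apply htriv
    rw [hA]
    unfold unitaryTransvection
    rw [hc, zero_smul, add_zero]
  by_cases hv : v = 0
  · apply htriv
    rw [hA]
    apply S0792.mat_ext_mulVec
    intro x
    rw [hT, hv]
    simp
  obtain ⟨w, hw⟩ : ∃ w, B v w ≠ 0 := by
    by_contra hcon
    push Not at hcon
    exact hv ((S0277.hB_nondeg hF n).1 v hcon)
  have hcc : c + σ c = 0 := by
    have h1 := A.2 w w
    have h2 : B (unitaryTransvection n q v c *ᵥ w) (unitaryTransvection n q v c *ᵥ w)
        = B w w := by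
      rw [← hA]
      exact h1
    rw [hT] at h2
    simp only [map_add, map_smul, map_smulₛₗ, LinearMap.add_apply, LinearMap.smul_apply,
      smul_eq_mul, map_mul, hvv] at h2
    rw [← hsym v w] at h2
    have h3 : (c + σ c) * (B v w * σ (B v w)) = 0 := by linear_combination h2
    rcases mul_eq_zero.mp h3 with h | h
    · exact h
    · exfalso
      rcases mul_eq_zero.mp h with h | h
      · exact hw h
      · exact hw (by rw [← hσσ (B v w), h, map_zero])
  obtain ⟨b0, a0, hb0, ha0, hba⟩ : ∃ b a, B v b = 0 ∧ B v a = 0 ∧ B b a ≠ 0 := by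
    by_contra hcon
    push Not at hcon
    set w1 := (B v w)⁻¹ • w with hw1
    have hvw1 : B v w1 = 1 := by rw [hw1, map_smul, smul_eq_mul, inv_mul_cancel₀ hw]
    have hK : ∀ a, B v a = 0 → a = (B w1 a) • v := by
      intro a ha
      have h0 : ∀ x, B (a - (B w1 a) • v) x = 0 := by
        intro x
        have hx' : B v (x - B v x • w1) = 0 := by
          rw [map_sub, map_smul, hvw1, smul_eq_mul, mul_one, sub_self]
        have h1 := hcon a (x - B v x • w1) ha hx'
        rw [map_sub, map_smul, smul_eq_mul] at h1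
        rw [map_sub, map_smulₛₗ, LinearMap.sub_apply, LinearMap.smul_apply, smul_eq_mul,
          hsym w1 a]
        linear_combination h1
      have := (S0277.hB_nondeg hF n).1 _ h0
      exact sub_eq_zero.mp this
    have hspan : ∀ x : Fin n → F, x ∈ Submodule.span F (Set.range ![v, w1]) := by
      intro x
      have hx' : B v (x - B v x • w1) = 0 := by
        rw [map_sub, map_smul, hvw1, smul_eq_mul, mul_one, sub_self]
      have h1 := hK _ hx'
      have h2 : x = (B w1 (x - B v x • w1)) • v + B v x • w1 := by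
        linear_combination (norm := module) h1
      rw [h2]
      exact Submodule.add_mem _ (Submodule.smul_mem _ _ (Submodule.subset_span ⟨0, rfl⟩))
        (Submodule.smul_mem _ _ (Submodule.subset_span ⟨1, rfl⟩))
    have h2 : Submodule.span F (Set.range ![v, w1]) = ⊤ := Submodule.eq_top_iff'.mpr hspan
    have h3 := finrank_range_le_card (R := F) ![v, w1]
    unfold Set.finrank at h3
    rw [h2, finrank_top, Module.finrank_fin_fun] at h3
    simp at h3
    omega
  obtain ⟨θ, hθ⟩ := S0751.exists_theta σ (S0284.frob_ne hF) hσσ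
  set lam : F := σ (θ * c / B b0 a0) with hlam
  set b := lam • b0 with hb
  have hbv : B v b = 0 := by rw [hb, map_smul, hb0, smul_zero]
  have hz : B b a0 = θ * c := by
    rw [hb, map_smulₛₗ, LinearMap.smul_apply, smul_eq_mul, hlam, hσσ, div_mul_cancel₀ _ hba]
  have hz' : B a0 b = σ θ * σ c := by rw [← hsym b a0, hz, map_mul]
  have hself : ∀ a, σ (B a a) = B a a := fun a => hsym a a
  have ht : ∀ a, (-θ * B a a) + σ (-θ * B a a) + B a a = 0 := by
    intro a
    rw [map_mul, map_neg, hself]
    linear_combination (-B a a) * hθ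
  obtain ⟨ga, hga⟩ := hEl a0 _ ha0 (ht a0)
  obtain ⟨gb, hgb⟩ := hEl b _ hbv (ht b)
  refine ⟨ga, gb, ?_⟩
  have key : A * (gb * ga) = ga * gb := by
    apply Subtype.ext
    apply Subtype.ext
    simp only [Subgroup.coe_mul, Matrix.SpecialLinearGroup.coe_mul]
    rw [hA, hga, hgb, hcomp _ _ _ _ hbv ha0, hcomp _ _ _ _ ha0 hbv, hTE, add_comm b a0]
    · congr 1
      rw [hz, hz']
      linear_combination (σ θ) * hcc - c * hθ
    · rw [map_add, ha0, hbv, add_zero]
  rw [commutatorElement_def, ← key]
  group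


/-- In SU_n(q) with n ≥ 4, or n = 3 and q > 2, every element whose matrix is a unitary transvection x ↦ x + c h(x, v) v (v isotropic) is a commutator ⁅B, C⁆ of two elements of SU_n(q). -/
theorem result {F : Type*} [Field F] [Fintype F] {q : ℕ} (hF : Fintype.card F = q ^ 2) (n : ℕ) (hn : 4 ≤ n ∨ (n = 3 ∧ 3 ≤ q)) (A : ↥(Cfsg.SU n F q)) (v : Fin n → F) (c : F) (hv0 : Cfsg.hermForm n F q v v = 0) (hA : ((A : Matrix.SpecialLinearGroup (Fin n) F) : Matrix (Fin n) (Fin n) F) = Cfsg.unitaryTransvection n q v c) : A ∈ commutatorSet ↥(Cfsg.SU n F q) := by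
  have hn3 : 3 ≤ n := by
    rcases hn with h | ⟨h, _⟩ <;> omega
  exact main hF n hn3 A v c hv0 hA


end Cfsg.Agent.S0781
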