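import Mathlib
import Cfsg.Agent.Helper4.SimpleSmall
import Cfsg.Statements.S0988

set_option autoImplicit false
open Cfsg

namespace Cfsg.Agent.S0988

/-- Burnside's transfer theorem: a simple group has no proper nontrivial Sylow subgroup that is
central in its normalizer. -/
theorem no_npc {G : Type*} [Group G] [Finite G] [IsSimpleGroup G] {p : ℕ} [Fact p.Prime]
    (P : Sylow p G)
    (hN : Subgroup.normalizer ((P : Subgroup G) : Set G) ≤
      Subgroup.centralizer ((P : Subgroup G) : Set G))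
    (h1 : Nat.card (P : Subgroup G) ≠ 1) (h2 : Nat.card (P : Subgroup G) ≠ Nat.card G) :
    False := by
  have hc := MonoidHom.ker_transferSylow_isComplement' P hN
  obtain ⟨K, hKn, hcard⟩ : ∃ K : Subgroup G, K.Normal ∧
      Nat.card K * Nat.card (P : Subgroup G) = Nat.card G :=
    ⟨_, inferInstance, hc.card_mul_card⟩
  rcases IsSimpleGroup.eq_bot_or_eq_top_of_normal K hKn with h | h
  · rw [h, Subgroup.card_bot, one_mul] at hcard
    exact h2 hcard
  · rw [h, Subgroup.card_top] at hcard
    have hpos : 0 < Nat.card G := Nat.card_pos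
    exact h1 (Nat.eq_of_mul_eq_mul_left hpos (hcard.trans (mul_one _).symm))

/-- The order of a Sylow subgroup. -/
theorem sylow_card {G : Type*} [Group G] [Finite G] {p : ℕ} [Fact p.Prime] (P : Sylow p G)
    (a m : ℕ) (hG : Nat.card G = p ^ a * m) (hm : ¬ p ∣ m) :
    Nat.card (P : Subgroup G) = p ^ a := by
  have hp : p.Prime := Fact.out
  obtain ⟨k, hk⟩ := P.2.exists_card_eq
  have h1 : p ^ a ∣ Nat.card (P : Subgroup G) :=
    P.pow_dvd_card_of_pow_dvd_card (Dvd.intro m hG.symm)
  rw [hk] at h1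
  have hak : a ≤ k := (Nat.pow_dvd_pow_iff_le_right hp.one_lt).1 h1
  have h2 : p ^ k ∣ p ^ a * m := by
    rw [← hk, ← hG]; exact Subgroup.card_subgroup_dvd_card _
  have hka : k ≤ a := by
    by_contra hlt
    push_neg at hlt
    have h3 : p ^ a * p ∣ p ^ a * m := by
      rw [← pow_succ]
      exact (pow_dvd_pow p (Nat.succ_le_of_lt hlt)).trans h2
    exact hm (Nat.dvd_of_mul_dvd_mul_left (pow_pos hp.pos a) h3)
  rw [hk, le_antisymm hka hak]

/-- The subgroup of fixed points of an automorphism. -/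
def fixSub {P : Type*} [Group P] (α : MulAut P) : Subgroup P where
  carrier := {y | α y = y}
  mul_mem' := fun {a b} ha hb => by
    have ha' : α a = a := ha
    have hb' : α b = b := hb
    show α (a * b) = a * b
    rw [map_mul, ha', hb']
  one_mem' := map_one α
  inv_mem' := fun {a} ha => by
    have ha' : α a = a := ha
    show α a⁻¹ = a⁻¹
    rw [map_inv, ha']

theorem mem_fixSub {P : Type*} [Group P] (α : MulAut P) (y : P) :
    y ∈ fixSub α ↔ α y = y := Iff.rfl

/-- An automorphism of prime order `l > p` of a group of order `p ^ 2` forces `p = 2`, `l = 3`. -/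
theorem aut_order {P : Type*} [Group P] [Finite P] (p l : ℕ) (hp : p.Prime) (hl : l.Prime)
    (hP : Nat.card P = p ^ 2) (hpl : p < l) (α : MulAut P) (hα : orderOf α = l) :
    p = 2 ∧ l = 3 := by
  haveI : Fact l.Prime := ⟨hl⟩
  have hp2 := hp.two_le
  have hF := Subgroup.card_subgroup_dvd_card (fixSub α)
  rw [hP] at hF
  obtain ⟨m, hm, hFm⟩ := (Nat.dvd_prime_pow hp).1 hF
  have hZ : IsPGroup l (Subgroup.zpowers α) :=
    IsPGroup.of_card (n := 1) (by rw [Nat.card_zpowers, hα, pow_one])
  have hmod := hZ.card_modEq_card_fixedPoints P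
  have hfix : MulAction.fixedPoints (Subgroup.zpowers α) P = (fixSub α : Set P) := by
    ext y
    rw [MulAction.mem_fixedPoints]
    constructor
    · intro hy
      exact hy ⟨α, Subgroup.mem_zpowers α⟩
    · intro hy z
      have hle : Subgroup.zpowers α ≤ MulAction.stabilizer (MulAut P) y := by
        rw [Subgroup.zpowers_le]
        exact hy
      exact hle z.2
  have hcard : Nat.card (MulAction.fixedPoints (Subgroup.zpowers α) P) = Nat.card (fixSub α) := by
    rw [hfix]; rfl
  rw [hcard, hP, hFm] at hmod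
  have hle : p ^ m ≤ p ^ 2 := Nat.pow_le_pow_right hp.pos hm
  have hd : l ∣ p ^ 2 - p ^ m := (Nat.modEq_iff_dvd' hle).1 hmod.symm
  have hm3 : m = 0 ∨ m = 1 ∨ m = 2 := by omega
  rcases hm3 with rfl | rfl | rfl
  · rw [pow_zero] at hd
    have h1 : p ^ 2 - 1 = (p - 1) * (p + 1) := by
      obtain ⟨k, rfl⟩ : ∃ k, p = k + 1 := ⟨p - 1, by omega⟩
      have : (k + 1) ^ 2 = k * (k + 1 + 1) + 1 := by ring
      rw [this]; simp
    rw [h1] at hd
    rcases (Nat.Prime.dvd_mul hl).1 hd with h | h
    · have := Nat.le_of_dvd (by omega) h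
      omega
    · have := Nat.le_of_dvd (by omega) h
      have hl1 : l = p + 1 := by omega
      rcases hp.eq_two_or_odd with h2 | h2 <;> rcases hl.eq_two_or_odd with h3 | h3 <;> omega
  · rw [pow_one] at hd
    have h1 : p ^ 2 - p = p * (p - 1) := by rw [Nat.mul_sub_one, sq]
    rw [h1] at hd
    rcases (Nat.Prime.dvd_mul hl).1 hd with h | h
    · have := Nat.le_of_dvd hp.pos h
      omega
    · have := Nat.le_of_dvd (by omega) h
      omega
  · exfalso
    have htop : fixSub α = ⊤ := Subgroup.eq_top_of_card_eq _ (by rw [hFm, hP])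
    have hα1 : α = 1 := by
      ext y
      have hy : y ∈ fixSub α := by rw [htop]; exact Subgroup.mem_top y
      rw [MulAut.one_apply]
      exact (mem_fixSub α y).1 hy
    rw [hα1, orderOf_one] at hα
    exact hl.ne_one hα.symm

theorem aut_aux {N Pt : Type*} [Group N] [Finite N] [Group Pt] [Finite Pt]
    (p q r : ℕ) (hp : p.Prime) (hq : q.Prime) (hr : r.Prime) (hpq : p < q) (hpr : p < r)
    (hP : Nat.card Pt = p ^ 2) (φ : N →* MulAut Pt) (hne : φ.ker ≠ ⊤)
    (hdvd : φ.ker.index ∣ q * r) : p = 2 ∧ (q = 3 ∨ r = 3) := by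
  have hidx1 : φ.ker.index ≠ 1 := fun h => hne (Subgroup.index_eq_one.1 h)
  obtain ⟨l, hl, hld⟩ := Nat.exists_prime_and_dvd hidx1
  have hlqr : l = q ∨ l = r := by
    rcases (Nat.Prime.dvd_mul hl).1 (hld.trans hdvd) with h | h
    · exact Or.inl ((Nat.prime_dvd_prime_iff_eq hl hq).1 h)
    · exact Or.inr ((Nat.prime_dvd_prime_iff_eq hl hr).1 h)
  have hpl : p < l := by rcases hlqr with h | h <;> omega
  haveI : Fact l.Prime := ⟨hl⟩
  haveI : Finite φ.range := Finite.of_surjective φ.rangeRestrict φ.rangeRestrict_surjective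
  obtain ⟨x, hx⟩ := exists_prime_orderOf_dvd_card' (G := φ.range) l
    (by rw [← Subgroup.index_ker]; exact hld)
  have hα : orderOf (x : MulAut Pt) = l := by rw [Subgroup.orderOf_coe]; exact hx
  obtain ⟨h2, h3⟩ := aut_order p l hp hl hP hpl (x : MulAut Pt) hα
  refine ⟨h2, ?_⟩
  rcases hlqr with h | h
  · left; omega
  · right; omega

theorem pqr_aux {G : Type*} [Group G] [Finite G] [IsSimpleGroup G]
    (p q r : ℕ) (hp : p.Prime) (hq : q.Prime) (hr : r.Prime)
    (hG : Nat.card G = p ^ 2 * q * r) (hpq : p < q) (hpr : p < r) :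
    p = 2 ∧ (q = 3 ∨ r = 3) := by
  haveI : Fact p.Prime := ⟨hp⟩
  have hnd : ¬ p ∣ q * r := by
    intro h
    rcases (Nat.Prime.dvd_mul hp).1 h with h | h
    · have := (Nat.prime_dvd_prime_iff_eq hp hq).1 h; omega
    · have := (Nat.prime_dvd_prime_iff_eq hp hr).1 h; omega
  have hqr1 : 1 < q * r := by
    have := Nat.mul_le_mul hq.two_le hr.two_le
    omega
  obtain ⟨P⟩ : Nonempty (Sylow p G) := inferInstance
  have hPcard : Nat.card (P : Subgroup G) = p ^ 2 :=
    sylow_card P 2 (q * r) (by rw [hG, mul_assoc]) hnd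
  have hidx : (P : Subgroup G).index = q * r := by
    have h := Subgroup.card_mul_index (P : Subgroup G)
    rw [hPcard, hG, mul_assoc] at h
    exact Nat.eq_of_mul_eq_mul_left (pow_pos hp.pos 2) h
  have hcomm : ∀ a b : (P : Subgroup G), a * b = b * a :=
    IsPGroup.commutative_of_card_eq_prime_sq hPcard
  have hnpc : ¬ (Subgroup.normalizer ((P : Subgroup G) : Set G) ≤
      Subgroup.centralizer ((P : Subgroup G) : Set G)) := by
    intro hN
    refine no_npc P hN ?_ ?_
    · rw [hPcard]; exact (Nat.one_lt_pow (by norm_num) hp.one_lt).ne'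
    · rw [hPcard, hG, mul_assoc]
      intro h
      have h' : p ^ 2 * 1 = p ^ 2 * (q * r) := by rw [mul_one]; exact h
      exact absurd (Nat.eq_of_mul_eq_mul_left (pow_pos hp.pos 2) h') (Nat.ne_of_lt hqr1)
  obtain ⟨n, hnN, hnC⟩ := SetLike.not_le_iff_exists.1 hnpc
  have hker_ne : (Subgroup.normalizerMonoidHom (P : Subgroup G)).ker ≠ ⊤ := by
    intro h
    have hmem : (⟨n, hnN⟩ : Subgroup.normalizer ((P : Subgroup G) : Set G)) ∈
        (Subgroup.normalizerMonoidHom (P : Subgroup G)).ker := by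
      rw [h]; exact Subgroup.mem_top _
    rw [Subgroup.normalizerMonoidHom_ker, Subgroup.mem_subgroupOf] at hmem
    exact hnC hmem
  have hdvd : (Subgroup.normalizerMonoidHom (P : Subgroup G)).ker.index ∣ q * r := by
    have hle : (P : Subgroup G).subgroupOf (Subgroup.normalizer ((P : Subgroup G) : Set G)) ≤
        (Subgroup.normalizerMonoidHom (P : Subgroup G)).ker := by
      rw [Subgroup.normalizerMonoidHom_ker]
      intro x hx
      rw [Subgroup.mem_subgroupOf] at hx ⊢
      rw [Subgroup.mem_centralizer_iff]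
      intro y hy
      exact congrArg Subtype.val (hcomm ⟨y, hy⟩ ⟨(x : G), hx⟩)
    have h1 := Subgroup.index_dvd_of_le hle
    have h2 : (P : Subgroup G).relIndex (Subgroup.normalizer ((P : Subgroup G) : Set G)) ∣
        (P : Subgroup G).index :=
      Subgroup.relIndex_dvd_index_of_le Subgroup.le_normalizer
    rw [hidx] at h2
    exact h1.trans h2
  exact aut_aux p q r hp hq hr hpq hpr hPcard (Subgroup.normalizerMonoidHom (P : Subgroup G))
    hker_ne hdvd

theorem arith12 (r n : ℕ) (hr : r.Prime) (h5 : 5 ≤ r) (hn : n ∣ 12) (hmod : n ≡ 1 [MOD r])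
    (hn1 : n ≠ 1) : r = 5 ∨ (r = 11 ∧ n = 12) := by
  have hpos : 0 < n := Nat.pos_of_dvd_of_pos hn (by norm_num)
  have hle : n ≤ 12 := Nat.le_of_dvd (by norm_num) hn
  have hd : r ∣ n - 1 := (Nat.modEq_iff_dvd' hpos).1 hmod.symm
  interval_cases n <;> first
    | exact absurd rfl hn1
    | omega
    | (have := Nat.le_of_dvd (by norm_num) hd; omega)
    | (right; exact ⟨(Nat.prime_dvd_prime_iff_eq hr (by norm_num)).1 hd, rfl⟩)

theorem twelve_r {G : Type*} [Group G] [Finite G] [IsSimpleGroup G] (r : ℕ) (hr : r.Prime)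
    (h5 : 5 ≤ r) (hG : Nat.card G = 12 * r) : Nat.card G = 60 := by
  have hnd : ¬ r ∣ 12 := by
    intro h
    have h12 := Nat.le_of_dvd (by norm_num) h
    interval_cases r <;> first | omega | exact absurd hr (by norm_num)
  haveI : Fact r.Prime := ⟨hr⟩
  obtain ⟨R⟩ : Nonempty (Sylow r G) := inferInstance
  have hRcard : Nat.card (R : Subgroup G) = r := by
    have h := sylow_card R 1 12 (by rw [hG, pow_one, mul_comm]) hnd
    rwa [pow_one] at h
  have hidx : (R : Subgroup G).index = 12 := by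
    have h := Subgroup.card_mul_index (R : Subgroup G)
    rw [hRcard, hG, mul_comm r] at h
    exact Nat.eq_of_mul_eq_mul_right hr.pos h
  have hR1 : Nat.card (R : Subgroup G) ≠ 1 := by rw [hRcard]; exact hr.ne_one
  have hR2 : Nat.card (R : Subgroup G) ≠ Nat.card G := by rw [hRcard, hG]; omega
  have hne1 : Nat.card (Sylow r G) ≠ 1 := Cfsg.Agent.Helper4.card_sylow_ne_one R hR1 hR2
  have hdvd : Nat.card (Sylow r G) ∣ 12 := by
    have h := R.card_dvd_index
    rwa [hidx] at h
  have hmod : Nat.card (Sylow r G) ≡ 1 [MOD r] := card_sylow_modEq_one r G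
  rcases arith12 r _ hr h5 hdvd hmod hne1 with h | ⟨h11, h12⟩
  · rw [hG]; omega
  · exfalso
    have hNidx : (Subgroup.normalizer ((R : Subgroup G) : Set G)).index = 12 :=
      (Sylow.card_eq_index_normalizer R).symm.trans h12
    have hNcard : Nat.card (Subgroup.normalizer ((R : Subgroup G) : Set G)) = r := by
      have h := Subgroup.card_mul_index (Subgroup.normalizer ((R : Subgroup G) : Set G))
      rw [hNidx, hG] at h
      omega
    have hRN : (R : Subgroup G) = Subgroup.normalizer ((R : Subgroup G) : Set G) :=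
      Subgroup.eq_of_le_of_card_ge Subgroup.le_normalizer (by rw [hNcard, hRcard])
    haveI : IsCyclic (R : Subgroup G) := isCyclic_of_prime_card hRcard
    have hNC : Subgroup.normalizer ((R : Subgroup G) : Set G) ≤
        Subgroup.centralizer ((R : Subgroup G) : Set G) := by
      intro x hx
      rw [← hRN] at hx
      rw [Subgroup.mem_centralizer_iff]
      intro y hy
      have h := (IsCyclic.commGroup (α := (R : Subgroup G))).mul_comm ⟨y, hy⟩ ⟨x, hx⟩
      exact congrArg Subtype.val h
    exact no_npc R hNC hR1 hR2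

theorem sq_dvd_aux (s m : ℕ) (hs : 0 < s) (h : s ^ 2 ∣ s * m) : s ∣ m := by
  rw [sq] at h
  exact Nat.dvd_of_mul_dvd_mul_left hs h

/-- If a finite simple group has order p^2 * q * r with p, q and r prime, then its order is 60. -/
theorem result {G : Type*} [Group G] [Finite G] [IsSimpleGroup G] (p q r : ℕ) (hp : p.Prime) (hq : q.Prime) (hr : r.Prime) (hG : Nat.card G = p ^ 2 * q * r) : Nat.card G = 60 := by
  have hnc : ¬ IsCyclic G := by
    intro hc
    have hprime : (Nat.card G).Prime :=
      @IsSimpleGroup.prime_card G (IsCyclic.commGroup) (inferInstance : IsSimpleGroup G)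
    rw [hG] at hprime
    exact Nat.not_prime_mul
      (fun h => hq.ne_one (Nat.dvd_one.1 (Dvd.intro_left (p ^ 2) h))) hr.ne_one hprime
  have hpq : p ≠ q := by
    rintro rfl
    exact Cfsg.Agent.Helper4.card_ne_prime_pow_mul hnc p r 3 1 hp hr (by rw [hG]; ring)
  have hpr : p ≠ r := by
    rintro rfl
    exact Cfsg.Agent.Helper4.card_ne_prime_pow_mul hnc p q 3 1 hp hq (by rw [hG]; ring)
  have hqr : q ≠ r := by
    rintro rfl
    exact Cfsg.Agent.Helper4.card_ne_prime_pow_mul hnc p q 2 2 hp hq (by rw [hG]; ring)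
  have hqd : q ∣ Nat.card G := by
    rw [hG]; exact (Dvd.intro_left (p ^ 2) rfl).mul_right r
  have hrd : r ∣ Nat.card G := by
    rw [hG]; exact Dvd.intro_left (p ^ 2 * q) rfl
  have hmin : (Nat.card G).minFac = p := by
    have hsq := Cfsg.Agent.Helper4.sq_minFac_dvd hnc
    have hn1 : Nat.card G ≠ 1 := (Finite.one_lt_card).ne'
    have hs : (Nat.card G).minFac.Prime := Nat.minFac_prime hn1
    have hsd : (Nat.card G).minFac ∣ Nat.card G := Nat.minFac_dvd _
    generalize (Nat.card G).minFac = s at hsq hs hsd ⊢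
    rw [hG] at hsq hsd
    rcases (Nat.Prime.dvd_mul hs).1 hsd with h | h
    · rcases (Nat.Prime.dvd_mul hs).1 h with h | h
      · exact (Nat.prime_dvd_prime_iff_eq hs hp).1 (hs.dvd_of_dvd_pow h)
      · exfalso
        have hsq' := (Nat.prime_dvd_prime_iff_eq hs hq).1 h
        rw [hsq'] at hsq
        have h2 : q ∣ p ^ 2 * r := sq_dvd_aux q _ hq.pos (by
          have h3 : p ^ 2 * q * r = q * (p ^ 2 * r) := by ring
          rw [← h3]; exact hsq)
        rcases (Nat.Prime.dvd_mul hq).1 h2 with h3 | h3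
        · exact hpq ((Nat.prime_dvd_prime_iff_eq hq hp).1 (hq.dvd_of_dvd_pow h3)).symm
        · exact hqr ((Nat.prime_dvd_prime_iff_eq hq hr).1 h3)
    · exfalso
      have hsr := (Nat.prime_dvd_prime_iff_eq hs hr).1 h
      rw [hsr] at hsq
      have h2 : r ∣ p ^ 2 * q := sq_dvd_aux r _ hr.pos (by
        have h3 : p ^ 2 * q * r = r * (p ^ 2 * q) := by ring
        rw [← h3]; exact hsq)
      rcases (Nat.Prime.dvd_mul hr).1 h2 with h3 | h3
      · exact hpr ((Nat.prime_dvd_prime_iff_eq hr hp).1 (hr.dvd_of_dvd_pow h3)).symm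
      · exact hqr ((Nat.prime_dvd_prime_iff_eq hr hq).1 h3).symm
  have hpq' : p < q := by
    have h1 := Nat.minFac_le_of_dvd hq.two_le hqd
    rw [hmin] at h1
    exact lt_of_le_of_ne h1 hpq
  have hpr' : p < r := by
    have h1 := Nat.minFac_le_of_dvd hr.two_le hrd
    rw [hmin] at h1
    exact lt_of_le_of_ne h1 hpr
  obtain ⟨h2, h3⟩ := pqr_aux p q r hp hq hr hG hpq' hpr'
  subst h2
  rcases h3 with h3 | h3
  · subst h3
    have hr5 : 5 ≤ r := by
      rcases hr.eq_two_or_odd with h | h <;> omega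
    exact twelve_r r hr hr5 (by rw [hG]; ring)
  · subst h3
    have hq5 : 5 ≤ q := by
      rcases hq.eq_two_or_odd with h | h <;> omega
    exact twelve_r q hq hq5 (by rw [hG]; ring)

end Cfsg.Agent.S0988
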