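import Mathlib
import Cfsg.Agent.Helper4.F4
import Cfsg.Agent.S0282
import Cfsg.Agent.S0261
import Cfsg.Agent.S0988
import Cfsg.Statements.S0827

set_option autoImplicit false
open Cfsg

namespace Cfsg.Agent.S0827

open Cfsg.Agent.Helper4

/-! ### An abstract recognition lemma -/

theorem arith72 (n m : ℕ) (hn8 : n ∣ 8) (hmod : n ≡ 1 [MOD 3]) (h4 : 4 ∣ m) (hm : m * n = 72) :
    n = 1 := by
  have hle : n ≤ 8 := Nat.le_of_dvd (by norm_num) hn8
  have hpos : 0 < n := Nat.pos_of_dvd_of_pos hn8 (by norm_num)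
  have hmod' : n % 3 = 1 := hmod
  interval_cases n <;> omega

/-- A group of order 72 containing elements `d, c, f, g` with the relations of `3² : Q₈` has a
normal elementary abelian subgroup of order 9 with quaternion quotient. -/
theorem abstract_Q8 {G : Type*} [Group G] [Finite G] (hG : Nat.card G = 72)
    (d c f g : G) (hd3 : d ^ 3 = 1) (hc3 : c ^ 3 = 1) (hdc : d * c = c * d)
    (hd1 : d ≠ 1) (hcd : c ∉ Subgroup.zpowers d)
    (hf4 : f ^ 4 = 1) (hf2 : f ^ 2 ≠ 1)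
    (hfd : f * d * f⁻¹ ∈ Subgroup.closure ({d, c} : Set G))
    (hfc : f * c * f⁻¹ ∈ Subgroup.closure ({d, c} : Set G))
    (hg2 : g * g = f ^ 2) (hfgf : f * g * f = g) :
    ∃ (N : Subgroup G) (_ : N.Normal), Nat.card N = 9 ∧ (∀ x ∈ N, x ^ 3 = 1) ∧
      Nonempty (G ⧸ N ≃* QuaternionGroup 2) := by
  haveI : Fact (Nat.Prime 3) := ⟨Nat.prime_three⟩
  have hk : ∀ x ∈ ({d, c} : Set G), ∀ y ∈ ({d, c} : Set G), x * y = y * x := by
    intro x hx y hy
    rw [Set.mem_insert_iff, Set.mem_singleton_iff] at hx hy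
    rcases hx with hx | hx <;> rcases hy with hy | hy <;> rw [hx, hy]
    · exact hdc
    · exact hdc.symm
  have hcommN : ∀ x ∈ Subgroup.closure ({d, c} : Set G),
      ∀ y ∈ Subgroup.closure ({d, c} : Set G), x * y = y * x := by
    intro x hx y hy
    have := (Subgroup.closureCommGroupOfComm hk).mul_comm ⟨x, hx⟩ ⟨y, hy⟩
    exact congrArg Subtype.val this
  have hexp : ∀ x ∈ Subgroup.closure ({d, c} : Set G), x ^ 3 = 1 := by
    intro x hx
    refine Subgroup.closure_induction (p := fun x _ => x ^ 3 = 1) ?_ ?_ ?_ ?_ hx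
    · intro y hy
      rw [Set.mem_insert_iff, Set.mem_singleton_iff] at hy
      rcases hy with hy | hy <;> rw [hy]
      · exact hd3
      · exact hc3
    · exact one_pow 3
    · intro y z hy hz ihy ihz
      have hyz : Commute y z := hcommN y hy z hz
      rw [hyz.mul_pow, ihy, ihz, one_mul]
    · intro y hy ih
      rw [inv_pow, ih, inv_one]
  have hconj : ∀ h ∈ Subgroup.closure ({d, c} : Set G),
      f * h * f⁻¹ ∈ Subgroup.closure ({d, c} : Set G) := by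
    have hle : Subgroup.closure ({d, c} : Set G) ≤
        (Subgroup.closure ({d, c} : Set G)).comap (MulAut.conj f).toMonoidHom := by
      rw [Subgroup.closure_le]
      intro y hy
      rw [Set.mem_insert_iff, Set.mem_singleton_iff] at hy
      rcases hy with hy | hy <;> rw [hy]
      · exact hfd
      · exact hfc
    intro h hh
    exact hle hh
  have hdN : d ∈ Subgroup.closure ({d, c} : Set G) :=
    Subgroup.subset_closure (Set.mem_insert _ _)
  have hcN : c ∈ Subgroup.closure ({d, c} : Set G) :=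
    Subgroup.subset_closure (Set.mem_insert_of_mem _ rfl)
  generalize Subgroup.closure ({d, c} : Set G) = N at hcommN hexp hconj hdN hcN
  -- the order of `N`
  have hp3 : IsPGroup 3 N := fun x => ⟨1, Subtype.ext (by
    show (x : G) ^ 3 ^ 1 = 1
    rw [pow_one]; exact hexp x.1 x.2)⟩
  obtain ⟨k, hk'⟩ := hp3.exists_card_eq
  have hdvd : Nat.card N ∣ 72 := by rw [← hG]; exact Subgroup.card_subgroup_dvd_card N
  have hk2 : k ≤ 2 := by
    by_contra hlt
    have hlt' : 3 ≤ k := by omega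
    have h27 : 3 ^ 3 ∣ 72 := (pow_dvd_pow 3 hlt').trans (by rw [← hk']; exact hdvd)
    exact absurd h27 (by decide)
  have hod : orderOf d = 3 := orderOf_eq_prime hd3 hd1
  have hzd : Subgroup.zpowers d ≤ N := Subgroup.zpowers_le.2 hdN
  have hk1 : 2 ≤ k := by
    by_contra hlt
    have hlt' : k ≤ 1 := by omega
    have hle : Nat.card N ≤ Nat.card (Subgroup.zpowers d) := by
      rw [Nat.card_zpowers, hod, hk']
      calc 3 ^ k ≤ 3 ^ 1 := Nat.pow_le_pow_right (by norm_num) hlt'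
        _ = 3 := by norm_num
    have heq := Subgroup.eq_of_le_of_card_ge hzd hle
    exact hcd (by rw [heq]; exact hcN)
  have hN9 : Nat.card N = 9 := by
    rw [hk', le_antisymm hk2 hk1]; norm_num
  -- `f` normalizes `N`
  have hfN : f ∈ Subgroup.normalizer (N : Set G) := by
    rw [Subgroup.mem_normalizer_iff]
    intro h
    constructor
    · exact hconj h
    · intro hh
      have h3 := hconj _ (hconj _ (hconj _ hh))
      have e : f * (f * (f * (f * h * f⁻¹) * f⁻¹) * f⁻¹) * f⁻¹ = f ^ 4 * h * (f ^ 4)⁻¹ := by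
        have e4 : f ^ 4 = f * f * f * f := by rw [pow_succ, pow_succ, pow_succ, pow_one]
        rw [e4]; group
      rw [e, hf4, one_mul, inv_one, mul_one] at h3
      exact h3
  -- Sylow counting
  obtain ⟨Q, hQ⟩ := hp3.exists_le_sylow
  have hQcard : Nat.card (Q : Subgroup G) = 3 ^ 2 :=
    Cfsg.Agent.S0988.sylow_card Q 2 8 (by norm_num [hG]) (by norm_num)
  have h9 : (3 : ℕ) ^ 2 = 9 := by norm_num
  rw [h9] at hQcard
  have hQN : N = (Q : Subgroup G) := Subgroup.eq_of_le_of_card_ge hQ (by rw [hQcard, hN9])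
  have hidxQ : (Q : Subgroup G).index = 8 := by
    have h := Subgroup.card_mul_index (Q : Subgroup G)
    rw [hQcard, hG] at h
    omega
  have hn3 : Nat.card (Sylow 3 G) = (Subgroup.normalizer (N : Set G)).index := by
    rw [hQN]; exact Sylow.card_eq_index_normalizer Q
  have hmod : Nat.card (Sylow 3 G) ≡ 1 [MOD 3] := card_sylow_modEq_one 3 G
  have hdvd8 : Nat.card (Sylow 3 G) ∣ 8 := by
    have h := Q.card_dvd_index
    rwa [hidxQ] at h
  have hof : orderOf f = 4 :=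
    orderOf_eq_prime_pow (p := 2) (n := 1) (by rw [pow_one]; exact hf2)
      (show f ^ 2 ^ (1 + 1) = 1 from hf4)
  have h4 : 4 ∣ Nat.card (Subgroup.normalizer (N : Set G)) := by
    have h := orderOf_dvd_natCard (⟨f, hfN⟩ : Subgroup.normalizer (N : Set G))
    rw [Subgroup.orderOf_mk, hof] at h
    exact h
  have hNn : Nat.card (Subgroup.normalizer (N : Set G)) * Nat.card (Sylow 3 G) = 72 := by
    rw [hn3, Subgroup.card_mul_index, hG]
  have hn1 : Nat.card (Sylow 3 G) = 1 := arith72 _ _ hdvd8 hmod h4 hNn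
  have hNnormal : N.Normal := by
    rw [← Subgroup.normalizer_eq_top_iff, ← Subgroup.index_eq_one, ← hn3]
    exact hn1
  refine ⟨N, hNnormal, hN9, hexp, ?_⟩
  haveI := hNnormal
  have hQ8 : Nat.card (G ⧸ N) = 8 := by
    have h := Subgroup.card_eq_card_quotient_mul_card_subgroup N
    rw [hG, hN9] at h
    omega
  obtain ⟨π, hπ⟩ : ∃ π : G →* G ⧸ N, ∀ a, π a = (a : G ⧸ N) :=
    ⟨QuotientGroup.mk' N, fun _ => rfl⟩
  have hx4' : π f ^ 4 = 1 := by rw [← map_pow, hf4, map_one]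
  have hx4 : π f ^ (2 * 2) = 1 := hx4'
  have hx2 : π f ^ 2 ≠ 1 := by
    intro h
    rw [← map_pow, hπ] at h
    have hmem : f ^ 2 ∈ N := (QuotientGroup.eq_one_iff (f ^ 2)).1 h
    have h6 := hexp _ hmem
    apply hf2
    calc f ^ 2 = (f ^ 2) ^ 3 * (f ^ 4)⁻¹ := by group
      _ = 1 := by rw [h6, hf4, inv_one, mul_one]
  have hy : π g * π g = π f ^ 2 := by rw [← map_mul, hg2, map_pow]
  have hgf : g * f * g⁻¹ = f⁻¹ := by
    calc g * f * g⁻¹ = f⁻¹ * (f * g * f) * g⁻¹ := by group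
      _ = f⁻¹ * g * g⁻¹ := by rw [hfgf]
      _ = f⁻¹ := by group
  have hxy : π g * π f * (π g)⁻¹ = (π f)⁻¹ := by
    have h := congrArg π hgf
    rw [map_mul, map_mul, map_inv, map_inv] at h
    exact h
  have hord : orderOf (π f) = 2 * 2 :=
    orderOf_eq_prime_pow (p := 2) (n := 1) (by rw [pow_one]; exact hx2)
      (show π f ^ 2 ^ (1 + 1) = 1 from hx4')
  have hynot : π g ∉ Subgroup.zpowers (π f) := by
    intro hmem
    obtain ⟨j, hj⟩ := Subgroup.mem_zpowers_iff.1 hmem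
    have hc : π g * π f = π f * π g := by
      rw [← hj]
      exact ((Commute.refl (π f)).zpow_left j).eq
    have h1 : π f = (π f)⁻¹ := by
      rw [← hxy, hc, mul_inv_cancel_right]
    apply hx2
    rw [sq]
    exact mul_eq_one_iff_eq_inv.2 h1
  have hinj := Cfsg.Agent.S0261.quatHom_injective 2 (π f) (π g) hx4 hy hxy hord hynot
  have hq : Nat.card (QuaternionGroup 2) = 8 := by
    simp [Nat.card_eq_fintype_card, QuaternionGroup.card]
  have hbij : Function.Bijective (Cfsg.Agent.S0261.quatHom 2 (π f) (π g) hx4 hy hxy) :=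
    hinj.bijective_of_nat_card_le (le_of_eq (by rw [hQ8, hq]))
  exact ⟨(MulEquiv.ofBijective _ hbij).symm⟩

/-! ### Concrete matrices over the field with four elements -/

def Dm : Matrix (Fin 3) (Fin 3) F4 := !![1,0,0; 0,F4.w,0; 0,0,F4.v]
def Cm : Matrix (Fin 3) (Fin 3) F4 := !![0,0,1; 1,0,0; 0,1,0]
def Fm : Matrix (Fin 3) (Fin 3) F4 := !![1,1,1; 1,F4.w,F4.v; 1,F4.v,F4.w]
def Gm : Matrix (Fin 3) (Fin 3) F4 := !![1,F4.w,F4.w; F4.v,F4.w,F4.v; F4.v,F4.v,F4.w]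
def Zm : Matrix (Fin 3) (Fin 3) F4 := Matrix.diagonal (fun _ => F4.w)

theorem det_Dm : Dm.det = 1 := by rw [Matrix.det_fin_three]; decide +kernel
theorem det_Cm : Cm.det = 1 := by rw [Matrix.det_fin_three]; decide +kernel
theorem det_Fm : Fm.det = 1 := by rw [Matrix.det_fin_three]; decide +kernel
theorem det_Gm : Gm.det = 1 := by rw [Matrix.det_fin_three]; decide +kernel
theorem det_Zm : Zm.det = 1 := by rw [Matrix.det_fin_three]; decide +kernel

theorem gram_Dm : ∀ a b : Fin 3, ∑ i, Dm i a * Dm i b ^ 2 = if a = b then 1 else 0 := by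
  decide +kernel
theorem gram_Cm : ∀ a b : Fin 3, ∑ i, Cm i a * Cm i b ^ 2 = if a = b then 1 else 0 := by
  decide +kernel
theorem gram_Fm : ∀ a b : Fin 3, ∑ i, Fm i a * Fm i b ^ 2 = if a = b then 1 else 0 := by
  decide +kernel
theorem gram_Gm : ∀ a b : Fin 3, ∑ i, Gm i a * Gm i b ^ 2 = if a = b then 1 else 0 := by
  decide +kernel
theorem gram_Zm : ∀ a b : Fin 3, ∑ i, Zm i a * Zm i b ^ 2 = if a = b then 1 else 0 := by
  decide +kernel

def dS : Matrix.SpecialLinearGroup (Fin 3) F4 := ⟨Dm, det_Dm⟩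
def cS : Matrix.SpecialLinearGroup (Fin 3) F4 := ⟨Cm, det_Cm⟩
def fS : Matrix.SpecialLinearGroup (Fin 3) F4 := ⟨Fm, det_Fm⟩
def gS : Matrix.SpecialLinearGroup (Fin 3) F4 := ⟨Gm, det_Gm⟩
def zS : Matrix.SpecialLinearGroup (Fin 3) F4 := ⟨Zm, det_Zm⟩

noncomputable section

variable {F : Type*} [Field F]

theorem herm_of_gram (h2 : (2 : F) = 0) {n : ℕ} (A : Matrix (Fin n) (Fin n) F)
    (hA : ∀ a b, ∑ i, A i a * A i b ^ 2 = if a = b then 1 else 0) (u v : Fin n → F) :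
    Cfsg.hermForm n F 2 (A.mulVec u) (A.mulVec v) = Cfsg.hermForm n F 2 u v := by
  unfold Cfsg.hermForm
  have hsq : ∀ (f : Fin n → F), (∑ b, f b) ^ 2 = ∑ b, f b ^ 2 := by
    intro f
    have key : ∀ s : Finset (Fin n), (∑ b ∈ s, f b) ^ 2 = ∑ b ∈ s, f b ^ 2 := by
      intro s
      induction s using Finset.induction_on with
      | empty => simp
      | insert a s ha ih =>
        rw [Finset.sum_insert ha, Finset.sum_insert ha, add_sq, ih]
        have h0 : 2 * f a * ∑ b ∈ s, f b = 0 := by rw [h2]; ring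
        rw [h0, add_zero]
    exact key Finset.univ
  calc ∑ i, (A.mulVec u) i * ((A.mulVec v) i) ^ 2
      = ∑ i, (∑ a, A i a * u a) * (∑ b, (A i b) ^ 2 * (v b) ^ 2) := by
        refine Finset.sum_congr rfl fun i _ => ?_
        show (∑ a, A i a * u a) * (∑ b, A i b * v b) ^ 2 = _
        rw [hsq]
        congr 1
        exact Finset.sum_congr rfl fun b _ => mul_pow _ _ _
    _ = ∑ i, ∑ a, ∑ b, u a * (v b) ^ 2 * (A i a * (A i b) ^ 2) := by
        refine Finset.sum_congr rfl fun i _ => ?_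
        rw [Finset.sum_mul]
        refine Finset.sum_congr rfl fun a _ => ?_
        rw [Finset.mul_sum]
        refine Finset.sum_congr rfl fun b _ => ?_
        ring
    _ = ∑ a, ∑ b, u a * (v b) ^ 2 * ∑ i, (A i a * (A i b) ^ 2) := by
        rw [Finset.sum_comm]
        refine Finset.sum_congr rfl fun a _ => ?_
        rw [Finset.sum_comm]
        refine Finset.sum_congr rfl fun b _ => ?_
        rw [Finset.mul_sum]
    _ = ∑ a, u a * (v a) ^ 2 := by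
        refine Finset.sum_congr rfl fun a _ => ?_
        rw [Finset.sum_eq_single a]
        · rw [hA a a, if_pos rfl, mul_one]
        · intro b _ hb
          rw [hA a b, if_neg (Ne.symm hb), mul_zero]
        · intro h; exact absurd (Finset.mem_univ a) h

theorem mem_SU (h2 : (2 : F) = 0) (ψ : F4 →+* F) (M : Matrix.SpecialLinearGroup (Fin 3) F4)
    (hM : ∀ a b : Fin 3, ∑ i, M.1 i a * M.1 i b ^ 2 = if a = b then 1 else 0) :
    Matrix.SpecialLinearGroup.map ψ M ∈ Cfsg.SU 3 F 2 := by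
  have hA : ∀ a b : Fin 3, ∑ i, (Matrix.SpecialLinearGroup.map ψ M).1 i a *
      (Matrix.SpecialLinearGroup.map ψ M).1 i b ^ 2 = if a = b then 1 else 0 := by
    intro a b
    have h1 : ∑ i, (Matrix.SpecialLinearGroup.map ψ M).1 i a *
        (Matrix.SpecialLinearGroup.map ψ M).1 i b ^ 2 = ψ (∑ i, M.1 i a * M.1 i b ^ 2) := by
      rw [map_sum]
      refine Finset.sum_congr rfl fun i _ => ?_
      rw [map_mul, map_pow]
      rfl
    rw [h1, hM a b]
    split_ifs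
    · exact map_one ψ
    · exact map_zero ψ
  show ∀ u v : Fin 3 → F, Cfsg.hermForm 3 F 2
    ((Matrix.SpecialLinearGroup.map ψ M).1.mulVec u)
    ((Matrix.SpecialLinearGroup.map ψ M).1.mulVec v) = Cfsg.hermForm 3 F 2 u v
  intro u v
  exact herm_of_gram h2 _ hA u v

/-- the elements of `SL₃(F4)` whose image lies in `SU₃` -/
def U4 (ψ : F4 →+* F) : Subgroup (Matrix.SpecialLinearGroup (Fin 3) F4) :=
  (Cfsg.SU 3 F 2).comap (Matrix.SpecialLinearGroup.map ψ)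

def tau (ψ : F4 →+* F) : U4 ψ →* Cfsg.SU 3 F 2 :=
  (Matrix.SpecialLinearGroup.map ψ).subgroupComap (Cfsg.SU 3 F 2)

def Phi (ψ : F4 →+* F) : U4 ψ →* Cfsg.PSU 3 F 2 :=
  (QuotientGroup.mk' (Subgroup.center (Cfsg.SU 3 F 2))).comp (tau ψ)

theorem tau_inj (ψ : F4 →+* F) : Function.Injective (tau ψ) := by
  intro a b h
  have h1 : Matrix.SpecialLinearGroup.map ψ a.1 = Matrix.SpecialLinearGroup.map ψ b.1 :=
    congrArg Subtype.val h
  apply Subtype.ext
  apply Subtype.ext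
  ext i j
  have h3 := congrFun (congrFun (congrArg Subtype.val h1) i) j
  exact ψ.injective h3

theorem comm_of_Phi_one (ψ : F4 →+* F) (a : U4 ψ) (ha : Phi ψ a = 1) (b : U4 ψ) :
    a * b = b * a := by
  have h1 : tau ψ a ∈ Subgroup.center (Cfsg.SU 3 F 2) := by
    have h : ((tau ψ a : Cfsg.SU 3 F 2) : Cfsg.PSU 3 F 2) = 1 := ha
    exact (QuotientGroup.eq_one_iff _).1 h
  have h3 := Subgroup.mem_center_iff.1 h1 (tau ψ b)
  rw [← map_mul, ← map_mul] at h3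
  exact (tau_inj ψ h3).symm

theorem Zm_comm (ψ : F4 →+* F) (H : Matrix (Fin 3) (Fin 3) F) :
    H * Zm.map ψ = Zm.map ψ * H := by
  have hZ : Zm.map ψ = Matrix.diagonal (fun _ => ψ F4.w) := by
    unfold Zm
    rw [Matrix.diagonal_map (map_zero ψ)]
  rw [hZ]
  ext i j
  rw [Matrix.mul_diagonal, Matrix.diagonal_mul, mul_comm]

variable (h2 : (2 : F) = 0) (ψ : F4 →+* F)

def dU : U4 ψ := ⟨dS, mem_SU h2 ψ dS gram_Dm⟩
def cU : U4 ψ := ⟨cS, mem_SU h2 ψ cS gram_Cm⟩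
def fU : U4 ψ := ⟨fS, mem_SU h2 ψ fS gram_Fm⟩
def gU : U4 ψ := ⟨gS, mem_SU h2 ψ gS gram_Gm⟩
def zU : U4 ψ := ⟨zS, mem_SU h2 ψ zS gram_Zm⟩

theorem Phi_z : Phi ψ (zU h2 ψ) = 1 := by
  have h : tau ψ (zU h2 ψ) ∈ Subgroup.center (Cfsg.SU 3 F 2) := by
    rw [Subgroup.mem_center_iff]
    intro h
    exact Subtype.ext (Subtype.ext (Zm_comm ψ h.1.1))
  exact (QuotientGroup.eq_one_iff _).2 h

theorem rel_d3 : dU h2 ψ * dU h2 ψ * dU h2 ψ = 1 :=
  Subtype.ext (Subtype.ext (show Dm * Dm * Dm = 1 by decide +kernel))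

theorem rel_c3 : cU h2 ψ * cU h2 ψ * cU h2 ψ = 1 :=
  Subtype.ext (Subtype.ext (show Cm * Cm * Cm = 1 by decide +kernel))

theorem rel_dc : dU h2 ψ * cU h2 ψ = zU h2 ψ * (cU h2 ψ * dU h2 ψ) :=
  Subtype.ext (Subtype.ext (show Dm * Cm = Zm * (Cm * Dm) by decide +kernel))

theorem rel_f4 : fU h2 ψ * fU h2 ψ * fU h2 ψ * fU h2 ψ = 1 :=
  Subtype.ext (Subtype.ext (show Fm * Fm * Fm * Fm = 1 by decide +kernel))

theorem rel_fd : fU h2 ψ * dU h2 ψ = cU h2 ψ * cU h2 ψ * fU h2 ψ :=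
  Subtype.ext (Subtype.ext (show Fm * Dm = Cm * Cm * Fm by decide +kernel))

theorem rel_fc : fU h2 ψ * cU h2 ψ = dU h2 ψ * fU h2 ψ :=
  Subtype.ext (Subtype.ext (show Fm * Cm = Dm * Fm by decide +kernel))

theorem rel_g2 : gU h2 ψ * gU h2 ψ = fU h2 ψ * fU h2 ψ :=
  Subtype.ext (Subtype.ext (show Gm * Gm = Fm * Fm by decide +kernel))

theorem rel_fgf : fU h2 ψ * gU h2 ψ * fU h2 ψ = gU h2 ψ :=
  Subtype.ext (Subtype.ext (show Fm * Gm * Fm = Gm by decide +kernel))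

theorem nc_dc : dU h2 ψ * cU h2 ψ ≠ cU h2 ψ * dU h2 ψ := by
  intro h
  exact absurd (show Dm * Cm = Cm * Dm from congrArg (fun x : U4 ψ => x.1.1) h)
    (by decide +kernel)

theorem nc_ffd : fU h2 ψ * fU h2 ψ * dU h2 ψ ≠ dU h2 ψ * (fU h2 ψ * fU h2 ψ) := by
  intro h
  exact absurd (show Fm * Fm * Dm = Dm * (Fm * Fm) from congrArg (fun x : U4 ψ => x.1.1) h)
    (by decide +kernel)

end

/-- PSU_3(2) has a normal elementary abelian subgroup of order 9 with quaternion quotient. -/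
theorem result {F : Type*} [Field F] [Fintype F] (hF : Fintype.card F = 4) : ∃ (N : Subgroup (Cfsg.PSU 3 F 2)) (_ : N.Normal), Nat.card N = 9 ∧ (∀ x ∈ N, x ^ 3 = 1) ∧ Nonempty (Cfsg.PSU 3 F 2 ⧸ N ≃* QuaternionGroup 2) := by
  have hcard : Nat.card (Cfsg.PSU 3 F 2) = 72 := (Cfsg.Agent.S0282.result hF).1
  haveI : Finite (Cfsg.PSU 3 F 2) := Nat.finite_of_card_ne_zero (by rw [hcard]; norm_num)
  have h2 : (2 : F) = 0 := two_eq_zero_of_card hF
  obtain ⟨ψ⟩ : Nonempty (F4 →+* F) := ⟨((toF4 hF).symm : F4 ≃+* F).toRingHom⟩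
  have hd3 : Phi ψ (dU h2 ψ) ^ 3 = 1 := by
    rw [pow_succ, pow_succ, pow_one, ← map_mul, ← map_mul, rel_d3, map_one]
  have hc3 : Phi ψ (cU h2 ψ) ^ 3 = 1 := by
    rw [pow_succ, pow_succ, pow_one, ← map_mul, ← map_mul, rel_c3, map_one]
  have hdc : Phi ψ (dU h2 ψ) * Phi ψ (cU h2 ψ) = Phi ψ (cU h2 ψ) * Phi ψ (dU h2 ψ) := by
    rw [← map_mul, ← map_mul, rel_dc, map_mul, Phi_z, one_mul]
  have hd1 : Phi ψ (dU h2 ψ) ≠ 1 := fun h =>
    nc_dc h2 ψ (comm_of_Phi_one ψ _ h (cU h2 ψ))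
  have hcd : Phi ψ (cU h2 ψ) ∉ Subgroup.zpowers (Phi ψ (dU h2 ψ)) := by
    intro hmem
    obtain ⟨k, hk⟩ := Subgroup.mem_zpowers_iff.1 hmem
    have hΦ : Phi ψ ((cU h2 ψ)⁻¹ * dU h2 ψ ^ k) = 1 := by
      rw [map_mul, map_inv, map_zpow, hk, inv_mul_cancel]
    have h := comm_of_Phi_one ψ _ hΦ (dU h2 ψ)
    have h1 : (cU h2 ψ)⁻¹ * dU h2 ψ = dU h2 ψ * (cU h2 ψ)⁻¹ := by
      have h' : (cU h2 ψ)⁻¹ * dU h2 ψ * dU h2 ψ ^ k = dU h2 ψ * (cU h2 ψ)⁻¹ * dU h2 ψ ^ k := by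
        calc (cU h2 ψ)⁻¹ * dU h2 ψ * dU h2 ψ ^ k
            = (cU h2 ψ)⁻¹ * dU h2 ψ ^ k * dU h2 ψ := by
              rw [mul_assoc, ((Commute.refl (dU h2 ψ)).zpow_right k).eq, ← mul_assoc]
          _ = dU h2 ψ * ((cU h2 ψ)⁻¹ * dU h2 ψ ^ k) := h
          _ = dU h2 ψ * (cU h2 ψ)⁻¹ * dU h2 ψ ^ k := (mul_assoc _ _ _).symm
      exact mul_right_cancel h'
    apply nc_dc h2 ψ
    calc dU h2 ψ * cU h2 ψ = cU h2 ψ * ((cU h2 ψ)⁻¹ * dU h2 ψ) * cU h2 ψ := by group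
      _ = cU h2 ψ * (dU h2 ψ * (cU h2 ψ)⁻¹) * cU h2 ψ := by rw [h1]
      _ = cU h2 ψ * dU h2 ψ := by group
  have hf4 : Phi ψ (fU h2 ψ) ^ 4 = 1 := by
    rw [pow_succ, pow_succ, pow_succ, pow_one, ← map_mul, ← map_mul, ← map_mul, rel_f4, map_one]
  have hf2 : Phi ψ (fU h2 ψ) ^ 2 ≠ 1 := by
    intro h
    rw [sq, ← map_mul] at h
    exact nc_ffd h2 ψ (comm_of_Phi_one ψ _ h (dU h2 ψ))
  have hfd : Phi ψ (fU h2 ψ) * Phi ψ (dU h2 ψ) * (Phi ψ (fU h2 ψ))⁻¹ ∈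
      Subgroup.closure ({Phi ψ (dU h2 ψ), Phi ψ (cU h2 ψ)} : Set (Cfsg.PSU 3 F 2)) := by
    have e : Phi ψ (fU h2 ψ) * Phi ψ (dU h2 ψ) * (Phi ψ (fU h2 ψ))⁻¹ =
        Phi ψ (cU h2 ψ) * Phi ψ (cU h2 ψ) := by
      rw [← map_mul, rel_fd, map_mul, map_mul, mul_inv_cancel_right]
    rw [e]
    have hc : Phi ψ (cU h2 ψ) ∈
        Subgroup.closure ({Phi ψ (dU h2 ψ), Phi ψ (cU h2 ψ)} : Set (Cfsg.PSU 3 F 2)) :=
      Subgroup.subset_closure (Set.mem_insert_of_mem _ rfl)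
    exact Subgroup.mul_mem _ hc hc
  have hfc : Phi ψ (fU h2 ψ) * Phi ψ (cU h2 ψ) * (Phi ψ (fU h2 ψ))⁻¹ ∈
      Subgroup.closure ({Phi ψ (dU h2 ψ), Phi ψ (cU h2 ψ)} : Set (Cfsg.PSU 3 F 2)) := by
    have e : Phi ψ (fU h2 ψ) * Phi ψ (cU h2 ψ) * (Phi ψ (fU h2 ψ))⁻¹ = Phi ψ (dU h2 ψ) := by
      rw [← map_mul, rel_fc, map_mul, mul_inv_cancel_right]
    rw [e]
    exact Subgroup.subset_closure (Set.mem_insert _ _)
  have hg2 : Phi ψ (gU h2 ψ) * Phi ψ (gU h2 ψ) = Phi ψ (fU h2 ψ) ^ 2 := by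
    rw [sq, ← map_mul, ← map_mul, rel_g2]
  have hfgf : Phi ψ (fU h2 ψ) * Phi ψ (gU h2 ψ) * Phi ψ (fU h2 ψ) = Phi ψ (gU h2 ψ) := by
    rw [← map_mul, ← map_mul, rel_fgf]
  exact abstract_Q8 hcard _ _ _ _ hd3 hc3 hdc hd1 hcd hf4 hf2 hfd hfc hg2 hfgf

end Cfsg.Agent.S0827
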