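import Mathlib
import Cfsg.Statements.S0868
import Cfsg.Agent.Helper5.Shift

set_option autoImplicit false
open scoped ComplexConjugate
open Cfsg

namespace Cfsg.Agent.S0868

open Cfsg.Agent.Helper24 Cfsg.Agent.Helper5

set_option maxHeartbeats 1600000 in
theorem result {G : Type*} [Group G] [Fintype G] (N : Subgroup G) [N.Normal] [Fintype N] (χ : G → ℂ) (hχ : Cfsg.IsIrrCharacter G χ) (hχN : Cfsg.IsIrrCharacter N (fun n : N => χ n)) (ψ : G → ℂ) (hψ : Cfsg.IsIrrCharacter G ψ) (η : G → ℂ) (hη : η = fun g => (Nat.card N : ℂ)⁻¹ * ∑ n : N, ψ ((n : G) * g) * conj (χ ((n : G) * g))) : (Cfsg.classInner (fun n : N => ψ n) (fun n : N => χ n) ≠ 0 → Cfsg.IsIrrCharacter G η) ∧ (Cfsg.classInner (fun n : N => ψ n) (fun n : N => χ n) = 0 → η = 0) ∧ (ψ = χ → η = fun _ => 1) := by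
  classical
  have hN : N.Normal := inferInstance
  have hχc : IsCharacter G χ := isCharacter_of_isIrrCharacter hχ
  have hχcf : IsClassFunction G χ := isCharacter_isClassFunction hχc
  have hψc : IsCharacter G ψ := isCharacter_of_isIrrCharacter hψ
  have hψcf : IsClassFunction G ψ := isCharacter_isClassFunction hψc
  obtain ⟨Θ, hΘ⟩ : ∃ Θ : G → ℂ, Θ = fun g => ψ g * conj (χ g) := ⟨_, rfl⟩
  have hΘx : ∀ x : G, Θ x = ψ x * conj (χ x) := fun x => by rw [hΘ]
  have hΘcf : IsClassFunction G Θ := by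
    intro g h
    rw [hΘx, hΘx, hψcf g h, hχcf g h]
  have hΘβ : ∀ β : IrrCharacter G,
      classInner Θ (β : G → ℂ) = classInner ψ ((β : G → ℂ) * χ) := by
    intro β
    rw [classInner_def', classInner_def']
    congr 1
    refine Finset.sum_congr rfl fun g _ => ?_
    rw [hΘx, Pi.mul_apply, map_mul]
    ring
  have hηform : ∀ g : G, η g = ∑ β : IrrCharacter G, classInner ψ ((β : G → ℂ) * χ) *
      (if classInner (fun n : N => (β : G → ℂ) n) (fun _ => 1) ≠ 0 then (β : G → ℂ) g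
        else 0) := by
    intro g
    have hdec := classFunction_eq_sum_irr Θ hΘcf
    have h1 : ∀ x : G, ψ x * conj (χ x) =
        ∑ β : IrrCharacter G, classInner Θ (β : G → ℂ) * (β : G → ℂ) x := by
      intro x
      rw [← hΘx]
      have h2 := congrFun hdec x
      refine h2.trans ?_
      simp only [Finset.sum_apply, Pi.smul_apply, smul_eq_mul]
    have h3 : η g = (Nat.card N : ℂ)⁻¹ *
        ∑ n : N, ψ ((n : G) * g) * conj (χ ((n : G) * g)) := by rw [hη]
    rw [h3]
    simp only [h1]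
    rw [Finset.sum_comm, Finset.mul_sum]
    refine Finset.sum_congr rfl fun β _ => ?_
    rw [← Finset.mul_sum, ← avg_shift_irr N β g, hΘβ β]
    ring
  have hone : (fun _ : N => (1 : ℂ)) * (fun n : N => χ n) = fun n : N => χ n := by
    funext n; simp
  have hG := gallagher_bij N (fun _ : N => (1 : ℂ)) (fun n : N => χ n) isIrrCharacter_one
    (fun g n => rfl) (fun g n => hχcf n g) (by rw [hone]; exact hχN) χ hχ (fun n => rfl)
  rw [hone] at hG
  obtain ⟨G1, G2, G3⟩ := hG
  have hP : ∀ β : IrrCharacter G,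
      classInner (indFun N (fun _ : N => (1 : ℂ))) (β : G → ℂ) ≠ 0 ↔
        classInner (fun n : N => (β : G → ℂ) n) (fun _ => 1) ≠ 0 := by
    intro β
    rw [classInner_indFun N _ _ (isCharacter_isClassFunction (isCharacter_of_isIrrCharacter β.2)),
      classInner_conj_symm]
    simp
  have hQ : ∀ ξ : G → ℂ, IsClassFunction G ξ →
      (classInner (indFun N (fun n : N => χ n)) ξ ≠ 0 ↔
        classInner (fun n : N => ξ n) (fun n : N => χ n) ≠ 0) := by
    intro ξ hξ
    rw [classInner_indFun N _ _ hξ, classInner_conj_symm]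
    simp
  have key : ∀ β₀ : IrrCharacter G,
      classInner (fun n : N => (β₀ : G → ℂ) n) (fun _ => 1) ≠ 0 →
      (β₀ : G → ℂ) * χ = ψ → η = (β₀ : G → ℂ) := by
    intro β₀ hP0 hβ₀
    funext g
    rw [hηform g, Finset.sum_eq_single β₀]
    · rw [if_pos hP0]
      have h1 : classInner ψ ((β₀ : G → ℂ) * χ) = 1 := by
        rw [hβ₀]; exact irr_inner_self (⟨ψ, hψ⟩ : IrrCharacter G)
      rw [h1, one_mul]
    · intro β _ hne
      by_cases hPβ : classInner (fun n : N => (β : G → ℂ) n) (fun _ => 1) ≠ 0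
      · have hirr := (G1 β ((hP β).mpr hPβ)).1
        have hneq : (⟨ψ, hψ⟩ : IrrCharacter G) ≠ ⟨(β : G → ℂ) * χ, hirr⟩ := by
          intro h
          have h' : ψ = (β : G → ℂ) * χ := congrArg Subtype.val h
          exact hne (G2 β β₀ ((hP β).mpr hPβ) ((hP β₀).mpr hP0) (h'.symm.trans hβ₀.symm))
        have h0 : classInner ψ ((β : G → ℂ) * χ) = 0 := irr_inner_ne hneq
        rw [h0, zero_mul]
      · rw [if_neg hPβ, mul_zero]
    · intro h; exact absurd (Finset.mem_univ _) h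
  refine ⟨?_, ?_, ?_⟩
  · intro hne
    obtain ⟨β₀, hβ₀, hβ₀ψ⟩ := G3 ψ hψ ((hQ ψ hψcf).mpr hne)
    rw [key β₀ ((hP β₀).mp hβ₀) hβ₀ψ]
    exact β₀.2
  · intro h0
    funext g
    rw [hηform g]
    show _ = (0 : ℂ)
    apply Finset.sum_eq_zero
    intro β _
    by_cases hPβ : classInner (fun n : N => (β : G → ℂ) n) (fun _ => 1) ≠ 0
    · obtain ⟨hirr, hm⟩ := G1 β ((hP β).mpr hPβ)
      have hneq : (⟨ψ, hψ⟩ : IrrCharacter G) ≠ ⟨(β : G → ℂ) * χ, hirr⟩ := by
        intro h
        have h' : ψ = (β : G → ℂ) * χ := congrArg Subtype.val h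
        have h1 : classInner (indFun N (fun n : N => χ n)) ((β : G → ℂ) * χ) ≠ 0 := by
          rw [hm]; exact (hP β).mpr hPβ
        rw [← h'] at h1
        exact ((hQ ψ hψcf).mp h1) h0
      have h0' : classInner ψ ((β : G → ℂ) * χ) = 0 := irr_inner_ne hneq
      rw [h0', zero_mul]
    · rw [if_neg hPβ, mul_zero]
  · intro hψχ
    have h1G : IsIrrCharacter G (fun _ => (1 : ℂ)) := isIrrCharacter_one
    have hP1 : classInner (fun n : N => ((⟨fun _ => 1, h1G⟩ : IrrCharacter G) : G → ℂ) n)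
        (fun _ => 1) ≠ 0 := by
      have h1 : classInner (fun _ : N => (1 : ℂ)) (fun _ => 1) = 1 :=
        irr_inner_self (⟨fun _ => 1, isIrrCharacter_one⟩ : IrrCharacter N)
      show classInner (fun _ : N => (1 : ℂ)) (fun _ => 1) ≠ 0
      rw [h1]; exact one_ne_zero
    have h2 : ((⟨fun _ => 1, h1G⟩ : IrrCharacter G) : G → ℂ) * χ = ψ := by
      rw [hψχ]; funext g; simp
    exact key ⟨fun _ => 1, h1G⟩ hP1 h2

end Cfsg.Agent.S0868
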