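import Cfsg.Statements.S0875
import Cfsg.Agent.Helper22.Brauer4


set_option autoImplicit false
open Cfsg
open Cfsg.Agent.Helper22 Cfsg.Agent.Helper24 Cfsg.Agent.Helper5

namespace Cfsg.Agent.S0875

/-- Let G be a finite group of order m * n with m and n coprime, and g an element whose order is coprime to m. Every x in G factors uniquely as x = u * v with u, v commuting, the order of u coprime to n and the order of v coprime to m; let ϑ be the function on G equal to n at those x whose factor v is conjugate to g and equal to 0 elsewhere. Then ϑ is a linear combination of the irreducible characters of G with algebraic-integer coefficients. -/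
theorem result {G : Type*} [Group G] [Fintype G] (m n : ℕ) (hmn : Nat.card G = m * n) (hcop : Nat.Coprime m n) (g : G) (hg : Nat.Coprime (orderOf g) m) (ϑ : G → ℂ) (hϑ1 : ∀ x : G, (∃ v : G, IsConj v g ∧ (∃ u : G, x = u * v ∧ Commute u v ∧ Nat.Coprime (orderOf u) n ∧ Nat.Coprime (orderOf v) m)) → ϑ x = n) (hϑ0 : ∀ x : G, (¬ ∃ v : G, IsConj v g ∧ (∃ u : G, x = u * v ∧ Commute u v ∧ Nat.Coprime (orderOf u) n ∧ Nat.Coprime (orderOf v) m)) → ϑ x = 0) : ∃ c : Cfsg.IrrCharacter G → ℂ, (∀ χ, c χ ∈ Cfsg.AlgInt) ∧ ϑ = ∑ᶠ χ : Cfsg.IrrCharacter G, c χ • (χ : G → ℂ) := by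
  classical
  have hcard : Nat.card G = n * m := by rw [hmn, mul_comm]
  have hnm : Nat.Coprime n m := hcop.symm
  have hn0 : n ≠ 0 := by
    rintro rfl
    rw [zero_mul] at hcard
    exact Nat.card_pos.ne' hcard
  obtain ⟨r, hr1, hr0⟩ := Nat.chineseRemainder hnm 1 0
  have hchar : ∀ x : G, (∃ v : G, IsConj v g ∧ (∃ u : G, x = u * v ∧ Commute u v ∧
      Nat.Coprime (orderOf u) n ∧ Nat.Coprime (orderOf v) m)) ↔ IsConj (x ^ r) g := by
    intro x
    constructor
    · rintro ⟨v, hv, hu⟩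
      rw [(pi_part_iff hcard hnm hr1 hr0 x v).mp hu] at hv
      exact hv
    · intro h
      exact ⟨x ^ r, h, (pi_part_iff hcard hnm hr1 hr0 x (x ^ r)).mpr rfl⟩
  have hϑ : ∀ x : G, ϑ x = if IsConj (x ^ r) g then (n : ℂ) else 0 := by
    intro x
    by_cases h : IsConj (x ^ r) g
    · rw [if_pos h]; exact hϑ1 x ((hchar x).mpr h)
    · rw [if_neg h]; exact hϑ0 x (fun h' => h ((hchar x).mp h'))
  have hcf : IsClassFunction G ϑ := by
    intro x k
    rw [hϑ, hϑ x, conj_pow]
    have hiff : IsConj (k * x ^ r * k⁻¹) g ↔ IsConj (x ^ r) g :=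
      ⟨fun h => (isConj_iff.mpr ⟨k, rfl⟩ : IsConj (x ^ r) (k * x ^ r * k⁻¹)).trans h,
        fun h => (isConj_iff.mpr ⟨k, rfl⟩ : IsConj (x ^ r) (k * x ^ r * k⁻¹)).symm.trans h⟩
    simp only [hiff]
  have hpow : ∀ x : G, ϑ (x ^ r) = ϑ x := by
    intro x
    rw [hϑ, hϑ x, pow_eq_self_of_modEq hr1 (pow_mul_eq_one_of_modEq (by rw [hcard]) hr0 x)]
  have hint : ∀ x : G, IsIntegral ℤ (ϑ x / (n : ℂ)) := by
    intro x
    rw [hϑ]
    split_ifs
    · rw [div_self (Nat.cast_ne_zero.mpr hn0)]; exact isIntegral_one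
    · rw [zero_div]; exact isIntegral_zero
  refine ⟨fun χ => classInner ϑ (χ : G → ℂ), fun χ => ?_, ?_⟩
  · exact section_classInner_integral (by rw [hcard]) hnm hn0 hr1 hr0 ϑ hcf hpow hint χ
      (isCharacter_of_isIrrCharacter χ.2)
  · rw [finsum_eq_sum_of_fintype]
    exact classFunction_eq_sum_irr ϑ hcf

end Cfsg.Agent.S0875
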