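import Cfsg.Statements.S0876
import Cfsg.Agent.Helper22.Brauer5
import Cfsg.Agent.S0875


set_option autoImplicit false
open Cfsg
open Cfsg.Agent.Helper22 Cfsg.Agent.Helper24 Cfsg.Agent.Helper5

namespace Cfsg.Agent.S0876

/-- Let G be a finite group, p a prime and M a maximal ideal of the ring of algebraic integers containing p. Let x, y be elements with p-parts a and b (so a⁻¹ * x and b⁻¹ * y are their p-regular parts). Then a⁻¹ * x and b⁻¹ * y are conjugate in G if and only if, for every irreducible character χ, the difference χ x - χ y lies in the local ideal at M. -/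
theorem result {G : Type*} [Group G] [Finite G] (p : ℕ) (M : Ideal Cfsg.AlgInt) (hM : Cfsg.IsPModular p M) (x y a b : G) (ha : Cfsg.IsPPart p x a) (hb : Cfsg.IsPPart p y b) : IsConj (a⁻¹ * x) (b⁻¹ * y) ↔ ∀ χ : Cfsg.IrrCharacter G, Cfsg.MemLocalIdeal M ((χ : G → ℂ) x - (χ : G → ℂ) y) := by
  classical
  haveI : Fintype G := Fintype.ofFinite G
  obtain ⟨x', hx, hcx, ⟨kx, hkx⟩, hrx⟩ := ha
  obtain ⟨y', hy, hcy, ⟨ky, hky⟩, hry⟩ := hb
  have hax : a⁻¹ * x = x' := by rw [← hx, inv_mul_cancel_left]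
  have hby : b⁻¹ * y = y' := by rw [← hy, inv_mul_cancel_left]
  rw [hax, hby]
  have hp : p.Prime := hM.1
  have hMmax : M.IsMaximal := hM.2.1
  have hMtop : M ≠ ⊤ := hMmax.ne_top
  constructor
  · intro hconj χ
    obtain ⟨d, ρ, -, hρ⟩ := χ.2
    obtain ⟨z₁, hz₁, hz₁e⟩ := char_sub_mem_of_ppart hM ρ x a x' hx hcx hkx
    obtain ⟨z₂, hz₂, hz₂e⟩ := char_sub_mem_of_ppart hM ρ y b y' hy hcy hky
    have hcl : ρ.character x' = ρ.character y' := by
      obtain ⟨c, hc⟩ := isConj_iff.mp hconj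
      rw [← hc]
      exact (isCharacter_conj ⟨d, ρ, rfl⟩ x' c).symm
    have hzz : (χ : G → ℂ) x - (χ : G → ℂ) y = ((z₁ - z₂ : AlgInt) : ℂ) := by
      rw [← hρ]
      show _ = (z₁ : ℂ) - (z₂ : ℂ)
      rw [hz₁e, hz₂e, hcl]; ring
    rw [hzz]
    exact memLocalIdeal_of_mem hMtop (M.sub_mem hz₁ hz₂)
  · intro hall
    by_contra hnc
    have hN0 : Nat.card G ≠ 0 := Nat.card_pos.ne'
    obtain ⟨e, n, hmn, hcop_pn⟩ : ∃ e n : ℕ, Nat.card G = p ^ e * n ∧ Nat.Coprime p n :=
      ⟨(Nat.card G).factorization p, Nat.card G / p ^ (Nat.card G).factorization p,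
        (Nat.ordProj_mul_ordCompl_eq_self (Nat.card G) p).symm, Nat.coprime_ordCompl hp hN0⟩
    have hcop : Nat.Coprime (p ^ e) n := Nat.Coprime.pow_left e hcop_pn
    have hregx : Nat.Coprime (orderOf x') (p ^ e) :=
      Nat.Coprime.pow_right e ((Nat.Prime.coprime_iff_not_dvd hp).mpr hrx).symm
    have hregy : Nat.Coprime (orderOf y') (p ^ e) :=
      Nat.Coprime.pow_right e ((Nat.Prime.coprime_iff_not_dvd hp).mpr hry).symm
    obtain ⟨ϑ, hϑdef⟩ : ∃ ϑ : G → ℂ, ∀ z : G, ϑ z = if (∃ v : G, IsConj v x' ∧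
        (∃ u : G, z = u * v ∧ Commute u v ∧ Nat.Coprime (orderOf u) n ∧
          Nat.Coprime (orderOf v) (p ^ e))) then (n : ℂ) else 0 :=
      ⟨fun z => if (∃ v : G, IsConj v x' ∧
        (∃ u : G, z = u * v ∧ Commute u v ∧ Nat.Coprime (orderOf u) n ∧
          Nat.Coprime (orderOf v) (p ^ e))) then (n : ℂ) else 0, fun _ => rfl⟩
    obtain ⟨c, hcint, hcsum⟩ := Cfsg.Agent.S0875.result (p ^ e) n hmn hcop x' hregx ϑ
      (fun z h => by rw [hϑdef, if_pos h]) (fun z h => by rw [hϑdef, if_neg h])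
    have hϑx : ϑ x = (n : ℂ) := by
      rw [hϑdef]
      apply if_pos
      refine ⟨x', IsConj.refl x', a, hx.symm, hcx, ?_, hregx⟩
      rw [hkx]; exact Nat.Coprime.pow_left kx hcop_pn
    have hϑy : ϑ y = 0 := by
      rw [hϑdef]
      apply if_neg
      rintro ⟨v, hv, hu⟩
      obtain ⟨r, hr1, hr0⟩ := Nat.chineseRemainder hcop.symm 1 0
      have hcard' : Nat.card G = n * p ^ e := by rw [hmn, mul_comm]
      have h1 := (pi_part_iff hcard' hcop.symm hr1 hr0 y v).mp hu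
      have h2 := (pi_part_iff hcard' hcop.symm hr1 hr0 y y').mp
        ⟨b, hy.symm, hcy, by rw [hky]; exact Nat.Coprime.pow_left ky hcop_pn, hregy⟩
      rw [h1, ← h2] at hv
      exact hnc hv.symm
    rw [finsum_eq_sum_of_fintype] at hcsum
    have hdiff : (n : ℂ) =
        ∑ χ : IrrCharacter G, c χ * ((χ : G → ℂ) x - (χ : G → ℂ) y) := by
      have h1 := congrFun hcsum x
      have h2 := congrFun hcsum y
      rw [Finset.sum_apply] at h1 h2
      simp only [Pi.smul_apply, smul_eq_mul] at h1 h2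
      calc (n : ℂ) = ϑ x - ϑ y := by rw [hϑx, hϑy, sub_zero]
        _ = ∑ χ : IrrCharacter G, c χ * ((χ : G → ℂ) x - (χ : G → ℂ) y) := by
          rw [h1, h2, ← Finset.sum_sub_distrib]
          exact Finset.sum_congr rfl (fun χ _ => by ring)
    have hmem : MemLocalIdeal M (n : ℂ) := by
      rw [hdiff]
      refine Finset.sum_induction _ (MemLocalIdeal M)
        (fun _ _ => memLocalIdeal_add hMmax.isPrime) (memLocalIdeal_zero hMtop) (fun χ _ => ?_)
      exact memLocalIdeal_mul ⟨c χ, hcint χ⟩ (hall χ)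
    exact not_memLocalIdeal_natCast hM hcop_pn.symm hmem

end Cfsg.Agent.S0876
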