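import Cfsg.Statements.S0880

set_option autoImplicit false
open Cfsg

namespace Cfsg.Agent.S0880

/-- In a doubly transitive group, the set of elements carrying one ordered pair of distinct
points to another one is in bijection with a two-point stabilizer. -/
theorem fiber_card {G Ω : Type*} [Group G] [MulAction G Ω]
    (h2 : ∀ {a b c d : Ω}, a ≠ b → c ≠ d → ∃ g : G, g • a = c ∧ g • b = d) {a b : Ω}
    (hab : a ≠ b) {c d c' d' : Ω} (hcd : c ≠ d) (hcd' : c' ≠ d') :
    Nat.card {x : G // x • c = c' ∧ x • d = d'} =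
      Nat.card ↥(MulAction.stabilizer G a ⊓ MulAction.stabilizer G b : Subgroup G) := by
  obtain ⟨g₁, h1a, h1b⟩ := h2 hab hcd
  obtain ⟨g₂, h2a, h2b⟩ := h2 hab hcd'
  apply Nat.card_congr
  exact
    { toFun := fun x => ⟨g₂⁻¹ * x.1 * g₁, Subgroup.mem_inf.mpr ⟨by
          show (g₂⁻¹ * x.1 * g₁) • a = a
          rw [mul_smul, mul_smul, h1a, x.2.1, ← h2a, inv_smul_smul], by
          show (g₂⁻¹ * x.1 * g₁) • b = b
          rw [mul_smul, mul_smul, h1b, x.2.2, ← h2b, inv_smul_smul]⟩⟩
      invFun := fun y => ⟨g₂ * y.1 * g₁⁻¹, by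
          have hy := Subgroup.mem_inf.mp y.2
          have hya : (y : G) • a = a := hy.1
          have hyb : (y : G) • b = b := hy.2
          constructor
          · rw [mul_smul, mul_smul, ← h1a, inv_smul_smul, hya, h2a]
          · rw [mul_smul, mul_smul, ← h1b, inv_smul_smul, hyb, h2b]⟩
      left_inv := fun x => Subtype.ext (by
        show g₂ * (g₂⁻¹ * x.1 * g₁) * g₁⁻¹ = x.1
        group)
      right_inv := fun y => Subtype.ext (by
        show g₂⁻¹ * (g₂ * y.1 * g₁⁻¹) * g₁ = y.1
        group) }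


/-- Let G be a finite simple Zassenhaus group on Ω with n points whose two-point stabilizer E has odd order less than n - 2. Then there are two elements of G, each fixing no point of Ω, that are not conjugate. -/
theorem result {G Ω : Type*} [Group G] [Finite G] [MulAction G Ω] [Fintype Ω] (hZ : Cfsg.IsZassenhausGroup G Ω) {a b : Ω} (hab : a ≠ b) [IsSimpleGroup G] (hodd : Odd (Nat.card ↥(MulAction.stabilizer G a ⊓ MulAction.stabilizer G b : Subgroup G))) (hlt : Nat.card ↥(MulAction.stabilizer G a ⊓ MulAction.stabilizer G b : Subgroup G) < Fintype.card Ω - 2) : ∃ x y : G, (∀ c : Ω, x • c ≠ c) ∧ (∀ c : Ω, y • c ≠ c) ∧ ¬ IsConj x y := by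
  classical
  haveI : Fintype G := Fintype.ofFinite G
  obtain ⟨hfaith, h2t, h3, ⟨g₀, hg₀, a₀, b₀, hab₀, hga₀, hgb₀⟩, -⟩ := hZ
  have h2 : ∀ {a b c d : Ω}, a ≠ b → c ≠ d → ∃ g : G, g • a = c ∧ g • b = d :=
    MulAction.is_two_pretransitive_iff.mp h2t
  obtain ⟨e, he⟩ : ∃ e, Nat.card
      ↥(MulAction.stabilizer G a ⊓ MulAction.stabilizer G b : Subgroup G) = e := ⟨_, rfl⟩
  rw [he] at hodd hlt
  have hcf : ∀ (P : G → Prop) [DecidablePred P],
      (Finset.univ.filter P).card = Nat.card {x : G // P x} := by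
    intro P _
    rw [Nat.card_eq_fintype_card, Fintype.card_subtype]
  have he3 : 3 ≤ e := by
    have h1 : e ≠ 1 := by
      intro h1
      have hc' : (Finset.univ.filter (fun x : G => x • a₀ = a₀ ∧ x • b₀ = b₀)).card = 1 := by
        rw [hcf, fiber_card h2 hab hab₀ hab₀, he, h1]
      have h1mem : (1 : G) ∈ Finset.univ.filter (fun x : G => x • a₀ = a₀ ∧ x • b₀ = b₀) := by
        simp
      have hgmem : g₀ ∈ Finset.univ.filter (fun x : G => x • a₀ = a₀ ∧ x • b₀ = b₀) := by
        simp [hga₀, hgb₀]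
      exact hg₀ (Finset.card_le_one.mp hc'.le _ hgmem _ h1mem)
    obtain ⟨j, hj⟩ := hodd
    omega
  obtain ⟨k₀, hn⟩ : ∃ k₀, Fintype.card Ω = k₀ + 3 := ⟨Fintype.card Ω - 3, by omega⟩
  have hoff : (Finset.univ.offDiag : Finset (Ω × Ω)).card = (k₀ + 3) * (k₀ + 2) := by
    rw [Finset.offDiag_card, Finset.card_univ, hn]
    have : (k₀ + 3) * (k₀ + 3) = (k₀ + 3) * (k₀ + 2) + (k₀ + 3) := by ring
    omega
  have hstab : ∀ c : Ω, (Finset.univ.filter (fun g : G => g • c = c)).card = (k₀ + 2) * e := by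
    intro c
    obtain ⟨d, hd⟩ : ∃ d : Ω, c ≠ d := by
      by_cases hca : c = a
      · exact ⟨b, by rw [hca]; exact hab⟩
      · exact ⟨a, hca⟩
    have hmaps : ∀ g ∈ Finset.univ.filter (fun g : G => g • c = c),
        g • d ∈ (Finset.univ.erase c : Finset Ω) := by
      intro g hg
      have hgc := (Finset.mem_filter.mp hg).2
      refine Finset.mem_erase.mpr ⟨fun h => hd ?_, Finset.mem_univ _⟩
      exact (smul_left_cancel g (h.trans hgc.symm)).symm
    rw [Finset.card_eq_sum_card_fiberwise (f := fun g : G => g • d)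
      (s := Finset.univ.filter (fun g : G => g • c = c)) (t := (Finset.univ.erase c : Finset Ω))
      (fun g hg => hmaps g hg)]
    have hfib : ∀ d' ∈ (Finset.univ.erase c : Finset Ω),
        ((Finset.univ.filter (fun g : G => g • c = c)).filter
          (fun g : G => g • d = d')).card = e := by
      intro d' hd'
      rw [Finset.filter_filter, hcf, ← he]
      exact fiber_card h2 hab hd (Ne.symm (Finset.mem_erase.mp hd').1)
    rw [Finset.sum_congr rfl hfib, Finset.sum_const, smul_eq_mul,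
      Finset.card_erase_of_mem (Finset.mem_univ _), Finset.card_univ, hn]
    have : k₀ + 3 - 1 = k₀ + 2 := by omega
    rw [this]
  have hP1 : ∑ g : G, (Finset.univ.offDiag.filter
      (fun q : Ω × Ω => g • q.1 = q.1 ∧ g • q.2 = q.2)).card = (k₀ + 3) * (k₀ + 2) * e := by
    have hfib : ∀ q ∈ (Finset.univ.offDiag : Finset (Ω × Ω)),
        ∑ g : G, (if g • q.1 = q.1 ∧ g • q.2 = q.2 then 1 else 0) = e := by
      intro q hq
      rw [← Finset.card_filter, hcf, ← he]
      exact fiber_card h2 hab (Finset.mem_offDiag.mp hq).2.2 (Finset.mem_offDiag.mp hq).2.2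
    simp_rw [Finset.card_filter]
    rw [Finset.sum_comm, Finset.sum_congr rfl hfib, Finset.sum_const, smul_eq_mul, hoff]
  have hM : Fintype.card G = (k₀ + 3) * (k₀ + 2) * e := by
    have hfib : ∀ q ∈ (Finset.univ.offDiag : Finset (Ω × Ω)),
        (Finset.univ.filter (fun g : G => (g • a, g • b) = q)).card = e := by
      intro q hq
      rw [hcf, ← he, ← fiber_card h2 hab hab (Finset.mem_offDiag.mp hq).2.2]
      exact Nat.card_congr (Equiv.subtypeEquivRight (fun g => by
        constructor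
        · intro h; exact ⟨congrArg Prod.fst h, congrArg Prod.snd h⟩
        · intro h; exact Prod.ext h.1 h.2))
    rw [← Finset.card_univ, Finset.card_eq_sum_card_fiberwise (f := fun g : G => (g • a, g • b))
      (s := Finset.univ) (t := (Finset.univ.offDiag : Finset (Ω × Ω)))
      (fun g _ => Finset.mem_coe.mpr (Finset.mem_offDiag.mpr ⟨Finset.mem_univ _,
        Finset.mem_univ _, fun h => hab (smul_left_cancel g h)⟩)),
      Finset.sum_congr rfl hfib, Finset.sum_const, smul_eq_mul, hoff]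
  have hF : ∑ g : G, (Finset.univ.filter (fun c : Ω => g • c = c)).card =
      (k₀ + 3) * ((k₀ + 2) * e) := by
    have hfib : ∀ c ∈ (Finset.univ : Finset Ω),
        ∑ g : G, (if g • c = c then 1 else 0) = (k₀ + 2) * e := by
      intro c _
      rw [← Finset.card_filter]; exact hstab c
    simp_rw [Finset.card_filter]
    rw [Finset.sum_comm, Finset.sum_congr rfl hfib, Finset.sum_const, smul_eq_mul,
      Finset.card_univ, hn]
  have hp : ∀ g : G, (Finset.univ.offDiag.filter
      (fun q : Ω × Ω => g • q.1 = q.1 ∧ g • q.2 = q.2)).card =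
      (Finset.univ.filter (fun c : Ω => g • c = c)).card *
        (Finset.univ.filter (fun c : Ω => g • c = c)).card -
        (Finset.univ.filter (fun c : Ω => g • c = c)).card := by
    intro g
    rw [← Finset.offDiag_card]
    congr 1
    ext q
    simp only [Finset.mem_filter, Finset.mem_offDiag, Finset.mem_univ, true_and]
    tauto
  have hk2 : ∀ g : G, g ≠ 1 → (Finset.univ.filter (fun c : Ω => g • c = c)).card ≤ 2 := by
    intro g hg
    by_contra hcon
    obtain ⟨x, hx, y, hy, z, hz, hxy, hxz, hyz⟩ := Finset.two_lt_card.mp (not_le.mp hcon)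
    exact hg (h3 g x y z hxy hyz hxz (Finset.mem_filter.mp hx).2 (Finset.mem_filter.mp hy).2
      (Finset.mem_filter.mp hz).2)
  have hk1 : (Finset.univ.filter (fun c : Ω => (1 : G) • c = c)).card = k₀ + 3 := by
    rw [← hn, ← Finset.card_univ]
    congr 1
    ext c; simp
  have hel : ∀ g : G, (Finset.univ.offDiag.filter
      (fun q : Ω × Ω => g • q.1 = q.1 ∧ g • q.2 = q.2)).card + 2 =
      2 * (Finset.univ.filter (fun c : Ω => g • c = c)).card +
        (if g = 1 then (k₀ + 2) * (k₀ + 1) else 0) +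
        (if g ∈ Finset.univ.filter (fun g : G => ∀ c : Ω, g • c ≠ c) then 2 else 0) := by
    intro g
    rw [hp g]
    by_cases hg : g = 1
    · subst hg
      have hnot : (1 : G) ∉ Finset.univ.filter (fun g : G => ∀ c : Ω, g • c ≠ c) := by
        intro h
        exact (Finset.mem_filter.mp h).2 a (one_smul _ _)
      rw [if_pos rfl, if_neg hnot, hk1]
      have : (k₀ + 3) * (k₀ + 3) = (k₀ + 2) * (k₀ + 1) + 3 * k₀ + 7 := by ring
      omega
    · rw [if_neg hg]
      have hk := hk2 g hg
      have hiff : g ∈ Finset.univ.filter (fun g : G => ∀ c : Ω, g • c ≠ c) ↔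
          (Finset.univ.filter (fun c : Ω => g • c = c)).card = 0 := by
        rw [Finset.card_eq_zero, Finset.filter_eq_empty_iff]
        simp
      by_cases hF0 : g ∈ Finset.univ.filter (fun g : G => ∀ c : Ω, g • c ≠ c)
      · rw [if_pos hF0, hiff.mp hF0]
      · rw [if_neg hF0]
        have hne0 : (Finset.univ.filter (fun c : Ω => g • c = c)).card ≠ 0 :=
          fun h => hF0 (hiff.mpr h)
        obtain ⟨k, hk'⟩ : ∃ k, (Finset.univ.filter (fun c : Ω => g • c = c)).card = k :=
          ⟨_, rfl⟩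
        rw [hk'] at hk hne0 ⊢
        interval_cases k
        · exact absurd rfl hne0
        · rfl
        · rfl
  have hsum : ∑ g : G, ((Finset.univ.offDiag.filter
      (fun q : Ω × Ω => g • q.1 = q.1 ∧ g • q.2 = q.2)).card + 2) =
      ∑ g : G, (2 * (Finset.univ.filter (fun c : Ω => g • c = c)).card +
        (if g = 1 then (k₀ + 2) * (k₀ + 1) else 0) +
        (if g ∈ Finset.univ.filter (fun g : G => ∀ c : Ω, g • c ≠ c) then 2 else 0)) :=
    Finset.sum_congr rfl (fun g _ => hel g)
  rw [Finset.sum_add_distrib, Finset.sum_add_distrib, Finset.sum_add_distrib, hP1,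
    ← Finset.mul_sum, hF, Finset.sum_ite_eq', if_pos (Finset.mem_univ _), Finset.sum_ite_mem,
    Finset.univ_inter, Finset.sum_const, Finset.sum_const, smul_eq_mul, smul_eq_mul,
    Finset.card_univ] at hsum
  have hAB : (k₀ + 3) * ((k₀ + 2) * e) = (k₀ + 3) * (k₀ + 2) * e := by ring
  rw [hAB, ← hM] at hsum
  have hMeq : Fintype.card G = (k₀ + 2) * (k₀ + 1) +
      2 * (Finset.univ.filter (fun g : G => ∀ c : Ω, g • c ≠ c)).card := by omega
  by_contra hcon
  have hall : ∀ x y : G, (∀ c : Ω, x • c ≠ c) → (∀ c : Ω, y • c ≠ c) → IsConj x y := by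
    intro x y hx hy
    by_contra h
    exact hcon ⟨x, y, hx, hy, h⟩
  have hD : 0 < (k₀ + 2) * (k₀ + 1) := Nat.mul_pos (by omega) (by omega)
  have hMD : 3 * ((k₀ + 2) * (k₀ + 1)) + 12 ≤ Fintype.card G := by
    rw [hM]
    have h1 : (k₀ + 3) * (k₀ + 2) * 3 ≤ (k₀ + 3) * (k₀ + 2) * e := Nat.mul_le_mul_left _ he3
    have h2 : (k₀ + 3) * (k₀ + 2) * 3 = 3 * ((k₀ + 2) * (k₀ + 1)) + 6 * k₀ + 12 := by ring
    omega
  rcases (Finset.univ.filter (fun g : G => ∀ c : Ω, g • c ≠ c)).eq_empty_or_nonempty with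
    hemp | ⟨x₀, hx₀⟩
  · rw [hemp, Finset.card_empty] at hMeq
    omega
  · have hx₀' : ∀ c : Ω, x₀ • c ≠ c := (Finset.mem_filter.mp hx₀).2
    haveI : Fintype ↥(MulAction.orbit (ConjAct G) x₀) := Fintype.ofFinite _
    haveI : Fintype ↥(MulAction.stabilizer (ConjAct G) x₀) := Fintype.ofFinite _
    have hos := MulAction.card_orbit_mul_card_stabilizer_eq_card_group (ConjAct G) x₀
    have horb : Fintype.card ↥(MulAction.orbit (ConjAct G) x₀) =
        (Finset.univ.filter (fun g : G => ∀ c : Ω, g • c ≠ c)).card := by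
      apply Fintype.card_of_subtype
      intro y
      rw [ConjAct.mem_orbit_conjAct, Finset.mem_filter]
      constructor
      · rintro ⟨-, hy⟩
        exact hall y x₀ hy hx₀'
      · intro hconj
        refine ⟨Finset.mem_univ _, ?_⟩
        obtain ⟨u, hu⟩ := isConj_iff.mp hconj
        intro c hc
        apply hx₀' (u • c)
        rw [← hu, mul_smul, mul_smul, inv_smul_smul, hc]
    rw [horb, ConjAct.card] at hos
    obtain ⟨cc, hcc⟩ : ∃ cc, Fintype.card ↥(MulAction.stabilizer (ConjAct G) x₀) = cc :=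
      ⟨_, rfl⟩
    have hcpos : 0 < cc := by rw [← hcc]; exact Fintype.card_pos
    rw [hcc] at hos
    obtain ⟨f0, hf0⟩ : ∃ f0,
        (Finset.univ.filter (fun g : G => ∀ c : Ω, g • c ≠ c)).card = f0 := ⟨_, rfl⟩
    rw [hf0] at hos hMeq
    obtain ⟨M, hMM⟩ : ∃ M, Fintype.card G = M := ⟨_, rfl⟩
    rw [hMM] at hos hMeq hMD
    obtain ⟨D, hDD⟩ : ∃ D, (k₀ + 2) * (k₀ + 1) = D := ⟨_, rfl⟩
    rw [hDD] at hMeq hMD hD
    have hcM : cc * M = cc * D + 2 * M := by
      have h1 : cc * M = cc * (D + 2 * f0) := by rw [← hMeq]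
      have h2 : cc * (D + 2 * f0) = cc * D + 2 * (f0 * cc) := by ring
      rw [h1, h2, hos]
    rcases Nat.lt_or_ge cc 3 with hc3 | hc3
    · interval_cases cc
      · omega
      · omega
    · obtain ⟨c', rfl⟩ : ∃ c', cc = c' + 3 := ⟨cc - 3, by omega⟩
      nlinarith [Nat.mul_le_mul_left (c' + 1) hMD, Nat.zero_le (c' * D), Nat.zero_le c']


end Cfsg.Agent.S0880
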