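import Cfsg.Statements.S0883
import Cfsg.Agent.S0880

set_option autoImplicit false
open Cfsg

namespace Cfsg.Agent.S0883

open Cfsg.Agent.S0880 (fiber_card)

/-- Two involutions fixing the point `a` commute, in a doubly transitive group in which only
the identity fixes three points and the two-point stabilizers have odd order. -/
theorem core {G Ω : Type*} [Group G] [Fintype G] [MulAction G Ω] [Fintype Ω]
    (h2 : ∀ {a b c d : Ω}, a ≠ b → c ≠ d → ∃ g : G, g • a = c ∧ g • b = d)
    (h3 : ∀ g : G, ∀ a b c : Ω, a ≠ b → b ≠ c → a ≠ c → g • a = a → g • b = b → g • c = c →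
      g = 1)
    {a b : Ω} (hab : a ≠ b) (h e : ℕ) (hh : Fintype.card Ω = h + 1)
    (he : Nat.card ↥(MulAction.stabilizer G a ⊓ MulAction.stabilizer G b : Subgroup G) = e)
    (hodd : Odd e) (hhpos : 0 < h)
    (x y : G) (hx1 : x ≠ 1) (hxx : x * x = 1) (hxa : x • a = a)
    (hy1 : y ≠ 1) (hyy : y * y = 1) (hya : y • a = a) :
    x * y = y * x := by
  classical
  have hepos : 0 < e := by rw [← he]; exact Nat.card_pos
  have hcf : ∀ (P : G → Prop) [DecidablePred P],
      (Finset.univ.filter P).card = Nat.card {x : G // P x} := by
    intro P _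
    rw [Nat.card_eq_fintype_card, Fintype.card_subtype]
  have hpow : ∀ c d : Ω, c ≠ d → ∀ g : G, g • c = c → g • d = d → g ^ e = 1 := by
    intro c d hcd g hgc hgd
    obtain ⟨w, hwa, hwb⟩ := h2 hab hcd
    have hmemE : w⁻¹ * g * w ∈
        (MulAction.stabilizer G a ⊓ MulAction.stabilizer G b : Subgroup G) := by
      refine Subgroup.mem_inf.mpr ⟨?_, ?_⟩
      · show (w⁻¹ * g * w) • a = a
        rw [mul_smul, mul_smul, hwa, hgc]; exact inv_smul_eq_iff.mpr hwa.symm
      · show (w⁻¹ * g * w) • b = b
        rw [mul_smul, mul_smul, hwb, hgd]; exact inv_smul_eq_iff.mpr hwb.symm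
    have hp := pow_card_eq_one'
      (G := ↥(MulAction.stabilizer G a ⊓ MulAction.stabilizer G b : Subgroup G))
      (x := ⟨w⁻¹ * g * w, hmemE⟩)
    rw [he] at hp
    have hp' : (w⁻¹ * g * w) ^ e = 1 := congrArg Subtype.val hp
    have hconj : (w⁻¹ * g * w) ^ e = w⁻¹ * g ^ e * w := by
      have := conj_pow (a := w⁻¹) (b := g) (i := e)
      simpa using this
    rw [hconj] at hp'
    have : g ^ e = w * (w⁻¹ * g ^ e * w) * w⁻¹ := by group
    rw [this, hp']; group
  have hinv1 : ∀ t : G, t ≠ 1 → t * t = 1 → ∀ c d : Ω, t • c = c → t • d = d → c = d := by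
    intro t ht1 htt c d hc hd
    by_contra hcd
    have hpe := hpow c d hcd t hc hd
    obtain ⟨j, hj⟩ := hodd
    apply ht1
    rw [hj, pow_succ, pow_mul, pow_two, htt, one_pow, one_mul] at hpe
    exact hpe
  have hxfix : ∀ c : Ω, x • c = c → c = a := fun c hc => hinv1 x hx1 hxx c a hc hxa
  have hstab : ∀ c : Ω, (Finset.univ.filter (fun g : G => g • c = c)).card = h * e := by
    intro c
    obtain ⟨d, hd⟩ : ∃ d : Ω, c ≠ d := by
      by_cases hca : c = a
      · exact ⟨b, by rw [hca]; exact hab⟩
      · exact ⟨a, hca⟩
    have hmaps : ∀ g ∈ Finset.univ.filter (fun g : G => g • c = c),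
        g • d ∈ (Finset.univ.erase c : Finset Ω) := by
      intro g hg
      have hgc := (Finset.mem_filter.mp hg).2
      refine Finset.mem_erase.mpr ⟨fun h => hd ?_, Finset.mem_univ _⟩
      exact (smul_left_cancel g (h.trans hgc.symm)).symm
    rw [Finset.card_eq_sum_card_fiberwise (f := fun g : G => g • d)
      (s := Finset.univ.filter (fun g : G => g • c = c)) (t := (Finset.univ.erase c : Finset Ω))
      (fun g hg => hmaps g hg)]
    have hfib : ∀ d' ∈ (Finset.univ.erase c : Finset Ω),
        ((Finset.univ.filter (fun g : G => g • c = c)).filter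
          (fun g : G => g • d = d')).card = e := by
      intro d' hd'
      rw [Finset.filter_filter, hcf, ← he]
      exact fiber_card h2 hab hd (Ne.symm (Finset.mem_erase.mp hd').1)
    rw [Finset.sum_congr rfl hfib, Finset.sum_const, smul_eq_mul,
      Finset.card_erase_of_mem (Finset.mem_univ _), Finset.card_univ, hh, Nat.add_sub_cancel]
  -- the elements of the stabilizer fixing no second point, together with 1
  have hK : ((Finset.univ.filter (fun g : G => g • a = a)).filter
      (fun n : G => ∀ c : Ω, c ≠ a → n • c = c → n = 1)).card = h := by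
    have hT : ∑ n ∈ Finset.univ.filter (fun g : G => g • a = a),
        ((Finset.univ.erase a).filter (fun c : Ω => n • c = c)).card = h * e := by
      have hfib : ∀ c ∈ (Finset.univ.erase a : Finset Ω),
          ∑ n ∈ Finset.univ.filter (fun g : G => g • a = a),
            (if n • c = c then 1 else 0) = e := by
        intro c hc
        rw [← Finset.card_filter, Finset.filter_filter, hcf, ← he]
        exact fiber_card h2 hab (Ne.symm (Finset.mem_erase.mp hc).1)
          (Ne.symm (Finset.mem_erase.mp hc).1)
      simp_rw [Finset.card_filter]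
      rw [Finset.sum_comm, Finset.sum_congr rfl hfib, Finset.sum_const, smul_eq_mul,
        Finset.card_erase_of_mem (Finset.mem_univ _), Finset.card_univ, hh, Nat.add_sub_cancel]
    have hel : ∀ n ∈ Finset.univ.filter (fun g : G => g • a = a),
        ((Finset.univ.erase a).filter (fun c : Ω => n • c = c)).card +
          (if (∀ c : Ω, c ≠ a → n • c = c → n = 1) then 1 else 0) =
          1 + (if n = 1 then h else 0) := by
      intro n hn
      have hna := (Finset.mem_filter.mp hn).2
      by_cases hn1 : n = 1
      · subst hn1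
        rw [if_pos (fun _ _ _ => rfl), if_pos rfl]
        have : ((Finset.univ.erase a).filter (fun c : Ω => (1 : G) • c = c)) =
            Finset.univ.erase a := by
          apply Finset.filter_true_of_mem; intro c _; exact one_smul _ _
        rw [this, Finset.card_erase_of_mem (Finset.mem_univ _), Finset.card_univ, hh,
          Nat.add_sub_cancel]
        omega
      · rw [if_neg hn1]
        by_cases hP : ∀ c : Ω, c ≠ a → n • c = c → n = 1
        · rw [if_pos hP]
          have : ((Finset.univ.erase a).filter (fun c : Ω => n • c = c)) = ∅ := by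
            apply Finset.filter_eq_empty_iff.mpr
            intro c hc hnc
            exact hn1 (hP c (Finset.mem_erase.mp hc).1 hnc)
          rw [this, Finset.card_empty]
        · rw [if_neg hP]
          have hle : ((Finset.univ.erase a).filter (fun c : Ω => n • c = c)).card ≤ 1 := by
            apply Finset.card_le_one.mpr
            intro c hc d hd
            have hc' := Finset.mem_filter.mp hc
            have hd' := Finset.mem_filter.mp hd
            by_contra hcd
            exact hn1 (h3 n a c d (Ne.symm (Finset.mem_erase.mp hc'.1).1) hcd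
              (Ne.symm (Finset.mem_erase.mp hd'.1).1) hna hc'.2 hd'.2)
          have hpos : 0 < ((Finset.univ.erase a).filter (fun c : Ω => n • c = c)).card := by
            apply Finset.card_pos.mpr
            by_contra hemp
            apply hP
            intro c hca hnc
            exfalso; apply hemp
            exact ⟨c, Finset.mem_filter.mpr
              ⟨Finset.mem_erase.mpr ⟨hca, Finset.mem_univ _⟩, hnc⟩⟩
          omega
    have hsum := Finset.sum_congr rfl hel
    rw [Finset.sum_add_distrib, Finset.sum_add_distrib, hT, ← Finset.card_filter,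
      Finset.sum_const, smul_eq_mul, mul_one, hstab a, Finset.sum_ite_eq',
      if_pos (show (1 : G) ∈ Finset.univ.filter (fun g : G => g • a = a) from
        Finset.mem_filter.mpr ⟨Finset.mem_univ _, one_smul _ _⟩)] at hsum
    omega
  -- at most e involutions fix a
  have hIa : ((Finset.univ.filter (fun t : G => t ≠ 1 ∧ t * t = 1)).filter
      (fun t : G => t • a = a)).card ≤ e := by
    have hC1 : ∑ t ∈ Finset.univ.filter (fun t : G => t ≠ 1 ∧ t * t = 1),
        (Finset.univ.filter (fun c : Ω => ¬ t • c = c)).card ≤ (h + 1) * (h * e) := by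
      have hfib : ∀ c ∈ (Finset.univ : Finset Ω),
          ∑ t ∈ Finset.univ.filter (fun t : G => t ≠ 1 ∧ t * t = 1),
            (if ¬ t • c = c then 1 else 0) ≤ h * e := by
        intro c _
        rw [← Finset.card_filter]
        rw [Finset.card_eq_sum_card_fiberwise (f := fun t : G => t • c)
          (s := (Finset.univ.filter (fun t : G => t ≠ 1 ∧ t * t = 1)).filter
            (fun t : G => ¬ t • c = c))
          (t := (Finset.univ.erase c : Finset Ω))
          (fun t ht => Finset.mem_coe.mpr (Finset.mem_erase.mpr
            ⟨(Finset.mem_filter.mp (Finset.mem_coe.mp ht)).2, Finset.mem_univ _⟩))]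
        have hfib2 : ∀ d ∈ (Finset.univ.erase c : Finset Ω),
            (((Finset.univ.filter (fun t : G => t ≠ 1 ∧ t * t = 1)).filter
              (fun t : G => ¬ t • c = c)).filter (fun t : G => t • c = d)).card ≤ e := by
          intro d hd
          have hcd : c ≠ d := Ne.symm (Finset.mem_erase.mp hd).1
          have hsub : (((Finset.univ.filter (fun t : G => t ≠ 1 ∧ t * t = 1)).filter
              (fun t : G => ¬ t • c = c)).filter (fun t : G => t • c = d)) ⊆
              Finset.univ.filter (fun g : G => g • c = d ∧ g • d = c) := by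
            intro t ht
            have h1 := Finset.mem_filter.mp ht
            have h2' := Finset.mem_filter.mp h1.1
            have h3' := Finset.mem_filter.mp h2'.1
            refine Finset.mem_filter.mpr ⟨Finset.mem_univ _, h1.2, ?_⟩
            rw [← h1.2, ← mul_smul, h3'.2.2, one_smul]
          refine (Finset.card_le_card hsub).trans ?_
          rw [hcf, fiber_card h2 hab hcd (Ne.symm hcd), he]
        refine (Finset.sum_le_sum hfib2).trans ?_
        rw [Finset.sum_const, smul_eq_mul, Finset.card_erase_of_mem (Finset.mem_univ _),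
          Finset.card_univ, hh, Nat.add_sub_cancel]
      simp_rw [Finset.card_filter]
      rw [Finset.sum_comm]
      refine (Finset.sum_le_sum hfib).trans ?_
      rw [Finset.sum_const, smul_eq_mul, Finset.card_univ, hh]
    have hC2 : ∀ t ∈ Finset.univ.filter (fun t : G => t ≠ 1 ∧ t * t = 1),
        h ≤ (Finset.univ.filter (fun c : Ω => ¬ t • c = c)).card := by
      intro t ht
      have ht' := (Finset.mem_filter.mp ht).2
      have hsplit := Finset.card_filter_add_card_filter_not
        (s := (Finset.univ : Finset Ω)) (fun c : Ω => t • c = c)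
      have hle1 : (Finset.univ.filter (fun c : Ω => t • c = c)).card ≤ 1 := by
        apply Finset.card_le_one.mpr
        intro c hc d hd
        exact hinv1 t ht'.1 ht'.2 c d (Finset.mem_filter.mp hc).2 (Finset.mem_filter.mp hd).2
      rw [Finset.card_univ, hh] at hsplit
      omega
    have hC3 : (Finset.univ.filter (fun t : G => t ≠ 1 ∧ t * t = 1)).card * h ≤
        (h + 1) * (h * e) := by
      refine le_trans ?_ hC1
      rw [← smul_eq_mul, ← Finset.sum_const]
      exact Finset.sum_le_sum hC2
    have hC4 : (h + 1) * ((Finset.univ.filter (fun t : G => t ≠ 1 ∧ t * t = 1)).filter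
        (fun t : G => t • a = a)).card ≤
        (Finset.univ.filter (fun t : G => t ≠ 1 ∧ t * t = 1)).card := by
      have hle : ∀ c ∈ (Finset.univ : Finset Ω),
          ((Finset.univ.filter (fun t : G => t ≠ 1 ∧ t * t = 1)).filter
            (fun t : G => t • a = a)).card ≤
          ∑ t ∈ Finset.univ.filter (fun t : G => t ≠ 1 ∧ t * t = 1),
            (if t • c = c then 1 else 0) := by
        intro c _
        rw [← Finset.card_filter]
        obtain ⟨w, hw⟩ : ∃ w : G, w • a = c := by
          by_cases hca : c = a
          · exact ⟨1, by rw [hca, one_smul]⟩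
          · obtain ⟨w, hw, -⟩ := h2 hab (show c ≠ a from hca)
            exact ⟨w, hw⟩
        apply Finset.card_le_card_of_injOn (fun t => w * t * w⁻¹)
        · intro t ht
          have h1 := Finset.mem_filter.mp (Finset.mem_coe.mp ht)
          have h2' := (Finset.mem_filter.mp h1.1).2
          refine Finset.mem_coe.mpr (Finset.mem_filter.mpr
            ⟨Finset.mem_filter.mpr ⟨Finset.mem_univ _, ?_, ?_⟩, ?_⟩)
          · intro hw1
            have hw1' : w * t * w⁻¹ = 1 := hw1
            apply h2'.1
            have : t = w⁻¹ * (w * t * w⁻¹) * w := by group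
            rw [this, hw1']; group
          · have : w * t * w⁻¹ * (w * t * w⁻¹) = w * (t * t) * w⁻¹ := by group
            rw [this, h2'.2]; group
          · show (w * t * w⁻¹) • c = c
            rw [← hw, mul_smul, mul_smul, inv_smul_smul, h1.2]
        · intro t _ t' _ htt'
          have h : w * t * w⁻¹ = w * t' * w⁻¹ := htt'
          exact mul_left_cancel (mul_right_cancel h)
      have hs := Finset.sum_le_sum hle
      rw [Finset.sum_const, smul_eq_mul, Finset.card_univ, hh, Finset.sum_comm] at hs
      refine hs.trans ?_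
      rw [Finset.card_eq_sum_ones]
      apply Finset.sum_le_sum
      intro t ht
      have ht' := (Finset.mem_filter.mp ht).2
      rw [← Finset.card_filter]
      apply Finset.card_le_one.mpr
      intro c hc d hd
      exact hinv1 t ht'.1 ht'.2 c d (Finset.mem_filter.mp hc).2 (Finset.mem_filter.mp hd).2
    obtain ⟨X, hX⟩ : ∃ X, ((Finset.univ.filter (fun t : G => t ≠ 1 ∧ t * t = 1)).filter
        (fun t : G => t • a = a)).card = X := ⟨_, rfl⟩
    rw [hX] at hC4 ⊢
    have h4 : (h + 1) * X * h ≤ (h + 1) * (h * e) := (Nat.mul_le_mul_right h hC4).trans hC3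
    have h5 : ((h + 1) * h) * X ≤ ((h + 1) * h) * e := by
      calc ((h + 1) * h) * X = (h + 1) * X * h := by ring
        _ ≤ (h + 1) * (h * e) := h4
        _ = ((h + 1) * h) * e := by ring
    exact Nat.le_of_mul_le_mul_left h5 (Nat.mul_pos (Nat.succ_pos h) hhpos)
  -- the centralizer of x in the stabilizer has at least h elements
  have hCle : h ≤ ((Finset.univ.filter (fun g : G => g • a = a)).filter
      (fun m : G => m * x * m⁻¹ = x)).card := by
    have hmaps : ∀ n ∈ Finset.univ.filter (fun g : G => g • a = a),
        n * x * n⁻¹ ∈ (Finset.univ.filter (fun t : G => t ≠ 1 ∧ t * t = 1)).filter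
          (fun t : G => t • a = a) := by
      intro n hn
      have hna := (Finset.mem_filter.mp hn).2
      refine Finset.mem_filter.mpr ⟨Finset.mem_filter.mpr ⟨Finset.mem_univ _, ?_, ?_⟩, ?_⟩
      · intro h1
        apply hx1
        have : x = n⁻¹ * (n * x * n⁻¹) * n := by group
        rw [this, h1]; group
      · have : n * x * n⁻¹ * (n * x * n⁻¹) = n * (x * x) * n⁻¹ := by group
        rw [this, hxx]; group
      · rw [mul_smul, mul_smul, inv_smul_eq_iff.mpr hna.symm, hxa, hna]
    have hcount := Finset.card_eq_sum_card_fiberwise (f := fun n : G => n * x * n⁻¹)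
      (s := Finset.univ.filter (fun g : G => g • a = a))
      (t := (Finset.univ.filter (fun t : G => t ≠ 1 ∧ t * t = 1)).filter
        (fun t : G => t • a = a)) (fun n hn => hmaps n hn)
    have hfib : ∀ t ∈ (Finset.univ.filter (fun t : G => t ≠ 1 ∧ t * t = 1)).filter
        (fun t : G => t • a = a),
        ((Finset.univ.filter (fun g : G => g • a = a)).filter
          (fun n : G => n * x * n⁻¹ = t)).card ≤
        ((Finset.univ.filter (fun g : G => g • a = a)).filter
          (fun m : G => m * x * m⁻¹ = x)).card := by
      intro t _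
      rcases ((Finset.univ.filter (fun g : G => g • a = a)).filter
          (fun n : G => n * x * n⁻¹ = t)).eq_empty_or_nonempty with hemp | ⟨n₀, hn₀⟩
      · rw [hemp, Finset.card_empty]; exact Nat.zero_le _
      · have hn₀' := Finset.mem_filter.mp hn₀
        have hn₀a := (Finset.mem_filter.mp hn₀'.1).2
        apply Finset.card_le_card_of_injOn (fun n => n₀⁻¹ * n)
        · intro n hn
          have hn' := Finset.mem_filter.mp (Finset.mem_coe.mp hn)
          have hna := (Finset.mem_filter.mp hn'.1).2
          refine Finset.mem_coe.mpr (Finset.mem_filter.mpr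
            ⟨Finset.mem_filter.mpr ⟨Finset.mem_univ _, ?_⟩, ?_⟩)
          · show (n₀⁻¹ * n) • a = a
            rw [mul_smul, hna]; exact inv_smul_eq_iff.mpr hn₀a.symm
          · show n₀⁻¹ * n * x * (n₀⁻¹ * n)⁻¹ = x
            have : n₀⁻¹ * n * x * (n₀⁻¹ * n)⁻¹ = n₀⁻¹ * (n * x * n⁻¹) * n₀ := by group
            rw [this, hn'.2, ← hn₀'.2]; group
        · intro n _ n' _ hnn'
          have h : n₀⁻¹ * n = n₀⁻¹ * n' := hnn'
          exact mul_left_cancel h
    have h1 : h * e ≤ e * ((Finset.univ.filter (fun g : G => g • a = a)).filter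
        (fun m : G => m * x * m⁻¹ = x)).card := by
      rw [← hstab a, hcount]
      refine (Finset.sum_le_sum hfib).trans ?_
      rw [Finset.sum_const, smul_eq_mul]
      exact Nat.mul_le_mul_right _ hIa
    have h2' : e * h ≤ e * ((Finset.univ.filter (fun g : G => g • a = a)).filter
        (fun m : G => m * x * m⁻¹ = x)).card := by rw [mul_comm e h]; exact h1
    exact Nat.le_of_mul_le_mul_left h2' hepos
  have hsub : ((Finset.univ.filter (fun g : G => g • a = a)).filter
      (fun m : G => m * x * m⁻¹ = x)) ⊆
      ((Finset.univ.filter (fun g : G => g • a = a)).filter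
        (fun n : G => ∀ c : Ω, c ≠ a → n • c = c → n = 1)) := by
    intro m hm
    have hm' := Finset.mem_filter.mp hm
    have hma := (Finset.mem_filter.mp hm'.1).2
    refine Finset.mem_filter.mpr ⟨hm'.1, ?_⟩
    intro c hca hmc
    have hcomm : m * x = x * m := by
      have h := hm'.2
      calc m * x = (m * x * m⁻¹) * m := by group
        _ = x * m := by rw [h]
    have hxc : x • c ≠ c := fun h => hca (hxfix c h)
    have hxca : x • c ≠ a := by
      intro h
      apply hca
      exact smul_left_cancel x (h.trans hxa.symm)
    have hmxc : m • x • c = x • c := by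
      rw [← mul_smul, hcomm, mul_smul, hmc]
    exact h3 m a c (x • c) (Ne.symm hca) (Ne.symm hxc) (Ne.symm hxca) hma hmc hmxc
  have heq := Finset.eq_of_subset_of_card_le hsub (by rw [hK]; exact hCle)
  have hyK : y ∈ ((Finset.univ.filter (fun g : G => g • a = a)).filter
      (fun n : G => ∀ c : Ω, c ≠ a → n • c = c → n = 1)) := by
    refine Finset.mem_filter.mpr ⟨Finset.mem_filter.mpr ⟨Finset.mem_univ _, hya⟩, ?_⟩
    intro c hca hyc
    exact absurd (hinv1 y hy1 hyy c a hyc hya) hca
  rw [← heq] at hyK
  have hy' := (Finset.mem_filter.mp hyK).2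
  calc x * y = (y * x * y⁻¹) * y := by rw [hy']
    _ = y * x := by group


/-- Let G be a finite simple Zassenhaus group on Ω with h + 1 points whose two-point stabilizer E has odd order e with 2e < h - 1, and let H be the subgroup of the stabilizer of a consisting of the identity and the elements fixing no point other than a (given here as a subgroup of the stabilizer of order one less than the number of points whose non-identity elements fix only a; it is the Frobenius kernel of the stabilizer). If a non-identity element u of H is a product of two involutions of G, then u is an involution. -/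
theorem result {G Ω : Type*} [Group G] [Finite G] [MulAction G Ω] [Fintype Ω] (hZ : Cfsg.IsZassenhausGroup G Ω) {a b : Ω} (hab : a ≠ b) [IsSimpleGroup G] (h e : ℕ) (hh : Fintype.card Ω = h + 1) (he : Nat.card ↥(MulAction.stabilizer G a ⊓ MulAction.stabilizer G b : Subgroup G) = e) (hodd : Odd e) (hlt : 2 * e < h - 1) (H : Subgroup G) (hHa : H ≤ MulAction.stabilizer G a) (hHcard : Nat.card H + 1 = Fintype.card Ω) (hHfix : ∀ u ∈ H, u ≠ 1 → ∀ c : Ω, u • c = c → c = a) (u : G) (hu : u ∈ H) (hu1 : u ≠ 1) (x y : G) (hx : orderOf x = 2) (hy : orderOf y = 2) (hxy : x * y = u) : orderOf u = 2 := by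
  classical
  haveI : Fintype G := Fintype.ofFinite G
  obtain ⟨hfaith, h2t, h3, -, -⟩ := hZ
  have h2 : ∀ {a b c d : Ω}, a ≠ b → c ≠ d → ∃ g : G, g • a = c ∧ g • b = d :=
    MulAction.is_two_pretransitive_iff.mp h2t
  subst hxy
  have hxx : x * x = 1 := by rw [← pow_two, ← hx]; exact pow_orderOf_eq_one x
  have hyy : y * y = 1 := by rw [← pow_two, ← hy]; exact pow_orderOf_eq_one y
  have hx1 : x ≠ 1 := by intro h; rw [h, orderOf_one] at hx; omega
  have hy1 : y ≠ 1 := by intro h; rw [h, orderOf_one] at hy; omega
  have hxinv : x⁻¹ = x := inv_eq_of_mul_eq_one_right hxx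
  have hyinv : y⁻¹ = y := inv_eq_of_mul_eq_one_right hyy
  have hui : (x * y)⁻¹ = x * (x * y) * x⁻¹ := by
    rw [mul_inv_rev, hxinv, hyinv, ← mul_assoc, hxx, one_mul]
  have hua : (x * y) • a = a := hHa hu
  have huiH : (x * y)⁻¹ ∈ H := H.inv_mem hu
  have hui1 : (x * y)⁻¹ ≠ 1 := by intro h; exact hu1 (inv_eq_one.mp h)
  have hxa : x • a = a := by
    apply hHfix (x * y)⁻¹ huiH hui1
    rw [hui, mul_smul, mul_smul, inv_smul_smul, hua]
  have hya : y • a = a := by
    have hyeq : y = x * (x * y) := by rw [← mul_assoc, hxx, one_mul]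
    rw [hyeq, mul_smul, hua, hxa]
  have hhpos : 0 < h := by omega
  have hcomm := core h2 h3 hab h e hh he hodd hhpos x y hx1 hxx hxa hy1 hyy hya
  haveI : Fact (Nat.Prime 2) := ⟨Nat.prime_two⟩
  apply orderOf_eq_prime _ hu1
  rw [pow_two]
  calc x * y * (x * y) = x * (y * x) * y := by group
    _ = x * (x * y) * y := by rw [hcomm]
    _ = (x * x) * (y * y) := by group
    _ = 1 := by rw [hxx, hyy, one_mul]


end Cfsg.Agent.S0883
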