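import Cfsg.Statements.S0898
import Cfsg.Agent.Helper22.FT3


set_option autoImplicit false
open Cfsg
open Cfsg.Agent.Helper24 Cfsg.Agent.Helper22

namespace Cfsg.Agent.S0898

/-- Let H be an abelian subgroup of the finite group G meeting the centre of G trivially, such that for every non-central g the centralizer of g has nontrivial intersection with at most one conjugate of H. Let χ be an irreducible character of G with χ h ≠ χ 1 for some h in H, and let c be the inner product of the restriction of χ to H with the principal character. Then χ(1)² > (order of H)·c²; and if in addition χ 1 ≠ 1 and no proper normal subgroup of G contains H, then (1 + χ 1)² > order of H (both sides read as real numbers). -/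
theorem result {G : Type*} [Group G] [Fintype G] (H : Subgroup G) [Fintype H] (hab : ∀ a ∈ H, ∀ b ∈ H, a * b = b * a) (hZ : H ⊓ Subgroup.center G = ⊥) (hone : ∀ g : G, g ∉ Subgroup.center G → ∀ a b : G, Subgroup.centralizer ({g} : Set G) ⊓ H.map (MulAut.conj a).toMonoidHom ≠ ⊥ → Subgroup.centralizer ({g} : Set G) ⊓ H.map (MulAut.conj b).toMonoidHom ≠ ⊥ → H.map (MulAut.conj a).toMonoidHom = H.map (MulAut.conj b).toMonoidHom) (χ : G → ℂ) (hχ : Cfsg.IsIrrCharacter G χ) (hker : ∃ h ∈ H, χ h ≠ χ 1) : (χ 1).re ^ 2 > (Nat.card H : ℝ) * (Cfsg.classInner (fun h : H => χ h) (fun _ => 1)).re ^ 2 ∧ (χ 1 ≠ 1 → (∀ M : Subgroup G, M.Normal → H ≤ M → M = ⊤) → (1 + (χ 1).re) ^ 2 > (Nat.card H : ℝ)) := by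
  classical
  have hH : FTHyp H := ⟨hab, hZ, hone⟩
  obtain ⟨HF, hHF⟩ : ∃ HF : Finset G, ∀ y, y ∈ HF ↔ y ∈ H :=
    ⟨Finset.univ.filter (· ∈ H), fun y => by simp⟩
  have hcardH : Nat.card ↥H = HF.card := Nat.subtype_card HF hHF
  obtain ⟨n, hn, hχn⟩ := Cfsg.Agent.Helper5.irr_one_eq_natCast_pos (⟨χ, hχ⟩ : IrrCharacter G)
  have hχn' : χ 1 = (n : ℂ) := hχn
  have hre : (χ 1).re = ‖χ 1‖ := by
    rw [hχn', Complex.norm_natCast, Complex.natCast_re]
  have hinner : Cfsg.classInner (fun h : ↥H => χ h) (fun _ => 1) =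
      (HF.card : ℂ)⁻¹ * ∑ h ∈ HF, χ h := by
    rw [classInner_def', hcardH]
    congr 1
    have h1 : ∑ h ∈ HF, χ h = ∑ g : ↥H, χ (g : G) := Finset.sum_subtype HF hHF (fun h => χ h)
    rw [h1]
    refine Finset.sum_congr rfl fun g _ => ?_
    simp only [map_one, mul_one]
  have hb := ft_bound hH (⟨χ, hχ⟩ : IrrCharacter G) hker HF hHF
  have hb' : (HF.card : ℝ) * ‖(HF.card : ℂ)⁻¹ * ∑ h ∈ HF, χ h‖ ^ 2 < ‖χ 1‖ ^ 2 := hb
  refine ⟨?_, ?_⟩
  · rw [hre, hcardH, hinner, gt_iff_lt]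
    refine lt_of_le_of_lt ?_ hb'
    refine mul_le_mul_of_nonneg_left ?_ (Nat.cast_nonneg _)
    have h1 := Complex.abs_re_le_norm ((HF.card : ℂ)⁻¹ * ∑ h ∈ HF, χ h)
    exact sq_le_sq' (abs_le.mp h1).1 (abs_le.mp h1).2
  · intro hχ1 hM
    rw [hre, hcardH, gt_iff_lt]
    exact ft_bound2 hH (⟨χ, hχ⟩ : IrrCharacter G) hχ1 hM HF hHF

end Cfsg.Agent.S0898
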