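import Mathlib
import Cfsg.Statements.S1229
import Cfsg.Agent.Helper6.CIT2

set_option autoImplicit false
open Cfsg Cfsg.Agent.Helper6

namespace Cfsg.Agent.S1229

/-- Let G be a finite group with a Sylow 2-subgroup T that is neither cyclic nor normal, such that the centralizer of every involution is an elementary abelian 2-group; put H = N_G(T) and X = G/H. Then G is triply transitive on X, an element fixing three distinct points of X is the identity, and T acts regularly on X minus the point H. -/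
theorem result {G : Type*} [Group G] [Finite G] (T : Sylow 2 G) (hnc : ¬ IsCyclic (T : Subgroup G)) (hnn : ¬ (T : Subgroup G).Normal) (hC : ∀ t : G, orderOf t = 2 → IsMulCommutative (Subgroup.centralizer ({t} : Set G)) ∧ ∀ c ∈ Subgroup.centralizer ({t} : Set G), c ^ 2 = 1) : (∀ x₁ x₂ x₃ y₁ y₂ y₃ : G ⧸ Subgroup.normalizer ((T : Subgroup G) : Set G), x₁ ≠ x₂ → x₁ ≠ x₃ → x₂ ≠ x₃ → y₁ ≠ y₂ → y₁ ≠ y₃ → y₂ ≠ y₃ → ∃ g : G, g • x₁ = y₁ ∧ g • x₂ = y₂ ∧ g • x₃ = y₃) ∧ (∀ g : G, ∀ x₁ x₂ x₃ : G ⧸ Subgroup.normalizer ((T : Subgroup G) : Set G), x₁ ≠ x₂ → x₁ ≠ x₃ → x₂ ≠ x₃ → g • x₁ = x₁ → g • x₂ = x₂ → g • x₃ = x₃ → g = 1) ∧ (∀ x y : G ⧸ Subgroup.normalizer ((T : Subgroup G) : Set G), x ≠ QuotientGroup.mk 1 → y ≠ QuotientGroup.mk 1 → ∃! t : G, t ∈ T ∧ t • x = y) := by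
  have h : CIT.Hyp T := ⟨hnc, hnn, hC⟩
  obtain ⟨u, hu, huH⟩ := CIT.exists_inv_not_mem h
  obtain ⟨t₁, ht₁, ht₁2⟩ := CIT.exists_inv_T h
  have ht₁1 : t₁ ≠ 1 := ne_one_of_order_two ht₁2
  refine ⟨?_, ?_, fun x y hx hy => CIT.T_regular h hx hy⟩
  · intro x₁ x₂ x₃ y₁ y₂ y₃ hx12 hx13 hx23 hy12 hy13 hy23
    obtain ⟨gx, hx1, hx2, hx3⟩ := CIT.exists_map_triple h hu huH ht₁ ht₁1 hx12 hx13 hx23
    obtain ⟨gy, hy1, hy2, hy3⟩ := CIT.exists_map_triple h hu huH ht₁ ht₁1 hy12 hy13 hy23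
    refine ⟨gy⁻¹ * gx, ?_, ?_, ?_⟩
    · rw [mul_smul, hx1, inv_smul_eq_iff, hy1]
    · rw [mul_smul, hx2, inv_smul_eq_iff, hy2]
    · rw [mul_smul, hx3, inv_smul_eq_iff, hy3]
  · intro g x₁ x₂ x₃ h12 h13 h23 hg1 hg2 hg3
    induction x₁ using QuotientGroup.induction_on with
    | H k =>
      have hmk : (QuotientGroup.mk k : G ⧸ Subgroup.normalizer ((T : Subgroup G) : Set G)) =
          k • (QuotientGroup.mk 1 : G ⧸ Subgroup.normalizer ((T : Subgroup G) : Set G)) := by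
        rw [MulAction.Quotient.smul_mk, smul_eq_mul, mul_one]
      have hgH : k⁻¹ * g * k ∈ CIT.NT T := SE.smul_mk_eq_iff.mp hg1
      have key := CIT.three_fix h (g := k⁻¹ * g * k) (x₂ := k⁻¹ • x₂) (x₃ := k⁻¹ • x₃) hgH
        ?_ ?_ ?_ ?_ ?_
      · calc g = k * (k⁻¹ * g * k) * k⁻¹ := by group
          _ = 1 := by rw [key]; group
      · intro hcon; apply h12; rw [hmk, ← hcon, smul_inv_smul]
      · intro hcon; apply h13; rw [hmk, ← hcon, smul_inv_smul]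
      · intro hcon; apply h23; exact smul_left_cancel _ hcon
      · rw [mul_smul, mul_smul, smul_inv_smul, hg2]
      · rw [mul_smul, mul_smul, smul_inv_smul, hg3]

end Cfsg.Agent.S1229
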