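import Cfsg.Statements.S4702
import Cfsg.Agent.Helper21.Moeb
import Cfsg.Agent.Helper21.FieldReg
import Cfsg.Agent.Helper26.Zass
import Cfsg.Agent.S0883

set_option autoImplicit false
set_option linter.style.haveILetI false
open Cfsg

namespace Cfsg.Agent.S4702

open Cfsg.Agent.Helper26.Zass

/-- a sharply triply transitive group of odd degree is `SL₂` over a field of characteristic 2 -/
theorem core {G Ω : Type*} [Group G] [Finite G] [MulAction G Ω] [Fintype Ω]
    (hT : ∀ a b c a' b' c' : Ω, a ≠ b → b ≠ c → a ≠ c → a' ≠ b' → b' ≠ c' → a' ≠ c' →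
      ∃ g : G, g • a = a' ∧ g • b = b' ∧ g • c = c')
    (h3 : ∀ g : G, ∀ a b c : Ω, a ≠ b → b ≠ c → a ≠ c → g • a = a → g • b = b → g • c = c →
      g = 1)
    (hm : 3 ≤ Fintype.card Ω) (hodd : Odd (Fintype.card Ω)) :
    ∃ a : ℕ, 1 ≤ a ∧ Fintype.card Ω = 2 ^ a + 1 ∧ ∃ (F : Type) (_ : Field F) (_ : Fintype F),
      Fintype.card F = 2 ^ a ∧ Nonempty (G ≃* Matrix.SpecialLinearGroup (Fin 2) F) := by
  classical
  haveI : Fintype G := Fintype.ofFinite G
  obtain ⟨p, o, e, hpo, hpe, hoe⟩ : ∃ p o e : Ω, p ≠ o ∧ p ≠ e ∧ o ≠ e :=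
    Fintype.two_lt_card_iff.mp (by omega)
  have hoddN : Odd (Nat.card Ω) := by rw [Nat.card_eq_fintype_card]; exact hodd
  have hfixu : ∀ t : G, t * t = 1 → t ≠ 1 → ∃! x : Ω, t • x = x :=
    fun t ht ht1 => fix_unique h3 hoddN t ht ht1
  have hinv2 : ∀ t : G, t * t = 1 → ∀ x y : Ω, x ≠ y → t • x = x → t • y = y → t = 1 := by
    intro t ht x y hxy hx hy
    by_contra ht1
    obtain ⟨z, -, hz⟩ := hfixu t ht ht1
    exact hxy ((hz x hx).trans (hz y hy).symm)
  have hthird : ∀ a b : Ω, ∃ x : Ω, x ≠ a ∧ x ≠ b := by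
    intro a b
    by_contra hcon
    have hsub : (Finset.univ : Finset Ω) ⊆ {a, b} := by
      intro x _
      by_contra hx
      simp only [Finset.mem_insert, Finset.mem_singleton, not_or] at hx
      exact hcon ⟨x, hx.1, hx.2⟩
    have h1 := Finset.card_le_card hsub
    have h2 : ({a, b} : Finset Ω).card ≤ 2 := Finset.card_le_two
    rw [Finset.card_univ] at h1
    omega
  have h2t : ∀ {a b c d : Ω}, a ≠ b → c ≠ d → ∃ g : G, g • a = c ∧ g • b = d := by
    intro a b c d hab hcd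
    obtain ⟨x, hxa, hxb⟩ := hthird a b
    obtain ⟨y, hyc, hyd⟩ := hthird c d
    obtain ⟨g, h1, h2, -⟩ := hT a b x c d y hab (Ne.symm hxb) (Ne.symm hxa) hcd (Ne.symm hyd)
      (Ne.symm hyc)
    exact ⟨g, h1, h2⟩
  have hstabodd : Odd (Nat.card ↥(MulAction.stabilizer G p ⊓ MulAction.stabilizer G o :
      Subgroup G)) := by
    by_contra hne
    rw [Nat.not_odd_iff_even, even_iff_two_dvd] at hne
    haveI : Fact (Nat.Prime 2) := ⟨Nat.prime_two⟩
    obtain ⟨x, hx⟩ := exists_prime_orderOf_dvd_card' 2 hne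
    have hx1 : (x : G) ≠ 1 := by
      intro h
      have hx' : x = 1 := Subtype.ext h
      rw [hx', orderOf_one] at hx
      exact absurd hx (by decide)
    have hxx : (x : G) * (x : G) = 1 := by
      have h := pow_orderOf_eq_one x
      rw [hx, pow_two] at h
      exact congrArg Subtype.val h
    have hxp : (x : G) • p = p := (Subgroup.mem_inf.mp x.2).1
    have hxo : (x : G) • o = o := (Subgroup.mem_inf.mp x.2).2
    exact hx1 (hinv2 _ hxx p o hpo hxp hxo)
  obtain ⟨h, hcard, hhpos⟩ : ∃ h : ℕ, Fintype.card Ω = h + 1 ∧ 0 < h :=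
    ⟨Fintype.card Ω - 1, by omega, by omega⟩
  have hcomm : ∀ x y : G, x * x = 1 → x • p = p → y * y = 1 → y • p = p → x * y = y * x := by
    intro x y hxx hxp hyy hyp
    by_cases hx1 : x = 1
    · rw [hx1, one_mul, mul_one]
    by_cases hy1 : y = 1
    · rw [hy1, one_mul, mul_one]
    exact Cfsg.Agent.S0883.core h2t h3 hpo h _ hcard rfl hstabodd hhpos x y hx1 hxx hxp hy1 hyy hyp
  obtain ⟨K, hK⟩ : ∃ K : Subgroup G, ∀ t : G, t ∈ K ↔ (t • p = p ∧ t * t = 1) :=
    ⟨{ carrier := {t | t • p = p ∧ t * t = 1}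
       mul_mem' := by
         rintro a b ⟨hap, haa⟩ ⟨hbp, hbb⟩
         refine ⟨by rw [mul_smul, hbp, hap], ?_⟩
         have hc := hcomm a b haa hap hbb hbp
         calc a * b * (a * b) = a * (b * a) * b := by group
           _ = a * (a * b) * b := by rw [hc]
           _ = (a * a) * (b * b) := by group
           _ = 1 := by rw [haa, hbb, one_mul]
       one_mem' := ⟨one_smul _ _, one_mul 1⟩
       inv_mem' := by
         rintro a ⟨hap, haa⟩
         have hinv : a⁻¹ = a := inv_eq_of_mul_eq_one_left haa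
         rw [hinv]; exact ⟨hap, haa⟩ }, fun t => Iff.rfl⟩
  have hKp : ∀ t ∈ K, t • p = p := fun t ht => ((hK t).mp ht).1
  have hKsq : ∀ t ∈ K, t * t = 1 := fun t ht => ((hK t).mp ht).2
  have hKfix : ∀ t ∈ K, ∀ x : Ω, x ≠ p → t • x = x → t = 1 := fun t ht x hx htx =>
    hinv2 t (hKsq t ht) p x (Ne.symm hx) (hKp t ht) htx
  have hKcomm : ∀ t ∈ K, ∀ t' ∈ K, t * t' = t' * t := fun t ht t' ht' =>
    hcomm t t' (hKsq t ht) (hKp t ht) (hKsq t' ht') (hKp t' ht')
  have hKnorm : ∀ g : G, g • p = p → ∀ t ∈ K, g * t * g⁻¹ ∈ K := by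
    intro g hg t ht
    rw [hK]
    refine ⟨?_, ?_⟩
    · rw [mul_smul, mul_smul, inv_smul_eq_iff.mpr hg.symm, hKp t ht, hg]
    · calc g * t * g⁻¹ * (g * t * g⁻¹) = g * (t * t) * g⁻¹ := by group
        _ = 1 := by rw [hKsq t ht, mul_one, mul_inv_cancel]
  have hKtr : ∀ x y : Ω, x ≠ p → y ≠ p → x ≠ y → ∃ t ∈ K, t • x = y := by
    intro x y hx hy hxy
    obtain ⟨g, h1, h2', h3'⟩ := hT p x y p y x (Ne.symm hx) hxy (Ne.symm hy) (Ne.symm hy)
      (Ne.symm hxy) (Ne.symm hx)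
    refine ⟨g, (hK g).mpr ⟨h1, ?_⟩, h2'⟩
    exact h3 (g * g) p x y (Ne.symm hx) hxy (Ne.symm hy) (by rw [mul_smul, h1, h1])
      (by rw [mul_smul, h2', h3']) (by rw [mul_smul, h3', h2'])
  have hKinj : ∀ u ∈ K, ∀ u' ∈ K, u • o = u' • o → u = u' := by
    intro u hu u' hu' huu
    have hmem : u⁻¹ * u' ∈ K := K.mul_mem (K.inv_mem hu) hu'
    have hfix : (u⁻¹ * u') • o = o := by rw [mul_smul, ← huu, inv_smul_smul]
    exact inv_mul_eq_one.mp (hKfix _ hmem o (Ne.symm hpo) hfix)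
  have hKreg : ∀ d : Ω, d ≠ p → ∃ u ∈ K, u • o = d := by
    intro d hd
    by_cases hdo : d = o
    · exact ⟨1, K.one_mem, by rw [one_smul, hdo]⟩
    · exact hKtr o d (Ne.symm hpo) hd (Ne.symm hdo)
  obtain ⟨v, hvp, hvo, hve⟩ := hT p o e o p e hpo hoe hpe (Ne.symm hpo) hpe hoe
  have hvv : v * v = 1 := h3 (v * v) p o e hpo hoe hpe (by rw [mul_smul, hvp, hvo])
    (by rw [mul_smul, hvo, hvp]) (by rw [mul_smul, hve, hve])
  have hZ : Z0 p o v K :=
    { h3 := h3, hfix := hfixu, hab := hpo, hva := hvp, hvb := hvo, hvv := hvv,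
      hUa := hKp, hUn := hKnorm, hreg := hKreg, hinj := hKinj, hUab := hKcomm }
  have hinvc : ∀ k : G, k • p = p → k • o = o → v * k * v = k⁻¹ :=
    fun k h1 h2' => hZ.inv_conj h1 h2'
  have hHcomm : ∀ k l : G, k • p = p → k • o = o → l • p = p → l • o = o → k * l = l * k :=
    fun k l h1 h2' h3' h4 => hZ.H_comm h1 h2' h3' h4
  obtain ⟨e1, he1K, he1⟩ := hKreg e (Ne.symm hpe)
  -- the additive group of `K`
  letI : AddCommGroup (Additive ↥K) := { (inferInstance : AddGroup (Additive ↥K)) with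
    add_comm := fun a b => congrArg Additive.ofMul
      (Subtype.ext (hKcomm _ (Additive.toMul a).2 _ (Additive.toMul b).2)) }
  obtain ⟨val, hval⟩ : ∃ val : Additive ↥K → G, ∀ w, val w = ((Additive.toMul w : ↥K) : G) :=
    ⟨_, fun w => rfl⟩
  have hval_inj : Function.Injective val := by
    intro w w' hww
    rw [hval, hval] at hww
    exact Additive.toMul.injective (Subtype.ext hww)
  have hval_mem : ∀ w, val w ∈ K := fun w => by rw [hval]; exact (Additive.toMul w).2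
  have hval_surj : ∀ k ∈ K, ∃ w, val w = k := fun k hk =>
    ⟨Additive.ofMul ⟨k, hk⟩, by rw [hval]; rfl⟩
  have hval_add : ∀ w w', val (w + w') = val w * val w' := fun w w' => by
    rw [hval, hval, hval]; rfl
  have hval_zero : val 0 = 1 := by rw [hval]; rfl
  have hconj : ∀ k : G, k • p = p → ∃ f : AddMonoid.End (Additive ↥K),
      ∀ w, val (f w) = k * val w * k⁻¹ := by
    intro k hk
    let φ : ↥K →* ↥K :=
      { toFun := fun t => ⟨k * t * k⁻¹, hKnorm k hk t t.2⟩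
        map_one' := Subtype.ext (by
          show k * (1 : G) * k⁻¹ = 1
          group)
        map_mul' := fun a b => Subtype.ext (by
          show k * ((a : G) * (b : G)) * k⁻¹ = (k * a * k⁻¹) * (k * b * k⁻¹)
          group) }
    exact ⟨MonoidHom.toAdditive φ, fun w => by rw [hval, hval]; rfl⟩
  obtain ⟨S, hS⟩ : ∃ S : Set (AddMonoid.End (Additive ↥K)), ∀ f, f ∈ S ↔
      ∃ k : G, k • p = p ∧ k • o = o ∧ ∀ w, val (f w) = k * val w * k⁻¹ :=
    ⟨{f | ∃ k : G, k • p = p ∧ k • o = o ∧ ∀ w, val (f w) = k * val w * k⁻¹}, fun f => Iff.rfl⟩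
  have hScomm : ∀ f ∈ S, ∀ g ∈ S, f * g = g * f := by
    intro f hf g hg
    obtain ⟨k, hkp, hko, hfk⟩ := (hS f).mp hf
    obtain ⟨l, hlp, hlo, hgl⟩ := (hS g).mp hg
    refine DFunLike.ext _ _ (fun w => ?_)
    apply hval_inj
    have hc := hHcomm k l hkp hko hlp hlo
    have e1' : val ((f * g) w) = k * (l * val w * l⁻¹) * k⁻¹ := by
      rw [← hgl w, ← hfk (g w)]; rfl
    have e2' : val ((g * f) w) = l * (k * val w * k⁻¹) * l⁻¹ := by
      rw [← hfk w, ← hgl (f w)]; rfl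
    rw [e1', e2']
    calc k * (l * val w * l⁻¹) * k⁻¹ = (k * l) * val w * (k * l)⁻¹ := by group
      _ = (l * k) * val w * (l * k)⁻¹ := by rw [hc]
      _ = l * (k * val w * k⁻¹) * l⁻¹ := by group
  have hSinj : ∀ f ∈ S, ∀ w : Additive ↥K, f w = 0 → w = 0 := by
    intro f hf w hw
    obtain ⟨k, hkp, hko, hfk⟩ := (hS f).mp hf
    apply hval_inj
    have h1 : k * val w * k⁻¹ = 1 := by rw [← hfk w, hw, hval_zero]
    rw [hval_zero]
    calc val w = k⁻¹ * (k * val w * k⁻¹) * k := by group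
      _ = 1 := by rw [h1, mul_one, inv_mul_cancel]
  obtain ⟨m, hm1⟩ := hval_surj e1 he1K
  have he1ne : e1 ≠ 1 := by
    intro h1
    rw [h1, one_smul] at he1
    exact hoe he1
  have hreg : ∀ w : Additive ↥K, w ≠ 0 → ∃ f ∈ S, f m = w := by
    intro w hw
    have hk1 : val w ≠ 1 := fun h1 => hw (hval_inj (h1.trans hval_zero.symm))
    have hxo : val w • o ≠ o := fun h1 => hk1 (hKfix _ (hval_mem w) o (Ne.symm hpo) h1)
    have hxp : val w • o ≠ p := by
      intro h1
      have h2 : val w • o = val w • p := h1.trans (hKp _ (hval_mem w)).symm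
      exact hpo (MulAction.injective (val w) h2).symm
    obtain ⟨k, hkp, hko, hke⟩ := hT p o e p o (val w • o) hpo hoe hpe hpo (Ne.symm hxo)
      (Ne.symm hxp)
    obtain ⟨f, hf⟩ := hconj k hkp
    refine ⟨f, (hS f).mpr ⟨k, hkp, hko, hf⟩, ?_⟩
    apply hval_inj
    rw [hf m, hm1]
    apply hKinj _ (hKnorm k hkp e1 he1K) _ (hval_mem w)
    rw [mul_smul, mul_smul, inv_smul_eq_iff.mpr hko.symm, he1, hke]
  have hV : ∃ w : Additive ↥K, w ≠ 0 := by
    refine ⟨m, fun h0 => he1ne ?_⟩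
    rw [← hm1, h0, hval_zero]
  have h2V : ∀ w : Additive ↥K, w + w = 0 := by
    intro w
    apply hval_inj
    rw [hval_add, hval_zero]
    exact hKsq _ (hval_mem w)
  obtain ⟨n, F, _, _, ev, hn0, hcardF, hF2, hsq, hevbij, hevadd, hev1, hsS, hSs⟩ :=
    Cfsg.Agent.Helper21.FieldReg.field_of_regular S hScomm hSinj m hreg hV h2V
  have hev0 : ev 0 = 0 := by
    have h1 := hevadd 0 0
    rw [add_zero] at h1
    exact (add_eq_left.mp h1.symm)
  obtain ⟨κ, hκ⟩ : ∃ κ : F → G, ∀ x, κ x = val (ev x) := ⟨_, fun x => rfl⟩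
  have hκmem : ∀ x, κ x ∈ K := fun x => by rw [hκ]; exact hval_mem _
  have hκinj : Function.Injective κ := by
    intro x y hxy
    rw [hκ, hκ] at hxy
    exact hevbij.1 (hval_inj hxy)
  have hκsurj : ∀ k ∈ K, ∃ x, κ x = k := by
    intro k hk
    obtain ⟨w, hw⟩ := hval_surj k hk
    obtain ⟨x, hx⟩ := hevbij.2 w
    exact ⟨x, by rw [hκ, hx, hw]⟩
  have hκadd : ∀ x y, κ (x + y) = κ x * κ y := fun x y => by
    rw [hκ, hκ, hκ, hevadd, hval_add]
  have hκzero : κ 0 = 1 := by rw [hκ, hev0, hval_zero]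
  have hκone : κ 1 = e1 := by rw [hκ, hev1, hm1]
  have hκS : ∀ s : F, s ≠ 0 → ∃ k : G, k • p = p ∧ k • o = o ∧
      ∀ x, κ (s * x) = k * κ x * k⁻¹ := by
    intro s hs
    obtain ⟨f, hf, hfs⟩ := hsS s hs
    obtain ⟨k, hkp, hko, hfk⟩ := (hS f).mp hf
    exact ⟨k, hkp, hko, fun x => by rw [hκ, hκ, hfs x, hfk]⟩
  have hκH : ∀ k : G, k • p = p → k • o = o → ∃ s : F, s ≠ 0 ∧
      ∀ x, κ (s * x) = k * κ x * k⁻¹ := by
    intro k hkp hko
    obtain ⟨f, hf⟩ := hconj k hkp
    obtain ⟨s, hs, hfs⟩ := hSs f ((hS f).mpr ⟨k, hkp, hko, hf⟩)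
    exact ⟨s, hs, fun x => by rw [hκ, hκ, hfs x, hf]⟩
  obtain ⟨ι, hιi, hιc⟩ : ∃ ι : OnePoint F → Ω, ι OnePoint.infty = p ∧
      ∀ x : F, ι (x : OnePoint F) = κ x • o :=
    ⟨fun P => P.elim p (fun x => κ x • o), rfl, fun x => rfl⟩
  have hκo_ne : ∀ x : F, κ x • o ≠ p := by
    intro x h1
    have h2 : κ x • o = κ x • p := h1.trans (hKp _ (hκmem x)).symm
    exact hpo (MulAction.injective (κ x) h2).symm
  have hι : Function.Bijective ι := by
    constructor
    · intro P Q hPQ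
      induction P using OnePoint.rec with
      | infty =>
        induction Q using OnePoint.rec with
        | infty => rfl
        | coe y =>
          rw [hιi, hιc] at hPQ
          exact absurd hPQ.symm (hκo_ne y)
      | coe x =>
        induction Q using OnePoint.rec with
        | infty =>
          rw [hιi, hιc] at hPQ
          exact absurd hPQ (hκo_ne x)
        | coe y =>
          rw [hιc, hιc] at hPQ
          rw [hκinj (hKinj _ (hκmem x) _ (hκmem y) hPQ)]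
    · intro d
      by_cases hd : d = p
      · exact ⟨OnePoint.infty, by rw [hιi, hd]⟩
      · obtain ⟨u, hu, hud⟩ := hKreg d hd
        obtain ⟨x, hx⟩ := hκsurj u hu
        exact ⟨(x : OnePoint F), by rw [hιc, hx, hud]⟩
  have hcardΩ : Fintype.card Ω = 2 ^ n + 1 := by
    rw [← Fintype.card_of_bijective hι, ← hcardF]
    exact Fintype.card_option
  refine ⟨n, Nat.one_le_iff_ne_zero.mpr hn0, hcardΩ, F, inferInstance, inferInstance, hcardF, ?_⟩
  refine Cfsg.Agent.Helper21.Moeb.recog hF2 hsq ι hι ?_ ?_ ?_ ?_ ?_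
  · intro g hg
    exact h3 g p o e hpo hoe hpe (hg p) (hg o) (hg e)
  · intro t
    refine ⟨κ t, ?_, fun x => ?_⟩
    · rw [hιi]; exact hKp _ (hκmem t)
    · rw [hιc, hιc, add_comm, hκadd, mul_smul]
  · intro s hs
    obtain ⟨k, hkp, hko, hks⟩ := hκS s hs
    refine ⟨k, ?_, fun x => ?_⟩
    · rw [hιi]; exact hkp
    · rw [hιc, hιc, hks x, mul_smul, mul_smul, inv_smul_eq_iff.mpr hko.symm]
  · refine ⟨v, ?_, ?_, fun x hx => ?_⟩
    · rw [hιi, hιc, hκzero, one_smul]; exact hvp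
    · rw [hιi, hιc, hκzero, one_smul]; exact hvo
    · obtain ⟨k, hkp, hko, hks⟩ := hκS x hx
      have hkx : κ x = k * e1 * k⁻¹ := by
        have h1 := hks 1
        rw [mul_one, hκone] at h1
        exact h1
      have hkxi : κ x⁻¹ = k⁻¹ * e1 * k := by
        have h1 := hks x⁻¹
        rw [mul_inv_cancel₀ hx, hκone] at h1
        rw [h1]; group
      have hko' : k⁻¹ • o = o := inv_smul_eq_iff.mpr hko.symm
      have hL : (k * e1 * k⁻¹) • o = k • e := by rw [mul_smul, mul_smul, hko', he1]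
      have hR : (k⁻¹ * e1 * k) • o = k⁻¹ • e := by rw [mul_smul, mul_smul, hko, he1]
      have hvk : v * k = k⁻¹ * v := by
        have h1 := hinvc k hkp hko
        calc v * k = v * k * (v * v) := by rw [hvv, mul_one]
          _ = (v * k * v) * v := by group
          _ = k⁻¹ * v := by rw [h1]
      rw [hιc, hιc, hkx, hkxi, hL, hR, ← mul_smul, hvk, mul_smul, hve]
  · intro g hg
    rw [hιi] at hg
    have hd : g • o ≠ p := by
      intro h1
      have h2 : g • o = g • p := h1.trans hg.symm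
      exact hpo (MulAction.injective g h2).symm
    obtain ⟨u, hu, hud⟩ := hKreg (g • o) hd
    obtain ⟨t, ht⟩ := hκsurj u hu
    have hkp : ((κ t)⁻¹ * g) • p = p := by
      rw [mul_smul, hg, inv_smul_eq_iff.mpr (hKp _ (hκmem t)).symm]
    have hko : ((κ t)⁻¹ * g) • o = o := by
      rw [mul_smul, ← hud, ← ht, inv_smul_smul]
    obtain ⟨s, hs, hks⟩ := hκH _ hkp hko
    refine ⟨s, t, hs, fun x => ?_⟩
    have hko' : ((κ t)⁻¹ * g)⁻¹ • o = o := inv_smul_eq_iff.mpr hko.symm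
    have hg' : g = κ t * ((κ t)⁻¹ * g) := by group
    rw [hιc, hιc]
    calc g • κ x • o = (κ t * ((κ t)⁻¹ * g)) • κ x • o := by rw [← hg']
      _ = κ t • ((κ t)⁻¹ * g) • κ x • o := by rw [mul_smul]
      _ = κ t • (((κ t)⁻¹ * g) * κ x * ((κ t)⁻¹ * g)⁻¹) • o := by
        rw [mul_smul (((κ t)⁻¹ * g) * κ x), mul_smul ((κ t)⁻¹ * g) (κ x), hko']
      _ = (κ t * (((κ t)⁻¹ * g) * κ x * ((κ t)⁻¹ * g)⁻¹)) • o := (mul_smul _ _ _).symm
      _ = κ (s * x + t) • o := by rw [add_comm, hκadd, hks x]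


/-- Let G be a triply transitive permutation group on a finite set of odd size m ≥ 3 in which only the identity fixes three or more points. Then m = 2^a + 1 for some a ≥ 1 and G is isomorphic to SL(2, 2^a). -/
theorem result {α : Type*} [Fintype α] [DecidableEq α] (hm : 3 ≤ Fintype.card α) (hodd : Odd (Fintype.card α)) (G : Subgroup (Equiv.Perm α)) (h3 : MulAction.IsMultiplyPretransitive G α 3) (hfix : ∀ g : G, 3 ≤ Nat.card (MulAction.fixedBy α g) → g = 1) : ∃ a : ℕ, 1 ≤ a ∧ Fintype.card α = 2 ^ a + 1 ∧ ∃ (F : Type) (_ : Field F) (_ : Fintype F), Fintype.card F = 2 ^ a ∧ Nonempty (G ≃* Matrix.SpecialLinearGroup (Fin 2) F) := by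
  apply core (G := ↥G) (Ω := α) _ _ hm hodd
  · intro a b c a' b' c' hab hbc hac hab' hbc' hac'
    have hinj : Function.Injective (![a, b, c] : Fin 3 → α) := by
      intro i j hij
      fin_cases i <;> fin_cases j <;> simp_all
    have hinj' : Function.Injective (![a', b', c'] : Fin 3 → α) := by
      intro i j hij
      fin_cases i <;> fin_cases j <;> simp_all
    obtain ⟨g, hg⟩ := h3.exists_smul_eq (⟨![a, b, c], hinj⟩ : Fin 3 ↪ α) ⟨![a', b', c'], hinj'⟩
    have hg' : ∀ i : Fin 3, g • (![a, b, c] : Fin 3 → α) i = (![a', b', c'] : Fin 3 → α) i := by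
      intro i
      have h1 := congrArg (fun f : Fin 3 ↪ α => f i) hg
      exact h1
    exact ⟨g, hg' 0, hg' 1, hg' 2⟩
  · intro g a b c hab hbc hac ha hb hc
    apply hfix
    have h3c : ({a, b, c} : Set α).ncard = 3 := Set.ncard_eq_three.mpr ⟨a, b, c, hab, hac, hbc, rfl⟩
    have hsub : ({a, b, c} : Set α) ⊆ MulAction.fixedBy α g := by
      intro x hx
      rcases hx with rfl | rfl | rfl
      · exact ha
      · exact hb
      · exact hc
    rw [Nat.card_coe_set_eq, ← h3c]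
    exact Set.ncard_le_ncard hsub (Set.toFinite _)


end Cfsg.Agent.S4702
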