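import Cfsg.Statements.S1230
import Cfsg.Agent.S1229
import Cfsg.Agent.S4702

set_option autoImplicit false
set_option linter.style.haveILetI false
open Cfsg

namespace Cfsg.Agent.S1230

/-- in characteristic 2 the centre of `SL₂` is trivial -/
theorem sl2_center_bot {F : Type*} [Field F] (h2 : (2 : F) = 0) :
    Subgroup.center (Matrix.SpecialLinearGroup (Fin 2) F) = ⊥ := by
  rw [eq_bot_iff]
  intro A hA
  rw [Matrix.SpecialLinearGroup.mem_center_iff] at hA
  obtain ⟨r, hr, hrA⟩ := hA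
  rw [Subgroup.mem_bot]
  have hr2 : r ^ 2 = 1 := by simpa using hr
  have h : (r - 1) ^ 2 = 0 := by
    calc (r - 1) ^ 2 = r ^ 2 - 2 * r + 1 := by ring
      _ = 1 - 0 * r + 1 := by rw [hr2, h2]
      _ = 2 := by ring
      _ = 0 := h2
  have hr1 : r = 1 := sub_eq_zero.mp ((pow_eq_zero_iff (two_ne_zero)).mp h)
  subst hr1
  apply Subtype.ext
  rw [← hrA]
  simp

/-- hence `SL₂ ≃* PSL₂` in characteristic 2 -/
noncomputable def slEquivPsl {F : Type*} [Field F] (h2 : (2 : F) = 0) :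
    Matrix.SpecialLinearGroup (Fin 2) F ≃* Matrix.ProjectiveSpecialLinearGroup (Fin 2) F :=
  ((QuotientGroup.quotientMulEquivOfEq (sl2_center_bot h2)).trans QuotientGroup.quotientBot).symm

/-- abstract form: a regular subgroup on the complement of a point gives the degree -/
theorem card_of_regular {G : Type*} [Group G] [Finite G] (N T : Subgroup G) (hTN : T ≤ N) (hN : N ≠ ⊤)
    (hreg : ∀ x y : G ⧸ N, x ≠ QuotientGroup.mk 1 → y ≠ QuotientGroup.mk 1 →
      ∃! t : G, t ∈ T ∧ t • x = y) :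
    Nat.card (G ⧸ N) = Nat.card T + 1 := by
  classical
  have hx0 : ∃ x0 : G ⧸ N, x0 ≠ QuotientGroup.mk 1 := by
    by_contra hcon
    apply hN
    rw [eq_top_iff]
    intro g _
    by_contra hg
    apply hcon
    refine ⟨QuotientGroup.mk g, ?_⟩
    intro heq
    apply hg
    have h1 := QuotientGroup.eq.mp heq
    simpa using N.inv_mem h1
  obtain ⟨x0, hx0⟩ := hx0
  have hmem1 : ∀ t : G, t ∈ T → t • (QuotientGroup.mk 1 : G ⧸ N) = QuotientGroup.mk 1 := by
    intro t ht
    have htN : t ∈ N := hTN ht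
    rw [MulAction.Quotient.smul_mk, QuotientGroup.eq]
    simpa using N.inv_mem htN
  have hne : ∀ t : T, (t : G) • x0 ≠ QuotientGroup.mk 1 := by
    intro t heq
    apply hx0
    have h1 := hmem1 (t : G)⁻¹ (T.inv_mem t.2)
    calc x0 = (t : G)⁻¹ • ((t : G) • x0) := by rw [inv_smul_smul]
      _ = (t : G)⁻¹ • (QuotientGroup.mk 1 : G ⧸ N) := by rw [heq]
      _ = QuotientGroup.mk 1 := h1
  have hcardT : Nat.card T = Nat.card {y : G ⧸ N // y ≠ QuotientGroup.mk 1} := by
    refine Nat.card_congr (Equiv.ofBijective (fun t : T => ⟨(t : G) • x0, hne t⟩) ⟨?_, ?_⟩)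
    · intro t1 t2 h12
      have h12' : (t1 : G) • x0 = (t2 : G) • x0 := congrArg Subtype.val h12
      obtain ⟨t, -, hu⟩ := hreg x0 ((t2 : G) • x0) hx0 (hne t2)
      have e1 := hu (t1 : G) ⟨t1.2, h12'⟩
      have e2 := hu (t2 : G) ⟨t2.2, rfl⟩
      exact Subtype.ext (e1.trans e2.symm)
    · rintro ⟨y, hy⟩
      obtain ⟨t, ⟨htT, hty⟩, -⟩ := hreg x0 y hx0 hy
      exact ⟨⟨t, htT⟩, Subtype.ext hty⟩
  rw [hcardT, ← Finite.card_option]
  exact Nat.card_congr (Equiv.optionSubtypeNe (QuotientGroup.mk 1 : G ⧸ N)).symm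

/-- Let G be a finite group with a Sylow 2-subgroup T that is neither cyclic nor normal, such that the centralizer of every involution is an elementary abelian 2-group. Then G ≅ PSL(2,F) for a finite field F with |F| = |T|. -/
theorem result {G : Type*} [Group G] [Finite G] (T : Sylow 2 G) (hnc : ¬ IsCyclic (T : Subgroup G)) (hnn : ¬ (T : Subgroup G).Normal) (hC : ∀ t : G, orderOf t = 2 → IsMulCommutative (Subgroup.centralizer ({t} : Set G)) ∧ ∀ c ∈ Subgroup.centralizer ({t} : Set G), c ^ 2 = 1) : ∃ (F : Type) (_ : Field F) (_ : Fintype F), Fintype.card F = Nat.card T ∧ Nonempty (G ≃* Matrix.ProjectiveSpecialLinearGroup (Fin 2) F) := by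
  classical
  obtain ⟨h3t, h3s, hreg⟩ := Cfsg.Agent.S1229.result T hnc hnn hC
  haveI : Fintype (G ⧸ Subgroup.normalizer ((T : Subgroup G) : Set G)) := Fintype.ofFinite _
  have hNtop : Subgroup.normalizer ((T : Subgroup G) : Set G) ≠ ⊤ := fun h =>
    hnn (Subgroup.normalizer_eq_top_iff.mp h)
  have hcard : Nat.card (G ⧸ Subgroup.normalizer ((T : Subgroup G) : Set G)) =
      Nat.card (T : Subgroup G) + 1 :=
    card_of_regular (Subgroup.normalizer ((T : Subgroup G) : Set G)) (T : Subgroup G)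
      Subgroup.le_normalizer hNtop hreg
  obtain ⟨n, hn⟩ := (IsPGroup.iff_card (p := 2) (G := (T : Subgroup G))).mp T.2
  have hn1 : n ≠ 0 := by
    intro h0
    rw [h0, pow_zero] at hn
    haveI : Subsingleton (T : Subgroup G) := (Nat.card_eq_one_iff_unique.mp hn).1
    exact hnc isCyclic_of_subsingleton
  have hFc : Fintype.card (G ⧸ Subgroup.normalizer ((T : Subgroup G) : Set G)) = 2 ^ n + 1 := by
    rw [← Nat.card_eq_fintype_card, hcard, hn]
  have h2n : 2 ≤ 2 ^ n := by
    calc 2 = 2 ^ 1 := (pow_one 2).symm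
      _ ≤ 2 ^ n := Nat.pow_le_pow_right (by norm_num) (Nat.one_le_iff_ne_zero.mpr hn1)
  have hev : Even (2 ^ n) := (Nat.even_pow' hn1).mpr even_two
  obtain ⟨a, ha, hΩ, F, iF, iFt, hF, ⟨e⟩⟩ := Cfsg.Agent.S4702.core (G := G)
    (Ω := G ⧸ Subgroup.normalizer ((T : Subgroup G) : Set G))
    (fun a b c a' b' c' hab hbc hac hab' hbc' hac' => h3t a b c a' b' c' hab hac hbc hab' hac' hbc')
    (fun g a b c hab hbc hac h1 h2 h3 => h3s g a b c hab hac hbc h1 h2 h3)
    (by rw [hFc]; omega) (by rw [hFc]; exact hev.add_one)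
  have hcF : Fintype.card F = Nat.card (T : Subgroup G) := by
    rw [hF, hn]
    rw [hFc] at hΩ
    omega
  have h2F : (2 : F) = 0 := by
    have h0 : ((Fintype.card F : ℕ) : F) = 0 := by simp
    rw [hF] at h0
    have h1 : (2 : F) ^ a = 0 := by exact_mod_cast h0
    exact (pow_eq_zero_iff (by omega)).mp h1
  exact ⟨F, iF, iFt, hcF, ⟨e.trans (slEquivPsl h2F)⟩⟩


end Cfsg.Agent.S1230
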