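import Cfsg.Statements.S1011
import Mathlib
import Cfsg.Agent.S1230
import Cfsg.Agent.Helper15.O504A1
import Cfsg.Agent.Helper15.O504A2
import Cfsg.Agent.Helper19.O504B
import Cfsg.Agent.Helper1.O504C
import Cfsg.Agent.Helper21.O504D1
import Cfsg.Agent.Helper21.O504D2
import Cfsg.Agent.Helper21.O504E1
import Cfsg.Agent.Helper21.O504G
import Cfsg.Agent.Helper6.O504F
import Cfsg.Agent.Lead.O504E2

set_option autoImplicit false
open Cfsg

namespace Cfsg.Agent.S1011

/-- A simple group of order 504 is isomorphic to the projective special linear group of dimension 2 over the field with 8 elements. -/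
theorem result {G : Type*} [Group G] [Finite G] [IsSimpleGroup G] (h : Nat.card G = 504) {F : Type*} [Field F] [Fintype F] (hF : Fintype.card F = 8) : Nonempty (G ≃* Matrix.ProjectiveSpecialLinearGroup (Fin 2) F) := by
  obtain ⟨x, t, hx, ht, htx⟩ := Cfsg.Agent.Helper15.O504A2.exists_D14 h
    (Cfsg.Agent.Helper15.O504A1.norm7_card h)
  have h12 := Cfsg.Agent.Helper19.O504B.cent_le h x t hx ht htx
  obtain ⟨T₀, hle⟩ := Cfsg.Agent.Helper1.O504C.invol_central h t ht
  have hT₀ := Cfsg.Agent.Helper21.O504G.cent_eq_sylow h t T₀ hle h12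
  by_cases hab : ∀ a ∈ (T₀ : Subgroup G), ∀ b ∈ (T₀ : Subgroup G), a * b = b * a
  · have hC := Cfsg.Agent.Lead.O504E2.elem_abelian h T₀ hab t ht hT₀
      (fun a haT ha1 hcen => Cfsg.Agent.Helper21.O504E1.no_central_elt h T₀ hab a haT ha1 hcen)
    have hexp : ∀ c ∈ (T₀ : Subgroup G), c ^ 2 = 1 := by
      intro c hc
      exact (hC t ht).2 c (by rw [hT₀]; exact hc)
    obtain ⟨F', hF'1, hF'2, hcard, ⟨e⟩⟩ := Cfsg.Agent.S1230.result T₀
      (Cfsg.Agent.Helper21.O504G.not_cyclic h T₀ hexp)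
      (Cfsg.Agent.Helper21.O504G.not_normal h T₀) hC
    have hc8 : Fintype.card F' = Fintype.card F := by
      rw [hcard, hF]
      exact Cfsg.Agent.Helper21.O504G.sylow2_card h T₀
    obtain ⟨e2⟩ := Cfsg.Agent.Helper6.O504F.psl_congr (F := F') (F' := F) hc8
    exact ⟨e.trans e2⟩
  · exfalso
    obtain ⟨hconj, hsq, v, hv⟩ := Cfsg.Agent.Helper21.O504D1.nonab_facts h
      (Cfsg.Agent.Helper1.O504C.invol_central h) t ht T₀ hT₀ hab
    exact Cfsg.Agent.Helper21.O504D2.count504 h t ht T₀ hT₀ hconj hsq v hv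

end Cfsg.Agent.S1011
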