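import Cfsg.Statements.S1282
import Cfsg.Agent.Helper9.CoprimeGen
import Cfsg.Agent.Helper19.PGroup
import Cfsg.Agent.S3514

set_option autoImplicit false
open Cfsg

namespace Cfsg.Agent.S1282

variable {G : Type*} [Group G]

theorem gen [Finite G] (B K D : Subgroup G) [IsMulCommutative B] (hB : ¬ IsCyclic B)
    (hBK : B ≤ Subgroup.normalizer (K : Set G)) (hcop : (Nat.card B).Coprime (Nat.card K))
    (hKD : ¬ K ≤ D) : ∃ b ∈ B, b ≠ 1 ∧ ¬ (K ⊓ Subgroup.centralizer {b} ≤ D) := by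
  by_contra hcon
  apply hKD
  have h1 := Cfsg.Agent.Helper9.coprime_generation B K hB hBK hcop
  rw [← h1]
  unfold Cfsg.Agent.Helper9.cgen
  refine iSup₂_le fun b hb => ?_
  by_contra h2
  exact hcon ⟨b, hb.1, hb.2, h2⟩

theorem le_normalizer_inf {A H K : Subgroup G} (hH : A ≤ Subgroup.normalizer (H : Set G))
    (hK : A ≤ Subgroup.normalizer (K : Set G)) :
    A ≤ Subgroup.normalizer ((H ⊓ K : Subgroup G) : Set G) := by
  intro x hx
  rw [Subgroup.mem_normalizer_iff]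
  intro h
  have h1 := Subgroup.mem_normalizer_iff.mp (hH hx) h
  have h2 := Subgroup.mem_normalizer_iff.mp (hK hx) h
  exact ⟨fun hh => ⟨h1.mp hh.1, h2.mp hh.2⟩, fun hh => ⟨h1.mpr hh.1, h2.mpr hh.2⟩⟩

theorem orderOf_eq_of_pow {p : ℕ} [Fact p.Prime] {x : G} (hx : x ^ p = 1) (hx1 : x ≠ 1) :
    orderOf x = p := by
  have h := orderOf_dvd_of_pow_eq_one hx
  rcases (Nat.dvd_prime (Fact.out : p.Prime)).mp h with h1 | h1
  · exact absurd (orderOf_eq_one_iff.mp h1) hx1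
  · exact h1

theorem card_zpowers_of_pow {p : ℕ} [Fact p.Prime] {x : G} (hx : x ^ p = 1) (hx1 : x ≠ 1) :
    Nat.card (Subgroup.zpowers x) = p := by
  rw [Nat.card_zpowers, orderOf_eq_of_pow hx hx1]

theorem mem_zpowers_of_mem_zpowers [Finite G] {p : ℕ} [Fact p.Prime] {x y : G} (hx : x ^ p = 1)
    (hy : y ∈ Subgroup.zpowers x) (hy1 : y ≠ 1) : x ∈ Subgroup.zpowers y := by
  have hx1 : x ≠ 1 := by
    rintro rfl
    rw [Subgroup.zpowers_one_eq_bot, Subgroup.mem_bot] at hy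
    exact hy1 hy
  have hyp : y ^ p = 1 := by
    obtain ⟨k, rfl⟩ := Subgroup.mem_zpowers_iff.mp hy
    rw [← zpow_natCast, ← zpow_mul, mul_comm, zpow_mul, zpow_natCast, hx, one_zpow]
  have hle : Subgroup.zpowers y ≤ Subgroup.zpowers x := Subgroup.zpowers_le.mpr hy
  have heq : Subgroup.zpowers y = Subgroup.zpowers x :=
    Subgroup.eq_of_le_of_card_ge hle
      (by rw [card_zpowers_of_pow hx hx1, card_zpowers_of_pow hyp hy1])
  rw [heq]; exact Subgroup.mem_zpowers x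

theorem card_le_of_isCyclic {p : ℕ} [Fact p.Prime] [Finite G] (B : Subgroup G)
    (hexp : ∀ x ∈ B, x ^ p = 1) (hc : IsCyclic B) : Nat.card B ≤ p := by
  obtain ⟨g, hg⟩ := hc.exists_generator
  have h1 : Nat.card B = orderOf g := (orderOf_eq_card_of_forall_mem_zpowers hg).symm
  have h2 : g ^ p = 1 := Subtype.ext (by simpa using hexp g g.2)
  rw [h1]
  exact Nat.le_of_dvd (Fact.out : p.Prime).pos (orderOf_dvd_of_pow_eq_one h2)

theorem sq_lt_cube {p : ℕ} (hp : 2 ≤ p) : p * p < p ^ 3 := by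
  have h0 : 0 < p * p := Nat.mul_pos (by omega) (by omega)
  have : p ^ 3 = p * p * p := by ring
  rw [this]
  nlinarith

/-- Let A be an elementary abelian p-subgroup of rank at least 3 of the finite group G, q ≠ p a prime, and Q₁, Q₂ q-subgroups normalized by A with D = Q₁ ∩ Q₂ different from both. Then there is a non-identity a ∈ A such that, for i = 1 and i = 2, N_{Q_i}(D) ∩ C_G(a) is not contained in D. -/
theorem result {G : Type*} [Group G] [Finite G] (p : ℕ) [Fact p.Prime] (A : Subgroup G) (hA : Cfsg.IsElementaryAbelian p A) (hA3 : p ^ 3 ≤ Nat.card ↥A) (q : ℕ) [Fact q.Prime] (hqp : q ≠ p) (Q₁ Q₂ : Subgroup G) (h₁ : IsPGroup q ↥Q₁) (h₂ : IsPGroup q ↥Q₂) (hA₁ : A ≤ Subgroup.normalizer (Q₁ : Set G)) (hA₂ : A ≤ Subgroup.normalizer (Q₂ : Set G)) (hD₁ : Q₁ ⊓ Q₂ ≠ Q₁) (hD₂ : Q₁ ⊓ Q₂ ≠ Q₂) : ∃ a ∈ A, a ≠ 1 ∧ ¬ (Subgroup.normalizer ((Q₁ ⊓ Q₂ : Subgroup G) : Set G) ⊓ Q₁ ⊓ Subgroup.centralizer {a} ≤ Q₁ ⊓ Q₂) ∧ ¬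 (Subgroup.normalizer ((Q₁ ⊓ Q₂ : Subgroup G) : Set G) ⊓ Q₂ ⊓ Subgroup.centralizer {a} ≤ Q₁ ⊓ Q₂) := by
  obtain ⟨hAcomm, hAexp⟩ := hA
  have hp2 : 2 ≤ p := (Fact.out : p.Prime).two_le
  have hcomm : ∀ a ∈ A, ∀ b ∈ A, a * b = b * a := by
    intro a ha b hb
    have := hAcomm.is_comm.comm (⟨a, ha⟩ : A) ⟨b, hb⟩
    exact congrArg Subtype.val this
  set D := Q₁ ⊓ Q₂ with hD
  have hAD : A ≤ Subgroup.normalizer (D : Set G) := le_normalizer_inf hA₁ hA₂
  have hAND : A ≤ Subgroup.normalizer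
      ((Subgroup.normalizer (D : Set G) : Subgroup G) : Set G) := hAD.trans Subgroup.le_normalizer
  set N₁ := Subgroup.normalizer (D : Set G) ⊓ Q₁ with hN₁
  set N₂ := Subgroup.normalizer (D : Set G) ⊓ Q₂ with hN₂
  have hAN₁ : A ≤ Subgroup.normalizer (N₁ : Set G) := le_normalizer_inf hAND hA₁
  have hAN₂ : A ≤ Subgroup.normalizer (N₂ : Set G) := le_normalizer_inf hAND hA₂
  have hN₁D : ¬ N₁ ≤ D := by
    have hlt : D < Q₁ := lt_of_le_of_ne inf_le_left hD₁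
    obtain ⟨x, hxQ, hxN, hxD⟩ := Cfsg.Agent.Helper19.exists_mem_normalizer_not_mem h₁ hlt
    exact fun h => hxD (h ⟨hxN, hxQ⟩)
  have hN₂D : ¬ N₂ ≤ D := by
    have hlt : D < Q₂ := lt_of_le_of_ne inf_le_right hD₂
    obtain ⟨x, hxQ, hxN, hxD⟩ := Cfsg.Agent.Helper19.exists_mem_normalizer_not_mem h₂ hlt
    exact fun h => hxD (h ⟨hxN, hxQ⟩)
  have hAp : IsPGroup p A := fun g =>
    ⟨1, by rw [pow_one]; exact Subtype.ext (by simpa using hAexp g g.2)⟩
  obtain ⟨m, hm⟩ := IsPGroup.iff_card.mp hAp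
  have hpq : Nat.Coprime p q := (Nat.coprime_primes Fact.out Fact.out).mpr (Ne.symm hqp)
  have hcop₁ : ∀ B : Subgroup G, B ≤ A → ∀ K : Subgroup G, K ≤ Q₁ →
      (Nat.card B).Coprime (Nat.card K) := by
    intro B hB K hK
    obtain ⟨k, hk⟩ := IsPGroup.iff_card.mp h₁
    exact Nat.Coprime.coprime_dvd_left (Subgroup.card_dvd_of_le hB)
      (Nat.Coprime.coprime_dvd_right (Subgroup.card_dvd_of_le hK)
        (by rw [hm, hk]; exact Nat.Coprime.pow _ _ hpq))
  have hcop₂ : ∀ B : Subgroup G, B ≤ A → ∀ K : Subgroup G, K ≤ Q₂ →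
      (Nat.card B).Coprime (Nat.card K) := by
    intro B hB K hK
    obtain ⟨k, hk⟩ := IsPGroup.iff_card.mp h₂
    exact Nat.Coprime.coprime_dvd_left (Subgroup.card_dvd_of_le hB)
      (Nat.Coprime.coprime_dvd_right (Subgroup.card_dvd_of_le hK)
        (by rw [hm, hk]; exact Nat.Coprime.pow _ _ hpq))
  have hAnc : ¬ IsCyclic A := by
    intro hc
    have h1 := card_le_of_isCyclic A hAexp hc
    have h2 := sq_lt_cube hp2
    have h3 := Nat.le_mul_self p
    omega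
  -- Step 1
  obtain ⟨a₁, ha₁A, ha₁1, hU₁⟩ := gen A N₁ D hAnc hAN₁ (hcop₁ A le_rfl N₁ inf_le_right) hN₁D
  have hAC : A ≤ Subgroup.normalizer
      ((Subgroup.centralizer ({a₁} : Set G) : Subgroup G) : Set G) := by
    intro x hx
    apply Subgroup.le_normalizer
    rw [Subgroup.mem_centralizer_singleton_iff]
    exact hcomm x hx a₁ ha₁A
  have hAU₁ : A ≤ Subgroup.normalizer
      ((N₁ ⊓ Subgroup.centralizer ({a₁} : Set G) : Subgroup G) : Set G) :=
    le_normalizer_inf hAN₁ hAC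
  -- Step 2
  have hZA : Subgroup.zpowers a₁ ≤ A := Subgroup.zpowers_le.mpr ha₁A
  have hZcard : Nat.card (Subgroup.zpowers a₁) = p := card_zpowers_of_pow (hAexp a₁ ha₁A) ha₁1
  obtain ⟨b, hbA, hbZ⟩ : ∃ b ∈ A, b ∉ Subgroup.zpowers a₁ := by
    by_contra hcon
    have hle : A ≤ Subgroup.zpowers a₁ := fun x hx => by
      by_contra h; exact hcon ⟨x, hx, h⟩
    have h1 := Subgroup.card_le_of_le hle
    rw [hZcard] at h1
    have h2 := sq_lt_cube hp2
    have h3 := Nat.le_mul_self p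
    omega
  have hb1 : b ≠ 1 := fun h => hbZ (h ▸ Subgroup.one_mem _)
  have hHbA : Subgroup.zpowers b ≤ A := Subgroup.zpowers_le.mpr hbA
  have hHbcard : Nat.card (Subgroup.zpowers b) = p := card_zpowers_of_pow (hAexp b hbA) hb1
  have hnorm : ∀ x ∈ A, ∀ (L : Subgroup G), L ≤ A → x ∈ Subgroup.normalizer (L : Set G) := by
    intro x hx L hL
    rw [Subgroup.mem_normalizer_iff]
    intro h
    constructor
    · intro hh
      have e : x * h * x⁻¹ = h := by rw [hcomm x hx h (hL hh)]; group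
      rw [e]; exact hh
    · intro hh
      have e := hcomm x hx _ (hL hh)
      have e3 : x * h * x⁻¹ = h := by
        have e2 : x * h * x⁻¹ = x⁻¹ * (x * (x * h * x⁻¹)) := by group
        rw [e2, e]; group
      rwa [e3] at hh
  have hprod := Cfsg.Agent.S3514.card_sup_mul_card_inf (Subgroup.zpowers a₁) (Subgroup.zpowers b)
    (fun x hx => hnorm x (hHbA hx) _ hZA)
  rw [hZcard, hHbcard] at hprod
  have hE : Nat.card (Subgroup.zpowers a₁ ⊔ Subgroup.zpowers b : Subgroup G) ≤ p * p := by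
    have h2 : 0 < Nat.card (Subgroup.zpowers a₁ ⊓ Subgroup.zpowers b : Subgroup G) := Nat.card_pos
    calc Nat.card (Subgroup.zpowers a₁ ⊔ Subgroup.zpowers b : Subgroup G)
        ≤ Nat.card (Subgroup.zpowers a₁ ⊔ Subgroup.zpowers b : Subgroup G) *
          Nat.card (Subgroup.zpowers a₁ ⊓ Subgroup.zpowers b : Subgroup G) :=
          Nat.le_mul_of_pos_right _ h2
      _ = p * p := hprod
  obtain ⟨c, hcA, hcE⟩ : ∃ c ∈ A, c ∉ Subgroup.zpowers a₁ ⊔ Subgroup.zpowers b := by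
    by_contra hcon
    have hle : A ≤ Subgroup.zpowers a₁ ⊔ Subgroup.zpowers b := fun x hx => by
      by_contra h; exact hcon ⟨x, hx, h⟩
    have h1 := (Subgroup.card_le_of_le hle).trans hE
    have h2 := sq_lt_cube hp2
    omega
  have hc1 : c ≠ 1 := fun h => hcE (h ▸ Subgroup.one_mem _)
  have hHcA : Subgroup.zpowers c ≤ A := Subgroup.zpowers_le.mpr hcA
  have hBA : Subgroup.zpowers b ⊔ Subgroup.zpowers c ≤ A := sup_le hHbA hHcA
  have hbc : Subgroup.zpowers b ⊓ Subgroup.zpowers c = ⊥ := by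
    rw [eq_bot_iff]
    intro y hy
    rw [Subgroup.mem_bot]
    by_contra hy1
    have h1 : c ∈ Subgroup.zpowers y := mem_zpowers_of_mem_zpowers (hAexp c hcA) hy.2 hy1
    exact hcE (Subgroup.mem_sup_right (Subgroup.zpowers_le.mpr hy.1 h1))
  have hBcard : Nat.card (Subgroup.zpowers b ⊔ Subgroup.zpowers c : Subgroup G) = p * p := by
    have h1 := Cfsg.Agent.S3514.card_sup_mul_card_inf (Subgroup.zpowers b) (Subgroup.zpowers c)
      (fun x hx => hnorm x (hHcA hx) _ hHbA)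
    rw [hbc, Subgroup.card_bot, mul_one, hHbcard, card_zpowers_of_pow (hAexp c hcA) hc1] at h1
    exact h1
  have hBnc : ¬ IsCyclic (Subgroup.zpowers b ⊔ Subgroup.zpowers c : Subgroup G) := by
    intro hcyc
    have h1 := card_le_of_isCyclic _ (fun x hx => hAexp x (hBA hx)) hcyc
    rw [hBcard] at h1
    nlinarith
  have ha₁B : a₁ ∉ Subgroup.zpowers b ⊔ Subgroup.zpowers c := by
    intro h
    have hZb : Subgroup.zpowers a₁ ⊓ Subgroup.zpowers b = ⊥ := by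
      rw [eq_bot_iff]
      intro y hy
      rw [Subgroup.mem_bot]
      by_contra hy1
      have h1 : b ∈ Subgroup.zpowers y := mem_zpowers_of_mem_zpowers (hAexp b hbA) hy.2 hy1
      exact hbZ (Subgroup.zpowers_le.mpr hy.1 h1)
    rw [hZb, Subgroup.card_bot, mul_one] at hprod
    have hle : Subgroup.zpowers a₁ ⊔ Subgroup.zpowers b ≤
        Subgroup.zpowers b ⊔ Subgroup.zpowers c :=
      sup_le (Subgroup.zpowers_le.mpr h) le_sup_left
    have heq : Subgroup.zpowers a₁ ⊔ Subgroup.zpowers b =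
        Subgroup.zpowers b ⊔ Subgroup.zpowers c :=
      Subgroup.eq_of_le_of_card_ge hle (by rw [hprod, hBcard])
    have hcB : c ∈ Subgroup.zpowers b ⊔ Subgroup.zpowers c :=
      Subgroup.mem_sup_right (Subgroup.mem_zpowers c)
    rw [← heq] at hcB
    exact hcE hcB
  have hBcomm : IsMulCommutative (Subgroup.zpowers b ⊔ Subgroup.zpowers c : Subgroup G) :=
    ⟨⟨fun x y => Subtype.ext (hcomm x (hBA x.2) y (hBA y.2))⟩⟩
  obtain ⟨b₁, hb₁B, hb₁1, hb₁U⟩ := gen (Subgroup.zpowers b ⊔ Subgroup.zpowers c)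
    (N₁ ⊓ Subgroup.centralizer ({a₁} : Set G)) D hBnc (hBA.trans hAU₁)
    (hcop₁ _ hBA _ (inf_le_left.trans inf_le_right)) hU₁
  have hb₁A : b₁ ∈ A := hBA hb₁B
  have hb₁Z : b₁ ∉ Subgroup.zpowers a₁ := by
    intro h
    have h1 : a₁ ∈ Subgroup.zpowers b₁ := mem_zpowers_of_mem_zpowers (hAexp a₁ ha₁A) h hb₁1
    exact ha₁B (Subgroup.zpowers_le.mpr hb₁B h1)
  -- Step 3
  have hEA : Subgroup.zpowers a₁ ⊔ Subgroup.zpowers b₁ ≤ A :=
    sup_le hZA (Subgroup.zpowers_le.mpr hb₁A)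
  have hEcomm : IsMulCommutative (Subgroup.zpowers a₁ ⊔ Subgroup.zpowers b₁ : Subgroup G) :=
    ⟨⟨fun x y => Subtype.ext (hcomm x (hEA x.2) y (hEA y.2))⟩⟩
  have hEnc : ¬ IsCyclic (Subgroup.zpowers a₁ ⊔ Subgroup.zpowers b₁ : Subgroup G) := by
    intro hcyc
    have h1 := card_le_of_isCyclic _ (fun x hx => hAexp x (hEA hx)) hcyc
    have heq : Subgroup.zpowers a₁ = Subgroup.zpowers a₁ ⊔ Subgroup.zpowers b₁ :=
      Subgroup.eq_of_le_of_card_ge le_sup_left (by rw [hZcard]; exact h1)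
    have hb₁E : b₁ ∈ Subgroup.zpowers a₁ ⊔ Subgroup.zpowers b₁ :=
      Subgroup.mem_sup_right (Subgroup.mem_zpowers b₁)
    rw [← heq] at hb₁E
    exact hb₁Z hb₁E
  obtain ⟨a, haE, ha1, haN₂⟩ := gen (Subgroup.zpowers a₁ ⊔ Subgroup.zpowers b₁) N₂ D hEnc
    (hEA.trans hAN₂) (hcop₂ _ hEA N₂ inf_le_right) hN₂D
  refine ⟨a, hEA haE, ha1, ?_, haN₂⟩
  intro hle
  apply hb₁U
  refine le_trans ?_ hle
  rintro x ⟨⟨hx1, hx2⟩, hx3⟩
  refine ⟨hx1, ?_⟩
  have hEx : Subgroup.zpowers a₁ ⊔ Subgroup.zpowers b₁ ≤ Subgroup.centralizer ({x} : Set G) := by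
    apply sup_le
    · rw [Subgroup.zpowers_le, Subgroup.mem_centralizer_singleton_iff]
      have h4 : x ∈ Subgroup.centralizer ({a₁} : Set G) := hx2
      rw [Subgroup.mem_centralizer_singleton_iff] at h4
      exact h4.symm
    · rw [Subgroup.zpowers_le, Subgroup.mem_centralizer_singleton_iff]
      have h4 : x ∈ Subgroup.centralizer ({b₁} : Set G) := hx3
      rw [Subgroup.mem_centralizer_singleton_iff] at h4
      exact h4.symm
  have h5 := hEx haE
  rw [Subgroup.mem_centralizer_singleton_iff] at h5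
  show x ∈ Subgroup.centralizer ({a} : Set G)
  rw [Subgroup.mem_centralizer_singleton_iff]
  exact h5.symm

end Cfsg.Agent.S1282
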