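-- S1313: proof by helper7
import Cfsg.Statements.S1313
import Mathlib
import Cfsg.Agent.Helper7.Bender

set_option autoImplicit false
open Cfsg

namespace Cfsg.Agent.S1313

/-- For a finite group H, |H| ≤ |F*(H)|!. -/
theorem result {H : Type*} [Group H] [Finite H] : Nat.card H ≤ Nat.factorial (Nat.card ↥(Cfsg.generalizedFittingSubgroup H)) := by
  classical
  have hFn : (Cfsg.generalizedFittingSubgroup H).Normal :=
    Cfsg.Agent.Helper7.generalizedFitting_normal
  let ψ : H →* Equiv.Perm ↥(Cfsg.generalizedFittingSubgroup H) :=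
    (MulAut.toPerm _).comp (MulAut.conjNormal (H := Cfsg.generalizedFittingSubgroup H))
  have hker : ψ.ker ≤ Cfsg.generalizedFittingSubgroup H := by
    intro h hh
    apply Cfsg.Agent.Helper7.bender
    rw [Subgroup.mem_centralizer_iff]
    intro x hx
    rw [MonoidHom.mem_ker] at hh
    have h1 : ψ h ⟨x, hx⟩ = ⟨x, hx⟩ := by rw [hh]; rfl
    have h2 : ((ψ h ⟨x, hx⟩ : ↥(Cfsg.generalizedFittingSubgroup H)) : H) = h * x * h⁻¹ :=
      MulAut.conjNormal_apply h ⟨x, hx⟩
    rw [h1] at h2
    have h3 : x = h * x * h⁻¹ := h2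
    calc x * h = h * x * h⁻¹ * h := by rw [← h3]
      _ = h * x := by group
  have hrange : ψ.range ≤ MulAction.stabilizer (Equiv.Perm ↥(Cfsg.generalizedFittingSubgroup H))
      (1 : ↥(Cfsg.generalizedFittingSubgroup H)) := by
    rintro _ ⟨h, rfl⟩
    rw [MulAction.mem_stabilizer_iff]
    exact map_one (MulAut.conjNormal (H := Cfsg.generalizedFittingSubgroup H) h)
  have hstab : Nat.card (MulAction.stabilizer (Equiv.Perm ↥(Cfsg.generalizedFittingSubgroup H))
      (1 : ↥(Cfsg.generalizedFittingSubgroup H))) * Nat.card ↥(Cfsg.generalizedFittingSubgroup H)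
      = Nat.factorial (Nat.card ↥(Cfsg.generalizedFittingSubgroup H)) := by
    have h1 := Subgroup.card_mul_index (MulAction.stabilizer
      (Equiv.Perm ↥(Cfsg.generalizedFittingSubgroup H)) (1 : ↥(Cfsg.generalizedFittingSubgroup H)))
    rw [MulAction.index_stabilizer_of_transitive, Nat.card_perm] at h1
    exact h1
  calc Nat.card H = Nat.card ψ.ker * Nat.card ψ.range := by
        rw [← Subgroup.index_ker, Subgroup.card_mul_index]
    _ ≤ Nat.card ↥(Cfsg.generalizedFittingSubgroup H) *
        Nat.card (MulAction.stabilizer (Equiv.Perm ↥(Cfsg.generalizedFittingSubgroup H))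
          (1 : ↥(Cfsg.generalizedFittingSubgroup H))) :=
        Nat.mul_le_mul (Subgroup.card_le_of_le hker) (Subgroup.card_le_of_le hrange)
    _ = _ := by rw [mul_comm, hstab]

end Cfsg.Agent.S1313
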