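import Cfsg.Statements.S1349
import Mathlib
import Cfsg.Agent.Helper14.Frame
import Cfsg.Agent.S1264
import Cfsg.Agent.Helper1.Fitting
import Cfsg.Agent.Helper9.Layer
import Cfsg.Agent.S0206

set_option autoImplicit false
open Cfsg

namespace Cfsg.Agent.S1349

/-- conjugation by a normalising element as an automorphism of the subgroup -/
def conjEquiv {G : Type*} [Group G] (L : Subgroup G) (s : G)
    (hs : s ∈ Subgroup.normalizer (L : Set G)) : ↥L ≃* ↥L where
  toFun x := ⟨s * x * s⁻¹, (Subgroup.mem_normalizer_iff.mp hs x).mp x.2⟩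
  invFun x := ⟨s⁻¹ * x * s, by
    have h := (Subgroup.mem_normalizer_iff.mp ((Subgroup.normalizer (L : Set G)).inv_mem hs) x).mp x.2
    rwa [inv_inv] at h⟩
  left_inv x := by
    apply Subtype.ext
    show s⁻¹ * (s * (x : G) * s⁻¹) * s = x
    group
  right_inv x := by
    apply Subtype.ext
    show s * (s⁻¹ * (x : G) * s) * s⁻¹ = x
    group
  map_mul' x y := by
    apply Subtype.ext
    show s * ((x : G) * (y : G)) * s⁻¹ = (s * (x : G) * s⁻¹) * (s * (y : G) * s⁻¹)
    group

theorem comm_sup {G : Type*} [Group G] (u v w z : G) (h1 : u * w = w * u) (h2 : u * z = z * u)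
    (h3 : v * w = w * v) (h4 : v * z = z * v) :
    ∀ x ∈ Subgroup.zpowers u ⊔ Subgroup.zpowers v, ∀ y ∈ Subgroup.zpowers w ⊔ Subgroup.zpowers z,
      x * y = y * x := by
  intro x hx y hy
  have hyu : y ∈ Subgroup.centralizer {u} ⊓ Subgroup.centralizer {v} := by
    have hle : Subgroup.zpowers w ⊔ Subgroup.zpowers z ≤
        Subgroup.centralizer {u} ⊓ Subgroup.centralizer {v} := by
      apply sup_le
      · rw [Subgroup.zpowers_le]
        exact Subgroup.mem_inf.mpr ⟨Subgroup.mem_centralizer_singleton_iff.mpr h1.symm,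
          Subgroup.mem_centralizer_singleton_iff.mpr h3.symm⟩
      · rw [Subgroup.zpowers_le]
        exact Subgroup.mem_inf.mpr ⟨Subgroup.mem_centralizer_singleton_iff.mpr h2.symm,
          Subgroup.mem_centralizer_singleton_iff.mpr h4.symm⟩
    exact hle hy
  have hyu1 : y * u = u * y := Subgroup.mem_centralizer_singleton_iff.mp (Subgroup.mem_inf.mp hyu).1
  have hyv1 : y * v = v * y := Subgroup.mem_centralizer_singleton_iff.mp (Subgroup.mem_inf.mp hyu).2
  have hle : Subgroup.zpowers u ⊔ Subgroup.zpowers v ≤ Subgroup.centralizer {y} := by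
    apply sup_le
    · rw [Subgroup.zpowers_le]
      exact Subgroup.mem_centralizer_singleton_iff.mpr hyu1.symm
    · rw [Subgroup.zpowers_le]
      exact Subgroup.mem_centralizer_singleton_iff.mpr hyv1.symm
  exact Subgroup.mem_centralizer_singleton_iff.mp (hle hx)


/-- Let G be finite, L ≤ G solvable of odd order, and A an elementary abelian 2-subgroup of order 2^d (d ≥ 1) normalizing L with C_A(L) = 1. Then there are subgroups A_1, …, A_d of A of order 2 generating A and subgroups L_1, …, L_d of L such that each A_i ⊔ L_i is dihedral of order 2 n_i with n_i odd and at least 3, and A_i ⊔ L_i commutes elementwise with A_j ⊔ L_j for i ≠ j. -/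
theorem result {G : Type*} [Group G] [Finite G] (L A : Subgroup G) (hLs : Group.IsSolvable ↥L) (hLodd : Odd (Nat.card ↥L)) (hA : Cfsg.IsElementaryAbelian 2 A) (d : ℕ) (hd : 1 ≤ d) (hAd : Nat.card ↥A = 2 ^ d) (hAL : A ≤ Subgroup.normalizer (L : Set G)) (hfaith : A ⊓ Subgroup.centralizer (L : Set G) = ⊥) : ∃ (Ai : Fin d → Subgroup G) (Li : Fin d → Subgroup G) (n : Fin d → ℕ), (∀ i, Ai i ≤ A ∧ Nat.card ↥(Ai i) = 2 ∧ Li i ≤ L ∧ Odd (n i) ∧ 3 ≤ n i ∧ Nonempty (↥(Ai i ⊔ Li i) ≃* DihedralGroup (n i))) ∧ (⨆ i, Ai i) = A ∧ ∀ i j, i ≠ j → ∀ x ∈ Ai i ⊔ Li i, ∀ y ∈ Ai j ⊔ Li j, x * y = y * x := by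
  classical
  haveI := hLs
  have hIc : ∀ s ∈ A, ∀ t ∈ A, s * t = t * s := by
    intro s hs t ht
    haveI := hA.1
    exact setLike_mul_comm hs ht
  have hI2 : ∀ s ∈ A, s * s = 1 := fun s hs => by rw [← pow_two]; exact hA.2 s hs
  obtain ⟨F, hFdef⟩ : ∃ F : Subgroup G, F = (Cfsg.fittingSubgroup ↥L).map L.subtype := ⟨_, rfl⟩
  have hFL : F ≤ L := by
    rw [hFdef]
    rintro _ ⟨x, _, rfl⟩
    exact x.2
  have hFmem : ∀ x : G, x ∈ F ↔ ∃ hx : x ∈ L, (⟨x, hx⟩ : ↥L) ∈ Cfsg.fittingSubgroup ↥L := by
    intro x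
    rw [hFdef]
    constructor
    · rintro ⟨y, hy, rfl⟩
      exact ⟨y.2, hy⟩
    · rintro ⟨hx, h⟩
      exact ⟨⟨x, hx⟩, h, rfl⟩
  have hFnil : Group.IsNilpotent ↥F := by
    rw [hFdef]
    haveI : Group.IsNilpotent ↥(Cfsg.fittingSubgroup ↥L) := Cfsg.Agent.Helper1.fitting_isNilpotent
    exact Group.nilpotent_of_mulEquiv
      (Subgroup.equivMapOfInjective (Cfsg.fittingSubgroup ↥L) L.subtype L.subtype_injective)
  have hFodd : Odd (Nat.card F) := Odd.of_dvd_nat hLodd (Subgroup.card_dvd_of_le hFL)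
  have hL2 := Cfsg.Agent.Helper14.Frame.no_invol L hLodd
  have hchar := Cfsg.Agent.Helper9.fittingSubgroup_characteristic ↥L
  haveI hFLn : (Cfsg.fittingSubgroup ↥L).Normal := Cfsg.Agent.Helper1.fitting_normal ↥L
  -- elements normalising L normalise F
  have hNF : ∀ s ∈ Subgroup.normalizer (L : Set G), ∀ x ∈ F, s * x * s⁻¹ ∈ F := by
    intro s hs x hx
    obtain ⟨hxL, hxF⟩ := (hFmem x).mp hx
    have h1 := Subgroup.characteristic_iff_map_eq.mp hchar (conjEquiv L s hs)
    have h2 : conjEquiv L s hs ⟨x, hxL⟩ ∈ (Cfsg.fittingSubgroup ↥L).map (conjEquiv L s hs).toMonoidHom :=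
      ⟨⟨x, hxL⟩, hxF, rfl⟩
    rw [h1] at h2
    exact (hFmem _).mpr ⟨_, h2⟩
  have hAF : A ≤ Subgroup.normalizer (F : Set G) := by
    intro s hs
    apply Cfsg.Agent.Helper14.mem_normalizer_of_forall F s (hNF s (hAL hs))
    intro x hx
    have := hNF s⁻¹ ((Subgroup.normalizer (L : Set G)).inv_mem (hAL hs)) x hx
    rwa [inv_inv] at this
  -- C_L(F) ≤ F
  have hCF : ∀ c ∈ L, (∀ y ∈ F, c * y = y * c) → c ∈ F := by
    intro c hc hcF
    have h := Cfsg.Agent.S1264.result
      (Subgroup.centralizer ((Cfsg.fittingSubgroup ↥L : Subgroup ↥L) : Set ↥L)) le_rfl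
      Subgroup.le_normalizer inferInstance
    have hc' : (⟨c, hc⟩ : ↥L) ∈ Subgroup.centralizer ((Cfsg.fittingSubgroup ↥L : Subgroup ↥L) : Set ↥L) := by
      rw [Subgroup.mem_centralizer_iff]
      intro y hy
      apply Subtype.ext
      have hyF : (y : G) ∈ F := (hFmem _).mpr ⟨y.2, hy⟩
      exact (hcF _ hyF).symm
    obtain ⟨z, _, hz⟩ := h hc'
    refine (hFmem c).mpr ⟨hc, ?_⟩
    rw [← hz]
    exact z.2
  have hfaith : ∀ s ∈ A, (∀ x ∈ F, s * x = x * s) → s = 1 := by
    intro s hs hsF
    have hsN := hAL hs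
    have hcen := Cfsg.Agent.Helper14.Frame.central_transfer L F hL2
      (fun x hx y hy => hNF x (Subgroup.le_normalizer hx) y hy) hCF s (hI2 s hs)
      (fun x hx => (Subgroup.mem_normalizer_iff.mp hsN x).mp hx) hsF
    have hsC : s ∈ A ⊓ Subgroup.centralizer (L : Set G) := by
      refine Subgroup.mem_inf.mpr ⟨hs, ?_⟩
      rw [Subgroup.mem_centralizer_iff]
      intro x hx
      exact (hcen x hx).symm
    rw [hfaith] at hsC
    exact Subgroup.mem_bot.mp hsC
  obtain ⟨a, e, h1, h2, h3, h4, h5, h6, h7⟩ := Cfsg.Agent.Helper14.Frame.frame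
    F A A hFnil hFodd hIc hI2 hAF le_rfl hfaith d hAd
  have hF2 := Cfsg.Agent.Helper14.Frame.no_invol F hFodd
  have heodd : ∀ i, Odd (orderOf (e i)) :=
    fun i => Cfsg.Agent.Helper14.Frame.odd_orderOf_of_mem F hFodd _ (h1 i).2.1
  have he1 : ∀ i, e i ≠ 1 := by
    intro i h
    have := (h1 i).2.2
    rw [h, orderOf_one] at this
    exact Nat.not_prime_one this
  have ha1 : ∀ i, a i ≠ 1 := by
    intro i h
    have h3i := h3 i
    rw [h] at h3i
    have hee : e i * e i = 1 := by
      have e1 : e i = (e i)⁻¹ := by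
        calc e i = 1 * e i * 1⁻¹ := by group
          _ = (e i)⁻¹ := h3i
      calc e i * e i = e i * (e i)⁻¹ := congrArg (fun y => e i * y) e1
        _ = 1 := mul_inv_cancel _
    exact he1 i (hF2 _ (h1 i).2.1 hee)
  have haord : ∀ i, orderOf (a i) = 2 := by
    intro i
    exact orderOf_eq_prime (hA.2 _ (h1 i).1) (ha1 i)
  refine ⟨fun i => Subgroup.zpowers (a i), fun i => Subgroup.zpowers (e i), fun i => orderOf (e i),
    ?_, ?_, ?_⟩
  · intro i
    have hai2 : a i * a i = 1 := hI2 _ (h1 i).1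
    have hainv : (a i)⁻¹ = a i := inv_eq_of_mul_eq_one_left hai2
    refine ⟨?_, ?_, ?_, heodd i, ?_, ?_⟩
    · rw [Subgroup.zpowers_le]; exact (h1 i).1
    · rw [Nat.card_zpowers]; exact haord i
    · rw [Subgroup.zpowers_le]; exact hFL (h1 i).2.1
    · show 3 ≤ orderOf (e i)
      have hp := (h1 i).2.2
      have h2le := hp.two_le
      have hodd := Nat.odd_iff.mp (heodd i)
      omega
    · have hae1 : a i * e i ≠ 1 := by
        intro h
        have h' : e i = (a i)⁻¹ := eq_inv_of_mul_eq_one_right h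
        have hord : orderOf (e i) = 2 := by rw [h', orderOf_inv]; exact haord i
        have hodd := Nat.odd_iff.mp (heodd i)
        omega
      have hae2 : (a i * e i) ^ 2 = 1 := by
        have h3i := h3 i
        rw [hainv] at h3i
        rw [pow_two]
        calc a i * e i * (a i * e i) = (a i * e i * a i) * e i := by group
          _ = (e i)⁻¹ * e i := by rw [h3i]
          _ = 1 := inv_mul_cancel _
      have hyord : orderOf (a i * e i) = 2 := orderOf_eq_prime hae2 hae1
      have hxy : a i ≠ a i * e i := by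
        intro h
        apply he1 i
        have : a i * 1 = a i * e i := by rw [mul_one]; exact h
        exact (mul_left_cancel this).symm
      have hiso := Cfsg.Agent.S0206.result (a i) (a i * e i) (haord i) hyord hxy
      have hprod : a i * (a i * e i) = e i := by rw [← mul_assoc, hai2, one_mul]
      rw [hprod] at hiso
      have hclos : Subgroup.closure ({a i, a i * e i} : Set G) =
          Subgroup.zpowers (a i) ⊔ Subgroup.zpowers (e i) := by
        apply le_antisymm
        · rw [Subgroup.closure_le]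
          rintro x (hx | hx)
          · rw [hx]
            exact (le_sup_left : Subgroup.zpowers (a i) ≤ _) (Subgroup.mem_zpowers _)
          · rw [Set.mem_singleton_iff] at hx
            rw [hx]
            exact Subgroup.mul_mem _
              ((le_sup_left : Subgroup.zpowers (a i) ≤ _) (Subgroup.mem_zpowers _))
              ((le_sup_right : Subgroup.zpowers (e i) ≤ _) (Subgroup.mem_zpowers _))
        · apply sup_le
          · rw [Subgroup.zpowers_le]
            exact Subgroup.subset_closure (Or.inl rfl)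
          · rw [Subgroup.zpowers_le]
            have h1' : a i ∈ Subgroup.closure ({a i, a i * e i} : Set G) :=
              Subgroup.subset_closure (Or.inl rfl)
            have h2' : a i * e i ∈ Subgroup.closure ({a i, a i * e i} : Set G) :=
              Subgroup.subset_closure (Or.inr rfl)
            have := Subgroup.mul_mem _ (Subgroup.inv_mem _ h1') h2'
            rwa [inv_mul_cancel_left] at this
      rw [hclos] at hiso
      exact hiso
  · apply le_antisymm
    · exact iSup_le (fun i => (Subgroup.zpowers_le).mpr (h1 i).1)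
    · rw [← h6, Subgroup.closure_le]
      rintro _ ⟨i, rfl⟩
      exact (le_iSup (fun i => Subgroup.zpowers (a i)) i) (Subgroup.mem_zpowers _)
  · intro i j hij
    apply comm_sup
    · exact hIc _ (h1 i).1 _ (h1 j).1
    · have := h4 i j hij
      rw [mul_inv_eq_iff_eq_mul] at this
      exact this
    · have := h4 j i (Ne.symm hij)
      rw [mul_inv_eq_iff_eq_mul] at this
      exact this.symm
    · exact h5 i j

end Cfsg.Agent.S1349
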