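import Cfsg.Statements.S4204
import Mathlib
-- import your own Cfsg.Agent.* helpers here

set_option autoImplicit false
open Cfsg

namespace Cfsg.Agent.S4204

open scoped commutatorElement

/-- For a normal subgroup `N`, the elements `x` with `⁅x, y⁆ ∈ N` for all `y ∈ Y` form a subgroup. -/
def cmod {G : Type*} [Group G] (Y N : Subgroup G) [hN : N.Normal] : Subgroup G where
  carrier := {x | ∀ y ∈ Y, ⁅x, y⁆ ∈ N}
  one_mem' := by
    intro y _
    simp
  mul_mem' := by
    intro a b ha hb y hy
    rw [commutatorElement_mul_left_eq_conj_mul]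
    exact N.mul_mem (hN.conj_mem _ (hb y hy) a) (ha y hy)
  inv_mem' := by
    intro a ha y hy
    rw [commutatorElement_inv_left]
    have h1 := N.inv_mem (ha y hy)
    rw [commutatorElement_inv] at h1
    have h2 := hN.conj_mem _ h1 a⁻¹
    simpa using h2

theorem commutator_le_iff_le_cmod {G : Type*} [Group G] (X Y N : Subgroup G) [N.Normal] :
    ⁅X, Y⁆ ≤ N ↔ X ≤ cmod Y N := Subgroup.commutator_le

theorem sup_commutator_le {G : Type*} [Group G] (X₁ X₂ Y N : Subgroup G) [hN : N.Normal]
    (h1 : ⁅X₁, Y⁆ ≤ N) (h2 : ⁅X₂, Y⁆ ≤ N) : ⁅X₁ ⊔ X₂, Y⁆ ≤ N := by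
  rw [commutator_le_iff_le_cmod] at *
  exact sup_le h1 h2

theorem iSup_commutator_le {G : Type*} [Group G] {ι : Sort*} (X : ι → Subgroup G)
    (Y N : Subgroup G) [hN : N.Normal]
    (h : ∀ i, ⁅X i, Y⁆ ≤ N) : ⁅⨆ i, X i, Y⁆ ≤ N := by
  rw [commutator_le_iff_le_cmod]
  exact iSup_le fun i => (commutator_le_iff_le_cmod _ _ _).mp (h i)

/-- shifted lower central series: position `0` is the whole group. -/
def shl {G : Type*} [Group G] (H : Subgroup G) : ℕ → Subgroup G
  | 0 => ⊤
  | i + 1 => H.lowerCentralSeries i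

instance shl_normal {G : Type*} [Group G] (H : Subgroup G) [H.Normal] (i : ℕ) :
    (shl H i).Normal := by
  cases i with
  | zero => exact (inferInstance : (⊤ : Subgroup G).Normal)
  | succ i => exact (inferInstance : (H.lowerCentralSeries i).Normal)

theorem shl_comm_le {G : Type*} [Group G] (H : Subgroup G) [H.Normal] (i : ℕ) :
    ⁅shl H i, H⁆ ≤ shl H (i + 1) := by
  cases i with
  | zero => exact Subgroup.commutator_le_right _ _
  | succ i => exact le_of_eq rfl

/-- the bound for the lower central series of `H ⊔ K`. -/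
def fitL {G : Type*} [Group G] (H K : Subgroup G) (n : ℕ) : Subgroup G :=
  ⨆ (p : ℕ × ℕ) (_ : p.1 + p.2 = n + 1), shl H p.1 ⊓ shl K p.2

instance fitL_normal {G : Type*} [Group G] (H K : Subgroup G) [H.Normal] [K.Normal] (n : ℕ) :
    (fitL H K n).Normal := by
  unfold fitL
  infer_instance

theorem le_fitL {G : Type*} [Group G] (H K : Subgroup G) (n i j : ℕ) (h : i + j = n + 1) :
    shl H i ⊓ shl K j ≤ fitL H K n := by
  unfold fitL
  exact le_iSup₂_of_le (i, j) h le_rfl

theorem lcs_le_fitL {G : Type*} [Group G] (H K : Subgroup G) [H.Normal] [K.Normal] (n : ℕ) :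
    (H ⊔ K).lowerCentralSeries n ≤ fitL H K n := by
  induction n with
  | zero =>
    rw [Subgroup.lowerCentralSeries_zero]
    refine sup_le ?_ ?_
    · refine le_trans ?_ (le_fitL H K 0 1 0 rfl)
      simp [shl]
    · refine le_trans ?_ (le_fitL H K 0 0 1 rfl)
      simp [shl]
  | succ n ih =>
    rw [Subgroup.lowerCentralSeries_succ]
    refine le_trans (Subgroup.commutator_mono ih le_rfl) ?_
    unfold fitL
    apply iSup_commutator_le
    intro p
    apply iSup_commutator_le
    intro hp
    rw [Subgroup.commutator_comm]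
    apply sup_commutator_le
    · rw [Subgroup.commutator_comm]
      refine le_trans ?_ (le_fitL H K (n + 1) (p.1 + 1) p.2 (by omega))
      refine le_inf ?_ ?_
      · exact le_trans (Subgroup.commutator_mono inf_le_left le_rfl) (shl_comm_le H p.1)
      · exact le_trans (Subgroup.commutator_mono inf_le_right le_rfl) (Subgroup.commutator_le_left _ _)
    · rw [Subgroup.commutator_comm]
      refine le_trans ?_ (le_fitL H K (n + 1) p.1 (p.2 + 1) (by omega))
      refine le_inf ?_ ?_
      · exact le_trans (Subgroup.commutator_mono inf_le_left le_rfl) (Subgroup.commutator_le_left _ _)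
      · exact le_trans (Subgroup.commutator_mono inf_le_right le_rfl) (shl_comm_le K p.2)


/-- If `H` and `K` are normal subgroups of a finite group with `H` nilpotent of class at most `c` and `K` nilpotent of class at most `d` (the terms with index `c`, respectively `d`, of their lower central series are trivial, indices starting at `0`), then `HK` is nilpotent of class at most `c + d`. -/
theorem result {G : Type*} [Group G] [Finite G] (H K : Subgroup G) [H.Normal] [K.Normal] (c d : ℕ) (hH : H.lowerCentralSeries c = ⊥) (hK : K.lowerCentralSeries d = ⊥) : (H ⊔ K).lowerCentralSeries (c + d) = ⊥ := by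
  rw [eq_bot_iff]
  refine le_trans (lcs_le_fitL H K (c + d)) ?_
  unfold fitL
  refine iSup₂_le ?_
  rintro ⟨i, j⟩ hij
  simp only at hij
  by_cases hi : c + 1 ≤ i
  · refine le_trans inf_le_left ?_
    obtain ⟨i', rfl⟩ : ∃ i', i = i' + 1 := ⟨i - 1, by omega⟩
    show H.lowerCentralSeries i' ≤ ⊥
    rw [← hH]
    exact H.lowerCentralSeries_antitone (by omega)
  · refine le_trans inf_le_right ?_
    obtain ⟨j', rfl⟩ : ∃ j', j = j' + 1 := ⟨j - 1, by omega⟩
    show K.lowerCentralSeries j' ≤ ⊥
    rw [← hK]
    exact K.lowerCentralSeries_antitone (by omega)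

end Cfsg.Agent.S4204
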