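import Cfsg.Statements.S1459
import Cfsg.Agent.Lead.PChain
import Cfsg.Agent.S0001
import Cfsg.Agent.S4204
import Cfsg.Agent.Helper9.PPrimeCore

set_option autoImplicit false
open Cfsg

namespace Cfsg.Agent.S1459

open Cfsg.Agent.Lead.PChain
open scoped commutatorElement

universe u

/-- `[H,K]` is normal in `G` when `H` is normal and `H ⊔ K = ⊤`. -/
theorem comm_normal {G : Type*} [Group G] (H K : Subgroup G) [H.Normal] (hsup : H ⊔ K = ⊤) :
    (⁅H, K⁆ : Subgroup G).Normal := by
  have keyH : ∀ n ∈ H, ⁅H, K⁆ ≤ (⁅H, K⁆ : Subgroup G).comap (MulAut.conj n).toMonoidHom := by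
    intro n hn
    rw [Subgroup.commutator_le]
    intro h hh k hk
    rw [Subgroup.mem_comap]
    have e : (MulAut.conj n).toMonoidHom ⁅h, k⁆ = ⁅n * h, k⁆ * ⁅n, k⁆⁻¹ := by
      simp only [MulEquiv.coe_toMonoidHom, MulAut.conj_apply, commutatorElement_def]
      group
    rw [e]
    exact Subgroup.mul_mem _ (Subgroup.commutator_mem_commutator (H.mul_mem hn hh) hk)
      (Subgroup.inv_mem _ (Subgroup.commutator_mem_commutator hn hk))
  have keyK : ∀ n ∈ K, ⁅H, K⁆ ≤ (⁅H, K⁆ : Subgroup G).comap (MulAut.conj n).toMonoidHom := by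
    intro n hn
    rw [Subgroup.commutator_le]
    intro h hh k hk
    rw [Subgroup.mem_comap]
    have e : (MulAut.conj n).toMonoidHom ⁅h, k⁆ = ⁅n * h * n⁻¹, n * k * n⁻¹⁆ := by
      simp only [MulEquiv.coe_toMonoidHom, MulAut.conj_apply, commutatorElement_def]
      group
    rw [e]
    exact Subgroup.commutator_mem_commutator (Subgroup.Normal.conj_mem inferInstance h hh n)
      (K.mul_mem (K.mul_mem hn hk) (K.inv_mem hn))
  refine ⟨fun w hw g => ?_⟩
  have hg : g ∈ K ⊔ H := by rw [sup_comm, hsup]; trivial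
  obtain ⟨k, hk, h, hh, rfl⟩ := (Cfsg.Agent.S0001.mem_sup_normal K H g).1 hg
  have h1 := Subgroup.mem_comap.1 (keyH h hh hw)
  have h2 := Subgroup.mem_comap.1 (keyK k hk h1)
  have e3 : k * h * w * (k * h)⁻¹ =
      (MulAut.conj k).toMonoidHom ((MulAut.conj h).toMonoidHom w) := by
    simp only [MulEquiv.coe_toMonoidHom, MulAut.conj_apply]
    group
  rw [e3]; exact h2

theorem Dser_sup_le {G : Type*} [Group G] (X N : Subgroup G) [N.Normal] (k : ℕ) :
    Dser k (X ⊔ N) ≤ Dser k X ⊔ N := by
  have h1 : (Dser k (X ⊔ N)).map (QuotientGroup.mk' N) = (Dser k X).map (QuotientGroup.mk' N) := by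
    rw [Dser_map, Dser_map, Subgroup.map_sup, QuotientGroup.map_mk'_self, sup_bot_eq]
  have h2 : Dser k (X ⊔ N) ≤
      ((Dser k (X ⊔ N)).map (QuotientGroup.mk' N)).comap (QuotientGroup.mk' N) :=
    Subgroup.le_comap_map _ _
  rw [h1, Subgroup.comap_map_eq, QuotientGroup.ker_mk'] at h2
  exact h2

theorem map_commutator_mk {G : Type*} [Group G] (M : Subgroup G) [M.Normal] :
    (commutator G).map (QuotientGroup.mk' M) = commutator (G ⧸ M) := by
  rw [commutator_def, commutator_def, Subgroup.map_commutator,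
    Subgroup.map_top_of_surjective _ (QuotientGroup.mk'_surjective M)]

theorem comm_of_comm_mem {G : Type*} [Group G] (M : Subgroup G) [M.Normal] {g x : G}
    (hc : ⁅g, x⁆ ∈ M) :
    QuotientGroup.mk' M g * QuotientGroup.mk' M x = QuotientGroup.mk' M x * QuotientGroup.mk' M g := by
  have h1 : QuotientGroup.mk' M ⁅g, x⁆ = 1 := (QuotientGroup.eq_one_iff _).2 hc
  rw [commutatorElement_def, map_mul, map_mul, map_mul, map_inv, map_inv] at h1
  calc QuotientGroup.mk' M g * QuotientGroup.mk' M x
      = (QuotientGroup.mk' M g * QuotientGroup.mk' M x * (QuotientGroup.mk' M g)⁻¹ *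
          (QuotientGroup.mk' M x)⁻¹) * (QuotientGroup.mk' M x * QuotientGroup.mk' M g) := by group
    _ = QuotientGroup.mk' M x * QuotientGroup.mk' M g := by rw [h1, one_mul]

theorem orderOf_dvd_card_of_mem {G : Type*} [Group G] (H : Subgroup G) {h : G} (hh : h ∈ H) :
    orderOf h ∣ Nat.card H := by
  have h1 := orderOf_dvd_natCard (⟨h, hh⟩ : ↥H)
  rw [← Subgroup.orderOf_coe] at h1
  exact h1

open scoped IsMulCommutative in
theorem part1 {G : Type*} [Group G] [Finite G] [Group.IsSolvable G] (H K : Subgroup G)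
    (hHn : H.Normal) (hHall : (Nat.card H).Coprime H.index) (hHK : Subgroup.IsComplement' H K)
    (hHG : H ≤ commutator G) :
    H = ⁅H, K⁆ ∧ H ⊓ Subgroup.centralizer (K : Set G) ≤ ⁅H, H⁆ := by
  haveI := hHn
  have hsup : H ⊔ K = ⊤ := hHK.sup_eq_top
  haveI hLn : (⁅H, K⁆ : Subgroup G).Normal := comm_normal H K hsup
  have hLH : ⁅H, K⁆ ≤ H := Subgroup.commutator_le_left H K
  have claim : ∀ M : Subgroup G, M.Normal → ⁅H, H⁆ ≤ M → ⁅H, K⁆ ≤ M → H ≤ M := by
    intro M hMn hHH hHKM
    haveI := hMn
    have hcent : ⁅(⊤ : Subgroup G), H⁆ ≤ M := by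
      rw [← hsup]
      refine Cfsg.Agent.S4204.sup_commutator_le H K H M hHH ?_
      rw [Subgroup.commutator_comm]; exact hHKM
    have hZ : H.map (QuotientGroup.mk' M) ≤ Subgroup.center (G ⧸ M) := by
      rintro _ ⟨x, hx, rfl⟩
      rw [Subgroup.mem_center_iff]
      intro y
      obtain ⟨g, rfl⟩ := QuotientGroup.mk'_surjective M y
      exact comm_of_comm_mem M
        (hcent (Subgroup.commutator_mem_commutator (Subgroup.mem_top g) hx))
    intro h hh
    have hcomm : QuotientGroup.mk' M h ∈ commutator (G ⧸ M) := by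
      rw [← map_commutator_mk]; exact Subgroup.mem_map_of_mem _ (hHG hh)
    have hker : MonoidHom.transferCenterPow (G ⧸ M) (QuotientGroup.mk' M h) = 1 :=
      MonoidHom.mem_ker.1
        (Abelianization.commutator_subset_ker (MonoidHom.transferCenterPow (G ⧸ M)) hcomm)
    have hpow : (QuotientGroup.mk' M h) ^ (Subgroup.center (G ⧸ M)).index = 1 := by
      have h1 := congrArg Subtype.val hker
      simpa using h1
    have hdvd : (Subgroup.center (G ⧸ M)).index ∣ H.index :=
      (Subgroup.index_dvd_of_le hZ).trans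
        (Subgroup.index_map_dvd H (QuotientGroup.mk'_surjective M))
    have h1 : orderOf (QuotientGroup.mk' M h) ∣ Nat.card H :=
      (orderOf_map_dvd (QuotientGroup.mk' M) h).trans (orderOf_dvd_card_of_mem H hh)
    have h2 : orderOf (QuotientGroup.mk' M h) ∣ H.index :=
      (orderOf_dvd_of_pow_eq_one hpow).trans hdvd
    have h3 : orderOf (QuotientGroup.mk' M h) = 1 :=
      (Nat.Coprime.coprime_dvd_left h1 hHall).eq_one_of_dvd h2
    exact (QuotientGroup.eq_one_iff h).1 (orderOf_eq_one_iff.1 h3)
  have hHM : H ≤ ⁅H, H⁆ ⊔ ⁅H, K⁆ := claim _ inferInstance le_sup_left le_sup_right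
  have hind : ∀ n, H ≤ Dser n H ⊔ ⁅H, K⁆ := by
    intro n
    induction n with
    | zero => exact le_sup_left
    | succ n ih =>
      have h1 : Dser 1 H ≤ Dser 1 (Dser n H ⊔ ⁅H, K⁆) := Dser_mono ih 1
      have h2 : Dser 1 (Dser n H ⊔ ⁅H, K⁆) ≤ Dser 1 (Dser n H) ⊔ ⁅H, K⁆ := Dser_sup_le _ _ 1
      have h3 : Dser 1 (Dser n H) = Dser (n + 1) H := (Dser_add H n 1).symm
      calc H ≤ Dser 1 H ⊔ ⁅H, K⁆ := hHM
        _ ≤ (Dser 1 (Dser n H) ⊔ ⁅H, K⁆) ⊔ ⁅H, K⁆ := sup_le_sup_right (h1.trans h2) _
        _ = Dser (n + 1) H ⊔ ⁅H, K⁆ := by rw [h3, sup_assoc, sup_idem]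
  obtain ⟨n, hn⟩ := (inferInstance : Group.IsSolvable ↥H).solvable
  have hD : Dser n H = ⊥ := by rw [← Dser_subtype, hn, Subgroup.map_bot]
  have hHL : H ≤ ⁅H, K⁆ := by
    have h1 := hind n
    rwa [hD, bot_sup_eq] at h1
  refine ⟨le_antisymm hHL hLH, ?_⟩
  rintro c ⟨hcH, hcK⟩
  have hAcomm : ∀ a ∈ H.map (QuotientGroup.mk' ⁅H, H⁆), ∀ b ∈ H.map (QuotientGroup.mk' ⁅H, H⁆),
      a * b = b * a := by
    rintro _ ⟨x, hx, rfl⟩ _ ⟨y, hy, rfl⟩
    exact comm_of_comm_mem ⁅H, H⁆ (Subgroup.commutator_mem_commutator hx hy)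
  haveI : IsMulCommutative ↥(H.map (QuotientGroup.mk' ⁅H, H⁆)) :=
    ⟨⟨fun a b => Subtype.ext (hAcomm a a.2 b b.2)⟩⟩
  have hcz : ∀ y : G ⧸ ⁅H, H⁆, y * QuotientGroup.mk' ⁅H, H⁆ c = QuotientGroup.mk' ⁅H, H⁆ c * y := by
    intro y
    obtain ⟨g, rfl⟩ := QuotientGroup.mk'_surjective ⁅H, H⁆ y
    have hg : g ∈ K ⊔ H := by rw [sup_comm, hsup]; trivial
    obtain ⟨k, hk, h, hh, rfl⟩ := (Cfsg.Agent.S0001.mem_sup_normal K H g).1 hg
    have e1 : QuotientGroup.mk' ⁅H, H⁆ k * QuotientGroup.mk' ⁅H, H⁆ c =
        QuotientGroup.mk' ⁅H, H⁆ c * QuotientGroup.mk' ⁅H, H⁆ k := by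
      rw [← map_mul, ← map_mul, Subgroup.mem_centralizer_iff.1 hcK k hk]
    have e2 : QuotientGroup.mk' ⁅H, H⁆ h * QuotientGroup.mk' ⁅H, H⁆ c =
        QuotientGroup.mk' ⁅H, H⁆ c * QuotientGroup.mk' ⁅H, H⁆ h :=
      hAcomm _ (Subgroup.mem_map_of_mem _ hh) _ (Subgroup.mem_map_of_mem _ hcH)
    rw [map_mul, mul_assoc, e2, ← mul_assoc, e1, mul_assoc]
  have hV := MonoidHom.transfer_eq_pow (MonoidHom.id ↥(H.map (QuotientGroup.mk' ⁅H, H⁆)))
    (QuotientGroup.mk' ⁅H, H⁆ c) (fun k g₀ _ => by
      have hcm : Commute (QuotientGroup.mk' ⁅H, H⁆ c) g₀ := (hcz g₀).symm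
      rw [mul_assoc, (hcm.pow_left k).eq, ← mul_assoc, inv_mul_cancel, one_mul])
  have hcomm : QuotientGroup.mk' ⁅H, H⁆ c ∈ commutator (G ⧸ ⁅H, H⁆) := by
    rw [← map_commutator_mk]; exact Subgroup.mem_map_of_mem _ (hHG hcH)
  have hker := MonoidHom.mem_ker.1
    (Abelianization.commutator_subset_ker
      (MonoidHom.transfer (MonoidHom.id ↥(H.map (QuotientGroup.mk' ⁅H, H⁆)))) hcomm)
  rw [hV] at hker
  have hpow : (QuotientGroup.mk' ⁅H, H⁆ c) ^ (H.map (QuotientGroup.mk' ⁅H, H⁆)).index = 1 := by
    have h1 := congrArg Subtype.val hker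
    simpa using h1
  have h1 : orderOf (QuotientGroup.mk' ⁅H, H⁆ c) ∣ Nat.card H :=
    (orderOf_map_dvd (QuotientGroup.mk' ⁅H, H⁆) c).trans (orderOf_dvd_card_of_mem H hcH)
  have h2 : orderOf (QuotientGroup.mk' ⁅H, H⁆ c) ∣ H.index :=
    (orderOf_dvd_of_pow_eq_one hpow).trans
      (Subgroup.index_map_dvd H (QuotientGroup.mk'_surjective ⁅H, H⁆))
  have h3 : orderOf (QuotientGroup.mk' ⁅H, H⁆ c) = 1 :=
    (Nat.Coprime.coprime_dvd_left h1 hHall).eq_one_of_dvd h2
  exact (QuotientGroup.eq_one_iff c).1 (orderOf_eq_one_iff.1 h3)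

/-- a finite `r`-group whose commutator subgroup has index dividing `r` is abelian. -/
theorem pgroup_comm_bot (r : ℕ) [Fact r.Prime] : ∀ (n : ℕ) (P : Type u) [Group P] [Finite P],
    Nat.card P = n → IsPGroup r P → (commutator P).index ∣ r → commutator P = ⊥ := by
  intro n
  induction n using Nat.strong_induction_on with
  | _ n ih =>
    intro P _ _ hn hP hidx
    by_cases htriv : Subsingleton P
    · exact eq_bot_iff.2 (fun x _ => by rw [Subgroup.mem_bot]; exact Subsingleton.elim x 1)
    · haveI : Nontrivial P := not_subsingleton_iff_nontrivial.1 htriv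
      haveI : Nontrivial (Subgroup.center P) := hP.center_nontrivial
      have hcardQ : Nat.card (P ⧸ Subgroup.center P) < n := by
        rw [← hn, ← Subgroup.index_eq_card]
        have h1 := Subgroup.card_mul_index (Subgroup.center P)
        have h2 : 1 < Nat.card (Subgroup.center P) := Finite.one_lt_card
        have h3 : 0 < (Subgroup.center P).index :=
          Nat.pos_of_ne_zero Subgroup.index_ne_zero_of_finite
        nlinarith
      have hQP : IsPGroup r (P ⧸ Subgroup.center P) := hP.to_quotient (Subgroup.center P)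
      have hQidx : (commutator (P ⧸ Subgroup.center P)).index ∣ r := by
        rw [← map_commutator_mk]
        exact (Subgroup.index_map_dvd (commutator P)
          (QuotientGroup.mk'_surjective (Subgroup.center P))).trans hidx
      have hQ := ih _ hcardQ (P ⧸ Subgroup.center P) rfl hQP hQidx
      have hQcard : Nat.card (P ⧸ Subgroup.center P) ∣ r := by
        have h1 : (commutator (P ⧸ Subgroup.center P)).index = Nat.card (P ⧸ Subgroup.center P) := by
          rw [hQ, Subgroup.index_bot]
        rw [← h1]; exact hQidx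
      haveI : IsCyclic (P ⧸ Subgroup.center P) := by
        rcases (Nat.dvd_prime (Fact.out : r.Prime)).1 hQcard with h1 | hr
        · haveI : Subsingleton (P ⧸ Subgroup.center P) :=
            (Nat.card_eq_one_iff_unique.1 h1).1
          exact isCyclic_of_subsingleton
        · exact isCyclic_of_prime_card hr
      have hab : ∀ a b : P, a * b = b * a :=
        fun a b => ((QuotientGroup.mk' (Subgroup.center P)).isMulCommutative_of_isCyclic_of_ker_le_center
          (by rw [QuotientGroup.ker_mk'])).is_comm.comm a b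
      rw [commutator_def, eq_bot_iff, Subgroup.commutator_le]
      intro a _ b _
      rw [Subgroup.mem_bot, commutatorElement_def, hab a b]
      group

theorem part2a {G : Type*} [Group G] [Finite G] (hnil : Group.IsNilpotent ↥(commutator G))
    (hr : (commutator G).index.Prime) :
    (Nat.card ↥(commutator G)).Coprime (commutator G).index := by
  haveI := hnil
  haveI : Fact (commutator G).index.Prime := ⟨hr⟩
  have hW₀n : (Cfsg.pPrimeCore (commutator G).index ↥(commutator G)).Normal :=
    Cfsg.Agent.Helper23.pPrimeCore_normal_fin _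
  have hW₀c : (Nat.card (Cfsg.pPrimeCore (commutator G).index ↥(commutator G))).Coprime
      (commutator G).index := Cfsg.Agent.Helper23.pPrimeCore_coprime _
  haveI hW₀char : (Cfsg.pPrimeCore (commutator G).index ↥(commutator G)).Characteristic :=
    Cfsg.Agent.Helper9.pPrimeCore_characteristic _ _
  have hidx : ∃ e : ℕ, (Cfsg.pPrimeCore (commutator G).index ↥(commutator G)).index =
      (commutator G).index ^ e := by
    refine ⟨_, Nat.eq_prime_pow_of_unique_prime_dvd Subgroup.index_ne_zero_of_finite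
      (fun {q} hq hd => ?_)⟩
    by_contra hqr
    haveI : Fact q.Prime := ⟨hq⟩
    obtain ⟨S⟩ : Nonempty (Sylow q ↥(commutator G)) := inferInstance
    haveI hSn : (S : Subgroup ↥(commutator G)).Normal := inferInstance
    have hSle : (S : Subgroup ↥(commutator G)) ≤
        Cfsg.pPrimeCore (commutator G).index ↥(commutator G) := by
      apply Cfsg.Agent.Helper23.le_pPrimeCore hSn
      obtain ⟨k, hk⟩ := IsPGroup.iff_card.1 S.isPGroup'
      rw [hk]
      exact Nat.Coprime.pow_left k ((Nat.coprime_primes hq hr).2 hqr)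
    exact S.not_dvd_index (hd.trans (Subgroup.index_dvd_of_le hSle))
  obtain ⟨e, he⟩ := hidx
  have hWn : ((Cfsg.pPrimeCore (commutator G).index ↥(commutator G)).map
      (commutator G).subtype).Normal := inferInstance
  haveI := hWn
  have hWN : (Cfsg.pPrimeCore (commutator G).index ↥(commutator G)).map
      (commutator G).subtype ≤ commutator G := by
    rintro _ ⟨x, -, rfl⟩; exact x.2
  have hcardW : Nat.card ((Cfsg.pPrimeCore (commutator G).index ↥(commutator G)).map
      (commutator G).subtype) = Nat.card (Cfsg.pPrimeCore (commutator G).index ↥(commutator G)) :=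
    Subgroup.card_map_of_injective (commutator G).subtype_injective
  have hWidx : ((Cfsg.pPrimeCore (commutator G).index ↥(commutator G)).map
      (commutator G).subtype).index = (commutator G).index ^ (e + 1) := by
    have h1 := Subgroup.relIndex_mul_index hWN
    have h2 : ((Cfsg.pPrimeCore (commutator G).index ↥(commutator G)).map
        (commutator G).subtype).relIndex (commutator G) =
        (Cfsg.pPrimeCore (commutator G).index ↥(commutator G)).index := by
      have h3 : ((Cfsg.pPrimeCore (commutator G).index ↥(commutator G)).map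
          (commutator G).subtype).subgroupOf (commutator G) =
          Cfsg.pPrimeCore (commutator G).index ↥(commutator G) :=
        Subgroup.comap_map_eq_self_of_injective (commutator G).subtype_injective _
      rw [Subgroup.relIndex, h3]
    rw [← h1, h2, he, pow_succ]
  have hP : IsPGroup (commutator G).index (G ⧸ (Cfsg.pPrimeCore (commutator G).index
      ↥(commutator G)).map (commutator G).subtype) :=
    IsPGroup.of_card (n := e + 1) (by rw [← Subgroup.index_eq_card, hWidx])
  have hidx2 : (commutator (G ⧸ (Cfsg.pPrimeCore (commutator G).index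
      ↥(commutator G)).map (commutator G).subtype)).index ∣ (commutator G).index := by
    rw [← map_commutator_mk]
    exact Subgroup.index_map_dvd (commutator G) (QuotientGroup.mk'_surjective _)
  have hbot := pgroup_comm_bot (commutator G).index _ (G ⧸ (Cfsg.pPrimeCore (commutator G).index
      ↥(commutator G)).map (commutator G).subtype) rfl hP hidx2
  have hNW : commutator G ≤ (Cfsg.pPrimeCore (commutator G).index ↥(commutator G)).map
      (commutator G).subtype := by
    intro x hx
    have h1 : QuotientGroup.mk' ((Cfsg.pPrimeCore (commutator G).index ↥(commutator G)).map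
        (commutator G).subtype) x ∈ (commutator G).map (QuotientGroup.mk' _) :=
      Subgroup.mem_map_of_mem _ hx
    rw [map_commutator_mk, hbot, Subgroup.mem_bot] at h1
    exact (QuotientGroup.eq_one_iff x).1 h1
  have hWeq := le_antisymm hWN hNW
  have hfin : Nat.card ↥(commutator G) =
      Nat.card (Cfsg.pPrimeCore (commutator G).index ↥(commutator G)) := by
    rw [← hcardW, hWeq]
  rw [hfin]; exact hW₀c

/-- Let G be a finite solvable group. (a) If H is a normal subgroup of order coprime to its index, K is a complement to H, and H ≤ G', then H = [H, K] and H ∩ C_G(K) ≤ [H, H]. (b) If G' is nilpotent and has prime index in G, then the order of G' is coprime to its index and G' = [G, K] (the subgroup generated by commutators of elements of G with elements of K) for every complement K of G'. -/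
theorem result {G : Type*} [Group G] [Finite G] [Group.IsSolvable G] :
    (∀ (H K : Subgroup G), H.Normal → (Nat.card H).Coprime H.index → Subgroup.IsComplement' H K → H ≤ commutator G →
        H = ⁅H, K⁆ ∧ H ⊓ Subgroup.centralizer (K : Set G) ≤ ⁅H, H⁆) ∧
      (Group.IsNilpotent ↥(commutator G) → (commutator G).index.Prime →
        (Nat.card ↥(commutator G)).Coprime (commutator G).index ∧
        ∀ K : Subgroup G, Subgroup.IsComplement' (commutator G) K → commutator G = ⁅(⊤ : Subgroup G), K⁆) := by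
  refine ⟨fun H K hHn hHall hHK hHG => part1 H K hHn hHall hHK hHG, fun hnil hr => ?_⟩
  have hcop := part2a hnil hr
  refine ⟨hcop, fun K hK => ?_⟩
  have h1 := (part1 (commutator G) K inferInstance hcop hK le_rfl).1
  apply le_antisymm
  · calc commutator G = ⁅commutator G, K⁆ := h1
      _ ≤ ⁅(⊤ : Subgroup G), K⁆ := Subgroup.commutator_mono le_top le_rfl
  · rw [commutator_def]; exact Subgroup.commutator_mono le_rfl le_top

end Cfsg.Agent.S1459
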