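import Cfsg.Statements.S1892
import Cfsg.Agent.Helper23.Stab

set_option autoImplicit false
open Cfsg

namespace Cfsg.Agent.S1892

open Cfsg.Agent.Helper23
open scoped commutatorElement

/-- Let S be a finite p-solvable group with no nontrivial normal subgroup of order prime to p, A a p-subgroup of S, and Q a nontrivial A-invariant subgroup of order prime to p with [A, Q] = Q. Then the commutator [O_p(S), A, Q] is nontrivial. -/
theorem result {S : Type*} [Group S] [Finite S] {p : ℕ} [Fact p.Prime]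
    (hS : Cfsg.IsPSolvable p S) (hred : Cfsg.pPrimeCore p S = ⊥)
    (A Q : Subgroup S) (hA : IsPGroup p A) (hQ : ¬ p ∣ Nat.card Q) (hQ1 : Q ≠ ⊥)
    (hinv : ∀ a ∈ A, ∀ x ∈ Q, a * x * a⁻¹ ∈ Q) (hAQ : ⁅A, Q⁆ = Q) :
    ⁅⁅Cfsg.pCore p S, A⁆, Q⁆ ≠ ⊥ := by
  intro hbot
  set V := Cfsg.pCore p S with hV
  have hVn : V.Normal := pCore_normal_fin p
  have hVp : IsPGroup p V := pCore_isPGroup p
  set W := ⁅V, A⁆ with hW
  have hWV : W ≤ V := Subgroup.commutator_le_left V A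
  have hWp : IsPGroup p W := hVp.to_le hWV
  -- Q centralizes W
  have hQW : ∀ x ∈ Q, ∀ w ∈ W, x * w = w * x := by
    have h1 := (Subgroup.commutator_eq_bot_iff_le_centralizer).mp hbot
    intro x hx w hw
    exact (Subgroup.mem_centralizer_iff.mp (h1 hw)) x hx
  have hQW1 : ∀ x ∈ Q, ∀ w ∈ W, x * w * x⁻¹ = w := by
    intro x hx w hw
    rw [hQW x hx w hw]; group
  have hQW2 : ∀ x ∈ Q, ∀ w ∈ W, x⁻¹ * w * x = w := by
    intro x hx w hw
    rw [mul_assoc, ← hQW x hx w hw]; group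
  -- A normalizes W
  have hAW : ∀ a ∈ A, ∀ w ∈ W, a * w * a⁻¹ ∈ W := by
    intro a ha w hw
    have h1 : W.map (MulAut.conj a).toMonoidHom =
        ⁅V.map (MulAut.conj a).toMonoidHom, A.map (MulAut.conj a).toMonoidHom⁆ :=
      Subgroup.map_commutator V A _
    have h2 : V.map (MulAut.conj a).toMonoidHom ≤ V := by
      rintro _ ⟨v, hv, rfl⟩; exact hVn.conj_mem v hv a
    have h3 : A.map (MulAut.conj a).toMonoidHom ≤ A := by
      rintro _ ⟨b, hb, rfl⟩; exact A.mul_mem (A.mul_mem ha hb) (A.inv_mem ha)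
    have h4 : W.map (MulAut.conj a).toMonoidHom ≤ W := by
      rw [h1]; exact Subgroup.commutator_mono h2 h3
    exact h4 ⟨w, hw, rfl⟩
  -- the subgroup of elements acting trivially on V / W
  let D : Subgroup S :=
    { carrier := {g | (∀ w ∈ W, g * w * g⁻¹ ∈ W) ∧ (∀ w ∈ W, g⁻¹ * w * g ∈ W) ∧
        ∀ v ∈ V, g * v * g⁻¹ * v⁻¹ ∈ W}
      one_mem' := by
        refine ⟨fun w hw => by simpa using hw, fun w hw => by simpa using hw, fun v hv => ?_⟩
        simp
      mul_mem' := by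
        rintro g h ⟨hg1, hg2, hg3⟩ ⟨hh1, hh2, hh3⟩
        refine ⟨fun w hw => ?_, fun w hw => ?_, fun v hv => ?_⟩
        · have : g * h * w * (g * h)⁻¹ = g * (h * w * h⁻¹) * g⁻¹ := by group
          rw [this]; exact hg1 _ (hh1 w hw)
        · have : (g * h)⁻¹ * w * (g * h) = h⁻¹ * (g⁻¹ * w * g) * h := by group
          rw [this]; exact hh2 _ (hg2 w hw)
        · have : g * h * v * (g * h)⁻¹ * v⁻¹ =
              g * (h * v * h⁻¹ * v⁻¹) * g⁻¹ * (g * v * g⁻¹ * v⁻¹) := by group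
          rw [this]; exact W.mul_mem (hg1 _ (hh3 v hv)) (hg3 v hv)
      inv_mem' := by
        rintro g ⟨hg1, hg2, hg3⟩
        refine ⟨fun w hw => ?_, fun w hw => ?_, fun v hv => ?_⟩
        · rw [inv_inv]; exact hg2 w hw
        · rw [inv_inv]; exact hg1 w hw
        · have : g⁻¹ * v * g⁻¹⁻¹ * v⁻¹ = g⁻¹ * (g * v * g⁻¹ * v⁻¹)⁻¹ * g := by group
          rw [this]; exact hg2 _ (W.inv_mem (hg3 v hv)) }
  have hAD : A ≤ D := by
    intro a ha
    refine ⟨hAW a ha, fun w hw => ?_, fun v hv => ?_⟩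
    · have := hAW a⁻¹ (A.inv_mem ha) w hw
      rwa [inv_inv] at this
    · have h1 : ⁅a, v⁆ ∈ ⁅A, V⁆ := Subgroup.commutator_mem_commutator ha hv
      rw [Subgroup.commutator_comm, commutatorElement_def] at h1
      exact h1
  have hQD : ∀ x ∈ Q, ∀ d ∈ D, x * d * x⁻¹ ∈ D := by
    rintro x hx d ⟨hd1, hd2, hd3⟩
    refine ⟨fun w hw => ?_, fun w hw => ?_, fun v hv => ?_⟩
    · have h1 : x * d * x⁻¹ * w * (x * d * x⁻¹)⁻¹ = x * (d * (x⁻¹ * w * x) * d⁻¹) * x⁻¹ := by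
        group
      rw [h1, hQW2 x hx w hw, hQW1 x hx _ (hd1 w hw)]
      exact hd1 w hw
    · have h1 : (x * d * x⁻¹)⁻¹ * w * (x * d * x⁻¹) = x * (d⁻¹ * (x⁻¹ * w * x) * d) * x⁻¹ := by
        group
      rw [h1, hQW2 x hx w hw, hQW1 x hx _ (hd2 w hw)]
      exact hd2 w hw
    · have hv' : x⁻¹ * v * x ∈ V := by
        have := hVn.conj_mem v hv x⁻¹
        rwa [inv_inv] at this
      have h1 : x * d * x⁻¹ * v * (x * d * x⁻¹)⁻¹ * v⁻¹ =
          x * (d * (x⁻¹ * v * x) * d⁻¹ * (x⁻¹ * v * x)⁻¹) * x⁻¹ := by group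
      rw [h1, hQW1 x hx _ (hd3 _ hv')]
      exact hd3 _ hv'
  have hQleD : Q ≤ D := by
    rw [← hAQ, Subgroup.commutator_le]
    intro a ha x hx
    have h1 : ⁅a, x⁆ = a * (x * a⁻¹ * x⁻¹) := by rw [commutatorElement_def]; group
    rw [h1]
    exact D.mul_mem (hAD ha) (hQD x hx _ (D.inv_mem (hAD ha)))
  have hcop : (Nat.card Q).Coprime p := by
    rw [Nat.coprime_comm]
    exact (Nat.Prime.coprime_iff_not_dvd Fact.out).mpr hQ
  have hQC : Q ≤ Subgroup.centralizer (V : Set S) := by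
    intro x hx
    rw [Subgroup.mem_centralizer_iff]
    intro v hv
    have hw : x * v * x⁻¹ * v⁻¹ ∈ W := (hQleD hx).2.2 v hv
    have hxk : x ^ Nat.card Q = 1 := by
      have : (⟨x, hx⟩ : Q) ^ Nat.card Q = 1 := pow_card_eq_one'
      exact congrArg Subtype.val this
    exact (commute_of_stab hWp hw (hQW x hx _ hw) hcop hxk).symm
  have hQV : Q ≤ V := hQC.trans (hall_higman hS hred)
  have hQp : IsPGroup p Q := hVp.to_le hQV
  obtain ⟨j, hj⟩ := IsPGroup.iff_card.mp hQp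
  have hj0 : j = 0 := by
    by_contra h0
    apply hQ
    rw [hj]
    exact dvd_pow_self p h0
  rw [hj0, pow_zero] at hj
  exact hQ1 (Subgroup.card_eq_one.mp hj)

end Cfsg.Agent.S1892
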