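import Cfsg.Statements.S1894
import Mathlib
import Cfsg.Agent.Helper10.PGroupAux

set_option autoImplicit false
open Cfsg

namespace Cfsg.Agent.S1894

/-- Let P be a finite p-group, A a normal subgroup of P and B an abelian subgroup of A that is normal in P. Then some subgroup C of A containing B is normal in P and is self-centralizing and normal in A (C ∈ SCN(A)). -/
theorem result {P : Type*} [Group P] [Finite P] {p : ℕ} [Fact p.Prime] (hP : IsPGroup p P)
    (A : Subgroup P) [A.Normal] (B : Subgroup P) [B.Normal] (hBA : B ≤ A) (hB : IsMulCommutative B) :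
    ∃ C : Subgroup P, C.Normal ∧ B ≤ C ∧ Cfsg.IsSCN A C := by
  classical
  have hB0 : (fun C : Subgroup P => C.Normal ∧ C ≤ A ∧ ∀ x ∈ C, ∀ y ∈ C, x * y = y * x) B :=
    ⟨inferInstance, hBA, fun x hx y hy => setLike_mul_comm hx hy⟩
  obtain ⟨C, hBC, hCmax⟩ := Finite.exists_le_maximal
    (p := fun C : Subgroup P => C.Normal ∧ C ≤ A ∧ ∀ x ∈ C, ∀ y ∈ C, x * y = y * x) (a := B) hB0
  obtain ⟨hCn, hCA, hCc⟩ : C.Normal ∧ C ≤ A ∧ ∀ x ∈ C, ∀ y ∈ C, x * y = y * x := hCmax.prop
  have hmax := hCmax.2
  refine ⟨C, hCn, hBC, hCA, ?_, ?_⟩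
  · intro a _
    rw [Subgroup.normalizer_eq_top]
    exact Subgroup.mem_top a
  · apply le_antisymm
    · by_contra hnot
      obtain ⟨x, hxE, hxC⟩ := SetLike.not_le_iff_exists.1 hnot
      let π := QuotientGroup.mk' C
      have hEn : (A ⊓ Subgroup.centralizer (C : Set P)).Normal := inferInstance
      have hMn : ((A ⊓ Subgroup.centralizer (C : Set P)).map π).Normal :=
        Subgroup.Normal.map hEn π (QuotientGroup.mk'_surjective C)
      have hMne : (A ⊓ Subgroup.centralizer (C : Set P)).map π ≠ ⊥ := by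
        intro h
        have : π x ∈ (A ⊓ Subgroup.centralizer (C : Set P)).map π := Subgroup.mem_map_of_mem _ hxE
        rw [h, Subgroup.mem_bot] at this
        exact hxC ((QuotientGroup.eq_one_iff x).1 this)
      have hQ : IsPGroup p (P ⧸ C) := hP.to_quotient C
      obtain ⟨z, hzM, hzc, hz1⟩ := Cfsg.Agent.Helper10.exists_ne_one_mem_center_of_normal hQ _ hMne
      obtain ⟨x₀, hx₀E, rfl⟩ := hzM
      have hx₀C : x₀ ∉ C := fun h => hz1 ((QuotientGroup.eq_one_iff x₀).2 h)
      have hZn : (Subgroup.zpowers (π x₀)).Normal := by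
        constructor
        intro n hn g
        have hnc : n ∈ Subgroup.center (P ⧸ C) := (Subgroup.zpowers_le.2 hzc) hn
        rw [Subgroup.mem_center_iff] at hnc
        have : g * n * g⁻¹ = n := by rw [hnc g, mul_inv_cancel_right]
        rw [this]; exact hn
      let C' := (Subgroup.zpowers (π x₀)).comap π
      have hC'n : C'.Normal := Subgroup.Normal.comap hZn π
      have hCC' : C ≤ C' := by
        intro c hc
        show π c ∈ Subgroup.zpowers (π x₀)
        have h1 : π c = 1 := (QuotientGroup.eq_one_iff c).2 hc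
        rw [h1]
        exact Subgroup.one_mem _
      have hform : ∀ y ∈ C', ∃ k : ℤ, ∃ c ∈ C, y = x₀ ^ k * c := by
        intro y hy
        obtain ⟨k, hk⟩ := Subgroup.mem_zpowers_iff.1 (show π y ∈ Subgroup.zpowers (π x₀) from hy)
        refine ⟨k, (x₀ ^ k)⁻¹ * y, ?_, by group⟩
        have : π (x₀ ^ k) = π y := by rw [map_zpow, hk]
        exact QuotientGroup.eq.1 this
      have hx₀A := (Subgroup.mem_inf.1 hx₀E).1
      have hx₀cent := (Subgroup.mem_inf.1 hx₀E).2
      have hC'A : C' ≤ A := by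
        intro y hy
        obtain ⟨k, c, hc, rfl⟩ := hform y hy
        exact A.mul_mem (A.zpow_mem hx₀A k) (hCA hc)
      have hcomm : ∀ k : ℤ, ∀ c ∈ C, Commute (x₀ ^ k) c := by
        intro k c hc
        have : x₀ ^ k ∈ Subgroup.centralizer (C : Set P) := Subgroup.zpow_mem _ hx₀cent k
        rw [Subgroup.mem_centralizer_iff] at this
        exact (this c hc).symm
      have hC'c : ∀ x ∈ C', ∀ y ∈ C', x * y = y * x := by
        intro a ha b hb
        obtain ⟨k, c, hc, rfl⟩ := hform a ha
        obtain ⟨l, e, he, rfl⟩ := hform b hb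
        have h1 : Commute (x₀ ^ k) (x₀ ^ l) := (Commute.refl x₀).zpow_zpow k l
        have h2 : Commute c e := hCc c hc e he
        exact ((h1.mul_right (hcomm k e he)).mul_left ((hcomm l c hc).symm.mul_right h2)).eq
      have hle := hmax ⟨hC'n, hC'A, hC'c⟩ hCC'
      apply hx₀C
      apply hle
      show π x₀ ∈ Subgroup.zpowers (π x₀)
      exact Subgroup.mem_zpowers _
    · intro c hc
      refine Subgroup.mem_inf.2 ⟨hCA hc, ?_⟩
      rw [Subgroup.mem_centralizer_iff]
      intro h hh
      exact hCc h hh c hc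

end Cfsg.Agent.S1894
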