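import Mathlib
import Cfsg.Statements.S1897
import Cfsg.Agent.Helper17.L27.ConcA6
-- import your own Cfsg.Agent.* helpers here

set_option autoImplicit false
open Cfsg

namespace Cfsg.Agent.S1897


open Matrix Cfsg.Agent.Helper17.J1 Cfsg.Agent.Helper17.L27 Cfsg.Agent.Helper17

/-- A simple group of order 168 with generators satisfying the relations of `L₂(7)` embeds in every
group containing elements satisfying these relations (adapted from helper17's `iso_of_gens`). -/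
theorem embed_of_gens {G1 : Type*} {G2 : Type*} [Group G1] [Group G2] [Finite G1]
    (h1 : Nat.card G1 = 168) [IsSimpleGroup G1]
    (a1 b1 : G1) (a2 b2 : G2)
    (hR1 : ∀ r ∈ TCD.L27.relsL, ev a1 b1 r = 1) (hR2 : ∀ r ∈ TCD.L27.relsL, ev a2 b2 r = 1)
    (hc : (a1 * b1 * a1⁻¹ * b1⁻¹) ^ 2 ≠ 1) (hb1 : b1 ≠ 1) (hab1 : a1 * b1 ≠ 1) (hb2 : b2 ≠ 1) :
    ∃ f : G1 →* G2, Function.Injective f ∧ f a1 = a2 ∧ f b1 = b2 := by
  let D : Subgroup (G1 × G2) := Subgroup.closure {(a1, a2), (b1, b2)}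
  have hAD : (a1, a2) ∈ D := Subgroup.subset_closure (by simp)
  have hBD : (b1, b2) ∈ D := Subgroup.subset_closure (by simp)
  let A : D := ⟨(a1, a2), hAD⟩
  let B : D := ⟨(b1, b2), hBD⟩
  have hgen : Subgroup.closure ({A, B} : Set D) = ⊤ := by
    have := Subgroup.closure_closure_coe_preimage (k := ({(a1, a2), (b1, b2)} : Set (G1 × G2)))
    convert this using 2
    ext z
    simp only [Set.mem_insert_iff, Set.mem_singleton_iff, Set.mem_preimage]
    constructor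
    · rintro (rfl | rfl)
      · left; rfl
      · right; rfl
    · rintro (h | h)
      · left; exact Subtype.ext h
      · right; exact Subtype.ext h
  have hRD : ∀ r ∈ TCD.L27.relsL, ev A B r = 1 := by
    intro r hr
    apply Subtype.ext
    rw [coe_ev]
    apply Prod.ext
    · have := map_ev (MonoidHom.fst G1 G2) (a1, a2) (b1, b2) r
      simp only [MonoidHom.coe_fst] at this
      rw [this]
      exact hR1 r hr
    · have := map_ev (MonoidHom.snd G1 G2) (a1, a2) (b1, b2) r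
      simp only [MonoidHom.coe_snd] at this
      rw [this]
      exact hR2 r hr
  obtain ⟨hfinD, hD⟩ := card_le A B hgen hRD
  let π1 : D →* G1 := (MonoidHom.fst G1 G2).comp D.subtype
  let π2 : D →* G2 := (MonoidHom.snd G1 G2).comp D.subtype
  -- the first projection is onto
  have ha1 : a1 ∈ π1.range := ⟨A, rfl⟩
  have hb1' : b1 ∈ π1.range := ⟨B, rfl⟩
  have hb3 : b1 ^ 3 = 1 := by
    have := hR1 [2, 2, 2] (by simp [TCD.L27.relsL])
    simpa [ev, cols, pow_succ, mul_assoc] using this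
  have hab7 : (a1 * b1) ^ 7 = 1 := by
    have := hR1 [0, 2, 0, 2, 0, 2, 0, 2, 0, 2, 0, 2, 0, 2] (by simp [TCD.L27.relsL])
    simpa [ev, cols, pow_succ, mul_assoc] using this
  have hc4 : (a1 * b1 * a1⁻¹ * b1⁻¹) ^ 4 = 1 := by
    have := hR1 [0, 2, 1, 3, 0, 2, 1, 3, 0, 2, 1, 3, 0, 2, 1, 3] (by simp [TCD.L27.relsL])
    simpa [ev, cols, pow_succ, mul_assoc] using this
  have o4 : orderOf (a1 * b1 * a1⁻¹ * b1⁻¹) = 4 := by
    have : Fact (Nat.Prime 2) := ⟨Nat.prime_two⟩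
    have := orderOf_eq_prime_pow (p := 2) (n := 1) (x := a1 * b1 * a1⁻¹ * b1⁻¹)
      (by norm_num; exact hc) (by norm_num; exact hc4)
    rw [this]
    norm_num
  have o3 : orderOf b1 = 3 := by
    have : Fact (Nat.Prime 3) := ⟨Nat.prime_three⟩
    exact orderOf_eq_prime hb3 hb1
  have o7 : orderOf (a1 * b1) = 7 := by
    have : Fact (Nat.Prime 7) := ⟨by norm_num⟩
    exact orderOf_eq_prime hab7 hab1
  have d4 : 4 ∣ Nat.card π1.range := by
    rw [← o4]
    exact Subgroup.orderOf_dvd_natCard _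
      (mul_mem (mul_mem (mul_mem ha1 hb1') (inv_mem ha1)) (inv_mem hb1'))
  have d3 : 3 ∣ Nat.card π1.range := by
    rw [← o3]
    exact Subgroup.orderOf_dvd_natCard _ hb1'
  have d7 : 7 ∣ Nat.card π1.range := by
    rw [← o7]
    exact Subgroup.orderOf_dvd_natCard _ (mul_mem ha1 hb1')
  have d84 : 84 ∣ Nat.card π1.range := by
    have e1 : 3 * 7 ∣ Nat.card π1.range := Nat.Coprime.mul_dvd_of_dvd_of_dvd (by norm_num) d3 d7
    have e2 : 4 * (3 * 7) ∣ Nat.card π1.range :=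
      Nat.Coprime.mul_dvd_of_dvd_of_dvd (by norm_num) d4 e1
    exact e2
  have hidx := Subgroup.card_mul_index π1.range
  rw [h1] at hidx
  have htop : π1.range = ⊤ := by
    obtain ⟨m, hm⟩ := d84
    rw [hm, mul_assoc] at hidx
    have hmi : m * π1.range.index = 2 := by omega
    have hi : π1.range.index = 1 ∨ π1.range.index = 2 := by
      have hdvd : π1.range.index ∣ 2 := Dvd.intro_left m hmi
      have := Nat.le_of_dvd (by norm_num) hdvd
      have hpos : π1.range.index ≠ 0 := by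
        intro h0
        rw [h0] at hmi
        omega
      omega
    rcases hi with hi | hi
    · exact Subgroup.index_eq_one.1 hi
    · have hn : π1.range.Normal := Subgroup.normal_of_index_eq_two hi
      rcases hn.eq_bot_or_eq_top with h | h
      · exfalso
        rw [h, Subgroup.card_bot] at hm
        omega
      · exact h
  have hs1 : Function.Surjective π1 := MonoidHom.range_eq_top.1 htop
  have hD' : Nat.card D = 168 := by
    have := Nat.card_le_card_of_surjective π1 hs1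
    omega
  have hbij1 : Function.Bijective π1 :=
    (Nat.bijective_iff_surjective_and_card π1).2 ⟨hs1, by rw [hD', h1]⟩
  let e1 : D ≃* G1 := MulEquiv.ofBijective π1 hbij1
  have hnt : Nontrivial D := by
    rw [← Finite.one_lt_card_iff_nontrivial, hD']
    norm_num
  have hsD : IsSimpleGroup D := IsSimpleGroup.isSimpleGroup_of_surjective e1.symm.toMonoidHom e1.symm.surjective
  have hker : π2.ker = ⊥ := by
    rcases (MonoidHom.normal_ker π2).eq_bot_or_eq_top with h | h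
    · exact h
    · exfalso
      have : B ∈ π2.ker := by rw [h]; trivial
      exact hb2 (MonoidHom.mem_ker.1 this)
  have hinj2 : Function.Injective π2 := (MonoidHom.ker_eq_bot_iff π2).1 hker
  have hA1 : e1.symm a1 = A := by
    rw [MulEquiv.symm_apply_eq]; rfl
  have hB1 : e1.symm b1 = B := by
    rw [MulEquiv.symm_apply_eq]; rfl
  refine ⟨π2.comp e1.symm.toMonoidHom, hinj2.comp e1.symm.injective, ?_, ?_⟩
  · show π2 (e1.symm a1) = a2
    rw [hA1]; rfl
  · show π2 (e1.symm b1) = b2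
    rw [hB1]; rfl

/-! ### Explicit matrices over the Gaussian integers, read modulo 3 -/

def MA : Matrix (Fin 3) (Fin 3) GaussianInt :=
  !![⟨0, 0⟩, ⟨1, -1⟩, ⟨-1, 1⟩; ⟨1, 1⟩, ⟨1, 0⟩, ⟨1, 0⟩; ⟨-1, -1⟩, ⟨1, 0⟩, ⟨1, 0⟩]

def MAc : Matrix (Fin 3) (Fin 3) GaussianInt :=
  !![⟨0, 0⟩, ⟨1, 1⟩, ⟨-1, -1⟩; ⟨1, -1⟩, ⟨1, 0⟩, ⟨1, 0⟩; ⟨-1, 1⟩, ⟨1, 0⟩, ⟨1, 0⟩]

def MB : Matrix (Fin 3) (Fin 3) GaussianInt :=
  !![⟨0, 0⟩, ⟨0, 0⟩, ⟨1, 0⟩; ⟨1, 0⟩, ⟨0, 0⟩, ⟨0, 0⟩; ⟨0, 0⟩, ⟨1, 0⟩, ⟨0, 0⟩]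

def MBi : Matrix (Fin 3) (Fin 3) GaussianInt :=
  !![⟨0, 0⟩, ⟨1, 0⟩, ⟨0, 0⟩; ⟨0, 0⟩, ⟨0, 0⟩, ⟨1, 0⟩; ⟨1, 0⟩, ⟨0, 0⟩, ⟨0, 0⟩]

/-- the matrix is congruent to the identity modulo 3 -/
def chk (W : Matrix (Fin 3) (Fin 3) GaussianInt) : Prop :=
  ∀ i j : Fin 3, ((W i j).re - (if i = j then 1 else 0)) % 3 = 0 ∧ (W i j).im % 3 = 0

instance (W : Matrix (Fin 3) (Fin 3) GaussianInt) : Decidable (chk W) := by
  unfold chk
  infer_instance

theorem rels_chk : ∀ r ∈ TCD.L27.relsL, chk (ev4 MA MA MB MBi r) := by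
  decide

theorem inv_chk : chk (MA * MA) ∧ chk (MB * MBi) ∧ chk (MBi * MB) := by decide

theorem unit_chk : chk (MAᵀ * MAc) ∧ chk (MBᵀ * MB) := by decide

theorem conj_chk : (∀ i j, (MAc i j).re = (MA i j).re ∧ (MAc i j).im = -(MA i j).im) ∧
    (∀ i j, (MB i j).re = (MB i j).re ∧ (MB i j).im = -(MB i j).im) := by decide

theorem det_chk : ((MA.det).re - 1) % 3 = 0 ∧ (MA.det).im % 3 = 0 ∧
    ((MB.det).re - 1) % 3 = 0 ∧ (MB.det).im % 3 = 0 := by
  rw [Matrix.det_fin_three, Matrix.det_fin_three]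
  decide

theorem nc_chk : ((MA * MB) 0 0).re = 1 ∧ ((MA * MB) 0 0).im = -1 ∧
    ((MB * MA) 0 0).re = -1 ∧ ((MB * MA) 0 0).im = -1 := by decide

theorem map_ev4_mat {R S : Type*} [CommRing R] [CommRing S] (e : R →+* S)
    (m0 m1 m2 m3 : Matrix (Fin 3) (Fin 3) R) (w : List ℕ) :
    (ev4 m0 m1 m2 m3 w).map e = ev4 (m0.map e) (m1.map e) (m2.map e) (m3.map e) w := by
  induction w with
  | nil => simp [ev4]
  | cons l w ih =>
    have e1 : ∀ (a b c d : Matrix (Fin 3) (Fin 3) R),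
        ev4 a b c d (l :: w) = cols4 a b c d l * ev4 a b c d w := fun a b c d => by simp [ev4]
    have e2 : ∀ (a b c d : Matrix (Fin 3) (Fin 3) S),
        ev4 a b c d (l :: w) = cols4 a b c d l * ev4 a b c d w := fun a b c d => by simp [ev4]
    rw [e1, e2, Matrix.map_mul, ih]
    congr 1
    rcases l with _ | _ | _ | _ | l <;> simp [cols4]

theorem psi_ev {K M : Type*} [Group K] [Monoid M] (ψ : K →* M) (x y : K) (w : List ℕ) :
    ψ (ev x y w) = ev4 (ψ x) (ψ x⁻¹) (ψ y) (ψ y⁻¹) w := by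
  induction w with
  | nil => simp [ev, ev4]
  | cons l w ih =>
    have e2 : ∀ (a b c d : M),
        ev4 a b c d (l :: w) = cols4 a b c d l * ev4 a b c d w := fun a b c d => by simp [ev4]
    rw [ev_cons, map_mul, ih, e2]
    congr 1
    rcases l with _ | _ | _ | _ | l <;> simp [cols, cols4]

section transfer

variable {F : Type*} [Field F] (e : GaussianInt →+* F)

theorem e_eq_of_chk (h3 : (3 : F) = 0) (x : GaussianInt) (s : ℤ) (h1 : (x.re - s) % 3 = 0)
    (h2 : x.im % 3 = 0) : e x = (s : F) := by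
  rw [map_gauss e x, cast_eq_of_emod (S := F) h3 _ _ h1,
    cast_eq_of_emod (S := F) h3 x.im 0 (by simpa using h2)]
  simp

theorem map_eq_one_of_chk (h3 : (3 : F) = 0) {W : Matrix (Fin 3) (Fin 3) GaussianInt}
    (h : chk W) : W.map e = 1 := by
  ext i j
  rw [Matrix.map_apply, e_eq_of_chk e h3 (W i j) _ (h i j).1 (h i j).2, Matrix.one_apply]
  split_ifs <;> simp

theorem det_of_chk (h3 : (3 : F) = 0) (M : Matrix (Fin 3) (Fin 3) GaussianInt)
    (h1 : (M.det.re - 1) % 3 = 0) (h2 : M.det.im % 3 = 0) : (M.map e).det = 1 := by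
  rw [← RingHom.mapMatrix_apply, ← RingHom.map_det, e_eq_of_chk e h3 M.det 1 h1 h2]
  simp

theorem charP_three (h3 : (3 : F) = 0) : CharP F 3 := by
  have h := CharP.ringChar_of_prime_eq_zero (R := F) Nat.prime_three (by exact_mod_cast h3)
  have h' := ringChar.charP F
  rwa [h] at h'

theorem e_cube (h3 : (3 : F) = 0) {ι : F} (hι : e ⟨0, 1⟩ = ι) (hι2 : ι * ι = -1)
    (x y : GaussianInt) (hre : y.re = x.re) (him : y.im = -x.im) : (e x) ^ 3 = e y := by
  haveI : Fact (Nat.Prime 3) := ⟨Nat.prime_three⟩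
  haveI : CharP F 3 := charP_three h3
  haveI : ExpChar F 3 := ExpChar.prime Nat.prime_three
  have hc : ∀ n : ℤ, ((n : F)) ^ 3 = (n : F) := by
    intro n
    have h := map_intCast (frobenius F 3) n
    rwa [frobenius_def] at h
  have hι3 : ι ^ 3 = -ι := by
    calc ι ^ 3 = ι * (ι * ι) := by ring
      _ = -ι := by rw [hι2]; ring
  rw [map_gauss e x, map_gauss e y, hι, hre, him, add_pow_char, mul_pow, hc, hc, Int.cast_neg,
    hι3]
  ring

theorem unitary_of_chk (h3 : (3 : F) = 0) {ι : F} (hι : e ⟨0, 1⟩ = ι) (hι2 : ι * ι = -1)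
    (M Mc : Matrix (Fin 3) (Fin 3) GaussianInt)
    (hc : ∀ i j, (Mc i j).re = (M i j).re ∧ (Mc i j).im = -(M i j).im)
    (h : chk (Mᵀ * Mc)) (u v : Fin 3 → F) :
    Cfsg.hermForm 3 F 3 ((M.map e) *ᵥ u) ((M.map e) *ᵥ v) = Cfsg.hermForm 3 F 3 u v := by
  haveI : Fact (Nat.Prime 3) := ⟨Nat.prime_three⟩
  haveI : CharP F 3 := charP_three h3
  have hG : (M.map e)ᵀ * (Mc.map e) = 1 := by
    rw [← Matrix.transpose_map, ← Matrix.map_mul]
    exact map_eq_one_of_chk e h3 h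
  have g : ∀ j l, (M.map e) 0 j * (Mc.map e) 0 l + (M.map e) 1 j * (Mc.map e) 1 l
      + (M.map e) 2 j * (Mc.map e) 2 l = (1 : Matrix (Fin 3) (Fin 3) F) j l := by
    intro j l
    rw [← hG, Matrix.mul_apply, Fin.sum_univ_three]
    rfl
  have hcube : ∀ k l, ((M.map e) k l) ^ 3 = (Mc.map e) k l := fun k l => by
    rw [Matrix.map_apply, Matrix.map_apply]
    exact e_cube e h3 hι hι2 _ _ (hc k l).1 (hc k l).2
  have hmv : ∀ (x : Fin 3 → F) (k : Fin 3), ((M.map e) *ᵥ x) k =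
      (M.map e) k 0 * x 0 + (M.map e) k 1 * x 1 + (M.map e) k 2 * x 2 := by
    intro x k
    rw [Matrix.mulVec, dotProduct, Fin.sum_univ_three]
  have g00 := g 0 0
  have g01 := g 0 1
  have g02 := g 0 2
  have g10 := g 1 0
  have g11 := g 1 1
  have g12 := g 1 2
  have g20 := g 2 0
  have g21 := g 2 1
  have g22 := g 2 2
  rw [Matrix.one_apply_eq] at g00 g11 g22
  rw [Matrix.one_apply_ne (by decide)] at g01 g02 g10 g12 g20 g21
  unfold Cfsg.hermForm
  rw [Fin.sum_univ_three, Fin.sum_univ_three]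
  simp only [hmv, add_pow_char, mul_pow, hcube]
  linear_combination u 0 * v 0 ^ 3 * g00 + u 0 * v 1 ^ 3 * g01 + u 0 * v 2 ^ 3 * g02
    + u 1 * v 0 ^ 3 * g10 + u 1 * v 1 ^ 3 * g11 + u 1 * v 2 ^ 3 * g12
    + u 2 * v 0 ^ 3 * g20 + u 2 * v 1 ^ 3 * g21 + u 2 * v 2 ^ 3 * g22

end transfer

theorem mem_SU_iff3 {F : Type*} [Field F] (q : ℕ) (g : Matrix.SpecialLinearGroup (Fin 3) F) :
    g ∈ Cfsg.SU 3 F q ↔ ∀ u v, Cfsg.hermForm 3 F q ((g : Matrix (Fin 3) (Fin 3) F) *ᵥ u)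
      ((g : Matrix (Fin 3) (Fin 3) F) *ᵥ v) = Cfsg.hermForm 3 F q u v := Iff.rfl

/-- the underlying matrix of an element of `SU₃` -/
def psi (F : Type*) [Field F] : ↥(Cfsg.SU 3 F 3) →* Matrix (Fin 3) (Fin 3) F where
  toFun g := ((g : Matrix.SpecialLinearGroup (Fin 3) F) : Matrix (Fin 3) (Fin 3) F)
  map_one' := rfl
  map_mul' _ _ := rfl

theorem psi_injective (F : Type*) [Field F] : Function.Injective (psi F) :=
  fun _ _ h => Subtype.ext (Subtype.ext h)

/-- Elements of `SU₃(3)` satisfying the relations of `L₂(7)`. -/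
theorem su_embed {F : Type*} [Field F] [Fintype F] (hF : Fintype.card F = 9) :
    ∃ a b : ↥(Cfsg.SU 3 F 3), (∀ r ∈ TCD.L27.relsL, ev a b r = 1) ∧ b ≠ 1 ∧ a * b ≠ b * a := by
  classical
  obtain ⟨ι, hι⟩ := (FiniteField.isSquare_neg_one_iff (F := F)).2 (by rw [hF]; decide)
  have h9 : ((9 : ℕ) : F) = 0 := by
    rw [← hF]
    exact FiniteField.cast_card_eq_zero F
  have h3 : (3 : F) = 0 := by
    have h33 : (3 : F) * 3 = 0 := by
      have e : (3 : F) * 3 = ((9 : ℕ) : F) := by norm_num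
      rw [e, h9]
    exact mul_self_eq_zero.1 h33
  have hι2 : ι * ι = -1 := hι.symm
  let e : GaussianInt →+* F := Zsqrtd.lift ⟨ι, by rw [← hι]; simp⟩
  have he : e ⟨0, 1⟩ = ι := by
    show Zsqrtd.lift _ _ = _
    rw [Zsqrtd.lift_apply_apply]
    simp
  have hdA : (MA.map e).det = 1 := det_of_chk e h3 MA det_chk.1 det_chk.2.1
  have hdB : (MB.map e).det = 1 := det_of_chk e h3 MB det_chk.2.2.1 det_chk.2.2.2
  have huA := unitary_of_chk e h3 he hι2 MA MAc conj_chk.1 unit_chk.1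
  have huB := unitary_of_chk e h3 he hι2 MB MB conj_chk.2 unit_chk.2
  obtain ⟨a, ha⟩ : ∃ a : ↥(Cfsg.SU 3 F 3), psi F a = MA.map e :=
    ⟨⟨⟨MA.map e, hdA⟩, (mem_SU_iff3 3 _).mpr huA⟩, rfl⟩
  obtain ⟨b, hb⟩ : ∃ b : ↥(Cfsg.SU 3 F 3), psi F b = MB.map e :=
    ⟨⟨⟨MB.map e, hdB⟩, (mem_SU_iff3 3 _).mpr huB⟩, rfl⟩
  have haa : a * a = 1 := by
    apply psi_injective
    rw [map_mul, map_one, ha, ← Matrix.map_mul]
    exact map_eq_one_of_chk e h3 inv_chk.1
  have hainv : psi F a⁻¹ = MA.map e := by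
    rw [inv_eq_of_mul_eq_one_right haa, ha]
  have hbinv : psi F b⁻¹ = MBi.map e := by
    have h1 : MBi.map e * MB.map e = 1 := by
      rw [← Matrix.map_mul]; exact map_eq_one_of_chk e h3 inv_chk.2.2
    have h2 : MB.map e * psi F b⁻¹ = 1 := by
      rw [← hb, ← map_mul, mul_inv_cancel, map_one]
    exact (left_inv_eq_right_inv h1 h2).symm
  refine ⟨a, b, ?_, ?_, ?_⟩
  · intro r hr
    apply psi_injective
    rw [psi_ev (psi F) a b r, map_one, ha, hb, hainv, hbinv, ← map_ev4_mat]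
    exact map_eq_one_of_chk e h3 (rels_chk r hr)
  · intro h
    have h1 : MB.map e = 1 := by rw [← hb, h, map_one]
    have h2 := congrFun (congrFun h1 0) 0
    rw [Matrix.map_apply, Matrix.one_apply_eq] at h2
    have h4 : MB 0 0 = (0 : GaussianInt) := rfl
    rw [h4, map_zero] at h2
    exact zero_ne_one h2
  · intro h
    have h1 := congrArg (psi F) h
    rw [map_mul, map_mul, ha, hb, ← Matrix.map_mul, ← Matrix.map_mul] at h1
    have h00 := congrFun (congrFun h1 0) 0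
    rw [Matrix.map_apply, Matrix.map_apply, map_gauss e ((MA * MB) 0 0),
      map_gauss e ((MB * MA) 0 0), nc_chk.1, nc_chk.2.1, nc_chk.2.2.1, nc_chk.2.2.2] at h00
    push_cast at h00
    have h10 : (1 : F) = 0 := by linear_combination h3 - h00
    exact one_ne_zero h10


/-- The projective special unitary group PSU₃(3) (realised over the field with 9 elements) has a subgroup isomorphic to PSL₂(7). -/
theorem result {F : Type*} [Field F] [Fintype F] (hF : Fintype.card F = 9)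
    {K : Type*} [Field K] [Fintype K] (hK : Fintype.card K = 7) :
    ∃ H : Subgroup (Cfsg.PSU 3 F 3), Nonempty (H ≃* Matrix.ProjectiveSpecialLinearGroup (Fin 2) K) := by
  classical
  let e7 : ZMod 7 ≃+* K := ZMod.ringEquivOfPrime K (by norm_num) hK
  have he7 : Function.Injective (e7 : ZMod 7 →+* K) := e7.injective
  have hfin1 : Finite (ProjectiveSpecialLinearGroup (Fin 2) K) :=
    Nat.finite_of_card_ne_zero (by rw [card_psl27 hK]; norm_num)
  have hs : IsSimpleGroup (ProjectiveSpecialLinearGroup (Fin 2) K) := by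
    apply Matrix.ProjectiveSpecialLinearGroup.rank_two_simple'
    refine ⟨e7 2, ?_, ?_⟩
    · intro h
      have : (2 : ZMod 7) = 0 := e7.injective (by rw [h, map_zero])
      exact absurd this (by decide)
    · intro h
      have : (2 : ZMod 7) ^ 2 = 1 := e7.injective (by rw [map_pow, h, map_one])
      exact absurd this (by decide)
  let φ1 := phi (n := 2) (e7 : ZMod 7 →+* K)
  have hN : φ1 N7 = 1 := phi_eq_one _ 6 (by decide) N7_entries
  have i1a : φ1 A7 * φ1 Ai7 = 1 := by rw [← map_mul, inv7.1, map_one]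
  have i1b : φ1 B7 * φ1 Bi7 = 1 := by rw [← map_mul, inv7.2, map_one]
  have hR1 : ∀ r ∈ TCD.L27.relsL, ev (φ1 A7) (φ1 B7) r = 1 := by
    intro r hr
    rw [ev_eq_map_ev4 φ1 A7 Ai7 B7 Bi7 i1a i1b]
    rcases rel7 r hr with h | h
    · rw [h, map_one]
    · rw [h, hN]
  have hc : (φ1 A7 * φ1 B7 * (φ1 A7)⁻¹ * (φ1 B7)⁻¹) ^ 2 ≠ 1 := by
    have e : (φ1 A7 * φ1 B7 * (φ1 A7)⁻¹ * (φ1 B7)⁻¹) ^ 2 =
        ev (φ1 A7) (φ1 B7) [0, 2, 1, 3, 0, 2, 1, 3] := by
      simp [ev, cols, pow_succ, mul_assoc]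
    rw [e, ev_eq_map_ev4 φ1 A7 Ai7 B7 Bi7 i1a i1b]
    exact phi_ne_one _ he7 nc7.1
  have hb1 : φ1 B7 ≠ 1 := phi_ne_one _ he7 nc7.2.1
  have hab1 : φ1 A7 * φ1 B7 ≠ 1 := by
    rw [← map_mul]
    exact phi_ne_one _ he7 nc7.2.2
  obtain ⟨a, b, hR2, hb2, hnc⟩ := su_embed hF
  obtain ⟨f, hf, hfa, hfb⟩ := embed_of_gens (card_psl27 hK) (φ1 A7) (φ1 B7) a b hR1 hR2 hc hb1
    hab1 hb2
  let g : ProjectiveSpecialLinearGroup (Fin 2) K →* Cfsg.PSU 3 F 3 :=
    (QuotientGroup.mk' (Subgroup.center ↥(Cfsg.SU 3 F 3))).comp f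
  have hg : Function.Injective g := by
    rw [← MonoidHom.ker_eq_bot_iff]
    rcases (MonoidHom.normal_ker g).eq_bot_or_eq_top with h | h
    · exact h
    · exfalso
      have hA : φ1 A7 ∈ g.ker := by rw [h]; trivial
      have hA' : f (φ1 A7) ∈ Subgroup.center ↥(Cfsg.SU 3 F 3) :=
        (QuotientGroup.eq_one_iff _).1 (MonoidHom.mem_ker.1 hA)
      rw [hfa, Subgroup.mem_center_iff] at hA'
      exact hnc (hA' b).symm
  exact ⟨g.range, ⟨(MonoidHom.ofInjective hg).symm⟩⟩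

end Cfsg.Agent.S1897
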