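import Cfsg.Statements.S1898
import Mathlib

set_option autoImplicit false
open Cfsg

namespace Cfsg.Agent.S1898

/-- Let X be a finite 2-group whose derived subgroup is elementary abelian and central. Then the subgroup generated by the elements of order dividing 4 has exponent dividing 4, and every automorphism of X fixing each element of order dividing 4 has 2-power order. -/
theorem result {X : Type*} [Group X] [Finite X] (hX : IsPGroup 2 X)
    (hel : Cfsg.IsElementaryAbelian 2 (commutator X)) (hcen : commutator X ≤ Subgroup.center X) :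
    (∀ x ∈ Subgroup.closure {g : X | g ^ 4 = 1}, x ^ 4 = 1) ∧
      ∀ φ : MulAut X, (∀ g : X, g ^ 4 = 1 → φ g = g) → ∃ k : ℕ, φ ^ (2 ^ k) = 1 := by
  obtain ⟨-, hexp⟩ := hel
  -- commutators are central of order dividing 2
  have hc : ∀ x y : X, (y * x * y⁻¹ * x⁻¹) ∈ commutator X := by
    intro x y
    rw [commutator_def]
    exact Subgroup.commutator_mem_commutator (Subgroup.mem_top y) (Subgroup.mem_top x)
  have hcc : ∀ x y g : X, g * (y * x * y⁻¹ * x⁻¹) = (y * x * y⁻¹ * x⁻¹) * g := by
    intro x y g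
    exact Subgroup.mem_center_iff.1 (hcen (hc x y)) g
  have hc2 : ∀ x y : X, (y * x * y⁻¹ * x⁻¹) * (y * x * y⁻¹ * x⁻¹) = 1 := by
    intro x y
    have := hexp _ (hc x y)
    rwa [pow_two] at this
  have hyx : ∀ x y : X, y * x = (y * x * y⁻¹ * x⁻¹) * x * y := by
    intro x y; group
  -- squares commute with everything
  have hsq : ∀ x y : X, y ^ 2 * x = x * y ^ 2 := by
    intro x y
    obtain ⟨c, hcdef⟩ : ∃ c, c = y * x * y⁻¹ * x⁻¹ := ⟨_, rfl⟩
    have e1 : y * x = c * x * y := by rw [hcdef]; exact hyx x y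
    have e2 : ∀ g : X, g * c = c * g := by intro g; rw [hcdef]; exact hcc x y g
    have e3 : c * c = 1 := by rw [hcdef]; exact hc2 x y
    calc y ^ 2 * x = y * (y * x) := by rw [pow_two, mul_assoc]
      _ = y * (c * x * y) := by rw [e1]
      _ = (y * c) * x * y := by group
      _ = (c * y) * x * y := by rw [e2]
      _ = c * (y * x) * y := by group
      _ = c * (c * x * y) * y := by rw [e1]
      _ = (c * c) * x * (y * y) := by group
      _ = x * y ^ 2 := by rw [e3, one_mul, pow_two]
  have hsq2 : ∀ x y : X, y ^ 2 * x ^ 2 = x ^ 2 * y ^ 2 := by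
    intro x y
    rw [pow_two x, ← mul_assoc, hsq x y, mul_assoc, hsq x y, ← mul_assoc]
  -- (x y)^2 = c x^2 y^2
  have hmul2 : ∀ x y : X, (x * y) ^ 2 = (y * x * y⁻¹ * x⁻¹) * x ^ 2 * y ^ 2 := by
    intro x y
    obtain ⟨c, hcdef⟩ : ∃ c, c = y * x * y⁻¹ * x⁻¹ := ⟨_, rfl⟩
    have e1 : y * x = c * x * y := by rw [hcdef]; exact hyx x y
    have e2 : ∀ g : X, g * c = c * g := by intro g; rw [hcdef]; exact hcc x y g
    rw [← hcdef]
    calc (x * y) ^ 2 = x * (y * x) * y := by rw [pow_two]; group
      _ = x * (c * x * y) * y := by rw [e1]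
      _ = (x * c) * x * (y * y) := by group
      _ = (c * x) * x * (y * y) := by rw [e2]
      _ = c * x ^ 2 * y ^ 2 := by rw [pow_two, pow_two]; group
  -- (x y)^4 = x^4 y^4
  have hmul4 : ∀ x y : X, (x * y) ^ 4 = x ^ 4 * y ^ 4 := by
    intro x y
    obtain ⟨c, hcdef⟩ : ∃ c, c = y * x * y⁻¹ * x⁻¹ := ⟨_, rfl⟩
    have e2 : ∀ g : X, g * c = c * g := by intro g; rw [hcdef]; exact hcc x y g
    have e3 : c * c = 1 := by rw [hcdef]; exact hc2 x y
    have h4 : ∀ z : X, z ^ 4 = z ^ 2 * z ^ 2 := fun z => by rw [← pow_add]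
    rw [h4 (x * y), hmul2 x y, ← hcdef, h4 x, h4 y]
    calc c * x ^ 2 * y ^ 2 * (c * x ^ 2 * y ^ 2)
        = c * ((x ^ 2 * y ^ 2) * c) * x ^ 2 * y ^ 2 := by group
      _ = c * (c * (x ^ 2 * y ^ 2)) * x ^ 2 * y ^ 2 := by rw [e2]
      _ = (c * c) * x ^ 2 * (y ^ 2 * x ^ 2) * y ^ 2 := by group
      _ = x ^ 2 * (x ^ 2 * y ^ 2) * y ^ 2 := by rw [e3, one_mul, hsq2 x y]
      _ = x ^ 2 * x ^ 2 * (y ^ 2 * y ^ 2) := by group
  constructor
  · intro x hx
    induction hx using Subgroup.closure_induction with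
    | mem g hg => exact hg
    | one => exact one_pow 4
    | mul a b _ _ ha hb => rw [hmul4, ha, hb, one_mul]
    | inv a _ ha => rw [inv_pow, ha, inv_one]
  · intro φ hφ
    have hpowfix : ∀ (χ : MulAut X) (c : X) (k : ℕ), χ c = c → (χ ^ k) c = c := by
      intro χ c k hc
      induction k with
      | zero => simp
      | succ k ih => rw [pow_succ, MulAut.mul_apply, hc, ih]
    have hord : orderOf φ ≠ 0 := (orderOf_pos φ).ne'
    obtain ⟨k, m, hm, hkm⟩ := Nat.exists_eq_two_pow_mul_odd hord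
    refine ⟨k, ?_⟩
    obtain ⟨ψ, hψdef⟩ : ∃ ψ, ψ = φ ^ (2 ^ k) := ⟨_, rfl⟩
    rw [← hψdef]
    have hψm : ψ ^ m = 1 := by
      rw [hψdef, ← pow_mul, ← hkm]; exact pow_orderOf_eq_one φ
    have hψfix : ∀ g : X, g ^ 4 = 1 → ψ g = g := by
      intro g hg; rw [hψdef]; exact hpowfix φ g _ (hφ g hg)
    -- ψ fixes every element, by induction on the exponent of its order
    have key : ∀ e : ℕ, ∀ x : X, x ^ (2 ^ e) = 1 → ψ x = x := by
      intro e
      induction e with
      | zero =>
        intro x hx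
        apply hψfix
        rw [pow_zero, pow_one] at hx
        rw [hx, one_pow]
      | succ e ih =>
        intro x hx
        have hx2 : (x ^ 2) ^ (2 ^ e) = 1 := by rw [← pow_mul, ← pow_succ']; exact hx
        have h1 : ψ (x ^ 2) = x ^ 2 := ih _ hx2
        obtain ⟨y, hy⟩ : ∃ y, y = x⁻¹ * ψ x := ⟨_, rfl⟩
        have hψx : ψ x = x * y := by rw [hy]; group
        obtain ⟨c, hcdef⟩ : ∃ c, c = y * x * y⁻¹ * x⁻¹ := ⟨_, rfl⟩
        have e2 : ∀ g : X, g * c = c * g := by intro g; rw [hcdef]; exact hcc x y g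
        have e3 : c * c = 1 := by rw [hcdef]; exact hc2 x y
        have h2 : c * x ^ 2 * y ^ 2 = x ^ 2 := by
          rw [hcdef, ← hmul2 x y, ← hψx, ← map_pow, h1]
        have h3 : c * y ^ 2 = 1 := by
          have : x ^ 2 * (c * y ^ 2) = x ^ 2 * 1 := by
            rw [mul_one, ← mul_assoc, e2, h2]
          exact mul_left_cancel this
        have h4 : y ^ 4 = 1 := by
          have hy2 : y ^ 2 = c⁻¹ := eq_inv_of_mul_eq_one_right h3
          have : y ^ 4 = y ^ 2 * y ^ 2 := by rw [← pow_add]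
          rw [this, hy2, ← mul_inv_rev, e3, inv_one]
        have h5 : ψ y = y := hψfix y h4
        have h6 : ∀ j : ℕ, (ψ ^ j) x = x * y ^ j := by
          intro j
          induction j with
          | zero => simp
          | succ j ihj => rw [pow_succ', MulAut.mul_apply, ihj, map_mul, map_pow, hψx, h5, pow_succ']; group
        have h7 : y ^ m = 1 := by
          have := h6 m
          rw [hψm] at this
          have h8 : x = x * y ^ m := this
          exact (mul_eq_left.1 h8.symm)
        have h9 : y = 1 := by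
          have hd1 : orderOf y ∣ m := orderOf_dvd_of_pow_eq_one h7
          have hd2 : orderOf y ∣ 4 := orderOf_dvd_of_pow_eq_one h4
          have hcop : Nat.Coprime m 4 := by
            have : Nat.Coprime m 2 := Nat.Coprime.symm (Nat.coprime_two_left.2 hm)
            exact Nat.Coprime.pow_right 2 this
          have hd3 : orderOf y ∣ 1 := by
            have := Nat.dvd_gcd hd1 hd2
            rwa [hcop.gcd_eq_one] at this
          exact orderOf_eq_one_iff.1 (Nat.dvd_one.1 hd3)
        rw [hψx, h9, mul_one]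
    ext x
    obtain ⟨e, he⟩ := hX x
    exact key e x he

end Cfsg.Agent.S1898
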