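import Cfsg.Statements.S1899
import Mathlib

set_option autoImplicit false
open Cfsg

namespace Cfsg.Agent.S1899

/-- Let a dihedral group of order 2n, n odd and n > 1, act on a finite abelian 2-group A through automorphisms d and t with d^n = 1, t² = 1 and t d t⁻¹ = d⁻¹, and suppose that d fixes only the identity. Then A is the internal direct product of C_A(t) and its image under d. -/
theorem result {A : Type*} [CommGroup A] [Finite A] (hA : IsPGroup 2 A)
    {n : ℕ} (hn : Odd n) (hn1 : 1 < n) (d t : MulAut A) (hd : d ^ n = 1) (ht : t ^ 2 = 1) (hdt : t * d * t⁻¹ = d⁻¹)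
    (hfix : ∀ a : A, d a = a → a = 1) :
    (MulEquiv.toMonoidHom t).eqLocus (MonoidHom.id A) ⊓ ((MulEquiv.toMonoidHom t).eqLocus (MonoidHom.id A)).map d.toMonoidHom = ⊥ ∧
      (MulEquiv.toMonoidHom t).eqLocus (MonoidHom.id A) ⊔ ((MulEquiv.toMonoidHom t).eqLocus (MonoidHom.id A)).map d.toMonoidHom = ⊤ := by
  classical
  -- basic facts about d and t
  have htd : ∀ a : A, t (d a) = d⁻¹ (t a) := by
    intro a
    have h1 : t * d = d⁻¹ * t := by
      calc t * d = (t * d * t⁻¹) * t := by group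
        _ = d⁻¹ * t := by rw [hdt]
    have := congrArg (fun φ : MulAut A => φ a) h1
    simpa [MulAut.mul_apply] using this
  have hpowfix : ∀ (φ : MulAut A) (c : A) (k : ℕ), φ c = c → (φ ^ k) c = c := by
    intro φ c k hc
    induction k with
    | zero => simp
    | succ k ih => rw [pow_succ, MulAut.mul_apply, hc, ih]
  have hd2 : ∀ c : A, d (d c) = c → c = 1 := by
    intro c hc
    apply hfix
    obtain ⟨k, hk⟩ := hn
    have h1 : (d ^ 2) c = c := by rw [pow_two, MulAut.mul_apply]; exact hc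
    have h2 : ((d ^ 2) ^ k) c = c := hpowfix _ c k h1
    have h3 : d ^ n = d * (d ^ 2) ^ k := by rw [hk, pow_succ', pow_mul]
    have h4 : (d ^ n) c = c := by rw [hd]; rfl
    rw [h3, MulAut.mul_apply, h2] at h4
    exact h4
  have hdinv : ∀ a b : A, d⁻¹ a = d b → d (d b) = a := by
    intro a b h
    have : d (d⁻¹ a) = a := by
      have h1 : (d * d⁻¹) a = a := by rw [mul_inv_cancel]; rfl
      rwa [MulAut.mul_apply] at h1
    rw [← h, this]
  -- the two subgroups
  obtain ⟨C, hCdef⟩ : ∃ C : Subgroup A, C = (MulEquiv.toMonoidHom t).eqLocus (MonoidHom.id A) := ⟨_, rfl⟩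
  rw [← hCdef]
  have hC : ∀ a : A, a ∈ C ↔ t a = a := by
    intro a; rw [hCdef]; rfl
  have hmapC : ∀ a : A, a ∈ C.map d.toMonoidHom ↔ ∃ c ∈ C, d c = a := by
    intro a; rw [Subgroup.mem_map]; rfl
  -- part 1
  have hinter : C ⊓ C.map d.toMonoidHom = ⊥ := by
    rw [eq_bot_iff]
    intro a ha
    obtain ⟨ha1, ha2⟩ := Subgroup.mem_inf.1 ha
    obtain ⟨c, hc, rfl⟩ := (hmapC a).1 ha2
    rw [hC] at ha1 hc
    rw [htd, hc] at ha1
    have := hd2 c (hdinv c c ha1)
    rw [Subgroup.mem_bot, this, map_one]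
  refine ⟨hinter, ?_⟩
  -- the norm map f a = a * t a and the inverted elements
  let f : A →* A := MonoidHom.id A * t.toMonoidHom
  have hf : ∀ a, f a = a * t a := fun a => rfl
  have htt : ∀ a : A, t (t a) = a := by
    intro a
    have h1 : (t ^ 2) a = a := by rw [ht]; rfl
    rwa [pow_two, MulAut.mul_apply] at h1
  have hrange : f.range ≤ C := by
    rintro _ ⟨a, rfl⟩
    rw [hC, hf, map_mul, htt, mul_comm]
  have hI : ∀ a : A, a ∈ f.ker ↔ t a = a⁻¹ := by
    intro a
    rw [MonoidHom.mem_ker, hf]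
    constructor
    · intro h; exact (eq_inv_of_mul_eq_one_right h)
    · intro h; rw [h, mul_inv_cancel]
  -- cardinalities
  have hcard1 : Nat.card A = Nat.card f.ker * Nat.card f.range := by
    rw [← Subgroup.index_ker, Subgroup.card_mul_index]
  have hcard2 : Nat.card f.range ≤ Nat.card C := Subgroup.card_le_of_le hrange
  -- injection C × C → A
  let g : C × C → A := fun x => (x.1 : A) * d (x.2 : A)
  have hg : Function.Injective g := by
    rintro ⟨x, y⟩ ⟨x', y'⟩ h
    have h1 : (x : A) * d (y : A) = (x' : A) * d (y' : A) := h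
    have h2 : (x' : A)⁻¹ * (x : A) = d ((y' : A) * (y : A)⁻¹) := by
      rw [map_mul, map_inv]
      rw [inv_mul_eq_iff_eq_mul, ← mul_assoc, ← h1, mul_assoc, mul_inv_cancel, mul_one]
    have h3 : (x' : A)⁻¹ * (x : A) ∈ C ⊓ C.map d.toMonoidHom := by
      refine Subgroup.mem_inf.2 ⟨C.mul_mem (C.inv_mem x'.2) x.2, ?_⟩
      rw [h2]
      exact (hmapC _).2 ⟨_, C.mul_mem y'.2 (C.inv_mem y.2), rfl⟩
    rw [hinter, Subgroup.mem_bot] at h3
    have h4 : (x : A) = x' := by
      rw [inv_mul_eq_one] at h3; exact h3.symm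
    have h5 : d ((y' : A) * (y : A)⁻¹) = 1 := by rw [← h2, h3]
    have h6 : (y' : A) * (y : A)⁻¹ = 1 := by
      have := d.injective (h5.trans (map_one d).symm)
      exact this
    have h7 : (y : A) = y' := by
      rw [mul_inv_eq_one] at h6; exact h6.symm
    exact Prod.ext (Subtype.ext h4) (Subtype.ext h7)
  have hcard3 : Nat.card C * Nat.card C ≤ Nat.card A := by
    rw [← Nat.card_prod]
    exact Nat.card_le_card_of_injective g hg
  -- injection I × I → A
  let g' : f.ker × f.ker → A := fun x => (x.1 : A) * d (x.2 : A)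
  have hinterI : ∀ a : A, a ∈ f.ker → (∃ c ∈ f.ker, d c = a) → a = 1 := by
    rintro a ha1 ⟨c, hc, rfl⟩
    rw [hI] at ha1 hc
    rw [htd, hc, ← map_inv] at ha1
    have := hd2 c⁻¹ (hdinv c⁻¹ c⁻¹ ha1)
    rw [inv_eq_one] at this
    rw [this, map_one]
  have hg' : Function.Injective g' := by
    rintro ⟨x, y⟩ ⟨x', y'⟩ h
    have h1 : (x : A) * d (y : A) = (x' : A) * d (y' : A) := h
    have h2 : (x' : A)⁻¹ * (x : A) = d ((y' : A) * (y : A)⁻¹) := by
      rw [map_mul, map_inv]
      rw [inv_mul_eq_iff_eq_mul, ← mul_assoc, ← h1, mul_assoc, mul_inv_cancel, mul_one]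
    have h3 : (x' : A)⁻¹ * (x : A) = 1 := by
      apply hinterI _ (f.ker.mul_mem (f.ker.inv_mem x'.2) x.2)
      exact ⟨_, f.ker.mul_mem y'.2 (f.ker.inv_mem y.2), h2.symm⟩
    have h4 : (x : A) = x' := by
      rw [inv_mul_eq_one] at h3; exact h3.symm
    have h5 : d ((y' : A) * (y : A)⁻¹) = 1 := by rw [← h2, h3]
    have h6 : (y' : A) * (y : A)⁻¹ = 1 := by
      have := d.injective (h5.trans (map_one d).symm)
      exact this
    have h7 : (y : A) = y' := by
      rw [mul_inv_eq_one] at h6; exact h6.symm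
    exact Prod.ext (Subtype.ext h4) (Subtype.ext h7)
  have hcard4 : Nat.card f.ker * Nat.card f.ker ≤ Nat.card A := by
    rw [← Nat.card_prod]
    exact Nat.card_le_card_of_injective g' hg'
  -- conclude |C|^2 = |A|
  have hApos : 0 < Nat.card A := Nat.card_pos
  have hcard5 : Nat.card A ≤ Nat.card C * Nat.card C := by
    by_contra hlt
    push Not at hlt
    have h1 : Nat.card A ≤ Nat.card f.ker * Nat.card C := by
      rw [hcard1]; exact Nat.mul_le_mul_left _ hcard2
    have h2 : Nat.card A * Nat.card A ≤ (Nat.card f.ker * Nat.card C) * (Nat.card f.ker * Nat.card C) :=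
      Nat.mul_le_mul h1 h1
    have h3 : (Nat.card f.ker * Nat.card C) * (Nat.card f.ker * Nat.card C)
        = (Nat.card f.ker * Nat.card f.ker) * (Nat.card C * Nat.card C) := by ring
    rw [h3] at h2
    have h4 : (Nat.card f.ker * Nat.card f.ker) * (Nat.card C * Nat.card C) < Nat.card A * Nat.card A := by
      calc (Nat.card f.ker * Nat.card f.ker) * (Nat.card C * Nat.card C)
          ≤ Nat.card A * (Nat.card C * Nat.card C) := Nat.mul_le_mul_right _ hcard4
        _ < Nat.card A * Nat.card A := Nat.mul_lt_mul_of_pos_left hlt hApos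
    omega
  have hbij : Function.Bijective g := by
    apply Function.Injective.bijective_of_nat_card_le hg
    rw [Nat.card_prod]; exact hcard5
  rw [eq_top_iff]
  intro a _
  obtain ⟨⟨x, y⟩, hxy⟩ := hbij.2 a
  have : (x : A) * d (y : A) = a := hxy
  rw [← this]
  exact Subgroup.mul_mem_sup x.2 ((hmapC _).2 ⟨y, y.2, rfl⟩)

end Cfsg.Agent.S1899
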