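-- helper9: S1900 (P = C_P(X₁) × C_P(X₂) under an elementary abelian q²-action)
import Mathlib
import Cfsg.Statements.S1900
import Cfsg.Agent.Helper9.CoprimeGen
import Cfsg.Agent.Helper9.Signalizer
import Cfsg.Agent.Helper9.StrEmb
import Cfsg.Agent.Helper3.ElemAb

set_option autoImplicit false
open Cfsg

namespace Cfsg.Agent.S1900

open Cfsg.Agent.Helper9
open scoped commutatorElement

theorem mem_cent_single {G : Type*} [Group G] (x g : G) :
    g ∈ Subgroup.centralizer ({x} : Set G) ↔ x * g = g * x := by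
  rw [Subgroup.mem_centralizer_iff]
  constructor
  · intro h; exact h x (Set.mem_singleton x)
  · intro h y hy
    rw [Set.mem_singleton_iff] at hy
    rw [hy]; exact h

theorem centralizer_zpowers_eq {G : Type*} [Group G] (a : G) :
    Subgroup.centralizer (Subgroup.zpowers a : Set G) = Subgroup.centralizer {a} := by
  apply le_antisymm
  · apply Subgroup.centralizer_le
    intro x hx
    rw [Set.mem_singleton_iff] at hx
    rw [hx]
    exact Subgroup.mem_zpowers a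
  · intro g hg
    rw [Subgroup.mem_centralizer_iff] at hg ⊢
    intro h hh
    obtain ⟨k, rfl⟩ := Subgroup.mem_zpowers_iff.1 hh
    have h1 : Commute a g := hg a (Set.mem_singleton a)
    exact (h1.zpow_left k).eq

/-- A fixed-point-free automorphism `v ↦ x v x⁻¹` of a finite subgroup: `v ↦ v⁻¹ x v x⁻¹` is
onto. -/
theorem exists_eq_inv_mul_conj {G : Type*} [Group G] (V : Subgroup G) [Finite V] (x : G)
    (hx : ∀ v ∈ V, x * v * x⁻¹ ∈ V) (hfix : ∀ v ∈ V, x * v = v * x → v = 1) :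
    ∀ w ∈ V, ∃ v ∈ V, w = v⁻¹ * (x * v * x⁻¹) := by
  let ψ : V → V := fun v => ⟨(v : G)⁻¹ * (x * v * x⁻¹), mul_mem (inv_mem v.2) (hx v v.2)⟩
  have hinj : Function.Injective ψ := by
    intro v w hvw
    have h1 : (v : G)⁻¹ * (x * v * x⁻¹) = (w : G)⁻¹ * (x * w * x⁻¹) := congrArg Subtype.val hvw
    have h2 : x * ((w : G) * (v : G)⁻¹) = ((w : G) * (v : G)⁻¹) * x := by
      have h3 : x * v * x⁻¹ = (v : G) * (w : G)⁻¹ * (x * w * x⁻¹) := by
        rw [mul_assoc (v : G), ← h1]; group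
      have h4 : x * (v : G) = (v : G) * (w : G)⁻¹ * x * w := by
        calc x * (v : G) = x * v * x⁻¹ * x := by group
          _ = (v : G) * (w : G)⁻¹ * (x * w * x⁻¹) * x := by rw [h3]
          _ = (v : G) * (w : G)⁻¹ * x * w := by group
      calc x * ((w : G) * (v : G)⁻¹)
          = (w : G) * (v : G)⁻¹ * ((v : G) * (w : G)⁻¹ * x * w) * (v : G)⁻¹ := by group
        _ = (w : G) * (v : G)⁻¹ * (x * v) * (v : G)⁻¹ := by rw [h4]
        _ = (w : G) * (v : G)⁻¹ * x := by group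
    have h5 := hfix _ (mul_mem w.2 (inv_mem v.2)) h2
    apply Subtype.ext
    exact (mul_inv_eq_one.1 h5).symm
  have hsurj : Function.Surjective ψ := Finite.injective_iff_surjective.1 hinj
  intro w hw
  obtain ⟨v, hv⟩ := hsurj ⟨w, hw⟩
  exact ⟨v, v.2, (congrArg Subtype.val hv).symm⟩

/-- The commutator identity behind the splitting. -/
theorem commutator_step {H : Type*} [Group H] (A B T : H) (hTA : T * A = A * T)
    (hc : T * ⁅A, B⁆ = ⁅A, B⁆ * T) : ⁅A, B⁻¹ * (T * B * T⁻¹)⁆ = 1 := by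
  have h1 : A * B * A⁻¹ = ⁅A, B⁆ * B := by rw [commutatorElement_def]; group
  have hTA' : T⁻¹ * A⁻¹ = A⁻¹ * T⁻¹ := by rw [← mul_inv_rev, ← mul_inv_rev, hTA]
  have h2 : A * (T * B * T⁻¹) * A⁻¹ = ⁅A, B⁆ * (T * B * T⁻¹) := by
    calc A * (T * B * T⁻¹) * A⁻¹ = (A * T) * B * (T⁻¹ * A⁻¹) := by group
      _ = (T * A) * B * (A⁻¹ * T⁻¹) := by rw [hTA, hTA']
      _ = T * (A * B * A⁻¹) * T⁻¹ := by group
      _ = (T * ⁅A, B⁆) * B * T⁻¹ := by rw [h1, ← mul_assoc T]
      _ = (⁅A, B⁆ * T) * B * T⁻¹ := by rw [hc]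
      _ = ⁅A, B⁆ * (T * B * T⁻¹) := by simp only [mul_assoc]
  rw [commutatorElement_def]
  calc A * (B⁻¹ * (T * B * T⁻¹)) * A⁻¹ * (B⁻¹ * (T * B * T⁻¹))⁻¹
      = (A * B * A⁻¹)⁻¹ * (A * (T * B * T⁻¹) * A⁻¹) * (B⁻¹ * (T * B * T⁻¹))⁻¹ := by group
    _ = (⁅A, B⁆ * B)⁻¹ * (⁅A, B⁆ * (T * B * T⁻¹)) * (B⁻¹ * (T * B * T⁻¹))⁻¹ := by rw [h1, h2]
    _ = 1 := by group

theorem step_hom {S H : Type*} [Group S] [Group H] (π : S →* H) (u v x : S)
    (hxu : x * u = u * x) (hc : π x * π ⁅u, v⁆ = π ⁅u, v⁆ * π x) :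
    π ⁅u, v⁻¹ * (x * v * x⁻¹)⁆ = 1 := by
  simp only [map_commutatorElement, map_mul, map_inv]
  apply commutator_step
  · rw [← map_mul, ← map_mul, hxu]
  · rw [← map_commutatorElement]; exact hc

/-- Let S = PQ be a finite group with P a normal Sylow p-subgroup and Q elementary abelian of order q², q a prime different from p. If exactly two subgroups X₁, X₂ of order q in Q have a nontrivial centralizer in P, then P is the internal direct product of C_P(X₁) and C_P(X₂): they commute elementwise, meet trivially and generate P. -/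
theorem result {S : Type*} [Group S] [Finite S] {p q : ℕ} [Fact p.Prime] [Fact q.Prime] (hpq : p ≠ q)
    (P : Sylow p S) [(P : Subgroup S).Normal] (Q : Subgroup S) (hQ : Cfsg.IsElementaryAbelian q Q) (hQc : Nat.card Q = q ^ 2)
    (hS : (P : Subgroup S) ⊔ Q = ⊤)
    (X₁ X₂ : Subgroup S) (h₁ : X₁ ≤ Q) (h₂ : X₂ ≤ Q) (h₁₂ : X₁ ≠ X₂) (hc₁ : Nat.card X₁ = q) (hc₂ : Nat.card X₂ = q)
    (hf₁ : (P : Subgroup S) ⊓ Subgroup.centralizer (X₁ : Set S) ≠ ⊥)
    (hf₂ : (P : Subgroup S) ⊓ Subgroup.centralizer (X₂ : Set S) ≠ ⊥)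
    (honly : ∀ X : Subgroup S, X ≤ Q → Nat.card X = q →
      (P : Subgroup S) ⊓ Subgroup.centralizer (X : Set S) ≠ ⊥ → X = X₁ ∨ X = X₂) :
    ⁅(P : Subgroup S) ⊓ Subgroup.centralizer (X₁ : Set S), (P : Subgroup S) ⊓ Subgroup.centralizer (X₂ : Set S)⁆ = ⊥ ∧
      ((P : Subgroup S) ⊓ Subgroup.centralizer (X₁ : Set S)) ⊓ ((P : Subgroup S) ⊓ Subgroup.centralizer (X₂ : Set S)) = ⊥ ∧
      ((P : Subgroup S) ⊓ Subgroup.centralizer (X₁ : Set S)) ⊔ ((P : Subgroup S) ⊓ Subgroup.centralizer (X₂ : Set S)) = P := by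
  classical
  have hp : p.Prime := Fact.out
  have hq : q.Prime := Fact.out
  obtain ⟨hQcomm, hQexp⟩ := Cfsg.Agent.Helper3.isElementaryAbelian_iff.1 hQ
  haveI hQc' : IsMulCommutative Q := hQ.1
  have hPn : (P : Subgroup S).Normal := inferInstance
  have hX : ∀ X : Subgroup S, Nat.card X = q → ∀ x ∈ X, x ≠ 1 → Subgroup.zpowers x = X := by
    intro X hXc x hxX hx1
    apply Subgroup.eq_of_le_of_card_ge
    · rw [Subgroup.zpowers_le]; exact hxX
    · rw [hXc, Nat.card_zpowers]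
      have h1 : orderOf x ∣ q := by rw [← hXc]; exact Subgroup.orderOf_dvd_natCard X hxX
      rcases (Nat.dvd_prime hq).1 h1 with h | h
      · exact absurd (orderOf_eq_one_iff.1 h) hx1
      · exact h.ge
  have hXne : ∀ X : Subgroup S, Nat.card X = q → ∃ x ∈ X, x ≠ 1 := by
    intro X hXc
    have h1 : 1 < Nat.card X := by rw [hXc]; exact hq.one_lt
    haveI : Nontrivial X := Finite.one_lt_card_iff_nontrivial.1 h1
    obtain ⟨b, hb⟩ := exists_ne (1 : X)
    exact ⟨b, b.2, fun h => hb (Subtype.ext h)⟩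
  obtain ⟨x₁, hx₁X, hx₁1⟩ := hXne X₁ hc₁
  obtain ⟨x₂, hx₂X, hx₂1⟩ := hXne X₂ hc₂
  have hz₁ : Subgroup.zpowers x₁ = X₁ := hX X₁ hc₁ x₁ hx₁X hx₁1
  have hz₂ : Subgroup.zpowers x₂ = X₂ := hX X₂ hc₂ x₂ hx₂X hx₂1
  have hx₁Q : x₁ ∈ Q := h₁ hx₁X
  have hx₂Q : x₂ ∈ Q := h₂ hx₂X
  have hC₁ : Subgroup.centralizer (X₁ : Set S) = Subgroup.centralizer {x₁} := by
    rw [← hz₁]; exact centralizer_zpowers_eq x₁
  have hC₂ : Subgroup.centralizer (X₂ : Set S) = Subgroup.centralizer {x₂} := by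
    rw [← hz₂]; exact centralizer_zpowers_eq x₂
  have hQord : ∀ a ∈ Q, a ≠ 1 → Nat.card (Subgroup.zpowers a) = q := by
    intro a ha ha1
    rw [Nat.card_zpowers]
    exact orderOf_eq_prime (hQexp a ha) ha1
  have honly' : ∀ a ∈ Q, a ≠ 1 → (P : Subgroup S) ⊓ Subgroup.centralizer ({a} : Set S) ≠ ⊥ →
      Subgroup.zpowers a = X₁ ∨ Subgroup.zpowers a = X₂ := by
    intro a ha ha1 hne
    apply honly (Subgroup.zpowers a) (by rw [Subgroup.zpowers_le]; exact ha) (hQord a ha ha1)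
    rw [centralizer_zpowers_eq]; exact hne
  have hx₂nX₁ : x₂ ∉ X₁ := by
    intro h
    apply h₁₂
    symm
    apply Subgroup.eq_of_le_of_card_ge
    · rw [← hz₂, Subgroup.zpowers_le]; exact h
    · exact le_of_eq (by rw [hc₁, hc₂])
  have hx₁nX₂ : x₁ ∉ X₂ := by
    intro h
    apply h₁₂
    apply Subgroup.eq_of_le_of_card_ge
    · rw [← hz₁, Subgroup.zpowers_le]; exact h
    · exact le_of_eq (by rw [hc₁, hc₂])
  have hfix12 : ∀ g ∈ (P : Subgroup S), x₁ * g = g * x₁ → x₂ * g = g * x₂ → g = 1 := by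
    intro g hgP h1 h2
    by_contra hg1
    have hx₃Q : x₁ * x₂ ∈ Q := mul_mem hx₁Q hx₂Q
    have hx₃1 : x₁ * x₂ ≠ 1 := by
      intro h
      apply hx₂nX₁
      have : x₂ = x₁⁻¹ := eq_inv_of_mul_eq_one_right h
      rw [this]; exact inv_mem hx₁X
    have hne : (P : Subgroup S) ⊓ Subgroup.centralizer ({x₁ * x₂} : Set S) ≠ ⊥ := by
      intro hbot
      apply hg1
      have : g ∈ (P : Subgroup S) ⊓ Subgroup.centralizer ({x₁ * x₂} : Set S) := by
        refine Subgroup.mem_inf.2 ⟨hgP, (mem_cent_single _ _).2 ?_⟩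
        rw [mul_assoc, h2, ← mul_assoc, h1, mul_assoc]
      rw [hbot] at this
      exact Subgroup.mem_bot.1 this
    rcases honly' _ hx₃Q hx₃1 hne with h | h
    · apply hx₂nX₁
      have h3 : x₁ * x₂ ∈ X₁ := by rw [← h]; exact Subgroup.mem_zpowers _
      have : x₂ = x₁⁻¹ * (x₁ * x₂) := by group
      rw [this]; exact mul_mem (inv_mem hx₁X) h3
    · apply hx₁nX₂
      have h3 : x₁ * x₂ ∈ X₂ := by rw [← h]; exact Subgroup.mem_zpowers _
      have : x₁ = (x₁ * x₂) * x₂⁻¹ := by group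
      rw [this]; exact mul_mem h3 (inv_mem hx₂X)
  have hconjC : ∀ a ∈ Q, ∀ x ∈ Q, ∀ g : S, x * g = g * x →
      x * (a * g * a⁻¹) = (a * g * a⁻¹) * x := by
    intro a ha x hx g hg
    have h1 : x * a = a * x := hQcomm x hx a ha
    have h2 : x * a⁻¹ = a⁻¹ * x := hQcomm x hx a⁻¹ (inv_mem ha)
    calc x * (a * g * a⁻¹) = (x * a) * g * a⁻¹ := by simp only [mul_assoc]
      _ = a * (x * g) * a⁻¹ := by rw [h1]; simp only [mul_assoc]
      _ = a * g * (x * a⁻¹) := by rw [hg]; simp only [mul_assoc]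
      _ = a * g * a⁻¹ * x := by rw [h2]; simp only [mul_assoc]
  have hQnc : ¬ IsCyclic Q := by
    apply not_isCyclic_of_elemAb hQ
    rw [hQc]
    calc q = q ^ 1 := (pow_one q).symm
      _ < q ^ 2 := Nat.pow_lt_pow_right hq.one_lt (by norm_num)
  have hPp : IsPGroup p (P : Subgroup S) := P.isPGroup'
  have hQnorm : ∀ L : Subgroup S, L.Normal → Q ≤ Subgroup.normalizer (L : Set S) := by
    intro L hL
    rw [Subgroup.normalizer_eq_top_iff.2 hL]; exact le_top
  have hgen : ∀ L : Subgroup S, L ≤ (P : Subgroup S) → Q ≤ Subgroup.normalizer (L : Set S) →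
      L ≤ (L ⊓ Subgroup.centralizer ({x₁} : Set S)) ⊔
        (L ⊓ Subgroup.centralizer ({x₂} : Set S)) := by
    intro L hLP hQL
    have hcop : (Nat.card Q).Coprime (Nat.card L) := by
      obtain ⟨k, hk⟩ := IsPGroup.iff_card.1 (hPp.to_le hLP)
      rw [hQc, hk]
      exact Nat.Coprime.pow _ _ ((Nat.coprime_primes hq hp).2 (Ne.symm hpq))
    have h1 := coprime_generation Q L hQnc hQL hcop
    calc L = cgen Q L := h1.symm
      _ ≤ _ := by
        unfold cgen
        apply iSup₂_le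
        rintro a ⟨haQ, ha1⟩
        by_cases hbot : (P : Subgroup S) ⊓ Subgroup.centralizer ({a} : Set S) = ⊥
        · have : L ⊓ Subgroup.centralizer ({a} : Set S) ≤ ⊥ := by
            rw [← hbot]; exact inf_le_inf_right _ hLP
          exact this.trans bot_le
        · rcases honly' a haQ ha1 hbot with h | h
          · have : Subgroup.centralizer ({a} : Set S) = Subgroup.centralizer ({x₁} : Set S) := by
              rw [← centralizer_zpowers_eq a, h, hC₁]
            rw [this]; exact le_sup_left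
          · have : Subgroup.centralizer ({a} : Set S) = Subgroup.centralizer ({x₂} : Set S) := by
              rw [← centralizer_zpowers_eq a, h, hC₂]
            rw [this]; exact le_sup_right
  rw [hC₁, hC₂]
  set P₁ : Subgroup S := (P : Subgroup S) ⊓ Subgroup.centralizer ({x₁} : Set S) with hP₁
  set P₂ : Subgroup S := (P : Subgroup S) ⊓ Subgroup.centralizer ({x₂} : Set S) with hP₂
  have hP₁P : ∀ u ∈ P₁, u ∈ (P : Subgroup S) := fun u hu => (Subgroup.mem_inf.1 hu).1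
  have hP₂P : ∀ u ∈ P₂, u ∈ (P : Subgroup S) := fun u hu => (Subgroup.mem_inf.1 hu).1
  have hP₁c : ∀ u ∈ P₁, x₁ * u = u * x₁ :=
    fun u hu => (mem_cent_single _ _).1 (Subgroup.mem_inf.1 hu).2
  have hP₂c : ∀ u ∈ P₂, x₂ * u = u * x₂ :=
    fun u hu => (mem_cent_single _ _).1 (Subgroup.mem_inf.1 hu).2
  have fpf₁ : ∀ w ∈ P₂, ∃ v ∈ P₂, w = v⁻¹ * (x₁ * v * x₁⁻¹) := by
    apply exists_eq_inv_mul_conj P₂ x₁
    · intro v hv
      exact Subgroup.mem_inf.2 ⟨hPn.conj_mem v (hP₂P v hv) x₁,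
        (mem_cent_single _ _).2 (hconjC x₁ hx₁Q x₂ hx₂Q v (hP₂c v hv))⟩
    · intro v hv h
      exact hfix12 v (hP₂P v hv) h (hP₂c v hv)
  have fpf₂ : ∀ w ∈ P₁, ∃ v ∈ P₁, w = v⁻¹ * (x₂ * v * x₂⁻¹) := by
    apply exists_eq_inv_mul_conj P₁ x₂
    · intro v hv
      exact Subgroup.mem_inf.2 ⟨hPn.conj_mem v (hP₁P v hv) x₂,
        (mem_cent_single _ _).2 (hconjC x₂ hx₂Q x₁ hx₁Q v (hP₁c v hv))⟩
    · intro v hv h
      exact hfix12 v (hP₁P v hv) (hP₁c v hv) h
  have hK : ∀ L : Subgroup S, L.Normal → L ≤ (P : Subgroup S) →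
      (∀ u ∈ P₁, ∀ v ∈ P₂, ⁅u, v⁆ ∈ L) →
      ∀ u ∈ P₁, ∀ v ∈ P₂, ⁅u, v⁆ ∈ ⁅L, (P : Subgroup S)⁆ := by
    intro L hLn hLP hL
    haveI := hLn
    have hL'n : (⁅L, (P : Subgroup S)⁆).Normal := Subgroup.commutator_normal L (P : Subgroup S)
    have hL'L : ⁅L, (P : Subgroup S)⁆ ≤ L := Subgroup.commutator_le_left L (P : Subgroup S)
    have hLM : L ⊓ Subgroup.centralizer ({x₂} : Set S) ≤
        (L ⊓ Subgroup.centralizer ({x₂} : Set S)) ⊔ ⁅L, (P : Subgroup S)⁆ := le_sup_left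
    have hL'M : ⁅L, (P : Subgroup S)⁆ ≤
        (L ⊓ Subgroup.centralizer ({x₂} : Set S)) ⊔ ⁅L, (P : Subgroup S)⁆ := le_sup_right
    have hMn : ((L ⊓ Subgroup.centralizer ({x₂} : Set S)) ⊔ ⁅L, (P : Subgroup S)⁆).Normal := by
      have hconjM : ∀ g : S, (∀ m ∈ L ⊓ Subgroup.centralizer ({x₂} : Set S), g * m * g⁻¹ ∈
          (L ⊓ Subgroup.centralizer ({x₂} : Set S)) ⊔ ⁅L, (P : Subgroup S)⁆) →
          ∀ m ∈ (L ⊓ Subgroup.centralizer ({x₂} : Set S)) ⊔ ⁅L, (P : Subgroup S)⁆,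
            g * m * g⁻¹ ∈ (L ⊓ Subgroup.centralizer ({x₂} : Set S)) ⊔ ⁅L, (P : Subgroup S)⁆ := by
        intro g hg m hm
        have hle : (L ⊓ Subgroup.centralizer ({x₂} : Set S)) ⊔ ⁅L, (P : Subgroup S)⁆ ≤
            ((L ⊓ Subgroup.centralizer ({x₂} : Set S)) ⊔ ⁅L, (P : Subgroup S)⁆).comap
              (MulAut.conj g).toMonoidHom := by
          apply sup_le
          · intro m hm
            rw [Subgroup.mem_comap, MulEquiv.coe_toMonoidHom, MulAut.conj_apply]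
            exact hg m hm
          · intro m hm
            rw [Subgroup.mem_comap, MulEquiv.coe_toMonoidHom, MulAut.conj_apply]
            exact hL'M (hL'n.conj_mem m hm g)
        exact hle hm
      have hPM : (P : Subgroup S) ≤ Subgroup.normalizer
          (((L ⊓ Subgroup.centralizer ({x₂} : Set S)) ⊔ ⁅L, (P : Subgroup S)⁆ : Subgroup S) :
            Set S) := by
        intro g hg
        refine mem_normalizer_of_conj_le _ g (hconjM g (fun m hm => ?_))
        have h1 : g * m * g⁻¹ = ⁅g, m⁆ * m := by rw [commutatorElement_def]; group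
        rw [h1]
        refine mul_mem (hL'M ?_) (hLM hm)
        have h2 : ⁅m, g⁆ ∈ ⁅L, (P : Subgroup S)⁆ :=
          Subgroup.commutator_mem_commutator (Subgroup.mem_inf.1 hm).1 hg
        rw [← commutatorElement_inv]
        exact inv_mem h2
      have hQM : Q ≤ Subgroup.normalizer
          (((L ⊓ Subgroup.centralizer ({x₂} : Set S)) ⊔ ⁅L, (P : Subgroup S)⁆ : Subgroup S) :
            Set S) := by
        intro a ha
        refine mem_normalizer_of_conj_le _ a (hconjM a (fun m hm => ?_))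
        refine hLM (Subgroup.mem_inf.2 ⟨hLn.conj_mem m (Subgroup.mem_inf.1 hm).1 a, ?_⟩)
        rw [mem_cent_single]
        exact hconjC a ha x₂ hx₂Q m ((mem_cent_single _ _).1 (Subgroup.mem_inf.1 hm).2)
      have htop : Subgroup.normalizer
          (((L ⊓ Subgroup.centralizer ({x₂} : Set S)) ⊔ ⁅L, (P : Subgroup S)⁆ : Subgroup S) :
            Set S) = ⊤ := by
        rw [eq_top_iff, ← hS]; exact sup_le hPM hQM
      exact Subgroup.normalizer_eq_top_iff.1 htop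
    haveI := hL'n
    haveI := hMn
    -- Step A: the commutators lie in `M`
    have hA : ∀ u ∈ P₁, ∀ v ∈ P₂,
        ⁅u, v⁆ ∈ (L ⊓ Subgroup.centralizer ({x₂} : Set S)) ⊔ ⁅L, (P : Subgroup S)⁆ := by
      intro u hu w hw
      obtain ⟨v, hv, rfl⟩ := fpf₁ w hw
      refine (QuotientGroup.eq_one_iff _).1 ?_
      have hLc : L ≤ (Subgroup.centralizer ({QuotientGroup.mk'
          ((L ⊓ Subgroup.centralizer ({x₂} : Set S)) ⊔ ⁅L, (P : Subgroup S)⁆) x₁} :
            Set (S ⧸ ((L ⊓ Subgroup.centralizer ({x₂} : Set S)) ⊔ ⁅L, (P : Subgroup S)⁆)))).comap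
          (QuotientGroup.mk'
            ((L ⊓ Subgroup.centralizer ({x₂} : Set S)) ⊔ ⁅L, (P : Subgroup S)⁆)) := by
        refine (hgen L hLP (hQnorm L hLn)).trans (sup_le ?_ ?_)
        · intro c hc
          rw [Subgroup.mem_comap, mem_cent_single, ← map_mul, ← map_mul,
            (mem_cent_single _ _).1 (Subgroup.mem_inf.1 hc).2]
        · intro c hc
          have : QuotientGroup.mk'
              ((L ⊓ Subgroup.centralizer ({x₂} : Set S)) ⊔ ⁅L, (P : Subgroup S)⁆) c = 1 :=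
            (QuotientGroup.eq_one_iff c).2 (hLM hc)
          rw [Subgroup.mem_comap, this]
          exact one_mem _
      exact step_hom (QuotientGroup.mk'
          ((L ⊓ Subgroup.centralizer ({x₂} : Set S)) ⊔ ⁅L, (P : Subgroup S)⁆)) u v x₁
        (hP₁c u hu) ((mem_cent_single _ _).1 (Subgroup.mem_comap.1 (hLc (hL u hu v hv))))
    -- Step B: the commutators lie in `⁅L, P⁆`
    intro u' hu' v hv
    obtain ⟨u, hu, rfl⟩ := fpf₂ u' hu'
    rw [← commutatorElement_inv]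
    apply inv_mem
    refine (QuotientGroup.eq_one_iff _).1 ?_
    have hMc : (L ⊓ Subgroup.centralizer ({x₂} : Set S)) ⊔ ⁅L, (P : Subgroup S)⁆ ≤
        (Subgroup.centralizer ({QuotientGroup.mk' ⁅L, (P : Subgroup S)⁆ x₂} :
          Set (S ⧸ ⁅L, (P : Subgroup S)⁆))).comap (QuotientGroup.mk' ⁅L, (P : Subgroup S)⁆) := by
      apply sup_le
      · intro c hc
        rw [Subgroup.mem_comap, mem_cent_single, ← map_mul, ← map_mul,
          (mem_cent_single _ _).1 (Subgroup.mem_inf.1 hc).2]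
      · intro c hc
        have : QuotientGroup.mk' ⁅L, (P : Subgroup S)⁆ c = 1 := (QuotientGroup.eq_one_iff c).2 hc
        rw [Subgroup.mem_comap, this]
        exact one_mem _
    have h1 : Commute (QuotientGroup.mk' ⁅L, (P : Subgroup S)⁆ x₂)
        (QuotientGroup.mk' ⁅L, (P : Subgroup S)⁆ ⁅u, v⁆) :=
      (mem_cent_single _ _).1 (Subgroup.mem_comap.1 (hMc (hA u hu v hv)))
    have h2 : QuotientGroup.mk' ⁅L, (P : Subgroup S)⁆ x₂ *
        QuotientGroup.mk' ⁅L, (P : Subgroup S)⁆ ⁅v, u⁆ =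
        QuotientGroup.mk' ⁅L, (P : Subgroup S)⁆ ⁅v, u⁆ *
          QuotientGroup.mk' ⁅L, (P : Subgroup S)⁆ x₂ := by
      rw [← commutatorElement_inv, map_inv]
      exact h1.inv_right.eq
    exact step_hom (QuotientGroup.mk' ⁅L, (P : Subgroup S)⁆) v u x₂ (hP₂c v hv) h2
  have hser : ∀ n : ℕ, ((P : Subgroup S).lowerCentralSeries n).Normal ∧
      (P : Subgroup S).lowerCentralSeries n ≤ P ∧
      ∀ u ∈ P₁, ∀ v ∈ P₂, ⁅u, v⁆ ∈ (P : Subgroup S).lowerCentralSeries n := by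
    intro n
    induction n with
    | zero =>
      rw [Subgroup.lowerCentralSeries_zero]
      refine ⟨hPn, le_rfl, ?_⟩
      intro u hu v hv
      rw [commutatorElement_def]
      exact mul_mem (mul_mem (mul_mem (hP₁P u hu) (hP₂P v hv)) (inv_mem (hP₁P u hu)))
        (inv_mem (hP₂P v hv))
    | succ n ih =>
      obtain ⟨hn, hle, hc⟩ := ih
      haveI := hn
      rw [Subgroup.lowerCentralSeries_succ]
      refine ⟨?_, ?_, hK _ hn hle hc⟩
      · exact Subgroup.commutator_normal _ _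
      · exact (Subgroup.commutator_le_left _ _).trans hle
  obtain ⟨N, hN⟩ := (Subgroup.isNilpotent_iff_lowerCentralSeries (P : Subgroup S)).1 hPp.isNilpotent
  refine ⟨?_, ?_, ?_⟩
  · rw [eq_bot_iff, Subgroup.commutator_le]
    intro u hu v hv
    have := (hser N).2.2 u hu v hv
    rw [hN] at this; exact this
  · rw [eq_bot_iff]
    intro g hg
    obtain ⟨hg1, hg2⟩ := Subgroup.mem_inf.1 hg
    rw [Subgroup.mem_bot]
    exact hfix12 g (hP₁P g hg1) (hP₁c g hg1) (hP₂c g hg2)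
  · apply le_antisymm
    · exact sup_le inf_le_left inf_le_left
    · exact hgen (P : Subgroup S) le_rfl (hQnorm _ hPn)

end Cfsg.Agent.S1900
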