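import Cfsg.Statements.S1901
import Cfsg.Agent.Helper23.Stab

set_option autoImplicit false
open Cfsg

namespace Cfsg.Agent.S1901

open Cfsg.Agent.Helper23

variable {G : Type*} [Group G]

/-- A `p`-element normalizing a subgroup `D` that contains a Sylow `p`-subgroup lies in `D`. -/
theorem mem_of_normalizes_of_sylow_le [Finite G] {p : ℕ} [Fact p.Prime] {D : Subgroup G}
    (P : Sylow p G) (hPD : (P : Subgroup G) ≤ D) {r : G}
    (hr : r ∈ Subgroup.normalizer (D : Set G)) {j : ℕ} (hrj : r ^ p ^ j = 1) : r ∈ D := by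
  have hn : (D.subgroupOf (Subgroup.normalizer (D : Set G))).Normal :=
    Subgroup.normal_in_normalizer
  have h1 := Subgroup.pow_index_mem (D.subgroupOf (Subgroup.normalizer (D : Set G))) ⟨r, hr⟩
  have h2 : r ^ (D.relIndex (Subgroup.normalizer (D : Set G))) ∈ D := by
    rw [Subgroup.mem_subgroupOf] at h1
    exact h1
  have h3 : D.relIndex (Subgroup.normalizer (D : Set G)) ∣ D.index :=
    Subgroup.relIndex_dvd_index_of_le Subgroup.le_normalizer
  have h4 : D.index ∣ (P : Subgroup G).index := Subgroup.index_dvd_of_le hPD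
  have h5 : ¬ p ∣ D.relIndex (Subgroup.normalizer (D : Set G)) :=
    fun h => P.not_dvd_index (h.trans (h3.trans h4))
  have h6 : (D.relIndex (Subgroup.normalizer (D : Set G))).Coprime (p ^ j) :=
    Nat.Coprime.pow_right j ((Nat.Prime.coprime_iff_not_dvd Fact.out).mpr h5).symm
  exact mem_of_pow_mem_of_coprime h6 h2 (by rw [hrj]; exact D.one_mem)

/-- Stability with exponents: if `x v x⁻¹ v⁻¹ = w` commutes with `x`, `x ^ k = 1`, `w ^ m = 1`
and `k`, `m` are coprime, then `x` commutes with `v`. -/
theorem commute_of_stab_pow {x v : G}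
    (hc : x * (x * v * x⁻¹ * v⁻¹) = (x * v * x⁻¹ * v⁻¹) * x)
    {k m : ℕ} (hkm : k.Coprime m) (hxk : x ^ k = 1) (hwm : (x * v * x⁻¹ * v⁻¹) ^ m = 1) :
    x * v = v * x := by
  have h1 : x * v * x⁻¹ = (x * v * x⁻¹ * v⁻¹) * v := by group
  have h2 := conj_pow_eq_of_stab h1 hc k
  rw [hxk] at h2
  have h3 : (x * v * x⁻¹ * v⁻¹) ^ k = 1 := by
    have : (x * v * x⁻¹ * v⁻¹) ^ k * v = v := by rw [← h2]; simp
    exact mul_eq_right.mp this
  have h4 : x * v * x⁻¹ * v⁻¹ = 1 := by
    have : x * v * x⁻¹ * v⁻¹ ∈ (⊥ : Subgroup G) :=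
      mem_of_pow_mem_of_coprime hkm (by rw [h3]; exact Subgroup.one_mem _)
        (by rw [hwm]; exact Subgroup.one_mem _)
    exact Subgroup.mem_bot.mp this
  have h5 : x * v = (x * v * x⁻¹ * v⁻¹) * (v * x) := by group
  rw [h5, h4, one_mul]

/-- Key claim: in a `p`-solvable group, if a `p'`-subgroup `Q` normalizes a Sylow `p`-subgroup,
then every `p`-element normalizing `Q` centralizes `Q`. -/
theorem commute_of_normalizes [Finite G] {p : ℕ} [Fact p.Prime]
    (hG : Cfsg.IsPSolvable p G) (Q : Subgroup G) (hQ : ¬ p ∣ Nat.card Q) (P : Sylow p G)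
    (hQP : Q ≤ Subgroup.normalizer ((P : Subgroup G) : Set G))
    (r : G) (hr : r ∈ Subgroup.normalizer (Q : Set G)) (j : ℕ) (hrj : r ^ p ^ j = 1) :
    ∀ x ∈ Q, r * x = x * r := by
  obtain ⟨n, H, h0, hlast, hmono, hnorm, hfac⟩ := hG
  have hcop : (Nat.card Q).Coprime p := by
    rw [Nat.coprime_comm]
    exact (Nat.Prime.coprime_iff_not_dvd Fact.out).mpr hQ
  have hQpow : ∀ x ∈ Q, x ^ Nat.card Q = 1 := by
    intro x hx
    have : (⟨x, hx⟩ : Q) ^ Nat.card Q = 1 := pow_card_eq_one'
    exact congrArg Subtype.val this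
  have hrQ : ∀ x ∈ Q, r * x * r⁻¹ ∈ Q := fun x hx => (Subgroup.mem_normalizer_iff.mp hr x).mp hx
  have hrQ' : ∀ x ∈ Q, r⁻¹ * x * r ∈ Q := by
    intro x hx
    have := (Subgroup.mem_normalizer_iff.mp (Subgroup.inv_mem _ hr) x).mp hx
    rwa [inv_inv] at this
  have key : ∀ i : Fin (n + 1), ∀ x ∈ Q ⊓ H i, r * x = x * r := by
    intro i
    induction i using Fin.induction with
    | zero =>
      intro x hx
      rw [h0] at hx
      rw [Subgroup.mem_bot.mp hx.2]; simp
    | succ i ih =>
      set A := H i.castSucc with hA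
      set B := H i.succ with hB
      have hAB : A ≤ B := hmono (Fin.castSucc_lt_succ (i := i)).le
      have hAn : A.Normal := hnorm _
      have hBn : B.Normal := hnorm _
      rcases hfac i with ⟨m, hm⟩ | hc
      · -- p-power factor
        intro x hx
        apply ih
        refine ⟨hx.1, ?_⟩
        have h1 : x ^ A.relIndex B ∈ A := Subgroup.pow_relIndex_mem A hx.2
        rw [hm] at h1
        exact mem_of_pow_mem_of_coprime (Nat.Coprime.pow_right m hcop).symm h1
          (by rw [hQpow x hx.1]; exact A.one_mem)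
      · -- p'-factor
        have hPB : ∀ y ∈ (P : Subgroup G), y ∈ B → y ∈ A := by
          intro y hyP hyB
          obtain ⟨l, hl⟩ := P.2 ⟨y, hyP⟩
          have hl' : y ^ p ^ l = 1 := congrArg Subtype.val hl
          exact mem_of_pow_mem_of_coprime (Nat.Coprime.pow_right l hc)
            (Subgroup.pow_relIndex_mem A hyB) (by rw [hl']; exact A.one_mem)
        let D : Subgroup G :=
          { carrier := {g | ∀ y ∈ Q ⊓ B, g * y * g⁻¹ * y⁻¹ ∈ A}
            one_mem' := by
              intro y _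
              simp
            mul_mem' := by
              intro g h hg hh y hy
              have : g * h * y * (g * h)⁻¹ * y⁻¹ =
                  g * (h * y * h⁻¹ * y⁻¹) * g⁻¹ * (g * y * g⁻¹ * y⁻¹) := by group
              rw [this]
              exact A.mul_mem (hAn.conj_mem _ (hh y hy) g) (hg y hy)
            inv_mem' := by
              intro g hg y hy
              have : g⁻¹ * y * g⁻¹⁻¹ * y⁻¹ = g⁻¹ * (g * y * g⁻¹ * y⁻¹)⁻¹ * g⁻¹⁻¹ := by group
              rw [this]
              exact hAn.conj_mem _ (A.inv_mem (hg y hy)) g⁻¹ }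
        have hPD : (P : Subgroup G) ≤ D := by
          intro g hg y hy
          apply hPB
          · have h1 : y * g⁻¹ * y⁻¹ ∈ (P : Subgroup G) :=
              (Subgroup.mem_normalizer_iff.mp (hQP hy.1) g⁻¹).mp (Subgroup.inv_mem _ hg)
            have : g * y * g⁻¹ * y⁻¹ = g * (y * g⁻¹ * y⁻¹) := by group
            rw [this]
            exact Subgroup.mul_mem _ hg h1
          · exact B.mul_mem (hBn.conj_mem y hy.2 g) (B.inv_mem hy.2)
        have hrD : r ∈ Subgroup.normalizer (D : Set G) := by
          have hconj : ∀ s : G, (∀ x ∈ Q, s⁻¹ * x * s ∈ Q) → ∀ g ∈ D, s * g * s⁻¹ ∈ D := by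
            intro s hs g hg y hy
            have hy' : s⁻¹ * y * s ∈ Q ⊓ B := by
              refine ⟨hs y hy.1, ?_⟩
              have := hBn.conj_mem y hy.2 s⁻¹
              rwa [inv_inv] at this
            have : s * g * s⁻¹ * y * (s * g * s⁻¹)⁻¹ * y⁻¹ =
                s * (g * (s⁻¹ * y * s) * g⁻¹ * (s⁻¹ * y * s)⁻¹) * s⁻¹ := by group
            rw [this]
            exact hAn.conj_mem _ (hg _ hy') s
          rw [Subgroup.mem_normalizer_iff]
          intro g
          constructor
          · intro hg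
            exact hconj r hrQ' g hg
          · intro hg
            have h1 := hconj r⁻¹ (fun x hx => by rw [inv_inv]; exact hrQ x hx) _ hg
            have : r⁻¹ * (r * g * r⁻¹) * r⁻¹⁻¹ = g := by group
            rwa [this] at h1
        have hrDmem : r ∈ D := mem_of_normalizes_of_sylow_le P hPD hrD hrj
        intro x hx
        have hw : r * x * r⁻¹ * x⁻¹ ∈ Q ⊓ A :=
          ⟨Q.mul_mem (hrQ x hx.1) (Q.inv_mem hx.1), hrDmem x hx⟩
        exact commute_of_stab_pow (ih _ hw) (Nat.Coprime.pow_left j hcop.symm) hrj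
          (hQpow _ hw.1)
  have := key (Fin.last n)
  rw [hlast, inf_top_eq] at this
  exact this

/-- Let G be a finite p-solvable group and Q a subgroup of order prime to p such that p divides the index of C_G(Q) in N_G(Q). Then Q normalizes no Sylow p-subgroup of G. -/
theorem result {G : Type*} [Group G] [Finite G] {p : ℕ} [Fact p.Prime]
    (hG : Cfsg.IsPSolvable p G) (Q : Subgroup G) (hQ : ¬ p ∣ Nat.card Q)
    (hA : p ∣ (Subgroup.centralizer (Q : Set G)).relIndex (Subgroup.normalizer (Q : Set G)))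
    (P : Sylow p G) : ¬ Q ≤ Subgroup.normalizer ((P : Subgroup G) : Set G) := by
  intro hQP
  obtain ⟨R0⟩ : Nonempty (Sylow p (Subgroup.normalizer (Q : Set G))) := inferInstance
  have hle : (R0 : Subgroup (Subgroup.normalizer (Q : Set G))) ≤
      (Subgroup.centralizer (Q : Set G)).subgroupOf (Subgroup.normalizer (Q : Set G)) := by
    intro y hy
    rw [Subgroup.mem_subgroupOf, Subgroup.mem_centralizer_iff]
    obtain ⟨j, hj⟩ := R0.2 ⟨y, hy⟩
    have hj' : (y : G) ^ p ^ j = 1 := by
      have := congrArg Subtype.val (congrArg Subtype.val hj)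
      simpa using this
    intro x hx
    exact (commute_of_normalizes hG Q hQ P hQP (y : G) y.2 j hj' x hx).symm
  have h1 : ((Subgroup.centralizer (Q : Set G)).subgroupOf (Subgroup.normalizer (Q : Set G))).index ∣
      (R0 : Subgroup (Subgroup.normalizer (Q : Set G))).index := Subgroup.index_dvd_of_le hle
  exact R0.not_dvd_index (hA.trans h1)

end Cfsg.Agent.S1901
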