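-- S1905: subgroup containing the centralizers of its involutions, with core of odd order.
import Mathlib
import Cfsg.Statements.S1905
import Cfsg.Agent.Helper14.Conj
import Cfsg.Agent.Helper9.StrEmb

set_option autoImplicit false
open Cfsg

namespace Cfsg.Agent.S1905

theorem sq_of_order_two {S : Type*} [Group S] (x : S) (hx : orderOf x = 2) : x * x = 1 := by
  rw [← pow_two, ← hx]; exact pow_orderOf_eq_one x

theorem orderOf_conj2 {S : Type*} [Group S] (g x : S) : orderOf (g * x * g⁻¹) = orderOf x := by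
  rw [← MulAut.conj_apply, MulEquiv.orderOf_eq]

/-- Two involutions are conjugate by an involution of the dihedral group they generate, or
there is an involution commuting with both. -/
theorem inv_dich {S : Type*} [Group S] [Finite S] (x y : S) (hx : x * x = 1) (hy : y * y = 1) :
    (∃ s : S, s * s = 1 ∧ s * x * s⁻¹ = y) ∨
      (∃ z : S, orderOf z = 2 ∧ z * x = x * z ∧ z * y = y * z) := by
  have hxi : x⁻¹ = x := inv_eq_of_mul_eq_one_left hx
  have hyi : y⁻¹ = y := inv_eq_of_mul_eq_one_left hy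
  obtain ⟨r, hr⟩ : ∃ r, r = x * y := ⟨_, rfl⟩
  have hxr : x * r * x⁻¹ = r⁻¹ := by
    rw [hr, hxi, mul_inv_rev, hxi, hyi, ← mul_assoc, hx, one_mul]
  have hyr : y * r * y⁻¹ = r⁻¹ := by
    rw [hr, hyi, mul_inv_rev, hxi, hyi, mul_assoc, mul_assoc, hy, mul_one]
  have hxrk : ∀ k : ℕ, x * r ^ k * x⁻¹ = (r ^ k)⁻¹ := fun k => by rw [← conj_pow, hxr, inv_pow]
  have hyrk : ∀ k : ℕ, y * r ^ k * y⁻¹ = (r ^ k)⁻¹ := fun k => by rw [← conj_pow, hyr, inv_pow]
  have hrinv : r⁻¹ * x = y := by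
    rw [hr, mul_inv_rev, hxi, hyi, mul_assoc, hx, mul_one]
  rcases Nat.even_or_odd (orderOf r) with ⟨k, hk⟩ | ⟨k, hk⟩
  · right
    have hk0 : k ≠ 0 := by
      intro h
      have h0 := orderOf_pos r
      omega
    have hz2 : (r ^ k) ^ 2 = 1 := by
      rw [← pow_mul, mul_comm, two_mul, ← hk]; exact pow_orderOf_eq_one r
    have hz1 : r ^ k ≠ 1 := by
      intro h
      have h1 := orderOf_dvd_of_pow_eq_one h
      rw [hk] at h1
      have h2 := Nat.le_of_dvd (Nat.pos_of_ne_zero hk0) h1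
      omega
    have hzz : (r ^ k)⁻¹ = r ^ k := inv_eq_of_mul_eq_one_left (by rw [← pow_two]; exact hz2)
    refine ⟨r ^ k, orderOf_eq_prime hz2 hz1, ?_, ?_⟩
    · have h1 := hxrk k
      rw [hzz] at h1
      exact (mul_inv_eq_iff_eq_mul.1 h1).symm
    · have h1 := hyrk k
      rw [hzz] at h1
      exact (mul_inv_eq_iff_eq_mul.1 h1).symm
  · left
    have h1 : r ^ (2 * k + 1) = 1 := by rw [← hk]; exact pow_orderOf_eq_one r
    obtain ⟨a, ha⟩ : ∃ a, a = r ^ (k + 1) := ⟨_, rfl⟩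
    have hxa : x * a * x⁻¹ = a⁻¹ := by rw [ha]; exact hxrk (k + 1)
    have haa : a * a = r := by
      rw [ha, ← pow_add]
      have e : k + 1 + (k + 1) = (2 * k + 1) + 1 := by ring
      rw [e, pow_succ, h1, one_mul]
    refine ⟨x * a, ?_, ?_⟩
    · calc x * a * (x * a) = (x * a * x⁻¹) * a := by rw [hxi]; simp only [mul_assoc]
        _ = a⁻¹ * a := by rw [hxa]
        _ = 1 := inv_mul_cancel a
    · calc x * a * x * (x * a)⁻¹ = (x * a * x⁻¹) * a⁻¹ * x := by
            rw [mul_inv_rev, hxi]; simp only [mul_assoc]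
        _ = a⁻¹ * a⁻¹ * x := by rw [hxa]
        _ = (a * a)⁻¹ * x := by rw [mul_inv_rev]
        _ = r⁻¹ * x := by rw [haa]
        _ = y := hrinv

/-- Let M be a subgroup of even order of a finite group S such that M contains the centralizer in S of each of its involutions and the normal core of M in S has odd order. Then all involutions of S are conjugate. If moreover N_S(X) ≤ M for a Sylow 2-subgroup X of M and I is an involution in the centre of X, then all involutions of M are conjugate in M and M = M₀ C_M(I) for some subgroup M₀ of M of odd order. -/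
theorem result {S : Type*} [Group S] [Finite S] (M : Subgroup S) (hM : Even (Nat.card M))
    (hC : ∀ i ∈ M, orderOf i = 2 → Subgroup.centralizer ({i} : Set S) ≤ M) (hcore : Odd (Nat.card M.normalCore)) :
    (∀ x y : S, orderOf x = 2 → orderOf y = 2 → IsConj x y) ∧
      ∀ (X : Sylow 2 M) (I : M), I ∈ (Subgroup.center ↥(X : Subgroup ↥M)).map (X : Subgroup ↥M).subtype → orderOf I = 2 →
        Subgroup.normalizer (((X : Subgroup M).map M.subtype : Subgroup S) : Set S) ≤ M →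
        (∀ x y : M, orderOf x = 2 → orderOf y = 2 → IsConj x y) ∧
          ∃ M₀ : Subgroup M, Odd (Nat.card M₀) ∧
            ∀ m : M, ∃ a ∈ M₀, ∃ c ∈ Subgroup.centralizer ({I} : Set M), m = a * c := by
  haveI : Fact (Nat.Prime 2) := ⟨Nat.prime_two⟩
  have hcentmem : ∀ i z : S, z * i = i * z → z ∈ Subgroup.centralizer ({i} : Set S) := by
    intro i z h
    rw [Subgroup.mem_centralizer_iff]
    intro h' hh'
    rw [Set.mem_singleton_iff] at hh'
    rw [hh']; exact h.symm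
  have hnocore : ∀ i : S, orderOf i = 2 → ¬ (∀ b : S, b * i * b⁻¹ ∈ M) := by
    intro i hi hall
    have hmem : i ∈ M.normalCore := hall
    have h1 := orderOf_dvd_natCard (⟨i, hmem⟩ : ↥M.normalCore)
    rw [Subgroup.orderOf_mk, hi] at h1
    exact (Nat.not_even_iff_odd.2 hcore) (even_iff_two_dvd.2 h1)
  have hA : ∀ i ∈ M, orderOf i = 2 → ∀ j : S, orderOf j = 2 → ¬ IsConj i j → j ∈ M := by
    intro i hiM hi j hj hnc
    rcases inv_dich i j (sq_of_order_two i hi) (sq_of_order_two j hj) with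
      ⟨s, -, hs⟩ | ⟨z, hz, hzi, hzj⟩
    · exact absurd (isConj_iff.2 ⟨s, hs⟩) hnc
    · have hzM : z ∈ M := hC i hiM hi (hcentmem i z hzi)
      exact hC z hzM hz (hcentmem z j hzj.symm)
  obtain ⟨i₀, hi₀⟩ := exists_prime_orderOf_dvd_card' 2 (even_iff_two_dvd.1 hM)
  have hi₀' : orderOf (i₀ : S) = 2 := by rw [Subgroup.orderOf_coe]; exact hi₀
  have hall : ∀ j : S, orderOf j = 2 → IsConj (i₀ : S) j := by
    intro j hj
    by_contra hnc
    have hjM : j ∈ M := hA _ i₀.2 hi₀' j hj hnc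
    apply hnocore (i₀ : S) hi₀'
    intro b
    apply hA j hjM hj _ (by rw [orderOf_conj2]; exact hi₀')
    intro hcj
    apply hnc
    have h1 : IsConj (i₀ : S) (b * (i₀ : S) * b⁻¹) := isConj_iff.2 ⟨b, rfl⟩
    exact h1.trans hcj.symm
  have hpart1 : ∀ x y : S, orderOf x = 2 → orderOf y = 2 → IsConj x y :=
    fun x y hx hy => (hall x hx).symm.trans (hall y hy)
  refine ⟨hpart1, ?_⟩
  intro X I hI hI2 hN
  obtain ⟨ζ, hζ, hζI⟩ := hI
  have hI'2 : orderOf (I : S) = 2 := by rw [Subgroup.orderOf_coe]; exact hI2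
  have hXI : ∀ q ∈ (X : Subgroup ↥M).map M.subtype, q * (I : S) = (I : S) * q := by
    rintro _ ⟨q₁, hq₁, rfl⟩
    have h1 := Subgroup.mem_center_iff.1 hζ ⟨q₁, hq₁⟩
    have h2 := congrArg (fun z : ↥(X : Subgroup ↥M) => ((z : ↥M) : S)) h1
    rw [← hζI]
    exact h2
  have hR : ∀ u ∈ M, orderOf u = 2 → ∃ m ∈ M, m * (I : S) * m⁻¹ = u := by
    intro u hu hu2
    obtain ⟨s, hs⟩ := isConj_iff.1 (hpart1 (I : S) u hI'2 hu2)
    refine ⟨s, ?_, hs⟩
    have hY : ((X : Subgroup ↥M).map M.subtype).map (MulAut.conj s).toMonoidHom ≤ M := by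
      refine le_trans ?_ (hC u hu hu2)
      rintro _ ⟨q, hq, rfl⟩
      apply hcentmem
      rw [MulEquiv.coe_toMonoidHom, MulAut.conj_apply, ← hs]
      have h1 := hXI q hq
      calc s * q * s⁻¹ * (s * (I : S) * s⁻¹) = s * (q * (I : S)) * s⁻¹ := by group
        _ = s * ((I : S) * q) * s⁻¹ := by rw [h1]
        _ = s * (I : S) * s⁻¹ * (s * q * s⁻¹) := by group
    obtain ⟨T, hT⟩ := Cfsg.Agent.Helper14.exists_sylow_sub_ge M _ hY
      (Cfsg.Agent.Helper14.isPGroup_map_conj _ s (Cfsg.Agent.Helper14.sylow_sub_isPGroup M X))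
    obtain ⟨m, hm, hmX⟩ := Cfsg.Agent.Helper14.sylow_sub_conj M T X
    have hle : ((X : Subgroup ↥M).map M.subtype).map (MulAut.conj (m * s)).toMonoidHom ≤
        (X : Subgroup ↥M).map M.subtype := by
      calc ((X : Subgroup ↥M).map M.subtype).map (MulAut.conj (m * s)).toMonoidHom
          = (((X : Subgroup ↥M).map M.subtype).map (MulAut.conj s).toMonoidHom).map
              (MulAut.conj m).toMonoidHom := (Cfsg.Agent.Helper14.map_conj_map_conj _ s m).symm
        _ ≤ ((T : Subgroup ↥M).map M.subtype).map (MulAut.conj m).toMonoidHom :=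
            Subgroup.map_mono hT
        _ = (X : Subgroup ↥M).map M.subtype := hmX.symm
    have hms : m * s ∈ Subgroup.normalizer
        ((((X : Subgroup ↥M).map M.subtype : Subgroup S)) : Set S) := by
      apply Cfsg.Agent.Helper9.mem_normalizer_of_conj_le
      intro q hq
      exact hle (Cfsg.Agent.Helper14.conj_mem_map_conj _ (m * s) hq)
    have h2 : m⁻¹ * (m * s) ∈ M := M.mul_mem (M.inv_mem hm) (hN hms)
    rwa [inv_mul_cancel_left] at h2
  have hFC : ∀ u ∈ M, orderOf u = 2 → ∀ s : S, s * u * s⁻¹ ∈ M → s ∈ M := by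
    intro u hu hu2 s hsu
    obtain ⟨m₁, hm₁, h₁⟩ := hR u hu hu2
    obtain ⟨m₂, hm₂, h₂⟩ := hR (s * u * s⁻¹) hsu (by rw [orderOf_conj2]; exact hu2)
    have hc : m₂⁻¹ * s * m₁ ∈ M := by
      apply hC (I : S) I.2 hI'2
      apply hcentmem
      calc m₂⁻¹ * s * m₁ * (I : S)
          = m₂⁻¹ * (s * (m₁ * (I : S) * m₁⁻¹) * s⁻¹) * (s * m₁) := by group
        _ = m₂⁻¹ * (m₂ * (I : S) * m₂⁻¹) * (s * m₁) := by rw [h₁, h₂]
        _ = (I : S) * (m₂⁻¹ * s * m₁) := by group
    have h3 : m₂ * (m₂⁻¹ * s * m₁) * m₁⁻¹ ∈ M := M.mul_mem (M.mul_mem hm₂ hc) (M.inv_mem hm₁)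
    have e : m₂ * (m₂⁻¹ * s * m₁) * m₁⁻¹ = s := by group
    rwa [e] at h3
  refine ⟨?_, ?_⟩
  · intro x y hx hy
    obtain ⟨m₁, hm₁, h₁⟩ := hR (x : S) x.2 (by rw [Subgroup.orderOf_coe]; exact hx)
    obtain ⟨m₂, hm₂, h₂⟩ := hR (y : S) y.2 (by rw [Subgroup.orderOf_coe]; exact hy)
    refine isConj_iff.2 ⟨⟨m₂ * m₁⁻¹, M.mul_mem hm₂ (M.inv_mem hm₁)⟩, Subtype.ext ?_⟩
    show m₂ * m₁⁻¹ * (x : S) * (m₂ * m₁⁻¹)⁻¹ = (y : S)
    rw [← h₁, ← h₂]; group
  · obtain ⟨t, ht2, htM⟩ : ∃ t : S, orderOf t = 2 ∧ t ∉ M := by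
      by_contra hcon
      push Not at hcon
      apply hnocore (I : S) hI'2
      intro b
      exact hcon _ (by rw [orderOf_conj2]; exact hI'2)
    have htt : t * t = 1 := sq_of_order_two t ht2
    have hti : t⁻¹ = t := inv_eq_of_mul_eq_one_left htt
    have hDno : ∀ u ∈ M ⊓ M.map (MulAut.conj t).toMonoidHom, orderOf u ≠ 2 := by
      intro u hu hu2
      have huM := (Subgroup.mem_inf.1 hu).1
      have hut := (Subgroup.mem_inf.1 hu).2
      rw [Cfsg.Agent.Helper14.mem_map_conj] at hut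
      have h1 : t⁻¹ ∈ M := hFC u huM hu2 t⁻¹ (by rw [inv_inv]; exact hut)
      exact htM (by rw [← hti]; exact h1)
    have hDodd : Odd (Nat.card ↥(M ⊓ M.map (MulAut.conj t).toMonoidHom)) := by
      rw [← Nat.not_even_iff_odd]
      intro hev
      obtain ⟨u, hu⟩ := exists_prime_orderOf_dvd_card' 2 (even_iff_two_dvd.1 hev)
      exact hDno (u : S) u.2 (by rw [Subgroup.orderOf_coe]; exact hu)
    refine ⟨(M ⊓ M.map (MulAut.conj t).toMonoidHom).subgroupOf M, ?_, ?_⟩
    · rw [Nat.card_congr (Subgroup.subgroupOfEquivOfLe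
        (inf_le_left : M ⊓ M.map (MulAut.conj t).toMonoidHom ≤ M)).toEquiv]
      exact hDodd
    · intro m
      have hu2 : orderOf ((m : S) * (I : S) * (m : S)⁻¹) = 2 := by
        rw [orderOf_conj2]; exact hI'2
      have huM : (m : S) * (I : S) * (m : S)⁻¹ ∈ M :=
        M.mul_mem (M.mul_mem m.2 I.2) (M.inv_mem m.2)
      have hw2 : orderOf (t * (I : S) * t⁻¹) = 2 := by rw [orderOf_conj2]; exact hI'2
      rcases inv_dich _ _ (sq_of_order_two _ hu2) (sq_of_order_two _ hw2) with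
        ⟨s, hss, hs⟩ | ⟨z, hz, hzu, hzw⟩
      · have hsi : s⁻¹ = s := inv_eq_of_mul_eq_one_left hss
        have hdu : (t⁻¹ * s) * ((m : S) * (I : S) * (m : S)⁻¹) * (t⁻¹ * s)⁻¹ = (I : S) := by
          calc (t⁻¹ * s) * ((m : S) * (I : S) * (m : S)⁻¹) * (t⁻¹ * s)⁻¹
              = t⁻¹ * (s * ((m : S) * (I : S) * (m : S)⁻¹) * s⁻¹) * t := by group
            _ = t⁻¹ * (t * (I : S) * t⁻¹) * t := by rw [hs]
            _ = (I : S) := by group
        have hdM : t⁻¹ * s ∈ M := hFC _ huM hu2 (t⁻¹ * s) (by rw [hdu]; exact I.2)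
        have hdt : t⁻¹ * s ∈ M.map (MulAut.conj t).toMonoidHom := by
          rw [Cfsg.Agent.Helper14.mem_map_conj]
          have e : t⁻¹ * (t⁻¹ * s) * t = (t⁻¹ * s)⁻¹ := by
            rw [mul_inv_rev, inv_inv, hti, hsi, ← mul_assoc, htt, one_mul]
          rw [e]; exact M.inv_mem hdM
        have hcomm : (I : S) * (t⁻¹ * s * (m : S)) = (t⁻¹ * s * (m : S)) * (I : S) := by
          calc (I : S) * (t⁻¹ * s * (m : S))
              = ((t⁻¹ * s) * ((m : S) * (I : S) * (m : S)⁻¹) * (t⁻¹ * s)⁻¹) *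
                  (t⁻¹ * s * (m : S)) := by rw [hdu]
            _ = (t⁻¹ * s * (m : S)) * (I : S) := by group
        refine ⟨⟨(t⁻¹ * s)⁻¹, M.inv_mem hdM⟩, ?_, ⟨t⁻¹ * s, hdM⟩ * m, ?_, ?_⟩
        · rw [Subgroup.mem_subgroupOf]
          exact Subgroup.inv_mem _ (Subgroup.mem_inf.2 ⟨hdM, hdt⟩)
        · rw [Subgroup.mem_centralizer_iff]
          intro h hh
          rw [Set.mem_singleton_iff] at hh
          rw [hh]
          apply Subtype.ext
          exact hcomm
        · apply Subtype.ext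
          show (m : S) = (t⁻¹ * s)⁻¹ * (t⁻¹ * s * (m : S))
          group
      · exfalso
        have hzM : z ∈ M := hC _ huM hu2 (hcentmem _ z hzu)
        have hzt : z ∈ M.map (MulAut.conj t).toMonoidHom := by
          rw [Cfsg.Agent.Helper14.mem_map_conj]
          apply hC (I : S) I.2 hI'2
          apply hcentmem
          calc t⁻¹ * z * t * (I : S) = t⁻¹ * (z * (t * (I : S) * t⁻¹)) * t := by group
            _ = t⁻¹ * ((t * (I : S) * t⁻¹) * z) * t := by rw [hzw]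
            _ = (I : S) * (t⁻¹ * z * t) := by group
        exact hDno z (Subgroup.mem_inf.2 ⟨hzM, hzt⟩) hz

end Cfsg.Agent.S1905
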