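import Cfsg.Statements.S1939
import Mathlib
import Cfsg.Agent.Helper10.SylowAux

set_option autoImplicit false
open Cfsg

namespace Cfsg.Agent.S1939

open scoped Pointwise

/-- Let S be a Sylow p-subgroup of the finite group G and a an element of S that is the only G-conjugate of a lying in S. Then every power of a has the same property: for every n, the only G-conjugate of a^n lying in S is a^n. -/
theorem result {G : Type*} [Group G] [Finite G] {p : ℕ} [Fact p.Prime] (S : Sylow p G) (a : G)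
    (haS : a ∈ (S : Subgroup G)) (hwc : ∀ g : G, g * a * g⁻¹ ∈ (S : Subgroup G) → g * a * g⁻¹ = a) (n : ℕ) :
    ∀ g : G, g * a ^ n * g⁻¹ ∈ (S : Subgroup G) → g * a ^ n * g⁻¹ = a ^ n := by
  intro g hg
  have hcen : ∀ s ∈ (S : Subgroup G), s * a * s⁻¹ = a := fun s hs =>
    hwc s ((S : Subgroup G).mul_mem ((S : Subgroup G).mul_mem hs haS) ((S : Subgroup G).inv_mem hs))
  obtain ⟨b, hb⟩ : ∃ b, b = g * a ^ n * g⁻¹ := ⟨_, rfl⟩
  rw [← hb] at hg ⊢
  have hTC : ((g • S : Sylow p G) : Subgroup G) ≤ Subgroup.centralizer ({b} : Set G) := by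
    intro t ht
    rw [Sylow.coe_subgroup_smul, Subgroup.mem_smul_pointwise_iff_exists] at ht
    obtain ⟨s, hs, rfl⟩ := ht
    rw [Subgroup.mem_centralizer_iff]
    intro y hy
    rw [Set.mem_singleton_iff] at hy
    rw [hy]
    have h1 : s * a ^ n * s⁻¹ = a ^ n := by rw [← conj_pow, hcen s hs]
    simp only [MulAut.smul_def, MulAut.conj_apply, hb]
    calc g * a ^ n * g⁻¹ * (g * s * g⁻¹) = g * (a ^ n * s) * g⁻¹ := by group
      _ = g * (s * a ^ n * s⁻¹ * s) * g⁻¹ := by rw [h1]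
      _ = g * s * g⁻¹ * (g * a ^ n * g⁻¹) := by group
  have haC : a ∈ Subgroup.centralizer ({b} : Set G) := by
    rw [Subgroup.mem_centralizer_iff]
    intro y hy
    rw [Set.mem_singleton_iff] at hy
    rw [hy]
    have := hcen b hg
    calc b * a = (b * a * b⁻¹) * b := by group
      _ = a * b := by rw [this]
  obtain ⟨h, hhC, hh⟩ := Cfsg.Agent.Helper10.exists_conj_mem_sylow_of_le
    (Subgroup.centralizer ({b} : Set G)) (g • S) hTC (Subgroup.zpowers a)
    (S.isPGroup'.to_le (by rw [Subgroup.zpowers_le]; exact haS))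
    (by rw [Subgroup.zpowers_le]; exact haC)
  have h1 := hh a (Subgroup.mem_zpowers a)
  rw [Sylow.coe_subgroup_smul, Subgroup.mem_smul_pointwise_iff_exists] at h1
  obtain ⟨s, hs, hse⟩ := h1
  have hse' : g * s * g⁻¹ = h⁻¹ * a * h := by simpa [MulAut.smul_def] using hse
  have h2 : (h * g)⁻¹ * a * ((h * g)⁻¹)⁻¹ = s := by
    calc (h * g)⁻¹ * a * ((h * g)⁻¹)⁻¹ = g⁻¹ * (h⁻¹ * a * h) * g := by group
      _ = g⁻¹ * (g * s * g⁻¹) * g := by rw [hse']
      _ = s := by group
  have h3 : (h * g)⁻¹ * a * ((h * g)⁻¹)⁻¹ = a := hwc _ (by rw [h2]; exact hs)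
  have h4 : (h * g) * a ^ n * (h * g)⁻¹ = a ^ n := by
    have : (h * g) * a * (h * g)⁻¹ = a := by
      calc (h * g) * a * (h * g)⁻¹
          = (h * g) * ((h * g)⁻¹ * a * ((h * g)⁻¹)⁻¹) * (h * g)⁻¹ := by rw [h3]
        _ = a := by group
    rw [← conj_pow, this]
  have h5 : h * b * h⁻¹ = b := by
    rw [Subgroup.mem_centralizer_iff] at hhC
    have := hhC b rfl
    calc h * b * h⁻¹ = (b * h) * h⁻¹ := by rw [this]
      _ = b := by group
  calc b = h * b * h⁻¹ := h5.symm
    _ = (h * g) * a ^ n * (h * g)⁻¹ := by rw [hb]; group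
    _ = a ^ n := h4

end Cfsg.Agent.S1939
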