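import Cfsg.Statements.S1940
import Mathlib

set_option autoImplicit false
open Cfsg

namespace Cfsg.Agent.S1940

/-- Let the finite group L act by automorphisms on the finite abelian group M, and let N be an L-invariant subgroup of M such that M/N is a p-group on which L acts trivially (every l • m lies in the coset mN). If every element of M is a product of an element of N and an element fixed by a Sylow p-subgroup T of L, then every element of M is a product of an element of N and an element fixed by all of L. -/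
theorem result {L : Type*} [Group L] [Finite L] {M : Type*} [CommGroup M] [Finite M] [MulDistribMulAction L M]
    {p : ℕ} [Fact p.Prime] (N : Subgroup M) (hN : ∀ (l : L) (m : M), m ∈ N → l • m ∈ N)
    (hquot : IsPGroup p (M ⧸ N)) (htriv : ∀ (l : L) (m : M), (l • m) * m⁻¹ ∈ N) (T : Sylow p L)
    (hT : ∀ m : M, ∃ n ∈ N, ∃ c : M, (∀ t ∈ (T : Subgroup L), t • c = c) ∧ m = n * c) :
    ∀ m : M, ∃ n ∈ N, ∃ c : M, (∀ l : L, l • c = c) ∧ m = n * c := by
  classical
  intro m
  letI : Fintype (L ⧸ (T : Subgroup L)) := Fintype.ofFinite _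
  have hk : ¬ p ∣ (T : Subgroup L).index := T.not_dvd_index
  have hk' : p.Coprime (T : Subgroup L).index :=
    (Nat.Prime.coprime_iff_not_dvd (Fact.out : p.Prime)).2 hk
  -- a k-th root of the class of m in the p-group M ⧸ N
  obtain ⟨y, hy⟩ := (hquot.powEquiv hk').surjective (QuotientGroup.mk m : M ⧸ N)
  rw [IsPGroup.powEquiv_apply] at hy
  obtain ⟨m₁, rfl⟩ := QuotientGroup.mk_surjective y
  obtain ⟨n₁, hn₁, c₁, hc₁, hm₁⟩ := hT m₁
  -- the norm of c₁ over the cosets of T
  have hmod : ∀ (l : L) (x : M), (QuotientGroup.mk (l • x) : M ⧸ N) = QuotientGroup.mk x := by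
    intro l x
    rw [QuotientGroup.eq]
    have := htriv l x
    have h2 : (l • x)⁻¹ * x = ((l • x) * x⁻¹)⁻¹ := by rw [mul_inv_rev, inv_inv, mul_comm]
    rw [h2]; exact N.inv_mem this
  refine ⟨m * (∏ q : L ⧸ (T : Subgroup L), q.out • c₁)⁻¹, ?_, ∏ q : L ⧸ (T : Subgroup L), q.out • c₁, ?_, by group⟩
  · -- congruence modulo N
    have h1 : (QuotientGroup.mk (∏ q : L ⧸ (T : Subgroup L), q.out • c₁) : M ⧸ N) = QuotientGroup.mk m := by
      rw [← QuotientGroup.mk'_apply, map_prod]
      simp only [QuotientGroup.mk'_apply, hmod]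
      rw [Finset.prod_const, Finset.card_univ, ← Nat.card_eq_fintype_card, ← Subgroup.index_eq_card]
      rw [← hy, hm₁]
      congr 1
      rw [QuotientGroup.mk_mul, (QuotientGroup.eq_one_iff n₁).2 hn₁, one_mul]
    have h2 := (QuotientGroup.eq.1 h1)
    have h3 : m * (∏ q : L ⧸ (T : Subgroup L), q.out • c₁)⁻¹ = (∏ q : L ⧸ (T : Subgroup L), q.out • c₁)⁻¹ * m := mul_comm _ _
    rw [h3]; exact h2
  · intro l
    rw [Finset.smul_prod']
    have hstep : ∀ q : L ⧸ (T : Subgroup L), l • (q.out • c₁) = (l • q).out • c₁ := by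
      intro q
      rw [smul_smul]
      have hq : (l • q) = QuotientGroup.mk (l * q.out) := by
        conv_lhs => rw [← QuotientGroup.out_eq' q]
        rfl
      obtain ⟨t, ht⟩ := QuotientGroup.mk_out_eq_mul (T : Subgroup L) (l * q.out)
      rw [hq, ht, mul_smul (l * q.out) (t : L) c₁, hc₁ t t.2]
    simp only [hstep]
    exact Fintype.prod_equiv (MulAction.toPerm l) _ _ (fun q => rfl)

end Cfsg.Agent.S1940
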