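import Cfsg.Statements.S1949
import Mathlib
import Cfsg.Agent.Helper25.CritD

set_option autoImplicit false
open Cfsg

namespace Cfsg.Agent.S1949

/-- Let P be a finite p-group and G a group of automorphisms of P containing the inner automorphisms. Then there is a G-invariant subgroup D of P, contained in the subgroup generated by the elements x⁻¹α(x) with x in P and α in O^p(G), of exponent dividing p when p is odd and dividing 4 when p = 2, with [D, P] ≤ Z(D), such that every automorphism in G of order prime to p that fixes D elementwise is the identity; moreover every maximal abelian subgroup A of D is normal in P and every automorphism in G fixing A elementwise has p-power order. -/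
theorem result {P : Type*} [Group P] [Finite P] {p : ℕ} [Fact p.Prime] (hP : IsPGroup p P)
    (G : Subgroup (MulAut P)) (hG : Cfsg.Inn P ≤ G) :
    ∃ D : Subgroup P,
      (∀ α ∈ G, D.map α.toMonoidHom = D) ∧
      D ≤ Subgroup.closure {y : P | ∃ α ∈ Cfsg.pResidual p ↥G, ∃ x : P, y = x⁻¹ * (α : MulAut P) x} ∧
      (∀ d ∈ D, d ^ p = 1 ∨ (p = 2 ∧ d ^ 4 = 1)) ∧
      ⁅D, (⊤ : Subgroup P)⁆ ≤ D ⊓ Subgroup.centralizer (D : Set P) ∧
      (∀ α ∈ G, (orderOf α).Coprime p → (∀ d ∈ D, α d = d) → α = 1) ∧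
      ∀ A : Subgroup P, A ≤ D → IsMulCommutative ↥A →
        (∀ B : Subgroup P, A ≤ B → B ≤ D → IsMulCommutative ↥B → B = A) →
        A.Normal ∧ ∀ α ∈ G, (∀ a ∈ A, α a = a) → ∃ k : ℕ, orderOf α = p ^ k := by
  obtain ⟨D, hDinv, hDle, hDexp, hD4, hD5, hD6⟩ := Cfsg.Agent.Helper25.bgh_subgroup hP G hG
  have hpr : p.Prime := Fact.out
  refine ⟨D, ?_, hDle, ?_, ?_, hD5, ?_⟩
  · intro α hα
    apply le_antisymm
    · rintro _ ⟨d, hd, rfl⟩
      exact hDinv α hα d hd
    · intro d hd
      refine ⟨α⁻¹ d, hDinv α⁻¹ (G.inv_mem hα) d hd, ?_⟩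
      show α (α⁻¹ d) = d
      exact MulAut.apply_inv_self _ α d
  · intro d hd
    have h := hDexp d hd
    by_cases hp2 : p = 2
    · right
      refine ⟨hp2, ?_⟩
      rwa [Cfsg.Agent.Helper25.smallExp, if_pos hp2] at h
    · left
      rwa [Cfsg.Agent.Helper25.smallExp, if_neg hp2] at h
  · rw [Subgroup.commutator_le]
    intro d hd g _
    rw [commutatorElement_def]
    obtain ⟨h4, h5⟩ := hD4 d hd g
    refine Subgroup.mem_inf.2 ⟨h4, ?_⟩
    rw [Subgroup.mem_centralizer_iff]
    intro d' hd'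
    exact h5 d' hd'
  · intro A hAD hAc hAmax
    have hAab : ∀ a ∈ A, ∀ b ∈ A, a * b = b * a := by
      intro a ha b hb
      have h := hAc.is_comm.comm (⟨a, ha⟩ : A) ⟨b, hb⟩
      exact congrArg Subtype.val h
    have hself : ∀ d ∈ D, (∀ a ∈ A, d * a = a * d) → d ∈ A := by
      intro d hd hda
      have hk : ∀ x ∈ ((A : Set P) ∪ {d}), ∀ y ∈ ((A : Set P) ∪ {d}), x * y = y * x := by
        rintro x (hx | hx) y (hy | hy)
        · exact hAab x hx y hy
        · rw [Set.mem_singleton_iff] at hy; rw [hy]; exact (hda x hx).symm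
        · rw [Set.mem_singleton_iff] at hx; rw [hx]; exact hda y hy
        · rw [Set.mem_singleton_iff] at hx hy; rw [hx, hy]
      have hB := Cfsg.Agent.Helper25.comm_of_closure hk
      have hBD : Subgroup.closure ((A : Set P) ∪ {d}) ≤ D := by
        rw [Subgroup.closure_le]
        rintro x (hx | hx)
        · exact hAD hx
        · rw [Set.mem_singleton_iff] at hx; rw [hx]; exact hd
      have hAB : A ≤ Subgroup.closure ((A : Set P) ∪ {d}) := fun x hx =>
        Subgroup.subset_closure (Or.inl hx)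
      have h := hAmax _ hAB hBD ⟨⟨fun x y => Subtype.ext (hB x x.2 y y.2)⟩⟩
      rw [← h]
      exact Subgroup.subset_closure (Or.inr rfl)
    obtain ⟨h6a, h6b⟩ := hD6 A hAD hAab hself
    refine ⟨⟨fun a ha q => h6a a ha q⟩, ?_⟩
    intro α hα hfix
    have hfin : Finite (MulAut P) := Finite.of_injective (fun f : MulAut P => (f : P → P))
      (fun f g h => MulEquiv.ext (congrFun h))
    have hN : 0 < orderOf α := orderOf_pos α
    obtain ⟨k, n, hn, hkn⟩ := Nat.exists_eq_pow_mul_and_not_dvd hN.ne' p hpr.ne_one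
    have hcop : (orderOf (α ^ (p ^ k))).Coprime p := by
      have h4 : (α ^ (p ^ k)) ^ n = 1 := by rw [← pow_mul, ← hkn, pow_orderOf_eq_one]
      have h5 : orderOf (α ^ (p ^ k)) ∣ n := orderOf_dvd_of_pow_eq_one h4
      have h6 : n.Coprime p := (Nat.Coprime.symm ((Nat.Prime.coprime_iff_not_dvd hpr).2 hn))
      exact Nat.Coprime.coprime_dvd_left h5 h6
    have hfixA : ∀ a ∈ A, (α ^ (p ^ k)) a = a := by
      intro a ha
      have : ∀ j : ℕ, (α ^ j) a = a := by
        intro j
        induction j with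
        | zero => simp
        | succ j ih => rw [pow_succ, MulAut.mul_apply, hfix a ha, ih]
      exact this _
    have h1 := h6b (α ^ (p ^ k)) (G.pow_mem hα _) hcop hfixA
    have h2 : orderOf α ∣ p ^ k := orderOf_dvd_of_pow_eq_one h1
    obtain ⟨j, -, hj⟩ := (Nat.dvd_prime_pow hpr).1 h2
    exact ⟨j, hj⟩

end Cfsg.Agent.S1949
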