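import Cfsg.Statements.S1952
import Mathlib

set_option autoImplicit false
open Cfsg

namespace Cfsg.Agent.S1952

theorem hyper {M : Type*} [CommGroup M] [Finite M] {p : ℕ} [Fact p.Prime]
    (hexp : ∀ a : M, a ^ p = 1) (n : M) (hn : n ≠ 1) :
    ∃ U : Subgroup M, n ∉ U ∧ U.index = p := by
  classical
  have hp := (Fact.out : p.Prime)
  haveI : Nonempty {U : Subgroup M // n ∉ U} :=
    ⟨⟨⊥, fun h => hn (Subgroup.mem_bot.mp h)⟩⟩
  obtain ⟨⟨U, hU⟩, hmax⟩ := Finite.exists_max
    (fun U : {U : Subgroup M // n ∉ U} => Nat.card (U.1 : Subgroup M))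
  refine ⟨U, hU, ?_⟩
  have hq1 : (QuotientGroup.mk n : M ⧸ U) ≠ 1 := by
    intro h; exact hU ((QuotientGroup.eq_one_iff n).mp h)
  have hqp : (QuotientGroup.mk n : M ⧸ U) ^ p = 1 := by
    rw [← QuotientGroup.mk_pow, hexp]; rfl
  have hoq : orderOf (QuotientGroup.mk n : M ⧸ U) = p := orderOf_eq_prime hqp hq1
  have hall : ∀ b : M ⧸ U, b ∈ Subgroup.zpowers (QuotientGroup.mk n : M ⧸ U) := by
    intro b
    induction b using QuotientGroup.induction_on with
    | H a =>
      by_cases ha : a ∈ U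
      · rw [(QuotientGroup.eq_one_iff a).mpr ha]; exact one_mem _
      · have hb1 : (QuotientGroup.mk a : M ⧸ U) ≠ 1 := by
          intro h; exact ha ((QuotientGroup.eq_one_iff a).mp h)
        have hbp : (QuotientGroup.mk a : M ⧸ U) ^ p = 1 := by
          rw [← QuotientGroup.mk_pow, hexp]; rfl
        have hob : orderOf (QuotientGroup.mk a : M ⧸ U) = p := orderOf_eq_prime hbp hb1
        have hnin : n ∈ U ⊔ Subgroup.zpowers a := by
          by_contra hcon
          have h1 := hmax ⟨U ⊔ Subgroup.zpowers a, hcon⟩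
          have h2 : U ⊔ Subgroup.zpowers a = U :=
            (Subgroup.eq_of_le_of_card_ge le_sup_left h1).symm
          have h3 : a ∈ U := by
            rw [← h2]; exact (le_sup_right : Subgroup.zpowers a ≤ _) (Subgroup.mem_zpowers a)
          exact ha h3
        obtain ⟨u, hu, z, hz, huz⟩ := Subgroup.mem_sup.mp hnin
        obtain ⟨k, hk⟩ := Subgroup.mem_zpowers_iff.mp hz
        have hqb : (QuotientGroup.mk n : M ⧸ U) = (QuotientGroup.mk a : M ⧸ U) ^ k := by
          rw [← huz, ← hk, QuotientGroup.mk_mul, (QuotientGroup.eq_one_iff u).mpr hu, one_mul,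
            QuotientGroup.mk_zpow]
        have hle : Subgroup.zpowers (QuotientGroup.mk n : M ⧸ U) ≤
            Subgroup.zpowers (QuotientGroup.mk a : M ⧸ U) := by
          rw [Subgroup.zpowers_le, hqb]
          exact Subgroup.zpow_mem_zpowers _ k
        have hcard : Nat.card (Subgroup.zpowers (QuotientGroup.mk a : M ⧸ U)) ≤
            Nat.card (Subgroup.zpowers (QuotientGroup.mk n : M ⧸ U)) := by
          rw [Nat.card_zpowers, Nat.card_zpowers, hob, hoq]
        rw [Subgroup.eq_of_le_of_card_ge hle hcard]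
        exact Subgroup.mem_zpowers _
  have htop : Subgroup.zpowers (QuotientGroup.mk n : M ⧸ U) = ⊤ :=
    (Subgroup.eq_top_iff' _).mpr hall
  have h1 : Nat.card (Subgroup.zpowers (QuotientGroup.mk n : M ⧸ U)) = p := by
    rw [Nat.card_zpowers, hoq]
  rw [htop, Subgroup.card_top] at h1
  exact h1

theorem indep_bound {M : Type*} [CommGroup M] [Finite M] {p : ℕ} [Fact p.Prime]
    (hexp : ∀ a : M, a ^ p = 1) (τ : M →* M) (x : M) (hτ : τ^[p] x = x)
    (K : Subgroup M) (hK : ∀ a ∈ K, τ a ∈ K)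
    (hN : ∏ i ∈ Finset.range p, τ^[i] x ∉ K) : p ^ p ≤ K.index := by
  classical
  have hp := (Fact.out : p.Prime)
  haveI : NeZero p := ⟨hp.ne_zero⟩
  have hper : ∀ m k : ℕ, τ^[m + p * k] x = τ^[m] x := by
    intro m k
    induction k with
    | zero => simp
    | succ k ih =>
      rw [Nat.mul_succ, ← Nat.add_assoc, Function.iterate_add_apply, hτ, ih]
  have hmod : ∀ n : ℕ, τ^[n] x = τ^[n % p] x := by
    intro n
    conv_lhs => rw [← Nat.mod_add_div n p]
    exact hper _ _
  have hpw : ∀ (a : M) (n : ℕ), a ^ n = a ^ (n % p) := by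
    intro a n
    conv_lhs => rw [← Nat.mod_add_div n p, pow_add, pow_mul, hexp, one_pow, mul_one]
  obtain ⟨xZ, hxZ⟩ : ∃ xZ : ZMod p → M, ∀ i, xZ i = τ^[i.val] x := ⟨_, fun i => rfl⟩
  have hshift : ∀ i : ZMod p, τ (xZ i) = xZ (i + 1) := by
    intro i
    rw [hxZ, hxZ, ← Function.iterate_succ_apply' τ, hmod (i.val + 1), ZMod.val_add,
      ZMod.val_one_eq_one_mod, Nat.add_mod_mod]
  obtain ⟨Φ, hΦ⟩ : ∃ Φ : (ZMod p → ZMod p) → M, ∀ c, Φ c = ∏ i : ZMod p, xZ i ^ (c i).val :=
    ⟨_, fun c => rfl⟩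
  have hΦadd : ∀ c d, Φ (c + d) = Φ c * Φ d := by
    intro c d
    rw [hΦ, hΦ, hΦ, ← Finset.prod_mul_distrib]
    refine Finset.prod_congr rfl (fun i _ => ?_)
    rw [← pow_add, Pi.add_apply, ZMod.val_add, ← hpw]
  have hΦzero : Φ 0 = 1 := by
    rw [hΦ]
    simp
  have hΦneg : ∀ c, Φ (-c) = (Φ c)⁻¹ := by
    intro c
    have h := hΦadd c (-c)
    rw [add_neg_cancel, hΦzero] at h
    exact (inv_eq_of_mul_eq_one_right h.symm).symm
  have hΦshift : ∀ c : ZMod p → ZMod p, Φ (fun i => c (i - 1)) = τ (Φ c) := by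
    intro c
    rw [hΦ, hΦ, map_prod]
    simp only [map_pow, hshift]
    exact (Fintype.prod_equiv (Equiv.addRight (1 : ZMod p)) _ _ (fun i => by simp)).symm
  have hprodZ : ∏ i : ZMod p, xZ i = ∏ i ∈ Finset.range p, τ^[i] x := by
    symm
    refine Finset.prod_nbij' (fun i => (i : ZMod p)) (fun i => i.val) ?_ ?_ ?_ ?_ ?_
    · intro i _; exact Finset.mem_univ _
    · intro i _; exact Finset.mem_range.mpr (ZMod.val_lt i)
    · intro i hi; exact ZMod.val_cast_of_lt (Finset.mem_range.mp hi)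
    · intro i _; exact ZMod.natCast_zmod_val i
    · intro i hi; rw [hxZ, ZMod.val_cast_of_lt (Finset.mem_range.mp hi)]
  have hΦconst : ∀ k : ZMod p, Φ (fun _ => k) = (∏ i ∈ Finset.range p, τ^[i] x) ^ k.val := by
    intro k
    rw [hΦ, Finset.prod_pow, hprodZ]
  -- the relation subgroup
  obtain ⟨R, hR⟩ : ∃ R : AddSubgroup (ZMod p → ZMod p), ∀ c, c ∈ R ↔ Φ c ∈ K :=
    ⟨{ carrier := {c | Φ c ∈ K}
       add_mem' := fun {c d} hc hd => by
        show Φ (c + d) ∈ K
        rw [hΦadd]; exact K.mul_mem hc hd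
       zero_mem' := by
        show Φ 0 ∈ K
        rw [hΦzero]; exact K.one_mem
       neg_mem' := fun {c} hc => by
        show Φ (-c) ∈ K
        rw [hΦneg]; exact K.inv_mem hc }, fun c => Iff.rfl⟩
  have hRbot : ∀ c, Φ c ∈ K → c = 0 := by
    by_contra hcon
    push_neg at hcon
    obtain ⟨c₀, hc₀K, hc₀⟩ := hcon
    -- the shift on R
    obtain ⟨f, hf⟩ : ∃ f : Function.End ↥R, ∀ c : ↥R, ((f c : ↥R) : ZMod p → ZMod p) =
        fun i => (c : ZMod p → ZMod p) (i - 1) :=
      ⟨fun c => ⟨fun i => (c : ZMod p → ZMod p) (i - 1), by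
        rw [hR, hΦshift]; exact hK _ ((hR _).mp c.2)⟩, fun c => rfl⟩
    have hfn : ∀ (n : ℕ) (c : ↥R), (((f ^ n) c : ↥R) : ZMod p → ZMod p) =
        fun i => (c : ZMod p → ZMod p) (i - (n : ZMod p)) := by
      intro n
      induction n with
      | zero =>
        intro c
        funext i
        rw [pow_zero, Nat.cast_zero, sub_zero]
        rfl
      | succ n ih =>
        intro c
        have e : (f ^ (n + 1)) c = (f ^ n) (f c) := by rw [pow_succ]; rfl
        rw [e, ih, hf]
        funext i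
        push_cast
        congr 1
        ring_nf
    have hfp : f ^ p ^ 1 = 1 := by
      rw [pow_one]
      funext c
      apply Subtype.ext
      rw [hfn]
      funext i
      rw [ZMod.natCast_self, sub_zero]
      rfl
    haveI : Fintype ↥R := Fintype.ofFinite _
    have hmodeq := Equiv.Perm.card_fixedPoints_modEq (f := f) (p := p) (n := 1) hfp
    have hcardR : p ∣ Fintype.card ↥R := by
      have h1 : Nat.card ↥R ∣ Nat.card (ZMod p → ZMod p) := AddSubgroup.card_addSubgroup_dvd_card R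
      rw [Nat.card_fun, Nat.card_zmod] at h1
      obtain ⟨j, hj, hj2⟩ := (Nat.dvd_prime_pow hp).mp h1
      rw [Fintype.card_eq_nat_card, hj2]
      have hj0 : j ≠ 0 := by
        intro h0
        rw [h0, pow_zero] at hj2
        have hsub : Subsingleton ↥R := (Nat.card_eq_one_iff_unique.mp hj2).1
        have h2 : (⟨c₀, (hR _).mpr hc₀K⟩ : ↥R) = 0 := Subsingleton.elim _ _
        exact hc₀ (congrArg Subtype.val h2)
      exact dvd_pow_self p hj0
    rw [Fintype.card_eq_nat_card, Fintype.card_eq_nat_card] at hmodeq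
    rw [Fintype.card_eq_nat_card] at hcardR
    have hfix : p ∣ Nat.card (Function.fixedPoints f) :=
      (Nat.modEq_zero_iff_dvd).mp (hmodeq.symm.trans ((Nat.modEq_zero_iff_dvd).mpr hcardR))
    have h0fix : (0 : ↥R) ∈ Function.fixedPoints f := by
      show f 0 = 0
      apply Subtype.ext
      rw [hf]
      funext i
      rfl
    have hlt : 1 < Nat.card (Function.fixedPoints f) := by
      haveI : Nonempty (Function.fixedPoints f) := ⟨⟨0, h0fix⟩⟩
      have hpos : 0 < Nat.card (Function.fixedPoints f) := Nat.card_pos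
      have := Nat.le_of_dvd hpos hfix
      have := hp.one_lt
      omega
    haveI : Nontrivial (Function.fixedPoints f) := Finite.one_lt_card_iff_nontrivial.mp hlt
    obtain ⟨⟨c, hcfix⟩, hcne⟩ := exists_ne (⟨0, h0fix⟩ : Function.fixedPoints f)
    have hc1 : ∀ i : ZMod p, (c : ZMod p → ZMod p) (i - 1) = (c : ZMod p → ZMod p) i := by
      intro i
      have h1 : f c = c := hcfix
      have h2 := congrArg (fun d : ↥R => (d : ZMod p → ZMod p) i) h1
      simp only [hf] at h2
      exact h2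
    have hc2 : ∀ n : ℕ, (c : ZMod p → ZMod p) (n : ZMod p) = (c : ZMod p → ZMod p) 0 := by
      intro n
      induction n with
      | zero => simp
      | succ n ih =>
        rw [← ih, ← hc1 ((n + 1 : ℕ) : ZMod p)]
        congr 1
        push_cast
        ring_nf
    have hc3 : (c : ZMod p → ZMod p) = fun _ => (c : ZMod p → ZMod p) 0 := by
      funext i
      rw [← hc2 i.val, ZMod.natCast_zmod_val]
    have hk0 : (c : ZMod p → ZMod p) 0 ≠ 0 := by
      intro h0
      apply hcne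
      apply Subtype.ext
      apply Subtype.ext
      show (c : ZMod p → ZMod p) = 0
      rw [hc3, h0]
      rfl
    have hcK : Φ (c : ZMod p → ZMod p) ∈ K := (hR _).mp c.2
    rw [hc3, hΦconst] at hcK
    obtain ⟨k, hk⟩ : ∃ k : ZMod p, k = (c : ZMod p → ZMod p) 0 := ⟨_, rfl⟩
    rw [← hk] at hcK hk0
    have h1 : ((∏ i ∈ Finset.range p, τ^[i] x) ^ k.val) ^ (k⁻¹).val ∈ K := K.pow_mem hcK _
    rw [← pow_mul, hpw, ← ZMod.val_mul, mul_inv_cancel₀ hk0, ZMod.val_one_eq_one_mod,
      Nat.mod_eq_of_lt hp.one_lt, pow_one] at h1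
    exact hN h1
  have hinj : Function.Injective (fun c : ZMod p → ZMod p => (QuotientGroup.mk (Φ c) : M ⧸ K)) := by
    intro c d hcd
    have h1 : (Φ c)⁻¹ * Φ d ∈ K := QuotientGroup.eq.mp hcd
    rw [← hΦneg, ← hΦadd] at h1
    have h2 := hRbot _ h1
    have h3 : c = d := by
      have := congrArg (fun e => c + e) h2
      simpa using this.symm
    exact h3
  have hle := Nat.card_le_card_of_injective _ hinj
  rw [Nat.card_fun, Nat.card_zmod] at hle
  exact hle

theorem val_fact_sq (p : ℕ) [Fact p.Prime] : padicValNat p (p ^ 2).factorial = p + 1 := by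
  have hp := (Fact.out : p.Prime)
  have hlog : Nat.log p (p ^ 2) < 3 := by
    rw [Nat.log_pow hp.one_lt]; norm_num
  rw [padicValNat_factorial hlog]
  have h12 : Finset.Ico 1 3 = {1, 2} := by decide
  rw [h12, Finset.sum_pair (by norm_num)]
  rw [pow_one, Nat.div_self (pow_pos hp.pos 2), pow_two, Nat.mul_div_cancel _ hp.pos]


/-- Let P be a finite p-group with a normal elementary abelian subgroup A of index p, and let x ∈ A and y ∈ P with y outside A. If the product of the p conjugates y^(-i) x y^i (i = 0, …, p−1) is not the identity, then the wreath product Z_p ≀ Z_p, realised as a Sylow p-subgroup of the symmetric group of degree p², is a homomorphic image of P. -/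
theorem result {P : Type*} [Group P] [Finite P] {p : ℕ} [Fact p.Prime] (hP : IsPGroup p P) (A : Subgroup P) [A.Normal]
    (hA : Cfsg.IsElementaryAbelian p A) (hidx : A.index = p) (x y : P) (hx : x ∈ A) (hy : y ∉ A)
    (hprod : ((List.range p).map (fun i => (y ^ i)⁻¹ * x * y ^ i)).prod ≠ 1) :
    ∃ (Q : Sylow p (Equiv.Perm (Fin (p ^ 2)))) (f : P →* ↥(Q : Subgroup (Equiv.Perm (Fin (p ^ 2))))), Function.Surjective f := by
  classical
  have hp := (Fact.out : p.Prime)
  haveI : IsMulCommutative ↥A := hA.1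
  letI : CommGroup ↥A := { (inferInstance : Group ↥A) with mul_comm := mul_comm' }
  have hexp : ∀ a : ↥A, a ^ p = 1 := fun a => Subtype.ext (hA.2 a.1 a.2)
  obtain ⟨τ, hτdef⟩ : ∃ τ : ↥A →* ↥A, ∀ a : ↥A, ((τ a : ↥A) : P) = y⁻¹ * (a : P) * y :=
    ⟨(MulAut.conjNormal (y⁻¹) : MulAut ↥A).toMonoidHom, fun a => by
      show (((MulAut.conjNormal (y⁻¹) : MulAut ↥A) a : ↥A) : P) = _
      rw [MulAut.conjNormal_apply, inv_inv]⟩
  have hiter : ∀ i : ℕ, ((τ^[i] ⟨x, hx⟩ : ↥A) : P) = (y ^ i)⁻¹ * x * y ^ i := by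
    intro i
    induction i with
    | zero => simp
    | succ i ih =>
      rw [Function.iterate_succ_apply', hτdef, ih, pow_succ]
      group
  have hyp : y ^ p ∈ A := by
    have h := Subgroup.pow_index_mem A y
    rw [hidx] at h
    exact h
  have hτp : τ^[p] ⟨x, hx⟩ = (⟨x, hx⟩ : ↥A) := by
    apply Subtype.ext
    rw [hiter]
    have hc : (⟨y ^ p, hyp⟩ : ↥A) * ⟨x, hx⟩ = ⟨x, hx⟩ * ⟨y ^ p, hyp⟩ := mul_comm _ _
    have hc' : y ^ p * x = x * y ^ p := congrArg Subtype.val hc
    show (y ^ p)⁻¹ * x * y ^ p = x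
    rw [mul_assoc, ← hc', inv_mul_cancel_left]
  have hprodcoe : ∀ m : ℕ, ((∏ i ∈ Finset.range m, τ^[i] ⟨x, hx⟩ : ↥A) : P) =
      ((List.range m).map (fun i => (y ^ i)⁻¹ * x * y ^ i)).prod := by
    intro m
    induction m with
    | zero => simp
    | succ m ih =>
      rw [Finset.prod_range_succ, List.range_succ, List.map_append, List.prod_append,
        Subgroup.coe_mul, ih, hiter]
      simp
  have hn1 : (∏ i ∈ Finset.range p, τ^[i] ⟨x, hx⟩ : ↥A) ≠ 1 := by
    intro h
    apply hprod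
    rw [← hprodcoe, h]
    rfl
  obtain ⟨U, hnU, hUidx⟩ := hyper hexp _ hn1
  obtain ⟨U', hU'⟩ : ∃ U' : Subgroup P, U' = U.map A.subtype := ⟨_, rfl⟩
  have hU'A : U' ≤ A := by
    rw [hU']
    rintro _ ⟨a, _, rfl⟩
    exact a.2
  have hU'sub : U'.subgroupOf A = U := by
    rw [hU']
    exact Subgroup.comap_map_eq_self_of_injective A.subtype_injective U
  have hU'idx : U'.index = p ^ 2 := by
    rw [← Subgroup.relIndex_mul_index hU'A, hidx]
    show (U'.subgroupOf A).index * p = p ^ 2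
    rw [hU'sub, hUidx, pow_two]
  obtain ⟨K, hKdef⟩ : ∃ K : Subgroup P, K = U'.normalCore := ⟨_, rfl⟩
  haveI hKn : K.Normal := by rw [hKdef]; exact Subgroup.normalCore_normal U'
  have hKU : K ≤ U' := by rw [hKdef]; exact Subgroup.normalCore_le U'
  have hKA : K ≤ A := hKU.trans hU'A
  have hKsub : K.subgroupOf A ≤ U := by
    rw [← hU'sub]
    intro a ha
    exact hKU ha
  have hbound : p ^ p ≤ (K.subgroupOf A).index := by
    refine indep_bound hexp τ ⟨x, hx⟩ hτp (K.subgroupOf A) ?_ (fun h => hnU (hKsub h))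
    intro a ha
    show ((τ a : ↥A) : P) ∈ K
    rw [hτdef]
    have h1 : (a : P) ∈ K := ha
    have h2 := hKn.conj_mem _ h1 y⁻¹
    rw [inv_inv] at h2
    exact h2
  have hKidx : p ^ (p + 1) ≤ K.index := by
    rw [← Subgroup.relIndex_mul_index hKA, hidx, pow_succ]
    exact Nat.mul_le_mul_right p hbound
  -- the permutation representation
  have hcardQ : Nat.card (P ⧸ U') = p ^ 2 := hU'idx
  obtain ⟨e⟩ : Nonempty (P ⧸ U' ≃ Fin (p ^ 2)) := ⟨Finite.equivFinOfCardEq hcardQ⟩
  obtain ⟨ψ, hψ⟩ : ∃ ψ : P →* Equiv.Perm (Fin (p ^ 2)),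
      ψ = (e.permCongrHom).toMonoidHom.comp (MulAction.toPermHom P (P ⧸ U')) := ⟨_, rfl⟩
  have hker : ψ.ker = K := by
    rw [hKdef, Subgroup.normalCore_eq_ker]
    ext g
    rw [MonoidHom.mem_ker, MonoidHom.mem_ker, hψ]
    show e.permCongrHom (MulAction.toPermHom P (P ⧸ U') g) = 1 ↔ _
    exact map_eq_one_iff _ e.permCongrHom.injective
  have hrange : Nat.card ψ.range = K.index := by
    rw [← hker, Subgroup.index_ker]
  have hpg : IsPGroup p ψ.range := hP.of_surjective ψ.rangeRestrict ψ.rangeRestrict_surjective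
  obtain ⟨k, hk⟩ := IsPGroup.iff_card.mp hpg
  have hdvd : p ^ k ∣ Nat.card (Equiv.Perm (Fin (p ^ 2))) := by
    rw [← hk]; exact Subgroup.card_subgroup_dvd_card _
  have hcardS : Nat.card (Equiv.Perm (Fin (p ^ 2))) = (p ^ 2).factorial := by
    rw [Nat.card_perm, Nat.card_fin]
  have hfac : (Nat.card (Equiv.Perm (Fin (p ^ 2)))).factorization p = p + 1 := by
    rw [hcardS, Nat.factorization_def _ hp, val_fact_sq]
  have hk1 : k ≤ p + 1 := by
    rw [← hfac]
    exact (hp.pow_dvd_iff_le_factorization Nat.card_pos.ne').mp hdvd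
  have hk2 : p + 1 ≤ k := by
    rw [hrange] at hk
    rw [hk] at hKidx
    exact (Nat.pow_le_pow_iff_right hp.one_lt).mp hKidx
  have hcard : Nat.card ψ.range = p ^ (Nat.card (Equiv.Perm (Fin (p ^ 2)))).factorization p := by
    rw [hfac, hk, le_antisymm hk1 hk2]
  exact ⟨Sylow.ofCard ψ.range hcard, ψ.rangeRestrict, ψ.rangeRestrict_surjective⟩

end Cfsg.Agent.S1952
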