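import Cfsg.Statements.S1954
import Mathlib
import Cfsg.Agent.Helper10.NormCtl

set_option autoImplicit false
open Cfsg

namespace Cfsg.Agent.S1954

/-- Let N be a normal subgroup of the finite group G, P a Sylow p-subgroup of G, and V a subgroup of P ∩ N normal in P ∩ N such that N_N(V) controls strong fusion in P ∩ N with respect to N (whenever a subgroup A of P ∩ N has n A n⁻¹ ≤ P ∩ N for some n in N, then n = h c with h in N_N(V) and c in C_N(A)). Let W be the subgroup generated by the conjugates of V under N_G(P ∩ N). Then N_G(W) controls strong fusion in P with respect to G. -/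
theorem result {G : Type*} [Group G] [Finite G] {p : ℕ} [Fact p.Prime] (N : Subgroup G) [N.Normal] (P : Sylow p G) (V : Subgroup G)
    (hV : V ≤ (P : Subgroup G) ⊓ N) (hVn : ∀ x ∈ (P : Subgroup G) ⊓ N, V.map (MulAut.conj x).toMonoidHom = V)
    (hctrl : ∀ A : Subgroup G, A ≤ (P : Subgroup G) ⊓ N → ∀ n ∈ N, A.map (MulAut.conj n).toMonoidHom ≤ (P : Subgroup G) ⊓ N →
      ∃ h ∈ N ⊓ Subgroup.normalizer (V : Set G), ∃ c ∈ N ⊓ Subgroup.centralizer (A : Set G), n = h * c)
    (W : Subgroup G) (hW : W = Subgroup.closure (⋃ x ∈ Subgroup.normalizer (((P : Subgroup G) ⊓ N : Subgroup G) : Set G),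
      ((V.map (MulAut.conj x).toMonoidHom : Subgroup G) : Set G))) :
    ∀ A : Subgroup G, A ≤ (P : Subgroup G) → ∀ g : G, A.map (MulAut.conj g).toMonoidHom ≤ (P : Subgroup G) →
        ∃ h ∈ Subgroup.normalizer (W : Set G), ∃ c ∈ Subgroup.centralizer (A : Set G), g = h * c := by
  classical
  have hNn : N.Normal := inferInstance
  have hRp : IsPGroup p ((P : Subgroup G) ⊓ N : Subgroup G) := P.isPGroup'.to_le inf_le_left
  -- P normalizes R = P ⊓ N
  have hPR : (P : Subgroup G) ≤ Subgroup.normalizer (((P : Subgroup G) ⊓ N : Subgroup G) : Set G) := by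
    intro s hs
    apply Cfsg.Agent.Helper9.mem_normalizer_of_conj_le _ s
    intro q hq
    exact Subgroup.mem_inf.2 ⟨Subgroup.mul_mem _ (Subgroup.mul_mem _ hs (Subgroup.mem_inf.1 hq).1)
      (Subgroup.inv_mem _ hs), hNn.conj_mem q (Subgroup.mem_inf.1 hq).2 s⟩
  -- conjugates of V under N(R) lie in R
  have hVm : ∀ m ∈ Subgroup.normalizer (((P : Subgroup G) ⊓ N : Subgroup G) : Set G),
      V.map (MulAut.conj m).toMonoidHom ≤ (P : Subgroup G) ⊓ N := by
    rintro m hm _ ⟨v, hv, rfl⟩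
    exact (Subgroup.mem_normalizer_iff.1 hm v).1 (hV hv)
  have hWR : W ≤ (P : Subgroup G) ⊓ N := by
    rw [hW, Subgroup.closure_le]
    intro y hy
    simp only [Set.mem_iUnion] at hy
    obtain ⟨x, hx, hy⟩ := hy
    exact hVm x hx hy
  -- N(R) ≤ N(W)
  have hRW : Subgroup.normalizer (((P : Subgroup G) ⊓ N : Subgroup G) : Set G) ≤
      Subgroup.normalizer (W : Set G) := by
    intro m hm
    apply Cfsg.Agent.Helper9.mem_normalizer_of_conj_le W m
    have hle : W.map (MulAut.conj m).toMonoidHom ≤ W := by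
      rw [hW, MonoidHom.map_closure, Subgroup.closure_le]
      rintro _ ⟨q, hq, rfl⟩
      simp only [Set.mem_iUnion] at hq
      obtain ⟨x, hx, hq⟩ := hq
      apply Subgroup.subset_closure
      refine Set.mem_iUnion₂.2 ⟨m * x, Subgroup.mul_mem _ hm hx, ?_⟩
      obtain ⟨v, hv, rfl⟩ := hq
      exact ⟨v, hv, by simp [MulAut.conj_apply, mul_assoc]⟩
    intro q hq
    exact hle ⟨q, hq, rfl⟩
  -- Frattini
  have hRidx : ¬ p ∣ ((P : Subgroup G) ⊓ N).relIndex N := by
    rw [Subgroup.inf_relIndex_right, ← Cfsg.Agent.Helper19.relIndex_sup_normal (P : Subgroup G) N]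
    intro h
    exact P.not_dvd_index (dvd_trans h (Subgroup.relIndex_dvd_index_of_le le_sup_left))
  have hfrat : ∀ g : G, ∃ m ∈ Subgroup.normalizer (((P : Subgroup G) ⊓ N : Subgroup G) : Set G),
      ∃ n ∈ N, g = m * n := by
    intro g
    have hQN : ((P : Subgroup G) ⊓ N).map (MulAut.conj g⁻¹).toMonoidHom ≤ N := by
      rintro _ ⟨r, hr, rfl⟩
      exact hNn.conj_mem r (Subgroup.mem_inf.1 hr).2 g⁻¹
    obtain ⟨n, hn, hnR⟩ := Cfsg.Agent.Helper10.exists_conj_into_of_relIndex N _ hRp hRidx _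
      (hRp.map _) hQN
    have h1 : n * g⁻¹ ∈ Subgroup.normalizer (((P : Subgroup G) ⊓ N : Subgroup G) : Set G) := by
      apply Cfsg.Agent.Helper9.mem_normalizer_of_conj_le _ (n * g⁻¹)
      intro q hq
      have h2 := hnR _ ⟨q, hq, rfl⟩
      have e : n * g⁻¹ * q * (n * g⁻¹)⁻¹ = n * ((MulAut.conj g⁻¹).toMonoidHom q) * n⁻¹ := by
        simp [MulAut.conj_apply, mul_assoc]
      rw [e]; exact h2
    refine ⟨(n * g⁻¹)⁻¹, Subgroup.inv_mem _ h1, n, hn, by group⟩
  -- control for conjugates of V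
  have hctrl_conj : ∀ m ∈ Subgroup.normalizer (((P : Subgroup G) ⊓ N : Subgroup G) : Set G),
      ∀ A : Subgroup G, A ≤ (P : Subgroup G) ⊓ N → ∀ n ∈ N,
      A.map (MulAut.conj n).toMonoidHom ≤ (P : Subgroup G) ⊓ N →
      ∃ h ∈ N ⊓ Subgroup.normalizer ((V.map (MulAut.conj m).toMonoidHom : Subgroup G) : Set G),
        ∃ c ∈ N ⊓ Subgroup.centralizer (A : Set G), n = h * c := by
    intro m hm A hA n hn hAn
    have hm' := Subgroup.inv_mem _ hm
    have hA' : A.map (MulAut.conj m⁻¹).toMonoidHom ≤ (P : Subgroup G) ⊓ N := by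
      rintro _ ⟨a, ha, rfl⟩
      exact (Subgroup.mem_normalizer_iff.1 hm' a).1 (hA ha)
    have hn' : m⁻¹ * n * m ∈ N := by
      have := hNn.conj_mem n hn m⁻¹
      rwa [inv_inv] at this
    have hA'n : (A.map (MulAut.conj m⁻¹).toMonoidHom).map (MulAut.conj (m⁻¹ * n * m)).toMonoidHom ≤
        (P : Subgroup G) ⊓ N := by
      rintro _ ⟨_, ⟨a, ha, rfl⟩, rfl⟩
      have h1 : n * a * n⁻¹ ∈ (P : Subgroup G) ⊓ N := hAn ⟨a, ha, rfl⟩
      have h2 := (Subgroup.mem_normalizer_iff.1 hm' _).1 h1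
      have e : (MulAut.conj (m⁻¹ * n * m)).toMonoidHom ((MulAut.conj m⁻¹).toMonoidHom a) =
          m⁻¹ * (n * a * n⁻¹) * m⁻¹⁻¹ := by
        simp [MulAut.conj_apply, mul_assoc]
      rw [e]; exact h2
    obtain ⟨h', hh', c', hc', e⟩ := hctrl _ hA' _ hn' hA'n
    refine ⟨m * h' * m⁻¹, Subgroup.mem_inf.2 ⟨hNn.conj_mem h' (Subgroup.mem_inf.1 hh').1 m, ?_⟩,
      m * c' * m⁻¹, Subgroup.mem_inf.2 ⟨hNn.conj_mem c' (Subgroup.mem_inf.1 hc').1 m, ?_⟩, ?_⟩
    · rw [← Subgroup.map_equiv_normalizer_eq V (MulAut.conj m)]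
      exact ⟨h', (Subgroup.mem_inf.1 hh').2, rfl⟩
    · rw [Subgroup.mem_centralizer_iff]
      intro a ha
      have h1 := (Subgroup.mem_centralizer_iff.1 (Subgroup.mem_inf.1 hc').2) (m⁻¹ * a * m)
        ⟨a, ha, by simp [MulAut.conj_apply]⟩
      calc a * (m * c' * m⁻¹) = m * (m⁻¹ * a * m * c') * m⁻¹ := by group
        _ = m * (c' * (m⁻¹ * a * m)) * m⁻¹ := by rw [h1]
        _ = m * c' * m⁻¹ * a := by group
    · calc n = m * (m⁻¹ * n * m) * m⁻¹ := by group
        _ = m * (h' * c') * m⁻¹ := by rw [e]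
        _ = m * h' * m⁻¹ * (m * c' * m⁻¹) := by group
  -- control for finitely many conjugates simultaneously
  have hctrl_fin : ∀ s : Finset G,
      (∀ m ∈ s, m ∈ Subgroup.normalizer (((P : Subgroup G) ⊓ N : Subgroup G) : Set G)) →
      ∀ A : Subgroup G, A ≤ (P : Subgroup G) ⊓ N → ∀ n ∈ N,
      A.map (MulAut.conj n).toMonoidHom ≤ (P : Subgroup G) ⊓ N →
      ∃ h ∈ N, (∀ m ∈ s, h ∈ Subgroup.normalizer
          ((V.map (MulAut.conj m).toMonoidHom : Subgroup G) : Set G)) ∧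
        ∃ c ∈ N ⊓ Subgroup.centralizer (A : Set G), n = h * c := by
    intro s
    induction s using Finset.induction_on with
    | empty =>
      intro _ A _ n hn _
      exact ⟨n, hn, fun m hm => absurd hm (Finset.notMem_empty m), 1, Subgroup.one_mem _, by group⟩
    | insert m s hms ih =>
      intro hs A hA n hn hAn
      have hmR := hs m (Finset.mem_insert_self m s)
      obtain ⟨h₂, hh₂, c₂, hc₂, e₂⟩ := hctrl_conj m hmR A hA n hn hAn
      have hB : A ⊔ V.map (MulAut.conj m).toMonoidHom ≤ (P : Subgroup G) ⊓ N :=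
        sup_le hA (hVm m hmR)
      have hBh : (A ⊔ V.map (MulAut.conj m).toMonoidHom).map (MulAut.conj h₂).toMonoidHom ≤
          (P : Subgroup G) ⊓ N := by
        rw [Subgroup.map_sup]
        refine sup_le ?_ ?_
        · rintro _ ⟨a, ha, rfl⟩
          have h1 : n * a * n⁻¹ ∈ (P : Subgroup G) ⊓ N := hAn ⟨a, ha, rfl⟩
          have h2 : a * c₂ = c₂ * a :=
            (Subgroup.mem_centralizer_iff.1 (Subgroup.mem_inf.1 hc₂).2) a ha
          have e : (MulAut.conj h₂).toMonoidHom a = n * a * n⁻¹ := by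
            show h₂ * a * h₂⁻¹ = n * a * n⁻¹
            rw [e₂]
            calc h₂ * a * h₂⁻¹ = h₂ * (a * c₂) * c₂⁻¹ * h₂⁻¹ := by group
              _ = h₂ * (c₂ * a) * c₂⁻¹ * h₂⁻¹ := by rw [h2]
              _ = h₂ * c₂ * a * (h₂ * c₂)⁻¹ := by group
          rw [e]; exact h1
        · rw [Cfsg.Agent.Helper16.map_conj_eq_of_mem_normalizer (Subgroup.mem_inf.1 hh₂).2]
          exact hVm m hmR
      obtain ⟨h₁, hh₁, hh₁s, c₁, hc₁, e₁⟩ := ih (fun m' hm' => hs m' (Finset.mem_insert_of_mem hm'))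
        _ hB h₂ (Subgroup.mem_inf.1 hh₂).1 hBh
      have hc₁V : c₁ ∈ Subgroup.normalizer
          ((V.map (MulAut.conj m).toMonoidHom : Subgroup G) : Set G) :=
        Subgroup.centralizer_le_normalizer _ (Subgroup.centralizer_le
          (SetLike.coe_subset_coe.2 le_sup_right) (Subgroup.mem_inf.1 hc₁).2)
      have hc₁A : c₁ ∈ Subgroup.centralizer (A : Set G) :=
        Subgroup.centralizer_le (SetLike.coe_subset_coe.2 le_sup_left) (Subgroup.mem_inf.1 hc₁).2
      refine ⟨h₁, hh₁, ?_, c₁ * c₂, Subgroup.mem_inf.2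
        ⟨Subgroup.mul_mem _ (Subgroup.mem_inf.1 hc₁).1 (Subgroup.mem_inf.1 hc₂).1,
         Subgroup.mul_mem _ hc₁A (Subgroup.mem_inf.1 hc₂).2⟩, ?_⟩
      · intro m' hm'
        rcases Finset.mem_insert.1 hm' with rfl | hm'
        · have e : h₁ = h₂ * c₁⁻¹ := by rw [e₁]; group
          rw [e]
          exact Subgroup.mul_mem _ (Subgroup.mem_inf.1 hh₂).2 (Subgroup.inv_mem _ hc₁V)
        · exact hh₁s m' hm'
      · rw [e₂, e₁, mul_assoc]
  -- N_N(W) controls strong fusion in R with respect to N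
  have hctrlW : ∀ A : Subgroup G, A ≤ (P : Subgroup G) ⊓ N → ∀ n ∈ N,
      A.map (MulAut.conj n).toMonoidHom ≤ (P : Subgroup G) ⊓ N →
      ∃ h ∈ N ⊓ Subgroup.normalizer (W : Set G),
        ∃ c ∈ N ⊓ Subgroup.centralizer (A : Set G), n = h * c := by
    intro A hA n hn hAn
    obtain ⟨h, hh, hhs, c, hc, e⟩ := hctrl_fin
      (Set.toFinite ((Subgroup.normalizer (((P : Subgroup G) ⊓ N : Subgroup G) : Set G) :
        Subgroup G) : Set G)).toFinset (fun m hm => by simpa using hm) A hA n hn hAn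
    refine ⟨h, Subgroup.mem_inf.2 ⟨hh, ?_⟩, c, hc, e⟩
    apply Cfsg.Agent.Helper9.mem_normalizer_of_conj_le W h
    have hle : W.map (MulAut.conj h).toMonoidHom ≤ W := by
      rw [hW, MonoidHom.map_closure, Subgroup.closure_le]
      rintro _ ⟨q, hq, rfl⟩
      simp only [Set.mem_iUnion] at hq
      obtain ⟨x, hx, hq⟩ := hq
      apply Subgroup.subset_closure
      refine Set.mem_iUnion₂.2 ⟨x, hx, ?_⟩
      have h1 := hhs x (by simpa using hx)
      exact (Subgroup.mem_normalizer_iff.1 h1 q).1 hq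
    intro q hq
    exact hle ⟨q, hq, rfl⟩
  -- the chain of W is strongly closed
  have hsc : ∀ j, ∀ x ∈ Cfsg.Agent.Helper10.wChain W j, ∀ g : G, x ∈ (P : Subgroup G) →
      g * x * g⁻¹ ∈ (P : Subgroup G) → g * x * g⁻¹ ∈ Cfsg.Agent.Helper10.wChain W j := by
    intro j x hx g hxP hgx
    rcases j with _ | j
    · exact Subgroup.mem_top _
    · have hxW : x ∈ W := Cfsg.Agent.Helper10.wChain_succ_le W j hx
      have hxR := hWR hxW
      obtain ⟨m, hm, n, hn, rfl⟩ := hfrat g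
      have hgxR : m * n * x * (m * n)⁻¹ ∈ (P : Subgroup G) ⊓ N :=
        Subgroup.mem_inf.2 ⟨hgx, hNn.conj_mem x (Subgroup.mem_inf.1 hxR).2 _⟩
      have hnx : n * x * n⁻¹ ∈ (P : Subgroup G) ⊓ N := by
        have h1 := (Subgroup.mem_normalizer_iff.1 (Subgroup.inv_mem _ hm) _).1 hgxR
        have e : m⁻¹ * (m * n * x * (m * n)⁻¹) * m⁻¹⁻¹ = n * x * n⁻¹ := by group
        rwa [e] at h1
      have hAR : Subgroup.zpowers x ≤ (P : Subgroup G) ⊓ N := by
        rw [Subgroup.zpowers_le]; exact hxR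
      have hAn : (Subgroup.zpowers x).map (MulAut.conj n).toMonoidHom ≤ (P : Subgroup G) ⊓ N := by
        rw [MonoidHom.map_zpowers, Subgroup.zpowers_le]
        exact hnx
      obtain ⟨h, hh, c, hc, e⟩ := hctrlW _ hAR n hn hAn
      have hcx : x * c = c * x :=
        (Subgroup.mem_centralizer_iff.1 (Subgroup.mem_inf.1 hc).2) x (Subgroup.mem_zpowers x)
      have hmh : m * h ∈ Subgroup.normalizer (W : Set G) :=
        Subgroup.mul_mem _ (hRW hm) (Subgroup.mem_inf.1 hh).2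
      have e2 : m * n * x * (m * n)⁻¹ = (MulAut.conj (m * h)).toMonoidHom x := by
        show m * n * x * (m * n)⁻¹ = m * h * x * (m * h)⁻¹
        rw [e]
        calc m * (h * c) * x * (m * (h * c))⁻¹ = m * h * (c * x) * c⁻¹ * h⁻¹ * m⁻¹ := by group
          _ = m * h * (x * c) * c⁻¹ * h⁻¹ * m⁻¹ := by rw [hcx]
          _ = m * h * x * (m * h)⁻¹ := by group
      rw [e2, ← Cfsg.Agent.Helper10.wChain_map W hmh (j + 1)]
      exact ⟨x, hx, rfl⟩
  intro A hA g hg
  exact Cfsg.Agent.Helper10.ctl_of_strongly_closed_chain P W (hWR.trans inf_le_left)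
    (hPR.trans hRW) hsc A hA g hg

end Cfsg.Agent.S1954
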