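import Cfsg.Statements.S1990
import Mathlib
import Cfsg.Agent.Helper10.PStable2

set_option autoImplicit false
universe u
open Cfsg

namespace Cfsg.Agent.S1990

/-- Let p be an odd prime, G a finite group with Sylow p-subgroup S, and W an isomorphism-invariant p-group functor (W assigns to every group Q a subgroup W(Q), nontrivial whenever Q is a nontrivial finite p-group, and every isomorphism from a finite p-group Q onto a group R carries W(Q) onto W(R)). Suppose N_G(W(S)) has a normal p-complement, and W(T) controls strong fusion in every section G* = K/R of G all of whose sections are p-stable in the normalizer form, for every Sylow p-subgroup T of G*. Then G has a normal p-complement. -/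
theorem result {G : Type u} [Group G] [Finite G] {p : ℕ} [Fact p.Prime] (hp : p ≠ 2) (W : ∀ (Q : Type u) [Group Q], Subgroup Q) (hW : Cfsg.IsCharPFunctor.{u} p W) (S : Sylow p G) (hN : Cfsg.HasNormalPComplement p ↥(Subgroup.normalizer ((Cfsg.inducedFunctor (G := G) W (S : Subgroup G) : Subgroup G) : Set G))) (hctl : ∀ (K R : Subgroup G) [hR : (R.subgroupOf K).Normal], (∀ (K' R' : Subgroup (↥K ⧸ R.subgroupOf K)) [hR' : (R'.subgroupOf K').Normal], Cfsg.IsNormalizerPStable p (↥K' ⧸ R'.subgroupOf K')) → ∀ T : Sylow p (↥K ⧸ R.subgroupOf K), Cfsg.ControlsStrongFusion p (Cfsg.inducedFunctor (G := (↥K ⧸ R.subgroupOf K)) W (T : Subgroup (↥K ⧸ R.subgroupOf K)))) : Cfsg.HasNormalPComplement p G := by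

  classical
  refine Cfsg.Agent.Helper10.npc_reduction W hW (fun H _ => Cfsg.Agent.Helper10.IsSec G H)
    (fun H _ _ h L => h.sub L) (fun H _ _ h M _ => h.quot M) ?_ (Nat.card G) G rfl
    (Cfsg.Agent.Helper10.IsSec.refl G) S hN
  intro H _ _ hsec T hms hT
  obtain ⟨K, R, hR, ⟨e⟩⟩ := hsec.exists_iso
  haveI : Finite (↥K ⧸ R.subgroupOf K) := Finite.of_equiv H e.symm.toEquiv
  have hdagX : Cfsg.Agent.Helper10.Dag p (↥K ⧸ R.subgroupOf K) :=
    hms.dag.surj e.symm.toMonoidHom e.symm.surjective
  have hc := hctl K R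
    (fun K' R' _ => Cfsg.Agent.Helper10.nps_of_dag hp
      ((hdagX.sub K').surj (QuotientGroup.mk' _) (QuotientGroup.mk'_surjective _)))
    (Cfsg.Agent.Helper10.sylowEquiv e T)
  have h2 : Cfsg.inducedFunctor W (T : Subgroup H) =
      (Cfsg.inducedFunctor W ((Cfsg.Agent.Helper10.sylowEquiv e T : Sylow p _) :
        Subgroup (↥K ⧸ R.subgroupOf K))).map e.toMonoidHom := by
    rw [← Cfsg.Agent.Helper10.ind_map_inj W hW e.toMonoidHom e.injective _
      (Cfsg.Agent.Helper10.sylowEquiv e T).2, Cfsg.Agent.Helper10.map_sylowEquiv]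
  rw [h2, ← Subgroup.map_equiv_normalizer_eq] at hT
  have hT' := Cfsg.Agent.Helper10.npc_of_equiv
    (Subgroup.equivMapOfInjective _ e.toMonoidHom e.injective).symm hT
  exact hms.nnpc (Cfsg.Agent.Helper10.npc_of_equiv e
    (Cfsg.Agent.Helper10.npc_of_ctl W hW (Cfsg.Agent.Helper10.sylowEquiv e T) hT' hc))

end Cfsg.Agent.S1990
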