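import Cfsg.Statements.S2007
import Mathlib
import Cfsg.Agent.Helper10.NormalPComp
import Cfsg.Agent.Helper10.SylowAux

set_option autoImplicit false
open Cfsg

namespace Cfsg.Agent.S2007

/-- Let p be a prime, G a finite group with Sylow p-subgroup S, and T a normal subgroup of S containing C_S(T). If N_G(T)/C_G(T) is a p-group (every element of N_G(T) of order prime to p centralizes T), then N_G(T) has a normal p-complement. -/
theorem result {G : Type*} [Group G] [Finite G] {p : ℕ} [Fact p.Prime] (S : Sylow p G) (T : Subgroup G) (hTS : T ≤ (S : Subgroup G)) (hTn : (S : Subgroup G) ≤ Subgroup.normalizer ((T : Subgroup G) : Set G)) (hC : (S : Subgroup G) ⊓ Subgroup.centralizer ((T : Subgroup G) : Set G) ≤ T) (hN : ∀ g ∈ Subgroup.normalizer ((T : Subgroup G) : Set G), (orderOf g).Coprime p → g ∈ Subgroup.centralizer ((T : Subgroup G) : Set G)) : Cfsg.HasNormalPComplement p ↥(Subgroup.normalizer ((T : Subgroup G) : Set G)) := by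
  obtain ⟨N, hNdef⟩ : ∃ N, N = Subgroup.normalizer ((T : Subgroup G) : Set G) := ⟨_, rfl⟩
  obtain ⟨Cz, hCz⟩ : ∃ Cz, Cz = Subgroup.centralizer ((T : Subgroup G) : Set G) := ⟨_, rfl⟩
  rw [← hNdef] at hTn hN ⊢
  rw [← hCz] at hC hN
  have hCN : Cz ≤ N := by rw [hCz, hNdef]; exact Subgroup.centralizer_le_normalizer _
  have hconjC : ∀ h ∈ N, ∀ c ∈ Cz, h⁻¹ * c * h ∈ Cz := by
    intro h hh c hc
    rw [hCz, Subgroup.mem_centralizer_iff] at hc ⊢
    intro t ht
    have h1 : h * t * h⁻¹ ∈ T := by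
      rw [hNdef, Subgroup.mem_normalizer_iff] at hh
      exact (hh t).1 ht
    have h2 := hc _ h1
    calc t * (h⁻¹ * c * h) = h⁻¹ * ((h * t * h⁻¹) * c) * h := by group
      _ = h⁻¹ * (c * (h * t * h⁻¹)) * h := by rw [h2]
      _ = h⁻¹ * c * h * t := by group
  have hA : ∀ x ∈ Cz, (∃ k : ℕ, orderOf x = p ^ k) → ∀ c ∈ Cz, c * x = x * c := by
    rintro x hx ⟨k, hk⟩ c hc
    have hQ : IsPGroup p (Subgroup.zpowers x) :=
      IsPGroup.of_card (n := k) (by rw [Nat.card_zpowers, hk])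
    have hQN : Subgroup.zpowers x ≤ N := by rw [Subgroup.zpowers_le]; exact hCN hx
    obtain ⟨h, hh, hconj⟩ := Cfsg.Agent.Helper10.exists_conj_mem_sylow_of_le N S hTn
      (Subgroup.zpowers x) hQ hQN
    have hx' : h⁻¹ * x * h ∈ (S : Subgroup G) ⊓ Cz :=
      Subgroup.mem_inf.2 ⟨hconj x (Subgroup.mem_zpowers x), hconjC h hh x hx⟩
    have hxT : h⁻¹ * x * h ∈ T := hC hx'
    have hc' : h⁻¹ * c * h ∈ Cz := hconjC h hh c hc
    rw [hCz, Subgroup.mem_centralizer_iff] at hc'
    have h3 := hc' _ hxT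
    calc c * x = h * ((h⁻¹ * c * h) * (h⁻¹ * x * h)) * h⁻¹ := by group
      _ = h * ((h⁻¹ * x * h) * (h⁻¹ * c * h)) * h⁻¹ := by rw [h3]
      _ = x * c := by group
  have hB : ∀ x : Cz, (∃ k : ℕ, orderOf x = p ^ k) → x ∈ Subgroup.center Cz := by
    rintro x ⟨k, hk⟩
    rw [Subgroup.mem_center_iff]
    intro c
    apply Subtype.ext
    exact hA x x.2 ⟨k, by rw [Subgroup.orderOf_coe]; exact hk⟩ c c.2
  obtain ⟨K, hKn, hKcop, hKmem⟩ := Cfsg.Agent.Helper10.exists_normal_pprime_of_central hB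
  apply Cfsg.Agent.Helper10.hasNormalPComplement_of_coprime_pResidual
  have hle : Cfsg.pResidual p N ≤ (K.map Cz.subtype).subgroupOf N := by
    show Subgroup.closure _ ≤ _
    rw [Subgroup.closure_le]
    intro g hg
    have hg' : Nat.Coprime (orderOf g) p := hg
    have hg2 : Nat.Coprime (orderOf (g : G)) p := by rw [Subgroup.orderOf_coe]; exact hg'
    have hgC : (g : G) ∈ Cz := hN g g.2 hg2
    show (g : G) ∈ K.map Cz.subtype
    refine Subgroup.mem_map.2 ⟨⟨g, hgC⟩, hKmem _ ?_, rfl⟩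
    rw [Subgroup.orderOf_mk]; exact hg2
  have hcard : Nat.card ((K.map Cz.subtype).subgroupOf N) = Nat.card K := by
    have hKN : K.map Cz.subtype ≤ N := (Subgroup.map_subtype_le K).trans hCN
    rw [Nat.card_congr (Subgroup.subgroupOfEquivOfLe hKN).toEquiv, Subgroup.card_subtype]
  have hdvd : Nat.card (Cfsg.pResidual p N) ∣ Nat.card K := by
    rw [← hcard]; exact Subgroup.card_dvd_of_le hle
  exact Nat.Coprime.coprime_dvd_left hdvd hKcop

end Cfsg.Agent.S2007
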