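import Cfsg.Statements.S1988
import Mathlib
import Cfsg.Agent.Helper10.KStable
import Cfsg.Agent.S1987
import Cfsg.Agent.S1990
import Cfsg.Agent.S2007
import Cfsg.Agent.S1978

set_option autoImplicit false
universe u
open Cfsg

namespace Cfsg.Agent.S1988

/-- Let p be an odd prime, G a finite group with Sylow p-subgroup S and K the lower K-infinity subgroup of S. If N_G(K) has a normal p-complement, or if N_G(K)/C_G(K) is a p-group (every element of N_G(K) of order prime to p centralizes K), then G has a normal p-complement. -/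
theorem result {G : Type u} [Group G] [Finite G] {p : ℕ} [Fact p.Prime] (hp : p ≠ 2) (S : Sylow p G) (h : Cfsg.HasNormalPComplement p ↥(Subgroup.normalizer ((Cfsg.inducedFunctor Cfsg.kInfLower (S : Subgroup G) : Subgroup G) : Set G)) ∨ ∀ g ∈ Subgroup.normalizer ((Cfsg.inducedFunctor Cfsg.kInfLower (S : Subgroup G) : Subgroup G) : Set G), (orderOf g).Coprime p → g ∈ Subgroup.centralizer ((Cfsg.inducedFunctor Cfsg.kInfLower (S : Subgroup G) : Subgroup G) : Set G)) : Cfsg.HasNormalPComplement p G := by
  have hSp : IsPGroup p ↥(S : Subgroup G) := S.2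
  have hN : Cfsg.HasNormalPComplement p ↥(Subgroup.normalizer
      ((Cfsg.inducedFunctor Cfsg.kInfLower (S : Subgroup G) : Subgroup G) : Set G)) := by
    rcases h with h | h
    · exact h
    · refine Cfsg.Agent.S2007.result S _
        (Cfsg.Agent.Helper10.ind_le (fun (Q : Type u) [Group Q] => Cfsg.kInfLower Q) _) ?_ ?_ h
      · exact Subgroup.le_normalizer.trans
          (Cfsg.Agent.Helper10.normalizer_le_normalizer_ind
            (fun (Q : Type u) [Group Q] => Cfsg.kInfLower Q)
            Cfsg.Agent.Helper10.isCharPFunctor_kInfLower (S : Subgroup G) hSp)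
      · rintro x ⟨hxS, hxc⟩
        have hxc' : x ∈ Subgroup.centralizer
            ((Cfsg.inducedFunctor Cfsg.kInfLower (S : Subgroup G) : Subgroup G) : Set G) := hxc
        rw [Subgroup.mem_centralizer_iff] at hxc'
        have h1 : (⟨x, hxS⟩ : ↥(S : Subgroup G)) ∈
            Subgroup.centralizer (Cfsg.kInfLower ↥(S : Subgroup G) : Set ↥(S : Subgroup G)) := by
          rw [Subgroup.mem_centralizer_iff]
          intro y hy
          apply Subtype.ext
          exact hxc' (y : G) ⟨y, hy, rfl⟩
        exact ⟨⟨x, hxS⟩, (Cfsg.Agent.S1978.result hSp).1 h1, rfl⟩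
  exact Cfsg.Agent.S1990.result hp (fun (Q : Type u) [Group Q] => Cfsg.kInfLower Q)
    Cfsg.Agent.Helper10.isCharPFunctor_kInfLower S hN
    (fun K R _ hsec T => Cfsg.Agent.S1987.result hp hsec T)

end Cfsg.Agent.S1988
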