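import Cfsg.Statements.S2015
import Mathlib
import Cfsg.Agent.Helper10.KTransfer

set_option autoImplicit false
universe u
open Cfsg

namespace Cfsg.Agent.S2015

/-- For p ≥ 5, every finite p-group P has a characteristic subgroup K containing Z(P), depending only on P, whose normalizer controls transfer wherever P is a Sylow subgroup: for every finite group G and every embedding ι of P onto a Sylow p-subgroup of G, the intersection of ι(P) with the derived subgroup of G equals its intersection with the derived subgroup of N_G(ι(K)). -/
theorem result (p : ℕ) [Fact p.Prime] (hp : 5 ≤ p) (P : Type u) [Group P] [Finite P] (hP : IsPGroup p P) : ∃ K : Subgroup P, K.Characteristic ∧ Subgroup.center P ≤ K ∧ ∀ (G : Type u) [Group G] [Finite G] (ι : P →* G), Function.Injective ι → (∃ T : Sylow p G, (T : Subgroup G) = ι.range) → ι.range ⊓ commutator G = ι.range ⊓ (commutator ↥(Subgroup.normalizer ((K.map ι : Subgroup G) : Set G))).map (Subgroup.normalizer ((K.map ι : Subgroup G) : Set G)).subtype := by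
  refine ⟨Cfsg.kInfLower P, ?_, ?_, ?_⟩
  · exact Subgroup.characteristic_iff_map_eq.2 fun φ =>
      Cfsg.Agent.Helper10.kInfLower_map_equiv φ
  · obtain ⟨h1, h2, -, -⟩ := Cfsg.Agent.S1978.result hP
    exact h2.trans h1
  · intro G _ _ ι hι hT
    obtain ⟨T, hT⟩ := hT
    have hKι : (Cfsg.kInfLower P).map ι =
        Cfsg.inducedFunctor Cfsg.kInfLower (T : Subgroup G) := by
      rw [hT]
      have h1 := Cfsg.Agent.Helper10.kInfLower_map_equiv (MonoidHom.ofInjective hι)
      show _ = (Cfsg.kInfLower ↥ι.range).map ι.range.subtype
      rw [← h1, Subgroup.map_map]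
      rfl
    rw [hKι, Subgroup.map_subtype_commutator, ← hT]
    have h2 := Cfsg.Agent.Helper10.tctl_kInfLower hp G T
    apply le_antisymm
    · refine le_trans h2 ?_
      apply Cfsg.Agent.Helper10.tfoc_le_of
      intro W' hW'
      rw [Set.mem_singleton_iff.mp hW']
    · rw [_root_.commutator_def]
      exact inf_le_inf_left _ (Subgroup.commutator_mono le_top le_top)

end Cfsg.Agent.S2015
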