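import Cfsg.Statements.S2162
import Mathlib
-- import your own Cfsg.Agent.* helpers here

set_option autoImplicit false
open Cfsg

namespace Cfsg.Agent.S2162

open Matrix

theorem nf {F V : Type*} [Field F] [AddCommGroup V] [Module F V] [FiniteDimensional F V]
    (N : V →ₗ[F] V) (hN : N ∘ₗ N = 0) (r m : ℕ)
    (hr : Module.finrank F (LinearMap.range N) = r)
    (hV : Module.finrank F V = r + r + m) :
    ∃ b : Module.Basis (Fin r ⊕ (Fin r ⊕ Fin m)) F V,
      (∀ i, N (b (Sum.inl i)) = b (Sum.inr (Sum.inl i))) ∧ ∀ x, N (b (Sum.inr x)) = 0 := by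
  classical
  have hNN : ∀ v, N (N v) = 0 := fun v => by
    have h0 := congrArg (fun f => f v) hN
    simpa using h0
  obtain ⟨C, hC⟩ := Submodule.exists_isCompl (LinearMap.ker N)
  set K := LinearMap.ker N with hK
  set R' : Submodule F K := (LinearMap.range N).comap K.subtype with hR'
  let f : C →ₗ[F] R' := LinearMap.codRestrict R'
    (LinearMap.codRestrict K (N ∘ₗ C.subtype) (fun c => LinearMap.mem_ker.mpr (hNN _)))
    (fun c => ⟨c, rfl⟩)
  have hfv : ∀ c : C, (((f c : R') : K) : V) = N (c : V) := fun c => rfl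
  have hf : Function.Bijective f := by
    constructor
    · rw [← LinearMap.ker_eq_bot, LinearMap.ker_eq_bot']
      intro c hc
      have h1 : N (c : V) = 0 := by rw [← hfv, hc]; rfl
      have h2 : (c : V) ∈ K ⊓ C := ⟨LinearMap.mem_ker.mpr h1, c.2⟩
      rw [hC.inf_eq_bot] at h2
      exact Subtype.ext ((Submodule.mem_bot F).mp h2)
    · intro y
      obtain ⟨x, hx⟩ : ((y : K) : V) ∈ LinearMap.range N := y.2
      have h1 : x ∈ K ⊔ C := by rw [hC.sup_eq_top]; trivial
      obtain ⟨k, hk, c, hc, hkc⟩ := Submodule.mem_sup.mp h1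
      refine ⟨⟨c, hc⟩, ?_⟩
      apply Subtype.ext
      apply Subtype.ext
      rw [hfv, ← hx, ← hkc, map_add, LinearMap.mem_ker.mp hk, zero_add]
  let φ : C ≃ₗ[F] R' := LinearEquiv.ofBijective f hf
  obtain ⟨D, hD⟩ := Submodule.exists_isCompl R'
  have hKdim : Module.finrank F K = r + m := by
    have h1 : Module.finrank F (LinearMap.range N) + Module.finrank F K
        = Module.finrank F V := LinearMap.finrank_range_add_finrank_ker N
    rw [hr, hV] at h1
    omega
  have hCdim : Module.finrank F C = r := by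
    have h1 := Submodule.finrank_add_eq_of_isCompl hC
    rw [hKdim, hV] at h1
    omega
  have hR'dim : Module.finrank F R' = r := by rw [← φ.finrank_eq, hCdim]
  have hDdim : Module.finrank F D = m := by
    have h1 := Submodule.finrank_add_eq_of_isCompl hD
    rw [hR'dim, hKdim] at h1
    omega
  let bC : Module.Basis (Fin r) F C := Module.finBasisOfFinrankEq F C hCdim
  let bD : Module.Basis (Fin m) F D := Module.finBasisOfFinrankEq F D hDdim
  let bK : Module.Basis (Fin r ⊕ Fin m) F K :=
    ((bC.map φ).prod bD).map (Submodule.prodEquivOfIsCompl R' D hD)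
  let b : Module.Basis (Fin r ⊕ (Fin r ⊕ Fin m)) F V :=
    (bC.prod bK).map (Submodule.prodEquivOfIsCompl C K hC.symm)
  have hb1 : ∀ i, b (Sum.inl i) = (bC i : V) := by
    intro i
    simp [b]
  have hb2 : ∀ x, b (Sum.inr x) = ((bK x : K) : V) := by
    intro x
    simp [b]
  have hbK : ∀ i, bK (Sum.inl i) = ((φ (bC i) : R') : K) := by
    intro i
    simp [bK]
  refine ⟨b, ?_, ?_⟩
  · intro i
    rw [hb1, hb2, hbK]
    rfl
  · intro x
    rw [hb2]
    exact LinearMap.mem_ker.mp (bK x).2

theorem rank_of_conj {F : Type*} [Field F] {n : ℕ} (a b : Matrix.SpecialLinearGroup (Fin n) F)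
    (h : IsConj a b) :
    ((a : Matrix (Fin n) (Fin n) F) - 1).rank = ((b : Matrix (Fin n) (Fin n) F) - 1).rank := by
  obtain ⟨c, hc⟩ := isConj_iff.mp h
  have h0 : c * a = b * c := by
    rw [← hc]
    group
  have h2 : (c : Matrix (Fin n) (Fin n) F) * (a : Matrix (Fin n) (Fin n) F)
      = (b : Matrix (Fin n) (Fin n) F) * (c : Matrix (Fin n) (Fin n) F) := by
    have := congrArg (fun x : Matrix.SpecialLinearGroup (Fin n) F => (x : Matrix (Fin n) (Fin n) F)) h0
    simpa using this
  have h1 : (c : Matrix (Fin n) (Fin n) F) * ((a : Matrix (Fin n) (Fin n) F) - 1)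
      = ((b : Matrix (Fin n) (Fin n) F) - 1) * (c : Matrix (Fin n) (Fin n) F) := by
    rw [mul_sub, sub_mul, h2, mul_one, one_mul]
  have hdet : IsUnit (c : Matrix (Fin n) (Fin n) F).det := by
    rw [c.2]
    exact isUnit_one
  rw [← Matrix.rank_mul_eq_right_of_isUnit_det _ ((a : Matrix (Fin n) (Fin n) F) - 1) hdet, h1,
    Matrix.rank_mul_eq_left_of_isUnit_det _ _ hdet]

theorem conj_of_rank {F : Type*} [Field F] [Fintype F] [CharP F 2] {n : ℕ}
    (a b : Matrix.SpecialLinearGroup (Fin n) F) (ha : orderOf a = 2) (hb : orderOf b = 2)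
    (h : ((a : Matrix (Fin n) (Fin n) F) - 1).rank = ((b : Matrix (Fin n) (Fin n) F) - 1).rank) :
    IsConj a b := by
  classical
  have h2 : (2 : F) = 0 := by
    have := CharP.cast_eq_zero F 2
    exact_mod_cast this
  have sq : ∀ (c : Matrix.SpecialLinearGroup (Fin n) F), orderOf c = 2 →
      ((c : Matrix (Fin n) (Fin n) F) - 1) * ((c : Matrix (Fin n) (Fin n) F) - 1) = 0 := by
    intro c hc
    have h1 : c ^ 2 = 1 := by
      rw [← hc]
      exact pow_orderOf_eq_one c
    have h3 : (c : Matrix (Fin n) (Fin n) F) * (c : Matrix (Fin n) (Fin n) F) = 1 := by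
      have := congrArg (fun x : Matrix.SpecialLinearGroup (Fin n) F =>
        (x : Matrix (Fin n) (Fin n) F)) h1
      simpa [pow_two] using this
    have h4 : ((c : Matrix (Fin n) (Fin n) F) - 1) * ((c : Matrix (Fin n) (Fin n) F) - 1)
        = (2 : F) • (1 - (c : Matrix (Fin n) (Fin n) F)) := by
      rw [sub_mul, mul_sub, h3, mul_one, one_mul, two_smul]
      abel
    rw [h4, h2, zero_smul]
  set A := (a : Matrix (Fin n) (Fin n) F) with hA
  set B := (b : Matrix (Fin n) (Fin n) F) with hB
  set r := (A - 1).rank with hr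
  have hra : Module.finrank F (LinearMap.range (A - 1).mulVecLin) = r := rfl
  have hrb : Module.finrank F (LinearMap.range (B - 1).mulVecLin) = r := h.symm
  have hNa : (A - 1).mulVecLin ∘ₗ (A - 1).mulVecLin = 0 := by
    rw [← Matrix.mulVecLin_mul, sq a ha]
    simp
  have hNb : (B - 1).mulVecLin ∘ₗ (B - 1).mulVecLin = 0 := by
    rw [← Matrix.mulVecLin_mul, sq b hb]
    simp
  have hle : r + r ≤ n := by
    have h1 : Module.finrank F (LinearMap.range (A - 1).mulVecLin)
        + Module.finrank F (LinearMap.ker (A - 1).mulVecLin)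
        = Module.finrank F (Fin n → F) := LinearMap.finrank_range_add_finrank_ker _
    have h3 : LinearMap.range (A - 1).mulVecLin ≤ LinearMap.ker (A - 1).mulVecLin := by
      rintro _ ⟨x, rfl⟩
      rw [LinearMap.mem_ker]
      have := congrArg (fun f => f x) hNa
      simpa using this
    have h4 := Submodule.finrank_mono h3
    rw [hra] at h1 h4
    rw [Module.finrank_fin_fun] at h1
    omega
  obtain ⟨m, hm⟩ : ∃ m, n = r + r + m := ⟨n - (r + r), by omega⟩
  have hV : Module.finrank F (Fin n → F) = r + r + m := by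
    rw [Module.finrank_fin_fun]
    exact hm
  obtain ⟨ba, ha1, ha2⟩ := nf (A - 1).mulVecLin hNa r m hra hV
  obtain ⟨bb, hb1, hb2⟩ := nf (B - 1).mulVecLin hNb r m hrb hV
  have hr1 : 0 < r := by
    by_contra h0
    have h0' : r = 0 := by omega
    have h3 : LinearMap.range (A - 1).mulVecLin = ⊥ := by
      apply Submodule.finrank_eq_zero.mp
      rw [hra, h0']
    have h4 : A - 1 = 0 := by
      ext i j
      have h5 : (A - 1).mulVecLin (Pi.single j 1) = 0 := by
        have : (A - 1).mulVecLin (Pi.single j 1) ∈ LinearMap.range (A - 1).mulVecLin :=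
          LinearMap.mem_range_self _ _
        rw [h3] at this
        exact (Submodule.mem_bot F).mp this
      have h6 := congrFun h5 i
      rw [Matrix.mulVecLin_apply, Matrix.mulVec_single_one] at h6
      exact h6
    have h5 : a = 1 := by
      apply Subtype.ext
      exact sub_eq_zero.mp h4
    rw [h5, orderOf_one] at ha
    omega
  set i0 : Fin r := ⟨0, hr1⟩ with hi0
  set G : (Fin n → F) ≃ₗ[F] (Fin n → F) := ba.equiv bb (Equiv.refl _) with hG
  have hGb : ∀ x, G (ba x) = bb x := fun x => by
    rw [hG, Module.Basis.equiv_apply]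
    rfl
  have hδ : LinearMap.det G.toLinearMap ≠ 0 := (LinearEquiv.isUnit_det' G).ne_zero
  obtain ⟨lam, hlam⟩ := FiniteField.isSquare_of_char_two (ringChar.eq F 2)
    (LinearMap.det G.toLinearMap)⁻¹
  have hlam0 : lam ≠ 0 := by
    rintro rfl
    rw [mul_zero] at hlam
    exact inv_ne_zero hδ hlam
  set w : Fin r ⊕ (Fin r ⊕ Fin m) → Fˣ :=
    Sum.elim (fun i => if i = i0 then Units.mk0 lam hlam0 else 1)
      (Sum.elim (fun i => if i = i0 then Units.mk0 lam hlam0 else 1) (fun _ => 1)) with hw
  set c : (Fin n → F) ≃ₗ[F] (Fin n → F) := ba.equiv (ba.unitsSMul w) (Equiv.refl _) with hc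
  have hcb : ∀ x, c (ba x) = (w x : F) • ba x := fun x => by
    rw [hc, Module.Basis.equiv_apply, Module.Basis.unitsSMul_apply]
    rfl
  have hdetc : LinearMap.det c.toLinearMap = lam * lam := by
    rw [← LinearMap.det_toMatrix ba]
    have h3 : LinearMap.toMatrix ba ba c.toLinearMap = Matrix.diagonal (fun x => (w x : F)) := by
      ext x y
      rw [LinearMap.toMatrix_apply, LinearEquiv.coe_coe, hcb, map_smul, Module.Basis.repr_self,
        Finsupp.smul_apply, Finsupp.single_apply, Matrix.diagonal_apply]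
      by_cases hxy : x = y
      · subst hxy
        simp
      · rw [if_neg hxy, if_neg (fun h' => hxy h'.symm)]
        simp
    have hp : ∏ x : Fin r, ((if x = i0 then Units.mk0 lam hlam0 else 1 : Fˣ) : F) = lam := by
      rw [Finset.prod_eq_single i0]
      · simp
      · intro y _ hy
        simp [hy]
      · intro h'
        exact absurd (Finset.mem_univ _) h'
    rw [h3, Matrix.det_diagonal, Fintype.prod_sum_type, Fintype.prod_sum_type]
    simp only [hw, Sum.elim_inl, Sum.elim_inr, Units.val_one, Finset.prod_const_one, mul_one]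
    rw [hp]
  set hh : (Fin n → F) ≃ₗ[F] (Fin n → F) := c.trans G with hhh
  have hhb : ∀ x, hh (ba x) = (w x : F) • bb x := fun x => by
    rw [hhh, LinearEquiv.trans_apply, hcb, map_smul, hGb]
  have hcomm : hh.toLinearMap ∘ₗ (A - 1).mulVecLin = (B - 1).mulVecLin ∘ₗ hh.toLinearMap := by
    apply ba.ext
    intro x
    rw [LinearMap.comp_apply, LinearMap.comp_apply]
    show hh ((A - 1).mulVecLin (ba x)) = (B - 1).mulVecLin (hh (ba x))
    rw [hhb, map_smul]
    rcases x with i | y
    · rw [ha1, hhb, hb1]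
      simp [hw]
    · rw [ha2, hb2, map_zero, smul_zero]
  set H := LinearMap.toMatrix' hh.toLinearMap with hH
  have hHdet : H.det = 1 := by
    rw [hH, LinearMap.det_toMatrix', hhh]
    have : (c.trans G).toLinearMap = G.toLinearMap ∘ₗ c.toLinearMap := rfl
    rw [this, LinearMap.det_comp, hdetc, ← hlam, mul_inv_cancel₀ hδ]
  have hHAB : H * (A - 1) = (B - 1) * H := by
    have hT : ∀ M : Matrix (Fin n) (Fin n) F, LinearMap.toMatrix' M.mulVecLin = M :=
      fun M => LinearMap.toMatrix'_toLin' M
    have h3 := congrArg LinearMap.toMatrix' hcomm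
    rw [LinearMap.toMatrix'_comp, LinearMap.toMatrix'_comp, hT, hT] at h3
    exact h3
  have hHAB' : H * A = B * H := by
    have h3 : H * A = H * (A - 1) + H := by rw [mul_sub, mul_one]; abel
    rw [h3, hHAB, sub_mul, one_mul]
    abel
  obtain ⟨hS, hhS⟩ : ∃ hS : Matrix.SpecialLinearGroup (Fin n) F,
      (hS : Matrix (Fin n) (Fin n) F) = H := ⟨⟨H, hHdet⟩, rfl⟩
  have key : hS * a = b * hS := by
    apply Subtype.ext
    show (hS : Matrix (Fin n) (Fin n) F) * A = B * (hS : Matrix (Fin n) (Fin n) F)
    rw [hhS]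
    exact hHAB'
  rw [isConj_iff]
  exact ⟨hS, by rw [key]; group⟩


/-- Conjugacy of involutions in the special linear group over a finite field of characteristic two, in dimension at least 3: two elements of order 2 of SL_n(F) are conjugate in SL_n(F) exactly when the matrices a − 1 and b − 1 have the same rank (the rank of a − 1 is the dimension of the commutator space [V, a]). -/
theorem result {F : Type*} [Field F] [Fintype F] [CharP F 2] {n : ℕ} (hn : 3 ≤ n) (a b : Matrix.SpecialLinearGroup (Fin n) F) (ha : orderOf a = 2) (hb : orderOf b = 2) :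
    IsConj a b ↔ ((a : Matrix (Fin n) (Fin n) F) - 1).rank = ((b : Matrix (Fin n) (Fin n) F) - 1).rank := by
  exact ⟨rank_of_conj a b, conj_of_rank a b ha hb⟩


end Cfsg.Agent.S2162
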