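import Cfsg.Statements.S2163
import Mathlib

set_option autoImplicit false
open Cfsg

namespace Cfsg.Agent.S2163

/-- The nilpotent matrix with an identity block of size `ℓ` in the lower-left corner. -/
def E (F : Type*) [Field F] (n ℓ : ℕ) : Matrix (Fin n) (Fin n) F :=
  Matrix.of (fun i j : Fin n => if j.val < ℓ ∧ i.val = j.val + (n - ℓ) then (1 : F) else 0)

def T (F : Type*) [Field F] (n ℓ : ℕ) : Matrix (Fin n) (Fin ℓ) F :=
  Matrix.of (fun i k => if i.val = k.val + (n - ℓ) then (1 : F) else 0)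

def U (F : Type*) [Field F] (n ℓ : ℕ) : Matrix (Fin ℓ) (Fin n) F :=
  Matrix.of (fun k j => if j.val = k.val then (1 : F) else 0)

theorem E_eq {F : Type*} [Field F] (n ℓ : ℕ) (h2 : ℓ ≤ n) : E F n ℓ = T F n ℓ * U F n ℓ := by
  ext i j
  simp only [E, T, U, Matrix.mul_apply, Matrix.of_apply]
  by_cases hj : j.val < ℓ
  · rw [Finset.sum_eq_single (⟨j.val, hj⟩ : Fin ℓ)]
    · simp [hj]
    · intro k _ hk
      have : j.val ≠ k.val := fun h => hk (Fin.ext h.symm)
      simp [this]
    · intro h; exact absurd (Finset.mem_univ _) h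
  · rw [Finset.sum_eq_zero]
    · simp [hj]
    · intro k _
      have : j.val ≠ k.val := fun h => hj (h ▸ k.2)
      simp [this]

theorem TT {F : Type*} [Field F] (n ℓ : ℕ) (h2 : ℓ ≤ n) : (T F n ℓ).transpose * T F n ℓ = 1 := by
  ext k k'
  simp only [T, Matrix.mul_apply, Matrix.of_apply, Matrix.transpose_apply, Matrix.one_apply]
  have hk : k.val + (n - ℓ) < n := by have := k.2; omega
  rw [Finset.sum_eq_single (⟨k.val + (n - ℓ), hk⟩ : Fin n)]
  · by_cases h : k = k'
    · subst h; simp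
    · have : k.val ≠ k'.val := fun h' => h (Fin.ext h')
      simp [h, this]
  · intro i _ hi
    have : i.val ≠ k.val + (n - ℓ) := fun h => hi (Fin.ext h)
    simp [this]
  · intro h; exact absurd (Finset.mem_univ _) h

theorem UU {F : Type*} [Field F] (n ℓ : ℕ) (h2 : ℓ ≤ n) : U F n ℓ * (U F n ℓ).transpose = 1 := by
  ext k k'
  simp only [U, Matrix.mul_apply, Matrix.of_apply, Matrix.transpose_apply, Matrix.one_apply]
  have hk : k.val < n := by have := k.2; omega
  rw [Finset.sum_eq_single (⟨k.val, hk⟩ : Fin n)]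
  · by_cases h : k = k'
    · subst h; simp
    · have : k.val ≠ k'.val := fun h' => h (Fin.ext h')
      simp [h, this]
  · intro j _ hj
    have : j.val ≠ k.val := fun h => hj (Fin.ext h)
    simp [this]
  · intro h; exact absurd (Finset.mem_univ _) h

theorem rank_E {F : Type*} [Field F] (n ℓ : ℕ) (h2 : ℓ ≤ n) : (E F n ℓ).rank = ℓ := by
  apply le_antisymm
  · rw [E_eq n ℓ h2]
    calc (T F n ℓ * U F n ℓ).rank ≤ (T F n ℓ).rank := Matrix.rank_mul_le_left _ _
      _ ≤ ℓ := Matrix.rank_le_width _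
  · have h1 : (1 : Matrix (Fin ℓ) (Fin ℓ) F) = (T F n ℓ).transpose * E F n ℓ * (U F n ℓ).transpose := by
      rw [E_eq n ℓ h2, ← Matrix.mul_assoc, TT n ℓ h2, Matrix.one_mul, UU n ℓ h2]
    calc ℓ = (1 : Matrix (Fin ℓ) (Fin ℓ) F).rank := by rw [Matrix.rank_one, Fintype.card_fin]
      _ = ((T F n ℓ).transpose * E F n ℓ * (U F n ℓ).transpose).rank := by rw [← h1]
      _ ≤ ((T F n ℓ).transpose * E F n ℓ).rank := Matrix.rank_mul_le_left _ _
      _ ≤ (E F n ℓ).rank := Matrix.rank_mul_le_right _ _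

theorem E_sq {F : Type*} [Field F] (n ℓ : ℕ) (h2 : 2 * ℓ ≤ n) : E F n ℓ * E F n ℓ = 0 := by
  ext i k
  simp only [E, Matrix.mul_apply, Matrix.of_apply, Matrix.zero_apply]
  apply Finset.sum_eq_zero
  intro j _
  by_cases hj : j.val < ℓ
  · have : ¬ (k.val < ℓ ∧ j.val = k.val + (n - ℓ)) := by
      rintro ⟨_, h⟩; omega
    simp [this]
  · simp [hj]

theorem det_one_add_E {F : Type*} [Field F] (n ℓ : ℕ) (h1 : 1 ≤ ℓ) (h2 : 2 * ℓ ≤ n) :
    (1 + E F n ℓ).det = 1 := by
  have htri : (1 + E F n ℓ).BlockTriangular OrderDual.toDual := by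
    intro i j hij
    have hij' : i < j := hij
    have hne : i ≠ j := ne_of_lt hij'
    have : ¬ (j.val < ℓ ∧ i.val = j.val + (n - ℓ)) := by
      rintro ⟨_, h⟩
      have : i.val < j.val := hij'
      omega
    simp [E, Matrix.one_apply, hne, this]
  rw [Matrix.det_of_isLowerTriangular _ htri]
  apply Finset.prod_eq_one
  intro i _
  have : ¬ (i.val < ℓ ∧ i.val = i.val + (n - ℓ)) := by
    rintro ⟨_, h⟩; omega
  simp only [E, Matrix.add_apply, Matrix.one_apply_eq, Matrix.of_apply, if_neg this, add_zero]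

/-- Over a finite field of characteristic two and for n ≥ 3: for every ℓ with 1 ≤ ℓ and 2ℓ ≤ n, the matrix j_ℓ that is the identity plus the entries 1 in positions (n − ℓ + i, i) for i < ℓ (an identity block of size ℓ in the lower left corner) lies in SL_n(F), has order 2, and j_ℓ − 1 has rank ℓ. Together with the conjugacy criterion by rank, these matrices represent the conjugacy classes of involutions of SL_n(F). -/
theorem result {F : Type*} [Field F] [Fintype F] [CharP F 2] {n : ℕ} (hn : 3 ≤ n) (ℓ : ℕ) (h1 : 1 ≤ ℓ) (h2 : 2 * ℓ ≤ n) :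
    ∃ a : Matrix.SpecialLinearGroup (Fin n) F, (a : Matrix (Fin n) (Fin n) F) = 1 + Matrix.of (fun i j : Fin n => if j.val < ℓ ∧ i.val = j.val + (n - ℓ) then (1 : F) else 0) ∧ orderOf a = 2 ∧ ((a : Matrix (Fin n) (Fin n) F) - 1).rank = ℓ := by
  refine ⟨⟨1 + E F n ℓ, det_one_add_E n ℓ h1 h2⟩, rfl, ?_, ?_⟩
  · have : Fact (Nat.Prime 2) := ⟨Nat.prime_two⟩
    apply orderOf_eq_prime
    · apply Subtype.ext
      show (1 + E F n ℓ) ^ 2 = 1
      have hE : E F n ℓ + E F n ℓ = 0 := by
        ext i j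
        simp only [Matrix.add_apply, Matrix.zero_apply]
        exact CharTwo.add_self_eq_zero _
      rw [pow_two, mul_add, add_mul, add_mul, E_sq n ℓ h2, one_mul, mul_one, Matrix.one_mul, add_zero,
        add_assoc, hE, add_zero]
    · intro h
      have h' := congrArg (fun a : Matrix.SpecialLinearGroup (Fin n) F =>
        (a : Matrix (Fin n) (Fin n) F) ⟨n - ℓ, by omega⟩ ⟨0, by omega⟩) h
      have hne : (⟨n - ℓ, by omega⟩ : Fin n) ≠ ⟨0, by omega⟩ := by
        intro h''
        have := congrArg Fin.val h''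
        simp only at this
        omega
      simp [E, Matrix.one_apply, hne, h1] at h'
      omega
  · show (1 + E F n ℓ - 1).rank = ℓ
    rw [add_sub_cancel_left]
    exact rank_E n ℓ (by omega)

end Cfsg.Agent.S2163
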