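import Cfsg.Statements.S2164
import Mathlib
import Cfsg.Agent.S0284
import Cfsg.Agent.S0277
import Cfsg.Agent.S0278
import Cfsg.Agent.S0751
import Cfsg.Agent.S0755
import Cfsg.Agent.S0792
import Cfsg.Agent.S0781
import Cfsg.Agent.S2162
-- import your own Cfsg.Agent.* helpers here

set_option autoImplicit false
open Cfsg

namespace Cfsg.Agent.S2164

open Matrix

section
variable {F : Type*} [Field F] [Fintype F] {q : ℕ} (hF : Fintype.card F = q ^ 2) {n : ℕ}

include hF in
/-- Structure of unitary involutions in characteristic two. -/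
theorem invol_struct (A : Matrix (Fin n) (Fin n) F) (h2 : (2 : F) = 0) (hAA : A * A = 1)
    (hiso : ∀ x y, hermForm n F q (A *ᵥ x) (A *ᵥ y) = hermForm n F q x y) (r : ℕ)
    (hr : (A - 1).rank = r) :
    ∃ (e f : Fin r → (Fin n → F)),
      (∀ i j, S0277.hB hF n (e i) (f j) = if i = j then 1 else 0) ∧
      (∀ i j, S0277.hB hF n (f i) (f j) = 0) ∧
      ∀ x, (A - 1) *ᵥ x = ∑ j, S0277.hB hF n (f j) x • f j := by
  classical
  set σ : F →+* F := S0284.frob hF with hσ
  set B : (Fin n → F) →ₛₗ[σ] (Fin n → F) →ₗ[F] F := S0277.hB hF n with hB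
  have hsym : ∀ x y, σ (B x y) = B y x := fun x y => S0284.herm_fix hF n y x
  have hσσ : ∀ x, σ (σ x) = x := S0284.frob_invol hF
  have hnd := S0277.hB_nondeg hF n
  set N := (A - 1).mulVecLin with hN
  have hsq : (A - 1) * (A - 1) = 0 := by
    have h4 : (A - 1) * (A - 1) = (2 : F) • (1 - A) := by
      rw [sub_mul, mul_sub, hAA, mul_one, one_mul, two_smul]
      abel
    rw [h4, h2, zero_smul]
  have hNN : ∀ v, N (N v) = 0 := by
    intro v
    show (A - 1) *ᵥ ((A - 1) *ᵥ v) = 0
    rw [Matrix.mulVec_mulVec, hsq, Matrix.zero_mulVec]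
  have hNapp : ∀ v, N v = A *ᵥ v - v := by
    intro v
    show (A - 1) *ᵥ v = _
    rw [Matrix.sub_mulVec, Matrix.one_mulVec]
  have hAAv : ∀ v, A *ᵥ (A *ᵥ v) = v := by
    intro v
    rw [Matrix.mulVec_mulVec, hAA, Matrix.one_mulVec]
  have hadjA : ∀ x y, B (A *ᵥ x) y = B x (A *ᵥ y) := by
    intro x y
    have h1 := hiso (A *ᵥ y) x
    rw [hAAv] at h1
    exact h1
  have hadj : ∀ x y, B (N x) y = B x (N y) := by
    intro x y
    rw [hNapp, hNapp, map_sub, LinearMap.sub_apply, map_sub, hadjA]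
  set K := LinearMap.ker N with hK
  obtain ⟨C, hC⟩ := Submodule.exists_isCompl K
  have hdec : ∀ v : Fin n → F, ∃ k ∈ K, ∃ c ∈ C, k + c = v := by
    intro v
    have h1 : v ∈ K ⊔ C := by rw [hC.sup_eq_top]; trivial
    exact Submodule.mem_sup.mp h1
  have hCdim : Module.finrank F C = r := by
    have h1 : Module.finrank F (LinearMap.range N) + Module.finrank F K
        = Module.finrank F (Fin n → F) := LinearMap.finrank_range_add_finrank_ker N
    have h3 := Submodule.finrank_add_eq_of_isCompl hC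
    have h4 : Module.finrank F (LinearMap.range N) = r := hr
    omega
  let Γ : C →ₛₗ[σ] C →ₗ[F] F := (B.compl₂ N).domRestrict₁₂ C C
  have hΓ : ∀ x y : C, Γ x y = B (x : Fin n → F) (N (y : Fin n → F)) := fun x y => rfl
  have hΓsym : Γ.IsSymm := LinearMap.isSymm_def.mpr (fun x y => by rw [hΓ, hΓ, hsym, hadj])
  have hΓnd : Γ.Nondegenerate := by
    constructor
    · intro x hx
      have h1 : N (x : Fin n → F) = 0 := by
        apply hnd.1
        intro v
        obtain ⟨k, hk, c, hc, rfl⟩ := hdec v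
        rw [hadj, map_add, LinearMap.mem_ker.mp hk, zero_add]
        exact hx ⟨c, hc⟩
      have h2' : (x : Fin n → F) ∈ K ⊓ C := ⟨LinearMap.mem_ker.mpr h1, x.2⟩
      rw [hC.inf_eq_bot] at h2'
      exact Subtype.ext ((Submodule.mem_bot F).mp h2')
    · intro y hy
      have h1 : N (y : Fin n → F) = 0 := by
        apply hnd.2
        intro v
        obtain ⟨k, hk, c, hc, rfl⟩ := hdec v
        rw [map_add, LinearMap.add_apply, ← hadj, LinearMap.mem_ker.mp hk, map_zero,
          LinearMap.zero_apply, zero_add]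
        exact hy ⟨c, hc⟩
      have h2' : (y : Fin n → F) ∈ K ⊓ C := ⟨LinearMap.mem_ker.mpr h1, y.2⟩
      rw [hC.inf_eq_bot] at h2'
      exact Subtype.ext ((Submodule.mem_bot F).mp h2')
  obtain ⟨b0, hb0⟩ := S0755.result σ (S0284.frob_ne hF) hσσ Γ hΓsym hΓnd
  set b : Module.Basis (Fin r) F C := b0.reindex (finCongr hCdim) with hb
  have hbb : ∀ i j, B (b i : Fin n → F) (N (b j : Fin n → F)) = if i = j then 1 else 0 := by
    intro i j
    have h1 := hb0 ((finCongr hCdim).symm i) ((finCongr hCdim).symm j)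
    rw [hΓ] at h1
    rw [hb, Module.Basis.reindex_apply, Module.Basis.reindex_apply, h1]
    simp
  have hz : ∀ z, (∀ i, B (b i : Fin n → F) (N z) = 0) → N z = 0 := by
    intro z hzi
    obtain ⟨k, hk, c, hc, rfl⟩ := hdec z
    rw [map_add, LinearMap.mem_ker.mp hk, zero_add] at hzi ⊢
    have h1 : c = ∑ j, b.repr ⟨c, hc⟩ j • (b j : Fin n → F) := by
      have h3 := congrArg (fun w : C => (w : Fin n → F)) (b.sum_repr ⟨c, hc⟩)
      simp only [Submodule.coe_sum, Submodule.coe_smul] at h3
      exact h3.symm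
    have h4 : ∀ i, b.repr ⟨c, hc⟩ i = 0 := by
      intro i
      have h5 := hzi i
      rw [h1, map_sum, map_sum] at h5
      simp only [map_smul, smul_eq_mul, hbb] at h5
      simpa using h5
    rw [h1, map_sum]
    apply Finset.sum_eq_zero
    intro j _
    rw [h4 j, zero_smul, map_zero]
  refine ⟨fun i => (b i : Fin n → F), fun j => N (b j : Fin n → F), hbb, ?_, ?_⟩
  · intro i j
    show B (N (b i : Fin n → F)) (N (b j : Fin n → F)) = 0
    rw [hadj, hNN, map_zero]
  · intro x
    have h1 : N (x - ∑ j, B (N (b j : Fin n → F)) x • (b j : Fin n → F)) = 0 := by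
      apply hz
      intro i
      rw [map_sub, map_sub, map_sum, map_sum]
      simp only [map_smul, smul_eq_mul, hbb, hadj]
      simp
    rw [map_sub, map_sum] at h1
    simp only [map_smul] at h1
    exact sub_eq_zero.mp h1

include hF in
theorem li_of_dual {r : ℕ} (e f : Fin r → (Fin n → F))
    (h : ∀ i j, S0277.hB hF n (e i) (f j) = if i = j then 1 else 0) :
    LinearIndependent F f := by
  classical
  rw [Fintype.linearIndependent_iff]
  intro g hg i
  have h1 := congrArg (S0277.hB hF n (e i)) hg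
  rw [map_sum, map_zero] at h1
  simp only [map_smul, smul_eq_mul, h] at h1
  simpa using h1

include hF in
/-- Witt: a unitary matrix mapping one totally isotropic independent family to another. -/
theorem exists_unitary {r : ℕ} (f f' : Fin r → (Fin n → F)) (hf : LinearIndependent F f)
    (hf' : LinearIndependent F f') (h0 : ∀ i j, S0277.hB hF n (f i) (f j) = 0)
    (h0' : ∀ i j, S0277.hB hF n (f' i) (f' j) = 0) :
    ∃ G : Matrix (Fin n) (Fin n) F,
      (∀ x y, hermForm n F q (G *ᵥ x) (G *ᵥ y) = hermForm n F q x y) ∧ ∀ j, G *ᵥ f j = f' j := by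
  classical
  set σ : F →+* F := S0284.frob hF with hσ
  set B : (Fin n → F) →ₛₗ[σ] (Fin n → F) →ₗ[F] F := S0277.hB hF n with hB
  have hσσ : ∀ x, σ (σ x) = x := S0284.frob_invol hF
  have hz : ∀ (f : Fin r → (Fin n → F)), (∀ i j, B (f i) (f j) = 0) →
      ∀ x x' : Submodule.span F (Set.range f), B (x : Fin n → F) (x' : Fin n → F) = 0 := by
    intro f h0 x x'
    have h1 : ∀ i, Submodule.span F (Set.range f) ≤ LinearMap.ker (B (f i)) := fun i =>
      Submodule.span_le.mpr (by
        rintro _ ⟨j, rfl⟩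
        exact h0 i j)
    have h2 : Submodule.span F (Set.range f) ≤ LinearMap.ker (B.flip (x' : Fin n → F)) :=
      Submodule.span_le.mpr (by
        rintro _ ⟨i, rfl⟩
        show B (f i) x' = 0
        exact h1 i x'.2)
    exact h2 x.2
  set φ := (Module.Basis.span hf).equiv (Module.Basis.span hf') (Equiv.refl _) with hφ
  obtain ⟨g, hg1, hg2⟩ := S0751.main σ (S0284.frob_ne hF) hσσ B (S0277.hB_symm hF n)
    (S0277.hB_nondeg hF n) _ _ φ (fun x x' => by rw [hz f' h0', hz f h0])
  refine ⟨LinearMap.toMatrix' g.toLinearMap, ?_, ?_⟩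
  · intro x y
    rw [LinearMap.toMatrix'_mulVec, LinearMap.toMatrix'_mulVec]
    exact hg1 y x
  · intro j
    rw [LinearMap.toMatrix'_mulVec]
    have h1 := hg2 (Module.Basis.span hf j)
    rw [hφ, Module.Basis.equiv_apply, Module.Basis.span_apply, Module.Basis.span_apply] at h1
    exact h1

include hF in
/-- Explicit unitary quasi-reflection along a unit vector. -/
theorem qrefl2 (w : Fin n → F) (hw : S0277.hB hF n w w = 1) (μ : F) (hμ : μ * μ ^ q = 1) :
    (∀ x, unitaryTransvection n q w (μ - 1) *ᵥ x = x + ((μ - 1) * S0277.hB hF n w x) • w) ∧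
    (∀ x y, hermForm n F q (unitaryTransvection n q w (μ - 1) *ᵥ x)
      (unitaryTransvection n q w (μ - 1) *ᵥ y) = hermForm n F q x y) ∧
    (unitaryTransvection n q w (μ - 1)).det = μ := by
  classical
  set σ : F →+* F := S0284.frob hF with hσ
  set B : (Fin n → F) →ₛₗ[σ] (Fin n → F) →ₗ[F] F := S0277.hB hF n with hB
  have hsym : ∀ x y, σ (B x y) = B y x := fun x y => S0284.herm_fix hF n y x
  have hμ' : μ * σ μ = 1 := hμ
  have hD : ∀ z, unitaryTransvection n q w (μ - 1) *ᵥ z = z + ((μ - 1) * B w z) • w :=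
    fun z => S0781.tv_mulVec q w (μ - 1) z
  refine ⟨hD, ?_, ?_⟩
  · intro x y
    show B (unitaryTransvection n q w (μ - 1) *ᵥ y) (unitaryTransvection n q w (μ - 1) *ᵥ x)
      = B y x
    rw [hD, hD]
    simp only [map_add, map_smul, map_smulₛₗ, LinearMap.add_apply, LinearMap.smul_apply,
      smul_eq_mul, map_mul, map_sub, map_one, hw]
    rw [← hsym w y]
    linear_combination (B w x * σ (B w y)) * hμ'
  · unfold unitaryTransvection
    rw [← Matrix.smul_vecMulVec, Matrix.vecMulVec_eq Unit,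
      Matrix.det_one_add_replicateCol_mul_replicateRow, dotProduct_smul, S0781.dot_pow]
    show 1 + (μ - 1) • B w w = μ
    rw [hw, smul_eq_mul]
    ring

include hF in
theorem main [CharP F 2] (a b : ↥(Cfsg.SU n F q)) (ha : orderOf a = 2) (hb : orderOf b = 2)
    (h : (((a : Matrix.SpecialLinearGroup (Fin n) F) : Matrix (Fin n) (Fin n) F) - 1).rank
      = (((b : Matrix.SpecialLinearGroup (Fin n) F) : Matrix (Fin n) (Fin n) F) - 1).rank) :
    IsConj a b := by
  classical
  set σ : F →+* F := S0284.frob hF with hσ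
  set B : (Fin n → F) →ₛₗ[σ] (Fin n → F) →ₗ[F] F := S0277.hB hF n with hB
  have hsym : ∀ x y, σ (B x y) = B y x := fun x y => S0284.herm_fix hF n y x
  have hσσ : ∀ x, σ (σ x) = x := S0284.frob_invol hF
  have h2 : (2 : F) = 0 := by
    have := CharP.cast_eq_zero F 2
    exact_mod_cast this
  have hqeven : 2 ∣ q := by
    obtain ⟨k, hk2, hk⟩ := FiniteField.card F 2
    have h1 : 2 ∣ q ^ 2 := by
      rw [← hF, hk]
      exact dvd_pow_self 2 (by
        have := k.pos
        omega)
    exact Nat.Prime.dvd_of_dvd_pow Nat.prime_two h1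
  have sq : ∀ (c : ↥(Cfsg.SU n F q)), orderOf c = 2 →
      ((c : Matrix.SpecialLinearGroup (Fin n) F) : Matrix (Fin n) (Fin n) F)
        * ((c : Matrix.SpecialLinearGroup (Fin n) F) : Matrix (Fin n) (Fin n) F) = 1 := by
    intro c hc
    have h1 : c ^ 2 = 1 := by
      rw [← hc]
      exact pow_orderOf_eq_one c
    have := congrArg (fun x : ↥(Cfsg.SU n F q) =>
      ((x : Matrix.SpecialLinearGroup (Fin n) F) : Matrix (Fin n) (Fin n) F)) h1
    simpa [pow_two] using this
  set A := ((a : Matrix.SpecialLinearGroup (Fin n) F) : Matrix (Fin n) (Fin n) F) with hA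
  set B' := ((b : Matrix.SpecialLinearGroup (Fin n) F) : Matrix (Fin n) (Fin n) F) with hB'
  set r := (A - 1).rank with hr
  obtain ⟨e, f, hef, hff, hNa⟩ := invol_struct hF A h2 (sq a ha) (fun x y => a.2 x y) r rfl
  obtain ⟨e', f', hef', hff', hNb⟩ := invol_struct hF B' h2 (sq b hb) (fun x y => b.2 x y) r h.symm
  rw [← hB] at hef hff hNa hef' hff' hNb
  have hr1 : 0 < r := by
    by_contra h0
    have h0' : r = 0 := by omega
    have h4 : A - 1 = 0 := by
      apply S0792.mat_ext_mulVec
      intro x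
      rw [hNa x, Matrix.zero_mulVec]
      apply Finset.sum_eq_zero
      intro j _
      exact absurd j.2 (by omega)
    have h5 : a = 1 := by
      apply Subtype.ext
      apply Subtype.ext
      exact sub_eq_zero.mp h4
    rw [h5, orderOf_one] at ha
    omega
  obtain ⟨G, hG1, hG2⟩ := exists_unitary hF f f' (li_of_dual hF e f hef) (li_of_dual hF e' f' hef')
    hff hff'
  have hdG := S0278.det_norm hF n G hG1
  have hq := S0284.q_two_le hF
  have hdG0 : G.det ≠ 0 := by
    intro h0
    rw [h0, zero_pow (by omega)] at hdG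
    exact zero_ne_one hdG
  obtain ⟨k, hk⟩ := hqeven
  set ε : F := (G.det)⁻¹ with hε
  have hε1 : ε ^ (q + 1) = 1 := by rw [hε, inv_pow, hdG, inv_one]
  set μ : F := ε ^ (k + 1) with hμ
  have hμμ : μ * μ = ε := by
    rw [hμ, ← pow_add]
    have h1 : k + 1 + (k + 1) = q + 1 + 1 := by omega
    rw [h1, pow_succ, hε1, one_mul]
  have hμ1 : μ * μ ^ q = 1 := by
    rw [← pow_succ', hμ, ← pow_mul, mul_comm, pow_mul, hε1, one_pow]
  have hμσ : μ * σ μ = 1 := hμ1
  obtain ⟨θ, hθ⟩ := S0751.exists_theta σ (S0284.frob_ne hF) hσσ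
  set i0 : Fin r := ⟨0, hr1⟩ with hi0
  have hfe : ∀ i j, B (f j) (e i) = if i = j then 1 else 0 := by
    intro i j
    rw [← hsym, hef]
    split_ifs <;> simp
  set β : F := B (e i0) (e i0) with hβ
  have hβσ : σ β = β := hsym _ _
  set e0 : Fin n → F := e i0 + (θ * β) • f i0 with he0
  have he0f : ∀ j, B e0 (f j) = if i0 = j then 1 else 0 := by
    intro j
    rw [he0, map_add, LinearMap.add_apply, map_smulₛₗ, LinearMap.smul_apply, hff, hef]
    simp
  have hfe0 : ∀ j, B (f j) e0 = if i0 = j then 1 else 0 := by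
    intro j
    rw [← hsym, he0f]
    split_ifs <;> simp
  have he0e0 : B e0 e0 = 0 := by
    have h1 : B e0 e0 = β + θ * β + σ θ * β := by
      rw [he0]
      simp only [map_add, map_smul, map_smulₛₗ, LinearMap.add_apply, LinearMap.smul_apply,
        smul_eq_mul, map_mul, hff, hef, hfe, hβσ, if_true]
      rw [← hβ]
      ring
    rw [h1]
    linear_combination β * hθ + β * h2
  set w1 : Fin n → F := e0 + θ • f i0 with hw1
  set w2 : Fin n → F := e0 + σ θ • f i0 with hw2
  have hw1w1 : B w1 w1 = 1 := by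
    rw [hw1]
    simp only [map_add, map_smul, map_smulₛₗ, LinearMap.add_apply, LinearMap.smul_apply,
      smul_eq_mul, hff, he0f, hfe0, he0e0, if_true]
    linear_combination hθ
  have hw2w2 : B w2 w2 = 1 := by
    rw [hw2]
    simp only [map_add, map_smul, map_smulₛₗ, LinearMap.add_apply, LinearMap.smul_apply,
      smul_eq_mul, hff, he0f, hfe0, he0e0, if_true, hσσ]
    linear_combination hθ
  have hw1w2 : B w1 w2 = 0 := by
    rw [hw1, hw2]
    simp only [map_add, map_smul, map_smulₛₗ, LinearMap.add_apply, LinearMap.smul_apply,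
      smul_eq_mul, hff, he0f, hfe0, he0e0, if_true]
    linear_combination (σ θ) * h2
  have hw1f : ∀ j, B w1 (f j) = if i0 = j then 1 else 0 := by
    intro j
    rw [hw1, map_add, LinearMap.add_apply, map_smulₛₗ, LinearMap.smul_apply, hff, he0f]
    simp
  have hw2f : ∀ j, B w2 (f j) = if i0 = j then 1 else 0 := by
    intro j
    rw [hw2, map_add, LinearMap.add_apply, map_smulₛₗ, LinearMap.smul_apply, hff, he0f]
    simp
  obtain ⟨hD1, hD1iso, hD1det⟩ := qrefl2 hF w1 hw1w1 μ hμ1
  obtain ⟨hD2, hD2iso, hD2det⟩ := qrefl2 hF w2 hw2w2 μ hμ1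
  set D1 := unitaryTransvection n q w1 (μ - 1) with hD1def
  set D2 := unitaryTransvection n q w2 (μ - 1) with hD2def
  rw [← hB] at hD1 hD2
  set m : Fin r → F := fun j => if i0 = j then μ else 1 with hm
  have hmσ : ∀ j, m j * σ (m j) = 1 := by
    intro j
    rw [hm]
    by_cases hj : i0 = j
    · simp only [if_pos hj]
      exact hμσ
    · simp only [if_neg hj]
      simp
  have hDf : ∀ j, D1 *ᵥ (D2 *ᵥ f j) = m j • f j := by
    intro j
    rw [hD2, hw2f]
    by_cases hj : i0 = j
    · subst hj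
      rw [if_pos rfl, mul_one, hD1]
      simp only [map_add, map_smul, smul_eq_mul, hw1f, hw1w2, if_true, hm]
      have h3 : (2 : F) • e0 = 0 := by rw [h2, zero_smul]
      have h4 : σ θ = 1 - θ := by linear_combination hθ
      rw [hw1, hw2, h4]
      linear_combination (norm := module) (μ - 1) • h3
    · rw [if_neg hj, mul_zero, zero_smul, add_zero, hD1, hw1f, if_neg hj, mul_zero, zero_smul,
        add_zero, hm]
      simp only [if_neg hj, one_smul]
  set H := G * (D1 * D2) with hH
  have hHv : ∀ x, H *ᵥ x = G *ᵥ (D1 *ᵥ (D2 *ᵥ x)) := fun x => by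
    rw [hH, ← Matrix.mulVec_mulVec, ← Matrix.mulVec_mulVec]
  have hHiso : ∀ x y, hermForm n F q (H *ᵥ x) (H *ᵥ y) = hermForm n F q x y := by
    intro x y
    rw [hHv, hHv, hG1, hD1iso, hD2iso]
  have hHdet : H.det = 1 := by
    rw [hH, Matrix.det_mul, Matrix.det_mul, hD1det, hD2det, hμμ, hε, mul_inv_cancel₀ hdG0]
  have hHf : ∀ j, H *ᵥ f j = m j • f' j := by
    intro j
    rw [hHv, hDf, Matrix.mulVec_smul, hG2]
  clear_value H
  have hHB : ∀ j x, B (f' j) (H *ᵥ x) = m j * B (f j) x := by
    intro j x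
    have h1 : B (H *ᵥ f j) (H *ᵥ x) = B (f j) x := hHiso x (f j)
    rw [hHf, map_smulₛₗ, LinearMap.smul_apply, smul_eq_mul] at h1
    rw [← h1, ← mul_assoc, hmσ, one_mul]
  have hHAB : H * (A - 1) = (B' - 1) * H := by
    apply S0792.mat_ext_mulVec
    intro x
    rw [← Matrix.mulVec_mulVec, ← Matrix.mulVec_mulVec, hNa, hNb, Matrix.mulVec_sum]
    apply Finset.sum_congr rfl
    intro j _
    rw [Matrix.mulVec_smul, hHf, hHB, smul_smul, mul_comm]
  have hHAB' : H * A = B' * H := by
    have h3 : H * A = H * (A - 1) + H := by rw [mul_sub, mul_one]; abel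
    rw [h3, hHAB, sub_mul, one_mul]
    abel
  obtain ⟨c, hc⟩ : ∃ c : ↥(Cfsg.SU n F q),
      ((c : Matrix.SpecialLinearGroup (Fin n) F) : Matrix (Fin n) (Fin n) F) = H :=
    ⟨⟨⟨H, hHdet⟩, hHiso⟩, rfl⟩
  have key : c * a = b * c := by
    apply Subtype.ext
    apply Subtype.ext
    simp only [Subgroup.coe_mul, Matrix.SpecialLinearGroup.coe_mul]
    show ((c : Matrix.SpecialLinearGroup (Fin n) F) : Matrix (Fin n) (Fin n) F) * A
      = B' * ((c : Matrix.SpecialLinearGroup (Fin n) F) : Matrix (Fin n) (Fin n) F)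
    rw [hc]
    exact hHAB'
  rw [isConj_iff]
  exact ⟨c, by rw [key]; group⟩

end


/-- Conjugacy of involutions in the special unitary group SU_n(q), q even, n ≥ 3, realised over the field F with q² elements as the matrices of determinant 1 preserving the form Σ u_i v_i^q: for two elements of order 2 of SU_n(q) the following are equivalent — they are conjugate in SU_n(q); they are conjugate in SL_n(F); the matrices a − 1 and b − 1 have the same rank. -/
theorem result {F : Type*} [Field F] [Fintype F] [CharP F 2] {n q : ℕ} (hF : Fintype.card F = q ^ 2) (hn : 3 ≤ n) (a b : ↥(Cfsg.SU n F q)) (ha : orderOf a = 2) (hb : orderOf b = 2) :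
    (IsConj a b ↔ IsConj (a : Matrix.SpecialLinearGroup (Fin n) F) (b : Matrix.SpecialLinearGroup (Fin n) F)) ∧
    (IsConj a b ↔ (((a : Matrix.SpecialLinearGroup (Fin n) F) : Matrix (Fin n) (Fin n) F) - 1).rank = (((b : Matrix.SpecialLinearGroup (Fin n) F) : Matrix (Fin n) (Fin n) F) - 1).rank) := by
  have P1 : IsConj a b → IsConj (a : Matrix.SpecialLinearGroup (Fin n) F)
      (b : Matrix.SpecialLinearGroup (Fin n) F) := fun h => (Subgroup.subtype _).map_isConj h
  have P2 := S2162.rank_of_conj (a : Matrix.SpecialLinearGroup (Fin n) F)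
    (b : Matrix.SpecialLinearGroup (Fin n) F)
  have P3 := main hF a b ha hb
  exact ⟨⟨P1, fun h => P3 (P2 h)⟩, ⟨fun h => P2 (P1 h), P3⟩⟩


end Cfsg.Agent.S2164
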