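import Cfsg.Statements.S2165
import Mathlib

set_option autoImplicit false
open Cfsg

namespace Cfsg.Agent.S2165

/-- The permutation matrix of the involution exchanging `i` and `n - ℓ + i` for `i < ℓ`. -/
def Pm (F : Type*) [Field F] (n ℓ : ℕ) : Matrix (Fin n) (Fin n) F :=
  Matrix.of (fun i j : Fin n => if (j.val < ℓ ∧ i.val = j.val + (n - ℓ)) ∨ (i.val < ℓ ∧ j.val = i.val + (n - ℓ)) ∨ (i = j ∧ ℓ ≤ i.val ∧ i.val < n - ℓ) then (1 : F) else 0)

/-- The underlying involution. -/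
def sig (n ℓ : ℕ) (h2 : 2 * ℓ ≤ n) (i : Fin n) : Fin n :=
  if h : i.val < ℓ then ⟨i.val + (n - ℓ), by have := i.2; omega⟩
  else if h' : n - ℓ ≤ i.val then ⟨i.val - (n - ℓ), by have := i.2; omega⟩
  else i

theorem sig_val (n ℓ : ℕ) (h2 : 2 * ℓ ≤ n) (i : Fin n) :
    (sig n ℓ h2 i).val = if i.val < ℓ then i.val + (n - ℓ) else if n - ℓ ≤ i.val then i.val - (n - ℓ) else i.val := by
  unfold sig
  split_ifs <;> rfl

theorem sig_invol (n ℓ : ℕ) (h2 : 2 * ℓ ≤ n) (i : Fin n) : sig n ℓ h2 (sig n ℓ h2 i) = i := by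
  apply Fin.ext
  rw [sig_val, sig_val]
  have := i.2
  split_ifs <;> omega

theorem Pm_apply {F : Type*} [Field F] (n ℓ : ℕ) (h2 : 2 * ℓ ≤ n) (i j : Fin n) :
    Pm F n ℓ i j = if j = sig n ℓ h2 i then 1 else 0 := by
  unfold Pm
  rw [Matrix.of_apply]
  apply if_congr _ rfl rfl
  have e : j = sig n ℓ h2 i ↔ j.val = (sig n ℓ h2 i).val := Fin.ext_iff
  have e' : i = j ↔ i.val = j.val := Fin.ext_iff
  rw [e, e', sig_val]
  have := i.2
  have := j.2
  split_ifs <;> omega

theorem Pm_mulVec {F : Type*} [Field F] (n ℓ : ℕ) (h2 : 2 * ℓ ≤ n) (u : Fin n → F) (i : Fin n) :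
    (Pm F n ℓ).mulVec u i = u (sig n ℓ h2 i) := by
  simp only [Matrix.mulVec, dotProduct, Pm_apply n ℓ h2]
  simp

theorem Pm_sq {F : Type*} [Field F] (n ℓ : ℕ) (h2 : 2 * ℓ ≤ n) : Pm F n ℓ * Pm F n ℓ = 1 := by
  ext i k
  rw [Matrix.mul_apply]
  simp only [Pm_apply n ℓ h2]
  rw [Finset.sum_eq_single (sig n ℓ h2 i)]
  · rw [sig_invol, Matrix.one_apply]
    simp [eq_comm]
  · intro j _ hj
    simp [hj]
  · intro h; exact absurd (Finset.mem_univ _) h

theorem Pm_det {F : Type*} [Field F] [CharP F 2] (n ℓ : ℕ) (h2 : 2 * ℓ ≤ n) : (Pm F n ℓ).det = 1 := by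
  have h := congrArg Matrix.det (Pm_sq (F := F) n ℓ h2)
  rw [Matrix.det_mul, Matrix.det_one] at h
  set d := (Pm F n ℓ).det with hd
  have h3 : (d + 1) * (d + 1) = 0 := by
    have e : (d + 1) * (d + 1) = d * d + (d + d) + 1 := by ring
    rw [e, h, CharTwo.add_self_eq_zero d, add_zero, CharTwo.add_self_eq_zero]
  have h4 : d + 1 = 0 := by
    rcases mul_eq_zero.mp h3 with h | h <;> exact h
  have h5 : d = -1 := eq_neg_of_add_eq_zero_left h4
  rw [h5, CharTwo.neg_eq]

def T (F : Type*) [Field F] (n ℓ : ℕ) : Matrix (Fin n) (Fin ℓ) F :=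
  Matrix.of (fun i k => if i.val = k.val ∨ i.val = k.val + (n - ℓ) then (1 : F) else 0)

def U (F : Type*) [Field F] (n ℓ : ℕ) : Matrix (Fin ℓ) (Fin n) F :=
  Matrix.of (fun k i => if i.val = k.val then (1 : F) else 0)

theorem UT {F : Type*} [Field F] (n ℓ : ℕ) (h2 : 2 * ℓ ≤ n) : U F n ℓ * T F n ℓ = 1 := by
  ext k k'
  simp only [U, T, Matrix.mul_apply, Matrix.of_apply, Matrix.one_apply]
  have hk : k.val < n := by have := k.2; omega
  rw [Finset.sum_eq_single (⟨k.val, hk⟩ : Fin n)]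
  · have := k.2
    have := k'.2
    by_cases h : k = k'
    · subst h; simp
    · have h' : k.val ≠ k'.val := fun h' => h (Fin.ext h')
      have h'' : ¬ (k.val = k'.val ∨ k.val = k'.val + (n - ℓ)) := by omega
      simp [h, h'']
  · intro j _ hj
    have : j.val ≠ k.val := fun h => hj (Fin.ext h)
    simp [this]
  · intro h; exact absurd (Finset.mem_univ _) h

theorem TTt_apply {F : Type*} [Field F] (n ℓ : ℕ) (h2 : 2 * ℓ ≤ n) (i j : Fin n) :
    (T F n ℓ * (T F n ℓ).transpose) i j =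
      if i.val < ℓ then (if j.val = i.val ∨ j.val = i.val + (n - ℓ) then 1 else 0)
      else if n - ℓ ≤ i.val then (if j.val + (n - ℓ) = i.val ∨ j.val = i.val then 1 else 0)
      else 0 := by
  simp only [T, Matrix.mul_apply, Matrix.of_apply, Matrix.transpose_apply]
  have hi := i.2
  have hj := j.2
  by_cases h : i.val < ℓ
  · rw [if_pos h, Finset.sum_eq_single (⟨i.val, h⟩ : Fin ℓ)]
    · simp
    · intro k _ hk
      have hk' : i.val ≠ k.val := fun h' => hk (Fin.ext h'.symm)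
      have := k.2
      have : ¬ (i.val = k.val ∨ i.val = k.val + (n - ℓ)) := by omega
      simp [this]
    · intro h; exact absurd (Finset.mem_univ _) h
  · rw [if_neg h]
    by_cases h' : n - ℓ ≤ i.val
    · rw [if_pos h', Finset.sum_eq_single (⟨i.val - (n - ℓ), by omega⟩ : Fin ℓ)]
      · have e1 : (i.val = i.val - (n - ℓ) ∨ i.val = i.val - (n - ℓ) + (n - ℓ)) := by omega
        simp only [if_pos e1, one_mul]
        apply if_congr _ rfl rfl
        constructor <;> intro hh <;> omega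
      · intro k _ hk
        have hk' : k.val ≠ i.val - (n - ℓ) := fun h' => hk (Fin.ext h')
        have := k.2
        have : ¬ (i.val = k.val ∨ i.val = k.val + (n - ℓ)) := by omega
        simp [this]
      · intro h; exact absurd (Finset.mem_univ _) h
    · rw [if_neg h']
      apply Finset.sum_eq_zero
      intro k _
      have := k.2
      have : ¬ (i.val = k.val ∨ i.val = k.val + (n - ℓ)) := by omega
      simp [this]

theorem Pm_eq {F : Type*} [Field F] [CharP F 2] (n ℓ : ℕ) (h2 : 2 * ℓ ≤ n) :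
    Pm F n ℓ = 1 + T F n ℓ * (T F n ℓ).transpose := by
  ext i j
  rw [Matrix.add_apply, TTt_apply n ℓ h2, Pm_apply n ℓ h2, Matrix.one_apply]
  have hi := i.2
  have hj := j.2
  have e : j = sig n ℓ h2 i ↔ j.val = (sig n ℓ h2 i).val := Fin.ext_iff
  have e' : i = j ↔ i.val = j.val := Fin.ext_iff
  rw [if_congr e rfl rfl, if_congr e' rfl rfl, sig_val]
  split_ifs <;> first | (exfalso; omega) | simp | exact (CharTwo.add_self_eq_zero _).symm

theorem rank_Pm_sub {F : Type*} [Field F] [CharP F 2] (n ℓ : ℕ) (h2 : 2 * ℓ ≤ n) :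
    (Pm F n ℓ - 1).rank = ℓ := by
  rw [Pm_eq n ℓ h2, add_sub_cancel_left]
  apply le_antisymm
  · calc (T F n ℓ * (T F n ℓ).transpose).rank ≤ (T F n ℓ).rank := Matrix.rank_mul_le_left _ _
      _ ≤ ℓ := Matrix.rank_le_width _
  · have h1 : (1 : Matrix (Fin ℓ) (Fin ℓ) F) =
        U F n ℓ * (T F n ℓ * (T F n ℓ).transpose) * (U F n ℓ).transpose := by
      have e : (T F n ℓ).transpose * (U F n ℓ).transpose = 1 := by
        rw [← Matrix.transpose_mul, UT n ℓ h2, Matrix.transpose_one]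
      rw [← Matrix.mul_assoc, UT n ℓ h2, Matrix.one_mul, e]
    calc ℓ = (1 : Matrix (Fin ℓ) (Fin ℓ) F).rank := by rw [Matrix.rank_one, Fintype.card_fin]
      _ = (U F n ℓ * (T F n ℓ * (T F n ℓ).transpose) * (U F n ℓ).transpose).rank := by rw [← h1]
      _ ≤ (U F n ℓ * (T F n ℓ * (T F n ℓ).transpose)).rank := Matrix.rank_mul_le_left _ _
      _ ≤ (T F n ℓ * (T F n ℓ).transpose).rank := Matrix.rank_mul_le_right _ _

/-- In SU_n(q), q even, n ≥ 3 (matrices of determinant 1 over the field with q² elements preserving Σ u_i v_i^q): for every ℓ with 1 ≤ ℓ and 2ℓ ≤ n, the permutation matrix of the involution of {0, …, n−1} exchanging i and n − ℓ + i for each i < ℓ lies in SU_n(q), has order 2, and differs from the identity by a matrix of rank ℓ. So every rank between 1 and n/2 occurs for involutions of SU_n(q). -/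
theorem result {F : Type*} [Field F] [Fintype F] [CharP F 2] {n q : ℕ} (hF : Fintype.card F = q ^ 2) (hn : 3 ≤ n) (ℓ : ℕ) (h1 : 1 ≤ ℓ) (h2 : 2 * ℓ ≤ n) :
    ∃ a : ↥(Cfsg.SU n F q), (((a : Matrix.SpecialLinearGroup (Fin n) F) : Matrix (Fin n) (Fin n) F) = Matrix.of (fun i j : Fin n => if (j.val < ℓ ∧ i.val = j.val + (n - ℓ)) ∨ (i.val < ℓ ∧ j.val = i.val + (n - ℓ)) ∨ (i = j ∧ ℓ ≤ i.val ∧ i.val < n - ℓ) then (1 : F) else 0)) ∧ orderOf a = 2 ∧ ((((a : Matrix.SpecialLinearGroup (Fin n) F) : Matrix (Fin n) (Fin n) F)) - 1).rank = ℓ := by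
  have _ := hF
  let A : Matrix.SpecialLinearGroup (Fin n) F := ⟨Pm F n ℓ, Pm_det n ℓ h2⟩
  have hA : A ∈ Cfsg.SU n F q := by
    intro u v
    show Cfsg.hermForm n F q ((Pm F n ℓ).mulVec u) ((Pm F n ℓ).mulVec v) = Cfsg.hermForm n F q u v
    unfold Cfsg.hermForm
    simp only [Pm_mulVec n ℓ h2]
    exact Equiv.sum_comp (Function.Involutive.toPerm (sig n ℓ h2) (sig_invol n ℓ h2))
      (fun i => u i * v i ^ q)
  refine ⟨⟨A, hA⟩, rfl, ?_, ?_⟩
  · have : Fact (Nat.Prime 2) := ⟨Nat.prime_two⟩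
    apply orderOf_eq_prime
    · apply Subtype.ext
      apply Subtype.ext
      show (Pm F n ℓ) ^ 2 = 1
      rw [pow_two, Pm_sq n ℓ h2]
    · intro h
      have h' := congrArg (fun a : ↥(Cfsg.SU n F q) =>
        ((a : Matrix.SpecialLinearGroup (Fin n) F) : Matrix (Fin n) (Fin n) F) ⟨0, by omega⟩ ⟨0, by omega⟩) h
      have hs : (⟨0, by omega⟩ : Fin n) ≠ sig n ℓ h2 ⟨0, by omega⟩ := by
        intro h''
        have := congrArg Fin.val h''
        rw [sig_val] at this
        simp only at this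
        split_ifs at this <;> omega
      have e : Pm F n ℓ ⟨0, by omega⟩ ⟨0, by omega⟩ = 0 := by
        rw [Pm_apply n ℓ h2, if_neg hs]
      simp only at h'
      change Pm F n ℓ ⟨0, by omega⟩ ⟨0, by omega⟩ = (1 : Matrix (Fin n) (Fin n) F) ⟨0, by omega⟩ ⟨0, by omega⟩ at h'
      rw [e, Matrix.one_apply_eq] at h'
      exact zero_ne_one h'
  · exact rank_Pm_sub n ℓ h2

end Cfsg.Agent.S2165
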