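import Cfsg.Statements.S2622
import Mathlib
-- import your own Cfsg.Agent.* helpers here

set_option autoImplicit false
open Cfsg

namespace Cfsg.Agent.S2622

theorem exists_good_vector {F V : Type*} [Field F] [Finite F] [CharP F 2] [AddCommGroup V]
    [Module F V] [FiniteDimensional F V]
    (B : LinearMap.BilinForm F V) (hS : B.IsSymm) (hB : B.Nondegenerate)
    (hna : ∃ v : V, B v v ≠ 0) :
    ∃ v : V, B v v = 1 ∧ (Module.finrank F V = 1 ∨ ∃ w, B v w = 0 ∧ B w w ≠ 0) := by
  obtain ⟨v₀, hv₀⟩ := hna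
  obtain ⟨d, hd⟩ : IsSquare (B v₀ v₀) :=
    FiniteField.isSquare_of_char_two (ringChar.eq F 2) _
  have hd0 : d ≠ 0 := by
    rintro rfl
    simp at hd
    exact hv₀ hd
  have hv1 : B (d⁻¹ • v₀) (d⁻¹ • v₀) = 1 := by
    simp only [map_smul, LinearMap.smul_apply, smul_eq_mul, hd]
    field_simp
  obtain ⟨v, hv⟩ : ∃ v, v = d⁻¹ • v₀ := ⟨_, rfl⟩
  rw [← hv] at hv1
  have hvne : v ≠ 0 := by
    rintro rfl
    simp at hv1
  by_cases h1 : Module.finrank F V = 1
  · exact ⟨v, hv1, Or.inl h1⟩
  by_cases hw : ∃ w, B v w = 0 ∧ B w w ≠ 0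
  · exact ⟨v, hv1, Or.inr hw⟩
  have hw' : ∀ w, B v w = 0 → B w w = 0 := by
    intro w hw1
    by_contra hw2
    exact hw ⟨w, hw1, hw2⟩
  obtain ⟨u, hu⟩ : ∃ u, u ∉ Submodule.span F {v} := by
    by_contra hall
    push Not at hall
    have htop : Submodule.span F {v} = ⊤ := (Submodule.eq_top_iff').mpr hall
    have := finrank_span_singleton (K := F) hvne
    rw [htop, finrank_top] at this
    exact h1 this
  have proj : ∀ z, B v (z - B v z • v) = 0 := by
    intro z
    simp [hv1]
  obtain ⟨e, he⟩ : ∃ e, e = u - B v u • v := ⟨_, rfl⟩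
  have hve : B v e = 0 := by rw [he]; exact proj u
  have hene : e ≠ 0 := by
    intro h0
    apply hu
    rw [h0] at he
    have : u = B v u • v := (sub_eq_zero.mp he.symm)
    rw [this]
    exact Submodule.smul_mem _ _ (Submodule.mem_span_singleton_self v)
  obtain ⟨u', hu'⟩ : ∃ u', B e u' ≠ 0 := by
    by_contra hall
    push Not at hall
    exact hene (hB.1 e hall)
  have hev : B e v = 0 := by rw [hS.eq]; exact hve
  obtain ⟨f₀, hf₀⟩ : ∃ f₀, f₀ = u' - B v u' • v := ⟨_, rfl⟩
  have hvf₀ : B v f₀ = 0 := by rw [hf₀]; exact proj u'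
  have hef₀ : B e f₀ = B e u' := by rw [hf₀]; simp [hev]
  obtain ⟨f, hf⟩ : ∃ f, f = (B e u')⁻¹ • f₀ := ⟨_, rfl⟩
  have hvf : B v f = 0 := by rw [hf]; simp [hvf₀]
  have hef : B e f = 1 := by rw [hf]; simp [hef₀, hu']
  have hee : B e e = 0 := hw' e hve
  have hff : B f f = 0 := hw' f hvf
  have hfv : B f v = 0 := by rw [hS.eq]; exact hvf
  have h2 : (1 : F) + 1 = 0 := CharTwo.add_self_eq_zero 1
  refine ⟨v + e, ?_, Or.inr ⟨v + f, ?_, ?_⟩⟩
  · simp [hv1, hve, hev, hee]
  · simp [hv1, hvf, hev, hef, h2]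
  · simp [hv1, hvf, hfv, hff]

theorem main {F V : Type*} [Field F] [Finite F] [CharP F 2] [AddCommGroup V]
    [Module F V] [FiniteDimensional F V] (n : ℕ) (hV : Module.finrank F V = n)
    (B : LinearMap.BilinForm F V) (hS : B.IsSymm) (hB : B.Nondegenerate)
    (hna : n = 0 ∨ ∃ v : V, B v v ≠ 0) :
    ∃ b : Module.Basis (Fin n) F V, ∀ i j, B (b i) (b j) = if i = j then 1 else 0 := by
  induction n generalizing V with
  | zero => exact ⟨Module.finBasisOfFinrankEq F V hV, fun i => i.elim0⟩
  | succ k ih =>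
    have hna' : ∃ v : V, B v v ≠ 0 := by
      rcases hna with h | h
      · omega
      · exact h
    obtain ⟨v, hv1, hv2⟩ := exists_good_vector B hS hB hna'
    let W : Submodule F V := LinearMap.ker (B v)
    have hW : Module.finrank F W = k := by
      have h1 : Module.finrank F (LinearMap.range (B v)) + Module.finrank F W
          = Module.finrank F V := LinearMap.finrank_range_add_finrank_ker (B v)
      have h2 : LinearMap.range (B v) = ⊤ := by
        rw [LinearMap.range_eq_top]
        intro c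
        exact ⟨c • v, by simp [hv1]⟩
      rw [h2, finrank_top, Module.finrank_self, hV] at h1
      omega
    have hS' : (B.restrict W).IsSymm := ⟨fun x y => hS.eq x y⟩
    have hsep : ∀ x : W, (∀ y : W, B (x : V) (y : V) = 0) → x = 0 := by
      intro x hx
      apply Subtype.ext
      apply hB.1 x
      intro u
      have hu : u - B v u • v ∈ W := by
        show B v (u - B v u • v) = 0
        simp [hv1]
      have h3 := hx ⟨_, hu⟩
      have hxv : B (x : V) v = 0 := by rw [hS.eq]; exact x.2
      simpa [hxv] using h3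
    have hB' : (B.restrict W).Nondegenerate := by
      refine ⟨fun x hx => hsep x (fun y => hx y), fun y hy => hsep y (fun x => ?_)⟩
      rw [hS.eq]; exact hy x
    have hna'' : k = 0 ∨ ∃ w : W, (B.restrict W) w w ≠ 0 := by
      rcases hv2 with h | ⟨w, hw1, hw2⟩
      · left; omega
      · right; exact ⟨⟨w, hw1⟩, hw2⟩
    obtain ⟨b, hb⟩ := ih hW (B.restrict W) hS' hB' hna''
    refine ⟨Module.Basis.mkFinCons v b
      (by
        intro c x hx hc
        have h4 := congrArg (B v) hc
        have hx' : B v x = 0 := hx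
        simpa [hv1, hx'] using h4)
      (by
        intro z
        refine ⟨-B v z, ?_⟩
        show B v (z + (-B v z) • v) = 0
        simp [hv1]), ?_⟩
    rw [Module.Basis.coe_mkFinCons]
    intro i j
    refine Fin.cases ?_ (fun i => ?_) i <;> refine Fin.cases ?_ (fun j => ?_) j
    · simp [hv1]
    · have h5 : B v (b j : V) = 0 := (b j).2
      simp [h5, (Fin.succ_ne_zero j).symm]
    · have h5 : B (b i : V) v = 0 := by rw [hS.eq]; exact (b i).2
      simp [h5, Fin.succ_ne_zero]
    · have h5 := hb i j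
      simpa using h5

/-- Over a finite field of characteristic two, a non-degenerate symmetric bilinear form that is not alternating (some vector v has B(v, v) ≠ 0) admits an orthonormal basis. -/
theorem result {F V : Type*} [Field F] [Finite F] [CharP F 2] [AddCommGroup V] [Module F V] [FiniteDimensional F V] {n : ℕ} (hV : Module.finrank F V = n) (B : LinearMap.BilinForm F V) (hS : B.IsSymm) (hB : B.Nondegenerate) (hna : ∃ v : V, B v v ≠ 0) : ∃ b : Module.Basis (Fin n) F V, ∀ i j, B (b i) (b j) = if i = j then 1 else 0 := by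
  exact main n hV B hS hB (Or.inr hna)

end Cfsg.Agent.S2622
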