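import Cfsg.Statements.S2166
import Mathlib
import Cfsg.Agent.S0749
import Cfsg.Agent.S0766
import Cfsg.Agent.S2585
import Cfsg.Agent.S2622
import Cfsg.Agent.S2162
import Cfsg.Agent.Helper2.SpDarboux
-- import your own Cfsg.Agent.* helpers here

set_option autoImplicit false
open Cfsg

namespace Cfsg.Agent.S2166

open Matrix

section abstract
variable {F W : Type*} [Field F] [AddCommGroup W] [Module F W]

theorem struct_core {ι : Type*} [Fintype ι] [DecidableEq ι] (ω : LinearMap.BilinForm F W)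
    (N : W →ₗ[F] W) (hNN : ∀ v, N (N v) = 0) (hadj : ∀ x y, ω (N x) y = ω x (N y))
    (C : Submodule F W) (hdec : ∀ v, ∃ k, N k = 0 ∧ ∃ c ∈ C, k + c = v)
    (e : ι → W) (hspan : ∀ c ∈ C, ∃ d : ι → F, c = ∑ s, d s • e s)
    (π : ι → ι) (hπ : ∀ t, π (π t) = t)
    (hgram : ∀ t s, ω (e t) (N (e s)) = if π t = s then 1 else 0) :
    (∀ i j, ω (N (e i)) (N (e j)) = 0) ∧ LinearIndependent F (fun s => N (e s)) ∧
      ∀ x, N x = ∑ s, ω (N (e (π s))) x • N (e s) := by
  have hsum : ∀ (g : ι → F) (t : ι), ∑ s, g s * (if π t = s then (1 : F) else 0) = g (π t) := by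
    intro g t
    simp
  refine ⟨fun i j => by rw [hadj, hNN, map_zero], ?_, ?_⟩
  · rw [Fintype.linearIndependent_iff]
    intro g hg t
    have h1 := congrArg (ω (e (π t))) hg
    rw [map_sum, map_zero] at h1
    simp only [map_smul, smul_eq_mul, hgram] at h1
    rw [hsum, hπ] at h1
    exact h1
  · have hz : ∀ z, (∀ t, ω (e t) (N z) = 0) → N z = 0 := by
      intro z hzt
      obtain ⟨k, hk, c, hc, rfl⟩ := hdec z
      rw [map_add, hk, zero_add] at hzt ⊢
      obtain ⟨d, hd⟩ := hspan c hc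
      have h4 : ∀ t, d t = 0 := by
        intro t
        have h5 := hzt (π t)
        rw [hd, map_sum, map_sum] at h5
        simp only [map_smul, smul_eq_mul, hgram] at h5
        rw [hsum, hπ] at h5
        exact h5
      rw [hd, map_sum]
      apply Finset.sum_eq_zero
      intro s _
      rw [h4 s, zero_smul, map_zero]
    intro x
    have h1 : N (x - ∑ s, ω (N (e (π s))) x • e s) = 0 := by
      apply hz
      intro t
      rw [map_sub, map_sub, map_sum, map_sum]
      simp only [map_smul, smul_eq_mul, hgram]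
      have h2 : ∑ s, ω (N (e (π s))) x * (if π t = s then (1 : F) else 0)
          = ω (N (e (π (π t)))) x := hsum (fun s => ω (N (e (π s))) x) t
      rw [h2, hπ, hadj, sub_self]
    rw [map_sub, map_sum] at h1
    simp only [map_smul] at h1
    exact sub_eq_zero.mp h1

theorem setup [FiniteDimensional F W] (ω : LinearMap.BilinForm F W) (hnd : ω.Nondegenerate)
    (N : W →ₗ[F] W) (hadj : ∀ x y, ω (N x) y = ω x (N y)) (r : ℕ)
    (hr : Module.finrank F (LinearMap.range N) = r) :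
    ∃ C : Submodule F W, Module.finrank F C = r ∧
      (∀ v, ∃ k, N k = 0 ∧ ∃ c ∈ C, k + c = v) ∧
      (∀ a ∈ C, a ≠ 0 → ∃ w ∈ C, ω a (N w) ≠ 0) := by
  obtain ⟨C, hC⟩ := Submodule.exists_isCompl (LinearMap.ker N)
  have hdec : ∀ v, ∃ k, N k = 0 ∧ ∃ c ∈ C, k + c = v := by
    intro v
    have h1 : v ∈ LinearMap.ker N ⊔ C := by rw [hC.sup_eq_top]; trivial
    obtain ⟨k, hk, c, hc, hkc⟩ := Submodule.mem_sup.mp h1
    exact ⟨k, LinearMap.mem_ker.mp hk, c, hc, hkc⟩
  refine ⟨C, ?_, hdec, ?_⟩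
  · have h1 : Module.finrank F (LinearMap.range N) + Module.finrank F (LinearMap.ker N)
        = Module.finrank F W := LinearMap.finrank_range_add_finrank_ker N
    have h3 := Submodule.finrank_add_eq_of_isCompl hC
    omega
  · intro a ha ha0
    by_contra hcon
    push Not at hcon
    apply ha0
    have h1 : N a = 0 := by
      apply hnd.1
      intro v
      obtain ⟨k, hk, c, hc, rfl⟩ := hdec v
      rw [hadj, map_add, hk, zero_add]
      exact hcon c hc
    have h2' : a ∈ LinearMap.ker N ⊓ C := ⟨LinearMap.mem_ker.mpr h1, ha⟩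
    rw [hC.inf_eq_bot] at h2'
    exact (Submodule.mem_bot F).mp h2'

theorem struct1 [Finite F] [CharP F 2] [FiniteDimensional F W] (ω : LinearMap.BilinForm F W)
    (hnd : ω.Nondegenerate) (halt : ω.IsAlt) (N : W →ₗ[F] W) (hNN : ∀ v, N (N v) = 0)
    (hadj : ∀ x y, ω (N x) y = ω x (N y)) (r : ℕ)
    (hr : Module.finrank F (LinearMap.range N) = r) (hna : ∃ v, ω v (N v) ≠ 0) :
    ∃ f : Fin r → W, (∀ i j, ω (f i) (f j) = 0) ∧ LinearIndependent F f ∧
      ∀ x, N x = ∑ s, ω (f s) x • f s := by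
  classical
  have hsymm : ∀ x y, ω x y = ω y x := by
    intro x y
    have h1 := halt.neg_eq x y
    rw [CharTwo.neg_eq] at h1
    exact h1
  obtain ⟨C, hCdim, hdec, hCnd⟩ := setup ω hnd N hadj r hr
  set Γ : LinearMap.BilinForm F C := (ω.compRight N).restrict C with hΓdef
  have hΓ : ∀ x y : C, Γ x y = ω (x : W) (N (y : W)) := fun x y => rfl
  have hΓsym : ∀ x y : C, Γ x y = Γ y x := by
    intro x y
    rw [hΓ, hΓ, ← hadj, hsymm]
  have hΓS : Γ.IsSymm := ⟨hΓsym⟩
  have hΓnd : Γ.Nondegenerate := by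
    have hL : ∀ x : C, (∀ y : C, Γ x y = 0) → x = 0 := by
      intro x hx
      by_contra hx0
      obtain ⟨w, hw, hw0⟩ := hCnd (x : W) x.2 (fun h0 => hx0 (Subtype.ext h0))
      exact hw0 (hx ⟨w, hw⟩)
    exact ⟨hL, fun y hy => hL y (fun x => by rw [hΓsym]; exact hy x)⟩
  have hΓna : ∃ c : C, Γ c c ≠ 0 := by
    obtain ⟨v, hv⟩ := hna
    obtain ⟨k, hk, c, hc, rfl⟩ := hdec v
    refine ⟨⟨c, hc⟩, ?_⟩
    rw [hΓ]
    have h1 : ω (k + c) (N (k + c)) = ω c (N c) := by
      rw [map_add N, hk, zero_add, map_add, LinearMap.add_apply, ← hadj, hk, map_zero,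
        LinearMap.zero_apply, zero_add]
    rw [h1] at hv
    exact hv
  obtain ⟨b, hb⟩ := S2622.result hCdim Γ hΓS hΓnd hΓna
  obtain ⟨h1, h2, h3⟩ := struct_core ω N hNN hadj C hdec (fun i => (b i : W))
    (fun c hc => ⟨fun s => b.repr ⟨c, hc⟩ s, by
      have h3 := congrArg (fun w : C => (w : W)) (b.sum_repr ⟨c, hc⟩)
      simp only [Submodule.coe_sum, Submodule.coe_smul] at h3
      exact h3.symm⟩) id (fun t => rfl) (fun t s => hb t s)
  exact ⟨fun s => N (b s : W), h1, h2, h3⟩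

theorem struct2 [CharP F 2] [FiniteDimensional F W] (ω : LinearMap.BilinForm F W)
    (hnd : ω.Nondegenerate) (halt : ω.IsAlt) (N : W →ₗ[F] W) (hNN : ∀ v, N (N v) = 0)
    (hadj : ∀ x y, ω (N x) y = ω x (N y)) (r : ℕ)
    (hr : Module.finrank F (LinearMap.range N) = r) (ha : ∀ v, ω v (N v) = 0) :
    ∃ (j : ℕ) (f : Fin j ⊕ Fin j → W), r = j + j ∧ (∀ i l, ω (f i) (f l) = 0) ∧
      LinearIndependent F f ∧ ∀ x, N x = ∑ s, ω (f (Sum.swap s)) x • f s := by
  classical
  obtain ⟨C, hCdim, hdec, hCnd⟩ := setup ω hnd N hadj r hr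
  set β : LinearMap.BilinForm F W := ω.compRight N with hβdef
  have hβ : ∀ x y, β x y = ω x (N y) := fun x y => rfl
  have hβalt : β.IsAlt := fun v => ha v
  obtain ⟨j, p, q, hH, hp, hq, hsp⟩ := Helper2.SpDecomp.darboux β hβalt C hCnd
  have hli := Helper2.SpDecomp.hyp_li β p q hH
  obtain ⟨hpp, hqq, hpq⟩ := hH
  have hqp : ∀ i l, β (q i) (p l) = if i = l then 1 else 0 := by
    intro i l
    have h1 := hβalt.neg_eq (q i) (p l)
    rw [CharTwo.neg_eq, hpq] at h1
    rw [h1]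
    by_cases hil : i = l
    · rw [if_pos hil, if_pos hil.symm]
    · rw [if_neg hil, if_neg (fun h' => hil h'.symm)]
  have hrj : r = j + j := by
    have h1 := finrank_span_eq_card hli
    rw [hsp, hCdim] at h1
    simpa using h1
  obtain ⟨h1, h2, h3⟩ := struct_core ω N hNN hadj C hdec (Sum.elim p q)
    (fun c hc => by
      rw [← hsp] at hc
      obtain ⟨d, hd⟩ := (Submodule.mem_span_range_iff_exists_fun F).mp hc
      exact ⟨d, hd.symm⟩) Sum.swap (fun t => Sum.swap_swap t) (fun t s => by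
      rcases t with i | i <;> rcases s with l | l
      · simp only [Sum.elim_inl, Sum.swap_inl, reduceCtorEq, if_false]
        exact hpp i l
      · simp only [Sum.elim_inl, Sum.elim_inr, Sum.swap_inl, Sum.inr.injEq]
        exact hpq i l
      · simp only [Sum.elim_inl, Sum.elim_inr, Sum.swap_inr, Sum.inl.injEq]
        exact hqp i l
      · simp only [Sum.elim_inr, Sum.swap_inr, reduceCtorEq, if_false]
        exact hqq i l)
  exact ⟨j, fun s => N (Sum.elim p q s), hrj, h1, h2, h3⟩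

end abstract

section concrete
variable {F : Type*} [Field F] {m : ℕ}

theorem mat_ext {k : Type*} [Fintype k] [DecidableEq k] (A B : Matrix k k F)
    (h : ∀ x, A *ᵥ x = B *ᵥ x) : A = B := by
  ext i j
  have := congrFun (h (Pi.single j 1)) i
  simpa using this

theorem mem_symp (G : Matrix (Fin m ⊕ Fin m) (Fin m ⊕ Fin m) F)
    (h : ∀ u v, sympForm m F (G *ᵥ u) (G *ᵥ v) = sympForm m F u v) :
    G ∈ Matrix.symplecticGroup (Fin m) F := by
  classical
  rw [SymplecticGroup.mem_iff']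
  ext i j
  have h1 := h (Pi.single i 1) (Pi.single j 1)
  unfold sympForm at h1
  rw [← Matrix.vecMul_transpose, ← Matrix.dotProduct_mulVec, Matrix.mulVec_mulVec,
    Matrix.mulVec_mulVec] at h1
  simpa using h1

theorem symp_pres (a : Matrix.symplecticGroup (Fin m) F) (u v : Fin m ⊕ Fin m → F) :
    sympForm m F ((a : Matrix (Fin m ⊕ Fin m) (Fin m ⊕ Fin m) F) *ᵥ u)
      ((a : Matrix (Fin m ⊕ Fin m) (Fin m ⊕ Fin m) F) *ᵥ v) = sympForm m F u v :=
  S2585.symp_inv _ (SymplecticGroup.mem_iff'.mp a.2) u v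

theorem invol_data [CharP F 2] (a : Matrix.symplecticGroup (Fin m) F) (ha : orderOf a = 2) :
    (∀ v, ((a : Matrix (Fin m ⊕ Fin m) (Fin m ⊕ Fin m) F) - 1).mulVecLin
      (((a : Matrix (Fin m ⊕ Fin m) (Fin m ⊕ Fin m) F) - 1).mulVecLin v) = 0) ∧
    (∀ x y, S0766.sB m F (((a : Matrix (Fin m ⊕ Fin m) (Fin m ⊕ Fin m) F) - 1).mulVecLin x) y
      = S0766.sB m F x (((a : Matrix (Fin m ⊕ Fin m) (Fin m ⊕ Fin m) F) - 1).mulVecLin y)) ∧
    (∀ v, S0766.sB m F v (((a : Matrix (Fin m ⊕ Fin m) (Fin m ⊕ Fin m) F) - 1).mulVecLin v)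
      = sympForm m F v ((a : Matrix (Fin m ⊕ Fin m) (Fin m ⊕ Fin m) F) *ᵥ v)) := by
  classical
  set A := (a : Matrix (Fin m ⊕ Fin m) (Fin m ⊕ Fin m) F) with hA
  have h2 : (2 : F) = 0 := by
    have := CharP.cast_eq_zero F 2
    exact_mod_cast this
  have hAA : A * A = 1 := by
    have h1 : a ^ 2 = 1 := by
      rw [← ha]
      exact pow_orderOf_eq_one a
    have := congrArg (fun x : Matrix.symplecticGroup (Fin m) F =>
      (x : Matrix (Fin m ⊕ Fin m) (Fin m ⊕ Fin m) F)) h1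
    simpa [pow_two] using this
  have hsq : (A - 1) * (A - 1) = 0 := by
    have h4 : (A - 1) * (A - 1) = (2 : F) • (1 - A) := by
      rw [sub_mul, mul_sub, hAA, mul_one, one_mul, two_smul]
      abel
    rw [h4, h2, zero_smul]
  have hNapp : ∀ v, (A - 1).mulVecLin v = A *ᵥ v - v := by
    intro v
    show (A - 1) *ᵥ v = _
    rw [Matrix.sub_mulVec, Matrix.one_mulVec]
  have hAAv : ∀ v, A *ᵥ (A *ᵥ v) = v := by
    intro v
    rw [Matrix.mulVec_mulVec, hAA, Matrix.one_mulVec]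
  have hadjA : ∀ x y, S0766.sB m F (A *ᵥ x) y = S0766.sB m F x (A *ᵥ y) := by
    intro x y
    have h1 := symp_pres a x (A *ᵥ y)
    rw [← hA, hAAv] at h1
    rw [S0766.sB_apply, S0766.sB_apply]
    exact h1
  refine ⟨?_, ?_, ?_⟩
  · intro v
    show (A - 1) *ᵥ ((A - 1) *ᵥ v) = 0
    rw [Matrix.mulVec_mulVec, hsq, Matrix.zero_mulVec]
  · intro x y
    rw [hNapp, hNapp, map_sub, LinearMap.sub_apply, map_sub, hadjA]
  · intro v
    rw [hNapp, map_sub, S0766.sB_alt m F v, sub_zero, S0766.sB_apply]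

theorem conj_core {ι : Type*} [Fintype ι] [DecidableEq ι]
    (a b : Matrix.symplecticGroup (Fin m) F) (π : ι → ι) (f f' : ι → (Fin m ⊕ Fin m → F))
    (hf : LinearIndependent F f) (hf' : LinearIndependent F f')
    (h0 : ∀ i j, S0766.sB m F (f i) (f j) = 0) (h0' : ∀ i j, S0766.sB m F (f' i) (f' j) = 0)
    (hNa : ∀ x, ((a : Matrix (Fin m ⊕ Fin m) (Fin m ⊕ Fin m) F) - 1) *ᵥ x
      = ∑ s, S0766.sB m F (f (π s)) x • f s)
    (hNb : ∀ x, ((b : Matrix (Fin m ⊕ Fin m) (Fin m ⊕ Fin m) F) - 1) *ᵥ x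
      = ∑ s, S0766.sB m F (f' (π s)) x • f' s) : IsConj a b := by
  classical
  set ω := S0766.sB m F with hω
  have hz : ∀ (f : ι → (Fin m ⊕ Fin m → F)), (∀ i j, ω (f i) (f j) = 0) →
      ∀ x x' : Submodule.span F (Set.range f),
        ω (x : Fin m ⊕ Fin m → F) (x' : Fin m ⊕ Fin m → F) = 0 := by
    intro f h0 x x'
    have h1 : ∀ i, Submodule.span F (Set.range f) ≤ LinearMap.ker (ω (f i)) := fun i =>
      Submodule.span_le.mpr (by
        rintro _ ⟨j, rfl⟩
        exact h0 i j)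
    have h2 : Submodule.span F (Set.range f) ≤ LinearMap.ker (ω.flip (x' : Fin m ⊕ Fin m → F)) :=
      Submodule.span_le.mpr (by
        rintro _ ⟨i, rfl⟩
        show ω (f i) x' = 0
        exact h1 i x'.2)
    exact h2 x.2
  set φ := (Module.Basis.span hf).equiv (Module.Basis.span hf') (Equiv.refl _) with hφ
  obtain ⟨g, hg1, hg2⟩ := S0749.result ω (S0766.sB_nondeg m F) (S0766.sB_alt m F) _ _ φ
    (fun x x' => by rw [hz f' h0', hz f h0])
  set G := LinearMap.toMatrix' g.toLinearMap with hG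
  have hGv : ∀ x, G *ᵥ x = g x := fun x => by
    rw [hG, LinearMap.toMatrix'_mulVec]
    rfl
  have hGf : ∀ s, G *ᵥ f s = f' s := by
    intro s
    rw [hGv]
    have h1 := hg2 (Module.Basis.span hf s)
    rw [hφ, Module.Basis.equiv_apply, Module.Basis.span_apply, Module.Basis.span_apply] at h1
    exact h1
  have hGω : ∀ u v, ω (G *ᵥ u) (G *ᵥ v) = ω u v := by
    intro u v
    rw [hGv, hGv]
    exact hg1 u v
  have hGiso : ∀ u v, sympForm m F (G *ᵥ u) (G *ᵥ v) = sympForm m F u v := by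
    intro u v
    rw [← S0766.sB_apply, ← S0766.sB_apply]
    exact hGω u v
  set A := (a : Matrix (Fin m ⊕ Fin m) (Fin m ⊕ Fin m) F) with hA
  set B' := (b : Matrix (Fin m ⊕ Fin m) (Fin m ⊕ Fin m) F) with hB'
  have hGAB : G * (A - 1) = (B' - 1) * G := by
    apply mat_ext
    intro x
    rw [← Matrix.mulVec_mulVec, ← Matrix.mulVec_mulVec, hNa, hNb, Matrix.mulVec_sum]
    apply Finset.sum_congr rfl
    intro s _
    rw [Matrix.mulVec_smul, hGf, ← hGf (π s), hGω]
  have hGAB' : G * A = B' * G := by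
    have h3 : G * A = G * (A - 1) + G := by rw [mul_sub, mul_one]; abel
    rw [h3, hGAB, sub_mul, one_mul]
    abel
  obtain ⟨c, hc⟩ : ∃ c : Matrix.symplecticGroup (Fin m) F,
      (c : Matrix (Fin m ⊕ Fin m) (Fin m ⊕ Fin m) F) = G := ⟨⟨G, mem_symp G hGiso⟩, rfl⟩
  have key : c * a = b * c := by
    apply Subtype.ext
    show (c : Matrix (Fin m ⊕ Fin m) (Fin m ⊕ Fin m) F) * A
      = B' * (c : Matrix (Fin m ⊕ Fin m) (Fin m ⊕ Fin m) F)
    rw [hc]
    exact hGAB'
  rw [isConj_iff]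
  exact ⟨c, by rw [key]; group⟩

theorem main [Fintype F] [CharP F 2] (a b : Matrix.symplecticGroup (Fin m) F)
    (ha : orderOf a = 2) (hb : orderOf b = 2)
    (hr : ((a : Matrix (Fin m ⊕ Fin m) (Fin m ⊕ Fin m) F) - 1).rank
      = ((b : Matrix (Fin m ⊕ Fin m) (Fin m ⊕ Fin m) F) - 1).rank)
    (htype : (∀ v, sympForm m F v ((a : Matrix (Fin m ⊕ Fin m) (Fin m ⊕ Fin m) F) *ᵥ v) = 0) ↔
      (∀ v, sympForm m F v ((b : Matrix (Fin m ⊕ Fin m) (Fin m ⊕ Fin m) F) *ᵥ v) = 0)) :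
    IsConj a b := by
  classical
  obtain ⟨hNNa, hadja, hva⟩ := invol_data a ha
  obtain ⟨hNNb, hadjb, hvb⟩ := invol_data b hb
  by_cases hta : ∀ v, sympForm m F v ((a : Matrix (Fin m ⊕ Fin m) (Fin m ⊕ Fin m) F) *ᵥ v) = 0
  · have htb := htype.mp hta
    obtain ⟨j, f, hrj, h0, hli, hN⟩ := struct2 (S0766.sB m F) (S0766.sB_nondeg m F)
      (S0766.sB_alt m F) _ hNNa hadja _ rfl (fun v => by rw [hva]; exact hta v)
    obtain ⟨j', f', hrj', h0', hli', hN'⟩ := struct2 (S0766.sB m F) (S0766.sB_nondeg m F)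
      (S0766.sB_alt m F) _ hNNb hadjb _ hr.symm (fun v => by rw [hvb]; exact htb v)
    have hjj : j' = j := by
      have h1 : Module.finrank F (LinearMap.range
        ((a : Matrix (Fin m ⊕ Fin m) (Fin m ⊕ Fin m) F) - 1).mulVecLin) = j + j := hrj
      have h2 : Module.finrank F (LinearMap.range
        ((a : Matrix (Fin m ⊕ Fin m) (Fin m ⊕ Fin m) F) - 1).mulVecLin) = j' + j' := hrj'
      omega
    subst hjj
    exact conj_core a b Sum.swap f f' hli hli' h0 h0' hN hN'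
  · have htb : ¬ ∀ v, sympForm m F v ((b : Matrix (Fin m ⊕ Fin m) (Fin m ⊕ Fin m) F) *ᵥ v) = 0 :=
      fun h => hta (htype.mpr h)
    push Not at hta htb
    obtain ⟨f, h0, hli, hN⟩ := struct1 (S0766.sB m F) (S0766.sB_nondeg m F)
      (S0766.sB_alt m F) _ hNNa hadja _ rfl (by
        obtain ⟨v, hv⟩ := hta
        exact ⟨v, by rw [hva]; exact hv⟩)
    obtain ⟨f', h0', hli', hN'⟩ := struct1 (S0766.sB m F) (S0766.sB_nondeg m F)
      (S0766.sB_alt m F) _ hNNb hadjb _ hr.symm (by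
        obtain ⟨v, hv⟩ := htb
        exact ⟨v, by rw [hvb]; exact hv⟩)
    exact conj_core a b id f f' hli hli' h0 h0' hN hN'

theorem fwd (a b : Matrix.symplecticGroup (Fin m) F) (h : IsConj a b) :
    ((a : Matrix (Fin m ⊕ Fin m) (Fin m ⊕ Fin m) F) - 1).rank
      = ((b : Matrix (Fin m ⊕ Fin m) (Fin m ⊕ Fin m) F) - 1).rank ∧
    Nat.card {v : Fin m ⊕ Fin m → F //
        sympForm m F v ((a : Matrix (Fin m ⊕ Fin m) (Fin m ⊕ Fin m) F) *ᵥ v) = 0}
      = Nat.card {v : Fin m ⊕ Fin m → F //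
        sympForm m F v ((b : Matrix (Fin m ⊕ Fin m) (Fin m ⊕ Fin m) F) *ᵥ v) = 0} := by
  classical
  obtain ⟨c, hc⟩ := isConj_iff.mp h
  have h0 : c * a = b * c := by
    rw [← hc]
    group
  set A := (a : Matrix (Fin m ⊕ Fin m) (Fin m ⊕ Fin m) F) with hA
  set B' := (b : Matrix (Fin m ⊕ Fin m) (Fin m ⊕ Fin m) F) with hB'
  set C := (c : Matrix (Fin m ⊕ Fin m) (Fin m ⊕ Fin m) F) with hC
  set Ci := ((c⁻¹ : Matrix.symplecticGroup (Fin m) F) :
    Matrix (Fin m ⊕ Fin m) (Fin m ⊕ Fin m) F) with hCi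
  have hCA : C * A = B' * C :=
    congrArg (fun x : Matrix.symplecticGroup (Fin m) F =>
      (x : Matrix (Fin m ⊕ Fin m) (Fin m ⊕ Fin m) F)) h0
  have hCCi : C * Ci = 1 :=
    congrArg (fun x : Matrix.symplecticGroup (Fin m) F =>
      (x : Matrix (Fin m ⊕ Fin m) (Fin m ⊕ Fin m) F)) (mul_inv_cancel c)
  have hCiC : Ci * C = 1 :=
    congrArg (fun x : Matrix.symplecticGroup (Fin m) F =>
      (x : Matrix (Fin m ⊕ Fin m) (Fin m ⊕ Fin m) F)) (inv_mul_cancel c)
  have hdet : IsUnit C.det := Matrix.isUnit_det_of_right_inverse hCCi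
  have h1 : C * (A - 1) = (B' - 1) * C := by
    rw [mul_sub, sub_mul, hCA, mul_one, one_mul]
  refine ⟨?_, ?_⟩
  · rw [← Matrix.rank_mul_eq_right_of_isUnit_det _ (A - 1) hdet, h1,
      Matrix.rank_mul_eq_left_of_isUnit_det _ _ hdet]
  · have hp : ∀ v, sympForm m F (C *ᵥ v) (B' *ᵥ (C *ᵥ v)) = sympForm m F v (A *ᵥ v) := by
      intro v
      rw [Matrix.mulVec_mulVec, ← hCA, ← Matrix.mulVec_mulVec]
      exact symp_pres c v (A *ᵥ v)
    refine Nat.card_congr
      { toFun := fun v => ⟨C *ᵥ v.1, by rw [hp]; exact v.2⟩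
        invFun := fun w => ⟨Ci *ᵥ w.1, by
          have h2 := hp (Ci *ᵥ w.1)
          rw [Matrix.mulVec_mulVec, hCCi, Matrix.one_mulVec] at h2
          rw [← h2]
          exact w.2⟩
        left_inv := fun v => by
          apply Subtype.ext
          show Ci *ᵥ (C *ᵥ v.1) = v.1
          rw [Matrix.mulVec_mulVec, hCiC, Matrix.one_mulVec]
        right_inv := fun w => by
          apply Subtype.ext
          show C *ᵥ (Ci *ᵥ w.1) = w.1
          rw [Matrix.mulVec_mulVec, hCCi, Matrix.one_mulVec] }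

theorem full_of_card [Fintype F] (p : (Fin m ⊕ Fin m → F) → Prop)
    (h : Nat.card {v // p v} = Nat.card (Fin m ⊕ Fin m → F)) : ∀ v, p v := by
  classical
  by_contra hcon
  push Not at hcon
  obtain ⟨v0, hv0⟩ := hcon
  have h1 := Fintype.card_subtype_lt hv0
  rw [Nat.card_eq_fintype_card, Nat.card_eq_fintype_card] at h
  omega

end concrete


/-- Conjugacy of involutions in the symplectic group Sp_{2m}(F), F a finite field of characteristic two, m ≥ 2 (Sp taken as the matrices A with A J Aᵀ = J, acting on column vectors, with the alternating form f(u, v) = u ⬝ (J v)). For an involution t write V(t) for the set of vectors v with f(v, t v) = 0 (a subspace). Two involutions a, b are conjugate in Sp_{2m}(F) exactly when a − 1 and b − 1 have the same rank and, in case that rank is even, V(a) and V(b) have the same number of elements. -/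
theorem result {F : Type*} [Field F] [Fintype F] [CharP F 2] {m : ℕ} (hm : 2 ≤ m) (a b : ↥(Matrix.symplecticGroup (Fin m) F)) (ha : orderOf a = 2) (hb : orderOf b = 2) :
    IsConj a b ↔ ((((a : ↥(Matrix.symplecticGroup (Fin m) F)) : Matrix (Fin m ⊕ Fin m) (Fin m ⊕ Fin m) F) - 1).rank = (((b : ↥(Matrix.symplecticGroup (Fin m) F)) : Matrix (Fin m ⊕ Fin m) (Fin m ⊕ Fin m) F) - 1).rank ∧
      (Even (((a : ↥(Matrix.symplecticGroup (Fin m) F)) : Matrix (Fin m ⊕ Fin m) (Fin m ⊕ Fin m) F) - 1).rank → Nat.card {v : Fin m ⊕ Fin m → F // Cfsg.sympForm m F v (Matrix.mulVec ((a : ↥(Matrix.symplecticGroup (Fin m) F)) : Matrix (Fin m ⊕ Fin m) (Fin m ⊕ Fin m) F) v) = 0} = Nat.card {v : Fin m ⊕ Fin m → F // Cfsg.sympForm m F v (Matrix.mulVec ((b : ↥(Matrix.symplecticGroup (Fin m) F)) : Matrix (Fin m ⊕ Fin m) (Fin m ⊕ Fin m) F) v) = 0})) := by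
  constructor
  · intro h
    obtain ⟨h1, h2⟩ := fwd a b h
    exact ⟨h1, fun _ => h2⟩
  · rintro ⟨hr, hcard⟩
    apply main a b ha hb hr
    obtain ⟨hNNa, hadja, hva⟩ := invol_data a ha
    obtain ⟨hNNb, hadjb, hvb⟩ := invol_data b hb
    constructor
    · intro hta
      obtain ⟨j, f, hrj, -⟩ := struct2 (S0766.sB m F) (S0766.sB_nondeg m F)
        (S0766.sB_alt m F) _ hNNa hadja _ rfl (fun v => by rw [hva]; exact hta v)
      have hc := hcard ⟨j, hrj⟩
      apply full_of_card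
      rw [← hc]
      exact Nat.card_congr (Equiv.subtypeUnivEquiv hta)
    · intro htb
      obtain ⟨j, f, hrj, -⟩ := struct2 (S0766.sB m F) (S0766.sB_nondeg m F)
        (S0766.sB_alt m F) _ hNNb hadjb _ rfl (fun v => by rw [hvb]; exact htb v)
      have hc := hcard ⟨j, by rw [hr]; exact hrj⟩
      apply full_of_card
      rw [hc]
      exact Nat.card_congr (Equiv.subtypeUnivEquiv htb)


end Cfsg.Agent.S2166
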