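import Cfsg.Statements.S2167
import Mathlib
import Cfsg.Agent.S0766
import Cfsg.Agent.S0752
-- import your own Cfsg.Agent.* helpers here

set_option autoImplicit false
open Cfsg

namespace Cfsg.Agent.S2167

section
open Matrix

theorem alt_even {F V V' : Type*} [Field F] [AddCommGroup V] [Module F V] [FiniteDimensional F V]
    [AddCommGroup V'] [Module F V'] (B : LinearMap.BilinForm F V) (hA : B.IsAlt)
    (L : V →ₗ[F] V') (hL : ∀ v, L v = 0 ↔ ∀ u, B u v = 0) :
    Even (Module.finrank F (LinearMap.range L)) := by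
  classical
  obtain ⟨m', k', b, h1, h2, h3, h4⟩ := S0752.main B hA
  have hfe : ∀ i j, B (b (Sum.inl (Sum.inr i))) (b (Sum.inl (Sum.inl j)))
      = if j = i then -1 else 0 := by
    intro i j
    rw [← hA.neg_eq, h1]
    split_ifs <;> simp
  have hrad : ∀ j v, B v (b (Sum.inr j)) = 0 := by
    intro j v; rw [← hA.neg_eq, h4, neg_zero]
  have hcard : Module.finrank F V = 2 * m' + k' := by
    rw [Module.finrank_eq_card_basis b]
    simp only [Fintype.card_sum, Fintype.card_fin]
    ring
  have hker : LinearMap.ker L = Submodule.span F (Set.range fun j : Fin k' => b (Sum.inr j)) := by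
    apply le_antisymm
    · intro v hv
      rw [LinearMap.mem_ker, hL] at hv
      have hv' := b.sum_repr v
      have he : ∀ i, b.repr v (Sum.inl (Sum.inr i)) = 0 := by
        intro i
        have h5 := hv (b (Sum.inl (Sum.inl i)))
        rw [← hv', map_sum] at h5
        simp only [map_smul, smul_eq_mul] at h5
        rw [Fintype.sum_sum_type, Fintype.sum_sum_type] at h5
        simp only [h2, h1, hrad, mul_zero, Finset.sum_const_zero, mul_ite, mul_one,
          Finset.sum_ite_eq, Finset.mem_univ, if_true, zero_add, add_zero] at h5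
        exact h5
      have hf : ∀ i, b.repr v (Sum.inl (Sum.inl i)) = 0 := by
        intro i
        have h5 := hv (b (Sum.inl (Sum.inr i)))
        rw [← hv', map_sum] at h5
        simp only [map_smul, smul_eq_mul] at h5
        rw [Fintype.sum_sum_type, Fintype.sum_sum_type] at h5
        simp only [hfe, h3, hrad, mul_zero, Finset.sum_const_zero, mul_ite, mul_neg, mul_one,
          Finset.sum_ite_eq', Finset.mem_univ, if_true, zero_add, add_zero, neg_eq_zero] at h5
        exact h5
      rw [← hv', Fintype.sum_sum_type, Fintype.sum_sum_type]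
      simp only [he, hf, zero_smul, Finset.sum_const_zero, zero_add]
      exact Submodule.sum_mem _ (fun j _ => Submodule.smul_mem _ _
        (Submodule.subset_span ⟨j, rfl⟩))
    · rw [Submodule.span_le]
      rintro _ ⟨j, rfl⟩
      rw [SetLike.mem_coe, LinearMap.mem_ker, hL]
      intro u
      exact hrad j u
  have hli : LinearIndependent F (fun j : Fin k' => b (Sum.inr j)) :=
    b.linearIndependent.comp _ Sum.inr_injective
  have h5 := LinearMap.finrank_range_add_finrank_ker L
  rw [hker, finrank_span_eq_card hli, Fintype.card_fin, hcard] at h5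
  exact ⟨m', by omega⟩

theorem main {F : Type*} [Field F] [Fintype F] [CharP F 2] {m : ℕ}
    (a : ↥(Matrix.symplecticGroup (Fin m) F)) (ha : orderOf a = 2) :
    (Nat.card {v : Fin m ⊕ Fin m → F // Cfsg.sympForm m F v
        ((a : Matrix (Fin m ⊕ Fin m) (Fin m ⊕ Fin m) F) *ᵥ v) = 0} = Fintype.card F ^ (2 * m) ∨
      Nat.card {v : Fin m ⊕ Fin m → F // Cfsg.sympForm m F v
        ((a : Matrix (Fin m ⊕ Fin m) (Fin m ⊕ Fin m) F) *ᵥ v) = 0} * Fintype.card F
        = Fintype.card F ^ (2 * m)) ∧
    ((∀ v : Fin m ⊕ Fin m → F, Cfsg.sympForm m F v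
        ((a : Matrix (Fin m ⊕ Fin m) (Fin m ⊕ Fin m) F) *ᵥ v) = 0) →
      Even ((a : Matrix (Fin m ⊕ Fin m) (Fin m ⊕ Fin m) F) - 1).rank) := by
  classical
  obtain ⟨A, hAdef⟩ : ∃ A : Matrix (Fin m ⊕ Fin m) (Fin m ⊕ Fin m) F, A = a.1 := ⟨_, rfl⟩
  rw [← hAdef]
  have hAA : A * A = 1 := by
    have h1 : a ^ 2 = 1 := by rw [← ha]; exact pow_orderOf_eq_one a
    have h2 := congrArg Subtype.val h1
    rw [sq] at h2
    rw [hAdef]; exact h2
  have hinv : ∀ x y, sympForm m F (A *ᵥ x) (A *ᵥ y) = sympForm m F x y := by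
    rw [hAdef]
    exact S2585.symp_inv a.1 (SymplecticGroup.mem_iff'.mp a.2)
  have hBA := S0766.sB_alt m F
  have hadd : ∀ u v, S0766.sB m F (u + v) (A *ᵥ (u + v))
      = S0766.sB m F u (A *ᵥ u) + S0766.sB m F v (A *ᵥ v) := by
    intro u v
    rw [Matrix.mulVec_add, map_add, map_add, LinearMap.add_apply, LinearMap.add_apply]
    have h3 : S0766.sB m F v (A *ᵥ u) = S0766.sB m F u (A *ᵥ v) := by
      have h4 : S0766.sB m F (A *ᵥ v) (A *ᵥ (A *ᵥ u)) = S0766.sB m F v (A *ᵥ u) := by
        rw [S0766.sB_apply, S0766.sB_apply]; exact hinv _ _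
      rw [Matrix.mulVec_mulVec, hAA, Matrix.one_mulVec] at h4
      rw [← h4, ← hBA.neg_eq, CharTwo.neg_eq]
    rw [h3]
    have h5 : S0766.sB m F u (A *ᵥ v) + S0766.sB m F u (A *ᵥ v) = 0 :=
      CharTwo.add_self_eq_zero _
    linear_combination h5
  let Φ : (Fin m ⊕ Fin m → F) →+ F :=
    AddMonoidHom.mk' (fun v => S0766.sB m F v (A *ᵥ v)) hadd
  have hΦ : ∀ v, Φ v = sympForm m F v (A *ᵥ v) := fun v => S0766.sB_apply m v _
  have hsmul : ∀ (c : F) v, Φ (c • v) = c * c * Φ v := by
    intro c v
    show S0766.sB m F (c • v) (A *ᵥ (c • v)) = c * c * S0766.sB m F v (A *ᵥ v)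
    rw [Matrix.mulVec_smul, map_smul, map_smul, LinearMap.smul_apply, smul_eq_mul, smul_eq_mul,
      mul_assoc]
  refine ⟨?_, ?_⟩
  · have hcardV : Nat.card (Fin m ⊕ Fin m → F) = Fintype.card F ^ (2 * m) := by
      rw [Nat.card_eq_fintype_card, Fintype.card_fun, Fintype.card_sum, Fintype.card_fin,
        two_mul]
    have e : {v : Fin m ⊕ Fin m → F // sympForm m F v (A *ᵥ v) = 0} ≃ Φ.ker :=
      Equiv.subtypeEquivRight (fun v => by rw [AddMonoidHom.mem_ker, hΦ])
    rw [Nat.card_congr e]
    have h5 := AddSubgroup.card_mul_index Φ.ker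
    rw [AddSubgroup.index_ker, hcardV] at h5
    by_cases hz : ∀ v, Φ v = 0
    · left
      have h6 : Nat.card Φ.range = 1 := by
        rw [Nat.card_eq_one_iff_unique]
        refine ⟨⟨fun x y => Subtype.ext ?_⟩, ⟨0⟩⟩
        obtain ⟨v, hv⟩ := x.2
        obtain ⟨w, hw⟩ := y.2
        rw [← hv, ← hw, hz, hz]
      rw [h6, mul_one] at h5
      exact h5
    · right
      push Not at hz
      obtain ⟨v₀, hv₀⟩ := hz
      have h6 : Nat.card Φ.range = Fintype.card F := by
        have htop : Φ.range = ⊤ := by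
          rw [eq_top_iff]
          intro y _
          obtain ⟨c, hc⟩ := FiniteField.isSquare_of_char_two
            (CharP.ringChar_of_prime_eq_zero Nat.prime_two
              (by exact_mod_cast (CharTwo.two_eq_zero : (2 : F) = 0))) (y / Φ v₀)
          exact ⟨c • v₀, by rw [hsmul, ← hc, div_mul_cancel₀ _ hv₀]⟩
        rw [htop, AddSubgroup.card_top, Nat.card_eq_fintype_card]
      rw [h6] at h5
      exact h5
  · intro hall
    have hallB : ∀ v, S0766.sB m F v (A *ᵥ v) = 0 := fun v => by
      rw [S0766.sB_apply]; exact hall v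
    have hev := alt_even ((S0766.sB m F).compRight (A - 1).mulVecLin) (by
        intro v
        show S0766.sB m F v ((A - 1) *ᵥ v) = 0
        rw [Matrix.sub_mulVec, Matrix.one_mulVec, map_sub, hallB, hBA.self_eq_zero, sub_zero])
      (A - 1).mulVecLin (by
        intro v
        constructor
        · intro h u
          show S0766.sB m F u ((A - 1).mulVecLin v) = 0
          rw [h, map_zero]
        · intro h
          exact (S0766.sB_nondeg m F).2 _ h)
    exact hev

end


/-- For an involution t of the symplectic group Sp_{2m}(F), m ≥ 2, F a finite field of characteristic two (matrices A with A J Aᵀ = J acting on column vectors, alternating form f(u, v) = u ⬝ (J v)): the set V(t) of vectors v with f(v, t v) = 0 has either q^{2m} or q^{2m−1} elements, q the order of F (it is a subspace of codimension at most 1), and if it is the whole space then t − 1 has even rank. -/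
theorem result {F : Type*} [Field F] [Fintype F] [CharP F 2] {m : ℕ} (hm : 2 ≤ m) (a : ↥(Matrix.symplecticGroup (Fin m) F)) (ha : orderOf a = 2) :
    (Nat.card {v : Fin m ⊕ Fin m → F // Cfsg.sympForm m F v (Matrix.mulVec ((a : ↥(Matrix.symplecticGroup (Fin m) F)) : Matrix (Fin m ⊕ Fin m) (Fin m ⊕ Fin m) F) v) = 0} = Fintype.card F ^ (2 * m) ∨ Nat.card {v : Fin m ⊕ Fin m → F // Cfsg.sympForm m F v (Matrix.mulVec ((a : ↥(Matrix.symplecticGroup (Fin m) F)) : Matrix (Fin m ⊕ Fin m) (Fin m ⊕ Fin m) F) v) = 0} * Fintype.card F = Fintype.card F ^ (2 * m)) ∧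
    ((∀ v : Fin m ⊕ Fin m → F, Cfsg.sympForm m F v (Matrix.mulVec ((a : ↥(Matrix.symplecticGroup (Fin m) F)) : Matrix (Fin m ⊕ Fin m) (Fin m ⊕ Fin m) F) v) = 0) → Even (((a : ↥(Matrix.symplecticGroup (Fin m) F)) : Matrix (Fin m ⊕ Fin m) (Fin m ⊕ Fin m) F) - 1).rank) := by
  exact main a ha


end Cfsg.Agent.S2167
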