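import Cfsg.Statements.S2168
import Mathlib
import Cfsg.Agent.S0750
-- import your own Cfsg.Agent.* helpers here

set_option autoImplicit false
open Cfsg

namespace Cfsg.Agent.S2168

open Matrix

theorem gen {F : Type*} [Field F] [Fintype F] [CharP F 2] {ι : Type} [Fintype ι] [DecidableEq ι]
    (Q : (ι → F) → F) (QF : QuadraticForm F (ι → F)) (hQF : ∀ v, QF v = Q v)
    (hnd : (QuadraticMap.polarBilin QF).Nondegenerate)
    (t s : ↥(Cfsg.isometryGroup F Q)) (hs : orderOf s = 2) :
    IsConj t s ↔ ∃ g ∈ Cfsg.preserving (Units.coeHom (Matrix ι ι F))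
      (fun u v => Q (u + v) - Q u - Q v), g * (t : GL ι F) * g⁻¹ = (s : GL ι F) := by
  classical
  have h2 : (2 : F) = 0 := by
    have := CharP.cast_eq_zero F 2
    exact_mod_cast this
  constructor
  · intro h
    obtain ⟨c, hc⟩ := isConj_iff.mp h
    refine ⟨(c : GL ι F), ?_, ?_⟩
    · intro u v
      have hcQ : ∀ w, Q (((c : GL ι F) : Matrix ι ι F) *ᵥ w) = Q w := fun w => c.2 w w
      show Q (((c : GL ι F) : Matrix ι ι F) *ᵥ u + ((c : GL ι F) : Matrix ι ι F) *ᵥ v)
        - Q (((c : GL ι F) : Matrix ι ι F) *ᵥ u) - Q (((c : GL ι F) : Matrix ι ι F) *ᵥ v)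
        = Q (u + v) - Q u - Q v
      rw [← Matrix.mulVec_add, hcQ, hcQ, hcQ]
    · have := congrArg (fun x : ↥(Cfsg.isometryGroup F Q) => (x : GL ι F)) hc
      simpa using this
  · rintro ⟨g, hg, hgts⟩
    set B := QuadraticMap.polarBilin QF with hBdef
    have hB : ∀ u v, B u v = Q (u + v) - Q u - Q v := by
      intro u v
      rw [hBdef, QuadraticMap.polarBilin_apply_apply, QuadraticMap.polar, hQF, hQF, hQF]
    set G := (g : Matrix ι ι F) with hG
    set G' := ((g⁻¹ : GL ι F) : Matrix ι ι F) with hG'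
    set T := ((t : GL ι F) : Matrix ι ι F) with hT
    set S := ((s : GL ι F) : Matrix ι ι F) with hS
    have hGG' : G * G' = 1 := by
      rw [hG, hG', ← Units.val_mul, mul_inv_cancel, Units.val_one]
    have hG'G : G' * G = 1 := by
      rw [hG, hG', ← Units.val_mul, inv_mul_cancel, Units.val_one]
    have hGT : G * T = S * G := by
      have h1 : g * (t : GL ι F) = (s : GL ι F) * g := by
        rw [← hgts]
        group
      have := congrArg (fun x : GL ι F => (x : Matrix ι ι F)) h1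
      simpa using this
    have hSS : S * S = 1 := by
      have h1 : s ^ 2 = 1 := by
        rw [← hs]
        exact pow_orderOf_eq_one s
      have := congrArg (fun x : ↥(Cfsg.isometryGroup F Q) => ((x : GL ι F) : Matrix ι ι F)) h1
      simpa [pow_two] using this
    have hTQ : ∀ v, Q (T *ᵥ v) = Q v := fun v => t.2 v v
    have hSQ : ∀ v, Q (S *ᵥ v) = Q v := fun v => s.2 v v
    have hgB : ∀ u v, B (G *ᵥ u) (G *ᵥ v) = B u v := by
      intro u v
      rw [hB, hB]
      exact hg u v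
    have hSB : ∀ u v, B (S *ᵥ u) (S *ᵥ v) = B u v := by
      intro u v
      rw [hB, hB, ← Matrix.mulVec_add, hSQ, hSQ, hSQ]
    have hadj : ∀ a b, B ((S - 1) *ᵥ a) b = B a ((S - 1) *ᵥ b) := by
      intro a b
      have h1 := hSB a (S *ᵥ b)
      rw [Matrix.mulVec_mulVec, hSS, Matrix.one_mulVec] at h1
      rw [Matrix.sub_mulVec, Matrix.sub_mulVec, Matrix.one_mulVec, Matrix.one_mulVec, map_sub,
        LinearMap.sub_apply, map_sub, h1]
    have hK : ∀ (R : Matrix ι ι F), (∀ v, Q (R *ᵥ v) = Q v) → ∀ y,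
        Q ((R - 1) *ᵥ y) = B (R *ᵥ y) y := by
      intro R hR y
      have hyy : -y = y := by
        have h3 : y + y = 0 := by rw [← two_smul F y, h2, zero_smul]
        exact neg_eq_of_add_eq_zero_left h3
      have h1 : (R - 1) *ᵥ y = R *ᵥ y + y := by
        rw [Matrix.sub_mulVec, Matrix.one_mulVec, sub_eq_add_neg, hyy]
      rw [h1, hB, hR]
      linear_combination (Q y) * h2
    have hGN : ∀ y, G *ᵥ ((T - 1) *ᵥ y) = (S - 1) *ᵥ (G *ᵥ y) := by
      intro y
      rw [Matrix.mulVec_mulVec, Matrix.mulVec_mulVec, mul_sub, sub_mul, hGT, mul_one, one_mul]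
    set X : Submodule F (ι → F) := LinearMap.range (T - 1).mulVecLin with hX
    let Glin : (ι → F) ≃ₗ[F] (ι → F) :=
      LinearEquiv.ofLinearMap G.mulVecLin G'.mulVecLin
        (by rw [← Matrix.mulVecLin_mul, hGG', Matrix.mulVecLin_one])
        (by rw [← Matrix.mulVecLin_mul, hG'G, Matrix.mulVecLin_one])
    have hGlin : ∀ v, Glin v = G *ᵥ v := fun v => rfl
    set φ := Glin.submoduleMap X with hφdef
    have hφv : ∀ x : X, ((φ x : X.map (Glin : (ι → F) →ₗ[F] (ι → F))) : ι → F) = G *ᵥ (x : ι → F) :=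
      fun x => rfl
    have hφ : ∀ x : X, QF ((φ x : X.map (Glin : (ι → F) →ₗ[F] (ι → F))) : ι → F)
        = QF (x : ι → F) := by
      intro x
      obtain ⟨y, hy⟩ := x.2
      have hy' : (T - 1) *ᵥ y = (x : ι → F) := hy
      rw [hφv, hQF, hQF, ← hy', hGN, hK S hSQ, hK T hTQ]
      have h1 : S *ᵥ (G *ᵥ y) = G *ᵥ (T *ᵥ y) := by
        rw [Matrix.mulVec_mulVec, Matrix.mulVec_mulVec, hGT]
      rw [h1, hgB]
    obtain ⟨h, hh1, hh2⟩ := S0750.result QF hnd X _ φ hφ
    set H := LinearMap.toMatrix' h.toLinearMap with hH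
    set H' := LinearMap.toMatrix' h.symm.toLinearMap with hH'
    have hHv : ∀ x, H *ᵥ x = h x := fun x => by
      rw [hH, LinearMap.toMatrix'_mulVec]
      rfl
    have hHH' : H * H' = 1 := by
      rw [hH, hH', ← LinearMap.toMatrix'_comp]
      have : h.toLinearMap ∘ₗ h.symm.toLinearMap = LinearMap.id := by
        ext x
        simp
      rw [this, LinearMap.toMatrix'_id]
    have hH'H : H' * H = 1 := by
      rw [hH, hH', ← LinearMap.toMatrix'_comp]
      have : h.symm.toLinearMap ∘ₗ h.toLinearMap = LinearMap.id := by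
        ext x
        simp
      rw [this, LinearMap.toMatrix'_id]
    have hHQ : ∀ v, Q (H *ᵥ v) = Q v := by
      intro v
      rw [hHv, ← hQF, hh1, hQF]
    have hHB : ∀ u v, B (H *ᵥ u) (H *ᵥ v) = B u v := by
      intro u v
      rw [hB, hB, ← Matrix.mulVec_add, hHQ, hHQ, hHQ]
    have hHX : ∀ y, H *ᵥ ((T - 1) *ᵥ y) = G *ᵥ ((T - 1) *ᵥ y) := by
      intro y
      rw [hHv]
      exact hh2 ⟨(T - 1) *ᵥ y, ⟨y, rfl⟩⟩
    have hclaim : ∀ y, (S - 1) *ᵥ (G *ᵥ y) = (S - 1) *ᵥ (H *ᵥ y) := by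
      intro y
      rw [← sub_eq_zero]
      apply hnd.1
      intro w
      rw [map_sub, LinearMap.sub_apply, hadj, hadj]
      have hw : (S - 1) *ᵥ w = G *ᵥ ((T - 1) *ᵥ (G' *ᵥ w)) := by
        rw [hGN, Matrix.mulVec_mulVec _ G G', hGG', Matrix.one_mulVec]
      rw [hw, hgB, ← hHX, hHB, sub_self]
    have hHT : H * T = S * H := by
      ext i j
      have h1 : ∀ y, H *ᵥ (T *ᵥ y) = S *ᵥ (H *ᵥ y) := by
        intro y
        have h3 := hHX y
        rw [hGN, hclaim] at h3
        rw [Matrix.sub_mulVec, Matrix.sub_mulVec, Matrix.one_mulVec, Matrix.one_mulVec,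
          Matrix.mulVec_sub] at h3
        exact sub_left_injective h3
      have h4 := congrFun (h1 (Pi.single j 1)) i
      rw [Matrix.mulVec_mulVec, Matrix.mulVec_mulVec] at h4
      simpa using h4
    rw [isConj_iff]
    refine ⟨⟨⟨H, H', hHH', hH'H⟩, fun u v => hHQ u⟩, ?_⟩
    rw [mul_inv_eq_iff_eq_mul]
    apply Subtype.ext
    apply Units.ext
    exact hHT

section plus
variable {F : Type*} [Field F] {m : ℕ}

/-- the plus-type form as a Mathlib quadratic form -/
noncomputable def QFp (m : ℕ) (F : Type*) [Field F] : QuadraticForm F (Fin m ⊕ Fin m → F) :=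
  (Matrix.toBilin' (Matrix.fromBlocks 0 1 0 0 :
    Matrix (Fin m ⊕ Fin m) (Fin m ⊕ Fin m) F)).toQuadraticMap

theorem QFp_apply (v : Fin m ⊕ Fin m → F) : QFp m F v = quadFormPlus m F v := by
  classical
  unfold QFp
  rw [LinearMap.BilinMap.toQuadraticMap_apply, Matrix.toBilin'_apply']
  have hv : v = Sum.elim (v ∘ Sum.inl) (v ∘ Sum.inr) := (Sum.elim_comp_inl_inr v).symm
  have h1 : (Matrix.fromBlocks 0 1 0 0 : Matrix (Fin m ⊕ Fin m) (Fin m ⊕ Fin m) F) *ᵥ v
      = Sum.elim (v ∘ Sum.inr) 0 := by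
    conv_lhs => rw [hv]
    rw [Matrix.fromBlocks_mulVec]
    simp
  rw [h1]
  conv_lhs => rw [hv]
  rw [sumElim_dotProduct_sumElim, dotProduct_zero, add_zero]
  rfl

theorem polar_plus (x w : Fin m ⊕ Fin m → F) :
    quadFormPlus m F (x + w) - quadFormPlus m F x - quadFormPlus m F w
      = ∑ i, (x (Sum.inl i) * w (Sum.inr i) + w (Sum.inl i) * x (Sum.inr i)) := by
  unfold quadFormPlus
  rw [← Finset.sum_sub_distrib, ← Finset.sum_sub_distrib]
  apply Finset.sum_congr rfl
  intro i _
  simp only [Pi.add_apply]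
  ring

theorem QFp_nondeg : (QuadraticMap.polarBilin (QFp m F)).Nondegenerate := by
  classical
  have hB : ∀ x w, QuadraticMap.polarBilin (QFp m F) x w
      = ∑ i, (x (Sum.inl i) * w (Sum.inr i) + w (Sum.inl i) * x (Sum.inr i)) := by
    intro x w
    rw [QuadraticMap.polarBilin_apply_apply, QuadraticMap.polar, QFp_apply, QFp_apply, QFp_apply,
      polar_plus]
  have hL : ∀ x, (∀ w, QuadraticMap.polarBilin (QFp m F) x w = 0) → x = 0 := by
    intro x hx
    funext a
    rcases a with i | i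
    · have h1 := hx (Pi.single (Sum.inr i) 1)
      rw [hB] at h1
      simpa [Pi.single_apply] using h1
    · have h1 := hx (Pi.single (Sum.inl i) 1)
      rw [hB] at h1
      simpa [Pi.single_apply] using h1
  refine ⟨hL, fun y hy => hL y (fun x => ?_)⟩
  have h1 := hy x
  rw [hB] at h1
  rw [hB, ← h1]
  apply Finset.sum_congr rfl
  intro i _
  ring

end plus


/-- Involutions in the full isometry group O of the hyperbolic quadratic form Σ x_i y_i in dimension 2m over a finite field F of characteristic two, m ≥ 4 (plus type): two elements of order 2 of O are conjugate in O exactly when they are conjugate under the group of all invertible matrices preserving the polar bilinear form (u, v) ↦ Q(u + v) − Q(u) − Q(v) (the symplectic group of that form). -/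
theorem result {F : Type*} [Field F] [Fintype F] [CharP F 2] {m : ℕ} (hm : 4 ≤ m) (t s : ↥(Cfsg.isometryGroup F (Cfsg.quadFormPlus m F))) (ht : orderOf t = 2) (hs : orderOf s = 2) :
    IsConj t s ↔ ∃ g ∈ Cfsg.preserving (Units.coeHom (Matrix (Fin m ⊕ Fin m) (Fin m ⊕ Fin m) F)) (fun u v => Cfsg.quadFormPlus m F (u + v) - Cfsg.quadFormPlus m F u - Cfsg.quadFormPlus m F v), g * ((t : ↥(Cfsg.isometryGroup F (Cfsg.quadFormPlus m F))) : GL (Fin m ⊕ Fin m) F) * g⁻¹ = ((s : ↥(Cfsg.isometryGroup F (Cfsg.quadFormPlus m F))) : GL (Fin m ⊕ Fin m) F) := by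
  exact gen (Cfsg.quadFormPlus m F) (QFp m F) QFp_apply QFp_nondeg t s hs


end Cfsg.Agent.S2168
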