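import Cfsg.Statements.S2170
import Mathlib
import Cfsg.Agent.S2168
-- import your own Cfsg.Agent.* helpers here

set_option autoImplicit false
open Cfsg

namespace Cfsg.Agent.S2170

open Matrix

section minus
variable {F : Type*} [Field F] {k : ℕ}

/-- the minus-type form as a Mathlib quadratic form -/
noncomputable def QFm (k : ℕ) (F : Type*) [Field F] (c d : F) :
    QuadraticForm F ((Fin k ⊕ Fin k) ⊕ Fin 2 → F) :=
  (Matrix.toBilin' (Matrix.fromBlocks (Matrix.fromBlocks 0 1 0 0) 0 0 !![1, c; 0, d] :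
    Matrix ((Fin k ⊕ Fin k) ⊕ Fin 2) ((Fin k ⊕ Fin k) ⊕ Fin 2) F)).toQuadraticMap

theorem QFm_apply (c d : F) (v : (Fin k ⊕ Fin k) ⊕ Fin 2 → F) :
    QFm k F c d v = quadFormMinus k F c d v := by
  classical
  unfold QFm
  rw [LinearMap.BilinMap.toQuadraticMap_apply, Matrix.toBilin'_apply']
  have hv : v = Sum.elim (Sum.elim (v ∘ Sum.inl ∘ Sum.inl) (v ∘ Sum.inl ∘ Sum.inr))
      (v ∘ Sum.inr) := by
    funext a
    rcases a with (a | a) | a <;> rfl
  have h1 : (Matrix.fromBlocks (Matrix.fromBlocks 0 1 0 0) 0 0 !![1, c; 0, d] :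
      Matrix ((Fin k ⊕ Fin k) ⊕ Fin 2) ((Fin k ⊕ Fin k) ⊕ Fin 2) F) *ᵥ v
      = Sum.elim (Sum.elim (v ∘ Sum.inl ∘ Sum.inr) 0)
          ((!![1, c; 0, d] : Matrix (Fin 2) (Fin 2) F) *ᵥ (v ∘ Sum.inr)) := by
    conv_lhs => rw [hv]
    rw [Matrix.fromBlocks_mulVec, Matrix.fromBlocks_mulVec]
    simp
  rw [h1]
  conv_lhs => rw [hv]
  rw [sumElim_dotProduct_sumElim, sumElim_dotProduct_sumElim, dotProduct_zero, add_zero]
  unfold quadFormMinus
  congr 1
  simp only [dotProduct, Matrix.mulVec, Fin.sum_univ_two, Function.comp_apply, Matrix.of_apply,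
    Matrix.cons_val', Matrix.cons_val_zero, Matrix.cons_val_one, Matrix.cons_val_fin_one,
    Sum.elim_inr, Sum.elim_inl]
  ring

theorem polar_minus [CharP F 2] (c d : F) (x w : (Fin k ⊕ Fin k) ⊕ Fin 2 → F) :
    quadFormMinus k F c d (x + w) - quadFormMinus k F c d x - quadFormMinus k F c d w
      = ∑ i, (x (Sum.inl (Sum.inl i)) * w (Sum.inl (Sum.inr i))
          + w (Sum.inl (Sum.inl i)) * x (Sum.inl (Sum.inr i)))
        + c * (x (Sum.inr 0) * w (Sum.inr 1) + w (Sum.inr 0) * x (Sum.inr 1)) := by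
  have h2 : (2 : F) = 0 := by
    have := CharP.cast_eq_zero F 2
    exact_mod_cast this
  unfold quadFormMinus
  have h1 : ∑ i, (x + w) (Sum.inl (Sum.inl i)) * (x + w) (Sum.inl (Sum.inr i))
      = ∑ i, x (Sum.inl (Sum.inl i)) * x (Sum.inl (Sum.inr i))
        + ∑ i, w (Sum.inl (Sum.inl i)) * w (Sum.inl (Sum.inr i))
        + ∑ i, (x (Sum.inl (Sum.inl i)) * w (Sum.inl (Sum.inr i))
          + w (Sum.inl (Sum.inl i)) * x (Sum.inl (Sum.inr i))) := by
    rw [← Finset.sum_add_distrib, ← Finset.sum_add_distrib]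
    apply Finset.sum_congr rfl
    intro i _
    simp only [Pi.add_apply]
    ring
  rw [h1]
  simp only [Pi.add_apply]
  linear_combination (x (Sum.inr 0) * w (Sum.inr 0) + d * x (Sum.inr 1) * w (Sum.inr 1)) * h2

theorem QFm_nondeg [Finite F] [CharP F 2] (c d : F)
    (hcd : ∀ z₁ z₂ : F, z₁ ^ 2 + c * z₁ * z₂ + d * z₂ ^ 2 = 0 → z₁ = 0 ∧ z₂ = 0) :
    (QuadraticMap.polarBilin (QFm k F c d)).Nondegenerate := by
  classical
  have h2 : (2 : F) = 0 := by
    have := CharP.cast_eq_zero F 2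
    exact_mod_cast this
  have hc : c ≠ 0 := by
    intro hc0
    obtain ⟨e, he⟩ := FiniteField.isSquare_of_char_two (ringChar.eq F 2) d
    have h1 := hcd e 1 (by rw [hc0, he]; linear_combination (e * e) * h2)
    exact one_ne_zero h1.2
  have hB : ∀ x w, QuadraticMap.polarBilin (QFm k F c d) x w
      = ∑ i, (x (Sum.inl (Sum.inl i)) * w (Sum.inl (Sum.inr i))
          + w (Sum.inl (Sum.inl i)) * x (Sum.inl (Sum.inr i)))
        + c * (x (Sum.inr 0) * w (Sum.inr 1) + w (Sum.inr 0) * x (Sum.inr 1)) := by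
    intro x w
    rw [QuadraticMap.polarBilin_apply_apply, QuadraticMap.polar, QFm_apply, QFm_apply, QFm_apply,
      polar_minus]
  have hL : ∀ x, (∀ w, QuadraticMap.polarBilin (QFm k F c d) x w = 0) → x = 0 := by
    intro x hx
    funext a
    rcases a with (i | i) | j
    · have h1 := hx (Pi.single (Sum.inl (Sum.inr i)) 1)
      rw [hB] at h1
      simpa [Pi.single_apply] using h1
    · have h1 := hx (Pi.single (Sum.inl (Sum.inl i)) 1)
      rw [hB] at h1
      simpa [Pi.single_apply] using h1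
    · fin_cases j
      · have h1 := hx (Pi.single (Sum.inr 1) 1)
        rw [hB] at h1
        simpa [Pi.single_apply, hc] using h1
      · have h1 := hx (Pi.single (Sum.inr 0) 1)
        rw [hB] at h1
        simpa [Pi.single_apply, hc] using h1
  refine ⟨hL, fun y hy => hL y (fun x => ?_)⟩
  have h1 := hy x
  rw [hB] at h1
  rw [hB, ← h1]
  congr 1
  · apply Finset.sum_congr rfl
    intro i _
    ring
  · ring

end minus


/-- Involutions in the full isometry group O of the quadratic form Σ x_i y_i + (z₁² + c z₁ z₂ + d z₂²) in dimension 2m with anisotropic binary part over a finite field F of characteristic two, m ≥ 4 (minus type): two elements of order 2 of O are conjugate in O exactly when they are conjugate under the group of all invertible matrices preserving the polar bilinear form (u, v) ↦ Q(u + v) − Q(u) − Q(v) (the symplectic group of that form). -/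
theorem result {F : Type*} [Field F] [Fintype F] [CharP F 2] {m : ℕ} (hm : 4 ≤ m) (c d : F) (hcd : ∀ z₁ z₂ : F, z₁ ^ 2 + c * z₁ * z₂ + d * z₂ ^ 2 = 0 → z₁ = 0 ∧ z₂ = 0) (t s : ↥(Cfsg.isometryGroup F (Cfsg.quadFormMinus (m - 1) F c d))) (ht : orderOf t = 2) (hs : orderOf s = 2) :
    IsConj t s ↔ ∃ g ∈ Cfsg.preserving (Units.coeHom (Matrix ((Fin (m - 1) ⊕ Fin (m - 1)) ⊕ Fin 2) ((Fin (m - 1) ⊕ Fin (m - 1)) ⊕ Fin 2) F)) (fun u v => Cfsg.quadFormMinus (m - 1) F c d (u + v) - Cfsg.quadFormMinus (m - 1) F c d u - Cfsg.quadFormMinus (m - 1) F c d v), g * ((t : ↥(Cfsg.isometryGroup F (Cfsg.quadFormMinus (m - 1) F c d))) : GL ((Fin (m - 1) ⊕ Fin (m - 1)) ⊕ Fin 2) F) * g⁻¹ = ((s : ↥(Cfsg.isometryGroup F (Cfsg.quadFormMinus (m - 1) F c d))) : GL ((Fin (m - 1) ⊕ Fin (m - 1)) ⊕ Fin 2) F) := by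
  exact S2168.gen (Cfsg.quadFormMinus (m - 1) F c d) (QFm (m - 1) F c d) (QFm_apply c d)
    (QFm_nondeg c d hcd) t s hs


end Cfsg.Agent.S2170
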