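import Cfsg.Statements.S2231
import Cfsg.Agent.Helper12.PSL2Spec
import Cfsg.Agent.Helper12.SL2Orders

set_option autoImplicit false
open Cfsg

namespace Cfsg.Agent.S2231

open Cfsg.Agent.Helper12

theorem mat3_ext {R : Type*} {a b c d e f g h i a' b' c' d' e' f' g' h' i' : R}
    (h1 : a = a') (h2 : b = b') (h3 : c = c') (h4 : d = d') (h5 : e = e') (h6 : f = f')
    (h7 : g = g') (h8 : h = h') (h9 : i = i') :
    (!![a, b, c; d, e, f; g, h, i] : Matrix (Fin 3) (Fin 3) R) =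
      !![a', b', c'; d', e', f'; g', h', i'] := by
  rw [h1, h2, h3, h4, h5, h6, h7, h8, h9]

/-- the matrix `(-u) ⊕ 1`, `u = [[1,1],[0,1]]` -/
def mM (p : ℕ) : Matrix (Fin 3) (Fin 3) (ZMod p) := !![-1, -1, 0; 0, -1, 0; 0, 0, 1]

theorem mM_det (p : ℕ) : (mM p).det = 1 := by
  rw [mM, Matrix.det_fin_three]
  simp

/-- the element `(-u) ⊕ 1` of `SL₃(𝔽_p)` -/
def gM (p : ℕ) : Matrix.SpecialLinearGroup (Fin 3) (ZMod p) := ⟨mM p, mM_det p⟩

theorem mM_pow (p : ℕ) (n : ℕ) :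
    (mM p) ^ n = !![(-1) ^ n, (n : ZMod p) * (-1) ^ n, 0; 0, (-1) ^ n, 0; 0, 0, 1] := by
  induction n with
  | zero =>
    rw [pow_zero, Matrix.one_fin_three]
    apply mat3_ext <;> simp
  | succ n ih =>
    rw [pow_succ, ih, mM, Matrix.mul_fin_three]
    apply mat3_ext <;> (push_cast; ring)

theorem gM_mem (p : ℕ) : gM p ∈ Cfsg.qd p := by
  apply Subgroup.subset_closure
  exact ⟨rfl, rfl, rfl⟩

theorem two_p_dvd (p : ℕ) [Fact p.Prime] (hp : p ≠ 2) : 2 * p ∣ orderOf (gM p) := by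
  have hpp : p.Prime := Fact.out
  have h2p : 2 < p := lt_of_le_of_ne hpp.two_le (Ne.symm hp)
  have : Fact (2 < p) := ⟨h2p⟩
  have h1 := pow_orderOf_eq_one (gM p)
  have h2 : (mM p) ^ orderOf (gM p) = 1 := by
    have h := congrArg (fun x : Matrix.SpecialLinearGroup (Fin 3) (ZMod p) =>
      (x : Matrix (Fin 3) (Fin 3) (ZMod p))) h1
    simp only [Matrix.SpecialLinearGroup.coe_pow, Matrix.SpecialLinearGroup.coe_one] at h
    exact h
  rw [mM_pow, Matrix.one_fin_three] at h2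
  have e00 : (-1 : ZMod p) ^ orderOf (gM p) = 1 := congrFun (congrFun h2 0) 0
  have e01 : (orderOf (gM p) : ZMod p) * (-1) ^ orderOf (gM p) = 0 := congrFun (congrFun h2 0) 1
  rw [e00, mul_one] at e01
  have hpd : p ∣ orderOf (gM p) := (CharP.cast_eq_zero_iff (ZMod p) p _).mp e01
  have h2d : 2 ∣ orderOf (gM p) :=
    even_iff_two_dvd.mp ((neg_one_pow_eq_one_iff_even ZMod.neg_one_ne_one).mp e00)
  have hcop : Nat.Coprime 2 p := (Nat.coprime_primes Nat.prime_two hpp).mpr (Ne.symm hp)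
  exact hcop.mul_dvd_of_dvd_of_dvd h2d hpd

/-- Let p be an odd prime and K a finite field of characteristic p. Then Qd(p) (the natural semidirect product of an elementary abelian group of order p² by SL₂(p)) is not involved in the projective special linear group PSL₂(K). -/
theorem result {p : ℕ} [Fact p.Prime] (hp : p ≠ 2) {K : Type*} [Field K] [Fintype K] [CharP K p] : ¬ Cfsg.Involves ↥(Cfsg.qd p) (Matrix.ProjectiveSpecialLinearGroup (Fin 2) K) := by
  have hpp : p.Prime := Fact.out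
  rintro ⟨H, R, hN, ⟨e⟩⟩
  have hpos : 0 < orderOf (⟨gM p, gM_mem p⟩ : ↥(Cfsg.qd p)) := by
    rw [Subgroup.orderOf_mk]; exact orderOf_pos _
  obtain ⟨g', hg'⟩ := exists_orderOf_of_dvd (⟨gM p, gM_mem p⟩ : ↥(Cfsg.qd p)) (2 * p) hpos
    (by rw [Subgroup.orderOf_mk]; exact two_p_dvd p hp)
  have h1 : orderOf (e.symm g') = 2 * p := by rw [MulEquiv.orderOf_eq, hg']
  obtain ⟨x, hx⟩ := QuotientGroup.mk_surjective (e.symm g')
  have h2 : 2 * p ∣ orderOf x := by
    rw [← h1, ← hx]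
    exact orderOf_map_dvd (QuotientGroup.mk' (R.subgroupOf H)) x
  rw [← Subgroup.orderOf_coe] at h2
  obtain ⟨y, hy⟩ := exists_orderOf_of_dvd (x : Matrix.ProjectiveSpecialLinearGroup (Fin 2) K) (2 * p)
    (orderOf_pos _) h2
  obtain ⟨n, -, hn⟩ := FiniteField.card K p
  have hq : p ∣ Fintype.card K := by rw [hn]; exact dvd_pow_self p n.ne_zero
  have hq1 : 1 ≤ Fintype.card K := Fintype.card_pos
  have hp1 : ¬ p ∣ 1 := fun h => hpp.one_lt.ne' (Nat.dvd_one.mp h)
  have hg2 : Nat.gcd 2 (Fintype.card K - 1) ∣ Fintype.card K - 1 := Nat.gcd_dvd_right 2 _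
  have hg3 : Nat.gcd 2 (Fintype.card K - 1) ∣ Fintype.card K + 1 := by
    have h1 : Nat.gcd 2 (Fintype.card K - 1) ∣ 2 := Nat.gcd_dvd_left 2 _
    have h2 : Fintype.card K + 1 = (Fintype.card K - 1) + 2 := by omega
    rw [h2]; exact dvd_add hg2 h1
  have hp2p : p ∣ 2 * p := dvd_mul_left p 2
  rcases psl2_orderOf_dvd p y with h | h | h
  · rw [hy] at h
    have := Nat.le_of_dvd hpp.pos h
    have := hpp.pos
    omega
  · rw [hy] at h
    have h3 : p ∣ Fintype.card K - 1 := (hp2p.trans h).trans (Nat.div_dvd_of_dvd hg2)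
    apply hp1
    apply (Nat.dvd_add_right h3).mp
    rw [Nat.sub_add_cancel hq1]
    exact hq
  · rw [hy] at h
    have h3 : p ∣ Fintype.card K + 1 := (hp2p.trans h).trans (Nat.div_dvd_of_dvd hg3)
    exact hp1 ((Nat.dvd_add_right hq).mp h3)

end Cfsg.Agent.S2231
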