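import Mathlib
import Cfsg.Statements.S2232
import Cfsg.Agent.Helper10.QdData2
import Cfsg.Agent.Helper26.Involves
-- import your own Cfsg.Agent.* helpers here

set_option autoImplicit false
open Cfsg

namespace Cfsg.Agent.S2232

open Matrix

section Alg

variable {F : Type*} [Field F]

theorem fin3_cases (i : Fin 3) : i = 0 ∨ i = 1 ∨ i = 2 := by
  fin_cases i <;> simp

theorem fin2_cases (i : Fin 2) : i = 0 ∨ i = 1 := by
  fin_cases i <;> simp

/-- The cross product on `F^3`. -/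
def cr (x y : Fin 3 → F) : Fin 3 → F :=
  ![x 1 * y 2 - x 2 * y 1, x 2 * y 0 - x 0 * y 2, x 0 * y 1 - x 1 * y 0]

/-- The bilinear dot product on `F^3`. -/
def dp (x y : Fin 3 → F) : F := x 0 * y 0 + x 1 * y 1 + x 2 * y 2

/-- Coordinatewise `q`-th power. -/
def cj (q : ℕ) (x : Fin 3 → F) : Fin 3 → F := fun i => x i ^ q

theorem cr0 (x y : Fin 3 → F) : cr x y 0 = x 1 * y 2 - x 2 * y 1 := rfl
theorem cr1 (x y : Fin 3 → F) : cr x y 1 = x 2 * y 0 - x 0 * y 2 := rfl
theorem cr2 (x y : Fin 3 → F) : cr x y 2 = x 0 * y 1 - x 1 * y 0 := rfl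

theorem vec_ext {x y : Fin 3 → F} (h0 : x 0 = y 0) (h1 : x 1 = y 1) (h2 : x 2 = y 2) : x = y := by
  funext i
  rcases fin3_cases i with rfl | rfl | rfl
  · exact h0
  · exact h1
  · exact h2

theorem cr_anti (x y : Fin 3 → F) : cr y x = - cr x y := by
  apply vec_ext
  · rw [Pi.neg_apply, cr0, cr0]; ring
  · rw [Pi.neg_apply, cr1, cr1]; ring
  · rw [Pi.neg_apply, cr2, cr2]; ring

theorem cr_smul_smul_self (s t : F) (c : Fin 3 → F) : cr (s • c) (t • c) = 0 := by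
  apply vec_ext
  · rw [cr0]; simp only [Pi.smul_apply, smul_eq_mul, Pi.zero_apply]; ring
  · rw [cr1]; simp only [Pi.smul_apply, smul_eq_mul, Pi.zero_apply]; ring
  · rw [cr2]; simp only [Pi.smul_apply, smul_eq_mul, Pi.zero_apply]; ring

theorem par_of_cr {x y : Fin 3 → F} (hx : x ≠ 0) (h : cr x y = 0) : ∃ t : F, y = t • x := by
  have h0 : x 1 * y 2 - x 2 * y 1 = 0 := by rw [← cr0 x y, h]; rfl
  have h1 : x 2 * y 0 - x 0 * y 2 = 0 := by rw [← cr1 x y, h]; rfl
  have h2 : x 0 * y 1 - x 1 * y 0 = 0 := by rw [← cr2 x y, h]; rfl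
  have hex : ∃ i, x i ≠ 0 := by
    by_contra hc
    push Not at hc
    exact hx (funext hc)
  obtain ⟨i, hi⟩ := hex
  refine ⟨y i / x i, ?_⟩
  funext j
  show y j = y i / x i * x j
  rw [div_mul_eq_mul_div, eq_div_iff hi]
  rcases fin3_cases i with rfl | rfl | rfl <;> rcases fin3_cases j with rfl | rfl | rfl <;>
    first
      | rfl
      | linear_combination h0
      | linear_combination h1
      | linear_combination h2
      | linear_combination -h0
      | linear_combination -h1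
      | linear_combination -h2

theorem cr_cr (x a b : Fin 3 → F) : cr x (cr a b) = dp x b • a - dp x a • b := by
  apply vec_ext
  · simp only [cr0, cr1, cr2, dp, Pi.sub_apply, Pi.smul_apply, smul_eq_mul]; ring
  · simp only [cr0, cr1, cr2, dp, Pi.sub_apply, Pi.smul_apply, smul_eq_mul]; ring
  · simp only [cr0, cr1, cr2, dp, Pi.sub_apply, Pi.smul_apply, smul_eq_mul]; ring

theorem dp_comm (a b : Fin 3 → F) : dp a b = dp b a := by
  simp only [dp]; ring

theorem dp_sub_left (a b c : Fin 3 → F) : dp (a - b) c = dp a c - dp b c := by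
  simp only [dp, Pi.sub_apply]; ring

theorem dp_cr_cr (a b c d : Fin 3 → F) :
    dp (cr a b) (cr c d) = dp a c * dp b d - dp a d * dp b c := by
  simp only [dp, cr0, cr1, cr2]; ring

theorem det_rows (r0 r1 r2 : Fin 3 → F) :
    (Matrix.of ![r0, r1, r2]).det = dp r0 (cr r1 r2) := by
  rw [Matrix.det_fin_three]
  simp [dp, cr0, cr1, cr2]
  ring

theorem cj_ne_zero (q : ℕ) {x : Fin 3 → F} (hx : x ≠ 0) : cj q x ≠ 0 := by
  intro h
  apply hx
  funext i
  by_contra hi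
  exact pow_ne_zero q hi (congrFun h i)

theorem hf_eq (q : ℕ) (u v : Fin 3 → F) : Cfsg.hermForm 3 F q u v = dp u (cj q v) := by
  unfold Cfsg.hermForm
  rw [Fin.sum_univ_three]
  rfl

theorem mem_SU_iff' (q : ℕ) (g : Matrix.SpecialLinearGroup (Fin 3) F) :
    g ∈ Cfsg.SU 3 F q ↔ ∀ u v, Cfsg.hermForm 3 F q ((g : Matrix (Fin 3) (Fin 3) F) *ᵥ u)
      ((g : Matrix (Fin 3) (Fin 3) F) *ᵥ v) = Cfsg.hermForm 3 F q u v := Iff.rfl

theorem su_unit (q : ℕ) {g : Matrix.SpecialLinearGroup (Fin 3) F} (hg : g ∈ Cfsg.SU 3 F q)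
    (x y : Fin 3 → F) :
    dp ((g : Matrix (Fin 3) (Fin 3) F) *ᵥ x) (cj q ((g : Matrix (Fin 3) (Fin 3) F) *ᵥ y)) =
      dp x (cj q y) := by
  rw [← hf_eq, ← hf_eq]
  exact (mem_SU_iff' q g).mp hg x y

theorem exists_mulVec_ne {M : Matrix (Fin 3) (Fin 3) F} (hM : M ≠ 0) :
    ∃ x : Fin 3 → F, M *ᵥ x ≠ 0 := by
  by_contra hc
  push Not at hc
  apply hM
  ext i j
  have h1 := congrFun (hc (Pi.single j 1)) i
  rw [Matrix.mulVec_single_one] at h1
  exact h1

theorem pow_eigen (G : Matrix (Fin 3) (Fin 3) F) {v : Fin 3 → F} {c : F} (h : G *ᵥ v = c • v)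
    (j : ℕ) : (G ^ j) *ᵥ v = c ^ j • v := by
  induction j with
  | zero => rw [pow_zero, pow_zero, Matrix.one_mulVec, one_smul]
  | succ j ih =>
    rw [pow_succ, ← Matrix.mulVec_mulVec, h, Matrix.mulVec_smul, ih, smul_smul, ← pow_succ']

theorem eq_one_of_rows (M B : Matrix (Fin 3) (Fin 3) F) (hB : B * M = B) (hd : B.det ≠ 0) :
    M = 1 := by
  have hunit : IsUnit B.det := isUnit_iff_ne_zero.mpr hd
  calc M = (B⁻¹ * B) * M := by rw [Matrix.nonsing_inv_mul _ hunit, one_mul]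
    _ = B⁻¹ * (B * M) := by rw [mul_assoc]
    _ = B⁻¹ * B := by rw [hB]
    _ = 1 := Matrix.nonsing_inv_mul _ hunit

theorem cr_mulVec (M : Matrix (Fin 3) (Fin 3) F) (a b : Fin 3 → F) (j : Fin 3) :
    cr (M *ᵥ a) (M *ᵥ b) 0 * M 0 j + cr (M *ᵥ a) (M *ᵥ b) 1 * M 1 j
      + cr (M *ᵥ a) (M *ᵥ b) 2 * M 2 j = M.det * cr a b j := by
  have e : ∀ (x : Fin 3 → F) (i : Fin 3),
      (M *ᵥ x) i = M i 0 * x 0 + M i 1 * x 1 + M i 2 * x 2 := by
    intro x i
    rw [Matrix.mulVec, dotProduct, Fin.sum_univ_three]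
  rw [Matrix.det_fin_three]
  rcases fin3_cases j with rfl | rfl | rfl <;> simp only [cr0, cr1, cr2, e] <;> ring

theorem left_fixed (q : ℕ) (M : Matrix (Fin 3) (Fin 3) F)
    (hu : ∀ x y, dp (M *ᵥ x) (cj q (M *ᵥ y)) = dp x (cj q y)) {v : Fin 3 → F}
    (hv : M *ᵥ v = v) (j : Fin 3) :
    cj q v 0 * M 0 j + cj q v 1 * M 1 j + cj q v 2 * M 2 j = cj q v j := by
  have h := hu (Pi.single j 1) v
  rw [hv] at h
  have e : ∀ i, (M *ᵥ Pi.single j 1) i = M i j := fun i => by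
    rw [Matrix.mulVec_single_one]; rfl
  have h' : M 0 j * cj q v 0 + M 1 j * cj q v 1 + M 2 j * cj q v 2 =
      (Pi.single j 1 : Fin 3 → F) 0 * cj q v 0 + (Pi.single j 1 : Fin 3 → F) 1 * cj q v 1
        + (Pi.single j 1 : Fin 3 → F) 2 * cj q v 2 := by
    rw [← e 0, ← e 1, ← e 2]; exact h
  rcases fin3_cases j with rfl | rfl | rfl
  · simp [Pi.single_apply] at h'
    linear_combination h'
  · simp [Pi.single_apply] at h'
    linear_combination h'
  · simp [Pi.single_apply] at h'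
    linear_combination h'

/-- The polynomial identity behind: a determinant-one matrix fixing `v` on the right and `w` on
the left with `w ⬝ v = 0` has trace `3`. -/
theorem tr_core (M : Matrix (Fin 3) (Fin 3) F) (v w : Fin 3 → F) (i j k : Fin 3)
    (hE : ∀ a, M a i * v i + M a j * v j + M a k * v k = v a)
    (hL : ∀ b, w i * M i b + w j * M j b + w k * M k b = w b)
    (hO : w i * v i + w j * v j + w k * v k = 0)
    (hdet : M i i * (M j j * M k k - M j k * M k j) - M i j * (M j i * M k k - M j k * M k i)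
      + M i k * (M j i * M k j - M j j * M k i) = 1) :
    v i ^ 2 * w j * (M i i + M j j + M k k - 3) = 0 := by
  have hE0 := hE i
  have hE1 := hE j
  have hE2 := hE k
  have hL1 := hL j
  have hL2 := hL k
  linear_combination (-(v i * M k k - v k * M i k - v i)) * (v i * hL1 - M i j * hO)
    + (v i * M k j - v k * M i j) * (v i * hL2 - M i k * hO)
    + v i ^ 2 * w j * hdet
    + v i * w j * (1 - (M j j * M k k - M j k * M k j)) * hE0
    + v i * w j * (M i j * M k k - M i k * M k j) * hE1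
    - v i * w j * (M i j * M j k - M i k * M j j) * hE2

theorem ch3 (N : Matrix (Fin 3) (Fin 3) F) :
    N * N * N = (N 0 0 + N 1 1 + N 2 2) • (N * N)
      - (N 0 0 * N 1 1 - N 0 1 * N 1 0 + N 0 0 * N 2 2 - N 0 2 * N 2 0 + N 1 1 * N 2 2
          - N 1 2 * N 2 1) • N
      + N.det • (1 : Matrix (Fin 3) (Fin 3) F) := by
  rw [Matrix.det_fin_three]
  ext i j
  rcases fin3_cases i with rfl | rfl | rfl <;> rcases fin3_cases j with rfl | rfl | rfl <;>
    simp [Matrix.mul_apply, Fin.sum_univ_three, Matrix.one_apply] <;> ring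

theorem det_one_add3 (N : Matrix (Fin 3) (Fin 3) F) :
    (1 + N).det = 1 + (N 0 0 + N 1 1 + N 2 2)
      + (N 0 0 * N 1 1 - N 0 1 * N 1 0 + N 0 0 * N 2 2 - N 0 2 * N 2 0 + N 1 1 * N 2 2
          - N 1 2 * N 2 1)
      + N.det := by
  simp only [Matrix.det_fin_three]
  simp [Matrix.add_apply, Matrix.one_apply]
  ring

theorem unip3 (M : Matrix (Fin 3) (Fin 3) F) (hdet : M.det = 1)
    (htr : M 0 0 + M 1 1 + M 2 2 = 3) (hN : (M - 1).det = 0) :
    (M - 1) * (M - 1) * (M - 1) = 0 := by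
  have h1 := det_one_add3 (M - 1)
  rw [add_sub_cancel, hdet, hN] at h1
  have htr' : (M - 1) 0 0 + (M - 1) 1 1 + (M - 1) 2 2 = 0 := by
    simp only [Matrix.sub_apply, Matrix.one_apply_eq]
    linear_combination htr
  rw [htr'] at h1
  have hs : (M - 1) 0 0 * (M - 1) 1 1 - (M - 1) 0 1 * (M - 1) 1 0 + (M - 1) 0 0 * (M - 1) 2 2
      - (M - 1) 0 2 * (M - 1) 2 0 + (M - 1) 1 1 * (M - 1) 2 2 - (M - 1) 1 2 * (M - 1) 2 1 = 0 := by
    linear_combination -h1
  rw [ch3 (M - 1), hN, htr', hs]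
  simp

end Alg

section TwoByTwo

variable {R : Type*} [CommRing R]

theorem upow (k : ℕ) :
    (!![1, 1; 0, 1] : Matrix (Fin 2) (Fin 2) R) ^ k = !![1, (k : R); 0, 1] := by
  induction k with
  | zero =>
    rw [pow_zero, Nat.cast_zero]
    exact Matrix.one_fin_two
  | succ k ih =>
    rw [pow_succ, ih]
    ext i j
    rcases fin2_cases i with rfl | rfl <;> rcases fin2_cases j with rfl | rfl <;>
      simp [Matrix.mul_apply, Fin.sum_univ_two] <;> ring

theorem lpow (k : ℕ) :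
    (!![1, 0; 1, 1] : Matrix (Fin 2) (Fin 2) R) ^ k = !![1, 0; (k : R), 1] := by
  induction k with
  | zero =>
    rw [pow_zero, Nat.cast_zero]
    exact Matrix.one_fin_two
  | succ k ih =>
    rw [pow_succ, ih]
    ext i j
    rcases fin2_cases i with rfl | rfl <;> rcases fin2_cases j with rfl | rfl <;>
      simp [Matrix.mul_apply, Fin.sum_univ_two] <;> ring

theorem detC (x : R) :
    ((!![1, x; 0, 1] : Matrix (Fin 2) (Fin 2) R) * !![1, 0; x, 1] - 1).det = -(x * x) := by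
  rw [Matrix.det_fin_two]
  simp [Matrix.mul_apply, Fin.sum_univ_two]

end TwoByTwo

section ActsSec

variable {G : Type*} [Group G] {p : ℕ}

/-- `h` normalizes `V` into itself and acts on it, read through `e`, as the matrix `A`. -/
def Acts (V : Subgroup G) (e : G → Fin 2 → ZMod p) (h : G)
    (A : Matrix (Fin 2) (Fin 2) (ZMod p)) : Prop :=
  ∀ w ∈ V, h * w * h⁻¹ ∈ V ∧ e (h * w * h⁻¹) = A *ᵥ e w

theorem Acts.mul {V : Subgroup G} {e : G → Fin 2 → ZMod p} {h g : G}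
    {A B : Matrix (Fin 2) (Fin 2) (ZMod p)} (ha : Acts V e h A) (hb : Acts V e g B) :
    Acts V e (h * g) (A * B) := by
  intro w hw
  obtain ⟨h1, h2⟩ := hb w hw
  obtain ⟨h3, h4⟩ := ha _ h1
  have e1 : h * g * w * (h * g)⁻¹ = h * (g * w * g⁻¹) * h⁻¹ := by group
  rw [e1]
  exact ⟨h3, by rw [h4, h2, Matrix.mulVec_mulVec]⟩

theorem Acts.one {V : Subgroup G} {e : G → Fin 2 → ZMod p} : Acts V e 1 1 := by
  intro w hw
  have e1 : (1 : G) * w * (1 : G)⁻¹ = w := by group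
  rw [e1]
  exact ⟨hw, by rw [Matrix.one_mulVec]⟩

theorem Acts.pow {V : Subgroup G} {e : G → Fin 2 → ZMod p} {h : G}
    {A : Matrix (Fin 2) (Fin 2) (ZMod p)} (ha : Acts V e h A) (k : ℕ) :
    Acts V e (h ^ k) (A ^ k) := by
  induction k with
  | zero => rw [pow_zero, pow_zero]; exact Acts.one
  | succ k ih => rw [pow_succ, pow_succ]; exact ih.mul ha

end ActsSec

section Unitary

variable {p : ℕ} [hp : Fact p.Prime] {F : Type*} [Field F] [Fintype F] [CharP F p]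

theorem cj_cr (n : ℕ) (a b : Fin 3 → F) :
    cj (p ^ n) (cr a b) = cr (cj (p ^ n) a) (cj (p ^ n) b) := by
  apply vec_ext
  · show (cr a b 0) ^ p ^ n = cr (cj (p ^ n) a) (cj (p ^ n) b) 0
    rw [cr0, cr0, sub_pow_char_pow, mul_pow, mul_pow]; rfl
  · show (cr a b 1) ^ p ^ n = cr (cj (p ^ n) a) (cj (p ^ n) b) 1
    rw [cr1, cr1, sub_pow_char_pow, mul_pow, mul_pow]; rfl
  · show (cr a b 2) ^ p ^ n = cr (cj (p ^ n) a) (cj (p ^ n) b) 2
    rw [cr2, cr2, sub_pow_char_pow, mul_pow, mul_pow]; rfl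

theorem cj_cj (n : ℕ) (hF : Fintype.card F = (p ^ n) ^ 2) (x : Fin 3 → F) :
    cj (p ^ n) (cj (p ^ n) x) = x := by
  funext i
  show (x i ^ p ^ n) ^ p ^ n = x i
  rw [← pow_mul, ← sq, ← hF, FiniteField.pow_card]

theorem dp_cj_symm (n : ℕ) (hF : Fintype.card F = (p ^ n) ^ 2) (a b : Fin 3 → F) :
    dp b (cj (p ^ n) a) = (dp a (cj (p ^ n) b)) ^ p ^ n := by
  have hb : ∀ i, (b i ^ p ^ n) ^ p ^ n = b i := fun i => congrFun (cj_cj n hF b) i
  show b 0 * a 0 ^ p ^ n + b 1 * a 1 ^ p ^ n + b 2 * a 2 ^ p ^ n =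
    (a 0 * b 0 ^ p ^ n + a 1 * b 1 ^ p ^ n + a 2 * b 2 ^ p ^ n) ^ p ^ n
  rw [add_pow_char_pow, add_pow_char_pow, mul_pow, mul_pow, mul_pow, hb, hb, hb]
  ring

/-- There is no totally isotropic plane. -/
theorem no_iso_plane (n : ℕ) (hF : Fintype.card F = (p ^ n) ^ 2) {a b : Fin 3 → F}
    (ha : dp a (cj (p ^ n) a) = 0) (hb : dp b (cj (p ^ n) b) = 0)
    (hab : dp a (cj (p ^ n) b) = 0) : cr a b = 0 := by
  by_contra hne
  have hba : dp b (cj (p ^ n) a) = 0 := by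
    rw [dp_cj_symm n hF, hab, zero_pow (pow_ne_zero n hp.out.ne_zero)]
  have h1 : cr (cj (p ^ n) a) (cr a b) = 0 := by
    rw [cr_cr, dp_comm (cj (p ^ n) a) b, hba, dp_comm (cj (p ^ n) a) a, ha, zero_smul, zero_smul,
      sub_zero]
  have h2 : cr (cj (p ^ n) b) (cr a b) = 0 := by
    rw [cr_cr, dp_comm (cj (p ^ n) b) b, hb, dp_comm (cj (p ^ n) b) a, hab, zero_smul, zero_smul,
      sub_zero]
  obtain ⟨s, hs⟩ := par_of_cr hne (show cr (cr a b) (cj (p ^ n) a) = 0 by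
    rw [cr_anti (cj (p ^ n) a) (cr a b), h1, neg_zero])
  obtain ⟨t, ht⟩ := par_of_cr hne (show cr (cr a b) (cj (p ^ n) b) = 0 by
    rw [cr_anti (cj (p ^ n) b) (cr a b), h2, neg_zero])
  have h3 : cj (p ^ n) (cr a b) = 0 := by rw [cj_cr, hs, ht, cr_smul_smul_self]
  exact cj_ne_zero _ hne h3

/-- A unitary matrix of determinant one fixing two independent isotropic vectors is trivial. -/
theorem fix_two (n : ℕ) (hF : Fintype.card F = (p ^ n) ^ 2) (M : Matrix (Fin 3) (Fin 3) F)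
    (hdet : M.det = 1)
    (hu : ∀ x y, dp (M *ᵥ x) (cj (p ^ n) (M *ᵥ y)) = dp x (cj (p ^ n) y))
    {v1 v2 : Fin 3 → F} (h1 : M *ᵥ v1 = v1) (h2 : M *ᵥ v2 = v2)
    (i1 : dp v1 (cj (p ^ n) v1) = 0) (i2 : dp v2 (cj (p ^ n) v2) = 0) (hne : cr v1 v2 ≠ 0) :
    M = 1 := by
  have hc : dp v1 (cj (p ^ n) v2) ≠ 0 := fun h => hne (no_iso_plane n hF i1 i2 h)
  have hc' : dp v2 (cj (p ^ n) v1) ≠ 0 := by
    rw [dp_cj_symm n hF]; exact pow_ne_zero _ hc
  have l1 := left_fixed (p ^ n) M hu h1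
  have l2 := left_fixed (p ^ n) M hu h2
  have l3 : ∀ j, cr v1 v2 0 * M 0 j + cr v1 v2 1 * M 1 j + cr v1 v2 2 * M 2 j = cr v1 v2 j := by
    intro j
    have h3 := cr_mulVec M v1 v2 j
    rw [h1, h2, hdet, one_mul] at h3
    exact h3
  have hB : (Matrix.of ![cr v1 v2, cj (p ^ n) v1, cj (p ^ n) v2]) * M =
      Matrix.of ![cr v1 v2, cj (p ^ n) v1, cj (p ^ n) v2] := by
    ext i j
    rw [Matrix.mul_apply, Fin.sum_univ_three]
    rcases fin3_cases i with rfl | rfl | rfl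
    · exact l3 j
    · exact l1 j
    · exact l2 j
  have hdB : (Matrix.of ![cr v1 v2, cj (p ^ n) v1, cj (p ^ n) v2]).det ≠ 0 := by
    rw [det_rows, dp_cr_cr, i1, i2, zero_mul, zero_sub, neg_ne_zero]
    exact mul_ne_zero hc hc'
  exact eq_one_of_rows M _ hB hdB

theorem tr_eq_three (n : ℕ) (M : Matrix (Fin 3) (Fin 3) F) (hdet : M.det = 1)
    (hu : ∀ x y, dp (M *ᵥ x) (cj (p ^ n) (M *ᵥ y)) = dp x (cj (p ^ n) y))
    {v : Fin 3 → F} (hv : M *ᵥ v = v) (hv0 : v ≠ 0) (iso : dp v (cj (p ^ n) v) = 0) :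
    M 0 0 + M 1 1 + M 2 2 = 3 := by
  have hE : ∀ a, M a 0 * v 0 + M a 1 * v 1 + M a 2 * v 2 = v a := by
    intro a
    have h1 := congrFun hv a
    rw [Matrix.mulVec, dotProduct, Fin.sum_univ_three] at h1
    exact h1
  have hL := left_fixed (p ^ n) M hu hv
  have hw0 : cj (p ^ n) v ≠ 0 := cj_ne_zero _ hv0
  obtain ⟨w, hw⟩ : ∃ w, w = cj (p ^ n) v := ⟨_, rfl⟩
  rw [← hw] at hL iso hw0
  have hO : w 0 * v 0 + w 1 * v 1 + w 2 * v 2 = 0 := by
    have h1 : v 0 * w 0 + v 1 * w 1 + v 2 * w 2 = 0 := iso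
    linear_combination h1
  rw [Matrix.det_fin_three] at hdet
  obtain ⟨i, hi⟩ : ∃ i, v i ≠ 0 := by
    by_contra hc
    push Not at hc
    exact hv0 (funext hc)
  have hj : ∃ j, j ≠ i ∧ w j ≠ 0 := by
    by_contra hc
    push Not at hc
    apply hw0
    have hwi : w i = 0 := by
      rcases fin3_cases i with rfl | rfl | rfl
      · have h1 := hc 1 (by decide)
        have h2 := hc 2 (by decide)
        rw [h1, h2] at hO
        have h3 : w 0 * v 0 = 0 := by linear_combination hO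
        exact (mul_eq_zero.mp h3).resolve_right hi
      · have h1 := hc 0 (by decide)
        have h2 := hc 2 (by decide)
        rw [h1, h2] at hO
        have h3 : w 1 * v 1 = 0 := by linear_combination hO
        exact (mul_eq_zero.mp h3).resolve_right hi
      · have h1 := hc 0 (by decide)
        have h2 := hc 1 (by decide)
        rw [h1, h2] at hO
        have h3 : w 2 * v 2 = 0 := by linear_combination hO
        exact (mul_eq_zero.mp h3).resolve_right hi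
    funext j
    by_cases hji : j = i
    · rw [hji]; exact hwi
    · exact hc j hji
  obtain ⟨j, hji, hj⟩ := hj
  have fin : ∀ X : F, v i ^ 2 * w j * X = 0 → X = 0 := fun X h =>
    (mul_eq_zero.mp h).resolve_left (mul_ne_zero (pow_ne_zero 2 hi) hj)
  rcases fin3_cases i with rfl | rfl | rfl <;> rcases fin3_cases j with rfl | rfl | rfl
  · exact absurd rfl hji
  · have h1 := fin _ (tr_core M v w 0 1 2 (fun a => by linear_combination hE a)
      (fun b => by linear_combination hL b) (by linear_combination hO)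
      (by linear_combination hdet))
    linear_combination h1
  · have h1 := fin _ (tr_core M v w 0 2 1 (fun a => by linear_combination hE a)
      (fun b => by linear_combination hL b) (by linear_combination hO)
      (by linear_combination hdet))
    linear_combination h1
  · have h1 := fin _ (tr_core M v w 1 0 2 (fun a => by linear_combination hE a)
      (fun b => by linear_combination hL b) (by linear_combination hO)
      (by linear_combination hdet))
    linear_combination h1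
  · exact absurd rfl hji
  · have h1 := fin _ (tr_core M v w 1 2 0 (fun a => by linear_combination hE a)
      (fun b => by linear_combination hL b) (by linear_combination hO)
      (by linear_combination hdet))
    linear_combination h1
  · have h1 := fin _ (tr_core M v w 2 0 1 (fun a => by linear_combination hE a)
      (fun b => by linear_combination hL b) (by linear_combination hO)
      (by linear_combination hdet))
    linear_combination h1
  · have h1 := fin _ (tr_core M v w 2 1 0 (fun a => by linear_combination hE a)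
      (fun b => by linear_combination hL b) (by linear_combination hO)
      (by linear_combination hdet))
    linear_combination h1
  · exact absurd rfl hji

/-- The stabiliser in `SU₃` of a nonzero isotropic vector has exponent `p`. -/
theorem pow_p_eq_one (hp2 : p ≠ 2) (n : ℕ) (M : Matrix (Fin 3) (Fin 3) F) (hdet : M.det = 1)
    (hu : ∀ x y, dp (M *ᵥ x) (cj (p ^ n) (M *ᵥ y)) = dp x (cj (p ^ n) y))
    {v : Fin 3 → F} (hv : M *ᵥ v = v) (hv0 : v ≠ 0) (iso : dp v (cj (p ^ n) v) = 0) :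
    M ^ p = 1 := by
  have htr := tr_eq_three n M hdet hu hv hv0 iso
  have hN : (M - 1).det = 0 :=
    Matrix.exists_mulVec_eq_zero_iff.mp
      ⟨v, hv0, by rw [Matrix.sub_mulVec, hv, Matrix.one_mulVec, sub_self]⟩
  have h3 : (M - 1) ^ 3 = 0 := by
    rw [pow_succ, pow_two]; exact unip3 M hdet htr hN
  have hp3 : 3 ≤ p := by
    have := hp.out.two_le
    omega
  have hNp : (M - 1) ^ p = 0 := by
    have h5 : (M - 1) ^ p = (M - 1) ^ 3 * (M - 1) ^ (p - 3) := by
      rw [← pow_add]; congr 1; omega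
    rw [h5, h3, zero_mul]
  have h4 := sub_pow_char_of_commute p (Commute.one_right M)
  rw [hNp, one_pow] at h4
  exact sub_eq_zero.mp h4.symm

/-- A nontrivial `p`-subgroup of `SU₃` fixes a nonzero isotropic vector. -/
theorem exists_fixed_iso (n : ℕ) (hF : Fintype.card F = (p ^ n) ^ 2)
    (V : Subgroup (Matrix.SpecialLinearGroup (Fin 3) F)) (hV : V ≤ Cfsg.SU 3 F (p ^ n))
    (hVp : IsPGroup p V) (hV1 : V ≠ ⊥) :
    ∃ v : Fin 3 → F, v ≠ 0 ∧ dp v (cj (p ^ n) v) = 0 ∧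
      ∀ g ∈ V, (g : Matrix (Fin 3) (Fin 3) F) *ᵥ v = v := by
  classical
  haveI : Finite (Matrix.SpecialLinearGroup (Fin 3) F) :=
    Finite.of_injective (fun g => (g : Matrix (Fin 3) (Fin 3) F)) (fun a b h => Subtype.ext h)
  haveI : Nontrivial V := (Subgroup.nontrivial_iff_ne_bot V).mpr hV1
  haveI := hVp.center_nontrivial
  obtain ⟨⟨u, hu⟩, hune⟩ := exists_ne (1 : Subgroup.center V)
  have hu1 : (u : Matrix.SpecialLinearGroup (Fin 3) F) ≠ 1 := by
    intro h
    exact hune (Subtype.ext (Subtype.ext h))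
  obtain ⟨M, hM⟩ : ∃ M : Matrix (Fin 3) (Fin 3) F,
      M = ((u : Matrix.SpecialLinearGroup (Fin 3) F) : Matrix (Fin 3) (Fin 3) F) := ⟨_, rfl⟩
  have hM1 : M ≠ 1 := by
    intro h
    apply hu1
    apply Subtype.ext
    rw [← hM, h, Matrix.SpecialLinearGroup.coe_one]
  have hMdet : M.det = 1 := by
    rw [hM]; exact (u : Matrix.SpecialLinearGroup (Fin 3) F).2
  have hMu := su_unit (p ^ n) (hV u.2)
  rw [← hM] at hMu
  obtain ⟨k, hk⟩ := hVp u
  have hMk : M ^ p ^ k = 1 := by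
    have h1 : (u : Matrix.SpecialLinearGroup (Fin 3) F) ^ p ^ k = 1 := congrArg Subtype.val hk
    rw [hM, ← Matrix.SpecialLinearGroup.coe_pow, h1, Matrix.SpecialLinearGroup.coe_one]
  have hNk : (M - 1) ^ p ^ k = 0 := by
    rw [sub_pow_char_pow_of_commute p k (Commute.one_right M), hMk, one_pow, sub_self]
  have hex : ∃ m, (M - 1) ^ m = 0 := ⟨_, hNk⟩
  obtain ⟨m, hm, hmin⟩ : ∃ m, (M - 1) ^ m = 0 ∧ ∀ m' < m, (M - 1) ^ m' ≠ 0 :=
    ⟨Nat.find hex, Nat.find_spec hex, fun m' h => Nat.find_min hex h⟩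
  have hm0 : m ≠ 0 := by
    rintro rfl
    rw [pow_zero] at hm
    exact one_ne_zero hm
  have hm1 : m ≠ 1 := by
    rintro rfl
    rw [pow_one] at hm
    exact hM1 (sub_eq_zero.mp hm)
  obtain ⟨x, hx⟩ := exists_mulVec_ne (hmin (m - 1) (by omega))
  obtain ⟨v, hv⟩ : ∃ v, v = (M - 1) ^ (m - 1) *ᵥ x := ⟨_, rfl⟩
  obtain ⟨y, hy⟩ : ∃ y, y = (M - 1) ^ (m - 2) *ᵥ x := ⟨_, rfl⟩
  have hvne : v ≠ 0 := by rw [hv]; exact hx
  have hNv : (M - 1) *ᵥ v = 0 := by
    rw [hv, Matrix.mulVec_mulVec, ← pow_succ', show m - 1 + 1 = m by omega, hm,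
      Matrix.zero_mulVec]
  have hMv : M *ᵥ v = v := by
    have h1 : M *ᵥ v = (M - 1) *ᵥ v + v := by
      rw [Matrix.sub_mulVec, Matrix.one_mulVec, sub_add_cancel]
    rw [h1, hNv, zero_add]
  have hvy : v = M *ᵥ y - y := by
    have h1 : v = (M - 1) *ᵥ y := by
      rw [hv, hy, Matrix.mulVec_mulVec, ← pow_succ', show m - 2 + 1 = m - 1 by omega]
    rw [Matrix.sub_mulVec, Matrix.one_mulVec] at h1
    exact h1
  have hviso : dp v (cj (p ^ n) v) = 0 := by
    have h1 : dp v (cj (p ^ n) v) =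
        dp (M *ᵥ y) (cj (p ^ n) (M *ᵥ v)) - dp y (cj (p ^ n) v) := by
      rw [hMv, ← dp_sub_left, ← hvy]
    rw [h1, hMu y v, sub_self]
  refine ⟨v, hvne, hviso, ?_⟩
  intro g hg
  obtain ⟨G, hG⟩ : ∃ G : Matrix (Fin 3) (Fin 3) F, G = (g : Matrix (Fin 3) (Fin 3) F) :=
    ⟨_, rfl⟩
  rw [← hG]
  have hcomm : G * M = M * G := by
    have h1 : (⟨g, hg⟩ : V) * u = u * ⟨g, hg⟩ := Subgroup.mem_center_iff.mp hu ⟨g, hg⟩
    have h2 : g * (u : Matrix.SpecialLinearGroup (Fin 3) F) =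
        (u : Matrix.SpecialLinearGroup (Fin 3) F) * g := congrArg Subtype.val h1
    rw [hG, hM, ← Matrix.SpecialLinearGroup.coe_mul, ← Matrix.SpecialLinearGroup.coe_mul, h2]
  have hGu := su_unit (p ^ n) (hV hg)
  rw [← hG] at hGu
  have hfix : M *ᵥ (G *ᵥ v) = G *ᵥ v := by
    rw [Matrix.mulVec_mulVec, ← hcomm, ← Matrix.mulVec_mulVec, hMv]
  have hiso : dp (G *ᵥ v) (cj (p ^ n) (G *ᵥ v)) = 0 := by rw [hGu v v]; exact hviso
  have hcr : cr v (G *ᵥ v) = 0 := by
    by_contra hne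
    exact hM1 (fix_two n hF M hMdet hMu hMv hfix hviso hiso hne)
  obtain ⟨c, hc⟩ := par_of_cr hvne hcr
  obtain ⟨k', hk'⟩ := hVp ⟨g, hg⟩
  have hGk : G ^ p ^ k' = 1 := by
    have h1 : g ^ p ^ k' = 1 := congrArg Subtype.val hk'
    rw [hG, ← Matrix.SpecialLinearGroup.coe_pow, h1, Matrix.SpecialLinearGroup.coe_one]
  have h3 := pow_eigen G hc (p ^ k')
  rw [hGk, Matrix.one_mulVec] at h3
  obtain ⟨i, hi⟩ : ∃ i, v i ≠ 0 := by
    by_contra hcon
    push Not at hcon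
    exact hvne (funext hcon)
  have h4 : c ^ p ^ k' = 1 := by
    have h5 := congrFun h3 i
    rw [Pi.smul_apply, smul_eq_mul] at h5
    have h6 : (c ^ p ^ k' - 1) * v i = 0 := by linear_combination -h5
    exact sub_eq_zero.mp ((mul_eq_zero.mp h6).resolve_right hi)
  have h7 : (c - 1) ^ p ^ k' = 0 := by rw [sub_pow_char_pow, h4, one_pow, sub_self]
  have hc1 : c = 1 := sub_eq_zero.mp ((pow_eq_zero_iff (pow_ne_zero k' hp.out.ne_zero)).mp h7)
  rw [hc, hc1, one_smul]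

/-- An element of `SU₃` conjugating a nontrivial element of `V` into `V` stabilises the line of
the isotropic vector fixed by `V`. -/
theorem line_stab (n : ℕ) (hF : Fintype.card F = (p ^ n) ^ 2)
    (V : Subgroup (Matrix.SpecialLinearGroup (Fin 3) F)) (hV : V ≤ Cfsg.SU 3 F (p ^ n))
    {v0 : Matrix.SpecialLinearGroup (Fin 3) F} (hv0V : v0 ∈ V) (hv01 : v0 ≠ 1)
    {v : Fin 3 → F} (hvne : v ≠ 0) (hviso : dp v (cj (p ^ n) v) = 0)
    (hvfix : ∀ g ∈ V, (g : Matrix (Fin 3) (Fin 3) F) *ᵥ v = v)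
    (h : Matrix.SpecialLinearGroup (Fin 3) F) (hh : h ∈ Cfsg.SU 3 F (p ^ n))
    (hnorm : h * v0 * h⁻¹ ∈ V) :
    ∃ c : F, c ≠ 0 ∧ (h : Matrix (Fin 3) (Fin 3) F) *ᵥ v = c • v := by
  have hinv : h⁻¹ ∈ Cfsg.SU 3 F (p ^ n) := inv_mem hh
  obtain ⟨v', hv'⟩ : ∃ v', v' =
      ((h⁻¹ : Matrix.SpecialLinearGroup (Fin 3) F) : Matrix (Fin 3) (Fin 3) F) *ᵥ v := ⟨_, rfl⟩
  have hHH : (h : Matrix (Fin 3) (Fin 3) F) *
      ((h⁻¹ : Matrix.SpecialLinearGroup (Fin 3) F) : Matrix (Fin 3) (Fin 3) F) = 1 := by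
    rw [← Matrix.SpecialLinearGroup.coe_mul, mul_inv_cancel, Matrix.SpecialLinearGroup.coe_one]
  have hback : (h : Matrix (Fin 3) (Fin 3) F) *ᵥ v' = v := by
    rw [hv', Matrix.mulVec_mulVec, hHH, Matrix.one_mulVec]
  have hv'ne : v' ≠ 0 := by
    intro h0
    rw [h0, Matrix.mulVec_zero] at hback
    exact hvne hback.symm
  have hv'iso : dp v' (cj (p ^ n) v') = 0 := by
    rw [hv', su_unit (p ^ n) hinv v v]; exact hviso
  have hv'fix : (v0 : Matrix (Fin 3) (Fin 3) F) *ᵥ v' = v' := by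
    have e1 : v0 * h⁻¹ = h⁻¹ * (h * v0 * h⁻¹) := by group
    rw [hv', Matrix.mulVec_mulVec, ← Matrix.SpecialLinearGroup.coe_mul, e1,
      Matrix.SpecialLinearGroup.coe_mul, ← Matrix.mulVec_mulVec, hvfix _ hnorm]
  have hcr : cr v v' = 0 := by
    by_contra hne
    have h1 := fix_two n hF (v0 : Matrix (Fin 3) (Fin 3) F) v0.2 (su_unit (p ^ n) (hV hv0V))
      (hvfix v0 hv0V) hv'fix hviso hv'iso hne
    exact hv01 (Subtype.ext (h1.trans Matrix.SpecialLinearGroup.coe_one.symm))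
  obtain ⟨t, ht⟩ := par_of_cr hvne hcr
  have ht0 : t ≠ 0 := by
    rintro rfl
    rw [zero_smul] at ht
    exact hv'ne ht
  refine ⟨t⁻¹, inv_ne_zero ht0, ?_⟩
  rw [ht, Matrix.mulVec_smul] at hback
  calc (h : Matrix (Fin 3) (Fin 3) F) *ᵥ v
      = t⁻¹ • (t • ((h : Matrix (Fin 3) (Fin 3) F) *ᵥ v)) := by
        rw [smul_smul, inv_mul_cancel₀ ht0, one_smul]
    _ = t⁻¹ • v := by rw [hback]

/-- `SU₃(q)` in characteristic `p` (odd) carries no `Qd(p)`-data. -/
theorem no_data (hp2 : p ≠ 2) (n : ℕ) (hn : 1 ≤ n) (hF : Fintype.card F = (p ^ n) ^ 2)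
    (V S' : Subgroup (Matrix.SpecialLinearGroup (Fin 3) F))
    (e : Matrix.SpecialLinearGroup (Fin 3) F → Fin 2 → ZMod p)
    (hS' : S' ≤ Cfsg.SU 3 F (p ^ n)) (hV : V ≤ Cfsg.SU 3 F (p ^ n))
    (hd : Cfsg.Agent.Helper10.IsQdData p V e S') : False := by
  obtain ⟨hVp, hadd, hsurj, hact⟩ := hd
  obtain ⟨v0, hv0V, hev0⟩ := hsurj ![1, 0]
  have he1 : e 1 = 0 := Cfsg.Agent.Helper10.e_one hadd
  have hv01 : v0 ≠ 1 := by
    rintro rfl
    rw [he1] at hev0
    have h0 := congrFun hev0 0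
    simp at h0
  have hVne : V ≠ ⊥ := by
    intro h
    rw [h] at hv0V
    exact hv01 (Subgroup.mem_bot.mp hv0V)
  obtain ⟨v, hvne, hviso, hvfix⟩ := exists_fixed_iso n hF V hV hVp hVne
  obtain ⟨a, haS, haact⟩ := hact ⟨!![1, 1; 0, 1], by simp [Matrix.det_fin_two]⟩
  obtain ⟨b, hbS, hbact⟩ := hact ⟨!![1, 0; 1, 1], by simp [Matrix.det_fin_two]⟩
  have actA : Acts V e a !![1, 1; 0, 1] := haact
  have actB : Acts V e b !![1, 0; 1, 1] := hbact
  obtain ⟨ca, hca0, hca⟩ := line_stab n hF V hV hv0V hv01 hvne hviso hvfix a (hS' haS)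
    (haact v0 hv0V).1
  obtain ⟨cb, hcb0, hcb⟩ := line_stab n hF V hV hv0V hv01 hvne hviso hvfix b (hS' hbS)
    (hbact v0 hv0V).1
  obtain ⟨m, hm⟩ : ∃ m, m = Fintype.card F - 1 := ⟨_, rfl⟩
  have hmz : (m : ZMod p) = -1 := by
    rw [hm, hF, Nat.cast_sub (Nat.one_le_pow _ _ (Nat.one_le_pow _ _ hp.out.pos)), Nat.cast_pow,
      Nat.cast_pow, ZMod.natCast_self, zero_pow (show n ≠ 0 by omega),
      zero_pow (show 2 ≠ 0 by norm_num), Nat.cast_one, zero_sub]
  have hfa : ((a ^ m : Matrix.SpecialLinearGroup (Fin 3) F) : Matrix (Fin 3) (Fin 3) F) *ᵥ v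
      = v := by
    rw [Matrix.SpecialLinearGroup.coe_pow, pow_eigen _ hca, hm,
      FiniteField.pow_card_sub_one_eq_one ca hca0, one_smul]
  have hfb : ((b ^ m : Matrix.SpecialLinearGroup (Fin 3) F) : Matrix (Fin 3) (Fin 3) F) *ᵥ v
      = v := by
    rw [Matrix.SpecialLinearGroup.coe_pow, pow_eigen _ hcb, hm,
      FiniteField.pow_card_sub_one_eq_one cb hcb0, one_smul]
  have hfz : ((a ^ m * b ^ m : Matrix.SpecialLinearGroup (Fin 3) F) :
      Matrix (Fin 3) (Fin 3) F) *ᵥ v = v := by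
    rw [Matrix.SpecialLinearGroup.coe_mul, ← Matrix.mulVec_mulVec, hfb, hfa]
  have hzSU : a ^ m * b ^ m ∈ Cfsg.SU 3 F (p ^ n) :=
    mul_mem (pow_mem (hS' haS) m) (pow_mem (hS' hbS) m)
  have hzp : (a ^ m * b ^ m) ^ p = 1 := by
    apply Subtype.ext
    rw [Matrix.SpecialLinearGroup.coe_pow, Matrix.SpecialLinearGroup.coe_one]
    exact pow_p_eq_one hp2 n _ (a ^ m * b ^ m).2 (su_unit (p ^ n) hzSU) hfz hvne hviso
  have actZ := ((actA.pow m).mul (actB.pow m)).pow p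
  rw [hzp] at actZ
  obtain ⟨C, hC⟩ : ∃ C, C = (!![1, 1; 0, 1] : Matrix (Fin 2) (Fin 2) (ZMod p)) ^ m *
      !![1, 0; 1, 1] ^ m := ⟨_, rfl⟩
  rw [← hC] at actZ
  have hCt : ∀ t : Fin 2 → ZMod p, (C ^ p) *ᵥ t = t := by
    intro t
    obtain ⟨w, hwV, rfl⟩ := hsurj t
    have h1 := (actZ w hwV).2
    rw [one_mul, inv_one, mul_one] at h1
    exact h1.symm
  have hCp : C ^ p = 1 := by
    apply Matrix.toLin'.injective
    apply LinearMap.ext
    intro t
    rw [Matrix.toLin'_apply, Matrix.toLin'_one]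
    exact hCt t
  have hC1 : (C - 1) ^ p = 0 := by
    rw [sub_pow_char_of_commute p (Commute.one_right C), hCp, one_pow, sub_self]
  have hdet : (C - 1).det = -1 := by
    rw [hC, upow, lpow, detC, hmz]
    ring
  have hd0 : (C - 1).det ^ p = 0 := by
    rw [← Matrix.det_pow, hC1, Matrix.det_zero]
  rw [hdet] at hd0
  exact pow_ne_zero p (neg_ne_zero.mpr one_ne_zero) hd0

end Unitary


/-- Let p be an odd prime, q a power of p and K a finite field with q² elements. Then Qd(p) (the natural semidirect product of an elementary abelian group of order p² by SL₂(p)) is not involved in the projective special unitary group PSU₃(q) realised over K. -/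
theorem result {p : ℕ} [Fact p.Prime] (hp : p ≠ 2) {K : Type*} [Field K] [Fintype K] [CharP K p] (n : ℕ) (hn : 1 ≤ n) (hK : Fintype.card K = (p ^ n) ^ 2) : ¬ Cfsg.Involves ↥(Cfsg.qd p) (Cfsg.PSU 3 K (p ^ n)) := by
  intro hinv
  haveI : Finite (Matrix.SpecialLinearGroup (Fin 3) K) :=
    Finite.of_injective (fun g => (g : Matrix (Fin 3) (Fin 3) K)) (fun a b h => Subtype.ext h)
  obtain ⟨H, f, hf⟩ := Cfsg.Agent.Helper26.exists_surj_of_involves hinv
  have h1 : Cfsg.Agent.Helper10.QdData p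
      ↥(H.comap (QuotientGroup.mk' (Subgroup.center (Cfsg.SU 3 K (p ^ n))))) :=
    Cfsg.Agent.Helper10.qdData_of_surj
      (f.comp ((QuotientGroup.mk' (Subgroup.center (Cfsg.SU 3 K (p ^ n)))).subgroupComap H))
      (hf.comp (MonoidHom.subgroupComap_surjective_of_surjective _ _
        (QuotientGroup.mk'_surjective _)))
  have h2 : Cfsg.Agent.Helper10.QdData p ↥(Cfsg.SU 3 K (p ^ n)) :=
    Cfsg.Agent.Helper10.QdData.of_subgroup _ h1
  obtain ⟨V, e, hd⟩ := h2
  exact no_data hp n hn hK _ _ _ (by rintro _ ⟨x, -, rfl⟩; exact x.2)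
    (Subgroup.map_subtype_le V)
    (Cfsg.Agent.Helper10.IsQdData.of_subgroup (Cfsg.SU 3 K (p ^ n)) hd)

end Cfsg.Agent.S2232
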