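import Cfsg.Statements.S2255
import Cfsg.Agent.Helper28.NilAlt

set_option autoImplicit false
open Cfsg

namespace Cfsg.Agent.S2255

/-- Let n be a natural number not congruent to 3 modulo 4, with n ∉ {5, 6, 9}. Then every nilpotent subgroup of the alternating group on n letters has order at most the order of a Sylow 2-subgroup of the alternating group (so the nilpotent subgroups of largest order are exactly the Sylow 2-subgroups). -/
theorem result  (n : ℕ) (hn : n % 4 ≠ 3)
    (h5 : n ≠ 5) (h6 : n ≠ 6) (h9 : n ≠ 9)
    (N : Subgroup (alternatingGroup (Fin n))) (hN : Group.IsNilpotent N)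
    (P : Sylow 2 (alternatingGroup (Fin n))) :
    Nat.card N ≤ Nat.card P := by
  have hinj : Function.Injective (alternatingGroup (Fin n)).subtype :=
    Subgroup.subtype_injective _
  have hcardM : Nat.card (N.map (alternatingGroup (Fin n)).subtype) = Nat.card N :=
    Subgroup.card_map_of_injective hinj
  have hMnil : Group.IsNilpotent (N.map (alternatingGroup (Fin n)).subtype) := by
    have := hN
    exact Group.nilpotent_of_surjective ((alternatingGroup (Fin n)).subtype.subgroupMap N)
      (MonoidHom.subgroupMap_surjective _ _)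
  have hMev : ∀ g ∈ N.map (alternatingGroup (Fin n)).subtype,
      Cfsg.Agent.Helper28.NilAlt.sgn g = 1 := by
    rintro g ⟨a, _, rfl⟩
    rw [Cfsg.Agent.Helper28.NilAlt.sgn_eq_sign]
    exact Equiv.Perm.mem_alternatingGroup.1 a.2
  have hmain := Cfsg.Agent.Helper28.NilAlt.mainA n (Fin n) _ (Nat.card_fin n) hMnil hMev
  rw [hcardM] at hmain
  have hP : Nat.card P = 2 ^ (Nat.card (alternatingGroup (Fin n))).factorization 2 :=
    Sylow.card_eq_multiplicity P
  rcases Nat.lt_or_ge n 2 with hlt | hge
  · have hD : Cfsg.Agent.Helper28.NilNum.D n = 2 := by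
      rcases (by omega : n = 0 ∨ n = 1) with h | h <;> rw [h] <;>
        simp [Cfsg.Agent.Helper28.NilNum.D]
    have hpos : 0 < Nat.card P := Nat.card_pos
    omega
  · have hnt : Nontrivial (Fin n) := Fin.nontrivial_iff_two_le.2 hge
    have h3 : 2 * Nat.card (alternatingGroup (Fin n)) = Nat.card (Equiv.Perm (Fin n)) :=
      two_mul_nat_card_alternatingGroup
    rw [Nat.card_perm, Nat.card_fin] at h3
    have hA0 : Nat.card (alternatingGroup (Fin n)) ≠ 0 := Nat.card_pos.ne'
    have hV : Cfsg.Agent.Helper28.NilNum.V n
        = (Nat.card (alternatingGroup (Fin n))).factorization 2 + 1 := by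
      unfold Cfsg.Agent.Helper28.NilNum.V
      rw [← h3, ← Nat.factorization_def _ Nat.prime_two,
        Nat.factorization_mul two_ne_zero hA0, Finsupp.add_apply,
        Nat.prime_two.factorization_self]
      omega
    have hD : Cfsg.Agent.Helper28.NilNum.D n = 2 ^ Cfsg.Agent.Helper28.NilNum.V n := by
      rw [Cfsg.Agent.Helper28.NilNum.D_eq_B n (by omega) (by omega) (by omega) h5 h6 h9]
      unfold Cfsg.Agent.Helper28.NilNum.B
      rw [if_neg hn]
    rw [hD, hV, pow_succ] at hmain
    rw [hP]
    omega

end Cfsg.Agent.S2255
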