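import Cfsg.Statements.S2268
import Mathlib

set_option autoImplicit false
open Cfsg

namespace Cfsg.Agent.S2268

open Subgroup MulAction in
theorem part1 {G : Type*} [Group G] [Finite G] {p : ℕ} [Fact p.Prime]
    (P : Sylow p G) (hP : IsMulCommutative (P : Subgroup G)) (Q : Subgroup G) (hQ : Q ≤ (P : Subgroup G)) :
    Subgroup.normalizer (Q : Set G) =
      (Subgroup.normalizer (Q : Set G) ⊓ Subgroup.normalizer ((P : Subgroup G) : Set G)) ⊔ Subgroup.centralizer (Q : Set G) := by
  apply le_antisymm
  · intro n hn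
    have h1 : (P : Subgroup G) ≤ centralizer (Q : Set G) := by
      intro x hx q hq
      have := hP.is_comm.comm ⟨q, hQ hq⟩ ⟨x, hx⟩
      exact congrArg Subtype.val this
    have h2 : ((n • P : Sylow p G) : Subgroup G) ≤ centralizer (Q : Set G) := by
      rintro - ⟨x, hx, rfl⟩ q hq
      have hq' : n⁻¹ * q * n ∈ Q := by
        have := (mem_normalizer_iff''.mp hn q).mp hq
        exact this
      have := hP.is_comm.comm ⟨n⁻¹ * q * n, hQ hq'⟩ ⟨x, hx⟩
      have h3 : n⁻¹ * q * n * x = x * (n⁻¹ * q * n) := congrArg Subtype.val this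
      simp only [MulDistribMulAction.toMonoidEnd_apply, MulAut.smul_def, MulAut.conj_apply,
        MonoidHom.coe_coe] at *
      calc q * (n * x * n⁻¹) = n * (n⁻¹ * q * n * x) * n⁻¹ := by group
        _ = n * (x * (n⁻¹ * q * n)) * n⁻¹ := by rw [h3]
        _ = n * x * n⁻¹ * q := by group
    obtain ⟨h, hh⟩ :=
      exists_smul_eq (centralizer (Q : Set G)) ((n • P).subtype h2) (P.subtype h1)
    simp_rw [Sylow.smul_subtype, Subgroup.smul_def, smul_smul] at hh
    have h4 : (h : G) * n ∈ normalizer ((P : Subgroup G) : Set G) :=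
      Sylow.smul_eq_iff_mem_normalizer.mp (Sylow.subtype_injective hh)
    have h5 : (h : G) * n ∈ normalizer (Q : Set G) :=
      mul_mem (centralizer_le_normalizer _ h.2) hn
    have h6 : n = (h : G)⁻¹ * ((h : G) * n) := by group
    rw [h6, sup_comm]
    exact mul_mem_sup (inv_mem h.2) ⟨h5, h4⟩
  · exact sup_le inf_le_left (centralizer_le_normalizer _)

/-- Let G be a finite group with an abelian Sylow p-subgroup P and let Q ≤ P. Then N_G(Q) = (N_G(Q) ∩ N_G(P))·C_G(Q), so that N_G(Q)/C_G(Q) is a homomorphic image of the subgroup (N_G(Q) ∩ N_G(P))/C_G(P) of N_G(P)/C_G(P); in particular the order of N_G(Q)/C_G(Q) divides the order of N_G(P)/C_G(P). -/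
theorem result {G : Type*} [Group G] [Finite G] {p : ℕ} [Fact p.Prime]
    (P : Sylow p G) (hP : IsMulCommutative (P : Subgroup G)) (Q : Subgroup G) (hQ : Q ≤ (P : Subgroup G)) :
    Subgroup.normalizer (Q : Set G) =
      (Subgroup.normalizer (Q : Set G) ⊓ Subgroup.normalizer ((P : Subgroup G) : Set G)) ⊔ Subgroup.centralizer (Q : Set G) ∧
    ((Subgroup.centralizer (Q : Set G)).subgroupOf (Subgroup.normalizer (Q : Set G))).index ∣ ((Subgroup.centralizer ((P : Subgroup G) : Set G)).subgroupOf (Subgroup.normalizer ((P : Subgroup G) : Set G))).index := by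
  have h1 := part1 P hP Q hQ
  refine ⟨h1, ?_⟩
  set N := Subgroup.normalizer (Q : Set G) with hN
  set C := Subgroup.centralizer (Q : Set G) with hC
  set NP := Subgroup.normalizer ((P : Subgroup G) : Set G) with hNP
  set CP := Subgroup.centralizer ((P : Subgroup G) : Set G) with hCP
  set M := N ⊓ NP with hM
  have hCN : C ≤ N := Subgroup.centralizer_le_normalizer _
  have hCPNP : CP ≤ NP := Subgroup.centralizer_le_normalizer _
  have hCPC : CP ≤ C := Subgroup.centralizer_le hQ
  have hCPM : CP ≤ M := le_inf (hCPC.trans hCN) hCPNP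
  have hMN : M ≤ N := inf_le_left
  have hMNP : M ≤ NP := inf_le_right
  change C.relIndex N ∣ CP.relIndex NP
  -- (c) C.relIndex N = C.relIndex M
  have hc : C.relIndex N = C.relIndex M := by
    have hnormal : (C.subgroupOf N).Normal := Subgroup.normal_subgroupOf_centralizer_normalizer _
    have e1 : C.relIndex M = (C.subgroupOf N).relIndex (M.subgroupOf N) :=
      (Subgroup.relIndex_subgroupOf hMN).symm
    have e2 : M.subgroupOf N ⊔ C.subgroupOf N = ⊤ := by
      rw [← Subgroup.subgroupOf_sup hMN hCN, ← h1, Subgroup.subgroupOf_self]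
    have e3 : (C.subgroupOf N).relIndex (M.subgroupOf N ⊔ C.subgroupOf N)
        = (C.subgroupOf N).relIndex (M.subgroupOf N) := Subgroup.relIndex_sup_right _ _
    rw [e1, ← e3, e2, Subgroup.relIndex_top_right]
    rfl
  rw [hc]
  have ha : CP.relIndex M * M.relIndex NP = CP.relIndex NP :=
    Subgroup.relIndex_mul_relIndex CP M NP hCPM hMNP
  have hb : C.relIndex M ∣ CP.relIndex M := Subgroup.relIndex_dvd_of_le_left M hCPC
  rw [← ha]
  exact Dvd.dvd.mul_right hb _

end Cfsg.Agent.S2268
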