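import Cfsg.Statements.S2269
import Mathlib

set_option autoImplicit false
open Cfsg

namespace Cfsg.Agent.S2269

/-- Generic fusion step: in a finite group with abelian Sylow `p`-subgroup `P`, if some element `x` of `P`
with `x ^ 2 ≠ 1` is conjugate to its inverse then `N(P)/C(P)` has even order. -/
theorem even_automizer {G : Type*} [Group G] [Finite G] {p : ℕ} [Fact p.Prime]
    (P : Sylow p G) (hP : IsMulCommutative (P : Subgroup G))
    (x : G) (hxP : x ∈ (P : Subgroup G)) (hx2 : x ^ 2 ≠ 1) (hconj : IsConj x x⁻¹) :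
    2 ∣ ((Subgroup.centralizer ((P : Subgroup G) : Set G)).subgroupOf
      (Subgroup.normalizer ((P : Subgroup G) : Set G))).index := by
  obtain ⟨g, hg⟩ := isConj_iff.mp hconj
  have : IsMulCommutative (P : Subgroup G) := hP
  have hy : (g⁻¹)⁻¹ * x * g⁻¹ ∈ (P : Subgroup G) := by
    rw [inv_inv, hg]; exact inv_mem hxP
  obtain ⟨n, hn, hnx⟩ := Sylow.conj_eq_normalizer_conj_of_mem P x g⁻¹ hxP hy
  rw [inv_inv, hg] at hnx
  obtain ⟨h, hh⟩ : ∃ h : G, h = n⁻¹ := ⟨_, rfl⟩
  rw [← hh] at hnx
  have hhN : h ∈ Subgroup.normalizer ((P : Subgroup G) : Set G) := hh ▸ inv_mem hn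
  have hinv : h * x = x⁻¹ * h := by
    rw [hnx, hh]; group
  have hcomm2 : Commute (h ^ 2) x := by
    have h1 : h * x⁻¹ = x * h := by
      calc h * x⁻¹ = x * (x⁻¹ * h) * x⁻¹ := by group
        _ = x * (h * x) * x⁻¹ := by rw [hinv]
        _ = x * h := by group
    show h ^ 2 * x = x * h ^ 2
    calc h ^ 2 * x = h * (h * x) := by rw [pow_two, mul_assoc]
      _ = h * (x⁻¹ * h) := by rw [hinv]
      _ = (h * x⁻¹) * h := by rw [mul_assoc]
      _ = (x * h) * h := by rw [h1]
      _ = x * h ^ 2 := by rw [pow_two, mul_assoc]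
  set N := Subgroup.normalizer ((P : Subgroup G) : Set G) with hN
  set C := (Subgroup.centralizer ((P : Subgroup G) : Set G)).subgroupOf N with hC
  have : C.Normal := Subgroup.normal_subgroupOf_centralizer_normalizer _
  let hbar : N ⧸ C := QuotientGroup.mk (⟨h, hhN⟩ : N)
  have hdvd : orderOf hbar ∣ C.index := by
    rw [Subgroup.index]
    exact orderOf_dvd_natCard hbar
  refine Dvd.dvd.trans ?_ hdvd
  by_contra hodd
  have hodd' : Odd (orderOf hbar) := Nat.not_even_iff_odd.mp (fun he => hodd (even_iff_two_dvd.mp he))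
  obtain ⟨j, hj⟩ := hodd'
  have hpow : hbar ^ (2 * j + 1) = 1 := by rw [← hj]; exact pow_orderOf_eq_one hbar
  have hmem : (⟨h, hhN⟩ : N) ^ (2 * j + 1) ∈ C := by
    rw [← QuotientGroup.eq_one_iff]
    exact hpow
  have hmem' : h ^ (2 * j + 1) ∈ Subgroup.centralizer ((P : Subgroup G) : Set G) := by
    have := Subgroup.mem_subgroupOf.mp hmem
    simpa using this
  have hc1 : x * h ^ (2 * j + 1) = h ^ (2 * j + 1) * x := hmem' x hxP
  have hc2 : h ^ (2 * j + 1) * x = x⁻¹ * h ^ (2 * j + 1) := by
    have hcj : Commute ((h ^ 2) ^ j) x⁻¹ := (hcomm2.pow_left j).inv_right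
    have e1 : h ^ (2 * j + 1) = (h ^ 2) ^ j * h := by rw [pow_succ, pow_mul]
    calc h ^ (2 * j + 1) * x = (h ^ 2) ^ j * (h * x) := by rw [e1, mul_assoc]
      _ = (h ^ 2) ^ j * (x⁻¹ * h) := by rw [hinv]
      _ = ((h ^ 2) ^ j * x⁻¹) * h := by rw [mul_assoc]
      _ = (x⁻¹ * (h ^ 2) ^ j) * h := by rw [hcj.eq]
      _ = x⁻¹ * h ^ (2 * j + 1) := by rw [e1, mul_assoc]
  have hxx : x = x⁻¹ := by
    have := hc1.trans hc2
    exact mul_right_cancel this
  apply hx2
  rw [pow_two]
  nth_rewrite 2 [hxx]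
  exact mul_inv_cancel x

/-- For an abelian Sylow 2-subgroup the automizer has odd order. -/
theorem odd_automizer_two {G : Type*} [Group G] [Finite G]
    (P : Sylow 2 G) (hP : IsMulCommutative (P : Subgroup G)) :
    ¬ 2 ∣ ((Subgroup.centralizer ((P : Subgroup G) : Set G)).subgroupOf
      (Subgroup.normalizer ((P : Subgroup G) : Set G))).index := by
  intro h2
  have hPC : (P : Subgroup G) ≤ Subgroup.centralizer ((P : Subgroup G) : Set G) := by
    intro x hx q hq
    have := hP.is_comm.comm ⟨q, hq⟩ ⟨x, hx⟩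
    exact congrArg Subtype.val this
  have hPN : (P : Subgroup G) ≤ Subgroup.normalizer ((P : Subgroup G) : Set G) := Subgroup.le_normalizer
  have h1 : (Subgroup.centralizer ((P : Subgroup G) : Set G)).relIndex
      (Subgroup.normalizer ((P : Subgroup G) : Set G)) ∣
      (P : Subgroup G).relIndex (Subgroup.normalizer ((P : Subgroup G) : Set G)) :=
    Subgroup.relIndex_dvd_of_le_left _ hPC
  have h3 : (P : Subgroup G).relIndex (Subgroup.normalizer ((P : Subgroup G) : Set G)) ∣
      (P : Subgroup G).index := Subgroup.relIndex_dvd_index_of_le hPN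
  exact P.not_dvd_index (h2.trans (h1.trans h3))

/-- Move a real `p`-element into a given Sylow subgroup. -/
theorem exists_real_in_sylow {G : Type*} [Group G] [Finite G] {p : ℕ} [Fact p.Prime]
    (P : Sylow p G) (c : G) (k : ℕ) (hc : orderOf c = p ^ k) (h2 : c ^ 2 ≠ 1) (hreal : IsConj c c⁻¹) :
    ∃ x ∈ (P : Subgroup G), x ^ 2 ≠ 1 ∧ IsConj x x⁻¹ := by
  have hpg : IsPGroup p (Subgroup.zpowers c) := by
    apply IsPGroup.of_card (n := k)
    rw [Nat.card_zpowers, hc]
  obtain ⟨Q, hQ⟩ := hpg.exists_le_sylow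
  have hcQ : c ∈ (Q : Subgroup G) := hQ (Subgroup.mem_zpowers c)
  obtain ⟨g, hg⟩ := MulAction.exists_smul_eq G Q P
  refine ⟨g * c * g⁻¹, ?_, ?_, ?_⟩
  · rw [← hg]
    exact ⟨c, hcQ, rfl⟩
  · intro h
    apply h2
    have : g * c ^ 2 * g⁻¹ = 1 := by
      rw [← h, conj_pow]
    have h3 : c ^ 2 = g⁻¹ * (g * c ^ 2 * g⁻¹) * g := by
      simp [mul_assoc]
    rw [h3, this]; simp
  · obtain ⟨y, hy⟩ := isConj_iff.mp hreal
    rw [isConj_iff]
    refine ⟨g * y * g⁻¹, ?_⟩
    calc g * y * g⁻¹ * (g * c * g⁻¹) * (g * y * g⁻¹)⁻¹ = g * (y * c * y⁻¹) * g⁻¹ := by group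
      _ = g * c⁻¹ * g⁻¹ := by rw [hy]
      _ = (g * c * g⁻¹)⁻¹ := by group

/-- Odd `p`, `n ≥ p + 2`: a `p`-cycle is an even permutation of order `p`, real in `A_n`. -/
theorem real_pcycle (n p : ℕ) [Fact p.Prime] (hp2 : p ≠ 2) (hn : p + 2 ≤ n) :
    ∃ c : alternatingGroup (Fin n), orderOf c = p ^ 1 ∧ c ^ 2 ≠ 1 ∧ IsConj c c⁻¹ := by
  have hpp : p.Prime := Fact.out
  have hp3 : 3 ≤ p := by
    have := hpp.two_le
    omega
  obtain ⟨c, hc⟩ : ∃ c : Equiv.Perm (Fin n), c.cycleType = {p} := by
    rw [Equiv.Perm.exists_with_cycleType_iff]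
    constructor
    · simp only [Multiset.sum_singleton, Fintype.card_fin]; omega
    · intro a ha
      simp only [Multiset.mem_singleton] at ha
      omega
  have hord : orderOf c = p := by
    rw [← Equiv.Perm.lcm_cycleType, hc]; simp
  have hsign : Equiv.Perm.sign c = 1 := by
    rw [Equiv.Perm.sign_of_cycleType, hc]
    simp only [Multiset.sum_singleton, Multiset.card_singleton]
    have : Even (p + 1) := (hpp.odd_of_ne_two hp2).add_one
    exact this.neg_one_pow
  have hfix : Fintype.card (Function.fixedPoints c) = n - p := by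
    rw [Equiv.Perm.card_fixedPoints, hc]; simp
  have h2fix : 1 < Fintype.card (Function.fixedPoints c) := by omega
  obtain ⟨a, b, hab⟩ := Fintype.one_lt_card_iff.mp h2fix
  have hab' : (a : Fin n) ≠ b := fun h => hab (Subtype.ext h)
  have hdisj : Equiv.Perm.Disjoint c (Equiv.swap (a : Fin n) (b : Fin n)) := by
    intro i
    by_cases hia : i = a
    · left; rw [hia]; exact a.2
    · by_cases hib : i = b
      · left; rw [hib]; exact b.2
      · right; exact Equiv.swap_apply_of_ne_of_ne hia hib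
  have hcomm : Commute c (Equiv.swap (a : Fin n) (b : Fin n)) := hdisj.commute
  have hsignt : Equiv.Perm.sign (Equiv.swap (a : Fin n) (b : Fin n)) = -1 := Equiv.Perm.sign_swap hab'
  obtain ⟨g0, hg0⟩ := isConj_iff.mp
    (Equiv.Perm.isConj_iff_cycleType_eq.mpr (Equiv.Perm.cycleType_inv c).symm)
  obtain ⟨g, hgs, hgc⟩ : ∃ g : Equiv.Perm (Fin n), Equiv.Perm.sign g = 1 ∧ g * c * g⁻¹ = c⁻¹ := by
    rcases Int.units_eq_one_or (Equiv.Perm.sign g0) with h | h
    · exact ⟨g0, h, hg0⟩
    · refine ⟨g0 * Equiv.swap (a : Fin n) (b : Fin n), ?_, ?_⟩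
      · rw [map_mul, h, hsignt]; rfl
      · have e1 : Equiv.swap (a : Fin n) (b : Fin n) * c * (Equiv.swap (a : Fin n) (b : Fin n))⁻¹ = c := by
          rw [← hcomm.eq, mul_assoc, mul_inv_cancel, mul_one]
        calc g0 * Equiv.swap (a : Fin n) (b : Fin n) * c * (g0 * Equiv.swap (a : Fin n) (b : Fin n))⁻¹
            = g0 * (Equiv.swap (a : Fin n) (b : Fin n) * c * (Equiv.swap (a : Fin n) (b : Fin n))⁻¹) * g0⁻¹ := by
              rw [mul_inv_rev]; simp only [mul_assoc]
          _ = g0 * c * g0⁻¹ := by rw [e1]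
          _ = c⁻¹ := hg0
  refine ⟨⟨c, Equiv.Perm.mem_alternatingGroup.mpr hsign⟩, ?_, ?_, ?_⟩
  · rw [pow_one, ← hord]; exact Subgroup.orderOf_mk _ _
  · intro h
    have h' : c ^ 2 = 1 := by
      have := congrArg Subtype.val h
      simpa using this
    have := orderOf_dvd_of_pow_eq_one h'
    rw [hord] at this
    have := Nat.le_of_dvd (by norm_num) this
    omega
  · rw [isConj_iff]
    exact ⟨⟨g, Equiv.Perm.mem_alternatingGroup.mpr hgs⟩, Subtype.ext hgc⟩

/-- An element of order 4 of `A_6`, and an even permutation inverting it. -/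
def x0 : Equiv.Perm (Fin 6) := Equiv.swap 0 1 * Equiv.swap 1 2 * Equiv.swap 2 3 * Equiv.swap 4 5

def y0 : Equiv.Perm (Fin 6) := Equiv.swap 1 3 * Equiv.swap 4 5

theorem x0_sign : Equiv.Perm.sign x0 = 1 := by decide
theorem y0_sign : Equiv.Perm.sign y0 = 1 := by decide
theorem x0_sq : x0 ^ 2 ≠ 1 := by decide
theorem x0_four : x0 ^ 4 = 1 := by decide
theorem y0_conj : y0 * x0 * y0⁻¹ = x0⁻¹ := by decide

theorem sign_via (n : ℕ) (hn : 6 ≤ n) (e : Equiv.Perm (Fin 6)) :
    Equiv.Perm.sign (Equiv.Perm.viaEmbeddingHom (Fin.castLEEmb hn) e) = Equiv.Perm.sign e := by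
  classical
  rw [Equiv.Perm.viaEmbeddingHom_apply]
  unfold Equiv.Perm.viaEmbedding
  convert Equiv.Perm.sign_extendDomain e _

/-- `p = 2`, `n ≥ 6`: a real element of order 4 in `A_n`. -/
theorem real_order_four (n : ℕ) (hn : 6 ≤ n) :
    ∃ c : alternatingGroup (Fin n), orderOf c = 2 ^ 2 ∧ c ^ 2 ≠ 1 ∧ IsConj c c⁻¹ := by
  set ι := Equiv.Perm.viaEmbeddingHom (Fin.castLEEmb hn) with hι
  have hinj : Function.Injective ι := Equiv.Perm.viaEmbeddingHom_injective _
  have hxs : Equiv.Perm.sign (ι x0) = 1 := by rw [hι, sign_via, x0_sign]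
  have hys : Equiv.Perm.sign (ι y0) = 1 := by rw [hι, sign_via, y0_sign]
  have hx2 : (ι x0) ^ 2 ≠ 1 := by
    intro h
    rw [← map_pow, ← map_one ι] at h
    exact x0_sq (hinj h)
  have hx4 : (ι x0) ^ 4 = 1 := by
    rw [← map_pow, x0_four, map_one]
  have hconj : ι y0 * ι x0 * (ι y0)⁻¹ = (ι x0)⁻¹ := by
    rw [← map_inv, ← map_mul, ← map_mul, y0_conj, map_inv]
  have hc2 : (⟨ι x0, Equiv.Perm.mem_alternatingGroup.mpr hxs⟩ : alternatingGroup (Fin n)) ^ 2 ≠ 1 := by
    intro h
    apply hx2
    have := congrArg Subtype.val h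
    simpa using this
  refine ⟨⟨ι x0, Equiv.Perm.mem_alternatingGroup.mpr hxs⟩, ?_, hc2, ?_⟩
  · apply orderOf_eq_prime_pow (p := 2) (n := 1)
    · simpa using hc2
    · apply Subtype.ext
      simpa using hx4
  · rw [isConj_iff]
    exact ⟨⟨ι y0, Equiv.Perm.mem_alternatingGroup.mpr hys⟩, Subtype.ext hconj⟩

/-- Odd `p`, `n < p + 2`: Sylow `p`-subgroups of `A_n` have order dividing `p`, so are cyclic. -/
theorem cyclic_small (n p : ℕ) [Fact p.Prime] (hn : 5 ≤ n) (_hp2 : p ≠ 2) (hnp : n < p + 2)
    (P : Sylow p (alternatingGroup (Fin n))) : IsCyclic (P : Subgroup (alternatingGroup (Fin n))) := by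
  have hpp : p.Prime := Fact.out
  have hp3 : 3 ≤ p := by
    have := hpp.two_le
    omega
  obtain ⟨k, hk⟩ := IsPGroup.iff_card.mp P.2
  have h1 : Nat.card (P : Subgroup (alternatingGroup (Fin n))) ∣ Nat.card (alternatingGroup (Fin n)) :=
    Subgroup.card_subgroup_dvd_card _
  have : Nontrivial (Fin n) := Fin.nontrivial_iff_two_le.mpr (by omega)
  have h2 : 2 * Nat.card (alternatingGroup (Fin n)) = n.factorial := by
    rw [two_mul_nat_card_alternatingGroup, Nat.card_perm, Nat.card_eq_fintype_card, Fintype.card_fin]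
  have h3 : p ^ k ∣ n.factorial := by
    rw [← hk, ← h2]; exact Dvd.dvd.mul_left h1 2
  have hk1 : k ≤ 1 := by
    have hlog : Nat.log p n < 2 := Nat.log_lt_of_lt_pow (by omega) (by nlinarith)
    rw [hpp.pow_dvd_factorial_iff hlog] at h3
    simp only [Nat.Ico_succ_singleton, Finset.sum_singleton, pow_one] at h3
    have : n / p < 2 := Nat.div_lt_of_lt_mul (by omega)
    omega
  have hdvd : Nat.card (P : Subgroup (alternatingGroup (Fin n))) ∣ p := by
    rw [hk]
    calc p ^ k ∣ p ^ 1 := pow_dvd_pow p hk1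
      _ = p := pow_one p
  exact isCyclic_of_card_dvd_prime hdvd

theorem a5_no_order_four : ∀ g : Equiv.Perm (Fin 5), Equiv.Perm.sign g = 1 → g ^ 4 = 1 → g ^ 2 = 1 := by
  decide +kernel

theorem a5_card : Nat.card (alternatingGroup (Fin 5)) = 60 := by
  rw [nat_card_alternatingGroup]
  simp [Nat.factorial]

/-- The case `n = 5`, `p = 2`. -/
theorem a5_case (P : Sylow 2 (alternatingGroup (Fin 5)))
    (hP : IsMulCommutative (P : Subgroup (alternatingGroup (Fin 5)))) :
    ((Subgroup.centralizer ((P : Subgroup (alternatingGroup (Fin 5))) : Set (alternatingGroup (Fin 5)))).subgroupOf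
      (Subgroup.normalizer ((P : Subgroup (alternatingGroup (Fin 5))) : Set (alternatingGroup (Fin 5))))).index = 3 ∧
    IsKleinFour (P : Subgroup (alternatingGroup (Fin 5))) := by
  -- card P = 4
  have hcard : Nat.card (P : Subgroup (alternatingGroup (Fin 5))) = 4 := by
    obtain ⟨k, hk⟩ := IsPGroup.iff_card.mp P.2
    have h1 := (P : Subgroup (alternatingGroup (Fin 5))).card_mul_index
    rw [a5_card, hk] at h1
    have h2 := P.not_dvd_index
    have hk5 : k ≤ 5 := by
      by_contra hlt
      push Not at hlt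
      have : 2 ^ 6 ≤ 2 ^ k := Nat.pow_le_pow_right (by norm_num) hlt
      have hpos : 0 < (P : Subgroup (alternatingGroup (Fin 5))).index := by
        rcases Nat.eq_zero_or_pos (P : Subgroup (alternatingGroup (Fin 5))).index with h | h
        · rw [h] at h1; omega
        · exact h
      nlinarith
    rw [hk]
    interval_cases k <;> omega
  have hindex : (P : Subgroup (alternatingGroup (Fin 5))).index = 15 := by
    have h1 := (P : Subgroup (alternatingGroup (Fin 5))).card_mul_index
    rw [a5_card, hcard] at h1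
    omega
  set N := Subgroup.normalizer ((P : Subgroup (alternatingGroup (Fin 5))) : Set (alternatingGroup (Fin 5))) with hN
  set C := Subgroup.centralizer ((P : Subgroup (alternatingGroup (Fin 5))) : Set (alternatingGroup (Fin 5))) with hC
  have hPC : (P : Subgroup (alternatingGroup (Fin 5))) ≤ C := by
    intro x hx q hq
    have := hP.is_comm.comm ⟨q, hq⟩ ⟨x, hx⟩
    exact congrArg Subtype.val this
  have hCN : C ≤ N := Subgroup.centralizer_le_normalizer _
  have hPN : (P : Subgroup (alternatingGroup (Fin 5))) ≤ N := Subgroup.le_normalizer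
  constructor
  · change C.relIndex N = 3
    -- divides 15
    have h15 : C.relIndex N ∣ 15 := by
      have e1 := Subgroup.relIndex_mul_relIndex (P : Subgroup (alternatingGroup (Fin 5))) C N hPC hCN
      have e2 : (P : Subgroup (alternatingGroup (Fin 5))).relIndex N ∣
          (P : Subgroup (alternatingGroup (Fin 5))).index := Subgroup.relIndex_dvd_index_of_le hPN
      rw [hindex, ← e1] at e2
      exact (Dvd.intro_left _ rfl).trans e2
    -- divides 24
    have h24 : C.relIndex N ∣ 24 := by
      have e1 : C.relIndex N = Nat.card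
          ((P : Subgroup (alternatingGroup (Fin 5))).normalizerMonoidHom).range := by
        rw [← Subgroup.index_ker, Subgroup.normalizerMonoidHom_ker]
        rfl
      have e2 : Nat.card ((P : Subgroup (alternatingGroup (Fin 5))).normalizerMonoidHom).range ∣
          Nat.card (MulAut (P : Subgroup (alternatingGroup (Fin 5)))) := Subgroup.card_subgroup_dvd_card _
      have e3 : Nat.card (MulAut (P : Subgroup (alternatingGroup (Fin 5)))) ∣
          Nat.card (Equiv.Perm (P : Subgroup (alternatingGroup (Fin 5)))) :=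
        Subgroup.card_dvd_of_injective (MulAut.toPerm _) (fun a b h => by
          apply MulEquiv.ext
          intro x
          exact congrArg (fun f : Equiv.Perm (P : Subgroup (alternatingGroup (Fin 5))) => f x) h)
      have e4 : Nat.card (Equiv.Perm (P : Subgroup (alternatingGroup (Fin 5)))) = 24 := by
        rw [Nat.card_perm, hcard]; rfl
      rw [e1]
      rw [e4] at e3
      exact e2.trans e3
    have h3 : C.relIndex N ∣ 3 := by
      have := Nat.dvd_gcd h15 h24
      have e : Nat.gcd 15 24 = 3 := by decide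
      rwa [e] at this
    rcases (Nat.dvd_prime Nat.prime_three).mp h3 with h | h
    · exfalso
      have hNC : N ≤ C := by
        have : C.subgroupOf N = ⊤ := Subgroup.index_eq_one.mp h
        exact Subgroup.subgroupOf_eq_top.mp this
      have hcomp := MonoidHom.ker_transferSylow_isComplement' P hNC
      have hsimple : IsSimpleGroup (alternatingGroup (Fin 5)) := alternatingGroup.isSimpleGroup (by simp)
      have hcm := hcomp.card_mul_card
      rw [a5_card, hcard] at hcm
      rcases (MonoidHom.normal_ker (MonoidHom.transferSylow P hNC)).eq_bot_or_eq_top with hb | ht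
      · rw [hb, Subgroup.card_bot] at hcm; omega
      · rw [ht, Subgroup.card_top, a5_card] at hcm; omega
    · exact h
  · refine ⟨hcard, ?_⟩
    have hexp : Monoid.exponent (P : Subgroup (alternatingGroup (Fin 5))) ∣ 2 := by
      apply Monoid.exponent_dvd_of_forall_pow_eq_one
      intro g
      have h4 : g ^ 4 = 1 := by
        rw [← hcard]; exact pow_card_eq_one'
      have h4' : ((g : alternatingGroup (Fin 5)) : Equiv.Perm (Fin 5)) ^ 4 = 1 := by
        have := congrArg (fun z : (P : Subgroup (alternatingGroup (Fin 5))) =>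
          ((z : alternatingGroup (Fin 5)) : Equiv.Perm (Fin 5))) h4
        simpa using this
      have h2' := a5_no_order_four _ (Equiv.Perm.mem_alternatingGroup.mp (g : alternatingGroup (Fin 5)).2) h4'
      apply Subtype.ext
      apply Subtype.ext
      simpa using h2'
    rcases (Nat.dvd_prime Nat.prime_two).mp hexp with h | h
    · exfalso
      have hsub : Subsingleton (P : Subgroup (alternatingGroup (Fin 5))) := Monoid.exp_eq_one_iff.mp h
      have : Nat.card (P : Subgroup (alternatingGroup (Fin 5))) = 1 := Nat.card_unique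
      omega
    · exact h

/-- Let n ≥ 5 and let P be an abelian Sylow p-subgroup of the alternating group A_n. Then N(P)/C(P) (taken in A_n) has even order, or P is cyclic, except when n = 5 and p = 2, where P is a four-group and N(P)/C(P) has order 3. -/
theorem result (n : ℕ) (hn : 5 ≤ n) {p : ℕ} [Fact p.Prime]
    (P : Sylow p (alternatingGroup (Fin n))) (hP : IsMulCommutative (P : Subgroup (alternatingGroup (Fin n)))) :
    (¬ (n = 5 ∧ p = 2) → 2 ∣ ((Subgroup.centralizer ((P : Subgroup (alternatingGroup (Fin n))) : Set (alternatingGroup (Fin n)))).subgroupOf (Subgroup.normalizer ((P : Subgroup (alternatingGroup (Fin n))) : Set (alternatingGroup (Fin n))))).index ∨ IsCyclic (P : Subgroup (alternatingGroup (Fin n)))) ∧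
    ((n = 5 ∧ p = 2) → ((Subgroup.centralizer ((P : Subgroup (alternatingGroup (Fin n))) : Set (alternatingGroup (Fin n)))).subgroupOf (Subgroup.normalizer ((P : Subgroup (alternatingGroup (Fin n))) : Set (alternatingGroup (Fin n))))).index = 3 ∧ IsKleinFour (P : Subgroup (alternatingGroup (Fin n)))) := by
  constructor
  · intro hne
    by_cases hp2 : p = 2
    · subst hp2
      have hn6 : 6 ≤ n := by
        rcases Nat.lt_or_ge n 6 with h | h
        · exact absurd ⟨by omega, rfl⟩ hne
        · exact h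
      obtain ⟨c, hc, hc2, hreal⟩ := real_order_four n hn6
      obtain ⟨x, hxP, hx2, hxr⟩ := exists_real_in_sylow P c 2 hc hc2 hreal
      exact absurd (even_automizer P hP x hxP hx2 hxr) (odd_automizer_two P hP)
    · by_cases hnp : p + 2 ≤ n
      · left
        obtain ⟨c, hc, hc2, hreal⟩ := real_pcycle n p hp2 hnp
        obtain ⟨x, hxP, hx2, hxr⟩ := exists_real_in_sylow P c 1 hc hc2 hreal
        exact even_automizer P hP x hxP hx2 hxr
      · right
        exact cyclic_small n p hn hp2 (by omega) P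
  · rintro ⟨rfl, rfl⟩
    exact a5_case P hP

end Cfsg.Agent.S2269
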