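import Cfsg.Statements.S2270
import Mathlib

set_option autoImplicit false
open Cfsg

namespace Cfsg.Agent.S2270

/-- Generic fusion step: in a finite group with abelian Sylow `p`-subgroup `P`, `p` odd, if some element of
order `p` of `P` is conjugate to its inverse then `N(P)/C(P)` has even order. -/
theorem even_automizer {G : Type*} [Group G] [Finite G] {p : ℕ} [Fact p.Prime] (hp : p ≠ 2)
    (P : Sylow p G) (hP : IsMulCommutative (P : Subgroup G))
    (x : G) (hxP : x ∈ (P : Subgroup G)) (hxo : orderOf x = p) (hconj : IsConj x x⁻¹) :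
    2 ∣ ((Subgroup.centralizer ((P : Subgroup G) : Set G)).subgroupOf
      (Subgroup.normalizer ((P : Subgroup G) : Set G))).index := by
  have hpp : p.Prime := Fact.out
  obtain ⟨g, hg⟩ := isConj_iff.mp hconj
  have : IsMulCommutative (P : Subgroup G) := hP
  have hy : (g⁻¹)⁻¹ * x * g⁻¹ ∈ (P : Subgroup G) := by
    rw [inv_inv, hg]; exact inv_mem hxP
  obtain ⟨n, hn, hnx⟩ := Sylow.conj_eq_normalizer_conj_of_mem P x g⁻¹ hxP hy
  rw [inv_inv, hg] at hnx
  -- h = n⁻¹ normalizes P and inverts x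
  obtain ⟨h, hh⟩ : ∃ h : G, h = n⁻¹ := ⟨_, rfl⟩
  rw [← hh] at hnx
  have hhN : h ∈ Subgroup.normalizer ((P : Subgroup G) : Set G) := hh ▸ inv_mem hn
  have hinv : h * x = x⁻¹ * h := by
    rw [hnx, hh]; group
  have hcomm2 : Commute (h ^ 2) x := by
    have h1 : h * x⁻¹ = x * h := by
      calc h * x⁻¹ = x * (x⁻¹ * h) * x⁻¹ := by group
        _ = x * (h * x) * x⁻¹ := by rw [hinv]
        _ = x * h := by group
    show h ^ 2 * x = x * h ^ 2
    calc h ^ 2 * x = h * (h * x) := by rw [pow_two, mul_assoc]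
      _ = h * (x⁻¹ * h) := by rw [hinv]
      _ = (h * x⁻¹) * h := by rw [mul_assoc]
      _ = (x * h) * h := by rw [h1]
      _ = x * h ^ 2 := by rw [pow_two, mul_assoc]
  -- the image of h in the quotient
  set N := Subgroup.normalizer ((P : Subgroup G) : Set G) with hN
  set C := (Subgroup.centralizer ((P : Subgroup G) : Set G)).subgroupOf N with hC
  have : C.Normal := Subgroup.normal_subgroupOf_centralizer_normalizer _
  let hbar : N ⧸ C := QuotientGroup.mk (⟨h, hhN⟩ : N)
  have hdvd : orderOf hbar ∣ C.index := by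
    rw [Subgroup.index]
    exact orderOf_dvd_natCard hbar
  refine Dvd.dvd.trans ?_ hdvd
  by_contra hodd
  have hodd' : Odd (orderOf hbar) := Nat.not_even_iff_odd.mp (fun he => hodd (even_iff_two_dvd.mp he))
  obtain ⟨j, hj⟩ := hodd'
  have hpow : hbar ^ (2 * j + 1) = 1 := by rw [← hj]; exact pow_orderOf_eq_one hbar
  have hmem : (⟨h, hhN⟩ : N) ^ (2 * j + 1) ∈ C := by
    rw [← QuotientGroup.eq_one_iff]
    exact hpow
  have hmem' : h ^ (2 * j + 1) ∈ Subgroup.centralizer ((P : Subgroup G) : Set G) := by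
    have := Subgroup.mem_subgroupOf.mp hmem
    simpa using this
  have hc1 : x * h ^ (2 * j + 1) = h ^ (2 * j + 1) * x := hmem' x hxP
  have hc2 : h ^ (2 * j + 1) * x = x⁻¹ * h ^ (2 * j + 1) := by
    have hcj : Commute ((h ^ 2) ^ j) x⁻¹ := (hcomm2.pow_left j).inv_right
    have e1 : h ^ (2 * j + 1) = (h ^ 2) ^ j * h := by rw [pow_succ, pow_mul]
    calc h ^ (2 * j + 1) * x = (h ^ 2) ^ j * (h * x) := by rw [e1, mul_assoc]
      _ = (h ^ 2) ^ j * (x⁻¹ * h) := by rw [hinv]
      _ = ((h ^ 2) ^ j * x⁻¹) * h := by rw [mul_assoc]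
      _ = (x⁻¹ * (h ^ 2) ^ j) * h := by rw [hcj.eq]
      _ = x⁻¹ * h ^ (2 * j + 1) := by rw [e1, mul_assoc]
  have hxx : x = x⁻¹ := by
    have := hc1.trans hc2
    exact mul_right_cancel this
  have hx2 : x ^ 2 = 1 := by
    rw [pow_two]
    nth_rewrite 2 [hxx]
    exact mul_inv_cancel x
  have := orderOf_dvd_of_pow_eq_one hx2
  rw [hxo] at this
  exact hp ((Nat.prime_dvd_prime_iff_eq hpp Nat.prime_two).mp this)

/-- Let n ≥ 3, p an odd prime, and P an abelian Sylow p-subgroup of the symmetric group S_n (with p dividing n!, so that P ≠ 1). Then N(P)/C(P) has even order. -/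
theorem result (n : ℕ) (_hn : 3 ≤ n) {p : ℕ} [Fact p.Prime] (hp : p ≠ 2) (hpn : p ≤ n)
    (P : Sylow p (Equiv.Perm (Fin n))) (hP : IsMulCommutative (P : Subgroup (Equiv.Perm (Fin n)))) :
    2 ∣ ((Subgroup.centralizer ((P : Subgroup (Equiv.Perm (Fin n))) : Set (Equiv.Perm (Fin n)))).subgroupOf (Subgroup.normalizer ((P : Subgroup (Equiv.Perm (Fin n))) : Set (Equiv.Perm (Fin n))))).index := by
  have hpp : p.Prime := Fact.out
  have hcard : p ∣ Nat.card (Equiv.Perm (Fin n)) := by
    rw [Nat.card_eq_fintype_card, Fintype.card_perm, Fintype.card_fin]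
    exact Nat.dvd_factorial hpp.pos hpn
  have hne : (P : Subgroup (Equiv.Perm (Fin n))) ≠ ⊥ := P.ne_bot_of_dvd_card hcard
  have hpP : p ∣ Nat.card (P : Subgroup (Equiv.Perm (Fin n))) := by
    rcases P.2.card_eq_or_dvd with h | h
    · exact absurd (Subgroup.card_eq_one.mp h) hne
    · exact h
  obtain ⟨x, hx⟩ := exists_prime_orderOf_dvd_card' p hpP
  have hxo : orderOf (x : Equiv.Perm (Fin n)) = p := by
    rw [Subgroup.orderOf_coe]; exact hx
  have hconj : IsConj (x : Equiv.Perm (Fin n)) (x : Equiv.Perm (Fin n))⁻¹ := by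
    rw [Equiv.Perm.isConj_iff_cycleType_eq, Equiv.Perm.cycleType_inv]
  exact even_automizer hp P hP x x.2 hxo hconj

end Cfsg.Agent.S2270
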