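import Cfsg.Statements.S2278
import Cfsg.Agent.Helper20.SL3Spec

set_option autoImplicit false
open Cfsg

namespace Cfsg.Agent.S2278

/-- Let F be a finite field. Then SL_3(F) is generated by two conjugate regular unipotent elements: there are u with u − 1 nilpotent and (u − 1)² ≠ 0, and g, such that u and g u g⁻¹ generate SL_3(F). -/
theorem result {F : Type*} [Field F] [Fintype F] :
    ∃ u g : Matrix.SpecialLinearGroup (Fin 3) F, IsNilpotent ((u : Matrix (Fin 3) (Fin 3) F) - 1) ∧ ((u : Matrix (Fin 3) (Fin 3) F) - 1) ^ (3 - 1) ≠ 0 ∧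
      Subgroup.closure ({u, g * u * g⁻¹} : Set (Matrix.SpecialLinearGroup (Fin 3) F)) = ⊤ := by
  by_cases h2 : Fintype.card F = 2
  · exact Cfsg.Agent.Helper20.SL3Gen.case2 h2
  by_cases h3 : Fintype.card F = 3
  · exact Cfsg.Agent.Helper20.SL3Gen.case3 h3
  by_cases h4 : Fintype.card F = 4
  · exact Cfsg.Agent.Helper20.SL3Gen.case4 h4
  by_cases h7 : Fintype.card F = 7
  · exact Cfsg.Agent.Helper20.SL3Gen.case7 h7
  by_cases h16 : Fintype.card F = 16
  · exact Cfsg.Agent.Helper20.SL3Gen.case16 h16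
  exact Cfsg.Agent.Helper20.SL3Gen.exists_generic h2 h3 h4 h7 h16

end Cfsg.Agent.S2278
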