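import Cfsg.Statements.S2302
import Cfsg.Agent.Helper12.SL2

set_option autoImplicit false
open Cfsg

namespace Cfsg.Agent.S2302

open Matrix Cfsg.Agent.Helper12

variable {F : Type*} [Field F]

theorem two_eq_zero [CharP F 2] : (2 : F) = 0 := CharP.ofNat_eq_zero F 2

theorem sq_eq_sq_char_two [CharP F 2] {a b : F} (h : a ^ 2 = b ^ 2) : a = b := by
  have h2 : (2 : F) = 0 := two_eq_zero
  have : (a - b) ^ 2 = 0 := by linear_combination h - a * b * h2 + b ^ 2 * h2
  have := pow_eq_zero_iff (two_ne_zero) |>.mp this
  linear_combination this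

/-- In characteristic 2, an element of SL₂ squares to one iff its diagonal entries agree. -/
theorem mul_self_eq_one_iff [CharP F 2] (g : Matrix.SpecialLinearGroup (Fin 2) F) :
    g * g = 1 ↔ (g : Matrix (Fin 2) (Fin 2) F) 0 0 = (g : Matrix (Fin 2) (Fin 2) F) 1 1 := by
  have h2 : (2 : F) = 0 := two_eq_zero
  obtain ⟨a, b, c, d, hg, hdet⟩ := sl2_eta g
  rw [← mul_one (1 : Matrix.SpecialLinearGroup (Fin 2) F), sl2_mul_eq_iff, hg]
  constructor
  · intro h
    have e00 := congrFun (congrFun h 0) 0
    have e11 := congrFun (congrFun h 1) 1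
    simp [Matrix.mul_apply, Fin.sum_univ_two] at e00 e11
    simp only [Matrix.of_apply, Matrix.cons_val', Matrix.cons_val_zero, Matrix.cons_val_one,
      Matrix.cons_val_fin_one]
    apply sq_eq_sq_char_two
    linear_combination e00 - e11
  · intro h
    simp only [Matrix.of_apply, Matrix.cons_val', Matrix.cons_val_zero, Matrix.cons_val_one,
      Matrix.cons_val_fin_one] at h
    subst h
    ext i j
    fin_cases i <;> fin_cases j <;> simp [Matrix.mul_apply, Fin.sum_univ_two]
    · linear_combination hdet + b * c * h2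
    · linear_combination a * b * h2
    · linear_combination a * c * h2
    · linear_combination hdet + b * c * h2

theorem orderOf_eq_two_iff {G : Type*} [Group G] (g : G) : orderOf g = 2 ↔ g ≠ 1 ∧ g * g = 1 := by
  constructor
  · intro h
    refine ⟨?_, ?_⟩
    · rintro rfl
      simp at h
    · have := pow_orderOf_eq_one g
      rw [h, pow_two] at this
      exact this
  · rintro ⟨h1, h2⟩
    have : Fact (Nat.Prime 2) := ⟨Nat.prime_two⟩
    exact orderOf_eq_prime (by rw [pow_two]; exact h2) h1

/-- every involution is conjugate to the standard one -/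
theorem isConj_std [Fintype F] [CharP F 2] (g : Matrix.SpecialLinearGroup (Fin 2) F) (hg : orderOf g = 2) :
    IsConj (sl2Comp (0 : F) 1 one_ne_zero) g := by
  have h2 : (2 : F) = 0 := two_eq_zero
  rw [orderOf_eq_two_iff, mul_self_eq_one_iff] at hg
  obtain ⟨hg1, hgd⟩ := hg
  have htr : (g : Matrix (Fin 2) (Fin 2) F).trace = 0 := by
    rw [Matrix.trace_fin_two, ← hgd]
    linear_combination (g : Matrix (Fin 2) (Fin 2) F) 0 0 * h2
  rcases sl2_exists_conj g with ⟨h01, h10, h00⟩ | ⟨s, hs, P, hP⟩
  · exfalso
    apply hg1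
    have hdet := g.det_coe
    rw [Matrix.det_fin_two, h01, ← h00] at hdet
    have ha : (g : Matrix (Fin 2) (Fin 2) F) 0 0 = 1 := by
      apply sq_eq_sq_char_two
      linear_combination hdet
    apply Matrix.SpecialLinearGroup.ext
    intro i j
    fin_cases i <;> fin_cases j <;> simp [h01, h10, ha, ← h00]
  · rw [htr] at hP
    obtain ⟨r, hr⟩ := FiniteField.isSquare_of_char_two (ringChar.eq F 2) s
    have h1 : IsConj (sl2Comp (0 : F) s hs) g := by
      rw [isConj_iff]
      refine ⟨P, ?_⟩
      rw [← hP]
      group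
    have hr0 : r ≠ 0 := by
      rintro rfl
      apply hs
      simpa using hr
    refine IsConj.trans ?_ h1
    apply sl2Comp_isConj_of_norm _ 1 s one_ne_zero hs (r⁻¹) 0
    rw [hr]
    field_simp
    ring

/-- the involutions are parametrised by the non-zero pairs of off-diagonal entries -/
noncomputable def invEquiv [Fintype F] [CharP F 2] :
    {h : Matrix.SpecialLinearGroup (Fin 2) F // orderOf h = 2} ≃ {v : F × F // v ≠ 0} where
  toFun h := ⟨((h.1 : Matrix (Fin 2) (Fin 2) F) 0 1, (h.1 : Matrix (Fin 2) (Fin 2) F) 1 0), by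
    have h2 : (2 : F) = 0 := two_eq_zero
    have hh := h.2
    rw [orderOf_eq_two_iff, mul_self_eq_one_iff] at hh
    obtain ⟨hg1, hgd⟩ := hh
    intro hv
    simp only [Prod.mk_eq_zero] at hv
    apply hg1
    have hdet := h.1.det_coe
    rw [Matrix.det_fin_two, hv.1, ← hgd] at hdet
    have ha : (h.1 : Matrix (Fin 2) (Fin 2) F) 0 0 = 1 := by
      apply sq_eq_sq_char_two
      linear_combination hdet
    apply Matrix.SpecialLinearGroup.ext
    intro i j
    fin_cases i <;> fin_cases j <;> simp [hv.1, hv.2, ha, ← hgd]⟩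
  invFun v :=
    ⟨sl2mk (Classical.choose (FiniteField.isSquare_of_char_two (ringChar.eq F 2) (1 + v.1.1 * v.1.2))) v.1.1 v.1.2
        (Classical.choose (FiniteField.isSquare_of_char_two (ringChar.eq F 2) (1 + v.1.1 * v.1.2))) (by
          have := Classical.choose_spec (FiniteField.isSquare_of_char_two (ringChar.eq F 2) (1 + v.1.1 * v.1.2))
          linear_combination -this), by
      rw [orderOf_eq_two_iff, mul_self_eq_one_iff]
      refine ⟨?_, by simp⟩
      intro h
      apply v.2
      have e01 := congrArg (fun x : Matrix.SpecialLinearGroup (Fin 2) F => (x : Matrix (Fin 2) (Fin 2) F) 0 1) h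
      have e10 := congrArg (fun x : Matrix.SpecialLinearGroup (Fin 2) F => (x : Matrix (Fin 2) (Fin 2) F) 1 0) h
      simp at e01 e10
      exact Prod.ext e01 e10⟩
  left_inv h := by
    have h2 : (2 : F) = 0 := two_eq_zero
    have hh := h.2
    rw [orderOf_eq_two_iff, mul_self_eq_one_iff] at hh
    obtain ⟨hg1, hgd⟩ := hh
    apply Subtype.ext
    apply Matrix.SpecialLinearGroup.ext
    have hdet := h.1.det_coe
    rw [Matrix.det_fin_two, ← hgd] at hdet
    have hsq := Classical.choose_spec (FiniteField.isSquare_of_char_two (ringChar.eq F 2)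
      (1 + (h.1 : Matrix (Fin 2) (Fin 2) F) 0 1 * (h.1 : Matrix (Fin 2) (Fin 2) F) 1 0))
    have ha : Classical.choose (FiniteField.isSquare_of_char_two (ringChar.eq F 2)
      (1 + (h.1 : Matrix (Fin 2) (Fin 2) F) 0 1 * (h.1 : Matrix (Fin 2) (Fin 2) F) 1 0)) =
        (h.1 : Matrix (Fin 2) (Fin 2) F) 0 0 := by
      apply sq_eq_sq_char_two
      linear_combination -hsq - hdet
    intro i j
    fin_cases i <;> fin_cases j <;> simp [ha, ← hgd]
  right_inv v := by
    apply Subtype.ext
    simp

/-- Over a finite field with q elements of characteristic 2, the involutions of SL₂ (the non-identity unipotent elements) form a single conjugacy class, of size q² − 1. -/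
theorem result {F : Type*} [Field F] [Fintype F] [CharP F 2] (g h : Matrix.SpecialLinearGroup (Fin 2) F) (hg : orderOf g = 2) (hh : orderOf h = 2) :
    IsConj g h ∧ Nat.card (ConjClasses.mk g).carrier = Fintype.card F ^ 2 - 1 := by
  classical
  refine ⟨(isConj_std g hg).symm.trans (isConj_std h hh), ?_⟩
  have hset : (ConjClasses.mk g).carrier = {h : Matrix.SpecialLinearGroup (Fin 2) F | orderOf h = 2} := by
    ext x
    rw [ConjClasses.mem_carrier_iff_mk_eq, ConjClasses.mk_eq_mk_iff_isConj]
    show IsConj x g ↔ orderOf x = 2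
    constructor
    · intro hx
      obtain ⟨c, hc⟩ := isConj_iff.mp hx
      have e := MulEquiv.orderOf_eq (MulAut.conj c) x
      rw [MulAut.conj_apply, hc, hg] at e
      exact e.symm
    · intro hx
      exact (isConj_std x hx).symm.trans (isConj_std g hg)
  rw [hset]
  have e1 : Nat.card ↥{h : Matrix.SpecialLinearGroup (Fin 2) F | orderOf h = 2} =
      Nat.card {v : F × F // v ≠ 0} := Nat.card_congr invEquiv
  rw [e1, Nat.card_eq_fintype_card, Fintype.card_subtype_compl, Fintype.card_prod]
  simp [pow_two]

end Cfsg.Agent.S2302
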