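import Mathlib
import Cfsg.Statements.S2337
import Cfsg.Agent.Helper6.SzRep

set_option autoImplicit false
open Cfsg

namespace Cfsg.Agent.S2337

/-- For the Suzuki group Sz(q), q = 2^(2m+1) with m ≥ 1 (realised inside Sp₄ over the field with q elements), every irreducible complex representation of degree at least 2 has degree at least 2^m·(q − 1). -/
theorem result {F : Type*} [Field F] [Fintype F] (m : ℕ) (hm : 1 ≤ m) (hF : Fintype.card F = 2 ^ (2 * m + 1)) :
    (∀ (k : ℕ) (ρ : Representation ℂ (Cfsg.Lie.Sz F (2 ^ (m + 1))) (Fin k → ℂ)), ρ.IsIrreducible → 2 ≤ k → 2 ^ m * (2 ^ (2 * m + 1) - 1) ≤ k) := by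
  have D := Cfsg.Agent.Helper6.Sz.szData hm hF
  intro k ρ hρ hk
  have e := Cfsg.Agent.Helper6.Sz.lieEquiv D
  have hirr : Representation.IsIrreducible
      (MonoidHom.comp ρ e.toMonoidHom :
        Representation ℂ ↥(Cfsg.Agent.Helper6.Sz.SzG F (2 ^ (m + 1))) (Fin k → ℂ)) :=
    (Cfsg.Agent.Helper24.isIrreducible_comp_iff e.toMonoidHom e.surjective ρ).mpr hρ
  exact Cfsg.Agent.Helper6.SzRep.min_degree D hF k _ hirr hk

end Cfsg.Agent.S2337
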