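import Cfsg.Statements.S2354
import Cfsg.Agent.S2353
-- import your own Cfsg.Agent.* helpers here

set_option autoImplicit false
open Cfsg

namespace Cfsg.Agent.S2354

open Polynomial
open scoped Matrix

section Gen
variable {R : Type*} [CommRing R] [CharP R 2] (s : ℕ)

/-- lower root element -/
def xM (b : R) : Matrix (Fin 4) (Fin 4) R :=
  !![1, 0, 0, 0; 0, 1, 0, 0; b, 0, 1, 0; b ^ (2 ^ s), b, 0, 1]

/-- upper root element -/
def yM (d : R) : Matrix (Fin 4) (Fin 4) R :=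
  !![1, 0, d, d ^ (2 ^ s); 0, 1, 0, d; 0, 0, 1, 0; 0, 0, 0, 1]

theorem xM_mul (b c : R) : xM s b * xM s c = xM s (b + c) := by
  have h := add_pow_char_pow (p := 2) (n := s) b c
  refine Matrix.ext fun i j => ?_
  fin_cases i <;> fin_cases j <;> simp [xM, Matrix.mul_apply, Fin.sum_univ_four, h] <;> ring

theorem yM_mul (b c : R) : yM s b * yM s c = yM s (b + c) := by
  have h := add_pow_char_pow (p := 2) (n := s) b c
  refine Matrix.ext fun i j => ?_
  fin_cases i <;> fin_cases j <;> simp [yM, Matrix.mul_apply, Fin.sum_univ_four, h] <;> ring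

theorem xM_zero : xM s (0 : R) = 1 := by
  have h0 : (0 : R) ^ (2 ^ s) = 0 := zero_pow (pow_ne_zero s two_ne_zero)
  refine Matrix.ext fun i j => ?_
  fin_cases i <;> fin_cases j <;> simp [xM, h0, Matrix.one_apply]

theorem yM_zero : yM s (0 : R) = 1 := by
  have h0 : (0 : R) ^ (2 ^ s) = 0 := zero_pow (pow_ne_zero s two_ne_zero)
  refine Matrix.ext fun i j => ?_
  fin_cases i <;> fin_cases j <;> simp [yM, h0, Matrix.one_apply]

theorem xM_sq (b : R) : xM s b * xM s b = 1 := by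
  rw [xM_mul, CharTwo.add_self_eq_zero, xM_zero]

theorem yM_sq (b : R) : yM s b * yM s b = 1 := by
  rw [yM_mul, CharTwo.add_self_eq_zero, yM_zero]

/-- lower root element in `GL₄` -/
def xG (b : R) : Matrix.GeneralLinearGroup (Fin 4) R := ⟨xM s b, xM s b, xM_sq s b, xM_sq s b⟩

/-- upper root element in `GL₄` -/
def yG (b : R) : Matrix.GeneralLinearGroup (Fin 4) R := ⟨yM s b, yM s b, yM_sq s b, yM_sq s b⟩

theorem xG_inv (b : R) : (xG s b)⁻¹ = xG s b := Units.ext rfl

theorem yG_inv (b : R) : (yG s b)⁻¹ = yG s b := Units.ext rfl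

theorem xG_map {S : Type*} [CommRing S] [CharP S 2] (φ : R →+* S) (b : R) :
    Matrix.GeneralLinearGroup.map φ (xG s b) = xG s (φ b) := by
  apply Units.ext
  show (xM s b).map φ = xM s (φ b)
  refine Matrix.ext fun i j => ?_
  fin_cases i <;> fin_cases j <;> simp [xM]

theorem yG_map {S : Type*} [CommRing S] [CharP S 2] (φ : R →+* S) (b : R) :
    Matrix.GeneralLinearGroup.map φ (yG s b) = yG s (φ b) := by
  apply Units.ext
  show (yM s b).map φ = yM s (φ b)
  refine Matrix.ext fun i j => ?_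
  fin_cases i <;> fin_cases j <;> simp [yM]

variable (R) in
/-- images of the free generators -/
noncomputable def gen4 (i : ℕ) : Matrix.GeneralLinearGroup (Fin 4) R[X] :=
  xG s (X ^ (2 * i + 1)) * yG s X * xG s (X ^ (2 * i + 2))

variable (R) in
/-- left polynomial of a letter -/
noncomputable def l4 (y : ℕ × Bool) : R[X] := cond y.2 (X ^ (2 * y.1 + 1)) (X ^ (2 * y.1 + 2))

variable (R) in
/-- right polynomial of a letter -/
noncomputable def r4 (y : ℕ × Bool) : R[X] := cond y.2 (X ^ (2 * y.1 + 2)) (X ^ (2 * y.1 + 1))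

theorem letter4 (y : ℕ × Bool) :
    cond y.2 (gen4 R s y.1) (gen4 R s y.1)⁻¹ = xG s (l4 R y) * yG s X * xG s (r4 R y) := by
  rcases y with ⟨i, _ | _⟩
  · show (gen4 R s i)⁻¹ = xG s (X ^ (2 * i + 2)) * yG s X * xG s (X ^ (2 * i + 1))
    unfold gen4
    rw [mul_inv_rev, mul_inv_rev, xG_inv, yG_inv, xG_inv, mul_assoc]
  · rfl

variable (R) in
/-- left polynomial of the first letter of a word -/
noncomputable def lam4 : List (ℕ × Bool) → R[X]
  | [] => 0
  | y :: _ => l4 R y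

end Gen

section Deg
variable {F : Type*} [Field F]

theorem deg_mul_lt_right (a b c d : F[X]) (hab : a.natDegree ≤ c.natDegree) (hc : c ≠ 0)
    (hbd : b.degree < d.degree) : (a * b).degree < (c * d).degree := by
  have hd : d ≠ 0 := Polynomial.ne_zero_of_degree_gt hbd
  by_cases ha : a = 0
  · rw [ha, zero_mul, Polynomial.degree_zero]
    exact bot_lt_iff_ne_bot.mpr (Polynomial.degree_ne_bot.mpr (mul_ne_zero hc hd))
  by_cases hb : b = 0
  · rw [hb, mul_zero, Polynomial.degree_zero]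
    exact bot_lt_iff_ne_bot.mpr (Polynomial.degree_ne_bot.mpr (mul_ne_zero hc hd))
  apply Polynomial.degree_lt_degree
  rw [Polynomial.natDegree_mul ha hb, Polynomial.natDegree_mul hc hd]
  have := Polynomial.natDegree_lt_natDegree hb hbd
  omega

theorem deg_mul_lt_left (a c b : F[X]) (hac : a.natDegree < c.natDegree) (ha : a ≠ 0)
    (hb : b ≠ 0) : (a * b).degree < (c * b).degree := by
  have hc : c ≠ 0 := by rintro rfl; simp at hac
  apply Polynomial.degree_lt_degree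
  rw [Polynomial.natDegree_mul ha hb, Polynomial.natDegree_mul hc hb]
  omega

/-- the basic degree step: if `a` strictly dominates `b, c, d` then `f^E a + f b + d` strictly
dominates `a`, `b` and `f a + c`. -/
theorem step4 (E : ℕ) (hE : 2 ≤ E) (f a b c d : F[X]) (hf : 1 ≤ f.natDegree)
    (hb : b.degree < a.degree) (hc : c.degree < a.degree) (hd : d.degree < a.degree) :
    a.degree < (f ^ E * a + f * b + d).degree ∧ b.degree < (f ^ E * a + f * b + d).degree ∧
      (f * a + c).degree < (f ^ E * a + f * b + d).degree := by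
  have ha : a ≠ 0 := Polynomial.ne_zero_of_degree_gt hb
  have hf0 : f ≠ 0 := by rintro rfl; simp at hf
  have hfE0 : f ^ E ≠ 0 := pow_ne_zero _ hf0
  have hfE : (f ^ E).natDegree = E * f.natDegree := Polynomial.natDegree_pow f E
  have hlt : f.natDegree < (f ^ E).natDegree := by
    rw [hfE]; nlinarith
  have h1 : (f * b).degree < (f ^ E * a).degree :=
    deg_mul_lt_right f b (f ^ E) a (le_of_lt hlt) hfE0 hb
  have h2 : a.degree < (f ^ E * a).degree := by
    have := deg_mul_lt_left 1 (f ^ E) a (by rw [Polynomial.natDegree_one]; omega) one_ne_zero ha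
    rwa [one_mul] at this
  have h3 : d.degree < (f ^ E * a).degree := hd.trans h2
  have h4 : (f * b + d).degree < (f ^ E * a).degree :=
    lt_of_le_of_lt (Polynomial.degree_add_le _ _) (max_lt h1 h3)
  have h5 : (f ^ E * a + f * b + d).degree = (f ^ E * a).degree := by
    rw [add_assoc]; exact Polynomial.degree_add_eq_left_of_degree_lt h4
  rw [h5]
  refine ⟨h2, hb.trans h2, ?_⟩
  have h6 : (f * a).degree < (f ^ E * a).degree := deg_mul_lt_left f (f ^ E) a hlt hf0 ha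
  exact lt_of_le_of_lt (Polynomial.degree_add_le _ _) (max_lt h6 (hc.trans h2))

end Deg

section Deg2
variable {F : Type*} [Field F]

theorem natDegree_l4 (y : ℕ × Bool) :
    (l4 F y).natDegree = cond y.2 (2 * y.1 + 1) (2 * y.1 + 2) := by
  rcases y with ⟨i, _ | _⟩ <;> simp [l4]

theorem natDegree_r4 (y : ℕ × Bool) :
    (r4 F y).natDegree = cond y.2 (2 * y.1 + 2) (2 * y.1 + 1) := by
  rcases y with ⟨i, _ | _⟩ <;> simp [r4]

theorem one_le_l4 (y : ℕ × Bool) : 1 ≤ (l4 F y).natDegree := by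
  rw [natDegree_l4]
  rcases y with ⟨i, _ | _⟩ <;> simp only [cond_true, cond_false] <;> omega

theorem one_le_r4 (y : ℕ × Bool) : 1 ≤ (r4 F y).natDegree := by
  rw [natDegree_r4]
  rcases y with ⟨i, _ | _⟩ <;> simp only [cond_true, cond_false] <;> omega

theorem le_l4 (y : ℕ × Bool) : (l4 F y).natDegree ≤ 2 * y.1 + 2 := by
  rw [natDegree_l4]
  rcases y with ⟨i, _ | _⟩ <;> simp only [cond_true, cond_false] <;> omega

theorem le_r4 (y : ℕ × Bool) : (r4 F y).natDegree ≤ 2 * y.1 + 2 := by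
  rw [natDegree_r4]
  rcases y with ⟨i, _ | _⟩ <;> simp only [cond_true, cond_false] <;> omega

theorem junction4 (y y' : ℕ × Bool) (h : y.1 = y'.1 → y.2 = y'.2) :
    1 ≤ (r4 F y + l4 F y').natDegree := by
  apply Cfsg.Agent.S2353.nd_add _ _ _ (one_le_r4 y) (one_le_l4 y')
  rw [natDegree_r4, natDegree_l4]
  rcases y with ⟨i, _ | _⟩ <;> rcases y' with ⟨j, _ | _⟩
  · simp only [cond_false]; omega
  · simp only [cond_false, cond_true]
    intro h'
    have hij : i = j := by omega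
    exact absurd (h hij) (by simp)
  · simp only [cond_false, cond_true]
    intro h'
    have hij : i = j := by omega
    exact absurd (h hij) (by simp)
  · simp only [cond_true]; omega

theorem entry_bound_mul (A B : Matrix (Fin 4) (Fin 4) F[X]) (a b : ℕ)
    (hA : ∀ i j, (A i j).natDegree ≤ a) (hB : ∀ i j, (B i j).natDegree ≤ b) :
    ∀ i j, ((A * B) i j).natDegree ≤ a + b := by
  intro i j
  rw [Matrix.mul_apply]
  apply Polynomial.natDegree_sum_le_of_forall_le
  intro k _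
  exact (Polynomial.natDegree_mul_le).trans (add_le_add (hA i k) (hB k j))

/-- degree bound of a word -/
def bd (L : List (ℕ × Bool)) : ℕ := (L.map fun y => 3 * (2 * y.1 + 2)).sum

end Deg2

section Main
variable {F : Type*} [Field F] [CharP F 2] (s : ℕ)

theorem xM_bound (f : F[X]) (d : ℕ) (hf : f.natDegree ≤ d) :
    ∀ i j, (xM s f i j).natDegree ≤ 2 ^ s * d := by
  have hpow : (f ^ (2 ^ s)).natDegree ≤ 2 ^ s * d :=
    (Polynomial.natDegree_pow_le).trans (Nat.mul_le_mul_left _ hf)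
  have hf' : f.natDegree ≤ 2 ^ s * d := hf.trans (Nat.le_mul_of_pos_left _ (by positivity))
  intro i j
  fin_cases i <;> fin_cases j <;> simp only [xM] <;>
    first | exact hpow | exact hf' | simp

theorem yM_bound (f : F[X]) (d : ℕ) (hf : f.natDegree ≤ d) :
    ∀ i j, (yM s f i j).natDegree ≤ 2 ^ s * d := by
  have hpow : (f ^ (2 ^ s)).natDegree ≤ 2 ^ s * d :=
    (Polynomial.natDegree_pow_le).trans (Nat.mul_le_mul_left _ hf)
  have hf' : f.natDegree ≤ 2 ^ s * d := hf.trans (Nat.le_mul_of_pos_left _ (by positivity))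
  intro i j
  fin_cases i <;> fin_cases j <;> simp only [yM] <;>
    first | exact hpow | exact hf' | simp

theorem letter_bound (y : ℕ × Bool) :
    ∀ i j, ((xM s (l4 F y) * yM s (X : F[X]) * xM s (r4 F y) :
      Matrix (Fin 4) (Fin 4) F[X]) i j).natDegree ≤ 2 ^ s * (3 * (2 * y.1 + 2)) := by
  have hX : (X : F[X]).natDegree ≤ 2 * y.1 + 2 := by rw [Polynomial.natDegree_X]; omega
  have h := entry_bound_mul _ _ _ _ (entry_bound_mul _ _ _ _ (xM_bound s _ _ (le_l4 y))
    (yM_bound s _ _ hX)) (xM_bound s _ _ (le_r4 y))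
  intro i j
  calc ((xM s (l4 F y) * yM s (X : F[X]) * xM s (r4 F y) :
      Matrix (Fin 4) (Fin 4) F[X]) i j).natDegree
      ≤ 2 ^ s * (2 * y.1 + 2) + 2 ^ s * (2 * y.1 + 2) + 2 ^ s * (2 * y.1 + 2) := h i j
    _ = 2 ^ s * (3 * (2 * y.1 + 2)) := by ring

theorem prod_bound (L : List (ℕ × Bool)) :
    ∀ i j, ((((L.map fun y => cond y.2 (gen4 F s y.1) (gen4 F s y.1)⁻¹).prod :
      Matrix.GeneralLinearGroup (Fin 4) F[X]) : Matrix (Fin 4) (Fin 4) F[X]) i j).natDegree ≤
        2 ^ s * bd L := by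
  induction L with
  | nil =>
    intro i j
    show ((1 : Matrix (Fin 4) (Fin 4) F[X]) i j).natDegree ≤ _
    rw [Matrix.one_apply]
    split_ifs <;> simp
  | cons y L' ih =>
    intro i j
    rw [List.map_cons, List.prod_cons, Units.val_mul, letter4]
    have h := entry_bound_mul _ _ _ _ (letter_bound s y) ih i j
    have hbd : bd (y :: L') = 3 * (2 * y.1 + 2) + bd L' := by simp [bd]
    rw [hbd, mul_add]
    exact h

theorem main_ind4 (hs : 1 ≤ s) (L : List (ℕ × Bool)) (hL : FreeGroup.IsReduced L) :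
    ∃ N : Matrix (Fin 4) (Fin 4) F[X],
      (((L.map fun y => cond y.2 (gen4 F s y.1) (gen4 F s y.1)⁻¹).prod :
        Matrix.GeneralLinearGroup (Fin 4) F[X]) : Matrix (Fin 4) (Fin 4) F[X]) =
          xM s (lam4 F L) * N ∧
      (N 1 0).degree < (N 0 0).degree ∧ (N 2 0).degree < (N 0 0).degree ∧
      (N 3 0).degree < (N 0 0).degree := by
  have hE : 2 ≤ 2 ^ s := by
    calc 2 = 2 ^ 1 := by norm_num
      _ ≤ 2 ^ s := Nat.pow_le_pow_right (by norm_num) hs
  induction L with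
  | nil =>
    refine ⟨1, ?_, ?_, ?_, ?_⟩
    · show ((1 : Matrix.GeneralLinearGroup (Fin 4) F[X]) : Matrix (Fin 4) (Fin 4) F[X]) =
        xM s 0 * 1
      rw [xM_zero, Matrix.mul_one]; rfl
    · simp
    · simp
    · simp
  | cons y L' ih =>
    have hL' : FreeGroup.IsReduced L' := hL.infix ⟨[y], [], by simp⟩
    obtain ⟨N', hprod, h1, h2, h3⟩ := ih hL'
    have hf : 1 ≤ (r4 F y + lam4 F L').natDegree := by
      cases L' with
      | nil =>
        show 1 ≤ (r4 F y + 0).natDegree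
        rw [add_zero]; exact one_le_r4 y
      | cons y' L'' => exact junction4 y y' (FreeGroup.isReduced_cons_cons.mp hL).1
    obtain ⟨f, hfdef⟩ : ∃ f, f = r4 F y + lam4 F L' := ⟨_, rfl⟩
    rw [← hfdef] at hf
    obtain ⟨P, hP⟩ : ∃ P, P = xM s f * N' := ⟨_, rfl⟩
    have e0 : P 0 0 = N' 0 0 := by
      rw [hP]; simp [xM, Matrix.mul_apply, Fin.sum_univ_four]
    have e1 : P 1 0 = N' 1 0 := by
      rw [hP]; simp [xM, Matrix.mul_apply, Fin.sum_univ_four]
    have e2 : P 2 0 = f * N' 0 0 + N' 2 0 := by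
      rw [hP]; simp [xM, Matrix.mul_apply, Fin.sum_univ_four]
    have e3 : P 3 0 = f ^ (2 ^ s) * N' 0 0 + f * N' 1 0 + N' 3 0 := by
      rw [hP]; simp [xM, Matrix.mul_apply, Fin.sum_univ_four]
    obtain ⟨k1, k2, k3⟩ := step4 (2 ^ s) hE f (N' 0 0) (N' 1 0) (N' 2 0) (N' 3 0) hf h1 h2 h3
    rw [← e3] at k1 k2 k3
    rw [← e2] at k3
    rw [← e0] at k1
    rw [← e1] at k2
    have g0 : (yM s (X : F[X]) * P) 0 0 = X ^ (2 ^ s) * P 3 0 + X * P 2 0 + P 0 0 := by
      simp [yM, Matrix.mul_apply, Fin.sum_univ_four]; ring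
    have g1 : (yM s (X : F[X]) * P) 1 0 = X * P 3 0 + P 1 0 := by
      simp [yM, Matrix.mul_apply, Fin.sum_univ_four]; ring
    have g2 : (yM s (X : F[X]) * P) 2 0 = P 2 0 := by
      simp [yM, Matrix.mul_apply, Fin.sum_univ_four]
    have g3 : (yM s (X : F[X]) * P) 3 0 = P 3 0 := by
      simp [yM, Matrix.mul_apply, Fin.sum_univ_four]
    obtain ⟨j1, j2, j3⟩ := step4 (2 ^ s) hE X (P 3 0) (P 2 0) (P 1 0) (P 0 0)
      (by rw [Polynomial.natDegree_X]) k3 k2 k1
    refine ⟨yM s (X : F[X]) * P, ?_, ?_, ?_, ?_⟩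
    · rw [List.map_cons, List.prod_cons, Units.val_mul, hprod, letter4]
      show xM s (l4 F y) * yM s (X : F[X]) * xM s (r4 F y) * (xM s (lam4 F L') * N') =
        xM s (l4 F y) * (yM s (X : F[X]) * P)
      rw [hP, hfdef, ← xM_mul]
      simp only [Matrix.mul_assoc]
    · rw [g1, g0]; exact j3
    · rw [g2, g0]; exact j2
    · rw [g3, g0]; exact j1

theorem entry_ne_zero4 (hs : 1 ≤ s) (L : List (ℕ × Bool)) (hL : FreeGroup.IsReduced L)
    (hne : L ≠ []) :
    (((L.map fun y => cond y.2 (gen4 F s y.1) (gen4 F s y.1)⁻¹).prod :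
      Matrix.GeneralLinearGroup (Fin 4) F[X]) : Matrix (Fin 4) (Fin 4) F[X]) 3 0 ≠ 0 := by
  have hE : 2 ≤ 2 ^ s := by
    calc 2 = 2 ^ 1 := by norm_num
      _ ≤ 2 ^ s := Nat.pow_le_pow_right (by norm_num) hs
  obtain ⟨N, hprod, h1, h2, h3⟩ := main_ind4 (F := F) s hs L hL
  rw [hprod]
  cases L with
  | nil => exact absurd rfl hne
  | cons y L' =>
    have e3 : (xM s (lam4 F (y :: L')) * N) 3 0 =
        (l4 F y) ^ (2 ^ s) * N 0 0 + l4 F y * N 1 0 + N 3 0 := by
      show (xM s (l4 F y) * N) 3 0 = _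
      simp [xM, Matrix.mul_apply, Fin.sum_univ_four]
    rw [e3]
    exact Polynomial.ne_zero_of_degree_gt
      (step4 (2 ^ s) hE (l4 F y) _ _ _ _ (one_le_l4 y) h1 h2 h3).1

theorem xG_mem_Sz (hθ : ∀ x : F, (x ^ (2 ^ s)) ^ (2 ^ s) = x ^ 2) (a : F) :
    xG s a ∈ Cfsg.Lie.Sz F (2 ^ s) := by
  have h0 : (0 : F) ^ (2 ^ s) = 0 := zero_pow (pow_ne_zero s two_ne_zero)
  apply Subgroup.subset_closure
  refine ⟨?_, ?_⟩
  · intro u v
    show Cfsg.Lie.altForm4 (xM s a *ᵥ u) (xM s a *ᵥ v) = Cfsg.Lie.altForm4 u v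
    simp [Cfsg.Lie.altForm4, xM, Matrix.mulVec, dotProduct, Fin.sum_univ_four]
    linear_combination (a ^ (2 ^ s) * u 0 * v 0 + a * u 0 * v 1 + a * u 1 * v 0) *
      (CharTwo.two_eq_zero (R := F))
  · show Cfsg.Lie.star4 (xM s a) = (xM s a).map (fun x => x ^ (2 ^ s))
    refine Matrix.ext fun i j => ?_
    fin_cases i <;> fin_cases j <;>
      simp [Cfsg.Lie.star4, Cfsg.Lie.pairOf, xM, hθ, h0, CharTwo.neg_eq, sq]

theorem yG_mem_Sz (hθ : ∀ x : F, (x ^ (2 ^ s)) ^ (2 ^ s) = x ^ 2) (a : F) :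
    yG s a ∈ Cfsg.Lie.Sz F (2 ^ s) := by
  have h0 : (0 : F) ^ (2 ^ s) = 0 := zero_pow (pow_ne_zero s two_ne_zero)
  apply Subgroup.subset_closure
  refine ⟨?_, ?_⟩
  · intro u v
    show Cfsg.Lie.altForm4 (yM s a *ᵥ u) (yM s a *ᵥ v) = Cfsg.Lie.altForm4 u v
    simp [Cfsg.Lie.altForm4, yM, Matrix.mulVec, dotProduct, Fin.sum_univ_four]
    linear_combination (a * u 2 * v 3 + a ^ (2 ^ s) * u 3 * v 3 + a * u 3 * v 2) *
      (CharTwo.two_eq_zero (R := F))
  · show Cfsg.Lie.star4 (yM s a) = (yM s a).map (fun x => x ^ (2 ^ s))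
    refine Matrix.ext fun i j => ?_
    fin_cases i <;> fin_cases j <;>
      simp [Cfsg.Lie.star4, Cfsg.Lie.pairOf, yM, hθ, h0, CharTwo.neg_eq, sq]

end Main

/-- A non-trivial law holds in only finitely many Suzuki groups: for every non-trivial element w of the free group on countably many generators there is N such that for q = 2^(2m+1) with m ≥ N some substitution of elements of the Suzuki group over the field with q elements into w is not the identity. -/
theorem result (w : FreeGroup ℕ) (hw : w ≠ 1) :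
    ∃ N : ℕ, ∀ (F : Type*) [Field F] [Fintype F] (m : ℕ), 1 ≤ m → N ≤ m →
      Fintype.card F = 2 ^ (2 * m + 1) →
      ∃ f : ℕ → ↥(Cfsg.Lie.Sz F (2 ^ (m + 1))), FreeGroup.lift f w ≠ 1 := by
  classical
  obtain ⟨L, hL⟩ : ∃ L, L = w.toWord := ⟨_, rfl⟩
  have hLred : FreeGroup.IsReduced L := hL ▸ FreeGroup.isReduced_toWord
  have hLne : L ≠ [] := fun h => hw (FreeGroup.toWord_eq_nil_iff.mp (hL ▸ h))
  have hmk : w = FreeGroup.mk L := by rw [hL]; exact FreeGroup.mk_toWord.symm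
  refine ⟨bd L + 1, ?_⟩
  intro F instF instFin m hm1 hNm hcard
  have hchar : CharP F 2 := by
    obtain ⟨p, hp⟩ := CharP.exists F
    obtain ⟨n, hpp, hcn⟩ := FiniteField.card F p
    have h2 : p ∣ 2 ^ (2 * m + 1) := by
      rw [← hcard, hcn]; exact dvd_pow_self p n.ne_zero
    have hp2 : p = 2 := (Nat.prime_dvd_prime_iff_eq hpp Nat.prime_two).mp (hpp.dvd_of_dvd_pow h2)
    rw [← hp2]; exact hp
  have hθ : ∀ x : F, (x ^ (2 ^ (m + 1))) ^ (2 ^ (m + 1)) = x ^ 2 := by
    intro x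
    rw [← pow_mul]
    have h1 : 2 ^ (m + 1) * 2 ^ (m + 1) = Fintype.card F * 2 := by rw [hcard]; ring
    rw [h1, pow_mul, FiniteField.pow_card]
  obtain ⟨Q, hQ⟩ : ∃ Q : Polynomial F, Q = ((FreeGroup.lift (gen4 F (m + 1)) w :
    Matrix.GeneralLinearGroup (Fin 4) (Polynomial F)) : Matrix (Fin 4) (Fin 4) (Polynomial F)) 3 0 :=
    ⟨_, rfl⟩
  have hQ' : Q = (((L.map fun y => cond y.2 (gen4 F (m + 1) y.1) (gen4 F (m + 1) y.1)⁻¹).prod :
      Matrix.GeneralLinearGroup (Fin 4) (Polynomial F)) :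
      Matrix (Fin 4) (Fin 4) (Polynomial F)) 3 0 := by
    rw [hQ, hmk, FreeGroup.lift_mk]
  have hQ0 : Q ≠ 0 := by
    rw [hQ']; exact entry_ne_zero4 (m + 1) (by omega) L hLred hLne
  have hQdeg : Q.natDegree < Fintype.card F := by
    have h1 : Q.natDegree ≤ 2 ^ (m + 1) * bd L := by rw [hQ']; exact prod_bound (m + 1) L 3 0
    have h2 : bd L < 2 ^ m := lt_trans (by omega : bd L < m) Nat.lt_two_pow_self
    have h3 : 2 ^ (2 * m + 1) = 2 ^ (m + 1) * 2 ^ m := by ring
    rw [hcard, h3]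
    exact lt_of_le_of_lt h1 (Nat.mul_lt_mul_of_pos_left h2 (by positivity))
  obtain ⟨a, ha⟩ : ∃ a : F, Q.eval a ≠ 0 := by
    by_contra hall
    push Not at hall
    exact hQ0 (Polynomial.eq_zero_of_natDegree_lt_card_of_eval_eq_zero Q (f := id)
      Function.injective_id hall hQdeg)
  refine ⟨fun i => ⟨xG (m + 1) (a ^ (2 * i + 1)) * yG (m + 1) a * xG (m + 1) (a ^ (2 * i + 2)),
    mul_mem (mul_mem (xG_mem_Sz (m + 1) hθ _) (yG_mem_Sz (m + 1) hθ _))
      (xG_mem_Sz (m + 1) hθ _)⟩, fun h1 => ha ?_⟩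
  have hcomp : (Subgroup.subtype (Cfsg.Lie.Sz F (2 ^ (m + 1)))).comp
      (FreeGroup.lift fun i => (⟨xG (m + 1) (a ^ (2 * i + 1)) * yG (m + 1) a *
        xG (m + 1) (a ^ (2 * i + 2)),
        mul_mem (mul_mem (xG_mem_Sz (m + 1) hθ _) (yG_mem_Sz (m + 1) hθ _))
          (xG_mem_Sz (m + 1) hθ _)⟩ : ↥(Cfsg.Lie.Sz F (2 ^ (m + 1))))) =
      (Matrix.GeneralLinearGroup.map (Polynomial.evalRingHom a)).comp
        (FreeGroup.lift (gen4 F (m + 1))) := by
    refine FreeGroup.ext_hom _ _ (fun i => ?_)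
    simp only [MonoidHom.comp_apply, FreeGroup.lift_apply_of]
    show xG (m + 1) (a ^ (2 * i + 1)) * yG (m + 1) a * xG (m + 1) (a ^ (2 * i + 2)) =
      Matrix.GeneralLinearGroup.map (Polynomial.evalRingHom a)
        (xG (m + 1) (Polynomial.X ^ (2 * i + 1)) * yG (m + 1) Polynomial.X *
          xG (m + 1) (Polynomial.X ^ (2 * i + 2)))
    rw [map_mul, map_mul, xG_map, yG_map, xG_map]
    simp
  have h2 := DFunLike.congr_fun hcomp w
  simp only [MonoidHom.comp_apply, h1, map_one] at h2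
  have h3 : ((Matrix.GeneralLinearGroup.map (Polynomial.evalRingHom a)
      (FreeGroup.lift (gen4 F (m + 1)) w) : Matrix.GeneralLinearGroup (Fin 4) F) :
      Matrix (Fin 4) (Fin 4) F) 3 0 = Q.eval a := by
    rw [hQ]; rfl
  rw [← h3, ← h2]
  simp

end Cfsg.Agent.S2354
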