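import Cfsg.Statements.S2355
import Cfsg.Agent.Helper18.LawSU
-- import your own Cfsg.Agent.* helpers here

set_option autoImplicit false
open Cfsg

namespace Cfsg.Agent.S2355

open Cfsg.Agent.Helper18 in
theorem omega_card_le {ι : Type} [Fintype ι] [DecidableEq ι] (F : Type) [Field F] [Fintype F]
    (Q : (ι → F) → F) (a b : ℕ) (ha0 : 0 < a) (ha : Fintype.card F ≤ a)
    (hb : Fintype.card ι ≤ b) : Nat.card (Cfsg.POmega F Q) ≤ (a ^ b) ^ b :=
  card_quot_le _ (fun s : Cfsg.Omega F Q =>
    ((s.1.1 : Matrix.GeneralLinearGroup ι F) : Matrix ι ι F))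
    (by intro s t h; exact Subtype.ext (Subtype.ext (Units.ext h))) a b ha0 ha hb

/-- A non-trivial law is satisfied by only finitely many finite simple groups that are alternating or classical, up to isomorphism: for every non-trivial element w of the free group on countably many generators there is a bound N such that every alternating group of degree ≥ 5 and every simple classical group (linear, symplectic, unitary or orthogonal, in this problem's sense) in which w is a law has order at most N. -/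
theorem result (w : FreeGroup ℕ) (hw : w ≠ 1) :
    ∃ N : ℕ, ∀ (G : Type*) [Group G] [Finite G],
      (Cfsg.IsAlternating G ∨ Cfsg.IsPSL G ∨ Cfsg.IsPSp G ∨ Cfsg.IsPSU G ∨ Cfsg.IsPOmegaOdd G ∨
          Cfsg.IsPOmegaPlus G ∨ Cfsg.IsPOmegaMinus G) →
      (∀ f : ℕ → G, FreeGroup.lift f w = 1) → Nat.card G ≤ N := by
  classical
  obtain ⟨N₁, hN₁5, hN₁⟩ := Cfsg.Agent.Helper18.alt_law_fail w hw
  obtain ⟨N, hN5, hN⟩ := Cfsg.Agent.Helper18.gl_law_fail w hw
  obtain ⟨D, hD⟩ := Cfsg.Agent.Helper18.sl2_core.{0} w hw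
  obtain ⟨M, hM⟩ : ∃ M : ℕ, M = N₁ + N + D + 5 := ⟨_, rfl⟩
  have hM1 : 1 ≤ M := by omega
  have hMsq : M ≤ M ^ 2 := Nat.le_self_pow (by norm_num) M
  have ha0 : 0 < M ^ 2 := by positivity
  refine ⟨((M ^ 2) ^ (2 * M + 2)) ^ (2 * M + 2) + M.factorial, ?_⟩
  intro G _ _ hG hlaw
  rcases hG with h | h | h | h | h | h | h
  · -- alternating
    obtain ⟨n, hn5, ⟨e⟩⟩ := h
    have hlaw' := Cfsg.Agent.Helper18.law_of_equiv e w hlaw
    have hn : n < N₁ := by
      by_contra hcon
      obtain ⟨f, τ, hnc⟩ := hN₁ n (by omega)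
      apply hnc
      rw [hlaw' f]
      exact Commute.one_left τ
    have h1 : Nat.card G = Nat.card (alternatingGroup (Fin n)) := Nat.card_congr e.toEquiv
    have h2 : Nat.card (alternatingGroup (Fin n)) ≤ Nat.card (Equiv.Perm (Fin n)) :=
      Nat.card_le_card_of_injective Subtype.val Subtype.val_injective
    have h3 : Nat.card (Equiv.Perm (Fin n)) = n.factorial := by
      rw [Nat.card_eq_fintype_card, Fintype.card_perm, Fintype.card_fin]
    have h4 : n.factorial ≤ M.factorial := Nat.factorial_le (by omega)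
    omega
  · -- PSL
    obtain ⟨F, _, _, n, hn2, _, ⟨e⟩⟩ := h
    have hpar := Cfsg.Agent.Helper18.psl_params w N hN F n hn2
      (Cfsg.Agent.Helper18.law_of_equiv e w hlaw)
    have h1 : Nat.card G = Nat.card (Matrix.ProjectiveSpecialLinearGroup (Fin n) F) :=
      Nat.card_congr e.toEquiv
    have h2 : Nat.card (Matrix.ProjectiveSpecialLinearGroup (Fin n) F) ≤
        ((M ^ 2) ^ (2 * M + 2)) ^ (2 * M + 2) :=
      Cfsg.Agent.Helper18.card_quot_le _
        (fun s : Matrix.SpecialLinearGroup (Fin n) F => (s : Matrix (Fin n) (Fin n) F))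
        Subtype.val_injective _ _ ha0 (by omega) (by rw [Fintype.card_fin]; omega)
    omega
  · -- PSp
    obtain ⟨F, _, _, m, hm2, _, ⟨e⟩⟩ := h
    have hpar := Cfsg.Agent.Helper18.psp_params w N hN F m hm2
      (Cfsg.Agent.Helper18.law_of_equiv e w hlaw)
    have h1 : Nat.card G = Nat.card (Cfsg.PSp m F) := Nat.card_congr e.toEquiv
    have h2 : Nat.card (Cfsg.PSp m F) ≤ ((M ^ 2) ^ (2 * M + 2)) ^ (2 * M + 2) :=
      Cfsg.Agent.Helper18.card_quot_le _
        (fun s : Matrix.symplecticGroup (Fin m) F =>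
          (s : Matrix (Fin m ⊕ Fin m) (Fin m ⊕ Fin m) F))
        Subtype.val_injective _ _ ha0 (by omega)
        (by rw [Fintype.card_sum, Fintype.card_fin]; omega)
    omega
  · -- PSU
    obtain ⟨F, _, _, n, q, hF, hn3, _, ⟨e⟩⟩ := h
    have hpar := Cfsg.Agent.Helper18.psu_params w N₁ hN₁ D hD n q hF hn3
      (Cfsg.Agent.Helper18.law_of_equiv e w hlaw)
    have hFle : Fintype.card F ≤ M ^ 2 := by
      rw [hF]; exact Nat.pow_le_pow_left (by omega) 2
    have h1 : Nat.card G = Nat.card (Cfsg.PSU n F q) := Nat.card_congr e.toEquiv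
    have h2 : Nat.card (Cfsg.PSU n F q) ≤ ((M ^ 2) ^ (2 * M + 2)) ^ (2 * M + 2) :=
      Cfsg.Agent.Helper18.card_quot_le _
        (fun s : Cfsg.SU n F q =>
          ((s : Matrix.SpecialLinearGroup (Fin n) F) : Matrix (Fin n) (Fin n) F))
        (Subtype.val_injective.comp Subtype.val_injective) _ _ ha0 hFle
        (by rw [Fintype.card_fin]; omega)
    omega
  · -- odd orthogonal
    obtain ⟨F, _, _, m, hm3, _, ⟨e⟩⟩ := h
    have hpar := Cfsg.Agent.Helper18.omega_params w N hN F m (by omega)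
      (Cfsg.Agent.Helper18.leviOdd m) (Cfsg.Agent.Helper18.leviOdd_injective m)
      (Cfsg.Agent.Helper18.law_of_equiv e w hlaw)
    have h1 : Nat.card G = Nat.card (Cfsg.POmega F (Cfsg.quadFormOdd m F)) :=
      Nat.card_congr e.toEquiv
    have h2 := omega_card_le F (Cfsg.quadFormOdd m F) (M ^ 2) (2 * M + 2) ha0 (by omega)
      (by simp only [Fintype.card_sum, Fintype.card_fin, Fintype.card_unit]; omega)
    omega
  · -- plus orthogonal
    obtain ⟨F, _, _, m, hm4, ⟨e⟩⟩ := h
    have hpar := Cfsg.Agent.Helper18.omega_params w N hN F m (by omega)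
      (Cfsg.Agent.Helper18.leviPlus m) (Cfsg.Agent.Helper18.leviPlus_injective m)
      (Cfsg.Agent.Helper18.law_of_equiv e w hlaw)
    have h1 : Nat.card G = Nat.card (Cfsg.POmega F (Cfsg.quadFormPlus m F)) :=
      Nat.card_congr e.toEquiv
    have h2 := omega_card_le F (Cfsg.quadFormPlus m F) (M ^ 2) (2 * M + 2) ha0 (by omega)
      (by simp only [Fintype.card_sum, Fintype.card_fin]; omega)
    omega
  · -- minus orthogonal
    obtain ⟨F, _, _, m, a, b, hm4, _, ⟨e⟩⟩ := h
    have hpar := Cfsg.Agent.Helper18.omega_params w N hN F (m - 1) (by omega)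
      (Cfsg.Agent.Helper18.leviMinus (m - 1) a b)
      (Cfsg.Agent.Helper18.leviMinus_injective (m - 1) a b)
      (Cfsg.Agent.Helper18.law_of_equiv e w hlaw)
    have h1 : Nat.card G = Nat.card (Cfsg.POmega F (Cfsg.quadFormMinus (m - 1) F a b)) :=
      Nat.card_congr e.toEquiv
    have h2 := omega_card_le F (Cfsg.quadFormMinus (m - 1) F a b) (M ^ 2) (2 * M + 2) ha0
      (by omega) (by simp only [Fintype.card_sum, Fintype.card_fin]; omega)
    omega

end Cfsg.Agent.S2355
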