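import Cfsg.Statements.S2360
import Mathlib
import Cfsg.Agent.Helper8.SU3Inv

set_option autoImplicit false
open Cfsg

namespace Cfsg.Agent.S2360

/-- Let q be odd, F the field with q² elements and S = SU_3(F) (determinant-one isometries of the standard Hermitian form). Then all involutions of S are conjugate; there are exactly q²(q²−q+1) of them; the centralizer of an involution has order q(q+1)(q²−1), the order of the full unitary group of degree 2; and for two distinct commuting involutions t and x there is exactly one further involution commuting with both. -/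
theorem result {F : Type*} [Field F] [Fintype F] {q : ℕ} (hq : Odd q)
    (hF : Fintype.card F = q ^ 2) (t : ↥(Cfsg.SU 3 F q)) (ht : t ≠ 1) (ht2 : t * t = 1) :
    (∀ x : ↥(Cfsg.SU 3 F q), x ≠ 1 → x * x = 1 → ∃ g : ↥(Cfsg.SU 3 F q), g * t * g⁻¹ = x) ∧
    Nat.card {x : ↥(Cfsg.SU 3 F q) // x ≠ 1 ∧ x * x = 1} = q ^ 2 * (q ^ 2 - q + 1) ∧
    Nat.card ↥(Subgroup.centralizer ({t} : Set ↥(Cfsg.SU 3 F q))) = q * (q + 1) * (q ^ 2 - 1) ∧
    ∀ x : ↥(Cfsg.SU 3 F q), x ≠ 1 → x * x = 1 → x ≠ t → Commute t x →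
      Nat.card {y : ↥(Cfsg.SU 3 F q) // y ≠ 1 ∧ y * y = 1 ∧ y ≠ t ∧ y ≠ x ∧ Commute t y ∧ Commute x y} = 1 := by
  have h2 : (2 : F) ≠ 0 := Cfsg.Agent.Helper8.SU3I.two_ne_zero_of_odd hF hq
  refine ⟨fun x hx1 hx2 => Cfsg.Agent.Helper8.SU3I.inv_conj hF h2 t x ht ht2 hx1 hx2,
    Cfsg.Agent.Helper8.SU3I.card_inv hF h2,
    Cfsg.Agent.Helper8.SU3I.card_cent hF h2 t ht ht2, ?_⟩
  intro x hx1 hx2 hxt hc
  rw [Nat.card_eq_one_iff_unique]
  constructor
  · constructor
    rintro ⟨y, hy1, hy2, hyt, hyx, c2, c3⟩ ⟨y', hy1', hy2', hyt', hyx', c2', c3'⟩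
    apply Subtype.ext
    show y = y'
    rw [Cfsg.Agent.Helper8.SU3I.third_unique hF h2 t x y ht ht2 hx1 hx2 hy1 hy2 hxt hyt hyx hc c2 c3,
      Cfsg.Agent.Helper8.SU3I.third_unique hF h2 t x y' ht ht2 hx1 hx2 hy1' hy2' hxt hyt' hyx' hc c2'
        c3']
  · refine ⟨⟨t * x, ?_, ?_, ?_, ?_, ?_, ?_⟩⟩
    · intro h
      apply hxt
      have h3 : x = t * (t * x) := by rw [← mul_assoc, ht2, one_mul]
      rw [h3, h, mul_one]
    · have h3 : t * x * (t * x) = t * (x * t) * x := by group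
      rw [h3, ← hc.eq, ← mul_assoc, ht2, one_mul, hx2]
    · intro h
      apply hx1
      have h3 : x = t * (t * x) := by rw [← mul_assoc, ht2, one_mul]
      rw [h3, h, ht2]
    · intro h
      apply ht
      have h3 : t = t * x * x := by rw [mul_assoc, hx2, mul_one]
      rw [h3, h, hx2]
    · exact (Commute.refl t).mul_right hc
    · exact hc.symm.mul_right (Commute.refl x)

end Cfsg.Agent.S2360
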