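import Cfsg.Statements.S2428
import Cfsg.Agent.Helper12.Torus

set_option autoImplicit false
open Cfsg

namespace Cfsg.Agent.S2428

open Cfsg.Agent.Helper12

/-- Let F be a finite field with q elements, q odd, and let d be a diagonal element of SL₂ over F whose diagonal entry a has a² ≠ 1 (such d exist exactly when q > 3). Then the centraliser of d is precisely the diagonal subgroup T; the normaliser of T has order 2(q − 1) and exactly (q + 5)/2 conjugacy classes; and every element of that normaliser outside T has square equal to −1. -/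
theorem result {F : Type*} [Field F] [Fintype F] (hodd : Odd (Fintype.card F))
    (d : Matrix.SpecialLinearGroup (Fin 2) F) (hd01 : (d : Matrix (Fin 2) (Fin 2) F) 0 1 = 0) (hd10 : (d : Matrix (Fin 2) (Fin 2) F) 1 0 = 0) (hda : (d : Matrix (Fin 2) (Fin 2) F) 0 0 ^ 2 ≠ 1) :
    (∀ g : Matrix.SpecialLinearGroup (Fin 2) F, g ∈ Subgroup.centralizer ({d} : Set (Matrix.SpecialLinearGroup (Fin 2) F)) ↔ ((g : Matrix (Fin 2) (Fin 2) F) 0 1 = 0 ∧ (g : Matrix (Fin 2) (Fin 2) F) 1 0 = 0)) ∧
    Nat.card (Subgroup.normalizer ((Subgroup.centralizer ({d} : Set (Matrix.SpecialLinearGroup (Fin 2) F))) : Set (Matrix.SpecialLinearGroup (Fin 2) F))) = 2 * (Fintype.card F - 1) ∧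
    Nat.card (ConjClasses (Subgroup.normalizer ((Subgroup.centralizer ({d} : Set (Matrix.SpecialLinearGroup (Fin 2) F))) : Set (Matrix.SpecialLinearGroup (Fin 2) F)))) = (Fintype.card F + 5) / 2 ∧
    ∀ g : Matrix.SpecialLinearGroup (Fin 2) F, g ∈ Subgroup.normalizer ((Subgroup.centralizer ({d} : Set (Matrix.SpecialLinearGroup (Fin 2) F))) : Set (Matrix.SpecialLinearGroup (Fin 2) F)) →
      g ∉ Subgroup.centralizer ({d} : Set (Matrix.SpecialLinearGroup (Fin 2) F)) → ((g * g) : Matrix (Fin 2) (Fin 2) F) = -1 := by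
  have h2 : (2 : F) ≠ 0 := two_ne_zero_of_odd hodd
  have hq1 : 1 < Fintype.card F := Fintype.one_lt_card
  obtain ⟨a, ha⟩ : ∃ a : F, a = (d : Matrix (Fin 2) (Fin 2) F) 0 0 := ⟨_, rfl⟩
  obtain ⟨e, he⟩ : ∃ e : F, e = (d : Matrix (Fin 2) (Fin 2) F) 1 1 := ⟨_, rfl⟩
  have hde : (d : Matrix (Fin 2) (Fin 2) F) = !![a, 0; 0, e] := by
    rw [ha, he]
    ext i j
    fin_cases i <;> fin_cases j <;> simp [hd01, hd10]
  rw [← ha] at hda
  have hdet : a * e = 1 := by
    have h := d.det_coe
    rw [hde, Matrix.det_fin_two_of] at h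
    linear_combination h
  have hae : a ≠ e := by
    intro h
    apply hda
    rw [pow_two]
    calc a * a = a * e := by rw [← h]
      _ = 1 := hdet
  have htr : (d : Matrix (Fin 2) (Fin 2) F).trace = a + e := by
    rw [hde, Matrix.trace_fin_two_of]
  have hroot : a ^ 2 - (d : Matrix (Fin 2) (Fin 2) F).trace * a + 1 = 0 := by
    rw [htr]; linear_combination -hdet
  have hne : a ≠ (d : Matrix (Fin 2) (Fin 2) F).trace - a := by
    rw [htr]; intro h; apply hae; linear_combination h
  have h4 := sq_ne_four_of_split _ a hroot hne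
  have hcardK := torus_card_split hodd d a hroot hne
  have hcardN := torus_card_normalizer hodd d h4
  refine ⟨?_, ?_, ?_, ?_⟩
  · intro g
    rw [Subgroup.mem_centralizer_singleton_iff]
    obtain ⟨g1, g2, g3, g4, hge, -⟩ := sl2_eta g
    have h01 : (g : Matrix (Fin 2) (Fin 2) F) 0 1 = g2 := by rw [hge]; simp
    have h10 : (g : Matrix (Fin 2) (Fin 2) F) 1 0 = g3 := by rw [hge]; simp
    rw [h01, h10, sl2_mul_eq_iff, hge, hde, Matrix.mul_fin_two, Matrix.mul_fin_two]
    have hsub : a - e ≠ 0 := sub_ne_zero.mpr hae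
    constructor
    · intro h
      obtain ⟨-, E2, E3, -⟩ := S5016.mat2_inj h
      refine ⟨?_, ?_⟩
      · have h' : (a - e) * g2 = 0 := by linear_combination -E2
        exact (mul_eq_zero.mp h').resolve_left hsub
      · have h' : (a - e) * g3 = 0 := by linear_combination E3
        exact (mul_eq_zero.mp h').resolve_left hsub
    · rintro ⟨h2', h3'⟩
      rw [h2', h3']
      apply S5016.mat2_ext <;> ring
  · rw [hcardN, hcardK]
  · have hk := torus_normalizer_classes hodd d h4
    rw [hcardK] at hk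
    omega
  · intro g hg hgK
    rw [← Matrix.SpecialLinearGroup.coe_mul, torus_sq hodd d g h4 hg hgK]
    exact S0809.negOne_val

end Cfsg.Agent.S2428
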