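import Cfsg.Statements.S2429
import Cfsg.Agent.Helper12.Torus

set_option autoImplicit false
open Cfsg

namespace Cfsg.Agent.S2429

open Cfsg.Agent.Helper12

/-- Let F be a finite field with q elements, q odd. Then SL₂ over F contains a cyclic subgroup T′ of order q + 1 (a non-split torus) with the following properties: T′ is its own centraliser, and indeed the centraliser of each element of T′ other than 1 and −1 is exactly T′; every element of SL₂ having no eigenvector in F² is conjugate to an element of T′; the normaliser of T′ has order 2(q + 1) and exactly (q + 7)/2 conjugacy classes; and every element of that normaliser outside T′ has square −1. -/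
theorem result {F : Type*} [Field F] [Fintype F] (hodd : Odd (Fintype.card F)) :
    ∃ T' : Subgroup (Matrix.SpecialLinearGroup (Fin 2) F), IsCyclic T' ∧ Nat.card T' = Fintype.card F + 1 ∧
      Subgroup.centralizer ((T' : Set (Matrix.SpecialLinearGroup (Fin 2) F))) = T' ∧
      (∀ g : Matrix.SpecialLinearGroup (Fin 2) F, g ∈ T' → (g : Matrix (Fin 2) (Fin 2) F) ≠ 1 → (g : Matrix (Fin 2) (Fin 2) F) ≠ -1 → Subgroup.centralizer ({g} : Set (Matrix.SpecialLinearGroup (Fin 2) F)) = T') ∧
      (∀ g : Matrix.SpecialLinearGroup (Fin 2) F, (∀ (c : F) (v : Fin 2 → F), v ≠ 0 → (g : Matrix (Fin 2) (Fin 2) F).mulVec v ≠ c • v) → ∃ h : Matrix.SpecialLinearGroup (Fin 2) F, h * g * h⁻¹ ∈ T') ∧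
      Nat.card (Subgroup.normalizer (T' : Set (Matrix.SpecialLinearGroup (Fin 2) F))) = 2 * (Fintype.card F + 1) ∧
      Nat.card (ConjClasses (Subgroup.normalizer (T' : Set (Matrix.SpecialLinearGroup (Fin 2) F)))) = (Fintype.card F + 7) / 2 ∧
      ∀ g : Matrix.SpecialLinearGroup (Fin 2) F, g ∈ Subgroup.normalizer (T' : Set (Matrix.SpecialLinearGroup (Fin 2) F)) → g ∉ T' → ((g * g) : Matrix (Fin 2) (Fin 2) F) = -1 := by
  have h2 : (2 : F) ≠ 0 := two_ne_zero_of_odd hodd
  have hq1 : 1 < Fintype.card F := Fintype.one_lt_card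
  obtain ⟨p, hp⟩ := CharP.exists F
  haveI : CharP F p := hp
  haveI : Fact p.Prime := ⟨CharP.char_is_prime F p⟩
  obtain ⟨a, ha⟩ := sl2_exists_orderOf_card_add_one (F := F) p
  have hirr := irr_of_order_odd a ha
  have h4 := sq_ne_four_of_no_root _ hirr
  have hax : ¬ Sl2Scalar a := fun hs => h4 (sl2Scalar_trace_sq a hs)
  have hcardK := torus_card_irr hodd a hirr
  have hcz := cent_eq_zpowers_of_card a (hcardK.trans ha.symm)
  have haa : a ∈ Subgroup.centralizer ({a} : Set (Matrix.SpecialLinearGroup (Fin 2) F)) :=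
    Subgroup.mem_centralizer_singleton_iff.mpr rfl
  refine ⟨Subgroup.zpowers a, inferInstance, ?_, ?_, ?_, ?_, ?_, ?_, ?_⟩
  · rw [Nat.card_zpowers, ha]
  · rw [← hcz]
    exact torus_cent_subgroup a hax _ le_rfl a haa hax
  · intro g hg h1 hm1
    rw [← hcz] at hg ⊢
    have hgns : ¬ Sl2Scalar g := by
      intro hs
      rcases sl2_center_cases g (sl2Scalar_mem_center g hs) with h | h
      · exact h1 ((congrArg (fun x : Matrix.SpecialLinearGroup (Fin 2) F =>
          (x : Matrix (Fin 2) (Fin 2) F)) h).trans Matrix.SpecialLinearGroup.coe_one)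
      · exact hm1 ((congrArg (fun x : Matrix.SpecialLinearGroup (Fin 2) F =>
          (x : Matrix (Fin 2) (Fin 2) F)) h).trans S0809.negOne_val)
    have hag : a * g = g * a := (Subgroup.mem_centralizer_singleton_iff.mp hg).symm
    exact torus_cent_eq a g hax hgns hag
  · intro g hg
    obtain ⟨h, hh⟩ := conj_into_nonsplit hodd a hirr g hg
    exact ⟨h, by rw [← hcz]; exact hh⟩
  · rw [← hcz, torus_card_normalizer hodd a h4, hcardK]
  · rw [← hcz]
    have hk := torus_normalizer_classes hodd a h4
    rw [hcardK] at hk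
    omega
  · intro g hg hgK
    rw [← hcz] at hg hgK
    rw [← Matrix.SpecialLinearGroup.coe_mul, torus_sq hodd a g h4 hg hgK]
    exact S0809.negOne_val

end Cfsg.Agent.S2429
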