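import Cfsg.Statements.S2436
import Mathlib
import Cfsg.Agent.Helper12.McKaySL2
import Cfsg.Agent.S2299
import Cfsg.Agent.S2325

set_option autoImplicit false
open Cfsg

namespace Cfsg.Agent.S2436

open Cfsg.Agent.Helper12 Cfsg.Agent.Helper12.TB

section lhs

variable {F : Type*} [Field F] [Fintype F]

theorem lhs_count (hodd : Odd (Fintype.card F)) (hq5 : 5 ≤ Fintype.card F) (ℓ : ℕ) :
    Nat.card {χ : IrrCharacter (Matrix.SpecialLinearGroup (Fin 2) F) //
      ¬ ℓ ∣ charDegree (χ : Matrix.SpecialLinearGroup (Fin 2) F → ℂ)} =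
      ndInd ℓ 1 * 1 + ndInd ℓ (Fintype.card F) * 1 +
      ndInd ℓ (Fintype.card F + 1) * ((Fintype.card F - 3) / 2) +
      ndInd ℓ (Fintype.card F - 1) * ((Fintype.card F - 1) / 2) +
      ndInd ℓ ((Fintype.card F + 1) / 2) * 2 + ndInd ℓ ((Fintype.card F - 1) / 2) * 2 := by
  obtain ⟨hdeg, hcnt⟩ := S2299.result hodd
  obtain ⟨c1, c2, c3, c4, c5, c6⟩ := hcnt hq5
  have hq1 : 1 ≤ Fintype.card F := by omega
  obtain ⟨j, hj⟩ := hodd
  have k1 : Nat.card {χ : IrrCharacter (Matrix.SpecialLinearGroup (Fin 2) F) //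
      charDegree (χ : Matrix.SpecialLinearGroup (Fin 2) F → ℂ) = 1} = 1 :=
    (Nat.card_congr (Equiv.subtypeEquivRight fun χ =>
      (charDegree_eq_iff χ 1).trans (by rw [Nat.cast_one]))).trans c1
  have k2 : Nat.card {χ : IrrCharacter (Matrix.SpecialLinearGroup (Fin 2) F) //
      charDegree (χ : Matrix.SpecialLinearGroup (Fin 2) F → ℂ) = Fintype.card F} = 1 :=
    (Nat.card_congr (Equiv.subtypeEquivRight fun χ => charDegree_eq_iff χ _)).trans c2
  have k3 : Nat.card {χ : IrrCharacter (Matrix.SpecialLinearGroup (Fin 2) F) //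
      charDegree (χ : Matrix.SpecialLinearGroup (Fin 2) F → ℂ) = Fintype.card F + 1} =
      (Fintype.card F - 3) / 2 :=
    (Nat.card_congr (Equiv.subtypeEquivRight fun χ =>
      (charDegree_eq_iff χ _).trans (by rw [Nat.cast_add, Nat.cast_one]))).trans c3
  have k4 : Nat.card {χ : IrrCharacter (Matrix.SpecialLinearGroup (Fin 2) F) //
      charDegree (χ : Matrix.SpecialLinearGroup (Fin 2) F → ℂ) = Fintype.card F - 1} =
      (Fintype.card F - 1) / 2 :=
    (Nat.card_congr (Equiv.subtypeEquivRight fun χ =>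
      (charDegree_eq_iff χ _).trans (by rw [Nat.cast_sub hq1, Nat.cast_one]))).trans c4
  have k5 : Nat.card {χ : IrrCharacter (Matrix.SpecialLinearGroup (Fin 2) F) //
      charDegree (χ : Matrix.SpecialLinearGroup (Fin 2) F → ℂ) = (Fintype.card F + 1) / 2} = 2 :=
    (Nat.card_congr (Equiv.subtypeEquivRight fun χ => charDegree_eq_iff χ _)).trans c5
  have k6 : Nat.card {χ : IrrCharacter (Matrix.SpecialLinearGroup (Fin 2) F) //
      charDegree (χ : Matrix.SpecialLinearGroup (Fin 2) F → ℂ) = (Fintype.card F - 1) / 2} = 2 :=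
    (Nat.card_congr (Equiv.subtypeEquivRight fun χ => charDegree_eq_iff χ _)).trans c6
  have hf : ∀ χ : IrrCharacter (Matrix.SpecialLinearGroup (Fin 2) F),
      charDegree (χ : Matrix.SpecialLinearGroup (Fin 2) F → ℂ) = 1 ∨
      charDegree (χ : Matrix.SpecialLinearGroup (Fin 2) F → ℂ) = Fintype.card F ∨
      charDegree (χ : Matrix.SpecialLinearGroup (Fin 2) F → ℂ) = Fintype.card F + 1 ∨
      charDegree (χ : Matrix.SpecialLinearGroup (Fin 2) F → ℂ) = Fintype.card F - 1 ∨
      charDegree (χ : Matrix.SpecialLinearGroup (Fin 2) F → ℂ) = (Fintype.card F + 1) / 2 ∨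
      charDegree (χ : Matrix.SpecialLinearGroup (Fin 2) F → ℂ) = (Fintype.card F - 1) / 2 := by
    intro χ
    rcases hdeg χ χ.2 with h | h | h | h | h | h
    · exact Or.inl ((charDegree_eq_iff χ 1).mpr (by rw [h, Nat.cast_one]))
    · exact Or.inr (Or.inl ((charDegree_eq_iff χ _).mpr h))
    · exact Or.inr (Or.inr (Or.inl ((charDegree_eq_iff χ _).mpr
        (by rw [h, Nat.cast_add, Nat.cast_one]))))
    · exact Or.inr (Or.inr (Or.inr (Or.inl ((charDegree_eq_iff χ _).mpr
        (by rw [h, Nat.cast_sub hq1, Nat.cast_one])))))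
    · exact Or.inr (Or.inr (Or.inr (Or.inr (Or.inl ((charDegree_eq_iff χ _).mpr h)))))
    · exact Or.inr (Or.inr (Or.inr (Or.inr (Or.inr ((charDegree_eq_iff χ _).mpr h)))))
  have key := count6 (fun χ : IrrCharacter (Matrix.SpecialLinearGroup (Fin 2) F) =>
      charDegree (χ : Matrix.SpecialLinearGroup (Fin 2) F → ℂ)) ℓ 1 (Fintype.card F)
    (Fintype.card F + 1) (Fintype.card F - 1) ((Fintype.card F + 1) / 2)
    ((Fintype.card F - 1) / 2)
    (by omega) (by omega) (by omega) (by omega) (by omega) (by omega) (by omega) (by omega)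
    (by omega) (by omega) (by omega) (by omega) (by omega) (by omega) (by omega) hf
  beta_reduce at key
  rw [k1, k2, k3, k4, k5, k6] at key
  exact key

theorem lhs_two (hodd : Odd (Fintype.card F)) (hq5 : 5 ≤ Fintype.card F) :
    Nat.card {χ : IrrCharacter (Matrix.SpecialLinearGroup (Fin 2) F) //
      ¬ 2 ∣ charDegree (χ : Matrix.SpecialLinearGroup (Fin 2) F → ℂ)} = 4 := by
  have key := lhs_count hodd hq5 2
  obtain ⟨j, hj⟩ := hodd
  have h1 : ¬ 2 ∣ 1 := by norm_num
  have h2 : ¬ 2 ∣ Fintype.card F := by omega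
  have h3 : 2 ∣ Fintype.card F + 1 := by omega
  have h4 : 2 ∣ Fintype.card F - 1 := by omega
  rw [ndInd_neg h1, ndInd_neg h2, ndInd_pos h3, ndInd_pos h4] at key
  rcases Nat.even_or_odd j with ⟨i, hi⟩ | ⟨i, hi⟩
  · have h5 : ¬ 2 ∣ (Fintype.card F + 1) / 2 := by omega
    have h6 : 2 ∣ (Fintype.card F - 1) / 2 := by omega
    rw [ndInd_neg h5, ndInd_pos h6] at key
    omega
  · have h5 : 2 ∣ (Fintype.card F + 1) / 2 := by omega
    have h6 : ¬ 2 ∣ (Fintype.card F - 1) / 2 := by omega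
    rw [ndInd_pos h5, ndInd_neg h6] at key
    omega

theorem lhs_sub (hodd : Odd (Fintype.card F)) (hq5 : 5 ≤ Fintype.card F) (ℓ : ℕ)
    (hℓp : ℓ.Prime) (hℓ2 : ℓ ≠ 2) (hℓq : ¬ ℓ ∣ Fintype.card F) (hd : ℓ ∣ Fintype.card F - 1) :
    Nat.card {χ : IrrCharacter (Matrix.SpecialLinearGroup (Fin 2) F) //
      ¬ ℓ ∣ charDegree (χ : Matrix.SpecialLinearGroup (Fin 2) F → ℂ)} * 2 =
      Fintype.card F - 1 + 6 := by
  have key := lhs_count hodd hq5 ℓ
  obtain ⟨j, hj⟩ := hodd
  have hℓ2' : ¬ ℓ ∣ 2 := fun h => hℓ2 ((Nat.prime_dvd_prime_iff_eq hℓp Nat.prime_two).mp h)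
  have h1 : ¬ ℓ ∣ 1 := hℓp.not_dvd_one
  have h3 : ¬ ℓ ∣ Fintype.card F + 1 := by
    intro h
    apply hℓ2'
    have e : Fintype.card F + 1 = (Fintype.card F - 1) + 2 := by omega
    rw [e] at h
    exact (Nat.dvd_add_right hd).mp h
  have e4 : Fintype.card F - 1 = 2 * ((Fintype.card F - 1) / 2) := by omega
  have e5 : Fintype.card F + 1 = 2 * ((Fintype.card F + 1) / 2) := by omega
  have h5 : ¬ ℓ ∣ (Fintype.card F + 1) / 2 := by
    intro h
    apply h3
    rw [e5]
    exact Dvd.dvd.mul_left h 2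
  have h6 : ℓ ∣ (Fintype.card F - 1) / 2 := by
    have hd' := hd
    rw [e4] at hd'
    exact (hℓp.dvd_mul.mp hd').resolve_left hℓ2'
  rw [ndInd_neg h1, ndInd_neg hℓq, ndInd_neg h3, ndInd_pos hd, ndInd_neg h5, ndInd_pos h6] at key
  omega

theorem lhs_add (hodd : Odd (Fintype.card F)) (hq5 : 5 ≤ Fintype.card F) (ℓ : ℕ)
    (hℓp : ℓ.Prime) (hℓ2 : ℓ ≠ 2) (hℓq : ¬ ℓ ∣ Fintype.card F) (hd : ℓ ∣ Fintype.card F + 1) :
    Nat.card {χ : IrrCharacter (Matrix.SpecialLinearGroup (Fin 2) F) //
      ¬ ℓ ∣ charDegree (χ : Matrix.SpecialLinearGroup (Fin 2) F → ℂ)} * 2 =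
      Fintype.card F + 1 + 6 := by
  have key := lhs_count hodd hq5 ℓ
  obtain ⟨j, hj⟩ := hodd
  have hℓ2' : ¬ ℓ ∣ 2 := fun h => hℓ2 ((Nat.prime_dvd_prime_iff_eq hℓp Nat.prime_two).mp h)
  have h1 : ¬ ℓ ∣ 1 := hℓp.not_dvd_one
  have h4 : ¬ ℓ ∣ Fintype.card F - 1 := by
    intro h
    apply hℓ2'
    have e : Fintype.card F + 1 = (Fintype.card F - 1) + 2 := by omega
    have hd' := hd
    rw [e] at hd'
    exact (Nat.dvd_add_right h).mp hd'
  have e4 : Fintype.card F - 1 = 2 * ((Fintype.card F - 1) / 2) := by omega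
  have e5 : Fintype.card F + 1 = 2 * ((Fintype.card F + 1) / 2) := by omega
  have h5 : ℓ ∣ (Fintype.card F + 1) / 2 := by
    have hd' := hd
    rw [e5] at hd'
    exact (hℓp.dvd_mul.mp hd').resolve_left hℓ2'
  have h6 : ¬ ℓ ∣ (Fintype.card F - 1) / 2 := by
    intro h
    apply h4
    rw [e4]
    exact Dvd.dvd.mul_left h 2
  rw [ndInd_neg h1, ndInd_neg hℓq, ndInd_pos hd, ndInd_neg h4, ndInd_pos h5, ndInd_neg h6] at key
  omega

theorem lhs_char (hodd : Odd (Fintype.card F)) (p : ℕ) [Fact p.Prime] [CharP F p] :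
    Nat.card {χ : IrrCharacter (Matrix.SpecialLinearGroup (Fin 2) F) //
      ¬ p ∣ charDegree (χ : Matrix.SpecialLinearGroup (Fin 2) F → ℂ)} = Fintype.card F + 3 := by
  classical
  have hkG : Nat.card (IrrCharacter (Matrix.SpecialLinearGroup (Fin 2) F)) =
      Fintype.card F + 4 := by
    rw [Helper24.card_irr_eq_card_conjClasses]; exact S2325.result hodd
  have hpq : p ∣ Fintype.card F := char_dvd_card p
  obtain ⟨St, hSt, -⟩ := central_St (F := F)
  have e : Nat.card {χ : IrrCharacter (Matrix.SpecialLinearGroup (Fin 2) F) //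
      ¬ p ∣ charDegree (χ : Matrix.SpecialLinearGroup (Fin 2) F → ℂ)} =
      Nat.card {χ : IrrCharacter (Matrix.SpecialLinearGroup (Fin 2) F) // ¬ (χ = St)} := by
    refine Nat.card_congr (Equiv.subtypeEquivRight fun χ => ?_)
    constructor
    · intro h hχ
      apply h
      rw [hχ, (charDegree_eq_iff St _).mpr hSt]
      exact hpq
    · intro h hdvd
      rcases sl2_deg_dich p χ with h1 | ⟨n, hn, hpn⟩
      · exact h (sl2_St_unique χ St h1 hSt)
      · rw [(charDegree_eq_iff χ n).mpr hn] at hdvd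
        exact hpn hdvd
  have e3 : Nat.card {χ : IrrCharacter (Matrix.SpecialLinearGroup (Fin 2) F) // ¬ (χ = St)} =
      Fintype.card (IrrCharacter (Matrix.SpecialLinearGroup (Fin 2) F)) - 1 := by
    rw [Nat.card_eq_fintype_card, Fintype.card_subtype_compl, Fintype.card_subtype_eq]
  have e4 : Nat.card (IrrCharacter (Matrix.SpecialLinearGroup (Fin 2) F)) =
      Fintype.card (IrrCharacter (Matrix.SpecialLinearGroup (Fin 2) F)) := Nat.card_eq_fintype_card
  omega

end lhs

/-- Let F be a finite field with q elements, q odd, ℓ any prime and S a Sylow ℓ-subgroup of SL₂ over F with normaliser N. Then SL₂ and N have the same number of irreducible complex characters of degree not divisible by ℓ (the McKay equality holds for SL₂ over F at every prime). -/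
theorem result {F : Type*} [Field F] [Fintype F] (hodd : Odd (Fintype.card F)) (ℓ : ℕ) [Fact ℓ.Prime] (S : Sylow ℓ (Matrix.SpecialLinearGroup (Fin 2) F)) :
    Nat.card {χ : Cfsg.IrrCharacter (Matrix.SpecialLinearGroup (Fin 2) F) // ¬ ℓ ∣ Cfsg.charDegree (χ : Matrix.SpecialLinearGroup (Fin 2) F → ℂ)} =
      Nat.card {ψ : Cfsg.IrrCharacter (Subgroup.normalizer ((S : Subgroup (Matrix.SpecialLinearGroup (Fin 2) F)) : Set (Matrix.SpecialLinearGroup (Fin 2) F))) //
        ¬ ℓ ∣ Cfsg.charDegree (ψ : Subgroup.normalizer ((S : Subgroup (Matrix.SpecialLinearGroup (Fin 2) F)) : Set (Matrix.SpecialLinearGroup (Fin 2) F)) → ℂ)} := by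
  classical
  have hℓp : ℓ.Prime := Fact.out
  have hq1 : 1 < Fintype.card F := Fintype.one_lt_card
  by_cases hℓq : ℓ ∣ Fintype.card F
  · obtain ⟨p, hp⟩ := CharP.exists F
    haveI : CharP F p := hp
    haveI : Fact p.Prime := ⟨CharP.char_is_prime F p⟩
    have hpp : p.Prime := Fact.out
    have hℓeq : ℓ = p := by
      obtain ⟨n, -, hn⟩ := FiniteField.card F p
      rw [hn] at hℓq
      exact (Nat.prime_dvd_prime_iff_eq hℓp hpp).mp (hℓp.dvd_of_dvd_pow hℓq)
    subst hℓeq
    exact (lhs_char hodd ℓ).trans (mckay_sylow_char hodd ℓ S).symm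
  · by_cases hℓ2 : ℓ = 2
    · subst hℓ2
      by_cases hq5 : 5 ≤ Fintype.card F
      · rw [lhs_two hodd hq5]
        have hmod : (Fintype.card F % 8 = 1 ∨ Fintype.card F % 8 = 7) ∨
            (Fintype.card F % 8 = 3 ∨ Fintype.card F % 8 = 5) := by
          obtain ⟨j, hj⟩ := hodd
          omega
        rcases hmod with h8 | h8
        · exact (mckay_two_norm_self hodd S _ ((s2431 hodd S).2.1 h8)).symm
        · exact (mckay_two_24 hodd h8 S).symm
      · have hq : Fintype.card F = 3 := by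
          obtain ⟨j, hj⟩ := hodd
          omega
        apply count_top
        have hN3 := (s2431 hodd S).2.2 (Or.inl (by omega))
        have hSL := sl2_card (F := F)
        rw [hq] at hSL
        have hS8 : Nat.card (S : Subgroup (Matrix.SpecialLinearGroup (Fin 2) F)) = 8 :=
          (sylow_card_of_eq 2 3 3 (hSL.trans (by norm_num)) (by norm_num) S).trans (by norm_num)
        rw [hS8] at hN3
        exact (Subgroup.card_eq_iff_eq_top _).mp (by omega)
    · by_cases hm : ℓ ∣ Fintype.card F - 1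
      · have hq5 : 5 ≤ Fintype.card F := by
          have h1 := Nat.le_of_dvd (by omega) hm
          have h2 := hℓp.two_le
          obtain ⟨j, hj⟩ := hodd
          omega
        have hR := (mckay_rhs_torus hodd ℓ hℓ2 S).1 hm
        have hL := lhs_sub hodd hq5 ℓ hℓp hℓ2 hℓq hm
        omega
      · by_cases hp' : ℓ ∣ Fintype.card F + 1
        · have hq5 : 5 ≤ Fintype.card F := by
            by_contra hlt
            have hq : Fintype.card F = 3 := by
              obtain ⟨j, hj⟩ := hodd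
              omega
            rw [hq] at hp'
            have h4 : ℓ ∣ 2 * 2 := hp'
            rcases hℓp.dvd_mul.mp h4 with h | h <;>
              exact hℓ2 ((Nat.prime_dvd_prime_iff_eq hℓp Nat.prime_two).mp h)
          have hR := (mckay_rhs_torus hodd ℓ hℓ2 S).2 hp'
          have hL := lhs_add hodd hq5 ℓ hℓp hℓ2 hℓq hp'
          omega
        · apply count_top
          have hnd : ¬ ℓ ∣ Nat.card (Matrix.SpecialLinearGroup (Fin 2) F) := by
            rw [sl2_card, sq_sub_one_eq _ hq1.le]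
            intro h
            rcases hℓp.dvd_mul.mp h with h | h
            · exact hℓq h
            · rcases hℓp.dvd_mul.mp h with h | h
              · exact hm h
              · exact hp' h
          have hS1 : Nat.card (S : Subgroup (Matrix.SpecialLinearGroup (Fin 2) F)) = 1 := by
            rw [Sylow.card_eq_multiplicity, Nat.factorization_eq_zero_of_not_dvd hnd, pow_zero]
          have hbot : (S : Subgroup (Matrix.SpecialLinearGroup (Fin 2) F)) = ⊥ :=
            Subgroup.eq_bot_of_card_eq _ hS1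
          rw [hbot]
          exact Subgroup.normalizer_eq_top _

end Cfsg.Agent.S2436
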