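import Cfsg.Statements.S2450
import Cfsg.Agent.Helper12.PSL2

set_option autoImplicit false
open Cfsg

namespace Cfsg.Agent.S2450

open Cfsg.Agent.Helper12 Polynomial

theorem quad_ne_zero {F : Type*} [Field F] (a m k : F) (ha : a ≠ 0) :
    (C a * X ^ 2 + C m * X + C k : F[X]) ≠ 0 := by
  intro h
  have h2 := Polynomial.natDegree_quadratic (b := m) (c := k) ha
  rw [h] at h2
  simp at h2

theorem quad_roots_contra {F : Type*} [Field F] [Fintype F] (a m k : F) (ha : a ≠ 0)
    (hcard : 2 < Fintype.card F) (h : ∀ y : F, a * y ^ 2 + m * y + k = 0) : False := by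
  have hp : (C a * X ^ 2 + C m * X + C k : F[X]) = 0 := by
    apply Polynomial.eq_zero_of_natDegree_lt_card_of_eval_eq_zero' _ Finset.univ
    · intro y _
      simp [h y]
    · rw [Polynomial.natDegree_quadratic ha]
      simpa using hcard
  exact quad_ne_zero a m k ha hp

theorem quad_quad_roots_contra {F : Type*} [Field F] [Fintype F] (a m k a' m' k' : F) (ha : a ≠ 0)
    (ha' : a' ≠ 0) (hcard : 4 < Fintype.card F)
    (h : ∀ y : F, (a * y ^ 2 + m * y + k) * (a' * y ^ 2 + m' * y + k') = 0) : False := by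
  have hp : ((C a * X ^ 2 + C m * X + C k) * (C a' * X ^ 2 + C m' * X + C k') : F[X]) = 0 := by
    apply Polynomial.eq_zero_of_natDegree_lt_card_of_eval_eq_zero' _ Finset.univ
    · intro y _
      simpa using h y
    · calc ((C a * X ^ 2 + C m * X + C k) * (C a' * X ^ 2 + C m' * X + C k') : F[X]).natDegree
          ≤ (C a * X ^ 2 + C m * X + C k : F[X]).natDegree +
            (C a' * X ^ 2 + C m' * X + C k' : F[X]).natDegree := Polynomial.natDegree_mul_le
        _ = 2 + 2 := by rw [Polynomial.natDegree_quadratic ha, Polynomial.natDegree_quadratic ha']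
        _ < _ := by simpa using hcard
  rcases mul_eq_zero.mp hp with h1 | h1
  · exact quad_ne_zero a m k ha h1
  · exact quad_ne_zero a' m' k' ha' h1

/-- the one-parameter family of products of conjugates -/
noncomputable def fam {F : Type*} [Field F] (t₁ ρ t₂ σ : F) (hρ : ρ ≠ 0) (hσ : σ ≠ 0) (y : F) :
    Matrix.SpecialLinearGroup (Fin 2) F :=
  sl2mk 1 y 0 1 (by ring) * sl2Comp t₁ ρ hρ * (sl2mk 1 y 0 1 (by ring))⁻¹ * sl2Comp t₂ σ hσ

theorem fam_trace {F : Type*} [Field F] (t₁ ρ t₂ σ : F) (hρ : ρ ≠ 0) (hσ : σ ≠ 0) (y : F) :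
    (fam t₁ ρ t₂ σ hρ hσ y : Matrix (Fin 2) (Fin 2) F).trace =
      -(ρ * σ) * y ^ 2 + (t₁ * σ - ρ * t₂) * y + (t₁ * t₂ - σ / ρ - ρ / σ) := by
  unfold fam
  simp only [Matrix.SpecialLinearGroup.coe_mul, Matrix.SpecialLinearGroup.coe_inv, sl2mk_val, sl2Comp_val,
    Matrix.adjugate_fin_two_of]
  simp [Matrix.trace_fin_two, Matrix.mul_apply, Fin.sum_univ_two]
  field_simp
  ring

/-- The Arad–Herzog conjecture for PSL(2,q): let F be a finite field with q ≥ 4 elements. For any two non-identity elements a, b of PSL(2,F), the set of products of a conjugate of a with a conjugate of b is not a single conjugacy class. -/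
theorem result {F : Type*} [Field F] [Fintype F] (h4 : 4 ≤ Fintype.card F)
    (a b : Matrix.ProjectiveSpecialLinearGroup (Fin 2) F) (ha : a ≠ 1) (hb : b ≠ 1) (c : Matrix.ProjectiveSpecialLinearGroup (Fin 2) F) :
    {g : Matrix.ProjectiveSpecialLinearGroup (Fin 2) F | ∃ u v : Matrix.ProjectiveSpecialLinearGroup (Fin 2) F, g = (u * a * u⁻¹) * (v * b * v⁻¹)} ≠ {g | IsConj c g} := by
  intro hset
  obtain ⟨A, rfl⟩ := QuotientGroup.mk_surjective a
  obtain ⟨B, rfl⟩ := QuotientGroup.mk_surjective b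
  have hA : ¬ Sl2Scalar A := psl2_not_scalar_of_ne_one A ha
  have hB : ¬ Sl2Scalar B := psl2_not_scalar_of_ne_one B hb
  rcases sl2_exists_conj A with hs | ⟨ρ, hρ, P, hP⟩
  · exact hA hs
  rcases sl2_exists_conj B with hs | ⟨σ, hσ, Q, hQ⟩
  · exact hB hs
  generalize (A : Matrix (Fin 2) (Fin 2) F).trace = t₁ at hP
  generalize (B : Matrix (Fin 2) (Fin 2) F).trace = t₂ at hQ
  have hmem : ∀ y : F, IsConj c
      (QuotientGroup.mk (fam t₁ ρ t₂ σ hρ hσ y) : Matrix.ProjectiveSpecialLinearGroup (Fin 2) F) := by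
    intro y
    have hin : (QuotientGroup.mk (fam t₁ ρ t₂ σ hρ hσ y) : Matrix.ProjectiveSpecialLinearGroup (Fin 2) F) ∈
        {g : Matrix.ProjectiveSpecialLinearGroup (Fin 2) F | ∃ u v : Matrix.ProjectiveSpecialLinearGroup (Fin 2) F,
          g = (u * QuotientGroup.mk A * u⁻¹) * (v * QuotientGroup.mk B * v⁻¹)} := by
      refine ⟨QuotientGroup.mk (sl2mk 1 y 0 1 (by ring) * P⁻¹), QuotientGroup.mk Q⁻¹, ?_⟩
      have e1 : sl2Comp t₁ ρ hρ = P⁻¹ * A * P := by
        rw [mul_assoc, hP]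
        group
      have e2 : sl2Comp t₂ σ hσ = Q⁻¹ * B * Q := by
        rw [mul_assoc, hQ]
        group
      unfold fam
      rw [e1, e2]
      simp only [← QuotientGroup.mk_mul, ← QuotientGroup.mk_inv]
      congr 1
      group
    rw [hset] at hin
    exact hin
  have hT : ∀ y : F, -(ρ * σ) * y ^ 2 + (t₁ * σ - ρ * t₂) * y + (t₁ * t₂ - σ / ρ - ρ / σ) =
        (t₁ * t₂ - σ / ρ - ρ / σ) ∨
      -(ρ * σ) * y ^ 2 + (t₁ * σ - ρ * t₂) * y + (t₁ * t₂ - σ / ρ - ρ / σ) =
        -(t₁ * t₂ - σ / ρ - ρ / σ) := by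
    intro y
    have h0 := psl2_trace_of_isConj _ _ ((hmem 0).symm.trans (hmem y))
    rw [fam_trace, fam_trace] at h0
    rcases h0 with h | h
    · left
      rw [h]
      ring
    · right
      rw [h]
      ring
  have hne : -(ρ * σ) ≠ 0 := neg_ne_zero.mpr (mul_ne_zero hρ hσ)
  by_cases h2 : (2 : F) = 0
  · apply quad_roots_contra (-(ρ * σ)) (t₁ * σ - ρ * t₂) 0 hne (by omega)
    intro y
    rcases hT y with h | h
    · linear_combination h
    · linear_combination h - (t₁ * t₂ - σ / ρ - ρ / σ) * h2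
  · have h5 : 4 < Fintype.card F := by
      rcases Nat.lt_or_ge 4 (Fintype.card F) with h | h
      · exact h
      · exfalso
        have hc : Fintype.card F = 4 := le_antisymm h h4
        have h0 := FiniteField.cast_card_eq_zero F
        rw [hc] at h0
        apply h2
        have h22 : (2 : F) * 2 = 0 := by
          norm_num
          exact_mod_cast h0
        exact mul_self_eq_zero.mp h22
    apply quad_quad_roots_contra (-(ρ * σ)) (t₁ * σ - ρ * t₂) 0 (-(ρ * σ)) (t₁ * σ - ρ * t₂)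
      (2 * (t₁ * t₂ - σ / ρ - ρ / σ)) hne hne h5
    intro y
    rcases hT y with h | h
    · have h' : -(ρ * σ) * y ^ 2 + (t₁ * σ - ρ * t₂) * y + 0 = 0 := by linear_combination h
      rw [h', zero_mul]
    · have h' : -(ρ * σ) * y ^ 2 + (t₁ * σ - ρ * t₂) * y + 2 * (t₁ * t₂ - σ / ρ - ρ / σ) = 0 := by
        linear_combination h
      rw [h', mul_zero]

end Cfsg.Agent.S2450
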