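import Cfsg.Statements.S2455
import Cfsg.Agent.Helper12.SL2
import Cfsg.Agent.Helper12.SL2Char2
import Cfsg.Agent.Helper12.SL2Elliptic
import Cfsg.Agent.Helper12.SL2Odd

set_option autoImplicit false
open Cfsg

namespace Cfsg.Agent.S2455

open Matrix Cfsg.Agent.Helper12

/-- A strong covering result in the direction of Thompson's conjecture (non-identity elements) for PSL(2,q), q odd: let F be a finite field of odd characteristic p with at least 5 elements and let x ∈ PSL(2,F) have order greater than 2 and not divisible by p (so x is not unipotent). Then every non-identity element of PSL(2,F) is a product of two conjugates of x. -/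
theorem result {F : Type*} [Field F] [Fintype F] (p : ℕ) [Fact p.Prime] [CharP F p] (hp : p ≠ 2) (h5 : 5 ≤ Fintype.card F)
    (x : Matrix.ProjectiveSpecialLinearGroup (Fin 2) F) (hx2 : 2 < orderOf x) (hxp : ¬ p ∣ orderOf x) : ∀ g : Matrix.ProjectiveSpecialLinearGroup (Fin 2) F, g ≠ 1 → ∃ u v : Matrix.ProjectiveSpecialLinearGroup (Fin 2) F, g = (u * x * u⁻¹) * (v * x * v⁻¹) := by
  have hprime : p.Prime := Fact.out
  have hch : ringChar F ≠ 2 := by rw [ringChar.eq F p]; exact hp
  have hodd : Odd (Fintype.card F) := Nat.odd_iff.mpr (FiniteField.odd_card_of_char_ne_two hch)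
  have h2 : (2 : F) ≠ 0 := Ring.two_ne_zero hch
  obtain ⟨X, rfl⟩ := QuotientGroup.mk_surjective x
  have hXc : X ∉ Subgroup.center (Matrix.SpecialLinearGroup (Fin 2) F) := by
    intro h
    have : (QuotientGroup.mk X : Matrix.ProjectiveSpecialLinearGroup (Fin 2) F) = 1 :=
      (QuotientGroup.eq_one_iff X).mpr h
    rw [this] at hx2
    simp at hx2
  have hXXc : X * X ∉ Subgroup.center (Matrix.SpecialLinearGroup (Fin 2) F) := by
    intro h
    have : (QuotientGroup.mk X : Matrix.ProjectiveSpecialLinearGroup (Fin 2) F) ^ 2 = 1 := by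
      rw [pow_two, ← QuotientGroup.mk_mul]
      exact (QuotientGroup.eq_one_iff _).mpr h
    have := orderOf_le_of_pow_eq_one (by norm_num) this
    omega
  set t := (X : Matrix (Fin 2) (Fin 2) F).trace with ht
  have ht0 : t ≠ 0 := by
    intro h
    apply hXXc
    apply sl2Scalar_mem_center
    have hc := sl2_cayley X
    rw [← ht, h, zero_smul, zero_sub] at hc
    refine ⟨?_, ?_, ?_⟩ <;> rw [Matrix.SpecialLinearGroup.coe_mul, hc] <;> simp
  have ht4 : t ^ 2 ≠ 4 := by
    intro h
    apply hxp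
    set ε := t / 2 with hε
    have hε2 : ε ^ 2 = 1 := by
      rw [hε]
      field_simp
      linear_combination h
    have htε : t = 2 * ε := by rw [hε]; field_simp
    set N : Matrix (Fin 2) (Fin 2) F := (X : Matrix (Fin 2) (Fin 2) F) - ε • 1 with hN
    have hNN : N ^ 2 = 0 := by
      have hc := sl2_cayley X
      rw [← ht, htε] at hc
      rw [pow_two, hN, sub_mul, mul_sub, hc]
      simp only [Matrix.smul_mul, Matrix.mul_smul, Matrix.one_mul, Matrix.mul_one]
      have : ε * ε = 1 := by linear_combination hε2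
      rw [smul_sub, smul_smul, this]
      module
    have hXN : (X : Matrix (Fin 2) (Fin 2) F) = ε • 1 + N := by rw [hN]; abel
    have hcomm : Commute (ε • (1 : Matrix (Fin 2) (Fin 2) F)) N := by
      rw [Commute, SemiconjBy]
      simp
    have hXp : (X : Matrix (Fin 2) (Fin 2) F) ^ p = (ε ^ p) • 1 := by
      rw [hXN, add_pow_char_of_commute p hcomm, pow_eq_zero_of_le hprime.two_le hNN, add_zero, smul_pow,
        one_pow]
    have hsc : X ^ p ∈ Subgroup.center (Matrix.SpecialLinearGroup (Fin 2) F) := by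
      apply sl2Scalar_mem_center
      refine ⟨?_, ?_, ?_⟩ <;> rw [Matrix.SpecialLinearGroup.coe_pow, hXp] <;> simp
    have hpow : (QuotientGroup.mk X : Matrix.ProjectiveSpecialLinearGroup (Fin 2) F) ^ p = 1 := by
      rw [← QuotientGroup.mk_pow]
      exact (QuotientGroup.eq_one_iff _).mpr hsc
    have hdvd := orderOf_dvd_of_pow_eq_one hpow
    rcases (Nat.dvd_prime hprime).mp hdvd with h1 | h1
    · omega
    · rw [h1]
  intro g hg
  obtain ⟨G, rfl⟩ := QuotientGroup.mk_surjective g
  have hGc : G ∉ Subgroup.center (Matrix.SpecialLinearGroup (Fin 2) F) :=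
    fun h => hg ((QuotientGroup.eq_one_iff G).mpr h)
  have hGns : ¬ Sl2Scalar G := fun h => hGc (sl2Scalar_mem_center G h)
  rcases sl2_exists_conj G with h | ⟨σ, hσ, P, hP⟩
  · exact absurd h hGns
  set τ := (G : Matrix (Fin 2) (Fin 2) F).trace with hτ
  have hsol : ∃ (a b ε : F), (ε = 1 ∨ ε = -1) ∧
      a ^ 2 + b ^ 2 - τ * a * b - t * a + ε * t * b + 1 = 0 := by
    by_cases hτ4 : τ ^ 2 = 4
    · refine ⟨1 / (2 * t), (τ / 2) / (2 * t), -(τ / 2), ?_, ?_⟩
      · have : (τ - 2) * (τ + 2) = 0 := by linear_combination hτ4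
        rcases mul_eq_zero.mp this with h | h
        · right
          have : τ = 2 := by linear_combination h
          rw [this]
          field_simp
        · left
          have : τ = -2 := by linear_combination h
          rw [this]
          field_simp
      · field_simp
        linear_combination (-1 - 2 * t ^ 2) * hτ4
    · have hτ2 : τ + 2 ≠ 0 := by
        intro h
        apply hτ4
        linear_combination (τ - 2) * h
      have hm : (-τ) ^ 2 ≠ 4 := by simpa using hτ4
      obtain ⟨a', b', hab⟩ := sl2_norm_universal hodd (-τ) hm (-(τ + 2 - t ^ 2) / (τ + 2))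
      refine ⟨t / (τ + 2) + a', -(t / (τ + 2)) + b', 1, Or.inl rfl, ?_⟩
      field_simp
      field_simp at hab
      linear_combination (τ + 2) * hab
  obtain ⟨a, b, ε, hε, hconic⟩ := hsol
  set c' := ε * t - a * τ + b with hc'
  have hdetA : a * (t - a) - b / σ * (c' * σ) = 1 := by
    rw [hc']
    field_simp
    linear_combination -hconic
  set A : Matrix.SpecialLinearGroup (Fin 2) F := sl2mk a (b / σ) (c' * σ) (t - a) hdetA with hA
  set B : Matrix.SpecialLinearGroup (Fin 2) F := A⁻¹ * sl2Comp τ σ hσ with hB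
  have hAB : A * B = sl2Comp τ σ hσ := by rw [hB]; group
  have hAtr : (A : Matrix (Fin 2) (Fin 2) F).trace = t := by
    simp [hA, Matrix.trace_fin_two]
  have hBtr : (B : Matrix (Fin 2) (Fin 2) F).trace = ε * t := by
    rw [hB, Matrix.SpecialLinearGroup.coe_mul, Matrix.SpecialLinearGroup.coe_inv, hA, sl2mk_val,
      Matrix.adjugate_fin_two_of, sl2Comp_val]
    simp [Matrix.trace_fin_two]
    rw [hc']
    field_simp
    ring
  obtain ⟨Q, hQ⟩ := isConj_iff.mp (sl2_odd_isConj_of_trace hodd X A (by rw [hAtr]) ht4)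
  have hBconj : ∃ ζ ∈ Subgroup.center (Matrix.SpecialLinearGroup (Fin 2) F), ∃ R : Matrix.SpecialLinearGroup (Fin 2) F,
      B = ζ * (R * X * R⁻¹) := by
    rcases hε with h | h
    · obtain ⟨R, hR⟩ := isConj_iff.mp (sl2_odd_isConj_of_trace hodd X B (by rw [hBtr, h, one_mul]) ht4)
      exact ⟨1, Subgroup.one_mem _, R, by rw [hR, one_mul]⟩
    · have htr : (X : Matrix (Fin 2) (Fin 2) F).trace =
          ((sl2NegOne * B : Matrix.SpecialLinearGroup (Fin 2) F) : Matrix (Fin 2) (Fin 2) F).trace := by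
        rw [sl2NegOne_mul_val, Matrix.trace_neg, hBtr, h]
        ring
      obtain ⟨R, hR⟩ := isConj_iff.mp (sl2_odd_isConj_of_trace hodd X (sl2NegOne * B) htr ht4)
      refine ⟨sl2NegOne, sl2NegOne_mem_center, R, ?_⟩
      rw [hR, ← mul_assoc, sl2NegOne_mul_self, one_mul]
  obtain ⟨ζ, hζ, R, hR⟩ := hBconj
  refine ⟨QuotientGroup.mk (P * Q), QuotientGroup.mk (P * R), ?_⟩
  have hζc := Subgroup.mem_center_iff.mp hζ
  have hfin : G = ζ * ((P * Q) * X * (P * Q)⁻¹ * ((P * R) * X * (P * R)⁻¹)) := by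
    have hG : G = P * sl2Comp τ σ hσ * P⁻¹ := by rw [← hP]; group
    rw [hG, ← hAB, hR, ← hQ]
    have e1 : P * (Q * X * Q⁻¹ * (ζ * (R * X * R⁻¹))) * P⁻¹ =
        (P * (Q * X * Q⁻¹) * ζ) * ((R * X * R⁻¹) * P⁻¹) := by group
    rw [e1, hζc (P * (Q * X * Q⁻¹))]
    group
  have hζ1 : (QuotientGroup.mk ζ : Matrix.ProjectiveSpecialLinearGroup (Fin 2) F) = 1 :=
    (QuotientGroup.eq_one_iff ζ).mpr hζ
  rw [hfin, QuotientGroup.mk_mul, hζ1, one_mul]
  rfl

end Cfsg.Agent.S2455
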