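import Cfsg.Statements.S2456
import Cfsg.Agent.Helper12.SL2
import Cfsg.Agent.Helper12.SL2Char2
import Cfsg.Agent.Helper12.SL2Elliptic

set_option autoImplicit false
open Cfsg

namespace Cfsg.Agent.S2456

open Matrix Cfsg.Agent.Helper12

/-- A strong covering result in the direction of Thompson's conjecture (non-identity elements) for PSL(2,q), q even: let F be a finite field of characteristic 2 with q ≥ 4 elements and let x ∈ PSL(2,F) have order greater than 2 and not dividing q + 1. Then every non-identity element of PSL(2,F) is a product of two conjugates of x. -/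
theorem result {F : Type*} [Field F] [Fintype F] [CharP F 2] (h4 : 4 ≤ Fintype.card F)
    (x : Matrix.ProjectiveSpecialLinearGroup (Fin 2) F) (hx2 : 2 < orderOf x) (hxq : ¬ orderOf x ∣ Fintype.card F + 1) : ∀ g : Matrix.ProjectiveSpecialLinearGroup (Fin 2) F, g ≠ 1 → ∃ u v : Matrix.ProjectiveSpecialLinearGroup (Fin 2) F, g = (u * x * u⁻¹) * (v * x * v⁻¹) := by
  have h2 : (2 : F) = 0 := char2_two_eq_zero
  obtain ⟨X, rfl⟩ := QuotientGroup.mk_surjective x
  have hX1 : X ≠ 1 := by
    rintro rfl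
    simp at hx2
  have hXX : X * X ≠ 1 := by
    intro h
    have : (QuotientGroup.mk X : Matrix.ProjectiveSpecialLinearGroup (Fin 2) F) ^ 2 = 1 := by
      rw [pow_two, ← QuotientGroup.mk_mul, h]
      rfl
    have := orderOf_le_of_pow_eq_one (by norm_num) this
    omega
  have hXq : X ^ (Fintype.card F + 1) ≠ 1 := by
    intro h
    apply hxq
    apply orderOf_dvd_of_pow_eq_one
    rw [← QuotientGroup.mk_pow, h]
    rfl
  have hXns : ¬ Sl2Scalar X := fun h => hX1 (sl2_char2_scalar_eq_one X h)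
  set t := (X : Matrix (Fin 2) (Fin 2) F).trace with ht
  have ht0 : t ≠ 0 := by
    intro h
    apply hXX
    rw [sl2_char2_mul_self_eq_one_iff]
    rw [ht, Matrix.trace_fin_two] at h
    linear_combination h - (X : Matrix (Fin 2) (Fin 2) F) 1 1 * h2
  obtain ⟨l, hl⟩ : ∃ l : F, l ^ 2 - t * l + 1 = 0 := by
    by_contra hcon
    push Not at hcon
    exact hXq (sl2_elliptic_pow X hcon)
  intro g hg
  obtain ⟨G, rfl⟩ := QuotientGroup.mk_surjective g
  have hG1 : G ≠ 1 := by
    rintro rfl
    exact hg rfl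
  have hGns : ¬ Sl2Scalar G := fun h => hG1 (sl2_char2_scalar_eq_one G h)
  set τ := (G : Matrix (Fin 2) (Fin 2) F).trace with hτ
  have hGc := sl2_char2_isConj_comp G hGns
  rw [isConj_iff] at hGc
  obtain ⟨P, hP⟩ := hGc
  -- the two factors
  set A : Matrix.SpecialLinearGroup (Fin 2) F := sl2mk l 0 (t - τ * l) (t - l) (by linear_combination -hl) with hA
  set B : Matrix.SpecialLinearGroup (Fin 2) F := sl2mk 0 (-(t - l)) l t (by linear_combination -hl) with hB
  have hAB : A * B = sl2Comp τ 1 one_ne_zero := by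
    rw [← mul_one (sl2Comp τ 1 one_ne_zero), sl2_mul_eq_iff, hA, hB, sl2mk_val, sl2mk_val, sl2Comp_val]
    ext i j
    fin_cases i <;> fin_cases j <;> simp [Matrix.mul_apply, Fin.sum_univ_two]
    · linear_combination hl
    · linear_combination (-1 : F) * hl
    · linear_combination (-τ) * hl
  have hAns : ¬ Sl2Scalar A := by
    rintro ⟨-, -, h00⟩
    simp [hA] at h00
    apply ht0
    linear_combination -h00 + l * h2
  have hBns : ¬ Sl2Scalar B := by
    rintro ⟨-, h10, -⟩
    simp [hB] at h10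
    rw [h10] at hl
    simp at hl
  have hAtr : (X : Matrix (Fin 2) (Fin 2) F).trace = (A : Matrix (Fin 2) (Fin 2) F).trace := by
    simp [hA, Matrix.trace_fin_two, ← ht]
  have hBtr : (X : Matrix (Fin 2) (Fin 2) F).trace = (B : Matrix (Fin 2) (Fin 2) F).trace := by
    simp [hB, Matrix.trace_fin_two, ← ht]
  obtain ⟨Q, hQ⟩ := isConj_iff.mp (sl2_char2_isConj_of_trace X A hXns hAns hAtr)
  obtain ⟨R, hR⟩ := isConj_iff.mp (sl2_char2_isConj_of_trace X B hXns hBns hBtr)
  refine ⟨QuotientGroup.mk (P * Q), QuotientGroup.mk (P * R), ?_⟩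
  have hfin : G = (P * Q) * X * (P * Q)⁻¹ * ((P * R) * X * (P * R)⁻¹) := by
    rw [← hP, ← hAB, ← hQ, ← hR]
    group
  rw [hfin]
  rfl

end Cfsg.Agent.S2456
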