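import Mathlib
import Cfsg.Statements.S2466

set_option autoImplicit false
open Cfsg

namespace Cfsg.Agent.S2466

theorem exists_dvd_of_prime_dvd_lcm {p : ℕ} (hp : p.Prime) (m : Multiset ℕ) (h : p ∣ m.lcm) :
    ∃ a ∈ m, p ∣ a := by
  induction m using Multiset.induction_on with
  | empty =>
    rw [Multiset.lcm_zero] at h
    exact absurd (Nat.dvd_one.mp h) hp.ne_one
  | cons a s ih =>
    rw [Multiset.lcm_cons] at h
    rcases (hp.prime.dvd_lcm).mp h with h1 | h1
    · exact ⟨a, Multiset.mem_cons_self a s, h1⟩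
    · obtain ⟨b, hb, hpb⟩ := ih h1
      exact ⟨b, Multiset.mem_cons_of_mem hb, hpb⟩

theorem add_le_sum_of_ne {m : Multiset ℕ} {a b : ℕ} (ha : a ∈ m) (hb : b ∈ m) (hab : a ≠ b) :
    a + b ≤ m.sum := by
  obtain ⟨t, rfl⟩ := Multiset.exists_cons_of_mem ha
  rw [Multiset.mem_cons] at hb
  rcases hb with hb | hb
  · exact absurd hb.symm hab
  · obtain ⟨u, rfl⟩ := Multiset.exists_cons_of_mem hb
    rw [Multiset.sum_cons, Multiset.sum_cons]
    omega

/-- Adjacency of odd primes in the prime graph of the alternating groups: let r ≠ s be odd primes at most n. The alternating group of degree n has an element of order r·s if and only if r + s ≤ n. -/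
theorem result (n r s : ℕ) (hr : r.Prime) (hs : s.Prime) (hr2 : r ≠ 2) (hs2 : s ≠ 2) (hrs : r ≠ s) (hrn : r ≤ n) (hsn : s ≤ n) :
    (r * s ∈ Set.range (orderOf : alternatingGroup (Fin n) → ℕ)) ↔ r + s ≤ n := by
  have hr3 : 3 ≤ r := by
    have := hr.two_le
    omega
  have hs3 : 3 ≤ s := by
    have := hs.two_le
    omega
  have hcop : Nat.Coprime r s := (Nat.coprime_primes hr hs).mpr hrs
  constructor
  · rintro ⟨⟨σ, hσ⟩, hord⟩
    have hord' : orderOf σ = r * s := by
      rw [← hord]; exact (Subgroup.orderOf_mk σ hσ).symm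
    have hlcm : σ.cycleType.lcm = r * s := by rw [Equiv.Perm.lcm_cycleType, hord']
    have hsum : σ.cycleType.sum ≤ n := by
      have := σ.sum_cycleType_le
      rwa [Fintype.card_fin] at this
    obtain ⟨a, ha, hra⟩ := exists_dvd_of_prime_dvd_lcm hr σ.cycleType
      (by rw [hlcm]; exact dvd_mul_right r s)
    obtain ⟨b, hb, hsb⟩ := exists_dvd_of_prime_dvd_lcm hs σ.cycleType
      (by rw [hlcm]; exact dvd_mul_left s r)
    have ha2 : 2 ≤ a := Equiv.Perm.two_le_of_mem_cycleType ha
    have hb2 : 2 ≤ b := Equiv.Perm.two_le_of_mem_cycleType hb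
    by_cases hab : a = b
    · subst hab
      have hrsa : r * s ∣ a := Nat.Coprime.mul_dvd_of_dvd_of_dvd hcop hra hsb
      have hle : r * s ≤ a := Nat.le_of_dvd (by omega) hrsa
      obtain ⟨t, ht⟩ := Multiset.exists_cons_of_mem ha
      have hale : a ≤ σ.cycleType.sum := by rw [ht, Multiset.sum_cons]; omega
      have : r + s ≤ r * s := by nlinarith
      omega
    · have := add_le_sum_of_ne ha hb hab
      have h1 : r ≤ a := Nat.le_of_dvd (by omega) hra
      have h2 : s ≤ b := Nat.le_of_dvd (by omega) hsb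
      omega
  · intro h
    obtain ⟨σ, hσ⟩ := (Equiv.Perm.exists_with_cycleType_iff (Fin n) (m := {r, s})).mpr ⟨by
      rw [Fintype.card_fin]
      simp only [Multiset.insert_eq_cons, Multiset.sum_cons, Multiset.sum_singleton]
      exact h, by
      intro a ha
      simp only [Multiset.insert_eq_cons, Multiset.mem_cons, Multiset.mem_singleton] at ha
      rcases ha with rfl | rfl <;> omega⟩
    have hsign : Equiv.Perm.sign σ = 1 := by
      rw [Equiv.Perm.sign_of_cycleType', hσ]
      simp only [Multiset.insert_eq_cons, Multiset.map_cons, Multiset.map_singleton,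
        Multiset.prod_cons, Multiset.prod_singleton]
      rw [(hr.odd_of_ne_two hr2).neg_one_pow, (hs.odd_of_ne_two hs2).neg_one_pow]
      simp
    refine ⟨⟨σ, Equiv.Perm.mem_alternatingGroup.mpr hsign⟩, ?_⟩
    rw [Subgroup.orderOf_mk, ← Equiv.Perm.lcm_cycleType, hσ]
    rw [Multiset.insert_eq_cons, Multiset.lcm_cons, Multiset.lcm_singleton, normalize_eq,
      lcm_eq_nat_lcm]
    exact hcop.lcm_eq_mul

end Cfsg.Agent.S2466
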