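import Mathlib
import Cfsg.Statements.S2467
import Cfsg.Agent.S2466

set_option autoImplicit false
open Cfsg

namespace Cfsg.Agent.S2467

theorem prod_sign_of_odd (t : Multiset ℕ) (h : ∀ x ∈ t, Odd x) :
    (t.map fun n => -(-1 : ℤˣ) ^ n).prod = 1 := by
  induction t using Multiset.induction_on with
  | empty => simp
  | cons a s ih =>
    rw [Multiset.map_cons, Multiset.prod_cons, ih (fun x hx => h x (Multiset.mem_cons_of_mem hx)),
      (h a (Multiset.mem_cons_self a s)).neg_one_pow]
    simp

/-- Adjacency of 2 and an odd prime in the prime graph of the alternating groups: let r be an odd prime at most n, with n ≥ 4. The alternating group of degree n has an element of order 2r if and only if r + 4 ≤ n. -/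
theorem result (n r : ℕ) (hn : 4 ≤ n) (hr : r.Prime) (hr2 : r ≠ 2) (hrn : r ≤ n) :
    (2 * r ∈ Set.range (orderOf : alternatingGroup (Fin n) → ℕ)) ↔ r + 4 ≤ n := by
  have hr3 : 3 ≤ r := by
    have := hr.two_le
    omega
  constructor
  · rintro ⟨⟨σ, hσ⟩, hord⟩
    have hord' : orderOf σ = 2 * r := by
      rw [← hord]; exact (Subgroup.orderOf_mk σ hσ).symm
    have hlcm : σ.cycleType.lcm = 2 * r := by rw [Equiv.Perm.lcm_cycleType, hord']
    have hsum : σ.cycleType.sum ≤ n := by
      have := σ.sum_cycleType_le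
      rwa [Fintype.card_fin] at this
    have hsign : (σ.cycleType.map fun n => -(-1 : ℤˣ) ^ n).prod = 1 := by
      rw [← Equiv.Perm.sign_of_cycleType']; exact Equiv.Perm.mem_alternatingGroup.mp hσ
    obtain ⟨a, ha, hra⟩ := Cfsg.Agent.S2466.exists_dvd_of_prime_dvd_lcm hr σ.cycleType
      (by rw [hlcm]; exact dvd_mul_left r 2)
    obtain ⟨b, hb, h2b⟩ := Cfsg.Agent.S2466.exists_dvd_of_prime_dvd_lcm Nat.prime_two σ.cycleType
      (by rw [hlcm]; exact dvd_mul_right 2 r)
    have h2all : ∀ x ∈ σ.cycleType, 2 ≤ x := fun x hx => Equiv.Perm.two_le_of_mem_cycleType hx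
    obtain ⟨t, ht⟩ := Multiset.exists_cons_of_mem hb
    rw [ht] at hsign hsum ha h2all
    rw [Multiset.map_cons, Multiset.prod_cons] at hsign
    have hbe : Even b := even_iff_two_dvd.mpr h2b
    rw [hbe.neg_one_pow] at hsign
    have hex : ∃ b' ∈ t, Even b' := by
      by_contra hno
      push Not at hno
      have h1 := prod_sign_of_odd t (fun x hx => Nat.not_even_iff_odd.mp (hno x hx))
      rw [h1] at hsign
      exact absurd hsign (by decide)
    obtain ⟨b', hb', hb'e⟩ := hex
    obtain ⟨u, hu⟩ := Multiset.exists_cons_of_mem hb'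
    rw [hu] at hsum ha h2all
    rw [Multiset.sum_cons, Multiset.sum_cons] at hsum
    have hb2 : 2 ≤ b := h2all b (Multiset.mem_cons_self _ _)
    have hb'2 : 2 ≤ b' := h2all b' (Multiset.mem_cons_of_mem (Multiset.mem_cons_self _ _))
    have key : ∀ c, Even c → r ∣ c → 2 ≤ c → 2 * r ≤ c := by
      intro c hc hrc hc2
      have : 2 * r ∣ c := Nat.Coprime.mul_dvd_of_dvd_of_dvd
        ((Nat.coprime_primes Nat.prime_two hr).mpr (Ne.symm hr2)) (even_iff_two_dvd.mp hc) hrc
      exact Nat.le_of_dvd (by omega) this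
    rw [Multiset.mem_cons, Multiset.mem_cons] at ha
    rcases ha with hab | hab | ha
    · have := key b hbe (hab ▸ hra) hb2; omega
    · have := key b' hb'e (hab ▸ hra) hb'2; omega
    · obtain ⟨w, hw⟩ := Multiset.exists_cons_of_mem ha
      rw [hw, Multiset.sum_cons] at hsum
      have ha2 : 2 ≤ a := h2all a (Multiset.mem_cons_of_mem (Multiset.mem_cons_of_mem ha))
      have : r ≤ a := Nat.le_of_dvd (by omega) hra
      omega
  · intro h
    obtain ⟨σ, hσ⟩ := (Equiv.Perm.exists_with_cycleType_iff (Fin n) (m := {r, 2, 2})).mpr ⟨by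
      rw [Fintype.card_fin]
      simp only [Multiset.insert_eq_cons, Multiset.sum_cons, Multiset.sum_singleton]
      omega, by
      intro a ha
      simp only [Multiset.insert_eq_cons, Multiset.mem_cons, Multiset.mem_singleton] at ha
      rcases ha with rfl | rfl | rfl <;> omega⟩
    have hsign : Equiv.Perm.sign σ = 1 := by
      rw [Equiv.Perm.sign_of_cycleType', hσ]
      simp only [Multiset.insert_eq_cons, Multiset.map_cons, Multiset.map_singleton,
        Multiset.prod_cons, Multiset.prod_singleton]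
      rw [(hr.odd_of_ne_two hr2).neg_one_pow]
      simp
    refine ⟨⟨σ, Equiv.Perm.mem_alternatingGroup.mpr hsign⟩, ?_⟩
    rw [Subgroup.orderOf_mk, ← Equiv.Perm.lcm_cycleType, hσ]
    rw [Multiset.insert_eq_cons, Multiset.insert_eq_cons, Multiset.lcm_cons, Multiset.lcm_cons,
      Multiset.lcm_singleton, normalize_eq, lcm_eq_nat_lcm, lcm_eq_nat_lcm, Nat.lcm_self]
    rw [((Nat.coprime_primes hr Nat.prime_two).mpr hr2).lcm_eq_mul, mul_comm]

end Cfsg.Agent.S2467
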