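import Cfsg.Statements.S2471
import Cfsg.Agent.Helper12.PSL2
import Cfsg.Agent.Helper12.SL2Elliptic

set_option autoImplicit false
open Cfsg

namespace Cfsg.Agent.S2471

open Cfsg.Agent.Helper12

/-- In PSL(2,q) with q odd, the characteristic p is isolated from 2 in the prime graph: for F a finite field of odd characteristic p with at least 5 elements, PSL(2,F) has no element of order 2p. -/
theorem result {F : Type*} [Field F] [Fintype F] (p : ℕ) [Fact p.Prime] [CharP F p] (hp : p ≠ 2) (h5 : 5 ≤ Fintype.card F) (g : Matrix.ProjectiveSpecialLinearGroup (Fin 2) F) :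
    orderOf g ≠ 2 * p := by
  intro hord
  have hpp : p.Prime := Fact.out
  have hp2 : 2 ≤ p := hpp.two_le
  obtain ⟨G, rfl⟩ := QuotientGroup.mk_surjective g
  have h1 : (QuotientGroup.mk G : Matrix.ProjectiveSpecialLinearGroup (Fin 2) F) ^ (2 * p) = 1 := by
    rw [← hord]
    exact pow_orderOf_eq_one _
  rw [← QuotientGroup.mk_pow, QuotientGroup.eq_one_iff] at h1
  have h2 : G ^ (4 * p) = 1 := by
    rcases sl2_center_cases _ h1 with h | h
    · rw [show 4 * p = (2 * p) * 2 by ring, pow_mul, h, one_pow]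
    · rw [show 4 * p = (2 * p) * 2 by ring, pow_mul, h, pow_two, sl2NegOne_mul_self]
  have h3 : (G : Matrix (Fin 2) (Fin 2) F) ^ (4 * p) = 1 := by
    rw [← Matrix.SpecialLinearGroup.coe_pow, h2, Matrix.SpecialLinearGroup.coe_one]
  have hC := sl2_cayley G
  -- the key nilpotent element
  have hNp : ((G : Matrix (Fin 2) (Fin 2) F) ^ 4 - 1) ^ p = 0 := by
    rw [sub_pow_char_of_commute p (Commute.one_right _), ← pow_mul, h3, one_pow, sub_self]
  have htr : ((G : Matrix (Fin 2) (Fin 2) F) ^ 4 - 1).trace = 0 :=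
    (Matrix.isNilpotent_trace_of_isNilpotent ⟨p, hNp⟩).eq_zero
  -- contradiction helpers
  have hfin : ∀ n : ℕ, n ∣ p ∨ n ∣ 2 →
      (QuotientGroup.mk G : Matrix.ProjectiveSpecialLinearGroup (Fin 2) F) ^ n = 1 → False := by
    intro n hn hgn
    have hdvd := orderOf_dvd_of_pow_eq_one hgn
    rw [hord] at hdvd
    rcases hn with hn | hn
    · have : 2 * p ∣ p := hdvd.trans hn
      have := Nat.le_of_dvd hpp.pos this
      omega
    · have : 2 * p ∣ 2 := hdvd.trans hn
      have := Nat.le_of_dvd (by norm_num) this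
      omega
  obtain ⟨a, b, c, d, hG, hdet⟩ := sl2_eta G
  have ht : (G : Matrix (Fin 2) (Fin 2) F).trace = a + d := by
    rw [hG, Matrix.trace_fin_two_of]
  have key : (a + d) ^ 2 * ((a + d) ^ 2 - 4) = 0 := by
    rw [hG] at htr
    simp [pow_succ, Matrix.trace_fin_two, Matrix.mul_apply, Fin.sum_univ_two] at htr
    linear_combination htr + (4 * (a + d) ^ 2 - 2 * (a * d - b * c + 1)) * hdet
  rw [ht] at hC
  have hcases : a + d = 0 ∨ a + d = 2 ∨ a + d = -2 := by
    rcases mul_eq_zero.mp key with h | h
    · left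
      exact pow_eq_zero_iff (two_ne_zero) |>.mp h
    · right
      have : (a + d - 2) * (a + d + 2) = 0 := by linear_combination h
      rcases mul_eq_zero.mp this with h' | h'
      · left
        linear_combination h'
      · right
        linear_combination h'
  rcases hcases with h | h | h
  · -- trace zero: G² = -1
    apply hfin 2 (Or.inr dvd_rfl)
    rw [← QuotientGroup.mk_pow, QuotientGroup.eq_one_iff]
    have : G ^ 2 = sl2NegOne := by
      apply Subtype.ext
      rw [pow_two, Matrix.SpecialLinearGroup.coe_mul, hC, h, sl2NegOne, sl2mk_val]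
      ext i j
      fin_cases i <;> fin_cases j <;> simp
    rw [this]
    exact sl2NegOne_mem_center
  · -- trace 2: (G - 1)² = 0
    apply hfin p (Or.inl dvd_rfl)
    rw [← QuotientGroup.mk_pow, QuotientGroup.eq_one_iff]
    have hsq : ((G : Matrix (Fin 2) (Fin 2) F) - 1) ^ 2 = 0 := by
      rw [pow_two, sub_mul, mul_sub, mul_sub, hC, h]
      simp only [two_smul, mul_one, one_mul]
      abel
    have hpw : ((G : Matrix (Fin 2) (Fin 2) F) - 1) ^ p = 0 := pow_eq_zero_of_le hp2 hsq
    rw [sub_pow_char_of_commute p (Commute.one_right _), one_pow, sub_eq_zero] at hpw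
    have : G ^ p = 1 := by
      apply Subtype.ext
      rw [Matrix.SpecialLinearGroup.coe_pow, hpw, Matrix.SpecialLinearGroup.coe_one]
    rw [this]
    exact Subgroup.one_mem _
  · -- trace -2: (G + 1)² = 0
    apply hfin p (Or.inl dvd_rfl)
    rw [← QuotientGroup.mk_pow, QuotientGroup.eq_one_iff]
    have hsq : ((G : Matrix (Fin 2) (Fin 2) F) + 1) ^ 2 = 0 := by
      rw [pow_two, add_mul, mul_add, mul_add, hC, h]
      simp only [neg_smul, two_smul, mul_one, one_mul]
      abel
    have hpw : ((G : Matrix (Fin 2) (Fin 2) F) + 1) ^ p = 0 := pow_eq_zero_of_le hp2 hsq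
    rw [add_pow_char_of_commute p (Commute.one_right _), one_pow] at hpw
    have : G ^ p = sl2NegOne := by
      apply Subtype.ext
      rw [Matrix.SpecialLinearGroup.coe_pow, eq_neg_of_add_eq_zero_left hpw, sl2NegOne, sl2mk_val]
      ext i j
      fin_cases i <;> fin_cases j <;> simp
    rw [this]
    exact sl2NegOne_mem_center

end Cfsg.Agent.S2471
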