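import Cfsg.Statements.S2485
import Mathlib
-- import your own Cfsg.Agent.* helpers here

set_option autoImplicit false
open scoped Pointwise
open Cfsg

namespace Cfsg.Agent.S2485

variable {q : ℕ} [Fact q.Prime]

/-- rotation-type matrix -/
def rotM (a b : ZMod q) : Matrix (Fin 2) (Fin 2) (ZMod q) := !![a, -b; b, a]

/-- reflection-type matrix -/
def refM (a b : ZMod q) : Matrix (Fin 2) (Fin 2) (ZMod q) := !![a, b; b, -a]

theorem rot_mul_rot (a b c d : ZMod q) :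
    rotM a b * rotM c d = rotM (a * c - b * d) (a * d + b * c) := by
  ext i j; fin_cases i <;> fin_cases j <;> simp [rotM, Matrix.mul_apply, Fin.sum_univ_two] <;> ring

theorem rot_mul_ref (a b c d : ZMod q) :
    rotM a b * refM c d = refM (a * c - b * d) (a * d + b * c) := by
  ext i j; fin_cases i <;> fin_cases j <;>
    simp [rotM, refM, Matrix.mul_apply, Fin.sum_univ_two] <;> ring

theorem ref_mul_rot (a b c d : ZMod q) :
    refM a b * rotM c d = refM (a * c + b * d) (b * c - a * d) := by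
  ext i j; fin_cases i <;> fin_cases j <;>
    simp [rotM, refM, Matrix.mul_apply, Fin.sum_univ_two] <;> ring

theorem ref_mul_ref (a b c d : ZMod q) :
    refM a b * refM c d = rotM (a * c + b * d) (b * c - a * d) := by
  ext i j; fin_cases i <;> fin_cases j <;>
    simp [rotM, refM, Matrix.mul_apply, Fin.sum_univ_two] <;> ring

theorem rot_scalar (s : ZMod q) : rotM s 0 = s • (1 : Matrix (Fin 2) (Fin 2) (ZMod q)) := by
  ext i j; fin_cases i <;> fin_cases j <;> simp [rotM]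

theorem rot_decomp (a b : ZMod q) :
    rotM a b = a • (1 : Matrix (Fin 2) (Fin 2) (ZMod q)) + b • rotM 0 1 := by
  ext i j; fin_cases i <;> fin_cases j <;> simp [rotM]

theorem rot_pow_q (hq4 : q % 4 = 3) (a b : ZMod q) : rotM a b ^ q = rotM a (-b) := by
  have hJ2 : (rotM (0 : ZMod q) 1) ^ 2 = -1 := by
    rw [sq, rot_mul_rot]
    ext i j; fin_cases i <;> fin_cases j <;> simp [rotM]
  have hJq : (rotM (0 : ZMod q) 1) ^ q = -rotM (0 : ZMod q) 1 := by
    obtain ⟨m, hm⟩ : ∃ m, q = 2 * (2 * m + 1) + 1 := ⟨q / 4, by omega⟩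
    calc (rotM (0 : ZMod q) 1) ^ q = (rotM (0 : ZMod q) 1) ^ (2 * (2 * m + 1) + 1) :=
          congrArg (fun n => (rotM (0 : ZMod q) 1) ^ n) hm
      _ = -rotM (0 : ZMod q) 1 := by
          rw [pow_succ, pow_mul, hJ2, Odd.neg_one_pow ⟨m, rfl⟩, neg_one_mul]
  have hc : Commute (a • (1 : Matrix (Fin 2) (Fin 2) (ZMod q))) (b • rotM 0 1) :=
    ((Commute.one_left _).smul_left a).smul_right b
  rw [rot_decomp a b, add_pow_char_of_commute q hc, smul_pow, smul_pow, one_pow, ZMod.pow_card,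
    ZMod.pow_card, hJq, rot_decomp a (-b)]
  simp

theorem rot_pow_succ (hq4 : q % 4 = 3) (a b : ZMod q) :
    rotM a b ^ (q + 1) = (a ^ 2 + b ^ 2) • (1 : Matrix (Fin 2) (Fin 2) (ZMod q)) := by
  rw [pow_succ, rot_pow_q hq4, rot_mul_rot, ← rot_scalar]
  congr 1 <;> ring

theorem ref_sq (a b : ZMod q) :
    refM a b ^ 2 = (a ^ 2 + b ^ 2) • (1 : Matrix (Fin 2) (Fin 2) (ZMod q)) := by
  rw [sq, ref_mul_ref, ← rot_scalar]
  congr 1 <;> ring

/-- the monoid of rotation-type and reflection-type invertible matrices -/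
def DtM (q : ℕ) [Fact q.Prime] : Submonoid (GL (Fin 2) (ZMod q)) where
  carrier := {g | ∃ a b : ZMod q, (g : Matrix (Fin 2) (Fin 2) (ZMod q)) = rotM a b ∨
    (g : Matrix (Fin 2) (Fin 2) (ZMod q)) = refM a b}
  mul_mem' := by
    rintro g h ⟨a, b, hg⟩ ⟨c, d, hh⟩
    rcases hg with hg | hg <;> rcases hh with hh | hh
    · exact ⟨_, _, Or.inl (by rw [Units.val_mul, hg, hh, rot_mul_rot])⟩
    · exact ⟨_, _, Or.inr (by rw [Units.val_mul, hg, hh, rot_mul_ref])⟩
    · exact ⟨_, _, Or.inr (by rw [Units.val_mul, hg, hh, ref_mul_rot])⟩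
    · exact ⟨_, _, Or.inl (by rw [Units.val_mul, hg, hh, ref_mul_ref])⟩
  one_mem' := ⟨1, 0, Or.inl (by rw [rot_scalar, one_smul]; rfl)⟩

/-- the group of rotation-type and reflection-type invertible matrices -/
def Dt (q : ℕ) [Fact q.Prime] : Subgroup (GL (Fin 2) (ZMod q)) :=
  { DtM q with
    inv_mem' := by
      intro g hg
      have h1 : g⁻¹ = g ^ (orderOf g - 1) := by
        apply inv_eq_of_mul_eq_one_right
        rw [← pow_succ', Nat.sub_add_cancel (orderOf_pos g), pow_orderOf_eq_one]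
      rw [h1]
      exact (DtM q).pow_mem hg _ }

theorem mem_Dt (g : GL (Fin 2) (ZMod q)) : g ∈ Dt q ↔
    ∃ a b : ZMod q, (g : Matrix (Fin 2) (Fin 2) (ZMod q)) = rotM a b ∨
      (g : Matrix (Fin 2) (Fin 2) (ZMod q)) = refM a b := Iff.rfl

theorem scalar_mem_center (h : GL (Fin 2) (ZMod q)) (s : ZMod q)
    (hs : (h : Matrix (Fin 2) (Fin 2) (ZMod q)) = s • 1) :
    h ∈ Subgroup.center (GL (Fin 2) (ZMod q)) := by
  rw [Subgroup.mem_center_iff]
  intro y
  apply Units.ext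
  rw [Units.val_mul, Units.val_mul, hs, Matrix.mul_smul, Matrix.smul_mul, mul_one, one_mul]

theorem pow_scalar (hq4 : q % 4 = 3) (g : GL (Fin 2) (ZMod q)) (hg : g ∈ Dt q) :
    ∃ s : ZMod q, ((g ^ (q + 1) : GL (Fin 2) (ZMod q)) : Matrix (Fin 2) (Fin 2) (ZMod q)) = s • 1 := by
  obtain ⟨a, b, h | h⟩ := (mem_Dt g).mp hg
  · exact ⟨a ^ 2 + b ^ 2, by rw [Units.val_pow_eq_pow_val, h, rot_pow_succ hq4]⟩
  · obtain ⟨m, hm⟩ : ∃ m, q + 1 = 2 * m := ⟨(q + 1) / 2, by omega⟩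
    refine ⟨(a ^ 2 + b ^ 2) ^ m, ?_⟩
    rw [Units.val_pow_eq_pow_val, h, hm, pow_mul, ref_sq, smul_pow, one_pow]

theorem isPGroup_D {k : ℕ} (hk : q + 1 = 2 ^ k) (hq4 : q % 4 = 3) :
    IsPGroup 2 ((Dt q).map (QuotientGroup.mk' (Subgroup.center (GL (Fin 2) (ZMod q))))) := by
  rintro ⟨z, g, hg, rfl⟩
  refine ⟨k, ?_⟩
  apply Subtype.ext
  show (QuotientGroup.mk' (Subgroup.center (GL (Fin 2) (ZMod q))) g) ^ 2 ^ k = 1
  rw [← map_pow, ← hk]
  obtain ⟨s, hs⟩ := pow_scalar hq4 g hg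
  exact (QuotientGroup.eq_one_iff _).mpr (scalar_mem_center _ s hs)

theorem sq_add_sq_eq_zero (hq4 : q % 4 = 3) (a b : ZMod q) (h : a ^ 2 + b ^ 2 = 0) :
    a = 0 ∧ b = 0 := by
  by_cases hb : b = 0
  · subst hb
    simp at h
    exact ⟨h, rfl⟩
  · exfalso
    have h1 : IsSquare (-1 : ZMod q) :=
      ⟨a / b, by rw [div_mul_div_comm, eq_div_iff (mul_ne_zero hb hb)]; linear_combination -h⟩
    rw [ZMod.exists_sq_eq_neg_one_iff] at h1
    exact h1 hq4

theorem ref_det (a b : ZMod q) : (refM a b).det = -(a ^ 2 + b ^ 2) := by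
  rw [refM, Matrix.det_fin_two_of]; ring

theorem ref_linear (a b : ZMod q) : refM a b = a • refM 1 0 + b • refM 0 1 := by
  ext i j; fin_cases i <;> fin_cases j <;> simp [refM]

theorem eq_ref_of (N : Matrix (Fin 2) (Fin 2) (ZMod q)) (ht : N.trace = 0) (hs : N 0 1 = N 1 0) :
    N = refM (N 0 0) (N 0 1) := by
  rw [Matrix.trace_fin_two] at ht
  ext i j; fin_cases i <;> fin_cases j
  · simp [refM]
  · simp [refM]
  · simp [refM, hs]
  · simp only [refM, Fin.mk_one, Fin.isValue, Matrix.of_apply, Matrix.cons_val', Matrix.cons_val_one,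
      Matrix.cons_val_fin_one]
    linear_combination ht

/-- the linear functional cutting out the reflections inside the trace-zero matrices -/
def fdiff (Yi Ym : Matrix (Fin 2) (Fin 2) (ZMod q)) (a b : ZMod q) : ZMod q :=
  (Yi * refM a b * Ym : Matrix (Fin 2) (Fin 2) (ZMod q)) 0 1 -
    (Yi * refM a b * Ym : Matrix (Fin 2) (Fin 2) (ZMod q)) 1 0

theorem inter_lemma (hq4 : q % 4 = 3) (h2 : (2 : ZMod q) ≠ 0) (Y : GL (Fin 2) (ZMod q)) :
    ∃ M N : GL (Fin 2) (ZMod q), M ∈ Dt q ∧ N ∈ Dt q ∧ M = Y * N * Y⁻¹ ∧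
      M ∉ Subgroup.center (GL (Fin 2) (ZMod q)) := by
  set Yi : Matrix (Fin 2) (Fin 2) (ZMod q) := ((Y⁻¹ : GL (Fin 2) (ZMod q)) :
    Matrix (Fin 2) (Fin 2) (ZMod q)) with hYi
  set Ym : Matrix (Fin 2) (Fin 2) (ZMod q) := (Y : Matrix (Fin 2) (Fin 2) (ZMod q)) with hYm
  set α : ZMod q := fdiff Yi Ym 1 0 with hα
  set β : ZMod q := fdiff Yi Ym 0 1 with hβ
  have hlin : ∀ a b : ZMod q,
      (Yi * refM a b * Ym) 0 1 - (Yi * refM a b * Ym) 1 0 = a * α + b * β := by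
    intro a b
    rw [ref_linear a b, Matrix.mul_add, Matrix.add_mul, Matrix.mul_smul, Matrix.mul_smul,
      Matrix.smul_mul, Matrix.smul_mul, hα, hβ, fdiff, fdiff]
    simp only [Matrix.add_apply, Matrix.smul_apply, smul_eq_mul]
    ring
  obtain ⟨a, b, hab, hzero⟩ : ∃ a b : ZMod q, ¬ (a = 0 ∧ b = 0) ∧ a * α + b * β = 0 := by
    by_cases h0 : α = 0 ∧ β = 0
    · exact ⟨1, 0, fun h => one_ne_zero h.1, by rw [h0.1, h0.2]; ring⟩
    · exact ⟨β, -α, fun h => h0 ⟨neg_eq_zero.mp h.2, h.1⟩, by ring⟩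
  have hdet : (refM a b).det ≠ 0 := by
    rw [ref_det, neg_ne_zero]
    exact fun h => hab (sq_add_sq_eq_zero hq4 a b h)
  set M : GL (Fin 2) (ZMod q) := Matrix.GeneralLinearGroup.mkOfDetNeZero (refM a b) hdet with hM
  have hMv : (M : Matrix (Fin 2) (Fin 2) (ZMod q)) = refM a b := rfl
  have hNv : ((Y⁻¹ * M * Y : GL (Fin 2) (ZMod q)) : Matrix (Fin 2) (Fin 2) (ZMod q)) =
      Yi * refM a b * Ym := by
    rw [Units.val_mul, Units.val_mul, hMv]
  refine ⟨M, Y⁻¹ * M * Y, (mem_Dt M).mpr ⟨a, b, Or.inr hMv⟩, ?_, by group, ?_⟩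
  · refine (mem_Dt _).mpr ⟨(Yi * refM a b * Ym) 0 0, (Yi * refM a b * Ym) 0 1, Or.inr ?_⟩
    rw [hNv]
    apply eq_ref_of
    · rw [Matrix.trace_mul_cycle, hYm, hYi, ← Units.val_mul, mul_inv_cancel, Units.val_one,
        one_mul, refM, Matrix.trace_fin_two_of, add_neg_cancel]
    · have := hlin a b
      rw [hzero] at this
      exact sub_eq_zero.mp this
  · intro hc
    rw [Subgroup.mem_center_iff] at hc
    have hU : (!![1, 1; 0, 1] : Matrix (Fin 2) (Fin 2) (ZMod q)).det ≠ 0 := by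
      rw [Matrix.det_fin_two_of]; simp
    have h3 := congrArg (fun g : GL (Fin 2) (ZMod q) => (g : Matrix (Fin 2) (Fin 2) (ZMod q)))
      (hc (Matrix.GeneralLinearGroup.mkOfDetNeZero _ hU))
    simp only [Units.val_mul] at h3
    rw [hMv] at h3
    have hUv : ((Matrix.GeneralLinearGroup.mkOfDetNeZero _ hU : GL (Fin 2) (ZMod q)) :
        Matrix (Fin 2) (Fin 2) (ZMod q)) = !![1, 1; 0, 1] := rfl
    rw [hUv] at h3
    have e00 := congrFun (congrFun h3 0) 0
    have e01 := congrFun (congrFun h3 0) 1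
    simp [refM, Matrix.mul_apply, Fin.sum_univ_two] at e00 e01
    -- e00 : b = 0 ; e01 : relation giving 2a = 0
    have hb : b = 0 := e00
    have ha : a = 0 := by
      have h4 : (2 : ZMod q) * a = 0 := by
        first
          | linear_combination e01 - hb
          | linear_combination -e01 + hb
          | linear_combination e01 + hb
          | linear_combination -e01 - hb
          | linear_combination e01
          | linear_combination -e01
      rcases mul_eq_zero.mp h4 with h5 | h5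
      · exact absurd h5 h2
      · exact h5
    exact hab ⟨ha, hb⟩

/-- Let q = 2^k − 1 ≥ 7 be a prime and let G = PGL(2,q), the general linear group of degree 2 over the field with q elements modulo its centre. Then any two Sylow 2-subgroups of G have a non-trivial intersection: for a Sylow 2-subgroup H and every x ∈ G, H ∩ H^x ≠ 1. -/
theorem result {q k : ℕ} [Fact q.Prime] (hk : q + 1 = 2 ^ k) (hq : 7 ≤ q)
    (H : Sylow 2 (GL (Fin 2) (ZMod q) ⧸ Subgroup.center (GL (Fin 2) (ZMod q))))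
    (x : GL (Fin 2) (ZMod q) ⧸ Subgroup.center (GL (Fin 2) (ZMod q))) :
    (H : Subgroup (GL (Fin 2) (ZMod q) ⧸ Subgroup.center (GL (Fin 2) (ZMod q)))) ⊓ MulAut.conj x • (H : Subgroup _) ≠ ⊥ := by
  have hqp : q.Prime := Fact.out
  have hk3 : 2 ≤ k := by
    by_contra hlt
    have : k = 0 ∨ k = 1 := by omega
    rcases this with rfl | rfl <;> simp at hk <;> omega
  have hq4 : q % 4 = 3 := by
    obtain ⟨j, rfl⟩ : ∃ j, k = j + 2 := ⟨k - 2, by omega⟩
    rw [pow_add] at hk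
    generalize 2 ^ j = m at hk
    omega
  have h2 : (2 : ZMod q) ≠ 0 := by
    intro h
    have h3 : ((2 : ℕ) : ZMod q) = 0 := by exact_mod_cast h
    rw [ZMod.natCast_eq_zero_iff] at h3
    have := Nat.le_of_dvd (by norm_num) h3
    omega
  obtain ⟨S₁, hS₁⟩ := (isPGroup_D hk hq4).exists_le_sylow
  obtain ⟨g, hg⟩ := MulAction.exists_smul_eq
    (GL (Fin 2) (ZMod q) ⧸ Subgroup.center (GL (Fin 2) (ZMod q))) S₁ H
  have hH : (H : Subgroup (GL (Fin 2) (ZMod q) ⧸ Subgroup.center (GL (Fin 2) (ZMod q)))) =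
      MulAut.conj g • (S₁ : Subgroup (GL (Fin 2) (ZMod q) ⧸ Subgroup.center (GL (Fin 2) (ZMod q)))) := by
    rw [← hg]; rfl
  obtain ⟨Y, hY⟩ := QuotientGroup.mk_surjective (s := Subgroup.center (GL (Fin 2) (ZMod q)))
    (g⁻¹ * x * g)
  obtain ⟨M, N, hM, hN, hMN, hMc⟩ := inter_lemma hq4 h2 Y
  have hπM : (QuotientGroup.mk' (Subgroup.center (GL (Fin 2) (ZMod q)))) M ∈
      (S₁ : Subgroup (GL (Fin 2) (ZMod q) ⧸ Subgroup.center (GL (Fin 2) (ZMod q)))) :=
    hS₁ ⟨M, hM, rfl⟩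
  have hπN : (QuotientGroup.mk' (Subgroup.center (GL (Fin 2) (ZMod q)))) N ∈
      (S₁ : Subgroup (GL (Fin 2) (ZMod q) ⧸ Subgroup.center (GL (Fin 2) (ZMod q)))) :=
    hS₁ ⟨N, hN, rfl⟩
  have hrel : (QuotientGroup.mk' (Subgroup.center (GL (Fin 2) (ZMod q)))) M =
      (g⁻¹ * x * g) * (QuotientGroup.mk' (Subgroup.center (GL (Fin 2) (ZMod q)))) N *
        (g⁻¹ * x * g)⁻¹ := by
    rw [hMN, map_mul, map_mul, map_inv]
    have hY' : (QuotientGroup.mk' (Subgroup.center (GL (Fin 2) (ZMod q)))) Y = g⁻¹ * x * g := hY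
    rw [hY']
  intro hbot
  have hz : g * (QuotientGroup.mk' (Subgroup.center (GL (Fin 2) (ZMod q)))) M * g⁻¹ ∈
      (H : Subgroup (GL (Fin 2) (ZMod q) ⧸ Subgroup.center (GL (Fin 2) (ZMod q)))) ⊓
        MulAut.conj x • (H : Subgroup (GL (Fin 2) (ZMod q) ⧸ Subgroup.center (GL (Fin 2) (ZMod q)))) := by
    refine ⟨?_, ?_⟩
    · rw [hH]
      exact (Subgroup.mem_smul_pointwise_iff_exists _ _ _).mpr ⟨_, hπM, rfl⟩
    · refine (Subgroup.mem_smul_pointwise_iff_exists _ _ _).mpr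
        ⟨g * (QuotientGroup.mk' (Subgroup.center (GL (Fin 2) (ZMod q)))) N * g⁻¹, ?_, ?_⟩
      · rw [hH]
        exact (Subgroup.mem_smul_pointwise_iff_exists _ _ _).mpr ⟨_, hπN, rfl⟩
      · show x * (g * (QuotientGroup.mk' (Subgroup.center (GL (Fin 2) (ZMod q)))) N * g⁻¹) * x⁻¹ =
          g * (QuotientGroup.mk' (Subgroup.center (GL (Fin 2) (ZMod q)))) M * g⁻¹
        rw [hrel]
        group
  rw [hbot, Subgroup.mem_bot] at hz
  have hM1 : (QuotientGroup.mk' (Subgroup.center (GL (Fin 2) (ZMod q)))) M = 1 := by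
    have : (QuotientGroup.mk' (Subgroup.center (GL (Fin 2) (ZMod q)))) M =
        g⁻¹ * (g * (QuotientGroup.mk' (Subgroup.center (GL (Fin 2) (ZMod q)))) M * g⁻¹) * g := by
      group
    rw [this, hz]; group
  exact hMc ((QuotientGroup.eq_one_iff M).mp hM1)

end Cfsg.Agent.S2485
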