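import Cfsg.Statements.S2486
import Cfsg.Agent.Helper1.S2486b
import Cfsg.Agent.Helper12.S2486k
import Cfsg.Agent.Helper12.S2486c
import Cfsg.Agent.Helper12.S2486a

set_option autoImplicit false
open scoped Pointwise
open Cfsg

namespace Cfsg.Agent.S2486

/-- Let n ≥ 4 and let G be a finite group with a normal subgroup N of index 2 isomorphic to SL(n,2) and with trivial centralizer in G (so G is the extension of the simple group L_n(2) by its inverse-transpose automorphism, its full automorphism group). Then any two Sylow 2-subgroups of G have a non-trivial intersection: for a Sylow 2-subgroup H and every x ∈ G, H ∩ H^x ≠ 1. -/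
theorem result {G : Type*} [Group G] [Finite G] {n : ℕ} (hn : 4 ≤ n) (N : Subgroup G) [N.Normal]
    (e : N ≃* Matrix.SpecialLinearGroup (Fin n) (ZMod 2)) (hidx : N.index = 2)
    (hC : Subgroup.centralizer (N : Set G) = ⊥)
    (H : Sylow 2 G) (x : G) :
    (H : Subgroup G) ⊓ MulAut.conj x • (H : Subgroup G) ≠ ⊥ := by
  have key1 : ∃ T : Sylow 2 (Matrix.SpecialLinearGroup (Fin n) (ZMod 2)),
      ∃ w : Matrix.SpecialLinearGroup (Fin n) (ZMod 2),
        ∀ g : Matrix.SpecialLinearGroup (Fin n) (ZMod 2),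
          (∀ y ∈ T, g⁻¹ * y * g ∈ T → y = 1) → ∃ u ∈ T, ∃ u' ∈ T, g = u * w * u' := by
    obtain ⟨w, hw⟩ := Cfsg.Agent.Helper12.S2486k.key0 n (Cfsg.Agent.Helper1.S2486b.bruhat n)
      (Cfsg.Agent.Helper12.S2486c.nonopp n)
    obtain ⟨T₀, hT₀, hp⟩ := Cfsg.Agent.Helper12.S2486c.ut_pgroup n
    obtain ⟨T, hT⟩ := hp.exists_le_sylow
    refine ⟨T, w, fun g hg => ?_⟩
    obtain ⟨u, u', hu, hu', h⟩ := hw g (fun y hy hy' =>
      hg y (hT ((hT₀ y).mpr hy)) (hT ((hT₀ _).mpr hy')))
    exact ⟨u, hT ((hT₀ u).mpr hu), u', hT ((hT₀ u').mpr hu'), h⟩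
  exact Cfsg.Agent.Helper12.S2486a.abs N hidx e key1 H x

end Cfsg.Agent.S2486
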