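import Mathlib
import Cfsg.Statements.S2488

set_option autoImplicit false
set_option maxRecDepth 1000000
open scoped Pointwise
open Cfsg

namespace Cfsg.Agent.S2488

/-- the reference involution of `A₆` -/
def z0 : Equiv.Perm (Fin 6) := Equiv.swap 0 1 * Equiv.swap 2 3

theorem b1 : (Finset.univ.filter fun g : Equiv.Perm (Fin 6) =>
    Equiv.Perm.sign g = 1 ∧ g * z0 = z0 * g).card ≤ 8 := by decide +kernel

theorem b2 : (Finset.univ.filter fun v : Equiv.Perm (Fin 6) =>
    v * v = 1 ∧ v ≠ 1 ∧ (z0 * v) ^ 3 = 1).card ≤ 31 := by decide +kernel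

theorem b3 : (Finset.univ.filter fun v : Equiv.Perm (Fin 6) =>
    Equiv.Perm.sign v = 1 ∧ v * v = 1 ∧ v ≠ 1 ∧ (z0 * v) ^ 3 ≠ 1).card ≤ 31 := by decide +kernel

theorem z0_props : z0 * z0 = 1 ∧ z0 ≠ 1 ∧ Equiv.Perm.sign z0 = 1 := by decide +kernel

/-- an even involution on six points has cycle type `{2, 2}` -/
theorem cycleType_inv (σ : Equiv.Perm (Fin 6)) (h2 : σ * σ = 1) (h1 : σ ≠ 1)
    (hs : Equiv.Perm.sign σ = 1) : σ.cycleType = {2, 2} := by
  have ho : orderOf σ = 2 := orderOf_eq_prime (by rw [pow_two]; exact h2) h1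
  obtain ⟨n, hn⟩ := Equiv.Perm.cycleType_prime_order (σ := σ) (by rw [ho]; exact Nat.prime_two)
  rw [ho] at hn
  have hsum : σ.cycleType.sum ≤ 6 := by
    have := Equiv.Perm.sum_cycleType_le σ
    simpa using this
  rw [hn, Multiset.sum_replicate, smul_eq_mul] at hsum
  have hsg := Equiv.Perm.sign_of_cycleType σ
  rw [hs, hn, Multiset.sum_replicate, Multiset.card_replicate, smul_eq_mul] at hsg
  have hn2 : n ≤ 2 := by omega
  interval_cases n
  · exfalso
    revert hsg
    decide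
  · rw [hn]
    rfl
  · exfalso
    revert hsg
    decide

/-- even involutions on six points are conjugate under the alternating group -/
theorem exists_even_conj (a : Equiv.Perm (Fin 6)) (h2 : a * a = 1) (h1 : a ≠ 1)
    (hs : Equiv.Perm.sign a = 1) :
    ∃ c : Equiv.Perm (Fin 6), Equiv.Perm.sign c = 1 ∧ c * a * c⁻¹ = z0 := by
  have hz := z0_props
  have hct : a.cycleType = z0.cycleType := by
    rw [cycleType_inv a h2 h1 hs, cycleType_inv z0 hz.1 hz.2.1 hz.2.2]
  obtain ⟨c, hc⟩ := isConj_iff.1 (Equiv.Perm.isConj_iff_cycleType_eq.2 hct)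
  by_cases hsc : Equiv.Perm.sign c = 1
  · exact ⟨c, hsc, hc⟩
  · obtain ⟨i, hi⟩ : ∃ i, a i ≠ i := by
      by_contra hcon
      exact h1 (Equiv.ext fun j => by
        by_contra hj
        exact hcon ⟨j, hj⟩)
    have haa : a (a i) = i := by
      have := congrArg (fun f : Equiv.Perm (Fin 6) => f i) h2
      simpa using this
    have ht : a * Equiv.swap i (a i) * a⁻¹ = Equiv.swap i (a i) := by
      rw [← Equiv.swap_apply_apply, haa, Equiv.swap_comm]
    have ht1 : a * Equiv.swap i (a i) = Equiv.swap i (a i) * a := by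
      calc a * Equiv.swap i (a i) = a * Equiv.swap i (a i) * a⁻¹ * a := by group
        _ = Equiv.swap i (a i) * a := by rw [ht]
    have ht2 : Equiv.swap i (a i) * a * (Equiv.swap i (a i))⁻¹ = a := by
      rw [← ht1]
      group
    refine ⟨c * Equiv.swap i (a i), ?_, ?_⟩
    · rw [map_mul, Equiv.Perm.sign_swap (Ne.symm hi)]
      rcases Int.units_eq_one_or (Equiv.Perm.sign c) with h | h
      · exact absurd h hsc
      · rw [h]
        rfl
    · calc c * Equiv.swap i (a i) * a * (c * Equiv.swap i (a i))⁻¹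
          = c * (Equiv.swap i (a i) * a * (Equiv.swap i (a i))⁻¹) * c⁻¹ := by group
        _ = z0 := by rw [ht2, hc]

/-- a nontrivial normal subgroup of a finite `p`-group contains a nontrivial central element -/
theorem exists_central {Q : Type*} [Group Q] [Finite Q] {p : ℕ} [Fact p.Prime]
    (hQ : IsPGroup p Q) (M : Subgroup Q) [M.Normal] (hM : M ≠ ⊥) :
    ∃ z ∈ M, z ∈ Subgroup.center Q ∧ z ≠ 1 := by
  have hQ' : IsPGroup p (ConjAct Q) := hQ.of_equiv ConjAct.toConjAct
  have : Nontrivial M := (Subgroup.nontrivial_iff_ne_bot M).2 hM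
  obtain ⟨n, hn, hcard⟩ := (hQ.to_subgroup M).nontrivial_iff_card.1 inferInstance
  have hdvd : p ∣ Nat.card M := by rw [hcard]; exact dvd_pow_self p hn.ne'
  have h1 : (1 : M) ∈ MulAction.fixedPoints (ConjAct Q) M := fun g => smul_one g
  obtain ⟨b, hb, hne⟩ := hQ'.exists_fixed_point_of_prime_dvd_card_of_fixed_point M hdvd h1
  refine ⟨b, b.2, ?_, fun h => hne (Subtype.ext h.symm)⟩
  rw [Subgroup.mem_center_iff]
  intro g
  have h2 := hb (ConjAct.toConjAct g)
  have h3 := congrArg Subtype.val h2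
  rw [ConjAct.Subgroup.val_conj_smul, ConjAct.smul_def, ConjAct.ofConjAct_toConjAct] at h3
  calc g * b = g * b * g⁻¹ * g := by group
    _ = b * g := by rw [h3]

/-- a central involution of a Sylow `2`-subgroup inside a normal subgroup of small index -/
theorem exists_central_inv {G : Type*} [Group G] [Finite G] (N : Subgroup G) [N.Normal]
    (H : Subgroup G) (hp : IsPGroup 2 H) (hHN : H ⊓ N ≠ ⊥) :
    ∃ z : G, z ∈ H ∧ z ∈ N ∧ (∀ h ∈ H, h * z = z * h) ∧ z * z = 1 ∧ z ≠ 1 := by
  have hM : N.subgroupOf H ≠ ⊥ := by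
    intro h0
    apply hHN
    rw [eq_bot_iff]
    intro g hg
    have : (⟨g, hg.1⟩ : H) ∈ N.subgroupOf H := Subgroup.mem_subgroupOf.2 hg.2
    rw [h0, Subgroup.mem_bot] at this
    exact Subgroup.mem_bot.2 (congrArg Subtype.val this)
  obtain ⟨z1, hz1M, hz1c, hz1ne⟩ := exists_central hp (N.subgroupOf H) hM
  obtain ⟨k, hk⟩ := hp z1
  -- order of z1 is a power of 2
  have hord : orderOf z1 ∣ 2 ^ k := orderOf_dvd_of_pow_eq_one hk
  obtain ⟨j, hjk, hj⟩ := (Nat.dvd_prime_pow Nat.prime_two).1 hord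
  have hj0 : j ≠ 0 := by
    intro h
    rw [h, pow_zero, orderOf_eq_one_iff] at hj
    exact hz1ne hj
  obtain ⟨m, rfl⟩ : ∃ m, j = m + 1 := ⟨j - 1, by omega⟩
  have ho : orderOf (z1 ^ 2 ^ m) = 2 := by
    have hd : 2 ^ m ∣ orderOf z1 := by
      rw [hj]
      exact pow_dvd_pow 2 (Nat.le_succ m)
    rw [orderOf_pow_of_dvd (x := z1) (n := 2 ^ m) (pow_ne_zero _ two_ne_zero) hd, hj,
      pow_succ, Nat.mul_div_cancel_left _ (pow_pos two_pos m)]
  refine ⟨((z1 ^ 2 ^ m : H) : G), (z1 ^ 2 ^ m).2, ?_, ?_, ?_, ?_⟩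
  · exact Subgroup.mem_subgroupOf.1 (pow_mem hz1M _)
  · intro h hh
    have hc : z1 ^ 2 ^ m ∈ Subgroup.center H := pow_mem hz1c _
    have := (Subgroup.mem_center_iff.1 hc) ⟨h, hh⟩
    exact congrArg Subtype.val this
  · have h2 : (z1 ^ 2 ^ m) ^ 2 = 1 := by
      have h3 := pow_orderOf_eq_one (z1 ^ 2 ^ m)
      rw [ho] at h3
      exact h3
    have := congrArg Subtype.val h2
    rw [pow_two] at this
    exact this
  · intro h
    have h1 : z1 ^ 2 ^ m = 1 := Subtype.ext h
    rw [h1, orderOf_one] at ho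
    exact absurd ho (by norm_num)

/-- Let G be a finite group with a normal subgroup N of index 4 isomorphic to the alternating group of degree 6 and with trivial centralizer in G (so G is the full automorphism group of A₆). Then any two Sylow 2-subgroups of G have a non-trivial intersection: for a Sylow 2-subgroup H and every x ∈ G, H ∩ H^x ≠ 1. -/
theorem result {G : Type*} [Group G] [Finite G] (N : Subgroup G) [N.Normal]
    (e : N ≃* alternatingGroup (Fin 6)) (hidx : N.index = 4)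
    (hC : Subgroup.centralizer (N : Set G) = ⊥)
    (H : Sylow 2 G) (x : G) :
    (H : Subgroup G) ⊓ MulAut.conj x • (H : Subgroup G) ≠ ⊥ := by
  classical
  -- cardinalities
  have hN : Nat.card N = 360 := by
    rw [Nat.card_congr e.toEquiv, nat_card_alternatingGroup]
    simp
    rfl
  have hG : Nat.card G = 1440 := by rw [← N.card_mul_index, hN, hidx]
  have hH : Nat.card (H : Subgroup G) = 32 := by
    have h1 := H.card_eq_multiplicity
    rw [hG] at h1
    have h2 : (1440 : ℕ).factorization 2 = 5 := by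
      have e1 : (1440 : ℕ) = 2 ^ 5 * 45 := by norm_num
      rw [e1, Nat.factorization_mul (by norm_num) (by norm_num),
        Nat.Prime.factorization_pow Nat.prime_two]
      simp [Nat.factorization_eq_zero_of_not_dvd (show ¬ 2 ∣ 45 by norm_num)]
    rw [h1, h2]
    norm_num
  have hp : IsPGroup 2 (H : Subgroup G) := H.isPGroup'
  have hHN : (H : Subgroup G) ⊓ N ≠ ⊥ := by
    intro h0
    have hinj : Function.Injective
        (fun h : (H : Subgroup G) => (QuotientGroup.mk' N) (h : G)) := by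
      intro a b hab
      have h1 : (a : G)⁻¹ * (b : G) ∈ N := QuotientGroup.eq.1 hab
      have h2 : (a : G)⁻¹ * (b : G) ∈ (H : Subgroup G) ⊓ N :=
        Subgroup.mem_inf.2 ⟨mul_mem (inv_mem a.2) b.2, h1⟩
      rw [h0, Subgroup.mem_bot] at h2
      exact Subtype.ext (inv_mul_eq_one.1 h2)
    have h3 := Nat.card_le_card_of_injective _ hinj
    rw [hH] at h3
    have h4 : Nat.card (G ⧸ N) = 4 := hidx
    omega
  obtain ⟨z, hzH, hzN, hzc, hz2, hz1⟩ := exists_central_inv N (H : Subgroup G) hp hHN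
  -- the comparison map to the symmetric group
  obtain ⟨a, ha⟩ : ∃ a : Equiv.Perm (Fin 6),
      a = ((e ⟨z, hzN⟩ : alternatingGroup (Fin 6)) : Equiv.Perm (Fin 6)) := ⟨_, rfl⟩
  have ha2 : a * a = 1 := by
    have h1 : (⟨z, hzN⟩ : N) * ⟨z, hzN⟩ = 1 := Subtype.ext hz2
    have h := congrArg (fun y => ((e y : alternatingGroup (Fin 6)) : Equiv.Perm (Fin 6))) h1
    simp only [map_mul, map_one] at h
    rw [ha]
    exact h
  have ha1 : a ≠ 1 := by
    intro h
    rw [ha] at h
    have h1 : e ⟨z, hzN⟩ = 1 := Subtype.ext h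
    have h2 := e.injective (h1.trans (map_one e).symm)
    exact hz1 (congrArg Subtype.val h2)
  have has : Equiv.Perm.sign a = 1 := by
    rw [ha]
    exact Equiv.Perm.mem_alternatingGroup.1 (e ⟨z, hzN⟩).2
  obtain ⟨c, hc1, hc2⟩ := exists_even_conj a ha2 ha1 has
  obtain ⟨ψ, hψ⟩ : ∃ ψ : N →* Equiv.Perm (Fin 6), ∀ y : N,
      ψ y = c * ((e y : alternatingGroup (Fin 6)) : Equiv.Perm (Fin 6)) * c⁻¹ :=
    ⟨((MulAut.conj c).toMonoidHom.comp (alternatingGroup (Fin 6)).subtype).comp e.toMonoidHom,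
      fun y => rfl⟩
  have hψinj : Function.Injective ψ := by
    intro y1 y2 h
    rw [hψ, hψ] at h
    have h2 : ((e y1 : alternatingGroup (Fin 6)) : Equiv.Perm (Fin 6)) =
        (e y2 : alternatingGroup (Fin 6)) := by
      have h3 := congrArg (fun t => c⁻¹ * t * c) h
      simpa [mul_assoc] using h3
    exact e.injective (Subtype.ext h2)
  have hψz : ψ ⟨z, hzN⟩ = z0 := by
    rw [hψ, ← ha]
    exact hc2
  have hψs : ∀ y : N, Equiv.Perm.sign (ψ y) = 1 := by
    intro y
    rw [hψ, map_mul, map_mul, map_inv, Equiv.Perm.mem_alternatingGroup.1 (e y).2, hc1]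
    simp
  -- the centralizer of z is H
  have hHC : (H : Subgroup G) ≤ Subgroup.centralizer {z} := by
    intro h hh
    rw [Subgroup.mem_centralizer_singleton_iff]
    exact hzc h hh
  have hCN : Nat.card ↥(Subgroup.centralizer ({z} : Set G) ⊓ N) ≤ 8 := by
    have hmem : ∀ y : ↥(Subgroup.centralizer ({z} : Set G) ⊓ N),
        Equiv.Perm.sign (ψ ⟨y.1, y.2.2⟩) = 1 ∧ ψ ⟨y.1, y.2.2⟩ * z0 = z0 * ψ ⟨y.1, y.2.2⟩ := by
      intro y
      refine ⟨hψs _, ?_⟩
      rw [← hψz, ← map_mul, ← map_mul]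
      congr 1
      apply Subtype.ext
      exact Subgroup.mem_centralizer_singleton_iff.1 y.2.1
    let f : ↥(Subgroup.centralizer ({z} : Set G) ⊓ N) →
        {g : Equiv.Perm (Fin 6) // Equiv.Perm.sign g = 1 ∧ g * z0 = z0 * g} :=
      fun y => ⟨ψ ⟨y.1, y.2.2⟩, hmem y⟩
    have hf : Function.Injective f := by
      intro y1 y2 h
      have h1 := hψinj (congrArg Subtype.val h)
      have h2 : (y1 : G) = y2 := congrArg (fun t : N => (t : G)) h1
      exact Subtype.ext h2
    have h1 := Nat.card_le_card_of_injective f hf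
    have h2 : Nat.card {g : Equiv.Perm (Fin 6) // Equiv.Perm.sign g = 1 ∧ g * z0 = z0 * g}
        ≤ 8 := by
      rw [Nat.card_eq_fintype_card, Fintype.card_subtype]
      exact b1
    exact h1.trans h2
  have hC32 : Nat.card ↥(Subgroup.centralizer ({z} : Set G)) ≤ 32 := by
    have h1 := ((Subgroup.centralizer ({z} : Set G) ⊓ N).subgroupOf
      (Subgroup.centralizer ({z} : Set G))).card_mul_index
    have h2 : Nat.card ↥((Subgroup.centralizer ({z} : Set G) ⊓ N).subgroupOf
        (Subgroup.centralizer ({z} : Set G))) =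
        Nat.card ↥(Subgroup.centralizer ({z} : Set G) ⊓ N) :=
      Nat.card_congr (Subgroup.subgroupOfEquivOfLe inf_le_left).toEquiv
    have h3 : ((Subgroup.centralizer ({z} : Set G) ⊓ N).subgroupOf
        (Subgroup.centralizer ({z} : Set G))).index ∣ 4 := by
      have h4 : ((Subgroup.centralizer ({z} : Set G) ⊓ N).subgroupOf
          (Subgroup.centralizer ({z} : Set G))).index =
          N.relIndex (Subgroup.centralizer ({z} : Set G)) := Subgroup.inf_relIndex_left _ _
      rw [h4, ← hidx]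
      exact Subgroup.relIndex_dvd_index_of_normal N _
    have h5 := Nat.le_of_dvd (by norm_num) h3
    rw [h2] at h1
    calc Nat.card ↥(Subgroup.centralizer ({z} : Set G))
        = Nat.card ↥(Subgroup.centralizer ({z} : Set G) ⊓ N) *
          ((Subgroup.centralizer ({z} : Set G) ⊓ N).subgroupOf
            (Subgroup.centralizer ({z} : Set G))).index := h1.symm
      _ ≤ 8 * 4 := Nat.mul_le_mul hCN h5
      _ = 32 := by norm_num
  have hCH : (H : Subgroup G) = Subgroup.centralizer ({z} : Set G) := by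
    apply Subgroup.eq_of_le_of_card_ge hHC
    rw [hH]
    exact hC32
  intro hbot
  obtain ⟨w, hw⟩ : ∃ w : G, w = x * z * x⁻¹ := ⟨_, rfl⟩
  have hwN : w ∈ N := by
    rw [hw]
    exact Subgroup.Normal.conj_mem inferInstance z hzN x
  have hw2 : w * w = 1 := by
    rw [hw]
    calc x * z * x⁻¹ * (x * z * x⁻¹) = x * (z * z) * x⁻¹ := by group
      _ = 1 := by rw [hz2]; group
  have hw1 : w ≠ 1 := by
    intro h
    apply hz1
    have h1 : z = x⁻¹ * w * x := by rw [hw]; group
    rw [h1, h]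
    group
  have hkey : ∀ h ∈ (H : Subgroup G), h * w = w * h → h = 1 := by
    intro h hh hcomm
    have h1 : h ∈ MulAut.conj x • (H : Subgroup G) := by
      rw [Subgroup.mem_pointwise_smul_iff_inv_smul_mem, MulAut.smul_def, MulAut.conj_inv_apply,
        hCH, Subgroup.mem_centralizer_singleton_iff]
      calc x⁻¹ * h * x * z = x⁻¹ * (h * (x * z * x⁻¹)) * x := by group
        _ = x⁻¹ * (h * w) * x := by rw [hw]
        _ = x⁻¹ * (w * h) * x := by rw [hcomm]
        _ = x⁻¹ * (x * z * x⁻¹ * h) * x := by rw [hw]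
        _ = z * (x⁻¹ * h * x) := by group
    have h2 : h ∈ (H : Subgroup G) ⊓ MulAut.conj x • (H : Subgroup G) :=
      Subgroup.mem_inf.2 ⟨hh, h1⟩
    rw [hbot] at h2
    exact Subgroup.mem_bot.1 h2
  -- the orbit map
  have hconjN : ∀ h : (H : Subgroup G), (h : G) * w * (h : G)⁻¹ ∈ N := fun h =>
    Subgroup.Normal.conj_mem inferInstance w hwN h
  obtain ⟨φ, hφ⟩ : ∃ φ : ↥(H : Subgroup G) → Equiv.Perm (Fin 6),
      ∀ h, φ h = ψ ⟨(h : G) * w * (h : G)⁻¹, hconjN h⟩ := ⟨_, fun h => rfl⟩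
  have hφinj : Function.Injective φ := by
    intro h1 h2 h12
    rw [hφ, hφ] at h12
    have h3 := hψinj h12
    have h4 : (h1 : G) * w * (h1 : G)⁻¹ = (h2 : G) * w * (h2 : G)⁻¹ := congrArg Subtype.val h3
    have h5 : (h2 : G)⁻¹ * (h1 : G) * w = w * ((h2 : G)⁻¹ * (h1 : G)) := by
      calc (h2 : G)⁻¹ * (h1 : G) * w
          = (h2 : G)⁻¹ * ((h1 : G) * w * (h1 : G)⁻¹) * (h1 : G) := by group
        _ = (h2 : G)⁻¹ * ((h2 : G) * w * (h2 : G)⁻¹) * (h1 : G) := by rw [h4]
        _ = w * ((h2 : G)⁻¹ * (h1 : G)) := by group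
    have h6 := hkey _ (mul_mem (inv_mem h2.2) h1.2) h5
    exact Subtype.ext (inv_mul_eq_one.1 h6).symm
  have hφ2 : ∀ h, φ h * φ h = 1 := by
    intro h
    rw [hφ, ← map_mul]
    have h1 : (⟨(h : G) * w * (h : G)⁻¹, hconjN h⟩ : N) * ⟨(h : G) * w * (h : G)⁻¹, hconjN h⟩
        = 1 := by
      apply Subtype.ext
      show (h : G) * w * (h : G)⁻¹ * ((h : G) * w * (h : G)⁻¹) = 1
      calc (h : G) * w * (h : G)⁻¹ * ((h : G) * w * (h : G)⁻¹)
          = (h : G) * (w * w) * (h : G)⁻¹ := by group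
        _ = 1 := by rw [hw2]; group
    rw [h1, map_one]
  have hφ1 : ∀ h, φ h ≠ 1 := by
    intro h h0
    rw [hφ] at h0
    have h1 := hψinj (h0.trans (map_one ψ).symm)
    have h2 : (h : G) * w * (h : G)⁻¹ = 1 := congrArg Subtype.val h1
    exact hw1 (conj_eq_one_iff.1 h2)
  have hφ3 : ∀ h, (z0 * φ h) ^ 3 = 1 ↔ (z * w) ^ 3 = 1 := by
    intro h
    rw [hφ, ← hψz, ← map_mul, ← map_pow]
    have h1 : ((⟨z, hzN⟩ : N) * ⟨(h : G) * w * (h : G)⁻¹, hconjN h⟩) ^ 3 = 1 ↔
        (z * w) ^ 3 = 1 := by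
      rw [Subtype.ext_iff]
      show (z * ((h : G) * w * (h : G)⁻¹)) ^ 3 = 1 ↔ (z * w) ^ 3 = 1
      have h2 : z * ((h : G) * w * (h : G)⁻¹) = (h : G) * (z * w) * (h : G)⁻¹ := by
        have h3 := hzc h h.2
        calc z * ((h : G) * w * (h : G)⁻¹) = z * (h : G) * w * (h : G)⁻¹ := by group
          _ = (h : G) * z * w * (h : G)⁻¹ := by rw [h3]
          _ = (h : G) * (z * w) * (h : G)⁻¹ := by group
      rw [h2, conj_pow, conj_eq_one_iff]
    rw [← h1]
    constructor
    · intro h4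
      exact hψinj (h4.trans (map_one ψ).symm)
    · intro h4
      rw [h4, map_one]
  letI : Fintype ↥(H : Subgroup G) := Fintype.ofFinite _
  have hcardH : (Finset.univ : Finset ↥(H : Subgroup G)).card = 32 := by
    rw [Finset.card_univ, ← Nat.card_eq_fintype_card, hH]
  by_cases hcase : (z * w) ^ 3 = 1
  · have himg : ∀ h ∈ (Finset.univ : Finset ↥(H : Subgroup G)),
        φ h ∈ Finset.univ.filter (fun v : Equiv.Perm (Fin 6) =>
          v * v = 1 ∧ v ≠ 1 ∧ (z0 * v) ^ 3 = 1) := by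
      intro h _
      rw [Finset.mem_filter]
      exact ⟨Finset.mem_univ _, hφ2 h, hφ1 h, (hφ3 h).2 hcase⟩
    have h1 := Finset.card_le_card_of_injOn φ himg hφinj.injOn
    have h2 := b2
    omega
  · have himg : ∀ h ∈ (Finset.univ : Finset ↥(H : Subgroup G)),
        φ h ∈ Finset.univ.filter (fun v : Equiv.Perm (Fin 6) =>
          Equiv.Perm.sign v = 1 ∧ v * v = 1 ∧ v ≠ 1 ∧ (z0 * v) ^ 3 ≠ 1) := by
      intro h _
      rw [Finset.mem_filter]
      refine ⟨Finset.mem_univ _, ?_, hφ2 h, hφ1 h, fun h3 => hcase ((hφ3 h).1 h3)⟩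
      rw [hφ]
      exact hψs _
    have h1 := Finset.card_le_card_of_injOn φ himg hφinj.injOn
    have h2 := b3
    omega

end Cfsg.Agent.S2488
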