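import Cfsg.Statements.S2505
import Mathlib

set_option autoImplicit false
open Cfsg

namespace Cfsg.Agent.S2505

/-- the bound: largest product of positive integers with a given sum. -/
def bd : ℕ → ℕ
  | 0 => 1
  | 1 => 1
  | 2 => 2
  | 3 => 3
  | 4 => 4
  | (n + 3) => 3 * bd n

theorem bd_add (n : ℕ) : bd (n + 5) = 3 * bd (n + 2) := by
  rw [bd] <;> intro h <;> omega

theorem bd_ind (P : ℕ → Prop) (h0 : P 0) (h1 : P 1) (h2 : P 2) (h3 : P 3) (h4 : P 4)
    (hs : ∀ n, P (n + 2) → P (n + 5)) : ∀ n, P n := by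
  intro n
  induction n using Nat.strong_induction_on with
  | _ n ih =>
    rcases n with _ | _ | _ | _ | _ | n
    · exact h0
    · exact h1
    · exact h2
    · exact h3
    · exact h4
    · exact hs n (ih (n + 2) (by omega))

theorem bd_f1 : ∀ n, bd n ≤ bd (n + 1) := by
  apply bd_ind
  · decide
  · decide
  · decide
  · decide
  · decide
  · intro n ih
    have h1 : bd (n + 5 + 1) = 3 * bd (n + 1 + 2) := bd_add (n + 1)
    rw [h1, bd_add]
    have : bd (n + 2) ≤ bd (n + 1 + 2) := ih
    omega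

theorem bd_f2 : ∀ n, 2 * bd n ≤ bd (n + 2) := by
  apply bd_ind
  · decide
  · decide
  · decide
  · decide
  · decide
  · intro n ih
    have h1 : bd (n + 5 + 2) = 3 * bd (n + 2 + 2) := bd_add (n + 2)
    rw [h1, bd_add]
    omega

theorem bd_f3 : ∀ n, 3 * bd n ≤ bd (n + 3) := by
  apply bd_ind
  · decide
  · decide
  · decide
  · decide
  · decide
  · intro n ih
    have h1 : bd (n + 5 + 3) = 3 * bd (n + 3 + 2) := bd_add (n + 3)
    rw [h1]

theorem bd_f4 : ∀ n, 4 * bd n ≤ bd (n + 4) := by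
  apply bd_ind
  · decide
  · decide
  · decide
  · decide
  · decide
  · intro n ih
    have h1 : bd (n + 5 + 4) = 3 * bd (n + 4 + 2) := bd_add (n + 4)
    rw [h1, bd_add]
    have : 4 * bd (n + 2) ≤ bd (n + 4 + 2) := ih
    omega

theorem bd_f5 : ∀ m n : ℕ, 1 ≤ m → m * bd n ≤ bd (n + m) := by
  intro m
  induction m using Nat.strong_induction_on with
  | _ m ih =>
    intro n hm
    rcases m with _ | _ | _ | _ | _ | m
    · omega
    · simpa using bd_f1 n
    · exact bd_f2 n
    · exact bd_f3 n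
    · exact bd_f4 n
    · show (m + 5) * bd n ≤ bd (n + (m + 5))
      have h1 := ih (m + 2) (by omega) n (by omega)
      have h2 := bd_f3 (n + (m + 2))
      have h3 : n + (m + 2) + 3 = n + (m + 5) := by omega
      rw [h3] at h2
      have h4 : (m + 5) * bd n ≤ 3 * ((m + 2) * bd n) := by nlinarith [Nat.zero_le (bd n)]
      omega

theorem bd_three : ∀ k, bd (3 * (k + 1)) = 3 ^ (k + 1) := by
  intro k
  induction k with
  | zero => rfl
  | succ k ih =>
    have h1 : 3 * (k + 1 + 1) = (3 * k + 1) + 5 := by ring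
    have h2 : 3 * k + 1 + 2 = 3 * (k + 1) := by ring
    rw [h1, bd_add, h2, ih]; ring

theorem bd_three_one : ∀ k, bd (3 * (k + 1) + 1) = 4 * 3 ^ k := by
  intro k
  induction k with
  | zero => rfl
  | succ k ih =>
    have h1 : 3 * (k + 1 + 1) + 1 = (3 * k + 2) + 5 := by ring
    have h2 : 3 * k + 2 + 2 = 3 * (k + 1) + 1 := by ring
    rw [h1, bd_add, h2, ih]; ring

theorem bd_three_two : ∀ k, bd (3 * k + 2) = 2 * 3 ^ k := by
  intro k
  induction k with
  | zero => rfl
  | succ k ih =>
    have h1 : 3 * (k + 1) + 2 = (3 * k) + 5 := by ring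
    rw [h1, bd_add, ih]; ring

/-- upper bound for commutative permutation groups -/
theorem ub : ∀ (m : ℕ) (α : Type) [Fintype α], Fintype.card α = m →
    ∀ A : Subgroup (Equiv.Perm α), (∀ a ∈ A, ∀ b ∈ A, a * b = b * a) → Nat.card A ≤ bd m := by
  intro m
  induction m using Nat.strong_induction_on with
  | _ m ih =>
    intro α _ hcard A hA
    classical
    rcases Nat.eq_zero_or_pos m with hm | hm
    · subst hm
      haveI : IsEmpty α := Fintype.card_eq_zero_iff.mp hcard
      haveI : Subsingleton ↥A := ⟨fun a b => Subtype.ext (Equiv.ext fun x => isEmptyElim x)⟩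
      have : Nat.card ↥A ≤ 1 := Finite.card_le_one_iff_subsingleton.mpr inferInstance
      exact this
    · have hne : Nonempty α := Fintype.card_pos_iff.mp (hcard ▸ hm)
      obtain ⟨x₀⟩ := hne
      obtain ⟨O, hO⟩ : ∃ O : Set α, O = {y | ∃ a ∈ A, a x₀ = y} := ⟨_, rfl⟩
      have hx₀ : x₀ ∈ O := by rw [hO]; exact ⟨1, A.one_mem, rfl⟩
      have hpres : ∀ a ∈ A, ∀ y, a y ∈ O ↔ y ∈ O := by
        intro a ha y
        rw [hO]
        constructor
        · rintro ⟨b, hb, hby⟩
          refine ⟨a⁻¹ * b, A.mul_mem (A.inv_mem ha) hb, ?_⟩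
          rw [Equiv.Perm.mul_apply, hby]; simp
        · rintro ⟨b, hb, hby⟩
          exact ⟨a * b, A.mul_mem ha hb, by rw [Equiv.Perm.mul_apply, hby]⟩
      have hpres' : ∀ a ∈ A, ∀ y, ¬ a y ∈ O ↔ ¬ y ∈ O := fun a ha y => not_congr (hpres a ha y)
      let ρ : ↥A →* Equiv.Perm {y // ¬ y ∈ O} :=
        MonoidHom.mk' (fun a => Equiv.Perm.subtypePerm a.1 (hpres' a.1 a.2)) (by
          intro a b
          apply Equiv.ext
          intro y
          apply Subtype.ext
          rfl)
      have hρapp : ∀ (a : ↥A) (y : {y // ¬ y ∈ O}), ((ρ a y : {y // ¬ y ∈ O}) : α) = a.1 y.1 :=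
        fun a y => rfl
      -- kernel injects into O
      have hker : Nat.card ρ.ker ≤ Nat.card {y // y ∈ O} := by
        apply Nat.card_le_card_of_injective
          (fun a : ρ.ker => (⟨a.1.1 x₀, (hpres a.1.1 a.1.2 x₀).mpr hx₀⟩ : {y // y ∈ O}))
        intro a b hab
        have hab' : a.1.1 x₀ = b.1.1 x₀ := congrArg Subtype.val hab
        have hfix : ∀ c : ↥A, c ∈ ρ.ker → c.1 x₀ = x₀ → c = 1 := by
          intro c hc hcx
          apply Subtype.ext
          apply Equiv.ext
          intro y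
          by_cases hy : y ∈ O
          · rw [hO] at hy
            obtain ⟨a', ha', rfl⟩ := hy
            show c.1 (a' x₀) = a' x₀
            have h1 : c.1 * a' = a' * c.1 := hA c.1 c.2 a' ha'
            have h2 := congrArg (fun f : Equiv.Perm α => f x₀) h1
            simp only [Equiv.Perm.mul_apply] at h2
            rw [h2, hcx]
          · have h1 : ρ c = 1 := MonoidHom.mem_ker.mp hc
            have h2 := hρapp c ⟨y, hy⟩
            rw [h1] at h2
            exact h2.symm
        have h1 : a.1⁻¹ * b.1 = 1 := by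
          apply hfix
          · exact ρ.ker.mul_mem (ρ.ker.inv_mem a.2) b.2
          · show (a.1.1⁻¹ * b.1.1) x₀ = x₀
            rw [Equiv.Perm.mul_apply, ← hab']; simp
        have h2 : a.1 = b.1 := by
          rw [inv_mul_eq_one] at h1; exact h1
        exact Subtype.ext h2
      -- the range is commutative
      have hrange : ∀ a ∈ ρ.range, ∀ b ∈ ρ.range, a * b = b * a := by
        rintro _ ⟨a, rfl⟩ _ ⟨b, rfl⟩
        rw [← map_mul, ← map_mul]
        congr 1
        exact Subtype.ext (hA a.1 a.2 b.1 b.2)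
      have hOpos : 0 < Nat.card {y // y ∈ O} := by
        haveI : Nonempty {y // y ∈ O} := ⟨⟨x₀, hx₀⟩⟩
        exact Nat.card_pos
      have hsplit : Fintype.card {y // ¬ y ∈ O} = m - Nat.card {y // y ∈ O} := by
        rw [Fintype.card_subtype_compl, hcard, Nat.card_eq_fintype_card]
      have hOle : Nat.card {y // y ∈ O} ≤ m := by
        rw [Nat.card_eq_fintype_card, ← hcard]
        exact Fintype.card_subtype_le _
      have hlt : m - Nat.card {y // y ∈ O} < m := by omega
      have hIH := ih _ hlt {y // ¬ y ∈ O} hsplit ρ.range hrange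
      have hA1 : Nat.card ↥A = Nat.card (↥A ⧸ ρ.ker) * Nat.card ρ.ker :=
        Subgroup.card_eq_card_quotient_mul_card_subgroup ρ.ker
      have hA2 : Nat.card (↥A ⧸ ρ.ker) = Nat.card ρ.range :=
        Nat.card_congr (QuotientGroup.quotientKerEquivRange ρ).toEquiv
      rw [hA1, hA2]
      have h5 := bd_f5 (Nat.card {y // y ∈ O}) (m - Nat.card {y // y ∈ O}) hOpos
      have h6 : m - Nat.card {y // y ∈ O} + Nat.card {y // y ∈ O} = m := by omega
      rw [h6] at h5
      calc Nat.card ρ.range * Nat.card ρ.ker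
          ≤ bd (m - Nat.card {y // y ∈ O}) * Nat.card {y // y ∈ O} := Nat.mul_le_mul hIH hker
        _ = Nat.card {y // y ∈ O} * bd (m - Nat.card {y // y ∈ O}) := Nat.mul_comm _ _
        _ ≤ bd m := h5

/-- existence predicate -/
def Ex (n c : ℕ) : Prop :=
  ∃ A : Subgroup (Equiv.Perm (Fin n)), IsMulCommutative A ∧ Nat.card A = c

theorem ex_of_inj {n : ℕ} {G : Type} [Group G] (hG : ∀ a b : G, a * b = b * a)
    (f : G →* Equiv.Perm (Fin n)) (hf : Function.Injective f) : Ex n (Nat.card G) := by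
  refine ⟨f.range, ⟨⟨fun a b => ?_⟩⟩, ?_⟩
  · apply Subtype.ext
    obtain ⟨x, hx⟩ := a.2
    obtain ⟨y, hy⟩ := b.2
    show a.1 * b.1 = b.1 * a.1
    rw [← hx, ← hy, ← map_mul, ← map_mul, hG]
  · exact (Nat.card_congr (MonoidHom.ofInjective hf).toEquiv).symm

theorem ex_self (m : ℕ) (hm : 0 < m) : Ex m m := by
  haveI : NeZero m := ⟨hm.ne'⟩
  have hc : Fintype.card (Multiplicative (ZMod m)) = m := by
    rw [Fintype.card_multiplicative, ZMod.card]
  let e : Multiplicative (ZMod m) ≃ Fin m := Fintype.equivFinOfCardEq hc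
  let f : Multiplicative (ZMod m) →* Equiv.Perm (Fin m) :=
    (e.permCongrHom.toMonoidHom).comp
      (MulAction.toPermHom (Multiplicative (ZMod m)) (Multiplicative (ZMod m)))
  have hreg : Function.Injective
      (MulAction.toPermHom (Multiplicative (ZMod m)) (Multiplicative (ZMod m))) := by
    intro a b hab
    have := congrArg (fun σ : Equiv.Perm (Multiplicative (ZMod m)) => σ 1) hab
    simpa using this
  have hf : Function.Injective f := by
    intro x y hxy
    exact hreg (e.permCongrHom.injective hxy)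
  have h := ex_of_inj (fun a b => mul_comm a b) f hf
  rwa [Nat.card_eq_fintype_card, hc] at h

theorem ex_add {a b c c' : ℕ} (h1 : Ex a c) (h2 : Ex b c') : Ex (a + b) (c * c') := by
  obtain ⟨A, hA, rfl⟩ := h1
  obtain ⟨B, hB, rfl⟩ := h2
  let f : ↥A × ↥B →* Equiv.Perm (Fin (a + b)) :=
    ((finSumFinEquiv : Fin a ⊕ Fin b ≃ Fin (a + b)).permCongrHom.toMonoidHom).comp
      ((Equiv.Perm.sumCongrHom (Fin a) (Fin b)).comp (A.subtype.prodMap B.subtype))
  have hf : Function.Injective f := by
    intro x y hxy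
    have h0 := (finSumFinEquiv : Fin a ⊕ Fin b ≃ Fin (a + b)).permCongrHom.injective hxy
    have h1 : ((x.1 : Equiv.Perm (Fin a)), (x.2 : Equiv.Perm (Fin b)))
        = ((y.1 : Equiv.Perm (Fin a)), (y.2 : Equiv.Perm (Fin b))) :=
      Equiv.Perm.sumCongrHom_injective h0
    exact Prod.ext (Subtype.ext (congrArg Prod.fst h1)) (Subtype.ext (congrArg Prod.snd h1))
  have h := ex_of_inj (G := ↥A × ↥B) (fun x y => by
    haveI := hA
    haveI := hB
    exact Prod.ext (mul_comm' x.1 y.1) (mul_comm' x.2 y.2)) f hf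
  rwa [Nat.card_prod] at h

theorem ex_three : ∀ k, Ex (3 * (k + 1)) (3 ^ (k + 1)) := by
  intro k
  induction k with
  | zero => exact ex_self 3 (by norm_num)
  | succ k ih =>
    have h := ex_add ih (ex_self 3 (by norm_num))
    have h1 : 3 * (k + 1) + 3 = 3 * (k + 1 + 1) := by ring
    have h2 : 3 ^ (k + 1) * 3 = 3 ^ (k + 1 + 1) := by ring
    rw [h1, h2] at h
    exact h


/-- The largest order of an abelian subgroup of the symmetric group of degree n is 3^k when n = 3k, 4·3^(k−1) when n = 3k + 1, and 2·3^k when n = 3k + 2, for every k ≥ 1. -/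
theorem result (k : ℕ) (hk : 1 ≤ k) :
    IsGreatest {c : ℕ | ∃ A : Subgroup (Equiv.Perm (Fin (3 * k))), IsMulCommutative A ∧ Nat.card A = c} (3 ^ k) ∧
    IsGreatest {c : ℕ | ∃ A : Subgroup (Equiv.Perm (Fin (3 * k + 1))), IsMulCommutative A ∧ Nat.card A = c}
      (4 * 3 ^ (k - 1)) ∧
    IsGreatest {c : ℕ | ∃ A : Subgroup (Equiv.Perm (Fin (3 * k + 2))), IsMulCommutative A ∧ Nat.card A = c}
      (2 * 3 ^ k) := by
  obtain ⟨k, rfl⟩ : ∃ j, k = j + 1 := ⟨k - 1, by omega⟩
  have hub : ∀ (n : ℕ) (c : ℕ), (∃ A : Subgroup (Equiv.Perm (Fin n)), IsMulCommutative A ∧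
      Nat.card A = c) → c ≤ bd n := by
    rintro n c ⟨A, hA, rfl⟩
    apply ub n (Fin n) (Fintype.card_fin n) A
    intro a ha b hb
    haveI := hA
    exact congrArg Subtype.val (mul_comm' (⟨a, ha⟩ : A) ⟨b, hb⟩)
  refine ⟨⟨?_, ?_⟩, ⟨?_, ?_⟩, ⟨?_, ?_⟩⟩
  · exact ex_three k
  · intro c hc
    have := hub _ c hc
    rwa [bd_three] at this
  · have h := ex_add (ex_self 4 (by norm_num)) (ex_three k)
    rcases k with _ | k
    · exact ex_self 4 (by norm_num)
    · have h' := ex_add (ex_three k) (ex_self 4 (by norm_num))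
      have h1 : 3 * (k + 1) + 4 = 3 * (k + 1 + 1) + 1 := by ring
      have h2 : 3 ^ (k + 1) * 4 = 4 * 3 ^ (k + 1 + 1 - 1) := by
        simp only [Nat.add_sub_cancel]; ring
      rw [h1, h2] at h'
      exact h'
  · intro c hc
    have := hub _ c hc
    rw [bd_three_one] at this
    simpa using this
  · have h := ex_add (ex_three k) (ex_self 2 (by norm_num))
    have h2 : 3 ^ (k + 1) * 2 = 2 * 3 ^ (k + 1) := by ring
    rw [h2] at h
    exact h
  · intro c hc
    have := hub _ c hc
    rwa [bd_three_two] at this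

end Cfsg.Agent.S2505
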