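import Cfsg.Statements.S2504
import Mathlib
import Cfsg.Agent.S2505

set_option autoImplicit false
open Cfsg

namespace Cfsg.Agent.S2504

open Cfsg.Agent.S2505

/-- existence predicate with evenness -/
def ExA (n c : ℕ) : Prop :=
  ∃ A : Subgroup (Equiv.Perm (Fin n)), IsMulCommutative A ∧
    (∀ a ∈ A, Equiv.Perm.sign a = 1) ∧ Nat.card A = c

theorem exA_of_inj {n : ℕ} {G : Type} [Group G] (hG : ∀ a b : G, a * b = b * a)
    (f : G →* Equiv.Perm (Fin n)) (hf : Function.Injective f)
    (hs : ∀ g, Equiv.Perm.sign (f g) = 1) : ExA n (Nat.card G) := by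
  refine ⟨f.range, ⟨⟨fun a b => ?_⟩⟩, ?_, ?_⟩
  · apply Subtype.ext
    obtain ⟨x, hx⟩ := a.2
    obtain ⟨y, hy⟩ := b.2
    show a.1 * b.1 = b.1 * a.1
    rw [← hx, ← hy, ← map_mul, ← map_mul, hG]
  · rintro _ ⟨g, rfl⟩
    exact hs g
  · exact (Nat.card_congr (MonoidHom.ofInjective hf).toEquiv).symm

theorem exA_reg (m : ℕ) (G : Type) [Group G] [Fintype G] [DecidableEq G]
    (hG : ∀ a b : G, a * b = b * a) (hc : Fintype.card G = m)
    (hs : ∀ g : G, Equiv.Perm.sign (MulAction.toPermHom G G g) = 1) : ExA m m := by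
  let e : G ≃ Fin m := Fintype.equivFinOfCardEq hc
  let f : G →* Equiv.Perm (Fin m) :=
    (e.permCongrHom.toMonoidHom).comp (MulAction.toPermHom G G)
  have hreg : Function.Injective (MulAction.toPermHom G G) := by
    intro a b hab
    have := congrArg (fun σ : Equiv.Perm G => σ 1) hab
    simpa using this
  have hf : Function.Injective f := by
    intro x y hxy
    exact hreg (e.permCongrHom.injective hxy)
  have h := exA_of_inj hG f hf (by
    intro g
    show Equiv.Perm.sign (e.permCongr (MulAction.toPermHom G G g)) = 1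
    rw [Equiv.Perm.sign_permCongr, hs])
  rwa [Nat.card_eq_fintype_card, hc] at h

theorem exA_four : ExA 4 4 := by
  apply exA_reg 4 (Multiplicative (ZMod 2 × ZMod 2)) (fun a b => mul_comm a b) (by decide)
  decide

theorem exA_three1 : ExA 3 3 := by
  apply exA_reg 3 (Multiplicative (ZMod 3)) (fun a b => mul_comm a b) (by decide)
  decide

theorem exA_zero : ExA 0 1 := by
  refine ⟨⊥, ⟨⟨fun a b => Subsingleton.elim _ _⟩⟩, ?_, ?_⟩
  · intro a ha
    rw [Subgroup.mem_bot] at ha
    rw [ha, map_one]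
  · exact Subgroup.card_bot

theorem exA_add {a b c c' : ℕ} (h1 : ExA a c) (h2 : ExA b c') : ExA (a + b) (c * c') := by
  obtain ⟨A, hA, hsA, rfl⟩ := h1
  obtain ⟨B, hB, hsB, rfl⟩ := h2
  let f : ↥A × ↥B →* Equiv.Perm (Fin (a + b)) :=
    ((finSumFinEquiv : Fin a ⊕ Fin b ≃ Fin (a + b)).permCongrHom.toMonoidHom).comp
      ((Equiv.Perm.sumCongrHom (Fin a) (Fin b)).comp (A.subtype.prodMap B.subtype))
  have hf : Function.Injective f := by
    intro x y hxy
    have h0 := (finSumFinEquiv : Fin a ⊕ Fin b ≃ Fin (a + b)).permCongrHom.injective hxy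
    have h1 : ((x.1 : Equiv.Perm (Fin a)), (x.2 : Equiv.Perm (Fin b)))
        = ((y.1 : Equiv.Perm (Fin a)), (y.2 : Equiv.Perm (Fin b))) :=
      Equiv.Perm.sumCongrHom_injective h0
    exact Prod.ext (Subtype.ext (congrArg Prod.fst h1)) (Subtype.ext (congrArg Prod.snd h1))
  have h := exA_of_inj (G := ↥A × ↥B) (fun x y => by
    haveI := hA
    haveI := hB
    exact Prod.ext (mul_comm' x.1 y.1) (mul_comm' x.2 y.2)) f hf (by
    intro g
    show Equiv.Perm.sign ((finSumFinEquiv : Fin a ⊕ Fin b ≃ Fin (a + b)).permCongr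
      (Equiv.Perm.sumCongr (g.1 : Equiv.Perm (Fin a)) (g.2 : Equiv.Perm (Fin b)))) = 1
    rw [Equiv.Perm.sign_permCongr, Equiv.Perm.sign_sumCongr, hsA _ g.1.2, hsB _ g.2.2, one_mul])
  rwa [Nat.card_prod] at h

theorem exA_three : ∀ k, ExA (3 * k) (3 ^ k) := by
  intro k
  induction k with
  | zero => exact exA_zero
  | succ k ih =>
    have h := exA_add ih exA_three1
    have h1 : 3 * k + 3 = 3 * (k + 1) := by ring
    have h2 : 3 ^ k * 3 = 3 ^ (k + 1) := by ring
    rw [h1, h2] at h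
    exact h

theorem to_alt {n c : ℕ} (h : ExA n c) :
    ∃ A : Subgroup (alternatingGroup (Fin n)), IsMulCommutative A ∧ Nat.card A = c := by
  obtain ⟨A, hA, hs, rfl⟩ := h
  have hle : A ≤ alternatingGroup (Fin n) :=
    fun a ha => Equiv.Perm.mem_alternatingGroup.mpr (hs a ha)
  refine ⟨A.subgroupOf (alternatingGroup (Fin n)), ⟨⟨fun x y => ?_⟩⟩, ?_⟩
  · haveI := hA
    have := mul_comm' (⟨x.1.1, x.2⟩ : ↥A) ⟨y.1.1, y.2⟩
    have h2 : (x.1.1 : Equiv.Perm (Fin n)) * y.1.1 = y.1.1 * x.1.1 := congrArg Subtype.val this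
    exact Subtype.ext (Subtype.ext h2)
  · exact Nat.card_congr (Subgroup.subgroupOfEquivOfLe hle).toEquiv

theorem from_alt {n : ℕ} (A' : Subgroup (alternatingGroup (Fin n))) (hA' : IsMulCommutative A') :
    ∃ A : Subgroup (Equiv.Perm (Fin n)), (∀ a ∈ A, ∀ b ∈ A, a * b = b * a) ∧
      (∀ a ∈ A, Equiv.Perm.sign a = 1) ∧ Nat.card A = Nat.card A' := by
  refine ⟨A'.map (alternatingGroup (Fin n)).subtype, ?_, ?_, ?_⟩
  · rintro _ ⟨a, ha, rfl⟩ _ ⟨b, hb, rfl⟩
    haveI := hA'
    have := mul_comm' (⟨a, ha⟩ : ↥A') ⟨b, hb⟩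
    have h2 : a * b = b * a := congrArg Subtype.val this
    exact congrArg Subtype.val h2
  · rintro _ ⟨a, ha, rfl⟩
    exact Equiv.Perm.mem_alternatingGroup.mp a.2
  · exact Subgroup.card_map_of_injective (Subgroup.subtype_injective _)

theorem fix_bound {α : Type} [Fintype α] (A : Subgroup (Equiv.Perm α))
    (hA : ∀ a ∈ A, ∀ b ∈ A, a * b = b * a) (K : Subgroup ↥A) (U : Set α)
    (hU : ∀ k ∈ K, ∀ u ∈ U, (k : Equiv.Perm α) u = u) :
    Nat.card ↥K ≤ bd (Fintype.card α - U.ncard) := by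
  classical
  have hpres : ∀ k ∈ K, ∀ y, ¬ (k : Equiv.Perm α) y ∈ U ↔ ¬ y ∈ U := by
    intro k hk y
    apply not_congr
    constructor
    · intro h
      have h1 := hU k hk _ h
      have h2 : (k : Equiv.Perm α) y = y := (k : Equiv.Perm α).injective h1
      rw [← h2]; exact h
    · intro h
      rw [hU k hk y h]; exact h
  let ρ : ↥K →* Equiv.Perm {y // ¬ y ∈ U} :=
    MonoidHom.mk' (fun k => Equiv.Perm.subtypePerm (k.1 : Equiv.Perm α) (hpres k.1 k.2)) (by
      intro a b
      apply Equiv.ext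
      intro y
      apply Subtype.ext
      rfl)
  have hρapp : ∀ (k : ↥K) (y : {y // ¬ y ∈ U}),
      ((ρ k y : {y // ¬ y ∈ U}) : α) = (k.1 : Equiv.Perm α) y.1 := fun k y => rfl
  have hinj : Function.Injective ρ := by
    intro k l hkl
    apply Subtype.ext
    apply Subtype.ext
    apply Equiv.ext
    intro y
    by_cases hy : y ∈ U
    · rw [hU k.1 k.2 y hy, hU l.1 l.2 y hy]
    · have := hρapp k ⟨y, hy⟩
      rw [hkl, hρapp] at this
      exact this.symm
  have hrange : ∀ a ∈ ρ.range, ∀ b ∈ ρ.range, a * b = b * a := by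
    rintro _ ⟨a, rfl⟩ _ ⟨b, rfl⟩
    rw [← map_mul, ← map_mul]
    congr 1
    exact Subtype.ext (Subtype.ext (hA a.1.1 a.1.2 b.1.1 b.1.2))
  have hcard : Fintype.card {y // ¬ y ∈ U} = Fintype.card α - U.ncard := by
    rw [Fintype.card_subtype_compl, ← Nat.card_coe_set_eq, Nat.card_eq_fintype_card]
  have h1 := ub _ {y // ¬ y ∈ U} hcard ρ.range hrange
  rw [← Nat.card_congr (MonoidHom.ofInjective hinj).toEquiv] at h1
  exact h1

theorem gen_bound {α : Type} [Fintype α] (A : Subgroup (Equiv.Perm α))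
    (hA : ∀ a ∈ A, ∀ b ∈ A, a * b = b * a) (K : Subgroup ↥A) (U : Set α)
    (hU : ∀ k ∈ K, ∀ u ∈ U, (k : Equiv.Perm α) u = u) :
    Nat.card ↥A ≤ K.index * bd (Fintype.card α - U.ncard) := by
  rw [← Subgroup.card_mul_index K, mul_comm]
  exact Nat.mul_le_mul_left _ (fix_bound A hA K U hU)

theorem stab_fix {α : Type} (A : Subgroup (Equiv.Perm α))
    (hA : ∀ a ∈ A, ∀ b ∈ A, a * b = b * a) (x : α) (k : ↥A)
    (hk : k ∈ MulAction.stabilizer ↥A x)
    (u : α) (hu : u ∈ MulAction.orbit ↥A x) : (k : Equiv.Perm α) u = u := by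
  obtain ⟨a, rfl⟩ := hu
  have hk' : (k : Equiv.Perm α) x = x := hk
  show (k : Equiv.Perm α) ((a : Equiv.Perm α) x) = (a : Equiv.Perm α) x
  have h1 := hA k.1 k.2 a.1 a.2
  have h2 := congrArg (fun f : Equiv.Perm α => f x) h1
  simp only [Equiv.Perm.mul_apply] at h2
  rw [h2, hk']

theorem num (j : ℕ) : ∀ m, 1 ≤ m → m ≤ 3 * j + 8 → m ≠ 2 → m ≠ 3 →
    m * bd (3 * j + 8 - m) ≤ 16 * 3 ^ j := by
  intro m
  induction m using Nat.strong_induction_on with
  | _ m ih =>
    intro h1 hle h2 h3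
    rcases m with _ | _ | _ | _ | _ | _ | _ | m
    · omega
    · show 1 * bd (3 * j + 8 - 1) ≤ 16 * 3 ^ j
      have e : 3 * j + 8 - 1 = 3 * (j + 1 + 1) + 1 := by omega
      rw [e, bd_three_one, pow_succ]; omega
    · omega
    · omega
    · show 4 * bd (3 * j + 8 - 4) ≤ 16 * 3 ^ j
      have e : 3 * j + 8 - 4 = 3 * (j + 1) + 1 := by omega
      rw [e, bd_three_one]; omega
    · show 5 * bd (3 * j + 8 - 5) ≤ 16 * 3 ^ j
      have e : 3 * j + 8 - 5 = 3 * (j + 1) := by omega
      rw [e, bd_three, pow_succ]; omega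
    · show 6 * bd (3 * j + 8 - 6) ≤ 16 * 3 ^ j
      have e : 3 * j + 8 - 6 = 3 * j + 2 := by omega
      rw [e, bd_three_two]; omega
    · show (m + 7) * bd (3 * j + 8 - (m + 7)) ≤ 16 * 3 ^ j
      have hle' : m + 7 ≤ 3 * j + 8 := hle
      have hih := ih (m + 4) (by omega) (by omega) (by omega) (by omega) (by omega)
      have hf := bd_f3 (3 * j + 8 - (m + 7))
      have e : 3 * j + 8 - (m + 7) + 3 = 3 * j + 8 - (m + 4) := by omega
      rw [e] at hf
      have h4 : (m + 7) * bd (3 * j + 8 - (m + 7))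
          ≤ (m + 4) * (3 * bd (3 * j + 8 - (m + 7))) := by
        nlinarith [Nat.zero_le (bd (3 * j + 8 - (m + 7)))]
      have h5 : (m + 4) * (3 * bd (3 * j + 8 - (m + 7)))
          ≤ (m + 4) * bd (3 * j + 8 - (m + 4)) := Nat.mul_le_mul_left _ hf
      omega

theorem ub2 (j : ℕ) (α : Type) [Fintype α] [DecidableEq α] (hcard : Fintype.card α = 3 * j + 8)
    (A : Subgroup (Equiv.Perm α)) (hA : ∀ a ∈ A, ∀ b ∈ A, a * b = b * a)
    (hs : ∀ a ∈ A, Equiv.Perm.sign a = 1) : Nat.card ↥A ≤ 16 * 3 ^ j := by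
  by_contra hcon
  push_neg at hcon
  have hfin : ∀ x : α, (MulAction.orbit ↥A x).Finite := fun x => Set.toFinite _
  have horb : ∀ x : α, (MulAction.orbit ↥A x).ncard = 2 ∨ (MulAction.orbit ↥A x).ncard = 3 := by
    intro x
    have h1 := gen_bound A hA (MulAction.stabilizer ↥A x) (MulAction.orbit ↥A x)
      (fun k hk u hu => stab_fix A hA x k hk u hu)
    rw [MulAction.index_stabilizer, hcard] at h1
    have hpos : 1 ≤ (MulAction.orbit ↥A x).ncard :=
      (Set.ncard_pos (hfin x)).mpr ⟨x, MulAction.mem_orbit_self x⟩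
    have hle : (MulAction.orbit ↥A x).ncard ≤ 3 * j + 8 := by
      have := Set.ncard_le_card (MulAction.orbit ↥A x)
      rwa [Nat.card_eq_fintype_card, hcard] at this
    by_contra h2
    push_neg at h2
    have := num j _ hpos hle h2.1 h2.2
    omega
  have htwo : ∀ x y : α, (MulAction.orbit ↥A x).ncard = 2 → (MulAction.orbit ↥A y).ncard = 2 →
      y ∈ MulAction.orbit ↥A x := by
    intro x y hx hy
    by_contra hyx
    have hdisj : Disjoint (MulAction.orbit ↥A x) (MulAction.orbit ↥A y) := by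
      rcases MulAction.orbit.eq_or_disjoint (G := ↥A) x y with h | h
      · exfalso
        apply hyx
        rw [h]
        exact MulAction.mem_orbit_self y
      · exact h
    have h1 := gen_bound A hA (MulAction.stabilizer ↥A x ⊓ MulAction.stabilizer ↥A y)
      (MulAction.orbit ↥A x ∪ MulAction.orbit ↥A y) (by
        intro k hk u hu
        rcases hu with hu | hu
        · exact stab_fix A hA x k hk.1 u hu
        · exact stab_fix A hA y k hk.2 u hu)
    rw [Set.ncard_union_eq hdisj (hfin x) (hfin y), hx, hy, hcard] at h1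
    have h2 : (MulAction.stabilizer ↥A x ⊓ MulAction.stabilizer ↥A y).index ≤ 2 * 2 := by
      have := Subgroup.index_inf_le (H := MulAction.stabilizer ↥A x)
        (K := MulAction.stabilizer ↥A y)
      rwa [MulAction.index_stabilizer, MulAction.index_stabilizer, hx, hy] at this
    have e : 3 * j + 8 - (2 + 2) = 3 * (j + 1) + 1 := by omega
    rw [e, bd_three_one] at h1
    have h3 : (MulAction.stabilizer ↥A x ⊓ MulAction.stabilizer ↥A y).index * (4 * 3 ^ j)
        ≤ 2 * 2 * (4 * 3 ^ j) := Nat.mul_le_mul_right _ h2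
    omega
  have hnormal : ∀ z : α, (MulAction.stabilizer ↥A z).Normal := by
    intro z
    refine ⟨fun n hn g => ?_⟩
    have h1 : g * n * g⁻¹ = n := by
      have h2 : g * n = n * g := Subtype.ext (hA g.1 g.2 n.1 n.2)
      rw [h2, mul_inv_cancel_right]
    rw [h1]; exact hn
  have hcube : ∀ (a : ↥A) (z : α), (MulAction.orbit ↥A z).ncard = 3 →
      ((a : Equiv.Perm α) ^ 3) z = z := by
    intro a z hz
    haveI := hnormal z
    have h1 := Subgroup.pow_index_mem (MulAction.stabilizer ↥A z) a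
    rw [MulAction.index_stabilizer, hz] at h1
    exact h1
  by_cases hex : ∃ x : α, (MulAction.orbit ↥A x).ncard = 2
  · obtain ⟨x, hx⟩ := hex
    obtain ⟨y, hy, hyx⟩ := Set.exists_ne_of_one_lt_ncard (by rw [hx]; norm_num) x
    obtain ⟨a, rfl⟩ := hy
    have hax : (a : Equiv.Perm α) x ≠ x := hyx
    obtain ⟨p, q, hpq, horbx⟩ := Set.ncard_eq_two.mp hx
    have hmem : ∀ z, z ∈ MulAction.orbit ↥A x → z = x ∨ z = (a : Equiv.Perm α) x := by
      intro z hz
      have hx1 : x ∈ MulAction.orbit ↥A x := MulAction.mem_orbit_self x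
      have hx2 : (a : Equiv.Perm α) x ∈ MulAction.orbit ↥A x := ⟨a, rfl⟩
      rw [horbx] at hz hx1 hx2
      rcases hz with rfl | rfl <;> rcases hx1 with h1 | h1 <;> rcases hx2 with h2 | h2
      · left; exact h1.symm
      · left; exact h1.symm
      · right; exact h2.symm
      · exact absurd (h2.trans h1.symm) hax
      · exact absurd (h2.trans h1.symm) hax
      · right; exact h2.symm
      · left; exact h1.symm
      · left; exact h1.symm
    have haax : (a : Equiv.Perm α) ((a : Equiv.Perm α) x) = x := by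
      have h1 : (a : Equiv.Perm α) ((a : Equiv.Perm α) x) ∈ MulAction.orbit ↥A x := ⟨a * a, rfl⟩
      rcases hmem _ h1 with h | h
      · exact h
      · exact absurd ((a : Equiv.Perm α).injective h) hax
    have hswap : (a : Equiv.Perm α) ^ 3 = Equiv.swap x ((a : Equiv.Perm α) x) := by
      apply Equiv.ext
      intro z
      have hpow : ∀ w, ((a : Equiv.Perm α) ^ 3) w
          = (a : Equiv.Perm α) ((a : Equiv.Perm α) ((a : Equiv.Perm α) w)) := fun w => rfl
      by_cases hz1 : z = x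
      · rw [hz1, Equiv.swap_apply_left, hpow, haax]
      · by_cases hz2 : z = (a : Equiv.Perm α) x
        · rw [hz2, Equiv.swap_apply_right, hpow, haax, haax]
        · rw [Equiv.swap_apply_of_ne_of_ne hz1 hz2]
          apply hcube a z
          rcases horb z with h | h
          · exfalso
            rcases hmem z (htwo x z hx h) with h' | h'
            · exact hz1 h'
            · exact hz2 h'
          · exact h
    have h1 : Equiv.Perm.sign ((a : Equiv.Perm α) ^ 3) = 1 := by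
      rw [map_pow, hs _ a.2, one_pow]
    rw [hswap, Equiv.Perm.sign_swap (Ne.symm hax)] at h1
    exact absurd h1 (by decide)
  · push_neg at hex
    have h3 : ∀ z : α, (MulAction.orbit ↥A z).ncard = 3 := by
      intro z
      rcases horb z with h | h
      · exact absurd h (hex z)
      · exact h
    have hp : IsPGroup 3 ↥A := by
      intro g
      refine ⟨1, ?_⟩
      apply Subtype.ext
      apply Equiv.ext
      intro z
      rw [pow_one]
      exact hcube g z (h3 z)
    haveI : Fact (Nat.Prime 3) := ⟨by norm_num⟩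
    have hmod := hp.card_modEq_card_fixedPoints α
    have hempty : IsEmpty ↥(MulAction.fixedPoints ↥A α) := by
      refine ⟨fun ⟨z, hz⟩ => ?_⟩
      obtain ⟨y, hy, hyz⟩ := Set.exists_ne_of_one_lt_ncard (by rw [h3 z]; norm_num) z
      obtain ⟨b, rfl⟩ := hy
      exact hyz (hz b)
    rw [Nat.card_eq_fintype_card, hcard, Nat.card_of_isEmpty] at hmod
    have : (3 * j + 8) % 3 = 0 % 3 := hmod
    omega

/-- The largest order of an abelian subgroup of the alternating group of degree n is 3^k when n = 3k, 4·3^(k−1) when n = 3k + 1, and 16·3^(k−2) when n = 3k + 2, for every k ≥ 2 (so for all degrees n ≥ 6). -/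
theorem result (k : ℕ) (hk : 2 ≤ k) :
    IsGreatest {c : ℕ | ∃ A : Subgroup (alternatingGroup (Fin (3 * k))), IsMulCommutative A ∧ Nat.card A = c} (3 ^ k) ∧
    IsGreatest {c : ℕ | ∃ A : Subgroup (alternatingGroup (Fin (3 * k + 1))), IsMulCommutative A ∧ Nat.card A = c}
      (4 * 3 ^ (k - 1)) ∧
    IsGreatest {c : ℕ | ∃ A : Subgroup (alternatingGroup (Fin (3 * k + 2))), IsMulCommutative A ∧ Nat.card A = c}
      (16 * 3 ^ (k - 2)) := by
  obtain ⟨j, rfl⟩ : ∃ j, k = j + 2 := ⟨k - 2, by omega⟩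
  have hub : ∀ (n : ℕ) (c : ℕ), (∃ A : Subgroup (alternatingGroup (Fin n)), IsMulCommutative A ∧
      Nat.card A = c) → c ≤ bd n := by
    rintro n c ⟨A', hA', rfl⟩
    obtain ⟨A, hA, -, hc⟩ := from_alt A' hA'
    rw [← hc]
    exact ub n (Fin n) (Fintype.card_fin n) A hA
  refine ⟨⟨?_, ?_⟩, ⟨?_, ?_⟩, ⟨?_, ?_⟩⟩
  · exact to_alt (exA_three (j + 2))
  · intro c hc
    have h := hub _ c hc
    have h2 : bd (3 * (j + 2)) = 3 ^ (j + 2) := bd_three (j + 1)
    rwa [h2] at h
  · have h := exA_add exA_four (exA_three (j + 1))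
    have h1 : 4 + 3 * (j + 1) = 3 * (j + 2) + 1 := by ring
    have e1 : j + 2 - 1 = j + 1 := by omega
    rw [h1] at h
    rw [e1]
    exact to_alt h
  · intro c hc
    have h := hub _ c hc
    have h2 : bd (3 * (j + 2) + 1) = 4 * 3 ^ (j + 1) := bd_three_one (j + 1)
    have e1 : j + 2 - 1 = j + 1 := by omega
    rw [e1]
    rwa [h2] at h
  · have h := exA_add (exA_add exA_four exA_four) (exA_three j)
    have h1 : 4 + 4 + 3 * j = 3 * (j + 2) + 2 := by ring
    have e1 : j + 2 - 2 = j := by omega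
    rw [h1] at h
    rw [e1]
    exact to_alt h
  · rintro c ⟨A', hA', rfl⟩
    obtain ⟨A, hA, hsA, hc⟩ := from_alt A' hA'
    have e1 : j + 2 - 2 = j := by omega
    rw [e1, ← hc]
    exact ub2 j (Fin (3 * (j + 2) + 2)) (by rw [Fintype.card_fin]; ring) A hA hsA

end Cfsg.Agent.S2504
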