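import Cfsg.Statements.S2507
import Cfsg.Agent.S2302
import Cfsg.Agent.Helper12.SL2Trace
import Cfsg.Agent.Helper12.SL2Commutant

set_option autoImplicit false
open Cfsg

namespace Cfsg.Agent.S2507

open Cfsg.Agent.Helper12

theorem exists_elliptic {F : Type*} [Field F] [Fintype F] :
    ∃ t : F, ∀ z : F, z ^ 2 - t * z + 1 ≠ 0 := by
  classical
  have hq1 : 1 < Fintype.card F := Fintype.one_lt_card
  by_contra hcon
  push Not at hcon
  have hsurj : Function.Surjective (fun u : Fˣ => (u : F) + ((u⁻¹ : Fˣ) : F)) := by
    intro t
    obtain ⟨z, hz⟩ := hcon t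
    have hz0 : z ≠ 0 := by
      rintro rfl
      simp at hz
    refine ⟨Units.mk0 z hz0, ?_⟩
    simp only [Units.val_mk0, Units.val_inv_eq_inv_val]
    field_simp
    linear_combination hz
  have hle := Nat.card_le_card_of_surjective _ hsurj
  rw [Nat.card_units, Nat.card_eq_fintype_card] at hle
  omega

theorem exists_split {F : Type*} [Field F] [Fintype F] (h4 : 4 ≤ Fintype.card F) :
    ∃ lam : F, lam ≠ 0 ∧ lam ^ 2 ≠ 1 := by
  classical
  by_contra hcon
  push Not at hcon
  have hall : ∀ x : F, x ∈ ({0, 1, -1} : Finset F) := by
    intro x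
    by_cases hx : x = 0
    · simp [hx]
    · have h1 := hcon x hx
      have h' : (x - 1) * (x + 1) = 0 := by linear_combination h1
      rcases mul_eq_zero.mp h' with h | h
      · have : x = 1 := by linear_combination h
        simp [this]
      · have : x = -1 := by linear_combination h
        simp [this]
  have huniv : ({0, 1, -1} : Finset F) = Finset.univ := Finset.eq_univ_iff_forall.mpr hall
  have hc := congrArg Finset.card huniv
  rw [Finset.card_univ] at hc
  have h3 : ({0, 1, -1} : Finset F).card ≤ 3 := Finset.card_le_three
  omega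

/-- Let F be a finite field with q = 2^f ≥ 4 elements. The conjugacy class sizes of PSL(2,F) are exactly 1, q(q − 1), q² − 1 and q(q + 1). -/
theorem result {F : Type*} [Field F] [Fintype F]
    (h2 : 2 ∣ Fintype.card F) (h4 : 4 ≤ Fintype.card F) :
    Set.range (fun g : (Matrix.ProjectiveSpecialLinearGroup (Fin 2) F) => (Subgroup.centralizer ({g} : Set (Matrix.ProjectiveSpecialLinearGroup (Fin 2) F))).index) =
      {1, Fintype.card F * (Fintype.card F - 1), Fintype.card F ^ 2 - 1, Fintype.card F * (Fintype.card F + 1)} := by
  classical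
  obtain ⟨p, hp⟩ := CharP.exists F
  have hpp : p.Prime := CharP.char_is_prime F p
  obtain ⟨n, -, hn⟩ := FiniteField.card F p
  have hp2 : p = 2 := by
    rw [hn] at h2
    exact ((Nat.prime_dvd_prime_iff_eq Nat.prime_two hpp).mp (Nat.prime_two.dvd_of_dvd_pow h2)).symm
  subst hp2
  have h2F : (2 : F) = 0 := char2_two_eq_zero
  have hq1 : 1 < Fintype.card F := Fintype.one_lt_card
  let e : Matrix.SpecialLinearGroup (Fin 2) F ≃* Matrix.ProjectiveSpecialLinearGroup (Fin 2) F :=
    MulEquiv.ofBijective (QuotientGroup.mk' (Subgroup.center (Matrix.SpecialLinearGroup (Fin 2) F)))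
      ⟨psl2_mk_injective_char2 h2F, QuotientGroup.mk'_surjective _⟩
  have hidx : ∀ A : Matrix.SpecialLinearGroup (Fin 2) F,
      (Subgroup.centralizer ({(QuotientGroup.mk A : Matrix.ProjectiveSpecialLinearGroup (Fin 2) F)} :
        Set (Matrix.ProjectiveSpecialLinearGroup (Fin 2) F))).index =
      Nat.card (ConjClasses.mk A).carrier := by
    intro A
    rw [← index_centralizer_eq_card_carrier]
    exact index_centralizer_mulEquiv e A
  have harith : Fintype.card F * (Fintype.card F - 1) + 2 * Fintype.card F =
      Fintype.card F * (Fintype.card F + 1) := by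
    obtain ⟨k, hk⟩ : ∃ k, Fintype.card F = k + 1 := ⟨Fintype.card F - 1, by omega⟩
    rw [hk, Nat.add_sub_cancel]
    ring
  ext m
  simp only [Set.mem_range, Set.mem_insert_iff, Set.mem_singleton_iff]
  constructor
  · rintro ⟨g, rfl⟩
    obtain ⟨A, rfl⟩ := QuotientGroup.mk_surjective g
    rw [hidx A]
    by_cases hA1 : A = 1
    · left
      subst hA1
      rw [← index_centralizer_eq_card_carrier]
      have htop : Subgroup.centralizer ({(1 : Matrix.SpecialLinearGroup (Fin 2) F)} :
          Set (Matrix.SpecialLinearGroup (Fin 2) F)) = ⊤ := by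
        ext x
        simp [Subgroup.mem_centralizer_singleton_iff]
      rw [htop, Subgroup.index_top]
    · by_cases ht : (A : Matrix (Fin 2) (Fin 2) F).trace = 0
      · right; right; left
        have hord : orderOf A = 2 := by
          apply orderOf_eq_prime
          · rw [pow_two, sl2_char2_mul_self_eq_one_iff]
            rw [Matrix.trace_fin_two] at ht
            linear_combination ht - (A : Matrix (Fin 2) (Fin 2) F) 1 1 * h2F
          · exact hA1
        exact (Cfsg.Agent.S2302.result A A hord hord).2
      · rw [sl2_char2_card_carrier A ht]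
        by_cases hroot : ∃ z : F, z ^ 2 - (A : Matrix (Fin 2) (Fin 2) F).trace * z + 1 = 0
        · right; right; right
          obtain ⟨lam, hlam⟩ := hroot
          have hne : lam ≠ (A : Matrix (Fin 2) (Fin 2) F).trace - lam := by
            intro h
            apply ht
            linear_combination (-1 : F) * h + lam * h2F
          rw [card_roots_two _ lam hlam hne]
          exact harith
        · right; left
          push Not at hroot
          rw [card_roots_none _ hroot]
          simp
  · rintro (rfl | rfl | rfl | rfl)
    · refine ⟨1, ?_⟩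
      have htop : Subgroup.centralizer ({(1 : Matrix.ProjectiveSpecialLinearGroup (Fin 2) F)} :
          Set (Matrix.ProjectiveSpecialLinearGroup (Fin 2) F)) = ⊤ := by
        ext x
        simp [Subgroup.mem_centralizer_singleton_iff]
      rw [htop, Subgroup.index_top]
    · obtain ⟨t, htr⟩ := exists_elliptic (F := F)
      have ht0 : t ≠ 0 := by
        rintro rfl
        apply htr 1
        linear_combination h2F
      refine ⟨QuotientGroup.mk (sl2Comp t 1 one_ne_zero), ?_⟩
      have htr' : ((sl2Comp t 1 one_ne_zero : Matrix.SpecialLinearGroup (Fin 2) F) :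
          Matrix (Fin 2) (Fin 2) F).trace = t := by
        simp [Matrix.trace_fin_two]
      rw [hidx, sl2_char2_card_carrier _ (by rw [htr']; exact ht0), htr', card_roots_none _ htr]
      simp
    · refine ⟨QuotientGroup.mk (sl2mk 1 1 0 1 (by ring)), ?_⟩
      rw [hidx]
      have hord : orderOf (sl2mk (1 : F) 1 0 1 (by ring)) = 2 := by
        apply orderOf_eq_prime
        · rw [pow_two, sl2_char2_mul_self_eq_one_iff]
          simp
        · intro h
          have h' := congrArg (fun x : Matrix.SpecialLinearGroup (Fin 2) F =>
            (x : Matrix (Fin 2) (Fin 2) F) 0 1) h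
          simp at h'
      exact (Cfsg.Agent.S2302.result _ _ hord hord).2
    · obtain ⟨lam, hl0, hl1⟩ := exists_split (F := F) h4
      have ht0 : lam + lam⁻¹ ≠ 0 := by
        intro h
        apply hl1
        have h' : lam ^ 2 + 1 = 0 := by
          field_simp at h
          linear_combination h
        linear_combination h' - h2F
      refine ⟨QuotientGroup.mk (sl2Comp (lam + lam⁻¹) 1 one_ne_zero), ?_⟩
      have htr' : ((sl2Comp (lam + lam⁻¹) 1 one_ne_zero : Matrix.SpecialLinearGroup (Fin 2) F) :
          Matrix (Fin 2) (Fin 2) F).trace = lam + lam⁻¹ := by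
        simp [Matrix.trace_fin_two]
      have hroot : lam ^ 2 - (lam + lam⁻¹) * lam + 1 = 0 := by
        field_simp
        ring
      have hne : lam ≠ (lam + lam⁻¹) - lam := by
        intro h
        apply hl1
        field_simp at h
        linear_combination h
      rw [hidx, sl2_char2_card_carrier _ (by rw [htr']; exact ht0), htr',
        card_roots_two _ lam hroot hne]
      exact harith

end Cfsg.Agent.S2507
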