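import Cfsg.Statements.S2508
import Cfsg.Agent.S2507
import Cfsg.Agent.Helper12.PSL2Class

set_option autoImplicit false
open Cfsg

namespace Cfsg.Agent.S2508

open Cfsg.Agent.Helper12

theorem exists_elliptic_ne_zero {F : Type*} [Field F] [Fintype F] (hodd : Odd (Fintype.card F))
    (h7 : 7 ≤ Fintype.card F) : ∃ t : F, t ≠ 0 ∧ ∀ z : F, z ^ 2 - t * z + 1 ≠ 0 := by
  have h2 : (2 : F) ≠ 0 := two_ne_zero_of_odd hodd
  by_cases hsq : IsSquare (-1 : F)
  · obtain ⟨i, hi⟩ := hsq
    obtain ⟨t, ht⟩ := Cfsg.Agent.S2507.exists_elliptic (F := F)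
    refine ⟨t, ?_, ht⟩
    rintro rfl
    exact ht i (by linear_combination (-1 : F) * hi)
  · obtain ⟨m, hm0, hm1⟩ := Cfsg.Agent.S2507.exists_split (F := F) (by omega)
    have hd : 1 + m ^ 2 ≠ 0 := by
      intro h
      exact hsq ⟨m, by linear_combination (-1 : F) * h⟩
    have hnum : 2 * (1 - m ^ 2) ≠ 0 := by
      apply mul_ne_zero h2
      intro h
      apply hm1
      linear_combination (-1 : F) * h
    refine ⟨2 * (1 - m ^ 2) * (1 + m ^ 2)⁻¹, mul_ne_zero hnum (inv_ne_zero hd), ?_⟩
    intro z hz
    apply hsq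
    have ht : 2 * (1 - m ^ 2) * (1 + m ^ 2)⁻¹ * (1 + m ^ 2) = 2 * (1 - m ^ 2) := by
      rw [mul_assoc, inv_mul_cancel₀ hd, mul_one]
    have hz' : (1 + m ^ 2) * z ^ 2 - 2 * (1 - m ^ 2) * z + (1 + m ^ 2) = 0 := by
      linear_combination (1 + m ^ 2) * hz + z * ht
    have hr : (2 * (1 + m ^ 2) * z - 2 * (1 - m ^ 2)) ^ 2 = -(4 * m) ^ 2 := by
      linear_combination (4 * (1 + m ^ 2)) * hz'
    have h4m : (4 : F) * m ≠ 0 := by
      have h4 : (4 : F) = 2 * 2 := by norm_num
      rw [h4]
      exact mul_ne_zero (mul_ne_zero h2 h2) hm0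
    refine ⟨(2 * (1 + m ^ 2) * z - 2 * (1 - m ^ 2)) / (4 * m), ?_⟩
    rw [div_mul_div_comm, eq_div_iff (mul_ne_zero h4m h4m)]
    linear_combination (-1 : F) * hr

theorem range_eq {F : Type*} [Field F] [Fintype F]
    (hodd : ¬ 2 ∣ Fintype.card F) (h7 : 7 ≤ Fintype.card F) :
    Set.range (fun g : (Matrix.ProjectiveSpecialLinearGroup (Fin 2) F) => (Subgroup.centralizer ({g} : Set (Matrix.ProjectiveSpecialLinearGroup (Fin 2) F))).index) =
      {1, (Fintype.card F ^ 2 - 1) / 2,
        (Fintype.card F * (Fintype.card F - 1) +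
          Nat.card {a : F // a ^ 2 - (0 : F) * a + 1 = 0} * Fintype.card F) / 2,
        Fintype.card F * (Fintype.card F - 1), Fintype.card F * (Fintype.card F + 1)} := by
  classical
  have hodd' : Odd (Fintype.card F) := Nat.not_even_iff_odd.mp (fun h => hodd (even_iff_two_dvd.mp h))
  have h2 : (2 : F) ≠ 0 := two_ne_zero_of_odd hodd'
  have hq1 : 1 < Fintype.card F := Fintype.one_lt_card
  have harith : Fintype.card F * (Fintype.card F - 1) + 2 * Fintype.card F =
      Fintype.card F * (Fintype.card F + 1) := by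
    obtain ⟨k, hk⟩ : ∃ k, Fintype.card F = k + 1 := ⟨Fintype.card F - 1, by omega⟩
    rw [hk, Nat.add_sub_cancel]
    ring
  ext m
  simp only [Set.mem_range, Set.mem_insert_iff, Set.mem_singleton_iff]
  constructor
  · rintro ⟨g, rfl⟩
    obtain ⟨A, rfl⟩ := QuotientGroup.mk_surjective g
    by_cases hs : Sl2Scalar A
    · left
      exact psl2_index_scalar A hs
    · by_cases ht4 : (A : Matrix (Fin 2) (Fin 2) F).trace ^ 2 = 4
      · right; left
        exact psl2_index_unip hodd' A hs ht4
      · by_cases ht0 : (A : Matrix (Fin 2) (Fin 2) F).trace = 0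
        · right; right; left
          have h5 := psl2_index_trace_zero hodd' A ht0
          rw [← h5, Nat.mul_div_cancel_left _ (by norm_num : 0 < 2)]
        · have h5 := psl2_index_regular hodd' A ht4 ht0
          rcases card_roots_zero_or_two _ ht4 with h | h
          · right; right; right; left
            rw [h5, h, zero_mul, add_zero]
          · right; right; right; right
            rw [h5, h]
            exact harith
  · rintro (rfl | rfl | rfl | rfl | rfl)
    · exact ⟨QuotientGroup.mk 1, psl2_index_scalar 1 (by simp [Sl2Scalar])⟩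
    · refine ⟨QuotientGroup.mk (sl2U 1), psl2_index_unip hodd' (sl2U 1) ?_ ?_⟩
      · intro hs
        obtain ⟨h01, -, -⟩ := hs
        simp at h01
      · have htr : ((sl2U (1 : F) : Matrix.SpecialLinearGroup (Fin 2) F) :
            Matrix (Fin 2) (Fin 2) F).trace = 2 := by
          rw [sl2U_val, Matrix.trace_fin_two_of]
          norm_num
        rw [htr]
        norm_num
    · have htr : ((sl2mk (0 : F) (-1) 1 0 (by ring) : Matrix.SpecialLinearGroup (Fin 2) F) :
          Matrix (Fin 2) (Fin 2) F).trace = 0 := by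
        rw [sl2mk_val, Matrix.trace_fin_two_of]
        ring
      refine ⟨QuotientGroup.mk (sl2mk (0 : F) (-1) 1 0 (by ring)), ?_⟩
      have h5 := psl2_index_trace_zero hodd' _ htr
      rw [← h5, Nat.mul_div_cancel_left _ (by norm_num : 0 < 2)]
    · obtain ⟨t, ht0, hroot⟩ := exists_elliptic_ne_zero hodd' h7
      have htr' : ((sl2Comp t 1 one_ne_zero : Matrix.SpecialLinearGroup (Fin 2) F) :
          Matrix (Fin 2) (Fin 2) F).trace = t := by
        simp [Matrix.trace_fin_two]
      refine ⟨QuotientGroup.mk (sl2Comp t 1 one_ne_zero), ?_⟩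
      rw [psl2_index_regular hodd' _ (by rw [htr']; exact sq_ne_four_of_no_root t hroot)
        (by rw [htr']; exact ht0), htr', card_roots_none t hroot, zero_mul, add_zero]
    · obtain ⟨a, ha0, ha4⟩ := exists_pow_four_ne_one (F := F) h7
      have ha2 : a ^ 2 ≠ 1 := by
        intro h
        apply ha4
        linear_combination (a ^ 2 + 1) * h
      have ha2' : a ^ 2 ≠ -1 := by
        intro h
        apply ha4
        linear_combination (a ^ 2 - 1) * h
      have hm : a * a⁻¹ = 1 := mul_inv_cancel₀ ha0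
      have ht0 : a + a⁻¹ ≠ 0 := by
        intro h
        apply ha2'
        linear_combination a * h - hm
      have hroot : a ^ 2 - (a + a⁻¹) * a + 1 = 0 := by linear_combination (-1 : F) * hm
      have hne : a ≠ (a + a⁻¹) - a := by
        intro h
        apply ha2
        linear_combination a * h + hm
      have ht4 : (a + a⁻¹) ^ 2 ≠ 4 := by
        intro h
        have h5 : (a - a⁻¹) ^ 2 = 0 := by linear_combination h - 4 * hm
        have h6 := pow_eq_zero_iff (two_ne_zero) |>.mp h5
        apply hne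
        linear_combination h6
      have htr' : ((sl2Comp (a + a⁻¹) 1 one_ne_zero : Matrix.SpecialLinearGroup (Fin 2) F) :
          Matrix (Fin 2) (Fin 2) F).trace = a + a⁻¹ := by
        simp [Matrix.trace_fin_two]
      refine ⟨QuotientGroup.mk (sl2Comp (a + a⁻¹) 1 one_ne_zero), ?_⟩
      rw [psl2_index_regular hodd' _ (by rw [htr']; exact ht4) (by rw [htr']; exact ht0), htr',
        card_roots_two _ a hroot hne]
      exact harith

/-- Let F be a finite field with q elements, q odd and q ≥ 7. If q ≡ 1 (mod 4) the conjugacy class sizes of PSL(2,F) are exactly 1, (q² − 1)/2, q(q + 1)/2, q(q − 1) and q(q + 1); if q ≡ 3 (mod 4) they are exactly 1, (q² − 1)/2, q(q − 1)/2, q(q + 1) and q(q − 1). -/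
theorem result {F : Type*} [Field F] [Fintype F]
    (hodd : ¬ 2 ∣ Fintype.card F) (h7 : 7 ≤ Fintype.card F) :
    (Fintype.card F % 4 = 1 →
      Set.range (fun g : (Matrix.ProjectiveSpecialLinearGroup (Fin 2) F) => (Subgroup.centralizer ({g} : Set (Matrix.ProjectiveSpecialLinearGroup (Fin 2) F))).index) =
        {1, (Fintype.card F ^ 2 - 1) / 2, Fintype.card F * (Fintype.card F + 1) / 2,
          Fintype.card F * (Fintype.card F - 1), Fintype.card F * (Fintype.card F + 1)}) ∧
    (Fintype.card F % 4 = 3 →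
      Set.range (fun g : (Matrix.ProjectiveSpecialLinearGroup (Fin 2) F) => (Subgroup.centralizer ({g} : Set (Matrix.ProjectiveSpecialLinearGroup (Fin 2) F))).index) =
        {1, (Fintype.card F ^ 2 - 1) / 2, Fintype.card F * (Fintype.card F - 1) / 2,
          Fintype.card F * (Fintype.card F + 1), Fintype.card F * (Fintype.card F - 1)}) := by
  have hrange := range_eq hodd h7
  have hodd' : Odd (Fintype.card F) := Nat.not_even_iff_odd.mp (fun h => hodd (even_iff_two_dvd.mp h))
  have h2 : (2 : F) ≠ 0 := two_ne_zero_of_odd hodd'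
  have hq1 : 1 < Fintype.card F := Fintype.one_lt_card
  have harith : Fintype.card F * (Fintype.card F - 1) + 2 * Fintype.card F =
      Fintype.card F * (Fintype.card F + 1) := by
    obtain ⟨k, hk⟩ : ∃ k, Fintype.card F = k + 1 := ⟨Fintype.card F - 1, by omega⟩
    rw [hk, Nat.add_sub_cancel]
    ring
  constructor
  · intro hq
    rw [hrange, card_roots_trace_zero_of_sq h2 hq, harith]
  · intro hq
    rw [hrange, card_roots_trace_zero_of_not_sq hq, zero_mul, add_zero,
      Set.pair_comm (Fintype.card F * (Fintype.card F - 1)) (Fintype.card F * (Fintype.card F + 1))]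

end Cfsg.Agent.S2508
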