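import Cfsg.Statements.S2514
import Mathlib
-- import your own Cfsg.Agent.* helpers here

set_option autoImplicit false
open Cfsg

namespace Cfsg.Agent.S2514

/-- The set of element orders of `X` that are maximal under divisibility. -/
def mu (X : Type*) [Group X] : Set ℕ :=
  {n : ℕ | n ∈ Set.range (orderOf : X → ℕ) ∧ ∀ m ∈ Set.range (orderOf : X → ℕ), n ∣ m → m = n}

theorem exists_max {X : Type*} [Group X] [Finite X] (x : X) :
    ∃ M, M ∈ mu X ∧ orderOf x ∣ M := by
  classical
  let P : ℕ → Prop := fun t => t ∈ Set.range (orderOf : X → ℕ) ∧ orderOf x ∣ t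
  have hP : P (orderOf x) := ⟨⟨x, rfl⟩, dvd_rfl⟩
  have hb : orderOf x ≤ Nat.card X := orderOf_le_card
  have hspec : P (Nat.findGreatest P (Nat.card X)) := Nat.findGreatest_spec hb hP
  refine ⟨Nat.findGreatest P (Nat.card X), ⟨hspec.1, ?_⟩, hspec.2⟩
  rintro m ⟨z, rfl⟩ hdiv
  have hPm : P (orderOf z) := ⟨⟨z, rfl⟩, hspec.2.trans hdiv⟩
  have h1 : orderOf z ≤ Nat.findGreatest P (Nat.card X) :=
    Nat.le_findGreatest orderOf_le_card hPm
  have h2 : Nat.findGreatest P (Nat.card X) ≤ orderOf z := Nat.le_of_dvd (orderOf_pos z) hdiv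
  exact le_antisymm h1 h2

/-- For a finite group X write μ(X) for the set of element orders of X that are maximal under divisibility. Let G and H be finite groups and k ≥ 1 such that μ(H) ⊆ μ(G) and μ(G) has fewer than k elements outside μ(H). Then the direct product of k copies of G has the same set of element orders as the direct product of k − 1 copies of G with H. -/
theorem result {G H : Type*} [Group G] [Finite G] [Group H] [Finite H] (k : ℕ) (hk : 1 ≤ k)
    (hsub : {n : ℕ | n ∈ Set.range (orderOf : H → ℕ) ∧ ∀ m ∈ Set.range (orderOf : H → ℕ), n ∣ m → m = n} ⊆ {n : ℕ | n ∈ Set.range (orderOf : G → ℕ) ∧ ∀ m ∈ Set.range (orderOf : G → ℕ), n ∣ m → m = n})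
    (hfew : ({n : ℕ | n ∈ Set.range (orderOf : G → ℕ) ∧ ∀ m ∈ Set.range (orderOf : G → ℕ), n ∣ m → m = n} \ {n : ℕ | n ∈ Set.range (orderOf : H → ℕ) ∧ ∀ m ∈ Set.range (orderOf : H → ℕ), n ∣ m → m = n}).ncard < k) :
    Set.range (orderOf : (Fin k → G) → ℕ) = Set.range (orderOf : (Fin (k - 1) → G) × H → ℕ) := by
  classical
  have hsub' : mu H ⊆ mu G := hsub
  obtain ⟨r, rfl⟩ : ∃ r, k = r + 1 := ⟨k - 1, by omega⟩
  have hfew' : (mu G \ mu H).ncard < r + 1 := hfew
  change Set.range (orderOf : (Fin (r + 1) → G) → ℕ)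
    = Set.range (orderOf : (Fin r → G) × H → ℕ)
  apply Set.Subset.antisymm
  · rintro _ ⟨x, rfl⟩
    have hM : ∀ i, ∃ g : G, orderOf g ∈ mu G ∧ orderOf (x i) ∣ orderOf g := by
      intro i
      obtain ⟨M, hM1, hM2⟩ := exists_max (x i)
      obtain ⟨g, rfl⟩ := hM1.1
      exact ⟨g, hM1, hM2⟩
    choose g hg1 hg2 using hM
    have key : ∃ y : (Fin r → G) × H, ∀ i, orderOf (g i) ∣ orderOf y := by
      by_cases hA : ∃ i₀, orderOf (g i₀) ∈ mu H
      · obtain ⟨i₀, hi₀⟩ := hA
        obtain ⟨h₀, hh₀⟩ := hi₀.1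
        refine ⟨(fun j => g (i₀.succAbove j), h₀), fun i => ?_⟩
        by_cases hi : i = i₀
        · rw [hi, ← hh₀, Prod.orderOf_mk]
          exact Nat.dvd_lcm_right _ _
        · obtain ⟨j, rfl⟩ := Fin.exists_succAbove_eq hi
          rw [Prod.orderOf_mk]
          refine dvd_trans ?_ (Nat.dvd_lcm_left _ _)
          rw [orderOf_dvd_iff_pow_eq_one]
          have h1 := pow_orderOf_eq_one (fun j => g (i₀.succAbove j))
          exact congrFun h1 j
      · push Not at hA
        have hmaps : ∀ i ∈ (Set.univ : Set (Fin (r + 1))), orderOf (g i) ∈ mu G \ mu H :=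
          fun i _ => ⟨hg1 i, hA i⟩
        have hfin : (mu G \ mu H).Finite :=
          (Set.finite_range (orderOf : G → ℕ)).subset (fun a ha => ha.1.1)
        have hc : (mu G \ mu H).ncard < (Set.univ : Set (Fin (r + 1))).ncard := by
          rw [Set.ncard_univ, Nat.card_fin]; exact hfew'
        obtain ⟨i, _, j, _, hij, hgij⟩ :=
          Set.exists_ne_map_eq_of_ncard_lt_of_maps_to hc hmaps hfin
        refine ⟨(fun j' => g (j.succAbove j'), 1), fun i' => ?_⟩
        have hsucc : ∀ j', orderOf (g (j.succAbove j'))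
            ∣ orderOf ((fun j' => g (j.succAbove j'), (1 : H)) : (Fin r → G) × H) := by
          intro j'
          rw [Prod.orderOf_mk]
          refine dvd_trans ?_ (Nat.dvd_lcm_left _ _)
          rw [orderOf_dvd_iff_pow_eq_one]
          have h1 := pow_orderOf_eq_one (fun j' => g (j.succAbove j'))
          exact congrFun h1 j'
        by_cases hi : i' = j
        · obtain ⟨j', hj'⟩ := Fin.exists_succAbove_eq hij
          have h5 : orderOf (g i') = orderOf (g (j.succAbove j')) := by
            rw [hi, hj', hgij]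
          rw [h5]
          exact hsucc j'
        · obtain ⟨j', rfl⟩ := Fin.exists_succAbove_eq hi
          exact hsucc j'
    obtain ⟨y, hy⟩ := key
    have hdvd : orderOf x ∣ orderOf y := by
      rw [orderOf_dvd_iff_pow_eq_one]
      funext i
      show (x i) ^ orderOf y = 1
      rw [← orderOf_dvd_iff_pow_eq_one]
      exact (hg2 i).trans (hy i)
    exact ⟨y ^ (orderOf y / orderOf x), orderOf_pow_orderOf_div (orderOf_pos y).ne' hdvd⟩
  · rintro _ ⟨⟨y', h⟩, rfl⟩
    obtain ⟨M, hM1, hM2⟩ := exists_max h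
    obtain ⟨g₀, hg₀⟩ := (hsub' hM1).1
    have hdvd : orderOf ((y', h) : (Fin r → G) × H)
        ∣ orderOf (Fin.cons g₀ y' : Fin (r + 1) → G) := by
      rw [orderOf_dvd_iff_pow_eq_one]
      have h1 := pow_orderOf_eq_one (Fin.cons g₀ y' : Fin (r + 1) → G)
      have h0 : g₀ ^ orderOf (Fin.cons g₀ y' : Fin (r + 1) → G) = 1 := by
        have h2 := congrFun h1 0
        simpa using h2
      refine Prod.ext ?_ ?_
      · funext j
        have h2 := congrFun h1 j.succ
        simpa using h2
      · show h ^ _ = 1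
        rw [← orderOf_dvd_iff_pow_eq_one]
        refine hM2.trans ?_
        rw [← hg₀, orderOf_dvd_iff_pow_eq_one]
        exact h0
    exact ⟨(Fin.cons g₀ y' : Fin (r + 1) → G)
        ^ (orderOf (Fin.cons g₀ y' : Fin (r + 1) → G) / orderOf ((y', h) : (Fin r → G) × H)),
      orderOf_pow_orderOf_div (orderOf_pos _).ne' hdvd⟩

end Cfsg.Agent.S2514
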