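import Cfsg.Statements.S2516
import Mathlib

set_option autoImplicit false
open Cfsg

namespace Cfsg.Agent.S2516

section
variable {F : Type*} [Field F] {V : Type*} [AddCommGroup V] [Module F V] {G : Type*} [Group G]
  (ρ : Representation F G V)

/-- the action hom of the statement. -/
abbrev act : G →* MulAut (Multiplicative V) :=
  (MulAutMultiplicative V).symm.toMonoidHom.comp
    ((DistribMulAction.toAddAut ((V →ₗ[F] V)ˣ) V).comp ρ.asGroupHom)

theorem act_apply (g : G) (v : Multiplicative V) :
    act ρ g v = Multiplicative.ofAdd (ρ g (Multiplicative.toAdd v)) := by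
  rfl

theorem act_pow_apply (g : G) (n : ℕ) (v : Multiplicative V) :
    (act ρ g ^ n) v = Multiplicative.ofAdd ((ρ g ^ n) (Multiplicative.toAdd v)) := by
  induction n generalizing v with
  | zero => rfl
  | succ n ih =>
    rw [pow_succ, MulAut.mul_apply, ih, pow_succ, Module.End.mul_apply, act_apply]
    rfl

theorem pow_eq (x : Multiplicative V ⋊[act ρ] G) (n : ℕ) :
    x ^ n = ⟨Multiplicative.ofAdd (∑ i ∈ Finset.range n, (ρ x.right ^ i) (Multiplicative.toAdd x.left)),
      x.right ^ n⟩ := by
  induction n with
  | zero =>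
    rw [pow_zero]
    ext
    · simp
    · simp
  | succ n ih =>
    rw [pow_succ, ih]
    ext
    · rw [SemidirectProduct.mul_left]
      show _ * (act ρ (x.right ^ n)) x.left = _
      rw [map_pow, act_pow_apply, Finset.sum_range_succ, ofAdd_add]
      rfl
    · rw [SemidirectProduct.mul_right, pow_succ]

end

/-- Let F be a field of characteristic p > 0, V a non-zero finite-dimensional F-vector space, G a finite group and ρ a representation of G on V; form the semidirect product V ⋊ G. For g ∈ G of order k, the coset Vg contains an element of order pk if and only if the minimal polynomial of ρ(g) does not divide 1 + X + ⋯ + X^(k−1). -/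
theorem result {F : Type*} [Field F] (p : ℕ) [Fact p.Prime] [CharP F p] {V : Type*} [AddCommGroup V] [Module F V] [FiniteDimensional F V] [Nontrivial V]
    {G : Type*} [Group G] [Finite G] (ρ : Representation F G V) (g : G) :
    (∃ x : Multiplicative V ⋊[(MulAutMultiplicative V).symm.toMonoidHom.comp
        ((DistribMulAction.toAddAut ((V →ₗ[F] V)ˣ) V).comp ρ.asGroupHom)] G,
        x.right = g ∧ orderOf x = p * orderOf g) ↔
      ¬ (minpoly F (ρ g) ∣ ∑ i ∈ Finset.range (orderOf g), (Polynomial.X : Polynomial F) ^ i) := by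
  classical
  have hp : p.Prime := Fact.out
  set k := orderOf g with hk
  have hkpos : 0 < k := orderOf_pos g
  -- the norm endomorphism
  set N : V →ₗ[F] V := ∑ i ∈ Finset.range k, ρ g ^ i with hN
  have hNaeval : Polynomial.aeval (ρ g) (∑ i ∈ Finset.range k, (Polynomial.X : Polynomial F) ^ i) = N := by
    simp [hN]
  rw [minpoly.dvd_iff, hNaeval]
  -- k-th power of an element over g
  have hpowk : ∀ x : Multiplicative V ⋊[act ρ] G, x.right = g →
      x ^ k = ⟨Multiplicative.ofAdd (N (Multiplicative.toAdd x.left)), 1⟩ := by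
    intro x hx
    rw [pow_eq, hx, hk, pow_orderOf_eq_one, hN, LinearMap.sum_apply]
  constructor
  · rintro ⟨x, hx, hord⟩ hN0
    have h1 : x ^ k = 1 := by
      rw [hpowk x hx, hN0]
      rfl
    have hdvd : p * k ∣ k := by
      rw [← hord]; exact orderOf_dvd_of_pow_eq_one h1
    have hle := Nat.le_of_dvd hkpos hdvd
    have := hp.two_le
    nlinarith
  · intro hN0
    obtain ⟨v, hv⟩ : ∃ v, N v ≠ 0 := by
      by_contra hcon
      push Not at hcon
      exact hN0 (LinearMap.ext hcon)
    refine ⟨⟨Multiplicative.ofAdd v, g⟩, rfl, ?_⟩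
    set x : Multiplicative V ⋊[act ρ] G := ⟨Multiplicative.ofAdd v, g⟩ with hxdef
    have hxk : x ^ k = ⟨Multiplicative.ofAdd (N v), 1⟩ := hpowk x rfl
    have hxk_ne : x ^ k ≠ 1 := by
      rw [hxk]
      intro h
      have := congrArg SemidirectProduct.left h
      exact hv this
    have hxkp : x ^ (k * p) = 1 := by
      rw [pow_mul, hxk, pow_eq]
      ext
      · show Multiplicative.ofAdd (∑ i ∈ Finset.range p, (ρ 1 ^ i) (N v)) = 1
        simp only [map_one, one_pow, Module.End.one_apply, Finset.sum_const, Finset.card_range]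
        have : p • N v = 0 := by
          rw [← Nat.cast_smul_eq_nsmul F, CharP.cast_eq_zero, zero_smul]
        rw [this]; rfl
      · show (1 : G) ^ p = 1
        exact one_pow p
    have h1 : k ∣ orderOf x := by
      have := orderOf_map_dvd (SemidirectProduct.rightHom : Multiplicative V ⋊[act ρ] G →* G) x
      exact this
    have h2 : orderOf x ∣ k * p := orderOf_dvd_of_pow_eq_one hxkp
    have h3 : ¬ orderOf x ∣ k := fun h => hxk_ne (orderOf_dvd_iff_pow_eq_one.mp h)
    obtain ⟨d, hd⟩ := h1
    rw [hd] at h2 h3
    have hdp : d ∣ p := Nat.dvd_of_mul_dvd_mul_left hkpos h2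
    rcases (Nat.dvd_prime hp).mp hdp with rfl | rfl
    · exact absurd (by simp) h3
    · rw [hd, mul_comm]

end Cfsg.Agent.S2516
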