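import Cfsg.Statements.S2521
import Mathlib

set_option autoImplicit false
open Cfsg

namespace Cfsg.Agent.S2521

/-- Let B be a finite group that is the semidirect product of a nilpotent normal subgroup U by an abelian subgroup T (U ∩ T = 1, UT = B), and let t ∈ T have centralizer exactly T. Then every element of the coset tU is conjugate to t in B: for each u ∈ U there is b ∈ B with b t b⁻¹ = t u. -/
theorem result {B : Type*} [Group B] [Finite B] (U T : Subgroup B) [U.Normal] (hU : Group.IsNilpotent ↥U) (hT : IsMulCommutative ↥T)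
    (hcompl : Subgroup.IsComplement' U T) (t : B) (ht : t ∈ T) (hreg : Subgroup.centralizer ({t} : Set B) = T) (u : B) (hu : u ∈ U) :
    ∃ b : B, b * t * b⁻¹ = t * u := by
  classical
  -- the map U → U, b ↦ t⁻¹ * b * t * b⁻¹
  have hmem : ∀ b : U, t⁻¹ * (b : B) * t * (b : B)⁻¹ ∈ U := by
    intro b
    have h1 : t⁻¹ * (b : B) * t⁻¹⁻¹ ∈ U := Subgroup.Normal.conj_mem inferInstance _ b.2 _
    rw [inv_inv] at h1
    exact U.mul_mem h1 (U.inv_mem b.2)
  let f : U → U := fun b => ⟨t⁻¹ * (b : B) * t * (b : B)⁻¹, hmem b⟩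
  have hdisj : U ⊓ T = ⊥ := hcompl.disjoint.eq_bot
  have hinj : Function.Injective f := by
    intro b c hbc
    have h : t⁻¹ * (b : B) * t * (b : B)⁻¹ = t⁻¹ * (c : B) * t * (c : B)⁻¹ := congrArg Subtype.val hbc
    have h2 : (b : B) * t * (b : B)⁻¹ = (c : B) * t * (c : B)⁻¹ := by
      have := congrArg (fun x => t * x) h
      simpa [mul_assoc] using this
    -- c⁻¹ b commutes with t
    have h3 : ((c : B)⁻¹ * (b : B)) * t = t * ((c : B)⁻¹ * (b : B)) := by
      have := congrArg (fun x => (c : B)⁻¹ * x * (b : B)) h2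
      simpa [mul_assoc] using this
    have h4 : (c : B)⁻¹ * (b : B) ∈ Subgroup.centralizer ({t} : Set B) := by
      rw [Subgroup.mem_centralizer_iff]
      intro x hx
      rw [Set.mem_singleton_iff] at hx
      subst hx
      exact h3.symm
    rw [hreg] at h4
    have h5 : (c : B)⁻¹ * (b : B) ∈ U ⊓ T := ⟨U.mul_mem (U.inv_mem c.2) b.2, h4⟩
    rw [hdisj, Subgroup.mem_bot] at h5
    have : (b : B) = (c : B) := by
      have := congrArg (fun x => (c : B) * x) h5
      simpa using this
    exact Subtype.ext this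
  have hsurj : Function.Surjective f := Finite.surjective_of_injective hinj
  obtain ⟨b, hb⟩ := hsurj ⟨u, hu⟩
  refine ⟨b, ?_⟩
  have h : t⁻¹ * (b : B) * t * (b : B)⁻¹ = u := congrArg Subtype.val hb
  rw [← h]
  group

end Cfsg.Agent.S2521
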