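-- S2896: proof by helper7
import Cfsg.Statements.S2896
import Mathlib
import Cfsg.Agent.Helper7.CharP

set_option autoImplicit false
open Cfsg

namespace Cfsg.Agent.S2896

/-- Let p be a prime dividing the order of the finite group G, S a Sylow p-subgroup of G and X a subgroup of S. (i) If some nontrivial element z of the centre of X has F*(C_G(z)) = O_p(C_G(z)), then F*(N_G(X)) = O_p(N_G(X)). (ii) G has parabolic characteristic p if and only if F*(C_G(z)) = O_p(C_G(z)) for every nontrivial z ∈ Ω₁(Z(S)). (iii) If F*(C_G(z)) = O_p(C_G(z)) for every element z of S of order p, then G has local characteristic p. -/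
theorem result {G : Type*} [Group G] [Finite G] {p : ℕ} [Fact p.Prime] (hdiv : p ∣ Nat.card G) (S : Sylow p G) (X : Subgroup G) (hX : X ≤ (S : Subgroup G)) : (∀ z : G, z ≠ 1 → z ∈ X → (∀ x ∈ X, x * z = z * x) → Cfsg.generalizedFittingSubgroup ↥(Subgroup.centralizer ({z} : Set G)) = Cfsg.pCore p ↥(Subgroup.centralizer ({z} : Set G)) → Cfsg.generalizedFittingSubgroup ↥(Subgroup.normalizer (X : Set G)) = Cfsg.pCore p ↥(Subgroup.normalizer (X : Set G))) ∧ (Cfsg.IsOfParabolicCharacteristic p G ↔ ∀ z : G, z ≠ 1 → z ∈ Cfsg.omegaOne p ((S : Subgroup G) ⊓ Subgroup.centralizer ((S : Subgroup G) : Set G)) → Cfsg.generalizedFittingSubgroup ↥(Subgroup.centralizer ({z} : Set G)) = Cfsg.pCore p ↥(Subgroup.centralizer ({z} : Set G))) ∧ ((∀ z : G, z ∈ (S : Subgroup G) → orderOf z = p → Cfsg.generalizedFittingSubgroup ↥(Subgroup.centralizer ({z} : Set G)) = Cfsg.pCore p ↥(Subgroup.centralizer ({z} : Set G))) → Cfsg.IsOfLocalCharacteristic p G) := by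
  have hSp : IsPGroup p (S : Subgroup G) := S.isPGroup'
  refine ⟨?_, ⟨?_, ?_⟩, ?_⟩
  · intro z _ hzX hcomm hz
    have hXz : X ≤ Subgroup.centralizer ({z} : Set G) := by
      intro x hx
      rw [Subgroup.mem_centralizer_iff]
      intro w hw
      rw [Set.mem_singleton_iff] at hw
      rw [hw]
      exact (hcomm x hx).symm
    exact Cfsg.Agent.Helper7.generalizedFitting_normalizer_eq_pCore_of_central_elt p X
      (hSp.to_le hX) z hzX hXz hz
  · intro hpar z hz1 hzΩ
    have hΩ : Cfsg.omegaOne p ((S : Subgroup G) ⊓ Subgroup.centralizer ((S : Subgroup G) : Set G)) ≤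
        (S : Subgroup G) ⊓ Subgroup.centralizer ((S : Subgroup G) : Set G) :=
      (Subgroup.closure_le _).mpr (fun x hx => hx.1)
    have hzS : z ∈ (S : Subgroup G) := (hΩ hzΩ).1
    have hzc : z ∈ Subgroup.centralizer ((S : Subgroup G) : Set G) := (hΩ hzΩ).2
    have hRS : Subgroup.zpowers z ≤ (S : Subgroup G) := Subgroup.zpowers_le.mpr hzS
    have hRp : IsPGroup p ↥(Subgroup.zpowers z) := hSp.to_le hRS
    have hRne : Subgroup.zpowers z ≠ ⊥ := Subgroup.zpowers_ne_bot.mpr hz1
    have hSC : (S : Subgroup G) ≤ Subgroup.centralizer ({z} : Set G) := by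
      intro s hs
      rw [Subgroup.mem_centralizer_iff]
      intro w hw
      rw [Set.mem_singleton_iff] at hw
      rw [hw]
      exact ((Subgroup.mem_centralizer_iff.mp hzc) s hs).symm
    have hcz := Cfsg.Agent.Helper7.centralizer_zpowers_eq z
    have hSN : (S : Subgroup G) ≤
        Subgroup.normalizer ((Subgroup.zpowers z : Subgroup G) : Set G) := by
      refine le_trans ?_ (Subgroup.centralizer_le_normalizer _)
      rw [hcz]; exact hSC
    have h1 := hpar (Subgroup.zpowers z) hRp hRne ⟨S, hSN⟩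
    have h2 := Cfsg.Agent.Helper7.generalizedFitting_eq_pCore_of_centralizer_le p h1
    have h3 := Cfsg.Agent.Helper7.generalizedFitting_centralizer_of_normalizer p
      (Subgroup.zpowers z) h2
    rw [hcz] at h3
    exact h3
  · intro hyp R hRp hRne hparab
    obtain ⟨T, hTN⟩ := hparab
    apply Cfsg.Agent.Helper7.centralizer_pCore_le_of_generalizedFitting_eq p
    have hTp : IsPGroup p (T : Subgroup G) := T.isPGroup'
    have hQn := Cfsg.Agent.Helper1.pCore_normal p ↥(Subgroup.normalizer (R : Set G))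
    have hQp : IsPGroup p ↥((Cfsg.pCore p ↥(Subgroup.normalizer (R : Set G))).map
        (Subgroup.normalizer (R : Set G)).subtype) :=
      (Cfsg.Agent.Helper1.pCore_isPGroup p _).map _
    have hTQn : (T : Subgroup G) ≤ Subgroup.normalizer
        (((Cfsg.pCore p ↥(Subgroup.normalizer (R : Set G))).map
          (Subgroup.normalizer (R : Set G)).subtype : Subgroup G) : Set G) :=
      hTN.trans (Cfsg.Agent.Helper7.le_normalizer_map_subtype _)
    have hQT : (Cfsg.pCore p ↥(Subgroup.normalizer (R : Set G))).map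
        (Subgroup.normalizer (R : Set G)).subtype ≤ (T : Subgroup G) := by
      have h1 : IsPGroup p ↥((T : Subgroup G) ⊔
          (Cfsg.pCore p ↥(Subgroup.normalizer (R : Set G))).map
            (Subgroup.normalizer (R : Set G)).subtype) :=
        IsPGroup.to_sup_of_normal_right' hTp hQp hTQn
      have h2 := T.is_maximal' h1 le_sup_left
      rw [← h2]; exact le_sup_right
    have hRQ : R ≤ (Cfsg.pCore p ↥(Subgroup.normalizer (R : Set G))).map
        (Subgroup.normalizer (R : Set G)).subtype := by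
      have h4 : R.subgroupOf (Subgroup.normalizer (R : Set G)) ≤
          Cfsg.pCore p ↥(Subgroup.normalizer (R : Set G)) :=
        Cfsg.Agent.Helper1.le_pCore Subgroup.normal_in_normalizer hRp.comap_subtype
      intro r hr
      exact ⟨⟨r, Subgroup.le_normalizer hr⟩, h4 (Subgroup.mem_subgroupOf.mpr hr), rfl⟩
    have hQne : (Cfsg.pCore p ↥(Subgroup.normalizer (R : Set G))).map
        (Subgroup.normalizer (R : Set G)).subtype ≠ ⊥ := by
      intro h0
      rw [h0] at hRQ
      exact hRne (le_bot_iff.mp hRQ)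
    obtain ⟨z', hz'Q, hz'o, hz'c⟩ :=
      Cfsg.Agent.Helper7.exists_central_orderOf_of_normal_pgroup p (T : Subgroup G) _ hTp hQT
        hTQn hQne
    obtain ⟨x, hx⟩ := MulAction.exists_smul_eq G S T
    have hzS : x⁻¹ * z' * x ∈ (S : Subgroup G) :=
      Cfsg.Agent.Helper7.sylow_smul_mem S T x hx z' (hQT hz'Q)
    have hzc : x⁻¹ * z' * x ∈ Subgroup.centralizer ((S : Subgroup G) : Set G) := by
      rw [Subgroup.mem_centralizer_iff]
      intro s hs
      have h1 : x⁻¹⁻¹ * s * x⁻¹ ∈ (T : Subgroup G) :=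
        Cfsg.Agent.Helper7.sylow_smul_mem T S x⁻¹ (by rw [← hx, inv_smul_smul]) s hs
      rw [inv_inv] at h1
      have h2 : x * s * x⁻¹ * z' = z' * (x * s * x⁻¹) :=
        (Subgroup.mem_centralizer_iff.mp hz'c) _ h1
      calc s * (x⁻¹ * z' * x) = x⁻¹ * (x * s * x⁻¹ * z') * x := by group
        _ = x⁻¹ * (z' * (x * s * x⁻¹)) * x := by rw [h2]
        _ = x⁻¹ * z' * x * s := by group
    have hzp : (x⁻¹ * z' * x) ^ p = 1 := by
      have h1 : (x⁻¹ * z' * x⁻¹⁻¹) ^ p = x⁻¹ * z' ^ p * x⁻¹⁻¹ := conj_pow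
      rw [inv_inv] at h1
      rw [h1, ← hz'o, pow_orderOf_eq_one]; group
    have hz1 : x⁻¹ * z' * x ≠ 1 := by
      intro h0
      have h1 : z' = 1 := by
        calc z' = x * (x⁻¹ * z' * x) * x⁻¹ := by group
          _ = 1 := by rw [h0]; group
      rw [h1, orderOf_one] at hz'o
      exact (Fact.out : p.Prime).one_lt.ne hz'o
    have hzΩ : x⁻¹ * z' * x ∈ Cfsg.omegaOne p
        ((S : Subgroup G) ⊓ Subgroup.centralizer ((S : Subgroup G) : Set G)) :=
      Subgroup.subset_closure ⟨⟨hzS, hzc⟩, hzp⟩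
    have h5 := hyp _ hz1 hzΩ
    have h6 := Cfsg.Agent.Helper7.generalizedFitting_centralizer_conj p _ x h5
    have e1 : x * (x⁻¹ * z' * x) * x⁻¹ = z' := by group
    rw [e1] at h6
    have hRz : R ≤ Subgroup.centralizer ({z'} : Set G) := by
      intro r hr
      rw [Subgroup.mem_centralizer_iff]
      intro w hw
      rw [Set.mem_singleton_iff] at hw
      rw [hw]
      exact ((Subgroup.mem_centralizer_iff.mp hz'c) r (hQT (hRQ hr))).symm
    obtain ⟨q, hq, hqz⟩ := hz'Q
    have hz'N : z' ∈ Subgroup.normalizer (R : Set G) := by rw [← hqz]; exact q.2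
    have hz'core : (⟨z', hz'N⟩ : ↥(Subgroup.normalizer (R : Set G))) ∈
        Cfsg.pCore p ↥(Subgroup.normalizer (R : Set G)) := by
      have h7 : (⟨z', hz'N⟩ : ↥(Subgroup.normalizer (R : Set G))) = q := Subtype.ext hqz.symm
      rw [h7]; exact hq
    exact Cfsg.Agent.Helper7.generalizedFitting_normalizer_eq_pCore_of_elt p R hRp z' hz'N
      hz'core hRz h6
  · intro hS
    have hall : ∀ t : G, orderOf t = p →
        Cfsg.generalizedFittingSubgroup ↥(Subgroup.centralizer ({t} : Set G)) =
          Cfsg.pCore p ↥(Subgroup.centralizer ({t} : Set G)) := by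
      intro t ht
      have hZp : IsPGroup p ↥(Subgroup.zpowers t) := by
        apply IsPGroup.of_card (n := 1)
        rw [Nat.card_zpowers, ht, pow_one]
      obtain ⟨Q, hQ⟩ := hZp.exists_le_sylow
      obtain ⟨x, hx⟩ := MulAction.exists_smul_eq G S Q
      have hyS : x⁻¹ * t * x ∈ (S : Subgroup G) :=
        Cfsg.Agent.Helper7.sylow_smul_mem S Q x hx t (hQ (Subgroup.mem_zpowers t))
      have ho : orderOf (x⁻¹ * t * x) = p := by
        have h1 := (MulAut.conj x⁻¹).orderOf_eq t
        rw [MulAut.conj_apply, inv_inv] at h1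
        rw [h1]; exact ht
      have h5 := hS _ hyS ho
      have h6 := Cfsg.Agent.Helper7.generalizedFitting_centralizer_conj p _ x h5
      have e1 : x * (x⁻¹ * t * x) * x⁻¹ = t := by group
      rw [e1] at h6
      exact h6
    refine ⟨hdiv, ?_⟩
    intro T hT hT1
    exact Cfsg.Agent.Helper7.centralizer_pCore_le_of_generalizedFitting_eq p
      (Cfsg.Agent.Helper7.generalizedFitting_normalizer_eq_pCore_of_centralizers p hall T hT hT1)

end Cfsg.Agent.S2896
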