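import Cfsg.Statements.S2907
import Cfsg.Statements.S2907

set_option autoImplicit false
open Cfsg

namespace Cfsg.Agent.S2907

open scoped commutatorElement

theorem comm_mem_center {X : Type*} [Group X] {p : ℕ} (hS : Cfsg.IsSpecial p X) (x y : X) :
    x * y * x⁻¹ * y⁻¹ ∈ Subgroup.center X := by
  rw [← hS.2.2, commutator_def]
  have := Subgroup.commutator_mem_commutator (Subgroup.mem_top x) (Subgroup.mem_top y)
  rwa [commutatorElement_def] at this

/-- the commutator map `y ↦ [x, y]` is a homomorphism when commutators are central -/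
noncomputable def commHom {X : Type*} [Group X] {p : ℕ} (hS : Cfsg.IsSpecial p X) (x : X) : X →* X :=
  MonoidHom.mk' (fun y => x * y * x⁻¹ * y⁻¹) (by
    intro y z
    have hz := comm_mem_center hS x z
    rw [Subgroup.mem_center_iff] at hz
    have h1 := (hz y⁻¹).symm
    calc x * (y * z) * x⁻¹ * (y * z)⁻¹ = x * y * x⁻¹ * ((x * z * x⁻¹ * z⁻¹) * y⁻¹) := by group
      _ = x * y * x⁻¹ * (y⁻¹ * (x * z * x⁻¹ * z⁻¹)) := by rw [h1]
      _ = x * y * x⁻¹ * y⁻¹ * (x * z * x⁻¹ * z⁻¹) := by group)

theorem center_quot {X : Type*} [Group X] {p : ℕ} (hS : Cfsg.IsSpecial p X) (Y : Subgroup X) [Y.Normal]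
    (hE : Cfsg.IsExtraspecial p (X ⧸ Y)) :
    Subgroup.center (X ⧸ Y) = (Subgroup.center X).map (QuotientGroup.mk' Y) := by
  have h1 : commutator (X ⧸ Y) = (commutator X).map (QuotientGroup.mk' Y) := by
    rw [commutator_def, commutator_def, Subgroup.map_commutator,
      Subgroup.map_top_of_surjective _ (QuotientGroup.mk'_surjective _)]
  rw [← hE.1.2.2, h1, hS.2.2]


/-- Let X be a finite semi-extraspecial p-group and x an element of X outside the centre. Then the index of C_X(x) in X equals the order of Z(X), and the commutators [x, y], y ∈ X, form exactly the centre Z(X). -/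
theorem result {X : Type*} [Group X] [Finite X] {p : ℕ} [Fact p.Prime] (hX : Cfsg.IsSemiExtraspecial p X) (x : X) (hx : x ∉ Subgroup.center X) : (Subgroup.centralizer ({x} : Set X)).index = Nat.card ↥(Subgroup.center X) ∧ {z : X | ∃ y : X, z = x * y * x⁻¹ * y⁻¹} = (Subgroup.center X : Set X) := by

  obtain ⟨hS, hY⟩ := hX
  have hφ : ∀ y, commHom hS x y = x * y * x⁻¹ * y⁻¹ := fun y => rfl
  have hker : (commHom hS x).ker = Subgroup.centralizer ({x} : Set X) := by
    ext y
    rw [MonoidHom.mem_ker, hφ, Subgroup.mem_centralizer_iff]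
    constructor
    · intro h z hz
      rw [Set.mem_singleton_iff] at hz
      subst hz
      have h2 : z * y = (z * y * z⁻¹ * y⁻¹) * (y * z) := by group
      rw [h2, h, one_mul]
    · intro h
      have h1 := h x (Set.mem_singleton x)
      calc x * y * x⁻¹ * y⁻¹ = (x * y) * x⁻¹ * y⁻¹ := by group
        _ = (y * x) * x⁻¹ * y⁻¹ := by rw [h1]
        _ = 1 := by group
  have hrange_le : (commHom hS x).range ≤ Subgroup.center X := by
    rintro _ ⟨y, rfl⟩
    exact comm_mem_center hS x y
  have hrange : (commHom hS x).range = Subgroup.center X := by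
    by_contra hne
    have hlt : ((commHom hS x).range).subgroupOf (Subgroup.center X) ≠ ⊤ := by
      intro h
      rw [Subgroup.subgroupOf_eq_top] at h
      exact hne (le_antisymm hrange_le h)
    rcases eq_top_or_exists_le_coatom (((commHom hS x).range).subgroupOf (Subgroup.center X)) with
      h | ⟨M, hM, hle⟩
    · exact hlt h
    · have hYle : M.map (Subgroup.center X).subtype ≤ Subgroup.center X := by
        rintro _ ⟨m, _, rfl⟩; exact m.2
      have hYM : (M.map (Subgroup.center X).subtype).subgroupOf (Subgroup.center X) = M :=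
        Subgroup.comap_map_eq_self_of_injective (Subgroup.subtype_injective _) M
      obtain ⟨hYn, hE⟩ := hY (M.map (Subgroup.center X).subtype) hYle (by rw [hYM]; exact hM)
      have hcY : ∀ y, x * y * x⁻¹ * y⁻¹ ∈ M.map (Subgroup.center X).subtype := by
        intro y
        have h1 : x * y * x⁻¹ * y⁻¹ ∈ Subgroup.center X := comm_mem_center hS x y
        have h2 : (⟨x * y * x⁻¹ * y⁻¹, h1⟩ : Subgroup.center X) ∈
            ((commHom hS x).range).subgroupOf (Subgroup.center X) := by
          rw [Subgroup.mem_subgroupOf]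
          exact ⟨y, rfl⟩
        exact ⟨⟨_, h1⟩, hle h2, rfl⟩
      have hxc : (QuotientGroup.mk' (M.map (Subgroup.center X).subtype) x) ∈
          Subgroup.center (X ⧸ M.map (Subgroup.center X).subtype) := by
        rw [Subgroup.mem_center_iff]
        intro g
        obtain ⟨y, rfl⟩ := QuotientGroup.mk'_surjective _ g
        rw [← map_mul, ← map_mul]
        symm
        show ((x * y : X) : X ⧸ M.map (Subgroup.center X).subtype) = ((y * x : X) : X ⧸ _)
        rw [QuotientGroup.eq_iff_div_mem]
        have h3 : x * y / (y * x) = x * y * x⁻¹ * y⁻¹ := by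
          rw [div_eq_mul_inv, mul_inv_rev, ← mul_assoc]
        rw [h3]; exact hcY y
      rw [center_quot hS _ hE] at hxc
      obtain ⟨z, hz, hzx⟩ := hxc
      rw [QuotientGroup.mk'_eq_mk'] at hzx
      obtain ⟨w, hw, hzw⟩ := hzx
      exact hx (hzw ▸ Subgroup.mul_mem _ hz (hYle hw))
  constructor
  · rw [← hker, Subgroup.index_ker, hrange]
  · ext z
    rw [← hrange]
    constructor
    · rintro ⟨y, rfl⟩; exact ⟨y, rfl⟩
    · rintro ⟨y, rfl⟩; exact ⟨y, rfl⟩

end Cfsg.Agent.S2907
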