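import Cfsg.Statements.S2908
import Cfsg.Agent.S0028
import Mathlib

set_option autoImplicit false
open Cfsg
open scoped commutatorElement

namespace Cfsg.Agent.S2908

/-- elements normalising `Y₁` whose commutators with `B` lie in `Y₁`. -/
def commStab {G : Type*} [Group G] (Y₁ B : Subgroup G) : Subgroup G where
  carrier := {z | z ∈ Subgroup.normalizer (Y₁ : Set G) ∧ ∀ b ∈ B, ⁅z, b⁆ ∈ Y₁}
  one_mem' := ⟨Subgroup.one_mem _, fun b _ => by
    rw [commutatorElement_one_left]; exact Y₁.one_mem⟩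
  mul_mem' := by
    rintro z z' ⟨hz, hzb⟩ ⟨hz', hzb'⟩
    refine ⟨Subgroup.mul_mem _ hz hz', fun b hb => ?_⟩
    have e : ⁅z * z', b⁆ = z * ⁅z', b⁆ * z⁻¹ * ⁅z, b⁆ := by
      simp only [commutatorElement_def]; group
    rw [e]
    exact Y₁.mul_mem ((Subgroup.mem_normalizer_iff.1 hz _).1 (hzb' b hb)) (hzb b hb)
  inv_mem' := by
    rintro z ⟨hz, hzb⟩
    refine ⟨Subgroup.inv_mem _ hz, fun b hb => ?_⟩
    have e : ⁅z⁻¹, b⁆ = z⁻¹ * ⁅z, b⁆⁻¹ * z⁻¹⁻¹ := by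
      simp only [commutatorElement_def]; group
    rw [e]
    exact (Subgroup.mem_normalizer_iff.1 (Subgroup.inv_mem _ hz) _).1 (Y₁.inv_mem (hzb b hb))

theorem mem_commStab {G : Type*} [Group G] {Y₁ B : Subgroup G} {z : G} :
    z ∈ commStab Y₁ B ↔ z ∈ Subgroup.normalizer (Y₁ : Set G) ∧ ∀ b ∈ B, ⁅z, b⁆ ∈ Y₁ := Iff.rfl

theorem normalizer_sup_of_le {G : Type*} [Group G] (B P A : Subgroup G)
    (hP : B ≤ Subgroup.normalizer (P : Set G)) (hA : B ≤ Subgroup.normalizer (A : Set G)) :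
    B ≤ Subgroup.normalizer ((P ⊔ A : Subgroup G) : Set G) := by
  have key : ∀ x ∈ B, ∀ h ∈ P ⊔ A, x * h * x⁻¹ ∈ P ⊔ A := by
    intro x hx
    have hle : P ⊔ A ≤ (P ⊔ A).comap (MulAut.conj x).toMonoidHom := by
      refine sup_le ?_ ?_
      · intro u hu
        exact Subgroup.mem_comap.2
          ((le_sup_left : P ≤ P ⊔ A) ((Subgroup.mem_normalizer_iff.1 (hP hx) u).1 hu))
      · intro u hu
        exact Subgroup.mem_comap.2
          ((le_sup_right : A ≤ P ⊔ A) ((Subgroup.mem_normalizer_iff.1 (hA hx) u).1 hu))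
    intro h hh
    exact hle hh
  intro x hx
  rw [Subgroup.mem_normalizer_iff]
  intro h
  refine ⟨key x hx h, fun hh => ?_⟩
  have h1 := key x⁻¹ (B.inv_mem hx) _ hh
  have e : x⁻¹ * (x * h * x⁻¹) * x⁻¹⁻¹ = h := by group
  rwa [e] at h1

/-- Let P be a p-subgroup of a finite group, normalized by a p-subgroup A and by a subgroup B of order prime to p that commutes elementwise with A. If [P, B] ≤ [P, A], then B centralizes P. -/
theorem result {G : Type*} [Group G] [Finite G] {p : ℕ} [Fact p.Prime] (P A B : Subgroup G) (hP : IsPGroup p ↥P) (hA : IsPGroup p ↥A) (hB : ¬ p ∣ Nat.card ↥B) (hnA : A ≤ Subgroup.normalizer (P : Set G)) (hnB : B ≤ Subgroup.normalizer (P : Set G)) (hAB : ⁅A, B⁆ = ⊥) (hcomm : ⁅P, B⁆ ≤ ⁅P, A⁆) : ⁅P, B⁆ = ⊥ := by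
  have hcop : (Nat.card B).Coprime (Nat.card P) := by
    obtain ⟨k, hk⟩ := IsPGroup.iff_card.1 hP
    rw [hk]
    exact Nat.Coprime.pow_right k ((Nat.Prime.coprime_iff_not_dvd Fact.out).2 hB).symm
  have hsolv : Group.IsSolvable P := by
    haveI := hP.isNilpotent
    infer_instance
  have hAcB : A ≤ Subgroup.centralizer (B : Set G) :=
    Subgroup.commutator_eq_bot_iff_le_centralizer.1 hAB
  have hBcA : B ≤ Subgroup.centralizer (A : Set G) := by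
    rw [← Subgroup.commutator_eq_bot_iff_le_centralizer,
      Subgroup.commutator_comm (H₁ := B) (H₂ := A)]
    exact hAB
  have hYP : ⁅P, B⁆ ≤ P := Cfsg.Agent.S0026.comm_le B P hnB
  have hYY : ⁅⁅P, B⁆, B⁆ = ⁅P, B⁆ := Cfsg.Agent.S0027.result B P hnB hcop (Or.inr hsolv)
  have hS : IsPGroup p (P ⊔ A : Subgroup G) := IsPGroup.to_sup_of_normal_left' hP hA hnA
  have hnil : Group.IsNilpotent (P ⊔ A : Subgroup G) := hS.isNilpotent
  have hPnY : P ≤ Subgroup.normalizer ((⁅P, B⁆ : Subgroup G) : Set G) :=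
    Subgroup.normalizer_commutator_ge_left P B
  have hAnY : A ≤ Subgroup.normalizer ((⁅P, B⁆ : Subgroup G) : Set G) :=
    Cfsg.Agent.S0028.normalizer_commutator_of_le A P B hnA
      (hAcB.trans (Subgroup.centralizer_le_normalizer _))
  have hBnY : B ≤ Subgroup.normalizer ((⁅P, B⁆ : Subgroup G) : Set G) :=
    Subgroup.normalizer_commutator_ge_right P B
  have hSnY : P ⊔ A ≤ Subgroup.normalizer ((⁅P, B⁆ : Subgroup G) : Set G) := sup_le hPnY hAnY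
  have hBnS : B ≤ Subgroup.normalizer ((P ⊔ A : Subgroup G) : Set G) :=
    normalizer_sup_of_le B P A hnB (hBcA.trans (Subgroup.centralizer_le_normalizer _))
  have hY₁Y : ⁅⁅P, B⁆, P ⊔ A⁆ ≤ ⁅P, B⁆ := Cfsg.Agent.S0026.comm_le (P ⊔ A) ⁅P, B⁆ hSnY
  have hSnY₁ : P ⊔ A ≤ Subgroup.normalizer ((⁅⁅P, B⁆, P ⊔ A⁆ : Subgroup G) : Set G) :=
    Subgroup.normalizer_commutator_ge_right _ _
  have hBnY₁ : B ≤ Subgroup.normalizer ((⁅⁅P, B⁆, P ⊔ A⁆ : Subgroup G) : Set G) :=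
    Cfsg.Agent.S0028.normalizer_commutator_of_le B ⁅P, B⁆ (P ⊔ A) hBnY hBnS
  have hCT : P ⊓ Subgroup.centralizer (B : Set G) ≤ commStab ⁅⁅P, B⁆, P ⊔ A⁆ B := by
    intro c hc
    obtain ⟨hcP, hcB⟩ := Subgroup.mem_inf.1 hc
    refine mem_commStab.2 ⟨hSnY₁ ((le_sup_left : P ≤ P ⊔ A) hcP), fun b hb => ?_⟩
    have hbc : b * c = c * b := Subgroup.mem_centralizer_iff.1 hcB b hb
    have e : ⁅c, b⁆ = 1 := by
      rw [commutatorElement_def, ← hbc]; group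
    rw [e]; exact Subgroup.one_mem _
  have hY₁T : ⁅⁅P, B⁆, P ⊔ A⁆ ≤ commStab ⁅⁅P, B⁆, P ⊔ A⁆ B := by
    intro y hy
    refine mem_commStab.2 ⟨Subgroup.le_normalizer hy, fun b hb => ?_⟩
    have h1 : b * y⁻¹ * b⁻¹ ∈ ⁅⁅P, B⁆, P ⊔ A⁆ :=
      (Subgroup.mem_normalizer_iff.1 (hBnY₁ hb) _).1 (Subgroup.inv_mem _ hy)
    have e : ⁅y, b⁆ = y * (b * y⁻¹ * b⁻¹) := by
      rw [commutatorElement_def]; group
    rw [e]; exact Subgroup.mul_mem _ hy h1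
  have hXT : ⁅P, A⁆ ≤ commStab ⁅⁅P, B⁆, P ⊔ A⁆ B := by
    rw [Subgroup.commutator_le]
    intro x hx a ha
    obtain ⟨y, hy, c, hc, rfl⟩ := Cfsg.Agent.S0026.decomp B P hnB hcop (Or.inr hsolv) x hx
    have e : ⁅y * c, a⁆ = ⁅c, a⁆ * ⁅⁅c, a⁆⁻¹, y⁆ * ⁅y, a⁆ := by
      simp only [commutatorElement_def]; group
    rw [e]
    obtain ⟨hcP, hcB⟩ := Subgroup.mem_inf.1 hc
    have hg : ⁅c, a⁆ ∈ P ⊓ Subgroup.centralizer (B : Set G) := by
      have h1 : a * c⁻¹ * a⁻¹ ∈ P :=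
        (Subgroup.mem_normalizer_iff.1 (hnA ha) _).1 (P.inv_mem hcP)
      have h2 : a * c⁻¹ * a⁻¹ ∈ Subgroup.centralizer (B : Set G) := by
        rw [Subgroup.mem_centralizer_iff]
        intro b hb
        have hba : Commute b a := Subgroup.mem_centralizer_iff.1 (hAcB ha) b hb
        have hbc : Commute b c := Subgroup.mem_centralizer_iff.1 hcB b hb
        exact ((hba.mul_right hbc.inv_right).mul_right hba.inv_right).eq
      have e2 : ⁅c, a⁆ = c * (a * c⁻¹ * a⁻¹) := by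
        rw [commutatorElement_def]; group
      rw [e2]
      exact Subgroup.mul_mem _ hc (Subgroup.mem_inf.2 ⟨h1, h2⟩)
    have hgS : ⁅c, a⁆ ∈ P ⊔ A := (le_sup_left : P ≤ P ⊔ A) (Subgroup.mem_inf.1 hg).1
    have hw1 : ⁅⁅c, a⁆⁻¹, y⁆ ∈ ⁅⁅P, B⁆, P ⊔ A⁆ := by
      rw [Subgroup.commutator_comm (H₁ := ⁅P, B⁆) (H₂ := P ⊔ A)]
      exact Subgroup.commutator_mem_commutator (Subgroup.inv_mem _ hgS) hy
    have hw2 : ⁅y, a⁆ ∈ ⁅⁅P, B⁆, P ⊔ A⁆ :=
      Subgroup.commutator_mem_commutator hy ((le_sup_right : A ≤ P ⊔ A) ha)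
    exact Subgroup.mul_mem _ (Subgroup.mul_mem _ (hCT hg) (hY₁T hw1)) (hY₁T hw2)
  have hle : ⁅⁅P, B⁆, B⁆ ≤ ⁅⁅P, B⁆, P ⊔ A⁆ := by
    rw [Subgroup.commutator_le]
    intro y hy b hb
    exact (mem_commStab.1 (hXT (hcomm hy))).2 b hb
  rw [hYY] at hle
  have heq : ⁅⁅P, B⁆, P ⊔ A⁆ = ⁅P, B⁆ := le_antisymm hY₁Y hle
  exact Cfsg.Agent.S0028.eq_bot_of_commutator_eq ⁅P, B⁆ (P ⊔ A) hnil
    (hYP.trans le_sup_left) heq

end Cfsg.Agent.S2908
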