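import Cfsg.Statements.S2909
import Cfsg.Agent.Helper23.StabSub
import Cfsg.Agent.Helper23.Balance
import Cfsg.Agent.Helper9.CoprimeGen
import Cfsg.Agent.S2908

set_option autoImplicit false
open Cfsg
open scoped commutatorElement

namespace Cfsg.Agent.S2909

open Cfsg.Agent.Helper23

theorem core {G : Type*} [Group G] [Finite G] {p : ℕ} [Fact p.Prime] (E : Subgroup G)
    [hEn : E.Normal] (hE : IsPGroup p ↥E) (U : Subgroup G)
    (hU : Cfsg.IsElementaryAbelian p U)
    (R : Subgroup G) (hR : ¬ p ∣ Nat.card ↥R) (hRU : U ≤ Subgroup.normalizer (R : Set G))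
    (u : G) (hu : u ∈ U)
    (hcond : E ⊓ Subgroup.centralizer (U : Set G) = E ⊓ Subgroup.centralizer ({u} : Set G) ∨
      ⁅E, U⁆ = ⁅E, Subgroup.zpowers u⁆) :
    ⁅R ⊓ Subgroup.centralizer ({u} : Set G), U⁆ ≤ Subgroup.centralizer (E : Set G) := by
  have hp : p.Prime := Fact.out
  have hBR : ⁅R ⊓ Subgroup.centralizer ({u} : Set G), U⁆ ≤ R := by
    rw [Subgroup.commutator_le]
    intro x hx d hd
    have hxR : x ∈ R := hx.1
    have h1 : d * x⁻¹ * d⁻¹ ∈ R := (Subgroup.mem_normalizer_iff.1 (hRU hd) _).1 (R.inv_mem hxR)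
    have e : ⁅x, d⁆ = x * (d * x⁻¹ * d⁻¹) := by rw [commutatorElement_def]; group
    rw [e]; exact R.mul_mem hxR h1
  have hUcomm : ∀ a ∈ U, ∀ b ∈ U, a * b = b * a := by
    intro a ha b hb
    exact congrArg Subtype.val (hU.1.is_comm.comm (⟨a, ha⟩ : U) ⟨b, hb⟩)
  have hBu : ⁅R ⊓ Subgroup.centralizer ({u} : Set G), U⁆ ≤
      Subgroup.centralizer ({u} : Set G) := by
    rw [Subgroup.commutator_le]
    intro x hx d hd
    have hxu : x ∈ Subgroup.centralizer ({u} : Set G) := hx.2
    have hdu : d ∈ Subgroup.centralizer ({u} : Set G) := by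
      rw [Subgroup.mem_centralizer_singleton_iff]
      exact hUcomm d hd u hu
    rw [commutatorElement_def]
    exact Subgroup.mul_mem _ (Subgroup.mul_mem _ (Subgroup.mul_mem _ hxu hdu)
      (Subgroup.inv_mem _ hxu)) (Subgroup.inv_mem _ hdu)
  have hzp : IsPGroup p (Subgroup.zpowers u) :=
    isPGroup_zpowers_of_pow u 1 (by rw [pow_one]; exact hU.2 u hu)
  rcases hcond with h1 | h2
  · -- Case 1
    have hBcent : ∀ w ∈ E, (∀ c ∈ Subgroup.zpowers u, c * w = w * c) →
        ∀ b ∈ ⁅R ⊓ Subgroup.centralizer ({u} : Set G), U⁆, b * w = w * b := by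
      intro w hwE hwu
      have hwu2 : w * u = u * w := (hwu u (Subgroup.mem_zpowers u)).symm
      have hwu' : w ∈ E ⊓ Subgroup.centralizer ({u} : Set G) :=
        Subgroup.mem_inf.2 ⟨hwE, Subgroup.mem_centralizer_singleton_iff.2 hwu2⟩
      have hBle : ⁅R ⊓ Subgroup.centralizer ({u} : Set G), U⁆ ≤
          Subgroup.centralizer ({w} : Set G) := by
        rw [Subgroup.commutator_le]
        intro x hx d hd
        have hxu : x ∈ Subgroup.centralizer ({u} : Set G) := hx.2
        have hxu' : x * u = u * x := Subgroup.mem_centralizer_singleton_iff.1 hxu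
        have h3 : x⁻¹ * w * x ∈ E ⊓ Subgroup.centralizer ({u} : Set G) := by
          refine Subgroup.mem_inf.2 ⟨?_, ?_⟩
          · have := hEn.conj_mem w hwE x⁻¹
            rwa [inv_inv] at this
          · rw [Subgroup.mem_centralizer_singleton_iff]
            have cxu : Commute x u := hxu'
            have cwu : Commute w u := hwu2
            exact ((cxu.inv_left.mul_left cwu).mul_left cxu).eq
        rw [← h1] at h3
        have hdw : d * (x⁻¹ * w * x) = (x⁻¹ * w * x) * d :=
          Subgroup.mem_centralizer_iff.1 (Subgroup.mem_inf.1 h3).2 d hd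
        have hw' : w ∈ E ⊓ Subgroup.centralizer (U : Set G) := by rw [h1]; exact hwu'
        have hdw2 : d * w = w * d := Subgroup.mem_centralizer_iff.1 (Subgroup.mem_inf.1 hw').2 d hd
        rw [Subgroup.mem_centralizer_singleton_iff, commutatorElement_def]
        have c1 : Commute (x * d * x⁻¹) w := by
          show x * d * x⁻¹ * w = w * (x * d * x⁻¹)
          have e1 : x * d * x⁻¹ * w = x * (d * (x⁻¹ * w * x)) * x⁻¹ := by group
          rw [e1, hdw]; group
        have c2 : Commute d w := hdw2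
        exact (c1.mul_left c2.inv_left).eq
      intro b hb
      exact Subgroup.mem_centralizer_singleton_iff.1 (hBle hb)
    have hnil : Group.IsNilpotent (Subgroup.zpowers u ⊔ E : Subgroup G) := by
      have h : IsPGroup p (Subgroup.zpowers u ⊔ E : Subgroup G) :=
        IsPGroup.to_sup_of_normal_right hzp hE
      exact h.isNilpotent
    have hcop : (Nat.card R).Coprime (Nat.card E) := by
      obtain ⟨k, hk⟩ := IsPGroup.iff_card.1 hE
      rw [hk]
      exact Nat.Coprime.pow_right k ((Nat.Prime.coprime_iff_not_dvd hp).2 hR).symm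
    have key := thompson_gen (Subgroup.zpowers u ⊔ E) hnil E (Subgroup.zpowers u)
      ⁅R ⊓ Subgroup.centralizer ({u} : Set G), U⁆ le_sup_right le_sup_left
      (fun b _ v hv => hEn.conj_mem v hv b) (fun c _ v hv => hEn.conj_mem v hv c)
      (fun c hc b hb => by
        obtain ⟨k, rfl⟩ := Subgroup.mem_zpowers_iff.1 hc
        have hbu : Commute b u := Subgroup.mem_centralizer_singleton_iff.1 (hBu hb)
        exact (hbu.zpow_right k).symm.eq)
      hcop (fun b hb => pow_card_subgroup_eq_one R (hBR hb))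
      (fun v hv => pow_card_subgroup_eq_one E hv) hBcent
    intro b hb
    rw [Subgroup.mem_centralizer_iff]
    intro z hz
    exact (key z hz b hb).symm
  · -- Case 2
    have hUst : U ≤ stabSub E ⁅E, Subgroup.zpowers u⁆ := by
      have := le_stabSub_commutator E U
      rwa [h2] at this
    have hRuW : ∀ x ∈ R ⊓ Subgroup.centralizer ({u} : Set G),
        ∀ w ∈ ⁅E, Subgroup.zpowers u⁆, x * w * x⁻¹ ∈ ⁅E, Subgroup.zpowers u⁆ := by
      intro x hx
      refine conj_mem_commutator (fun v hv => hEn.conj_mem v hv x) ?_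
      intro a ha
      obtain ⟨k, rfl⟩ := Subgroup.mem_zpowers_iff.1 ha
      have hxu : Commute x u := Subgroup.mem_centralizer_singleton_iff.1 hx.2
      have e : x * u ^ k * x⁻¹ = u ^ k := by
        rw [(hxu.zpow_right k).eq, mul_inv_cancel_right]
      rw [e]; exact ha
    have hBst : ⁅R ⊓ Subgroup.centralizer ({u} : Set G), U⁆ ≤
        stabSub E ⁅E, Subgroup.zpowers u⁆ := by
      rw [Subgroup.commutator_le]
      intro x hx d hd
      have h3 : x * d * x⁻¹ ∈ stabSub E ⁅E, Subgroup.zpowers u⁆ := by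
        refine conj_mem_stabSub (hRuW x hx) ?_ ?_ (hUst hd)
        · intro w hw
          have := hRuW x⁻¹ (Subgroup.inv_mem _ hx) w hw
          rwa [inv_inv] at this
        · intro v hv
          have := hEn.conj_mem v hv x⁻¹
          rwa [inv_inv] at this
      rw [commutatorElement_def]
      exact Subgroup.mul_mem _ h3 (Subgroup.inv_mem _ (hUst hd))
    have hEB : ⁅E, ⁅R ⊓ Subgroup.centralizer ({u} : Set G), U⁆⁆ ≤ ⁅E, Subgroup.zpowers u⁆ := by
      rw [Subgroup.commutator_le]
      intro e he y hy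
      rw [commutatorElement_def]
      exact commutator_mem_of_mem_stabSub (hBst hy) he
    have hBp : ¬ p ∣ Nat.card ↥(⁅R ⊓ Subgroup.centralizer ({u} : Set G), U⁆) :=
      fun h => hR (h.trans (Subgroup.card_dvd_of_le hBR))
    have hnorm : ∀ A : Subgroup G, A ≤ Subgroup.normalizer (E : Set G) := by
      intro A
      rw [Subgroup.normalizer_eq_top]
      exact le_top
    have hAB : ⁅Subgroup.zpowers u, ⁅R ⊓ Subgroup.centralizer ({u} : Set G), U⁆⁆ = ⊥ := by
      rw [Subgroup.commutator_eq_bot_iff_le_centralizer, Subgroup.zpowers_le,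
        Subgroup.mem_centralizer_iff]
      intro b hb
      exact Subgroup.mem_centralizer_singleton_iff.1 (hBu hb)
    have hres := Cfsg.Agent.S2908.result E (Subgroup.zpowers u)
      ⁅R ⊓ Subgroup.centralizer ({u} : Set G), U⁆ hE hzp hBp (hnorm _) (hnorm _) hAB hEB
    rw [← Subgroup.commutator_eq_bot_iff_le_centralizer, Subgroup.commutator_comm]
    exact hres

/-- Let p be a prime, E a normal p-subgroup of the finite group G, and U a non-cyclic elementary abelian p-subgroup of G such that either C_E(U) = C_E(u) for every nontrivial u ∈ U, or [E, U] = [E, ⟨u⟩] for every nontrivial u ∈ U. If R is a subgroup of order prime to p normalized by U, then [R, U] centralizes E. -/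
theorem result {G : Type*} [Group G] [Finite G] {p : ℕ} [Fact p.Prime] (E : Subgroup G) [E.Normal] (hE : IsPGroup p ↥E) (U : Subgroup G) (hU : Cfsg.IsElementaryAbelian p U) (hnc : ¬ IsCyclic ↥U) (hcond : (∀ u ∈ U, u ≠ 1 → E ⊓ Subgroup.centralizer (U : Set G) = E ⊓ Subgroup.centralizer ({u} : Set G)) ∨ (∀ u ∈ U, u ≠ 1 → ⁅E, U⁆ = ⁅E, Subgroup.zpowers u⁆)) (R : Subgroup G) (hR : ¬ p ∣ Nat.card ↥R) (hRU : U ≤ Subgroup.normalizer (R : Set G)) : ⁅R, U⁆ ≤ Subgroup.centralizer (E : Set G) := by
  have hp : p.Prime := Fact.out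
  have hUc : IsMulCommutative U := hU.1
  have hUp : IsPGroup p U := by
    intro g
    refine ⟨1, ?_⟩
    rw [pow_one]
    apply Subtype.ext
    simpa using hU.2 g.1 g.2
  have hcop : (Nat.card U).Coprime (Nat.card R) := by
    obtain ⟨k, hk⟩ := IsPGroup.iff_card.1 hUp
    rw [hk]
    exact Nat.Coprime.pow_left k ((Nat.Prime.coprime_iff_not_dvd hp).2 hR)
  have hgen := Cfsg.Agent.Helper9.coprime_generation U R hnc hRU hcop
  have hCn : (Subgroup.centralizer (E : Set G)).Normal := inferInstance
  have hle' : Cfsg.Agent.Helper9.cgen U R ≤ stabSub U (Subgroup.centralizer (E : Set G)) := by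
    unfold Cfsg.Agent.Helper9.cgen
    refine iSup₂_le ?_
    rintro u ⟨hu, hu1⟩
    have hcore := core E hE U hU R hR hRU u hu (by
      rcases hcond with h | h
      · exact Or.inl (h u hu hu1)
      · exact Or.inr (h u hu hu1))
    intro x hx
    refine ⟨fun w hw => hCn.conj_mem w hw x, fun w hw => ?_, fun v hv => ?_⟩
    · have := hCn.conj_mem w hw x⁻¹
      rwa [inv_inv] at this
    · have h1 : ⁅x, v⁆ ∈ ⁅R ⊓ Subgroup.centralizer ({u} : Set G), U⁆ :=
        Subgroup.commutator_mem_commutator hx hv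
      have h2 := hcore h1
      rwa [commutatorElement_def] at h2
  rw [hgen] at hle'
  rw [Subgroup.commutator_le]
  intro r hr v hv
  rw [commutatorElement_def]
  exact (hle' hr).2.2 v hv

end Cfsg.Agent.S2909
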