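-- S2922: proof by helper7
import Cfsg.Statements.S2922
import Mathlib
import Cfsg.Agent.Helper7.CharP

set_option autoImplicit false
open Cfsg

namespace Cfsg.Agent.S2922

/-- Let p be a prime, X a finite group, B a p-subgroup of X and C a normal subgroup of B. If N_X(C) has characteristic p (its generalized Fitting subgroup is O_p(N_X(C))), then N_X(B) and C_X(B) have characteristic p. -/
theorem result {X : Type*} [Group X] [Finite X] {p : ℕ} [Fact p.Prime] (B C : Subgroup X) (hB : IsPGroup p ↥B) (hCB : C ≤ B) (hCn : (C.subgroupOf B).Normal) (hC : Cfsg.generalizedFittingSubgroup ↥(Subgroup.normalizer (C : Set X)) = Cfsg.pCore p ↥(Subgroup.normalizer (C : Set X))) : Cfsg.generalizedFittingSubgroup ↥(Subgroup.normalizer (B : Set X)) = Cfsg.pCore p ↥(Subgroup.normalizer (B : Set X)) ∧ Cfsg.generalizedFittingSubgroup ↥(Subgroup.centralizer (B : Set X)) = Cfsg.pCore p ↥(Subgroup.centralizer (B : Set X)) := by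
  have hBM : B ≤ Subgroup.normalizer (C : Set X) :=
    (Subgroup.normal_subgroupOf_iff_le_normalizer hCB).mp hCn
  have h3 := Cfsg.Agent.Helper7.generalizedFitting_normalizer_inf p _ B hBM hB hC
  have hD : (Subgroup.centralizer (Cfsg.pCore p ↥(Subgroup.normalizer (B : Set X)) :
      Set ↥(Subgroup.normalizer (B : Set X)))).map (Subgroup.normalizer (B : Set X)).subtype ≤
      Subgroup.normalizer (C : Set X) :=
    ((Cfsg.Agent.Helper7.centralizer_pCore_normalizer_le p B hB).trans
      (Subgroup.centralizer_le (SetLike.coe_subset_coe.mpr hCB))).trans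
      (Subgroup.centralizer_le_normalizer _)
  have hN := Cfsg.Agent.Helper7.generalizedFitting_eq_pCore_of_inf p _ _ hD h3
  exact ⟨hN, Cfsg.Agent.Helper7.generalizedFitting_centralizer_of_normalizer p B hN⟩

end Cfsg.Agent.S2922
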