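import Cfsg.Statements.S2923
import Cfsg.Agent.Helper15.CharP

set_option autoImplicit false
open Cfsg

namespace Cfsg.Agent.S2923

open Cfsg.Agent.Helper15 Cfsg.Agent.Helper23

/-- Let p be a prime and X a finite group of characteristic p, that is C_X(O_p(X)) ≤ O_p(X). Then every subnormal subgroup of X has characteristic p. -/
theorem result {X : Type*} [Group X] [Finite X] {p : ℕ} [Fact p.Prime] (hX : Subgroup.centralizer (Cfsg.pCore p X : Set X) ≤ Cfsg.pCore p X) (Y : Subgroup X) (hY : Y.IsSubnormal) : Subgroup.centralizer (Cfsg.pCore p ↥Y : Set ↥Y) ≤ Cfsg.pCore p ↥Y := by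
  induction hY with
  | top =>
    exact charp_of_normalized (Cfsg.pCore p X) ⊤ ⊤ (pCore_isPGroup p)
      (by rw [top_inf_eq]; exact hX) le_rfl
      (fun l _ o ho => (pCore_normal_fin p).conj_mem o ho l)
      (fun o _ l _ => Subgroup.mem_top _)
  | step H K h_le hSubn hN ih =>
    have hKH := Subgroup.le_normalizer_iff.mp
      ((Subgroup.normal_subgroupOf_iff_le_normalizer h_le).mp hN)
    exact charp_of_normalized ((Cfsg.pCore p ↥K).map K.subtype) H K (isPGroup_map_pCore K)
      (mem_map_pCore_of_centralizes K ih) h_le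
      (fun l hl o ho => conj_mem_map_pCore K (h_le hl) ho)
      (fun o ho l hl => hKH o (map_pCore_le K ho) l hl)

end Cfsg.Agent.S2923
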