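-- helper9: a component not normalized by an abelian normal subgroup of a Sylow 2-subgroup has abelian Sylow 2-subgroups mod its centre.
import Mathlib
import Cfsg.Statements.S2925
import Cfsg.Agent.S0542
import Cfsg.Agent.Helper7.Components
import Cfsg.Agent.Helper9.StrEmb
import Cfsg.Agent.Helper14.Conj

set_option autoImplicit false
open Cfsg

namespace Cfsg.Agent.S2925

/-- Let K be a component of the finite group X and T a Sylow 2-subgroup of X. If some abelian normal subgroup Y of T does not normalize K, then K ⧸ Z(K) has abelian Sylow 2-subgroups. -/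
theorem result {X : Type*} [Group X] [Finite X] (K : Subgroup X) (hK : Cfsg.IsComponent K) (T : Sylow 2 X) (Y : Subgroup X) (hYT : Y ≤ (T : Subgroup X)) (hYn : (Y.subgroupOf (T : Subgroup X)).Normal) (hYab : IsMulCommutative ↥Y) (hnot : ¬ Y ≤ Subgroup.normalizer (K : Set X)) (P : Sylow 2 (↥K ⧸ Subgroup.center ↥K)) : IsMulCommutative ↥(P : Subgroup (↥K ⧸ Subgroup.center ↥K)) := by
  haveI : Fact (Nat.Prime 2) := ⟨Nat.prime_two⟩
  obtain ⟨y, hyY, hyN⟩ : ∃ y ∈ Y, y ∉ Subgroup.normalizer (K : Set X) := by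
    by_contra hcon
    push Not at hcon
    exact hnot (fun y hy => hcon y hy)
  obtain ⟨K', hK'⟩ : ∃ K' : Subgroup X, K' = K.map (MulAut.conj y).toMonoidHom := ⟨_, rfl⟩
  have hK'comp : Cfsg.IsComponent K' := by rw [hK']; exact Helper7.conj_isComponent hK y
  have hne : K ≠ K' := by
    intro heq
    apply hyN
    apply Helper9.mem_normalizer_of_conj_le K y
    intro q hq
    have h1 : y * q * y⁻¹ ∈ K' := by rw [hK']; exact Helper14.conj_mem_map_conj K y hq
    rw [← heq] at h1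
    exact h1
  have hcomm0 : ⁅K, K'⁆ = ⊥ := Helper7.components_commute hK hK'comp hne
  have hcomm : ∀ a ∈ K, ∀ b ∈ K', a * b = b * a := by
    intro a ha b hb
    have h1 : a * b * a⁻¹ * b⁻¹ ∈ (⁅K, K'⁆ : Subgroup X) :=
      Subgroup.commutator_mem_commutator ha hb
    rw [hcomm0, Subgroup.mem_bot] at h1
    calc a * b = (a * b * a⁻¹ * b⁻¹) * (b * a) := by group
      _ = b * a := by rw [h1, one_mul]
  have hYnorm : ∀ a ∈ (T : Subgroup X), a * y * a⁻¹ ∈ Y := by
    intro a ha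
    have h1 := hYn.conj_mem ⟨y, hYT hyY⟩ (Subgroup.mem_subgroupOf.2 hyY) ⟨a, ha⟩
    rw [Subgroup.mem_subgroupOf] at h1
    exact h1
  have hkey : ∀ a ∈ (T : Subgroup X), a ∈ K → ∀ b ∈ (T : Subgroup X), b ∈ K → ∀ k ∈ K,
      (a⁻¹ * b⁻¹ * a * b) * k = k * (a⁻¹ * b⁻¹ * a * b) := by
    intro a haT haK b hbT hbK k hk
    obtain ⟨a', ha'def⟩ : ∃ a', a' = y * a⁻¹ * y⁻¹ := ⟨_, rfl⟩
    obtain ⟨b', hb'def⟩ : ∃ b', b' = y * b⁻¹ * y⁻¹ := ⟨_, rfl⟩
    have ha' : a' ∈ K' := by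
      rw [ha'def, hK']; exact Helper14.conj_mem_map_conj K y (K.inv_mem haK)
    have hb' : b' ∈ K' := by
      rw [hb'def, hK']; exact Helper14.conj_mem_map_conj K y (K.inv_mem hbK)
    have hca : a * a' ∈ Y := by
      have h1 : a * y * a⁻¹ * y⁻¹ ∈ Y := Y.mul_mem (hYnorm a haT) (Y.inv_mem hyY)
      have e : a * a' = a * y * a⁻¹ * y⁻¹ := by rw [ha'def]; group
      rw [e]; exact h1
    have hcb : b * b' ∈ Y := by
      have h1 : b * y * b⁻¹ * y⁻¹ ∈ Y := Y.mul_mem (hYnorm b hbT) (Y.inv_mem hyY)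
      have e : b * b' = b * y * b⁻¹ * y⁻¹ := by rw [hb'def]; group
      rw [e]; exact h1
    have hY' : a * a' * (b * b') = b * b' * (a * a') :=
      congrArg Subtype.val (hYab.is_comm.comm ⟨_, hca⟩ ⟨_, hcb⟩)
    have e1 : a' * b = b * a' := (hcomm b hbK a' ha').symm
    have e2 : b' * a = a * b' := (hcomm a haK b' hb').symm
    have hg : a⁻¹ * b⁻¹ * a * b = b' * a' * b'⁻¹ * a'⁻¹ := by
      have h3 : a * b * (a' * b') = b * a * (b' * a') := by
        calc a * b * (a' * b') = a * (b * a') * b' := by group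
          _ = a * (a' * b) * b' := by rw [e1]
          _ = a * a' * (b * b') := by group
          _ = b * b' * (a * a') := hY'
          _ = b * (b' * a) * a' := by group
          _ = b * (a * b') * a' := by rw [e2]
          _ = b * a * (b' * a') := by group
      calc a⁻¹ * b⁻¹ * a * b = (b * a)⁻¹ * (a * b * (a' * b')) * (a' * b')⁻¹ := by group
        _ = (b * a)⁻¹ * (b * a * (b' * a')) * (a' * b')⁻¹ := by rw [h3]
        _ = b' * a' * b'⁻¹ * a'⁻¹ := by group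
    have hgK' : a⁻¹ * b⁻¹ * a * b ∈ K' := by
      rw [hg]
      exact K'.mul_mem (K'.mul_mem (K'.mul_mem hb' ha') (K'.inv_mem hb')) (K'.inv_mem ha')
    exact (hcomm k hk _ hgK').symm
  obtain ⟨Q, hQ⟩ := Cfsg.Agent.S0542.result 2 K hK.1 T
  have hsurj : Function.Surjective (QuotientGroup.mk' (Subgroup.center ↥K)) :=
    QuotientGroup.mk'_surjective _
  obtain ⟨g, hg⟩ := Helper14.sylow_conj (Q.mapSurjective hsurj) P
  rw [Sylow.coe_mapSurjective] at hg
  have hQcomm : ∀ u ∈ (Q : Subgroup ↥K), ∀ v ∈ (Q : Subgroup ↥K),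
      QuotientGroup.mk' (Subgroup.center ↥K) u * QuotientGroup.mk' (Subgroup.center ↥K) v =
        QuotientGroup.mk' (Subgroup.center ↥K) v * QuotientGroup.mk' (Subgroup.center ↥K) u := by
    intro u hu v hv
    rw [hQ, Subgroup.mem_subgroupOf] at hu hv
    rw [← map_mul, ← map_mul]
    show ((u * v : ↥K) : ↥K ⧸ Subgroup.center ↥K) = ((v * u : ↥K) : ↥K ⧸ Subgroup.center ↥K)
    rw [QuotientGroup.eq, Subgroup.mem_center_iff]
    intro k
    apply Subtype.ext
    have h1 := hkey (v : X) hv v.2 (u : X) hu u.2 (k : X) k.2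
    show (k : X) * (((u : X) * (v : X))⁻¹ * ((v : X) * (u : X)))
      = ((u : X) * (v : X))⁻¹ * ((v : X) * (u : X)) * (k : X)
    have e : ((u : X) * (v : X))⁻¹ * ((v : X) * (u : X))
        = (v : X)⁻¹ * (u : X)⁻¹ * (v : X) * (u : X) := by group
    rw [e]; exact h1.symm
  have hP : ∀ x ∈ (P : Subgroup (↥K ⧸ Subgroup.center ↥K)),
      x ∈ ((Q : Subgroup ↥K).map (QuotientGroup.mk' (Subgroup.center ↥K))).map
        (MulAut.conj g).toMonoidHom := by
    intro x hx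
    rw [← hg]; exact hx
  refine ⟨⟨fun x₁ x₂ => ?_⟩⟩
  apply Subtype.ext
  obtain ⟨q₁, hq₁, e₁⟩ := hP _ x₁.2
  obtain ⟨q₂, hq₂, e₂⟩ := hP _ x₂.2
  obtain ⟨u, hu, rfl⟩ := hq₁
  obtain ⟨v, hv, rfl⟩ := hq₂
  show (x₁ : ↥K ⧸ Subgroup.center ↥K) * (x₂ : ↥K ⧸ Subgroup.center ↥K)
    = (x₂ : ↥K ⧸ Subgroup.center ↥K) * (x₁ : ↥K ⧸ Subgroup.center ↥K)
  rw [← e₁, ← e₂, ← map_mul (MulAut.conj g).toMonoidHom, ← map_mul (MulAut.conj g).toMonoidHom,
    hQcomm u hu v hv]

end Cfsg.Agent.S2925
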