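import Cfsg.Statements.S2939
import Mathlib
import Cfsg.Agent.Helper25.SylCtlF

set_option autoImplicit false
open Cfsg

namespace Cfsg.Agent.S2939

open Cfsg.Agent.Helper25.SylCtl Relation

/-- Strong decomposition `v = y₁⋯yₙ` through members of `𝓕(S)`, with the prefix conditions of
`FamilyStronglyControlsFusion`. -/
inductive SD {G : Type*} [Group G] (p : ℕ) (𝓕 : Set (Subgroup G)) (S : Subgroup G) (A : Set G) :
    G → Prop
  | nil : SD p 𝓕 S A 1
  | snoc (v y : G) (Y : Subgroup G) (hv : SD p 𝓕 S A v) (hY : Y ∈ sylowMembers p 𝓕 S)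
      (hy : y ∈ Y) (hA : conjRight (v * y) A ⊆ (S : Set G) ∩ (Y : Set G)) : SD p 𝓕 S A (v * y)

theorem SD.toFin {G : Type*} [Group G] {p : ℕ} {𝓕 : Set (Subgroup G)} {S : Subgroup G}
    {A : Set G} {v : G} (h : SD p 𝓕 S A v) :
    ∃ (n : ℕ) (Y : Fin n → Subgroup G) (y : Fin n → G), (List.ofFn y).prod = v ∧
      (∀ i : Fin n, Y i ∈ sylowMembers p 𝓕 S ∧ y i ∈ Y i) ∧
      ∀ i : Fin n, conjRight (((List.ofFn y).take (i.val + 1)).prod) A ⊆
        (S : Set G) ∩ (Y i : Set G) := by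
  induction h with
  | nil => exact ⟨0, Fin.elim0, Fin.elim0, by simp, fun i => i.elim0, fun i => i.elim0⟩
  | snoc v y₀ Y₀ hv hY hy hA ih =>
    obtain ⟨n, Y, y, hprod, hmem, hpre⟩ := ih
    have hof : List.ofFn (Fin.snoc (α := fun _ => G) y y₀) = List.ofFn y ++ [y₀] := by
      rw [List.ofFn_succ']
      simp [Fin.snoc_castSucc, Fin.snoc_last]
    refine ⟨n + 1, Fin.snoc (α := fun _ => Subgroup G) Y Y₀, Fin.snoc (α := fun _ => G) y y₀,
      ?_, ?_, ?_⟩
    · rw [hof, List.prod_append, hprod]; simp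
    · intro i
      induction i using Fin.lastCases with
      | last => simp only [Fin.snoc_last]; exact ⟨hY, hy⟩
      | cast j => simp only [Fin.snoc_castSucc]; exact hmem j
    · intro i
      induction i using Fin.lastCases with
      | last =>
        simp only [Fin.snoc_last]
        rw [hof]
        have e : (List.ofFn y ++ [y₀]).take ((Fin.last n).val + 1) = List.ofFn y ++ [y₀] := by
          apply List.take_of_length_le; simp
        rw [e, List.prod_append, hprod]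
        simpa using hA
      | cast j =>
        simp only [Fin.snoc_castSucc]
        rw [hof]
        have e : (List.ofFn y ++ [y₀]).take ((Fin.castSucc j).val + 1) =
            (List.ofFn y).take (j.val + 1) := by
          rw [List.take_append_of_le_length]
          · rfl
          · simp
        rw [e]; exact hpre j

theorem SD.ofFin {G : Type*} [Group G] {p : ℕ} {𝓕 : Set (Subgroup G)} {S : Subgroup G}
    {A : Set G} : ∀ (n : ℕ) (Y : Fin n → Subgroup G) (y : Fin n → G),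
      (∀ i : Fin n, Y i ∈ sylowMembers p 𝓕 S ∧ y i ∈ Y i) →
      (∀ i : Fin n, conjRight (((List.ofFn y).take (i.val + 1)).prod) A ⊆
        (S : Set G) ∩ (Y i : Set G)) →
      SD p 𝓕 S A (List.ofFn y).prod := by
  intro n
  induction n with
  | zero => intro Y y _ _; simpa using SD.nil
  | succ n ih =>
    intro Y y hmem hpre
    have hof : List.ofFn y = List.ofFn (fun i : Fin n => y i.castSucc) ++ [y (Fin.last n)] := by
      rw [List.ofFn_succ']; simp
    have h1 := ih (fun i => Y i.castSucc) (fun i => y i.castSucc) (fun i => hmem i.castSucc)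
      (fun i => by
        have h0 := hpre i.castSucc
        rw [hof] at h0
        have e : (List.ofFn (fun i : Fin n => y i.castSucc) ++ [y (Fin.last n)]).take
            (i.castSucc.val + 1) = (List.ofFn (fun i : Fin n => y i.castSucc)).take (i.val + 1) := by
          rw [List.take_append_of_le_length]
          · rfl
          · simp
        rw [e] at h0; exact h0)
    have h2 := hpre (Fin.last n)
    rw [hof] at h2 ⊢
    have e : (List.ofFn (fun i : Fin n => y i.castSucc) ++ [y (Fin.last n)]).take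
        ((Fin.last n).val + 1) = List.ofFn (fun i : Fin n => y i.castSucc) ++ [y (Fin.last n)] := by
      apply List.take_of_length_le; simp
    rw [e] at h2
    rw [List.prod_append] at h2 ⊢
    simp only [List.prod_singleton] at h2 ⊢
    exact SD.snoc _ _ _ h1 (hmem (Fin.last n)).1 (hmem (Fin.last n)).2 h2

theorem member_conj {G : Type*} [Group G] [Finite G] {p : ℕ} [Fact p.Prime]
    {𝓕 : Set (Subgroup G)} (h𝓕 : IsNormalSet 𝓕) {S' X : Subgroup G} (h : G)
    (hX : X ∈ sylowMembers p 𝓕 S') :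
    X.map (MulAut.conj h).toMonoidHom ∈ sylowMembers p 𝓕 (S'.map (MulAut.conj h).toMonoidHom) := by
  obtain ⟨hX𝓕, P, hP⟩ := hX
  have h0 := h𝓕 X hX𝓕 h⁻¹
  unfold subgroupConjRight at h0
  rw [inv_inv] at h0
  refine ⟨h0, ?_⟩
  have hinj : Function.Injective (MulAut.conj h).toMonoidHom := (MulAut.conj h).injective
  have hmap : (S' ⊓ X).map (MulAut.conj h).toMonoidHom =
      S'.map (MulAut.conj h).toMonoidHom ⊓ X.map (MulAut.conj h).toMonoidHom :=
    Subgroup.map_inf _ _ _ hinj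
  have hcard : Nat.card ((S'.map (MulAut.conj h).toMonoidHom ⊓
      X.map (MulAut.conj h).toMonoidHom).subgroupOf (X.map (MulAut.conj h).toMonoidHom)) =
      p ^ (Nat.card ↥(X.map (MulAut.conj h).toMonoidHom)).factorization p := by
    have h1 : Nat.card ((S'.map (MulAut.conj h).toMonoidHom ⊓
        X.map (MulAut.conj h).toMonoidHom).subgroupOf (X.map (MulAut.conj h).toMonoidHom)) =
        Nat.card ↥(S'.map (MulAut.conj h).toMonoidHom ⊓ X.map (MulAut.conj h).toMonoidHom) :=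
      Nat.card_congr (Subgroup.subgroupOfEquivOfLe inf_le_right).toEquiv
    rw [h1, ← hmap, Subgroup.card_map_of_injective hinj, ← hP,
      Subgroup.card_map_of_injective (Subgroup.subtype_injective _),
      Subgroup.card_map_of_injective hinj]
    exact P.card_eq_multiplicity
  refine ⟨Sylow.ofCard _ hcard, ?_⟩
  rw [Sylow.coe_ofCard, Subgroup.map_subgroupOf_eq_of_le inf_le_right]

theorem mem_normalizer_of_mc {G : Type*} [Group G] {X : Subgroup G} {u : G}
    (h : X.map (MulAut.conj u).toMonoidHom = X) : u ∈ Subgroup.normalizer (X : Set G) := by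
  rw [Subgroup.mem_normalizer_iff]
  intro s
  constructor
  · intro hs; rw [← h]; exact ⟨s, hs, rfl⟩
  · intro hs
    rw [← h] at hs
    obtain ⟨s', hs', he⟩ := hs
    have e : s' = s := by simpa [MulAut.conj_apply] using he
    rw [← e]; exact hs'

theorem mc_of_mem_normalizer {G : Type*} [Group G] {X : Subgroup G} {u : G}
    (hu : u ∈ Subgroup.normalizer (X : Set G)) : X.map (MulAut.conj u).toMonoidHom = X := by
  ext s
  constructor
  · rintro ⟨s', hs', rfl⟩
    exact (Subgroup.mem_normalizer_iff.mp hu s').mp hs'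
  · intro hs
    refine ⟨u⁻¹ * s * u, ?_, by simp [MulAut.conj_apply, mul_assoc]⟩
    have h1 := (Subgroup.mem_normalizer_iff.mp (inv_mem hu) s).mp hs
    simpa using h1

theorem fwd_aux {G : Type*} [Group G] [Finite G] {p : ℕ} [Fact p.Prime]
    {𝓕 : Set (Subgroup G)} (h𝓕 : IsNormalSet 𝓕) (S : Sylow p G) (A : Set G) (D : Subgroup G)
    (hAD : A ⊆ (D : Set G)) {T : Sylow p G} (h : ReflTransGen (Step p 𝓕 D) S T) :
    ∃ v : G, SD p 𝓕 (S : Subgroup G) A v ∧ T = cj v S := by
  induction h with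
  | refl => exact ⟨1, SD.nil, (cj_one S).symm⟩
  | @tail c c' _ hstep ih =>
    obtain ⟨v, hv, hc⟩ := ih
    obtain ⟨X, x, hX1, hX2, hx, hconj, hD⟩ := hstep
    unfold subgroupConjRight at hconj
    have hc' : (c' : Subgroup G) = (S : Subgroup G).map (MulAut.conj (x * v)).toMonoidHom := by
      rw [← mcm, ← coe_cj v S, ← hc, ← hconj, mc_inv_right]
    have e : v * (v⁻¹ * x * v) = x * v := by group
    refine ⟨v * (v⁻¹ * x * v), SD.snoc v (v⁻¹ * x * v) (X.map (MulAut.conj v⁻¹).toMonoidHom) hv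
      ?_ ?_ ?_, ?_⟩
    · have h1 := member_conj h𝓕 v⁻¹ hX1
      rw [hc, coe_cj, mc_inv_left] at h1
      exact h1
    · exact ⟨x, hx, by simp [MulAut.conj_apply]⟩
    · rw [e]
      rintro _ ⟨a, ha, rfl⟩
      have haD := hD (hAD ha)
      constructor
      · have h2 : a ∈ (c' : Subgroup G) := haD.1
        rw [hc'] at h2
        obtain ⟨s, hs, rfl⟩ := h2
        have e2 : (x * v)⁻¹ * (MulAut.conj (x * v)).toMonoidHom s * (x * v) = s := by
          simp [MulAut.conj_apply, mul_assoc]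
        show (x * v)⁻¹ * (MulAut.conj (x * v)).toMonoidHom s * (x * v) ∈ (S : Subgroup G)
        rw [e2]; exact hs
      · refine ⟨x⁻¹ * a * x, X.mul_mem (X.mul_mem (X.inv_mem hx) haD.2) hx, ?_⟩
        simp [MulAut.conj_apply, mul_assoc]
    · apply Sylow.ext
      rw [hc', coe_cj, e]

theorem fwd {G : Type*} [Group G] [Finite G] {p : ℕ} [Fact p.Prime]
    {𝓕 : Set (Subgroup G)} (h𝓕 : IsNormalSet 𝓕) (hc : ControlsSylowIntersections p 𝓕) :
    FamilyStronglyControlsFusion p 𝓕 := by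
  intro S A g hAS hA1 hAg
  have hAT : A ⊆ (((cj g S : Sylow p G) : Subgroup G) : Set G) := by
    intro a ha
    have h1 : g⁻¹ * a * g ∈ (S : Subgroup G) := hAg ⟨a, ha, rfl⟩
    rw [SetLike.mem_coe, coe_cj]
    exact ⟨g⁻¹ * a * g, h1, by simp [MulAut.conj_apply, mul_assoc]⟩
  have key : ∃ v : G, SD p 𝓕 (S : Subgroup G) A v ∧ cj g S = cj v S := by
    by_cases hST : S = cj g S
    · exact ⟨1, SD.nil, by rw [cj_one]; exact hST.symm⟩
    · have hD : (S : Subgroup G) ⊓ ((cj g S : Sylow p G) : Subgroup G) ≠ ⊥ := by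
        obtain ⟨a, ha, ha1⟩ := hA1
        intro h
        have h1 : a ∈ (S : Subgroup G) ⊓ ((cj g S : Sylow p G) : Subgroup G) :=
          Subgroup.mem_inf.mpr ⟨hAS ha, hAT ha⟩
        rw [h, Subgroup.mem_bot] at h1
        exact ha1 h1
      have hrtg := (controls_iff.mp hc) S (cj g S) hST hD
      exact fwd_aux h𝓕 S A _ (fun a ha => Subgroup.mem_inf.mpr ⟨hAS ha, hAT ha⟩) hrtg
  obtain ⟨v, hv, hcj⟩ := key
  obtain ⟨n, Y, y, hprod, hmem, hpre⟩ := hv.toFin
  refine ⟨n, Y, y, v⁻¹ * g, ?_, hmem, ?_, hpre⟩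
  · have h1 : cj (v⁻¹ * g) S = S := by
      rw [← cj_cj, hcj, cj_cj, inv_mul_cancel, cj_one]
    apply mem_normalizer_of_mc
    rw [← coe_cj, h1]
  · rw [hprod]; group

theorem bwd_aux {G : Type*} [Group G] [Finite G] {p : ℕ} [Fact p.Prime]
    {𝓕 : Set (Subgroup G)} (h𝓕 : IsNormalSet 𝓕) (S : Sylow p G) (h : G) (A : Set G)
    (D : Subgroup G) (hAS : A ⊆ ((S : Subgroup G) : Set G)) (hDA : ∀ d ∈ D, h⁻¹ * d * h ∈ A)
    {v : G} (hv : SD p 𝓕 (S : Subgroup G) A v) :
    conjRight v A ⊆ ((S : Subgroup G) : Set G) ∧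
      ReflTransGen (Step p 𝓕 D) (cj (h * v) S) (cj h S) := by
  induction hv with
  | nil =>
    refine ⟨?_, ?_⟩
    · rintro _ ⟨a, ha, rfl⟩
      simpa using hAS ha
    · rw [mul_one]
  | snoc v y Y hv hY hy hA ih =>
    obtain ⟨ih1, ih2⟩ := ih
    refine ⟨fun a ha => (hA ha).1, ReflTransGen.head ?_ ih2⟩
    have hYy : Y.map (MulAut.conj y).toMonoidHom = Y :=
      mc_of_mem_normalizer (Subgroup.le_normalizer hy)
    have hXe : Y.map (MulAut.conj (h * (v * y))).toMonoidHom =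
        Y.map (MulAut.conj (h * v)).toMonoidHom := by
      rw [← mul_assoc, ← mcm, hYy]
    refine ⟨Y.map (MulAut.conj (h * (v * y))).toMonoidHom, (h * v) * y⁻¹ * (h * v)⁻¹, ?_, ?_, ?_,
      ?_, ?_⟩
    · have h1 := member_conj h𝓕 (h * (v * y)) hY
      rw [← coe_cj] at h1
      exact h1
    · have h1 := member_conj h𝓕 (h * v) hY
      rw [← coe_cj, ← hXe] at h1
      exact h1
    · rw [hXe]
      exact ⟨y⁻¹, Y.inv_mem hy, rfl⟩
    · unfold subgroupConjRight
      rw [coe_cj, coe_cj, mcm]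
      congr 2
      group
    · intro d hd
      have hdA := hDA d hd
      constructor
      · have h1 : v⁻¹ * (h⁻¹ * d * h) * v ∈ ((S : Subgroup G) : Set G) := ih1 ⟨_, hdA, rfl⟩
        show d ∈ ((cj (h * v) S : Sylow p G) : Subgroup G)
        rw [coe_cj]
        exact ⟨_, h1, by simp [MulAut.conj_apply, mul_assoc]⟩
      · have h1 : (v * y)⁻¹ * (h⁻¹ * d * h) * (v * y) ∈ ((S : Subgroup G) : Set G) ∩ (Y : Set G) :=
          hA ⟨_, hdA, rfl⟩
        exact ⟨_, h1.2, by simp [MulAut.conj_apply, mul_assoc]⟩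

theorem bwd {G : Type*} [Group G] [Finite G] {p : ℕ} [Fact p.Prime]
    {𝓕 : Set (Subgroup G)} (h𝓕 : IsNormalSet 𝓕) (hs : FamilyStronglyControlsFusion p 𝓕) :
    ControlsSylowIntersections p 𝓕 := by
  rw [controls_iff]
  intro S T hne hD
  obtain ⟨h, rfl⟩ := exists_cj S T
  have hAS : (fun d => h⁻¹ * d * h) '' ((((S : Subgroup G) ⊓ ((cj h S : Sylow p G) : Subgroup G) :
      Subgroup G)) : Set G) ⊆ ((S : Subgroup G) : Set G) := by
    rintro _ ⟨d, hd, rfl⟩
    have h1 : d ∈ ((cj h S : Sylow p G) : Subgroup G) := hd.2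
    rw [coe_cj] at h1
    obtain ⟨s, hs', rfl⟩ := h1
    have e2 : h⁻¹ * (MulAut.conj h).toMonoidHom s * h = s := by
      simp [MulAut.conj_apply, mul_assoc]
    show h⁻¹ * (MulAut.conj h).toMonoidHom s * h ∈ (S : Subgroup G)
    rw [e2]; exact hs'
  have hA1 : ∃ a ∈ (fun d => h⁻¹ * d * h) '' ((((S : Subgroup G) ⊓
      ((cj h S : Sylow p G) : Subgroup G) : Subgroup G)) : Set G), a ≠ 1 := by
    obtain ⟨⟨d, hd⟩, hd1⟩ := Subgroup.ne_bot_iff_exists_ne_one.mp hD
    refine ⟨h⁻¹ * d * h, ⟨d, hd, rfl⟩, ?_⟩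
    intro he
    apply hd1
    have hd0 : d = 1 := by
      have h2 : d = h * (h⁻¹ * d * h) * h⁻¹ := by group
      rw [h2, he]; group
    exact Subtype.ext hd0
  have hAg : conjRight h⁻¹ ((fun d => h⁻¹ * d * h) '' ((((S : Subgroup G) ⊓
      ((cj h S : Sylow p G) : Subgroup G) : Subgroup G)) : Set G)) ⊆ ((S : Subgroup G) : Set G) := by
    rintro _ ⟨_, ⟨d, hd, rfl⟩, rfl⟩
    have e3 : h⁻¹⁻¹ * (h⁻¹ * d * h) * h⁻¹ = d := by group
    show h⁻¹⁻¹ * (h⁻¹ * d * h) * h⁻¹ ∈ (S : Subgroup G)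
    rw [e3]; exact hd.1
  obtain ⟨n, Y, y, y₀, hy₀, hmem, hg, hpre⟩ := hs S _ h⁻¹ hAS hA1 hAg
  have hSD := SD.ofFin n Y y hmem hpre
  have h3 := (bwd_aux h𝓕 S h _ ((S : Subgroup G) ⊓ ((cj h S : Sylow p G) : Subgroup G)) hAS
    (fun d hd => ⟨d, hd, rfl⟩) hSD).2
  have e4 : h * (List.ofFn y).prod = y₀⁻¹ := by
    have h5 : h = ((List.ofFn y).prod * y₀)⁻¹ := by rw [← hg, inv_inv]
    rw [h5]; group
  rw [e4] at h3
  have e5 : cj y₀⁻¹ S = S := by
    apply Sylow.ext
    rw [coe_cj]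
    exact mc_of_mem_normalizer (inv_mem hy₀)
  rw [e5] at h3
  exact h3

/-- Let p be a prime dividing the order of the finite group G and 𝓕 a family of subgroups of G closed under conjugation, with conjugates taken as X^g = g⁻¹Xg. Then 𝓕 controls Sylow p-intersections in G (any two distinct Sylow p-subgroups S and T with S ∩ T ≠ 1 are joined by a chain S = S₀, S₁, …, Sₙ = T of Sylow p-subgroups where, for each i, some member Xᵢ of 𝓕 meets both S_{i-1} and Sᵢ in Sylow p-subgroups of Xᵢ, satisfies S ∩ T ≤ Sᵢ ∩ Xᵢ, and contains an element xᵢ with Sᵢ^{xᵢ} = S_{i-1}) if and only if 𝓕 strongly controls p-fusion in G (whenever A is a subset of a Sylow p-subgroup S, A contains an element other than 1, and A^g ⊆ S, the element g factorises as g = y₁⋯yₙy with y ∈ N_G(S) and each yᵢ in a member Yᵢ of 𝓕 that meets S in a Sylow p-subgroup of Yᵢ, with A^{y₁⋯yᵢ} ⊆ S ∩ Yᵢ for each i). -/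
theorem result {G : Type*} [Group G] [Finite G] {p : ℕ} [Fact p.Prime] (hdiv : p ∣ Nat.card G) (𝓕 : Set (Subgroup G)) (h𝓕 : Cfsg.IsNormalSet 𝓕) : Cfsg.ControlsSylowIntersections p 𝓕 ↔ Cfsg.FamilyStronglyControlsFusion p 𝓕 := by
  exact ⟨fwd h𝓕, bwd h𝓕⟩

end Cfsg.Agent.S2939
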