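import Cfsg.Statements.S2940


set_option autoImplicit false
open Cfsg

namespace Cfsg.Agent.S2940

/-- Let S be a Sylow p-subgroup of the finite group G and G₁, G₂ subgroups containing S with G = G₁G₂. Then for every g ∈ G there is a Sylow p-subgroup U of G with S ∩ S^g ≤ U ≤ G₁ ∩ G₂^g (conjugates taken as X^g = g⁻¹Xg). -/
theorem result {G : Type*} [Group G] [Finite G] {p : ℕ} [Fact p.Prime] (S : Sylow p G) (G₁ G₂ : Subgroup G) (h1 : (S : Subgroup G) ≤ G₁) (h2 : (S : Subgroup G) ≤ G₂) (hfact : ∀ g : G, ∃ g₁ ∈ G₁, ∃ g₂ ∈ G₂, g = g₁ * g₂) (g : G) : ∃ U : Sylow p G, (S : Subgroup G) ⊓ Cfsg.subgroupConjRight g (S : Subgroup G) ≤ (U : Subgroup G) ∧ (U : Subgroup G) ≤ G₁ ⊓ Cfsg.subgroupConjRight g G₂ := by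
  have hp : p.Prime := Fact.out
  obtain ⟨g₁, hg₁, g₂, hg₂, hgg⟩ := hfact g⁻¹
  have hg : g = g₂⁻¹ * g₁⁻¹ := by
    have : g = (g⁻¹)⁻¹ := (inv_inv g).symm
    rw [this, hgg, mul_inv_rev]
  have hD0 : ∀ s ∈ (S : Subgroup G), g₁ * s * g₁⁻¹ ∈ G₁ ⊓ Cfsg.subgroupConjRight g G₂ := by
    intro s hs
    apply Subgroup.mem_inf.mpr
    constructor
    · exact G₁.mul_mem (G₁.mul_mem hg₁ (h1 hs)) (G₁.inv_mem hg₁)
    · show g₁ * s * g₁⁻¹ ∈ G₂.map (MulAut.conj g⁻¹).toMonoidHom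
      refine ⟨g₂⁻¹ * s * g₂, G₂.mul_mem (G₂.mul_mem (G₂.inv_mem hg₂) (h2 hs)) hg₂, ?_⟩
      simp only [MulEquiv.toMonoidHom_eq_coe, MonoidHom.coe_coe, MulAut.conj_apply, inv_inv]
      rw [hg]; group
  have hQD : (S : Subgroup G) ⊓ Cfsg.subgroupConjRight g (S : Subgroup G) ≤
      G₁ ⊓ Cfsg.subgroupConjRight g G₂ :=
    inf_le_inf h1 (Subgroup.map_mono h2)
  have hQp : IsPGroup p ↥((S : Subgroup G) ⊓ Cfsg.subgroupConjRight g (S : Subgroup G)) :=
    S.isPGroup'.to_le inf_le_left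
  have hQ'p : IsPGroup p ↥(((S : Subgroup G) ⊓ Cfsg.subgroupConjRight g (S : Subgroup G)).subgroupOf
      (G₁ ⊓ Cfsg.subgroupConjRight g G₂)) :=
    hQp.comap_of_injective _ (Subgroup.subtype_injective _)
  obtain ⟨P, hP⟩ := hQ'p.exists_le_sylow
  have hcardR : Nat.card ((S : Subgroup G).map (MulAut.conj g₁).toMonoidHom) =
      p ^ (Nat.card G).factorization p := by
    rw [Subgroup.card_map_of_injective (MulAut.conj g₁).injective]
    exact S.card_eq_multiplicity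
  have hRD : (S : Subgroup G).map (MulAut.conj g₁).toMonoidHom ≤
      G₁ ⊓ Cfsg.subgroupConjRight g G₂ := by
    rintro _ ⟨s, hs, rfl⟩
    simpa [MulAut.conj_apply] using hD0 s hs
  have hdvd1 : p ^ (Nat.card G).factorization p ∣
      Nat.card ↥(G₁ ⊓ Cfsg.subgroupConjRight g G₂) := by
    rw [← hcardR]
    exact Subgroup.card_dvd_of_le hRD
  have hdvd2 : Nat.card ↥(G₁ ⊓ Cfsg.subgroupConjRight g G₂) ∣ Nat.card G :=
    Subgroup.card_subgroup_dvd_card _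
  have hD0' : Nat.card ↥(G₁ ⊓ Cfsg.subgroupConjRight g G₂) ≠ 0 := Nat.card_pos.ne'
  have hG0 : Nat.card G ≠ 0 := Nat.card_pos.ne'
  have hfac : (Nat.card ↥(G₁ ⊓ Cfsg.subgroupConjRight g G₂)).factorization p =
      (Nat.card G).factorization p := by
    apply le_antisymm
    · exact (Nat.factorization_le_iff_dvd hD0' hG0).mpr hdvd2 p
    · exact (hp.pow_dvd_iff_le_factorization hD0').mp hdvd1
  have hcardU : Nat.card ((P : Subgroup ↥(G₁ ⊓ Cfsg.subgroupConjRight g G₂)).map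
      (G₁ ⊓ Cfsg.subgroupConjRight g G₂).subtype) = p ^ (Nat.card G).factorization p := by
    rw [Subgroup.card_map_of_injective (Subgroup.subtype_injective _), ← hfac]
    exact P.card_eq_multiplicity
  refine ⟨Sylow.ofCard _ hcardU, ?_, ?_⟩
  · rw [Sylow.coe_ofCard]
    intro x hx
    refine ⟨⟨x, hQD hx⟩, hP (Subgroup.mem_subgroupOf.mpr hx), rfl⟩
  · rw [Sylow.coe_ofCard]
    rintro _ ⟨y, -, rfl⟩
    exact y.2

end Cfsg.Agent.S2940
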