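import Cfsg.Statements.S2955
import Cfsg.Agent.Helper15.SE

set_option autoImplicit false
open Cfsg

namespace Cfsg.Agent.S2955

open Cfsg.Agent.Helper15

theorem map_smul_sylow {G : Type*} [Group G] {p : ℕ} (l : G) (S : Sylow p G) :
    ((l • S : Sylow p G) : Subgroup G).map (MulAut.conj l⁻¹).toMonoidHom = (S : Subgroup G) := by
  ext y
  constructor
  · rintro ⟨x, hx, rfl⟩
    have hx' : x ∈ ((l • S : Sylow p G) : Subgroup G) := hx
    rw [mem_smul_sylow] at hx'
    simpa [MulAut.conj_apply] using hx'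
  · intro hy
    refine ⟨l * y * l⁻¹, ?_, by simp [MulAut.conj_apply, mul_assoc]⟩
    show l * y * l⁻¹ ∈ ((l • S : Sylow p G) : Subgroup G)
    rw [mem_smul_sylow]
    have : l⁻¹ * (l * y * l⁻¹) * l = y := by group
    rw [this]; exact hy

theorem eq_smul_of_conjRight {G : Type*} [Group G] {p : ℕ} (x : G) (T₁ T₂ : Sylow p G)
    (h : Cfsg.subgroupConjRight x (T₂ : Subgroup G) = (T₁ : Subgroup G)) : T₂ = x • T₁ := by
  apply Sylow.ext
  ext y
  rw [mem_smul_sylow, ← h]
  constructor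
  · intro hy
    exact ⟨y, hy, by simp [MulAut.conj_apply]⟩
  · rintro ⟨y', hy', he⟩
    have he' : x⁻¹ * y' * x = x⁻¹ * y * x := by simpa [MulAut.conj_apply] using he
    have : y' = y := by
      have h1 : y' = x * (x⁻¹ * y' * x) * x⁻¹ := by group
      rw [h1, he']; group
    rw [← this]; exact hy'

/-- A member of `𝓕(l • S)` is conjugate by `l` to a member of `𝓕(S)`. -/
theorem conj_mem_sylowMembers {G : Type*} [Group G] [Finite G] (p : ℕ) [Fact p.Prime]
    (𝓕 : Set (Subgroup G)) (h𝓕 : Cfsg.IsNormalSet 𝓕) (S : Sylow p G) (l : G) (X : Subgroup G)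
    (hX : X ∈ Cfsg.sylowMembers p 𝓕 ((l • S : Sylow p G) : Subgroup G)) :
    X.map (MulAut.conj l⁻¹).toMonoidHom ∈ Cfsg.sylowMembers p 𝓕 (S : Subgroup G) := by
  obtain ⟨hX𝓕, P, hP⟩ := hX
  refine ⟨h𝓕 X hX𝓕 l, ?_⟩
  have hinj : Function.Injective (MulAut.conj l⁻¹).toMonoidHom := (MulAut.conj l⁻¹).injective
  have hmap : (((l • S : Sylow p G) : Subgroup G) ⊓ X).map (MulAut.conj l⁻¹).toMonoidHom =
      (S : Subgroup G) ⊓ X.map (MulAut.conj l⁻¹).toMonoidHom := by
    rw [Subgroup.map_inf _ _ _ hinj, map_smul_sylow]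
  have hcard : Nat.card (((S : Subgroup G) ⊓ X.map (MulAut.conj l⁻¹).toMonoidHom).subgroupOf
      (X.map (MulAut.conj l⁻¹).toMonoidHom)) =
      p ^ (Nat.card ↥(X.map (MulAut.conj l⁻¹).toMonoidHom)).factorization p := by
    have h1 : Nat.card (((S : Subgroup G) ⊓ X.map (MulAut.conj l⁻¹).toMonoidHom).subgroupOf
        (X.map (MulAut.conj l⁻¹).toMonoidHom)) =
        Nat.card ↥((S : Subgroup G) ⊓ X.map (MulAut.conj l⁻¹).toMonoidHom) :=
      Nat.card_congr (Subgroup.subgroupOfEquivOfLe inf_le_right).toEquiv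
    rw [h1, ← hmap, Subgroup.card_map_of_injective hinj, ← hP,
      Subgroup.card_map_of_injective (Subgroup.subtype_injective _),
      Subgroup.card_map_of_injective hinj]
    exact P.card_eq_multiplicity
  refine ⟨Sylow.ofCard _ hcard, ?_⟩
  rw [Sylow.coe_ofCard, Subgroup.map_subgroupOf_eq_of_le inf_le_right]

/-- Let p be a prime dividing the order of the finite group G and 𝓕 a conjugation-closed family of subgroups that controls Sylow p-intersections in G. Suppose the Sylow p-subgroups of G are chain-connected: any two of them are joined by a chain of Sylow p-subgroups, consecutive ones distinct with nontrivial intersection, all containing the intersection of the two ends (equivalently, the graph on the Sylow p-subgroups whose edges are the distinct pairs meeting nontrivially is connected). Then for every Sylow p-subgroup S, G is generated by N_G(S) together with the members of 𝓕 that meet S in a Sylow p-subgroup of themselves. -/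
theorem result {G : Type*} [Group G] [Finite G] (p : ℕ) [Fact p.Prime] (hdiv : p ∣ Nat.card G)
    (𝓕 : Set (Subgroup G)) (h𝓕 : Cfsg.IsNormalSet 𝓕) (hc : Cfsg.ControlsSylowIntersections p 𝓕)
    (hconn : Cfsg.IsSylowChainConnected p G) (S : Sylow p G) :
    (⨆ X ∈ Cfsg.sylowMembers p 𝓕 (S : Subgroup G), X) ⊔ Subgroup.normalizer ((S : Subgroup G) : Set G) = ⊤ := by
  have hp : p.Prime := Fact.out
  -- members of 𝓕(l • S) with l ∈ L lie in L
  have hA : ∀ l : G, l ∈ (⨆ X ∈ Cfsg.sylowMembers p 𝓕 (S : Subgroup G), X) ⊔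
      Subgroup.normalizer ((S : Subgroup G) : Set G) →
      ∀ X : Subgroup G, X ∈ Cfsg.sylowMembers p 𝓕 ((l • S : Sylow p G) : Subgroup G) →
      X ≤ (⨆ X ∈ Cfsg.sylowMembers p 𝓕 (S : Subgroup G), X) ⊔
        Subgroup.normalizer ((S : Subgroup G) : Set G) := by
    intro l hl X hX
    have hX' := conj_mem_sylowMembers p 𝓕 h𝓕 S l X hX
    have hle : X.map (MulAut.conj l⁻¹).toMonoidHom ≤
        (⨆ X ∈ Cfsg.sylowMembers p 𝓕 (S : Subgroup G), X) ⊔
          Subgroup.normalizer ((S : Subgroup G) : Set G) :=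
      le_trans (le_iSup₂ (f := fun (X : Subgroup G)
        (_ : X ∈ Cfsg.sylowMembers p 𝓕 (S : Subgroup G)) => X) _ hX') le_sup_left
    intro x hx
    have h1 : l⁻¹ * x * l ∈ X.map (MulAut.conj l⁻¹).toMonoidHom :=
      ⟨x, hx, by simp [MulAut.conj_apply]⟩
    have h2 := hle h1
    have : x = l * (l⁻¹ * x * l) * l⁻¹ := by group
    rw [this]
    exact Subgroup.mul_mem _ (Subgroup.mul_mem _ hl h2) (Subgroup.inv_mem _ hl)
  -- controlled step
  have hB : ∀ T₁ T₂ : Sylow p G, T₁ ≠ T₂ → (T₁ : Subgroup G) ⊓ (T₂ : Subgroup G) ≠ ⊥ →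
      (∃ l ∈ (⨆ X ∈ Cfsg.sylowMembers p 𝓕 (S : Subgroup G), X) ⊔
        Subgroup.normalizer ((S : Subgroup G) : Set G), T₁ = l • S) →
      (∃ l ∈ (⨆ X ∈ Cfsg.sylowMembers p 𝓕 (S : Subgroup G), X) ⊔
        Subgroup.normalizer ((S : Subgroup G) : Set G), T₂ = l • S) := by
    intro T₁ T₂ hne hint h1
    obtain ⟨n, d, X, x, hd0, hdl, hstep⟩ := hc T₁ T₂ hne hint
    have hall : ∀ i : Fin (n + 1), ∃ l ∈ (⨆ X ∈ Cfsg.sylowMembers p 𝓕 (S : Subgroup G), X) ⊔
        Subgroup.normalizer ((S : Subgroup G) : Set G), d i = l • S := by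
      intro i
      refine Fin.induction (motive := fun i => ∃ l ∈
        (⨆ X ∈ Cfsg.sylowMembers p 𝓕 (S : Subgroup G), X) ⊔
        Subgroup.normalizer ((S : Subgroup G) : Set G), d i = l • S) ?_ ?_ i
      · rw [hd0]; exact h1
      · intro i ih
        obtain ⟨l', hl', hdl'⟩ := ih
        obtain ⟨hX1, -, hxX, hconj, -⟩ := hstep i
        rw [hdl'] at hX1
        have hxL := hA l' hl' (X i) hX1 hxX
        refine ⟨x i * l', Subgroup.mul_mem _ hxL hl', ?_⟩
        rw [mul_smul, ← hdl']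
        exact eq_smul_of_conjRight (x i) _ _ hconj
    rw [← hdl]
    exact hall _
  rw [eq_top_iff]
  intro g _
  obtain ⟨n, c, hc0, hcl, -, hadj⟩ := hconn S (g • S)
  have hall : ∀ i : Fin (n + 1), ∃ l ∈ (⨆ X ∈ Cfsg.sylowMembers p 𝓕 (S : Subgroup G), X) ⊔
      Subgroup.normalizer ((S : Subgroup G) : Set G), c i = l • S := by
    intro i
    refine Fin.induction (motive := fun i => ∃ l ∈
      (⨆ X ∈ Cfsg.sylowMembers p 𝓕 (S : Subgroup G), X) ⊔
      Subgroup.normalizer ((S : Subgroup G) : Set G), c i = l • S) ?_ ?_ i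
    · exact ⟨1, Subgroup.one_mem _, by rw [hc0, one_smul]⟩
    · intro i ih
      exact hB _ _ (hadj i).1 (hadj i).2 ih
  obtain ⟨l, hl, hgl⟩ := hall (Fin.last n)
  rw [hcl] at hgl
  have h1 : (l⁻¹ * g) • S = S := by rw [mul_smul, hgl, inv_smul_smul]
  have h2 : l⁻¹ * g ∈ Subgroup.normalizer ((S : Subgroup G) : Set G) :=
    Sylow.smul_eq_iff_mem_normalizer.mp h1
  have : g = l * (l⁻¹ * g) := by group
  rw [this]
  exact Subgroup.mul_mem _ hl ((le_sup_right : Subgroup.normalizer ((S : Subgroup G) : Set G) ≤ _) h2)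

end Cfsg.Agent.S2955
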