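import Cfsg.Statements.S2957
import Mathlib
import Cfsg.Agent.Helper25.SylCtlF
import Cfsg.Agent.S2940

set_option autoImplicit false
open Cfsg

namespace Cfsg.Agent.S2957

open Cfsg.Agent.Helper25.SylCtl Relation

theorem prod_link {G : Type*} [Group G] [Finite G] (p : ℕ) [Fact p.Prime]
    (f : Subgroup G → Set (Subgroup G)) (hf : Cfsg.IsNormalizerFunctor p f) (S : Sylow p G)
    (G₁ G₂ : Subgroup G) (h₁ : (S : Subgroup G) ≤ G₁) (h₂ : (S : Subgroup G) ≤ G₂)
    (hprod : ∀ g : G, ∃ g₁ ∈ G₁, ∃ g₂ ∈ G₂, g = g₁ * g₂)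
    (hr₁ : Cfsg.IsFunctorRegular p f G₁) (hr₂ : Cfsg.IsFunctorRegular p f G₂)
    (S' T' : Sylow p G) (hD : (S' : Subgroup G) ⊓ (T' : Subgroup G) ≠ ⊥) :
    ReflTransGen (FStep p f ((S' : Subgroup G) ⊓ (T' : Subgroup G))) S' T' := by
  obtain ⟨a, rfl⟩ := exists_cj S S'
  obtain ⟨b, rfl⟩ := exists_cj S T'
  obtain ⟨U, hU1, hU2⟩ := Cfsg.Agent.S2940.result S G₁ G₂ h₁ h₂ hprod (a⁻¹ * b)⁻¹
  have e1 : ∀ X : Subgroup G, subgroupConjRight (a⁻¹ * b)⁻¹ X =
      X.map (MulAut.conj (a⁻¹ * b)).toMonoidHom := by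
    intro X; unfold subgroupConjRight; rw [inv_inv]
  rw [e1] at hU1 hU2
  have hD₁S : (((cj a S : Sylow p G) : Subgroup G) ⊓ ((cj b S : Sylow p G) : Subgroup G)).map
      (MulAut.conj a⁻¹).toMonoidHom ≤ (S : Subgroup G) := by
    have h0 : ((cj a S : Sylow p G) : Subgroup G) ⊓ ((cj b S : Sylow p G) : Subgroup G) ≤
        ((cj a S : Sylow p G) : Subgroup G) := inf_le_left
    rw [coe_cj a] at h0
    have h1 := Subgroup.map_mono (f := (MulAut.conj a⁻¹).toMonoidHom) h0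
    rwa [mc_inv_left] at h1
  have hD₁hS : (((cj a S : Sylow p G) : Subgroup G) ⊓ ((cj b S : Sylow p G) : Subgroup G)).map
      (MulAut.conj a⁻¹).toMonoidHom ≤ (S : Subgroup G).map (MulAut.conj (a⁻¹ * b)).toMonoidHom := by
    have h0 : ((cj a S : Sylow p G) : Subgroup G) ⊓ ((cj b S : Sylow p G) : Subgroup G) ≤
        ((cj b S : Sylow p G) : Subgroup G) := inf_le_right
    rw [coe_cj b] at h0
    have h1 := Subgroup.map_mono (f := (MulAut.conj a⁻¹).toMonoidHom) h0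
    rwa [mcm] at h1
  have hD₁0 := mc_ne_bot a⁻¹ hD
  have hD₁U := le_trans (le_inf hD₁S hD₁hS) hU1
  have L1 := sub_link hf S h₁ hr₁ S U h₁ (le_trans hU2 inf_le_left) _ (le_inf hD₁S hD₁U) hD₁0
  have hU₂ : ((cj (a⁻¹ * b)⁻¹ U : Sylow p G) : Subgroup G) ≤ G₂ := by
    rw [coe_cj]
    have h1 := Subgroup.map_mono (f := (MulAut.conj (a⁻¹ * b)⁻¹).toMonoidHom)
      (le_trans hU2 inf_le_right)
    rwa [mc_inv_left] at h1
  have hD₂U := Subgroup.map_mono (f := (MulAut.conj (a⁻¹ * b)⁻¹).toMonoidHom) hD₁U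
  rw [← coe_cj] at hD₂U
  have hD₂S := Subgroup.map_mono (f := (MulAut.conj (a⁻¹ * b)⁻¹).toMonoidHom) hD₁hS
  rw [mc_inv_left] at hD₂S
  have L2' := sub_link hf S h₂ hr₂ (cj (a⁻¹ * b)⁻¹ U) S hU₂ h₂ _ (le_inf hD₂U hD₂S)
    (mc_ne_bot _ hD₁0)
  have L2 := rtg_fstep_conj hf (a⁻¹ * b) L2'
  rw [mc_inv_right, cj_cj, mul_inv_cancel, cj_one] at L2
  have L3 := rtg_fstep_conj hf a (L1.trans L2)
  rw [mc_inv_right, cj_cj, mul_inv_cancel_left] at L3
  exact L3

/-- Let p be a prime dividing the order of the finite group G, f an equivariant assignment of a set of subgroups f(P) of P to every p-subgroup P, each normalized by N_G(P), and S a Sylow p-subgroup. If G = G₁G₂ for subgroups G₁, G₂ both containing S and both regular for f (in each Gᵢ, the family of normalizers in Gᵢ of the members of f(P), P a Sylow p-subgroup of Gᵢ, controls Sylow p-intersections), then G itself is regular for f. -/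
theorem result {G : Type*} [Group G] [Finite G] (p : ℕ) [Fact p.Prime] (hdiv : p ∣ Nat.card G)
    (f : Subgroup G → Set (Subgroup G)) (hf : Cfsg.IsNormalizerFunctor p f) (S : Sylow p G)
    (G₁ G₂ : Subgroup G) (h₁ : (S : Subgroup G) ≤ G₁) (h₂ : (S : Subgroup G) ≤ G₂)
    (hprod : ∀ g : G, ∃ g₁ ∈ G₁, ∃ g₂ ∈ G₂, g = g₁ * g₂)
    (hr₁ : Cfsg.IsFunctorRegular p f G₁) (hr₂ : Cfsg.IsFunctorRegular p f G₂) :
    Cfsg.IsFunctorRegular p f ⊤ := by
  unfold IsFunctorRegular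
  rw [controls_iff]
  intro S' T' hne hD
  have hS₀ : (S : Subgroup G) ≤ ⊤ := le_top
  have hD' : (up S hS₀ S' : Subgroup G) ⊓ (up S hS₀ T' : Subgroup G) ≠ ⊥ := by
    rw [coe_up, coe_up, ← Subgroup.map_inf _ _ _ (Subgroup.subtype_injective _)]
    intro h
    exact hD ((Subgroup.map_eq_bot_iff_of_injective _ (Subgroup.subtype_injective _)).mp h)
  have L := prod_link p f hf S G₁ G₂ h₁ h₂ hprod hr₁ hr₂ (up S hS₀ S') (up S hS₀ T') hD'
  have key : ∀ a b : Sylow p G,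
      FStep p f ((up S hS₀ S' : Subgroup G) ⊓ (up S hS₀ T' : Subgroup G)) a b →
      Step p ((fun X : Subgroup G => X.subgroupOf ⊤) '' functorFamily p f ⊤)
        ((S' : Subgroup ↥(⊤ : Subgroup G)) ⊓ (T' : Subgroup ↥(⊤ : Subgroup G)))
        (a.subtype le_top) (b.subtype le_top) := by
    intro a b hab
    obtain ⟨Q, F, x, hF, hx, h1, h2, hc, hD1, hD2⟩ := hab
    have hX : ((⊤ : Subgroup G) ⊓ Subgroup.normalizer (F : Set G)).subgroupOf ⊤ ∈
        (fun X : Subgroup G => X.subgroupOf ⊤) '' functorFamily p f ⊤ := by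
      refine ⟨_, ⟨Q.subtype le_top, F, ?_, rfl⟩, rfl⟩
      rw [Sylow.coe_subtype, Subgroup.subgroupOf_map_subtype, inf_top_eq]
      exact hF
    have hle : ∀ c : Sylow p G, (c : Subgroup G) ≤ Subgroup.normalizer (F : Set G) →
        ((c.subtype le_top : Sylow p ↥(⊤ : Subgroup G)) : Subgroup ↥(⊤ : Subgroup G)) ≤
          ((⊤ : Subgroup G) ⊓ Subgroup.normalizer (F : Set G)).subgroupOf ⊤ := by
      intro c hc y hy
      rw [Sylow.coe_subtype, Subgroup.mem_subgroupOf] at hy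
      rw [Subgroup.mem_subgroupOf]
      exact ⟨Subgroup.mem_top _, hc hy⟩
    refine ⟨_, ⟨x, Subgroup.mem_top x⟩, member_of_le _ hX (hle a h1),
      member_of_le _ hX (hle b h2), ?_, ?_, ?_⟩
    · rw [Subgroup.mem_subgroupOf]; exact ⟨Subgroup.mem_top _, hx⟩
    · apply Subgroup.map_injective (Subgroup.subtype_injective (⊤ : Subgroup G))
      unfold subgroupConjRight
      rw [Sylow.coe_subtype, Sylow.coe_subtype, Subgroup.map_map, Subgroup.subgroupOf_map_subtype,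
        inf_top_eq, ← hc]
      have hcomp : (⊤ : Subgroup G).subtype.comp
          (MulAut.conj (⟨x, Subgroup.mem_top x⟩ : ↥(⊤ : Subgroup G))⁻¹).toMonoidHom =
          (MulAut.conj x⁻¹).toMonoidHom.comp (⊤ : Subgroup G).subtype := by
        ext y; simp
      rw [hcomp, ← Subgroup.map_map, Subgroup.subgroupOf_map_subtype, inf_top_eq]
    · intro y hy
      have hy' : (y : G) ∈ (up S hS₀ S' : Subgroup G) ⊓ (up S hS₀ T' : Subgroup G) := by
        rw [coe_up, coe_up]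
        exact ⟨⟨y, hy.1, rfl⟩, ⟨y, hy.2, rfl⟩⟩
      refine ⟨?_, ?_⟩
      · show y ∈ ((b.subtype le_top : Sylow p ↥(⊤ : Subgroup G)) : Subgroup ↥(⊤ : Subgroup G))
        rw [Sylow.coe_subtype]
        exact Subgroup.mem_subgroupOf.mpr (hD2 hy')
      · exact Subgroup.mem_subgroupOf.mpr ⟨Subgroup.mem_top _, h2 (hD2 hy')⟩
  have L' := rtg_lift (fun c : Sylow p G => c.subtype le_top) key L
  have eS : ∀ P : Sylow p ↥(⊤ : Subgroup G), (up S hS₀ P).subtype le_top = P := by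
    intro P
    apply Sylow.ext
    rw [Sylow.coe_subtype, coe_up]
    exact Subgroup.comap_map_eq_self_of_injective (Subgroup.subtype_injective _) _
  simp only [eS] at L'
  exact L'

end Cfsg.Agent.S2957
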