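import Cfsg.Statements.S2958

set_option autoImplicit false
open Cfsg

namespace Cfsg.Agent.S2958

/-- Let X, A, B be subgroups of a group G such that G is generated by the conjugates of X and every conjugate of X is contained in A or in B. Then A = G or B = G. -/
theorem result {G : Type*} [Group G] (X A B : Subgroup G) (hgen : (⨆ g : G, X.map (MulAut.conj g).toMonoidHom) = ⊤) (hcover : ∀ g : G, X.map (MulAut.conj g).toMonoidHom ≤ A ∨ X.map (MulAut.conj g).toMonoidHom ≤ B) : A = ⊤ ∨ B = ⊤ := by
  classical
  by_cases hB : ∀ g : G, X.map (MulAut.conj g).toMonoidHom ≤ B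
  · right
    rw [eq_top_iff, ← hgen]
    exact iSup_le hB
  · left
    simp only [not_forall] at hB
    obtain ⟨g₀, hg₀⟩ := hB
    -- N = join of the conjugates not contained in B
    set N : Subgroup G := ⨆ g : {g : G // ¬ X.map (MulAut.conj g).toMonoidHom ≤ B},
      X.map (MulAut.conj (g : G)).toMonoidHom with hN
    have hNA : N ≤ A := by
      refine iSup_le ?_
      rintro ⟨g, hg⟩
      rcases hcover g with h | h
      · exact h
      · exact absurd h hg
    have hmapmap : ∀ b g : G, (X.map (MulAut.conj g).toMonoidHom).map (MulAut.conj b).toMonoidHom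
          = X.map (MulAut.conj (b * g)).toMonoidHom := by
      intro b g
      rw [Subgroup.map_map]
      congr 1
      ext x
      simp [MulAut.conj_apply, mul_assoc]
    -- conjugation by an element of B preserves the family
    have hconjB : ∀ b ∈ B, N.map (MulAut.conj b).toMonoidHom ≤ N := by
      intro b hb
      rw [hN, Subgroup.map_iSup]
      refine iSup_le ?_
      rintro ⟨g, hg⟩
      have h2 : ¬ X.map (MulAut.conj (b * g)).toMonoidHom ≤ B := by
        intro hle
        apply hg
        intro y hy
        have : (MulAut.conj b) y ∈ X.map (MulAut.conj (b * g)).toMonoidHom := by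
          rw [← hmapmap]
          exact Subgroup.mem_map_of_mem _ hy
        have h3 := hle this
        have h4 : b⁻¹ * ((MulAut.conj b) y) * b ∈ B := B.mul_mem (B.mul_mem (B.inv_mem hb) h3) hb
        simpa [MulAut.conj_apply, mul_assoc] using h4
      rw [hmapmap]
      exact le_iSup (fun g : {g : G // ¬ X.map (MulAut.conj g).toMonoidHom ≤ B} =>
        X.map (MulAut.conj (g : G)).toMonoidHom) ⟨b * g, h2⟩
    have hBnorm : B ≤ Subgroup.normalizer (N : Set G) := by
      intro b hb
      rw [Subgroup.mem_normalizer_iff]
      intro n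
      constructor
      · intro hn
        have := hconjB b hb (Subgroup.mem_map_of_mem (MulAut.conj b).toMonoidHom hn)
        simpa [MulAut.conj_apply] using this
      · intro hn
        have := hconjB b⁻¹ (B.inv_mem hb) (Subgroup.mem_map_of_mem (MulAut.conj b⁻¹).toMonoidHom hn)
        simpa [MulAut.conj_apply, mul_assoc] using this
    -- every conjugate of X normalizes N
    have hnorm : ∀ g : G, X.map (MulAut.conj g).toMonoidHom ≤ Subgroup.normalizer (N : Set G) := by
      intro g
      by_cases hg : X.map (MulAut.conj g).toMonoidHom ≤ B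
      · exact hg.trans hBnorm
      · exact (le_iSup (fun g : {g : G // ¬ X.map (MulAut.conj g).toMonoidHom ≤ B} =>
          X.map (MulAut.conj (g : G)).toMonoidHom) ⟨g, hg⟩).trans Subgroup.le_normalizer
    have htop : Subgroup.normalizer (N : Set G) = ⊤ := by
      rw [eq_top_iff, ← hgen]
      exact iSup_le hnorm
    have hNn : N.Normal := Subgroup.normalizer_eq_top_iff.mp htop
    have hg₀N : X.map (MulAut.conj g₀).toMonoidHom ≤ N :=
      le_iSup (fun g : {g : G // ¬ X.map (MulAut.conj g).toMonoidHom ≤ B} =>
          X.map (MulAut.conj (g : G)).toMonoidHom) ⟨g₀, hg₀⟩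
    have hall : ∀ g : G, X.map (MulAut.conj g).toMonoidHom ≤ N := by
      intro g
      have h1 : X.map (MulAut.conj g).toMonoidHom
          = (X.map (MulAut.conj g₀).toMonoidHom).map (MulAut.conj (g * g₀⁻¹)).toMonoidHom := by
        rw [hmapmap]; simp
      rw [h1]
      intro y hy
      obtain ⟨z, hz, rfl⟩ := Subgroup.mem_map.mp hy
      have := hNn.conj_mem z (hg₀N hz) (g * g₀⁻¹)
      simpa [MulAut.conj_apply, mul_assoc] using this
    rw [eq_top_iff, ← hgen]
    exact (iSup_le hall).trans hNA

end Cfsg.Agent.S2958
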