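import Cfsg.Statements.S2960
import Cfsg.Agent.Helper23.Thompson

set_option autoImplicit false
open Cfsg

namespace Cfsg.Agent.S2960

open Cfsg.Agent.Helper23

/-- Let G be a finite group of characteristic p (C_G(O_p(G)) ≤ O_p(G)), p prime, T a Sylow p-subgroup of G and Q a normal subgroup of T with C_T(Q) ≤ Q. Then C_G(Q) ≤ Q. -/
theorem result {G : Type*} [Group G] [Finite G] {p : ℕ} [Fact p.Prime] (hG : Subgroup.centralizer (Cfsg.pCore p G : Set G) ≤ Cfsg.pCore p G) (T : Sylow p G) (Q : Subgroup G) (hQT : Q ≤ (T : Subgroup G)) (hQn : (T : Subgroup G) ≤ Subgroup.normalizer (Q : Set G)) (hC : (T : Subgroup G) ⊓ Subgroup.centralizer (Q : Set G) ≤ Q) : Subgroup.centralizer (Q : Set G) ≤ Q := by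
  set V := Cfsg.pCore p G with hV
  have hVn : V.Normal := pCore_normal_fin p
  have hVp : IsPGroup p V := pCore_isPGroup p
  have hVT : V ≤ (T : Subgroup G) := le_sylow_of_normal hVn hVp T
  have hTnil : Group.IsNilpotent (T : Subgroup G) := T.2.isNilpotent
  obtain ⟨a, ha⟩ := IsPGroup.iff_card.mp hVp
  have hVpow : ∀ v ∈ V, v ^ Nat.card V = 1 := by
    intro v hv
    have : (⟨v, hv⟩ : V) ^ Nat.card V = 1 := pow_card_eq_one'
    exact congrArg Subtype.val this
  -- Step 1: p'-elements of C_G(Q) are trivial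
  have step1 : ∀ x ∈ Subgroup.centralizer (Q : Set G), ∀ k : ℕ, k.Coprime p → x ^ k = 1 → x = 1 := by
    intro x hx k hk hxk
    have hzC : Subgroup.zpowers x ≤ Subgroup.centralizer (Q : Set G) :=
      (Subgroup.zpowers_le).mpr hx
    have main := thompson_gen (T : Subgroup G) hTnil V Q (Subgroup.zpowers x) hVT hQT
      (fun b _ v hv => hVn.conj_mem v hv b)
      (fun c _ v hv => hVn.conj_mem v hv c)
      (fun c hc b hb => (Subgroup.mem_centralizer_iff.mp (hzC hb)) c hc)
      (m := k) (n := Nat.card V) (by rw [ha]; exact Nat.Coprime.pow_right a hk)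
      (by
        intro b hb
        obtain ⟨i, rfl⟩ := Subgroup.mem_zpowers_iff.mp hb
        rw [← zpow_natCast, ← zpow_mul, mul_comm, zpow_mul, zpow_natCast, hxk, one_zpow])
      hVpow
      (by
        intro w hw hwQ b hb
        have h1 : w ∈ (T : Subgroup G) ⊓ Subgroup.centralizer (Q : Set G) := by
          refine ⟨hVT hw, ?_⟩
          show w ∈ Subgroup.centralizer (Q : Set G)
          rw [Subgroup.mem_centralizer_iff]
          exact hwQ
        exact ((Subgroup.mem_centralizer_iff.mp (hzC hb)) w (hC h1)).symm)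
    have hxV : x ∈ Subgroup.centralizer (V : Set G) := by
      rw [Subgroup.mem_centralizer_iff]
      intro z hz
      exact (main z hz x (Subgroup.mem_zpowers x)).symm
    exact eq_one_of_isPGroup_of_pow_eq_one hVp (hG hxV) hk hxk
  -- Step 2: C_G(Q) is a p-group
  have step2 : IsPGroup p (Subgroup.centralizer (Q : Set G)) := by
    rintro ⟨g, hg⟩
    have hpos : orderOf g ≠ 0 := (orderOf_pos g).ne'
    obtain ⟨e, m, hm, hem⟩ := Nat.exists_eq_pow_mul_and_not_dvd hpos p (Fact.out : p.Prime).ne_one
    refine ⟨e, ?_⟩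
    apply Subtype.ext
    simp only [Subgroup.coe_pow, Subgroup.coe_one]
    apply step1 (g ^ p ^ e) (Subgroup.pow_mem _ hg _) m
    · rw [Nat.coprime_comm]; exact (Nat.Prime.coprime_iff_not_dvd Fact.out).mpr hm
    · rw [← pow_mul, ← hem, pow_orderOf_eq_one]
  -- Step 3: T normalizes C_G(Q)
  have step3 : (T : Subgroup G) ≤ Subgroup.normalizer (Subgroup.centralizer (Q : Set G) : Set G) := by
    have hconj : ∀ t ∈ Subgroup.normalizer (Q : Set G), ∀ c ∈ Subgroup.centralizer (Q : Set G),
        t * c * t⁻¹ ∈ Subgroup.centralizer (Q : Set G) := by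
      intro t ht c hc
      rw [Subgroup.mem_centralizer_iff]
      intro q hq
      have hq' : t⁻¹ * q * t ∈ Q := by
        have := (Subgroup.mem_normalizer_iff.mp (Subgroup.inv_mem _ ht) q).mp hq
        rwa [inv_inv] at this
      have h1 := (Subgroup.mem_centralizer_iff.mp hc) _ hq'
      have e1 : q * (t * c * t⁻¹) = t * ((t⁻¹ * q * t) * c) * t⁻¹ := by group
      rw [e1, h1]; group
    intro t ht
    rw [Subgroup.mem_normalizer_iff]
    intro c
    constructor
    · intro hc
      exact hconj t (hQn ht) c hc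
    · intro hc
      have := hconj t⁻¹ (Subgroup.inv_mem _ (hQn ht)) _ hc
      have e : t⁻¹ * (t * c * t⁻¹) * t⁻¹⁻¹ = c := by group
      rwa [e] at this
  have hsup : IsPGroup p ((T : Subgroup G) ⊔ Subgroup.centralizer (Q : Set G) : Subgroup G) :=
    T.2.to_sup_of_normal_right' step2 step3
  have hle : Subgroup.centralizer (Q : Set G) ≤ (T : Subgroup G) := by
    have := T.3 hsup le_sup_left
    rw [← this]; exact le_sup_right
  intro c hc
  exact hC ⟨hle hc, hc⟩

end Cfsg.Agent.S2960
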