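import Cfsg.Statements.S2961
import Cfsg.Agent.Helper15.CharP
import Cfsg.Agent.S2960

set_option autoImplicit false
open Cfsg

namespace Cfsg.Agent.S2961

open Cfsg.Agent.Helper15 Cfsg.Agent.Helper23

/-- Let G be a finite group of characteristic p (C_G(O_p(G)) ≤ O_p(G)), p prime, T a Sylow p-subgroup of G and Q a normal subgroup of T with C_T(Q) ≤ Q. Then every subgroup L of G containing Q has characteristic p: C_L(O_p(L)) ≤ O_p(L). -/
theorem result {G : Type*} [Group G] [Finite G] {p : ℕ} [Fact p.Prime] (hG : Subgroup.centralizer (Cfsg.pCore p G : Set G) ≤ Cfsg.pCore p G) (T : Sylow p G) (Q : Subgroup G) (hQT : Q ≤ (T : Subgroup G)) (hQn : (T : Subgroup G) ≤ Subgroup.normalizer (Q : Set G)) (hC : (T : Subgroup G) ⊓ Subgroup.centralizer (Q : Set G) ≤ Q) (L : Subgroup G) (hQL : Q ≤ L) : Subgroup.centralizer (Cfsg.pCore p ↥L : Set ↥L) ≤ Cfsg.pCore p ↥L := by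
  have hCQ : Subgroup.centralizer (Q : Set G) ≤ Q := Cfsg.Agent.S2960.result hG T Q hQT hQn hC
  have hOn : (Cfsg.pCore p G).Normal := pCore_normal_fin p
  have hOp : IsPGroup p (Cfsg.pCore p G) := pCore_isPGroup p
  have hOT : Cfsg.pCore p G ≤ (T : Subgroup G) := le_sylow_of_normal hOn hOp T
  have hQp : IsPGroup p Q := T.2.to_le hQT
  have hTQ := Subgroup.le_normalizer_iff.mp hQn
  -- the normal closure of `Q` in `L`
  have hL₀ : ∃ L₀ : Subgroup G, Q ≤ L₀ ∧ L₀ ≤ L ∧ (∀ l ∈ L, ∀ g ∈ L₀, l * g * l⁻¹ ∈ L₀) ∧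
      (∀ o ∈ Cfsg.pCore p G, ∀ g ∈ L₀, o * g * o⁻¹ ∈ L₀) := by
    refine ⟨Subgroup.closure {g | ∃ l ∈ L, ∃ q ∈ Q, g = l * q * l⁻¹}, ?_, ?_, ?_, ?_⟩
    · intro q hq
      exact Subgroup.subset_closure ⟨1, one_mem _, q, hq, by simp⟩
    · rw [Subgroup.closure_le]
      rintro g ⟨l, hl, q, hq, rfl⟩
      exact mul_mem (mul_mem hl (hQL hq)) (inv_mem hl)
    · apply conj_mem_closure
      rintro l hl g ⟨l', hl', q, hq, rfl⟩
      exact ⟨l * l', mul_mem hl hl', q, hq, by group⟩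
    · apply conj_mem_closure
      rintro o ho g ⟨l, hl, q, hq, rfl⟩
      refine ⟨l, hl, (l⁻¹ * o * l) * q * (l⁻¹ * o * l)⁻¹, ?_, by group⟩
      apply hTQ _ (hOT _) q hq
      have := hOn.conj_mem o ho l⁻¹
      simpa using this
  obtain ⟨L₀, hQL₀, hL₀L, hLL₀, hOL₀⟩ := hL₀
  have hL₀char : Subgroup.centralizer (Cfsg.pCore p ↥L₀ : Set ↥L₀) ≤ Cfsg.pCore p ↥L₀ :=
    charp_of_normalized (Cfsg.pCore p G) L₀ ⊤ hOp (by rw [top_inf_eq]; exact hG) le_top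
      (fun l _ o ho => hOn.conj_mem o ho l) hOL₀
  have hR₀p : IsPGroup p ((Cfsg.pCore p ↥L₀).map L₀.subtype) := isPGroup_map_pCore L₀
  have hR₀L₀ : (Cfsg.pCore p ↥L₀).map L₀.subtype ≤ L₀ := map_pCore_le L₀
  have hR₀self := mem_map_pCore_of_centralizes L₀ hL₀char
  -- `L` normalizes `O_p(L₀)`
  have hLR₀ : ∀ l ∈ L, ∀ r ∈ (Cfsg.pCore p ↥L₀).map L₀.subtype,
      l * r * l⁻¹ ∈ (Cfsg.pCore p ↥L₀).map L₀.subtype := by
    intro l hl r hr
    have hN : ((Cfsg.pCore p ↥L₀).map L₀.subtype).map (MulAut.conj l).toMonoidHom ≤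
        (Cfsg.pCore p ↥L₀).map L₀.subtype := by
      apply le_map_pCore L₀ _ ?_ (hR₀p.map _) ?_
      · rintro x ⟨r', hr', rfl⟩
        simp only [MulEquiv.coe_toMonoidHom, MulAut.conj_apply]
        exact hLL₀ l hl r' (hR₀L₀ hr')
      · rintro m hm x ⟨r', hr', rfl⟩
        refine ⟨(l⁻¹ * m * l) * r' * (l⁻¹ * m * l)⁻¹, ?_, ?_⟩
        · apply conj_mem_map_pCore L₀ _ hr'
          have := hLL₀ l⁻¹ (inv_mem hl) m hm
          simpa using this
        · simp only [MulEquiv.coe_toMonoidHom, MulAut.conj_apply]; group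
    exact hN ⟨r, hr, by simp [MulAut.conj_apply]⟩
  apply charp_of_pprime_trivial
  intro x hx k hk hxk
  have hxk' : x.1 ^ k = 1 := by
    have := congrArg Subtype.val hxk
    simpa using this
  have hyR : ∀ r ∈ (Cfsg.pCore p ↥L₀).map L₀.subtype, r * x.1 = x.1 * r := by
    intro r hr
    have hmem := mem_pCore_subgroup L _ (le_trans hR₀L₀ hL₀L) hR₀p hLR₀ hr
    exact congrArg Subtype.val ((Subgroup.mem_centralizer_iff.mp hx) _ hmem)
  have hcomm : ∀ q ∈ Q, x.1 * q = q * x.1 := by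
    intro q hq
    have hw : x.1 * q * x.1⁻¹ * q⁻¹ ∈ (Cfsg.pCore p ↥L₀).map L₀.subtype := by
      apply hR₀self
      refine Subgroup.mem_inf.mpr
        ⟨mul_mem (hLL₀ x.1 x.2 q (hQL₀ hq)) (inv_mem (hQL₀ hq)), ?_⟩
      rw [Subgroup.mem_centralizer_iff]
      intro r hr
      have h1 : q⁻¹ * r * q ∈ (Cfsg.pCore p ↥L₀).map L₀.subtype := by
        have := hLR₀ q⁻¹ (inv_mem (hQL hq)) r hr
        simpa using this
      have h2 : Commute (q⁻¹ * r * q) x.1 := hyR _ h1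
      have h2' : (q⁻¹ * r * q) * x.1⁻¹ = x.1⁻¹ * (q⁻¹ * r * q) := h2.inv_right.eq
      have h3 := hyR r hr
      calc r * (x.1 * q * x.1⁻¹ * q⁻¹) = (r * x.1) * q * x.1⁻¹ * q⁻¹ := by group
        _ = (x.1 * r) * q * x.1⁻¹ * q⁻¹ := by rw [h3]
        _ = x.1 * q * ((q⁻¹ * r * q) * x.1⁻¹) * q⁻¹ := by group
        _ = x.1 * q * (x.1⁻¹ * (q⁻¹ * r * q)) * q⁻¹ := by rw [h2']
        _ = x.1 * q * x.1⁻¹ * q⁻¹ * r := by group
    exact commute_of_stab hR₀p hw ((hyR _ hw).symm) hk hxk'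
  have hxQ : x.1 ∈ Q :=
    hCQ (Subgroup.mem_centralizer_iff.mpr (fun q hq => (hcomm q hq).symm))
  exact Subtype.ext (eq_one_of_isPGroup_of_pow_eq_one hQp hxQ hk hxk')

end Cfsg.Agent.S2961
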