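import Cfsg.Statements.S2963
import Mathlib

set_option autoImplicit false
open Cfsg

namespace Cfsg.Agent.S2963

open scoped Pointwise

/-- Let n be odd. If the symmetric group of degree n is a minimal parabolic group for the prime 2, that is, a Sylow 2-subgroup is not normal and lies in exactly one maximal subgroup, then n = 2^m + 1 for some natural number m. -/
theorem result (n : ℕ) (hn : Odd n) (h : Cfsg.IsPMinimal 2 (Equiv.Perm (Fin n))) : ∃ m : ℕ, n = 2 ^ m + 1 := by
  classical
  obtain ⟨S⟩ : Nonempty (Sylow 2 (Equiv.Perm (Fin n))) := inferInstance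
  obtain ⟨hnn, M, ⟨hM1, hM2⟩, huniq⟩ := h S
  have hSp : IsPGroup 2 ↥(S : Subgroup (Equiv.Perm (Fin n))) := S.isPGroup'
  have hfix : (MulAction.fixedPoints ↥(S : Subgroup (Equiv.Perm (Fin n))) (Fin n)).Nonempty := by
    apply hSp.nonempty_fixed_point_of_prime_not_dvd_card
    rw [Nat.card_eq_fintype_card, Fintype.card_fin]
    exact fun hd => (Nat.not_even_iff_odd.mpr hn) (even_iff_two_dvd.mpr hd)
  obtain ⟨i, hi⟩ := hfix
  have hi' : ∀ s : ↥(S : Subgroup (Equiv.Perm (Fin n))), s • i = i := MulAction.mem_fixedPoints.mp hi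
  by_cases hex : ∃ j : Fin n, j ≠ i
  swap
  · exfalso
    apply hnn
    have hsub : Subsingleton (Fin n) := ⟨fun a b => by
      have ha : a = i := by by_contra hne; exact hex ⟨a, hne⟩
      have hb : b = i := by by_contra hne; exact hex ⟨b, hne⟩
      rw [ha, hb]⟩
    constructor
    intro x hx g
    have : g * x * g⁻¹ = x := Subsingleton.elim _ _
    rw [this]; exact hx
  obtain ⟨j, hj⟩ := hex
  obtain ⟨k, hk⟩ := hSp.card_orbit j
  have hiO : i ∉ MulAction.orbit ↥(S : Subgroup (Equiv.Perm (Fin n))) j := by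
    intro hmem
    obtain ⟨s, hs⟩ := MulAction.mem_orbit_iff.mp hmem
    apply hj
    have h1 : s⁻¹ • i = i := hi' s⁻¹
    have h2 : j = s⁻¹ • i := by rw [← hs, inv_smul_smul]
    rw [h2, h1]
  by_cases hall : ∀ l : Fin n, l ≠ i → l ∈ MulAction.orbit ↥(S : Subgroup (Equiv.Perm (Fin n))) j
  · refine ⟨k, ?_⟩
    have hOeq : MulAction.orbit ↥(S : Subgroup (Equiv.Perm (Fin n))) j = ({i} : Set (Fin n))ᶜ := by
      ext l
      simp only [Set.mem_compl_iff, Set.mem_singleton_iff]
      constructor
      · intro hl hli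
        exact hiO (hli ▸ hl)
      · intro hl
        exact hall l hl
    have hc : Nat.card (MulAction.orbit ↥(S : Subgroup (Equiv.Perm (Fin n))) j) = n - 1 := by
      rw [hOeq, Nat.card_coe_set_eq, Set.ncard_compl, Set.ncard_singleton, Nat.card_eq_fintype_card,
        Fintype.card_fin]
    have h3 : n - 1 = 2 ^ k := by rw [← hc]; exact hk
    have hn1 : 0 < n := i.pos
    omega
  · exfalso
    push Not at hall
    obtain ⟨l, hli, hlO⟩ := hall
    have hS1 : (S : Subgroup (Equiv.Perm (Fin n))) ≤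
        MulAction.stabilizer (Equiv.Perm (Fin n)) ({i} : Set (Fin n)) := by
      intro s hs
      rw [MulAction.mem_stabilizer_iff, Set.smul_set_singleton]
      have h' : s • i = i := hi' ⟨s, hs⟩
      rw [h']
    have hS2 : (S : Subgroup (Equiv.Perm (Fin n))) ≤
        MulAction.stabilizer (Equiv.Perm (Fin n))
          (MulAction.orbit ↥(S : Subgroup (Equiv.Perm (Fin n))) j) := by
      intro s hs
      rw [MulAction.mem_stabilizer_iff]
      ext y
      constructor
      · rintro ⟨z, hz, rfl⟩
        exact MulAction.mem_orbit_of_mem_orbit (⟨s, hs⟩ : ↥(S : Subgroup (Equiv.Perm (Fin n)))) hz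
      · intro hy
        refine ⟨s⁻¹ • y, ?_, by simp⟩
        exact MulAction.mem_orbit_of_mem_orbit
          ((⟨s, hs⟩ : ↥(S : Subgroup (Equiv.Perm (Fin n))))⁻¹) hy
    have hodd2 : ∀ t : ℕ, n ≠ 2 * t := by
      intro t ht
      obtain ⟨u, hu⟩ := hn
      omega
    have hc1 : IsCoatom (MulAction.stabilizer (Equiv.Perm (Fin n)) ({i} : Set (Fin n))) := by
      apply Equiv.Perm.isCoatom_stabilizer (Set.singleton_nonempty i)
      · exact ⟨j, by simpa using hj⟩
      · rw [Nat.card_eq_fintype_card, Fintype.card_fin]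
        exact hodd2 _
    have hc2 : IsCoatom (MulAction.stabilizer (Equiv.Perm (Fin n))
        (MulAction.orbit ↥(S : Subgroup (Equiv.Perm (Fin n))) j)) := by
      apply Equiv.Perm.isCoatom_stabilizer ⟨j, MulAction.mem_orbit_self j⟩ ⟨i, hiO⟩
      rw [Nat.card_eq_fintype_card, Fintype.card_fin]
      exact hodd2 _
    have e1 := huniq _ ⟨hc1, hS1⟩
    have e2 := huniq _ ⟨hc2, hS2⟩
    have hswap : Equiv.swap j l ∈
        MulAction.stabilizer (Equiv.Perm (Fin n)) ({i} : Set (Fin n)) := by
      rw [MulAction.mem_stabilizer_iff, Set.smul_set_singleton]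
      have : Equiv.swap j l • i = i := Equiv.swap_apply_of_ne_of_ne (Ne.symm hj) (Ne.symm hli)
      rw [this]
    rw [e1, ← e2] at hswap
    rw [MulAction.mem_stabilizer_iff] at hswap
    have h4 : Equiv.swap j l • j ∈
        Equiv.swap j l • MulAction.orbit ↥(S : Subgroup (Equiv.Perm (Fin n))) j :=
      Set.smul_mem_smul_set (MulAction.mem_orbit_self j)
    rw [hswap] at h4
    have h3 : Equiv.swap j l • j = l := Equiv.swap_apply_left j l
    rw [h3] at h4
    exact hlO h4

end Cfsg.Agent.S2963
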