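import Mathlib
import Cfsg.Statements.S3011
import Cfsg.Agent.Helper16.BaerSuzuki
import Cfsg.Agent.Helper16.Odd
import Cfsg.Agent.Helper16.Conj
-- import your own Cfsg.Agent.* helpers here

set_option autoImplicit false
open Cfsg

namespace Cfsg.Agent.S3011


theorem eq_one_of_odd_of_sq {G : Type*} [Group G] {y : G} {m : ℕ} (hm : Odd m) (hym : y ^ m = 1)
    (h : y * y = 1) : y = 1 :=
  Cfsg.Agent.Helper16.eq_one_of_odd_of_two_pow (j := 1) hm hym (by rw [pow_one, pow_two]; exact h)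

theorem sq_of_odd_inverts {G : Type*} [Group G] {u y : G} {m : ℕ} (hm : Odd m) (hum : u ^ m = 1)
    (hinv : u * y * u⁻¹ = y⁻¹) : y * y = 1 := by
  have h1 : u * y = y⁻¹ * u := by rw [← hinv, inv_mul_cancel_right]
  have h2 : u * y⁻¹ = y * u := by
    have : u * y⁻¹ * u⁻¹ = y := by
      calc u * y⁻¹ * u⁻¹ = (u * y * u⁻¹)⁻¹ := by simp only [mul_inv_rev, inv_inv, mul_assoc]
        _ = y := by rw [hinv, inv_inv]
    calc u * y⁻¹ = (u * y⁻¹ * u⁻¹) * u := by rw [inv_mul_cancel_right]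
      _ = y * u := by rw [this]
  have hc2 : Commute (u ^ 2) y := by
    show u ^ 2 * y = y * u ^ 2
    rw [pow_two, mul_assoc u u y, h1, ← mul_assoc u y⁻¹ u, h2, mul_assoc y u u]
  have hc : Commute u y := Cfsg.Agent.Helper16.commute_of_sq_commute hm hum hc2
  have : y = y⁻¹ := by rw [← hinv, hc.eq, mul_inv_cancel_right]
  calc y * y = y * y⁻¹ := by rw [← this]
    _ = 1 := mul_inv_cancel y

theorem key {G : Type*} [Group G] (V : Subgroup G) (hS : Cfsg.IsSidkiPair V) (v w₁ w₂ : G)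
    (hv : v ∈ V) (h1 : w₁ ∈ V) (hvv : v * v = 1) (h11 : w₁ * w₁ = 1)
    (hprod : w₂ = v * w₁) (hcomm : v * w₁ = w₁ * v)
    (hV4 : ∀ w ∈ V, w = 1 ∨ w = v ∨ w = w₁ ∨ w = w₂)
    (x y : G) (m n : ℕ) (hm : Odd m) (hn : Odd n) (hxm : x ^ m = 1) (hyn : y ^ n = 1)
    (hx1 : x ≠ 1) (hy1 : y ≠ 1)
    (hvx : v * x * v⁻¹ = x⁻¹) (h1x : w₁ * x = x * w₁) (hvy : v * y * v⁻¹ = y⁻¹)
    (h2y : w₂ * y = y * w₂) : False := by
  have hcj : ∀ g p q r : G,
      g * (p * q * r) * g⁻¹ = (g * p * g⁻¹) * (g * q * g⁻¹) * (g * r * g⁻¹) := by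
    intro g p q r; simp only [mul_assoc, inv_mul_cancel_left]
  have hcj2 : ∀ g p q : G, g * (p * q) * g⁻¹ = (g * p * g⁻¹) * (g * q * g⁻¹) := by
    intro g p q; simp only [mul_assoc, inv_mul_cancel_left]
  have hcji : ∀ g p : G, g * p⁻¹ * g⁻¹ = (g * p * g⁻¹)⁻¹ := by
    intro g p; simp only [mul_inv_rev, inv_inv, mul_assoc]
  have h1x' : w₁ * x * w₁⁻¹ = x := by rw [h1x, mul_inv_cancel_right]
  have h2y' : w₂ * y * w₂⁻¹ = y := by rw [h2y, mul_inv_cancel_right]
  have h2x : w₂ * x * w₂⁻¹ = x⁻¹ := by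
    rw [hprod, mul_inv_rev]
    calc v * w₁ * x * (w₁⁻¹ * v⁻¹) = v * (w₁ * x * w₁⁻¹) * v⁻¹ := by simp only [mul_assoc]
      _ = x⁻¹ := by rw [h1x', hvx]
  have h1y : w₁ * y * w₁⁻¹ = y⁻¹ := by
    have hw1 : w₁ = v * w₂ := by rw [hprod, ← mul_assoc, hvv, one_mul]
    have e : v * w₂ * y * (v * w₂)⁻¹ = y⁻¹ := by
      rw [mul_inv_rev]
      calc v * w₂ * y * (w₂⁻¹ * v⁻¹) = v * (w₂ * y * w₂⁻¹) * v⁻¹ := by simp only [mul_assoc]
        _ = y⁻¹ := by rw [h2y', hvy]
    rw [← hw1] at e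
    exact e
  obtain ⟨y', hy'⟩ : ∃ y' : G, y' = x⁻¹ * y * x := ⟨_, rfl⟩
  have hy'n : y' ^ n = 1 := by
    rw [hy']
    have := conj_pow (a := x⁻¹) (b := y) (i := n)
    rw [inv_inv] at this
    rw [this, hyn, mul_one, inv_mul_cancel]
  have hy'1 : y' ≠ 1 := by
    intro h
    apply hy1
    have : y = x * y' * x⁻¹ := by
      rw [hy']; simp only [mul_assoc, mul_inv_cancel, mul_one, mul_inv_cancel_left]
    rw [this, h, mul_one, mul_inv_cancel]
  have hodd' : Odd (orderOf y') := hn.of_dvd_nat (orderOf_dvd_of_pow_eq_one hy'n)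
  have hv_y' : v * y' * v⁻¹ = x * y⁻¹ * x⁻¹ := by
    rw [hy', hcj, hcji, hvx, hvy, inv_inv]
  have h1_y' : w₁ * y' * w₁⁻¹ = y'⁻¹ := by
    rw [hy', hcj, hcji, h1x', h1y]
    simp only [mul_inv_rev, inv_inv, mul_assoc]
  have h2_y' : w₂ * y' * w₂⁻¹ = x * y * x⁻¹ := by
    rw [hy', hcj, hcji, h2x, h2y', inv_inv]
  obtain ⟨w, hwV, hw1, hwc⟩ := hS y' w₁ h1 hodd' h1_y'
  have hwc' : w * y' * w⁻¹ = y' := by rw [hwc, mul_inv_cancel_right]
  rcases hV4 w hwV with h | h | h | h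
  · exact hw1 h
  · -- w = v
    rw [h, hv_y', hy'] at hwc'
    have h4 : x ^ 2 * y⁻¹ * (x ^ 2)⁻¹ = y := by
      calc x ^ 2 * y⁻¹ * (x ^ 2)⁻¹ = x * (x * y⁻¹ * x⁻¹) * x⁻¹ := by
            simp only [pow_two, mul_inv_rev, mul_assoc]
        _ = x * (x⁻¹ * y * x) * x⁻¹ := by rw [hwc']
        _ = y := by simp only [mul_assoc, mul_inv_cancel_left, mul_inv_cancel, mul_one]
    have hinv : x ^ 2 * y * (x ^ 2)⁻¹ = y⁻¹ := by
      have := congrArg Inv.inv h4
      rw [← hcji, inv_inv] at this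
      exact this
    have hyy := sq_of_odd_inverts (u := x ^ 2) hm
      (by rw [← pow_mul, mul_comm, pow_mul, hxm, one_pow]) hinv
    exact hy1 (eq_one_of_odd_of_sq hn hyn hyy)
  · -- w = w₁
    rw [h] at hwc'
    have e : y' = y'⁻¹ := hwc'.symm.trans h1_y'
    have : y' * y' = 1 := by
      calc y' * y' = y' * y'⁻¹ := by rw [← e]
        _ = 1 := mul_inv_cancel y'
    exact hy'1 (eq_one_of_odd_of_sq hn hy'n this)
  · -- w = w₂
    rw [h] at hwc'
    have e : x * y * x⁻¹ = x⁻¹ * y * x := h2_y'.symm.trans (hwc'.trans hy')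
    have hc2 : Commute (x ^ 2) y := by
      show x ^ 2 * y = y * x ^ 2
      calc x ^ 2 * y = x * (x * y * x⁻¹) * x := by
            simp only [pow_two, mul_assoc, inv_mul_cancel, mul_one]
        _ = x * (x⁻¹ * y * x) * x := by rw [e]
        _ = y * x ^ 2 := by simp only [pow_two, mul_assoc, mul_inv_cancel_left]
    have hc : Commute x y := Cfsg.Agent.Helper16.commute_of_sq_commute hm hxm hc2
    have hxyo : (x * y) ^ (m * n) = 1 := by
      rw [hc.mul_pow, pow_mul, hxm, one_pow, mul_comm m n, pow_mul, hyn, one_pow, one_mul]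
    have hodd2 : Odd (orderOf (x * y)) :=
      (hm.mul hn).of_dvd_nat (orderOf_dvd_of_pow_eq_one hxyo)
    have hvxy : v * (x * y) * v⁻¹ = (x * y)⁻¹ := by
      rw [hcj2, hvx, hvy, mul_inv_rev]
      exact hc.inv_inv.eq
    obtain ⟨w', hw'V, hw'1, hw'c⟩ := hS (x * y) v hv hodd2 hvxy
    have hw'c' : w' * (x * y) * w'⁻¹ = x * y := by rw [hw'c, mul_inv_cancel_right]
    rcases hV4 w' hw'V with h' | h' | h' | h'
    · exact hw'1 h'
    · rw [h', hvxy] at hw'c'
      have hxy1 : x * y = 1 := eq_one_of_odd_of_sq (hm.mul hn) hxyo (by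
        calc (x * y) * (x * y) = (x * y)⁻¹ * (x * y) := by rw [hw'c']
          _ = 1 := inv_mul_cancel _)
      have hyx : y = x⁻¹ := eq_inv_of_mul_eq_one_right hxy1
      have hyy : y * y = 1 := by
        have e1 : w₁ * y * w₁⁻¹ = y := by rw [hyx, hcji, h1x']
        have e2 : y = y⁻¹ := e1.symm.trans h1y
        calc y * y = y * y⁻¹ := by rw [← e2]
          _ = 1 := mul_inv_cancel y
      exact hy1 (eq_one_of_odd_of_sq hn hyn hyy)
    · rw [h', hcj2, h1x', h1y] at hw'c'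
      have : y⁻¹ = y := mul_left_cancel hw'c'
      have hyy : y * y = 1 := by
        calc y * y = y⁻¹ * y := by rw [this]
          _ = 1 := inv_mul_cancel y
      exact hy1 (eq_one_of_odd_of_sq hn hyn hyy)
    · rw [h', hcj2, h2x, h2y'] at hw'c'
      have : x⁻¹ = x := mul_right_cancel hw'c'
      have hxx : x * x = 1 := by
        calc x * x = x⁻¹ * x := by rw [this]
          _ = 1 := inv_mul_cancel x
      exact hx1 (eq_one_of_odd_of_sq hm hxm hxx)

/-- `u` inverts a nontrivial element of odd order centralized by `w`. -/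
def Q {G : Type*} [Group G] (u w : G) : Prop :=
  ∃ (x : G) (m : ℕ), x ≠ 1 ∧ Odd m ∧ x ^ m = 1 ∧ u * x * u⁻¹ = x⁻¹ ∧ w * x = x * w

theorem convQ {G : Type*} [Group G] {u w t : G} (ht : u * w = t) (h : Q u w) : Q t w := by
  obtain ⟨x, m, hx1, hm, hxm, hinv, hc⟩ := h
  refine ⟨x, m, hx1, hm, hxm, ?_, hc⟩
  rw [← ht, mul_inv_rev]
  calc u * w * x * (w⁻¹ * u⁻¹) = u * (w * x * w⁻¹) * u⁻¹ := by simp only [mul_assoc]
    _ = x⁻¹ := by rw [hc, mul_inv_cancel_right, hinv]

theorem keyQ {G : Type*} [Group G] (V : Subgroup G) (hS : Cfsg.IsSidkiPair V) (v w₁ w₂ : G)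
    (hv : v ∈ V) (h1 : w₁ ∈ V) (hvv : v * v = 1) (h11 : w₁ * w₁ = 1)
    (hprod : w₂ = v * w₁) (hcomm : v * w₁ = w₁ * v)
    (hV4 : ∀ w ∈ V, w = 1 ∨ w = v ∨ w = w₁ ∨ w = w₂) (hq1 : Q v w₁) (hq2 : Q v w₂) : False := by
  obtain ⟨x, m, hx1, hm, hxm, hvx, h1x⟩ := hq1
  obtain ⟨y, n, hy1, hn, hyn, hvy, h2y⟩ := hq2
  exact key V hS v w₁ w₂ hv h1 hvv h11 hprod hcomm hV4 x y m n hm hn hxm hyn hx1 hy1 hvx h1x hvy h2y

theorem four_of_card {G : Type*} [Group G] [Finite G] (V : Subgroup G) (h4 : Nat.card V ≤ 4)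
    (a b : G) (ha : a ∈ V) (hb : b ∈ V) (ha1 : a ≠ 1) (hb1 : b ≠ 1) (hab : a ≠ b)
    (haa : a * a = 1) : ∀ w ∈ V, w = 1 ∨ w = a ∨ w = b ∨ w = a * b := by
  classical
  intro w hw
  by_contra hcon
  push_neg at hcon
  obtain ⟨hw1, hwa, hwb, hwab⟩ := hcon
  have hab1 : a * b ≠ 1 := by
    intro h
    apply hab
    have : b = a⁻¹ := eq_inv_of_mul_eq_one_right h
    rw [this]; exact (inv_eq_of_mul_eq_one_left haa).symm
  have haba : a * b ≠ a := by
    intro h; exact hb1 (mul_left_cancel (h.trans (mul_one a).symm))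
  have habb : a * b ≠ b := by
    intro h; exact ha1 (mul_right_cancel (h.trans (one_mul b).symm))
  have hsub : (({1, a, b, a * b, w} : Finset G) : Set G) ⊆ (V : Set G) := by
    intro z hz
    simp only [Finset.coe_insert, Finset.coe_singleton, Set.mem_insert_iff,
      Set.mem_singleton_iff] at hz
    rcases hz with rfl | rfl | rfl | rfl | rfl
    · exact V.one_mem
    · exact ha
    · exact hb
    · exact V.mul_mem ha hb
    · exact hw
  have n1 : (1 : G) ∉ ({a, b, a * b, w} : Finset G) := by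
    simp only [Finset.mem_insert, Finset.mem_singleton, not_or]
    exact ⟨fun h => ha1 h.symm, fun h => hb1 h.symm, fun h => hab1 h.symm, fun h => hw1 h.symm⟩
  have n2 : a ∉ ({b, a * b, w} : Finset G) := by
    simp only [Finset.mem_insert, Finset.mem_singleton, not_or]
    exact ⟨hab, fun h => haba h.symm, fun h => hwa h.symm⟩
  have n3 : b ∉ ({a * b, w} : Finset G) := by
    simp only [Finset.mem_insert, Finset.mem_singleton, not_or]
    exact ⟨fun h => habb h.symm, fun h => hwb h.symm⟩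
  have n4 : a * b ∉ ({w} : Finset G) := by
    simp only [Finset.mem_singleton]
    exact fun h => hwab h.symm
  have hcard : ({1, a, b, a * b, w} : Finset G).card = 5 := by
    rw [Finset.card_insert_of_notMem n1, Finset.card_insert_of_notMem n2,
      Finset.card_insert_of_notMem n3, Finset.card_insert_of_notMem n4, Finset.card_singleton]
  have h5 := Set.ncard_le_ncard hsub (Set.toFinite _)
  rw [Set.ncard_coe_finset, hcard] at h5
  have h6 : (V : Set G).ncard ≤ 4 := by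
    rw [← Nat.card_coe_set_eq]; exact h4
  omega


/-- Let G be a finite group and V a nontrivial elementary abelian 2-subgroup of G of order at most 4 such that, whenever an element of V inverts an element h of G of odd order, some nontrivial element of V commutes with h. Then V meets O₂(G) nontrivially. (The case of order at most 4 has a short argument from the Baer–Suzuki theorem.) -/
theorem result {G : Type*} [Group G] [Finite G] (V : Subgroup G) (hV : Cfsg.IsElementaryAbelian 2 V) (hV1 : V ≠ ⊥) (hS : Cfsg.IsSidkiPair V) (h4 : Nat.card V ≤ 4) : V ⊓ Cfsg.pCore 2 G ≠ ⊥ := by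
  intro hbot
  obtain ⟨hcomm, hsq⟩ := (Cfsg.Agent.Helper16.ea2_iff V).1 hV
  have hnot : ∀ u ∈ V, u ≠ 1 → u ∉ Cfsg.pCore 2 G := by
    intro u hu hu1 hmem
    have : u ∈ V ⊓ Cfsg.pCore 2 G := ⟨hu, hmem⟩
    rw [hbot, Subgroup.mem_bot] at this
    exact hu1 this
  have step : ∀ u ∈ V, u ≠ 1 → ∃ w ∈ V, w ≠ 1 ∧ w ≠ u ∧ Q u w := by
    intro u hu hu1
    obtain ⟨x, m, hx1, hm, hxm, hinv⟩ :=
      Cfsg.Agent.Helper16.exists_inverted_of_not_mem_pCore u (hsq u hu) (hnot u hu hu1)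
    obtain ⟨w, hwV, hw1, hwc⟩ := hS x u hu (hm.of_dvd_nat (orderOf_dvd_of_pow_eq_one hxm)) hinv
    refine ⟨w, hwV, hw1, ?_, ⟨x, m, hx1, hm, hxm, hinv, hwc⟩⟩
    intro hwu
    rw [hwu] at hwc
    have : x = x⁻¹ := by rw [← hinv, hwc, mul_inv_cancel_right]
    apply hx1
    exact eq_one_of_odd_of_sq hm hxm (by
      calc x * x = x * x⁻¹ := by rw [← this]
        _ = 1 := mul_inv_cancel x)
  obtain ⟨a, haV, ha1⟩ : ∃ a ∈ V, a ≠ 1 := by
    by_contra hcon; push_neg at hcon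
    exact hV1 ((Subgroup.eq_bot_iff_forall _).2 hcon)
  obtain ⟨b, hbV, hb1, hba, -⟩ := step a haV ha1
  have haa := hsq a haV
  have hbb := hsq b hbV
  have hab : a * b = b * a := hcomm a haV b hbV
  have hV4' := four_of_card V h4 a b haV hbV ha1 hb1 (Ne.symm hba) haa
  obtain ⟨c, hc⟩ : ∃ c : G, c = a * b := ⟨_, rfl⟩
  have hcV : c ∈ V := hc ▸ V.mul_mem haV hbV
  rw [← hc] at hV4'
  have hc1 : c ≠ 1 := by
    intro h
    apply hba
    have h' : a * b = 1 := hc ▸ h
    have : b = a⁻¹ := eq_inv_of_mul_eq_one_right h'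
    rw [this]; exact inv_eq_of_mul_eq_one_left haa
  have hca : c ≠ a := by
    intro h; exact hb1 (mul_left_cancel ((hc ▸ h : a * b = a).trans (mul_one a).symm))
  have hcb : c ≠ b := by
    intro h; exact ha1 (mul_right_cancel ((hc ▸ h : a * b = b).trans (one_mul b).symm))
  have hcc := hsq c hcV
  have hac : a * c = b := by rw [hc, ← mul_assoc, haa, one_mul]
  have hbc : b * c = a := by rw [hc, ← mul_assoc, ← hab, mul_assoc, hbb, mul_one]
  have hca' : c * a = b := by rw [hc, hab, mul_assoc, haa, mul_one]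
  have hcb' : c * b = a := by rw [hc, mul_assoc, hbb, mul_one]
  have hba' : b * a = c := by rw [hc, hab]
  have Ka : Q a b → Q a c → False :=
    keyQ V hS a b c haV hbV haa hbb hc hab hV4'
  have Kb : Q b a → Q b c → False :=
    keyQ V hS b a c hbV haV hbb haa hba'.symm hab.symm
      (fun w hw => by rcases hV4' w hw with h | h | h | h <;> tauto)
  have Kc : Q c a → Q c b → False :=
    keyQ V hS c a b hcV haV hcc haa hca'.symm (hca'.trans hac.symm)
      (fun w hw => by rcases hV4' w hw with h | h | h | h <;> tauto)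
  obtain ⟨wa, hwaV, hwa1, hwaa, hQa⟩ := step a haV ha1
  obtain ⟨wb, hwbV, hwb1, hwbb, hQb⟩ := step b hbV hb1
  obtain ⟨wc, hwcV, hwc1, hwcc, hQc⟩ := step c hcV hc1
  rcases hV4' wa hwaV with h | h | h | h
  · exact hwa1 h
  · exact hwaa h
  · -- Q a b
    rw [h] at hQa
    rcases hV4' wb hwbV with h' | h' | h' | h'
    · exact hwb1 h'
    · rw [h'] at hQb
      exact Kc (convQ hba' hQb) (convQ (hc.symm) hQa)
    · exact hwbb h'
    · rw [h'] at hQb
      exact Ka hQa (convQ hbc hQb)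
  · -- Q a c
    rw [h] at hQa
    rcases hV4' wc hwcV with h' | h' | h' | h'
    · exact hwc1 h'
    · rw [h'] at hQc
      exact Kb (convQ hca' hQc) (convQ hac hQa)
    · rw [h'] at hQc
      exact Ka (convQ hcb' hQc) hQa
    · exact hwcc h'

end Cfsg.Agent.S3011
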