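import Cfsg.Statements.S3012


set_option autoImplicit false
open Cfsg

namespace Cfsg.Agent.S3012

theorem commute_of_commute_sq {M : Type*} [Group M] [Finite M] (w a : M) (n : ℕ)
    (h : Commute w (a ^ (2 ^ n))) (hodd : Odd (orderOf a)) : Commute w a := by
  have hcop : Nat.Coprime (2 ^ n) (orderOf a) :=
    Nat.Coprime.pow_left n (Nat.coprime_two_left.mpr hodd)
  obtain ⟨k, hk⟩ := exists_pow_eq_self_of_coprime hcop
  have := h.pow_right k
  rwa [hk] at this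

/-- Let G be a finite group, V a nontrivial elementary abelian 2-subgroup of G satisfying the Sidki pair condition (every odd-order element inverted by an element of V commutes with a nontrivial element of V), and K a normal subgroup of G with V ∩ K = 1. Then the image of V in G/K satisfies the Sidki pair condition in G/K. -/
theorem result {G : Type*} [Group G] [Finite G] (V K : Subgroup G) [K.Normal] (hV : Cfsg.IsElementaryAbelian 2 V) (hV1 : V ≠ ⊥) (hS : Cfsg.IsSidkiPair V) (hVK : V ⊓ K = ⊥) : Cfsg.IsSidkiPair (V.map (QuotientGroup.mk' K)) := by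
  intro hb vb hvb hodd hinvb
  obtain ⟨v, hv, rfl⟩ := hvb
  obtain ⟨h, rfl⟩ := QuotientGroup.mk'_surjective K hb
  have hv2 : v ^ 2 = 1 := hV.2 v hv
  have hvv : v * v = 1 := by rw [← pow_two]; exact hv2
  have hvinv : v⁻¹ = v := inv_eq_of_mul_eq_one_right hvv
  have hyinv : v * (v * h * v⁻¹ * h⁻¹) * v⁻¹ = (v * h * v⁻¹ * h⁻¹)⁻¹ := by
    have e1 : v * (v * h * v⁻¹ * h⁻¹) * v⁻¹ = (v * v) * h * v⁻¹ * h⁻¹ * v⁻¹ := by group
    have e2 : (v * h * v⁻¹ * h⁻¹)⁻¹ = h * v * h⁻¹ * v⁻¹ := by group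
    rw [e1, e2, hvv, one_mul]
    rw [show h * v⁻¹ = h * v from by rw [hvinv]]
  obtain ⟨a, m, hm, hord⟩ := Nat.exists_eq_two_pow_mul_odd (orderOf_pos (v * h * v⁻¹ * h⁻¹)).ne'
  have hodd' : Odd (orderOf ((v * h * v⁻¹ * h⁻¹) ^ (2 ^ a))) := by
    apply Odd.of_dvd_nat hm
    apply orderOf_dvd_of_pow_eq_one
    rw [← pow_mul, ← hord, pow_orderOf_eq_one]
  have hy'inv : v * (v * h * v⁻¹ * h⁻¹) ^ (2 ^ a) * v⁻¹ = ((v * h * v⁻¹ * h⁻¹) ^ (2 ^ a))⁻¹ := by
    rw [← conj_pow, hyinv, inv_pow]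
  obtain ⟨w, hw, hw1, hwc⟩ := hS _ v hv hodd' hy'inv
  refine ⟨QuotientGroup.mk' K w, Subgroup.mem_map_of_mem _ hw, ?_, ?_⟩
  · intro h1
    have hwK : w ∈ K := (QuotientGroup.eq_one_iff w).mp h1
    have : w ∈ V ⊓ K := Subgroup.mem_inf.mpr ⟨hw, hwK⟩
    rw [hVK, Subgroup.mem_bot] at this
    exact hw1 this
  · have hc : Commute (QuotientGroup.mk' K w)
        (QuotientGroup.mk' K ((v * h * v⁻¹ * h⁻¹) ^ (2 ^ a))) :=
      (show Commute w ((v * h * v⁻¹ * h⁻¹) ^ (2 ^ a)) from hwc).map (QuotientGroup.mk' K)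
    have hy : QuotientGroup.mk' K (v * h * v⁻¹ * h⁻¹) = ((QuotientGroup.mk' K h) ^ 2)⁻¹ := by
      rw [map_mul, map_mul, map_mul, map_inv, map_inv, hinvb, pow_two, mul_inv_rev]
    rw [map_pow, hy, inv_pow, ← pow_mul] at hc
    have hc2 : Commute (QuotientGroup.mk' K w) ((QuotientGroup.mk' K h) ^ (2 ^ (a + 1))) := by
      have := Commute.inv_right_iff.mp hc
      rwa [pow_succ, mul_comm (2 ^ a) 2]
    exact (commute_of_commute_sq _ _ _ hc2 hodd).eq

end Cfsg.Agent.S3012
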