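import Cfsg.Statements.S3013
import Cfsg.Agent.S3012

set_option autoImplicit false
open Cfsg

namespace Cfsg.Agent.S3013

/-- Let G be a finite group and V a nontrivial elementary abelian 2-subgroup of G satisfying the Sidki pair condition. Let v ∈ V and let x be an element of odd order inverted by v, and put C = C_G(v) ∩ C_G(x), the centralizer of the dihedral subgroup generated by v and x. Then C ∩ V is nontrivial and satisfies the Sidki pair condition inside C: every odd-order element of C inverted by an element of C ∩ V commutes with a nontrivial element of C ∩ V. -/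
theorem result {G : Type*} [Group G] [Finite G] (V : Subgroup G) (hV : Cfsg.IsElementaryAbelian 2 V) (hV1 : V ≠ ⊥) (hS : Cfsg.IsSidkiPair V) (v x : G) (hv : v ∈ V) (hx : Odd (orderOf x)) (hinv : v * x * v⁻¹ = x⁻¹) (C : Subgroup G) (hC : C = Subgroup.centralizer ({v} : Set G) ⊓ Subgroup.centralizer ({x} : Set G)) : C ⊓ V ≠ ⊥ ∧ Cfsg.IsSidkiPair ((C ⊓ V).subgroupOf C) := by
  have hcomm : ∀ a ∈ V, ∀ b ∈ V, a * b = b * a := by
    intro a ha b hb
    have := (Subgroup.le_centralizer_iff_isMulCommutative.mpr hV.1) ha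
    exact ((Subgroup.mem_centralizer_iff.mp this) b hb).symm
  have hmemC : ∀ w : G, w ∈ V → w * x = x * w → w ∈ C := by
    intro w hw hwx
    rw [hC]
    apply Subgroup.mem_inf.mpr
    constructor
    · rw [Subgroup.mem_centralizer_iff]
      intro y hy
      rw [Set.mem_singleton_iff] at hy
      rw [hy]
      exact hcomm v hv w hw
    · rw [Subgroup.mem_centralizer_iff]
      intro y hy
      rw [Set.mem_singleton_iff] at hy
      rw [hy]
      exact hwx.symm
  constructor
  · obtain ⟨w, hw, hw1, hwc⟩ := hS x v hv hx hinv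
    intro hbot
    have : w ∈ C ⊓ V := Subgroup.mem_inf.mpr ⟨hmemC w hw hwc, hw⟩
    rw [hbot, Subgroup.mem_bot] at this
    exact hw1 this
  · intro h u hu hodd hinvh
    have huCV : (u : G) ∈ C ⊓ V := Subgroup.mem_subgroupOf.mp hu
    have huV : (u : G) ∈ V := (Subgroup.mem_inf.mp huCV).2
    have hhC : (h : G) ∈ Subgroup.centralizer ({v} : Set G) ⊓ Subgroup.centralizer ({x} : Set G) := by
      rw [← hC]; exact h.2
    have huC : (u : G) ∈ Subgroup.centralizer ({v} : Set G) ⊓ Subgroup.centralizer ({x} : Set G) := by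
      rw [← hC]; exact u.2
    have hhv : v * (h : G) = (h : G) * v :=
      (Subgroup.mem_centralizer_iff.mp (Subgroup.mem_inf.mp hhC).1) v (Set.mem_singleton v)
    have hhx : x * (h : G) = (h : G) * x :=
      (Subgroup.mem_centralizer_iff.mp (Subgroup.mem_inf.mp hhC).2) x (Set.mem_singleton x)
    have hux : x * (u : G) = (u : G) * x :=
      (Subgroup.mem_centralizer_iff.mp (Subgroup.mem_inf.mp huC).2) x (Set.mem_singleton x)
    have hinvG : (u : G) * (h : G) * (u : G)⁻¹ = (h : G)⁻¹ := by
      have := congrArg Subtype.val hinvh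
      simpa using this
    have hoddG : Odd (orderOf (h : G)) := by rw [Subgroup.orderOf_coe]; exact hodd
    have hxh : Commute x (h : G) := hhx
    have hoddxh : Odd (orderOf (x * (h : G))) := by
      apply Odd.of_dvd_nat _ hxh.orderOf_mul_dvd_lcm
      exact Odd.of_dvd_nat (hx.mul hoddG) (Nat.lcm_dvd_mul _ _)
    have hinvxh : ((u : G) * v) * (x * (h : G)) * ((u : G) * v)⁻¹ = (x * (h : G))⁻¹ := by
      have e1 : ((u : G) * v) * (x * (h : G)) * ((u : G) * v)⁻¹ =
          (u : G) * ((v * x * v⁻¹) * (v * (h : G)) * v⁻¹) * (u : G)⁻¹ := by group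
      rw [e1, hinv, hhv]
      have e2 : (u : G) * (x⁻¹ * ((h : G) * v) * v⁻¹) * (u : G)⁻¹ =
          ((u : G) * x⁻¹ * (u : G)⁻¹) * ((u : G) * (h : G) * (u : G)⁻¹) := by group
      rw [e2, hinvG]
      have e3 : (u : G) * x⁻¹ * (u : G)⁻¹ = x⁻¹ := by
        have : (u : G) * x⁻¹ = x⁻¹ * (u : G) := by
          have h4 : x⁻¹ * (x * (u : G)) * x⁻¹ = x⁻¹ * ((u : G) * x) * x⁻¹ := by rw [hux]
          have h5 : x⁻¹ * (x * (u : G)) * x⁻¹ = (u : G) * x⁻¹ := by group
          have h6 : x⁻¹ * ((u : G) * x) * x⁻¹ = x⁻¹ * (u : G) := by group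
          rw [← h5, h4, h6]
        rw [this]; group
      rw [e3, mul_inv_rev]
      have : (h : G)⁻¹ * x⁻¹ = (x * (h : G))⁻¹ := by rw [mul_inv_rev]
      rw [← mul_inv_rev, ← mul_inv_rev, hhx]
    obtain ⟨w, hw, hw1, hwc⟩ := hS (x * (h : G)) ((u : G) * v) (V.mul_mem huV hv) hoddxh hinvxh
    have hwv : w * v = v * w := hcomm w hw v hv
    have hc1 : Commute w (x * (h : G)) := hwc
    have hc2 : Commute w (x⁻¹ * (h : G)) := by
      have hcv : Commute w v := hwv
      have : Commute w (v * (x * (h : G)) * v⁻¹) := (hcv.mul_right hc1).mul_right hcv.inv_right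
      have e : v * (x * (h : G)) * v⁻¹ = x⁻¹ * (h : G) := by
        have : v * (x * (h : G)) * v⁻¹ = (v * x * v⁻¹) * (v * (h : G)) * v⁻¹ := by group
        rw [this, hinv, hhv]; group
      rwa [e] at this
    have hch : Commute w ((h : G) ^ (2 ^ 1)) := by
      have : Commute w ((x * (h : G)) * (x⁻¹ * (h : G))) := hc1.mul_right hc2
      have e : (x * (h : G)) * (x⁻¹ * (h : G)) = (h : G) ^ (2 ^ 1) := by
        rw [hhx]
        simp only [pow_one, pow_two]
        group
      rwa [e] at this
    have hcx : Commute w (x ^ (2 ^ 1)) := by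
      have : Commute w ((x * (h : G)) * (x⁻¹ * (h : G))⁻¹) := hc1.mul_right hc2.inv_right
      have e : (x * (h : G)) * (x⁻¹ * (h : G))⁻¹ = x ^ (2 ^ 1) := by
        simp only [pow_one, pow_two]
        group
      rwa [e] at this
    have hwh : Commute w (h : G) := Cfsg.Agent.S3012.commute_of_commute_sq w (h : G) 1 hch hoddG
    have hwx : Commute w x := Cfsg.Agent.S3012.commute_of_commute_sq w x 1 hcx hx
    have hwC : w ∈ C := hmemC w hw hwx.eq
    refine ⟨⟨w, hwC⟩, ?_, ?_, ?_⟩
    · exact Subgroup.mem_subgroupOf.mpr (Subgroup.mem_inf.mpr ⟨hwC, hw⟩)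
    · intro h1
      exact hw1 (congrArg Subtype.val h1)
    · exact Subtype.ext hwh.eq

end Cfsg.Agent.S3013
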