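import Cfsg.Statements.S3014
import Mathlib
import Cfsg.Agent.Helper1.TransferEval
import Cfsg.Agent.Helper5.Grp

set_option autoImplicit false

open Cfsg

namespace Cfsg.Agent.S3014

/-- Let G be a finite group and H ≤ M ≤ G subgroups such that for every g ∈ G the subgroup generated by H and g H g⁻¹ meets M exactly in H. If H is a maximal subgroup of M and M is a maximal subgroup of G, then the normal closure of H in G meets M exactly in H. -/
theorem result {G : Type*} [Group G] [Finite G] (H M : Subgroup G) (hHM : H ≤ M) (hcl : ∀ g : G, (H ⊔ H.map (MulAut.conj g).toMonoidHom) ⊓ M = H) (hmaxH : IsCoatom (H.subgroupOf M)) (hmaxM : IsCoatom M) : Subgroup.normalClosure (H : Set G) ⊓ M = H := by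
  classical
  have ha : ∀ g : G, H.map (MulAut.conj g).toMonoidHom ⊓ M ≤ H := by
    intro g
    calc H.map (MulAut.conj g).toMonoidHom ⊓ M
        ≤ (H ⊔ H.map (MulAut.conj g).toMonoidHom) ⊓ M := inf_le_inf_right M le_sup_right
      _ = H := hcl g
  have ha' : ∀ g : G, ∀ h ∈ H, g * h * g⁻¹ ∈ M → g * h * g⁻¹ ∈ H := by
    intro g h hh hm
    exact ha g ⟨⟨h, hh, rfl⟩, hm⟩
  have hb : ∀ m ∈ M, ∀ h ∈ H, m * h * m⁻¹ ∈ H := fun m hm h hh =>
    ha' m h hh (M.mul_mem (M.mul_mem hm (hHM hh)) (M.inv_mem hm))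
  haveI hHn : (H.subgroupOf M).Normal := by
    constructor
    rintro ⟨h, hhM⟩ hh ⟨m, hm⟩
    rw [Subgroup.mem_subgroupOf] at hh ⊢
    exact hb m hm h hh
  suffices hK : ∃ K : Subgroup G, K.Normal ∧ H ≤ K ∧ K ⊓ M ≤ H by
    obtain ⟨K, hKn, hHK, hKM⟩ := hK
    haveI := hKn
    apply le_antisymm
    · exact (inf_le_inf_right M (Subgroup.normalClosure_le_normal (N := K) hHK)).trans hKM
    · exact le_inf Subgroup.le_normalClosure hHM
  have hne : H.subgroupOf M ≠ ⊤ := hmaxH.1
  obtain ⟨t, htM, htH⟩ : ∃ t, t ∈ M ∧ t ∉ H := by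
    by_contra hcon; push_neg at hcon
    apply hne
    rw [eq_top_iff]; rintro ⟨m, hm⟩ _; exact Subgroup.mem_subgroupOf.mpr (hcon m hm)
  have hmax : ∀ L : Subgroup G, H ≤ L → L ≤ M → (∃ s ∈ L, s ∉ H) → L = M := by
    rintro L hHL hLM ⟨s, hsL, hsH⟩
    have h1 : H.subgroupOf M < L.subgroupOf M := by
      rw [SetLike.lt_iff_le_and_exists]
      refine ⟨fun x hx => ?_, ⟨s, hLM hsL⟩, ?_, ?_⟩
      · rw [Subgroup.mem_subgroupOf] at hx ⊢; exact hHL hx
      · rw [Subgroup.mem_subgroupOf]; exact hsL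
      · rw [Subgroup.mem_subgroupOf]; exact hsH
    have h2 := hmaxH.2 _ h1
    exact le_antisymm hLM (Subgroup.subgroupOf_eq_top.mp h2)
  by_cases hHG : H.Normal
  · exact ⟨H, hHG, le_rfl, inf_le_left⟩
  have hNH : Subgroup.normalizer (H : Set G) = M := by
    have h1 : M ≤ Subgroup.normalizer (H : Set G) := fun m hm =>
      Helper5.mem_normalizer_of_conj_mem H m (hb m hm)
    by_contra hne'
    have h2 : M < Subgroup.normalizer (H : Set G) := lt_of_le_of_ne h1 (Ne.symm hne')
    exact hHG (Subgroup.normalizer_eq_top_iff.mp (hmaxM.2 _ h2))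
  by_cases hA : ∃ s ∈ M, s ∉ H ∧ ∃ x : G, x ∉ M ∧ x⁻¹ * s * x ∈ M
  · -- Case A
    obtain ⟨s, hsM, hsH, x, hxM, hsx⟩ := hA
    obtain ⟨K, hK⟩ : ∃ K : Subgroup G, K = H ⊔ H.map (MulAut.conj x).toMonoidHom := ⟨_, rfl⟩
    have hHK : H ≤ K := by rw [hK]; exact le_sup_left
    have hKM : K ⊓ M ≤ H := by rw [hK]; exact (hcl x).le
    refine ⟨K, ?_, hHK, hKM⟩
    -- `s` normalizes `K`
    have hsK : s ∈ Subgroup.normalizer (K : Set G) := by
      apply Helper5.mem_normalizer_of_conj_mem
      have hmap : K.map (MulAut.conj s).toMonoidHom ≤ K := by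
        rw [hK, Subgroup.map_sup]
        apply sup_le
        · refine le_trans ?_ le_sup_left
          rintro _ ⟨h, hh, rfl⟩
          exact hb s hsM h hh
        · refine le_trans ?_ le_sup_right
          rintro _ ⟨_, ⟨h, hh, rfl⟩, rfl⟩
          refine ⟨(x⁻¹ * s * x) * h * (x⁻¹ * s * x)⁻¹, hb _ hsx h hh, ?_⟩
          simp only [MulEquiv.coe_toMonoidHom, MulAut.conj_apply]
          group
      intro k hk
      exact hmap ⟨k, hk, rfl⟩
    have hMK : M ≤ Subgroup.normalizer (K : Set G) := by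
      have h1 := hmax (Subgroup.normalizer (K : Set G) ⊓ M)
        (le_inf (hHK.trans Subgroup.le_normalizer) hHM) inf_le_right ⟨s, ⟨hsK, hsM⟩, hsH⟩
      rw [← h1]; exact inf_le_left
    have hKnM : ¬ K ≤ M := by
      intro hle
      apply hxM
      rw [← hNH]
      apply Helper5.mem_normalizer_of_conj_mem
      intro h hh
      have h1 : x * h * x⁻¹ ∈ K := by
        rw [hK]; exact Subgroup.mem_sup_right ⟨h, hh, rfl⟩
      exact ha' x h hh (hle h1)
    have hlt : M < Subgroup.normalizer (K : Set G) := by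
      refine lt_of_le_of_ne hMK ?_
      intro heq
      apply hKnM
      rw [heq]; exact Subgroup.le_normalizer
    exact Subgroup.normalizer_eq_top_iff.mp (hmaxM.2 _ hlt)
  · -- Case B
    push_neg at hA
    -- the quotient `M / H` is commutative
    have hcomm : ∀ a b : M ⧸ H.subgroupOf M, a * b = b * a := by
      have hgen : ∀ a : M ⧸ H.subgroupOf M,
          a ∈ Subgroup.zpowers ((⟨t, htM⟩ : M) : M ⧸ H.subgroupOf M) := by
        have h1 : H.subgroupOf M < (Subgroup.zpowers ((⟨t, htM⟩ : M) : M ⧸ H.subgroupOf M)).comap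
            (QuotientGroup.mk' (H.subgroupOf M)) := by
          rw [SetLike.lt_iff_le_and_exists]
          refine ⟨fun y hy => ?_, ⟨t, htM⟩, ?_, ?_⟩
          · rw [Subgroup.mem_comap]
            have : (QuotientGroup.mk' (H.subgroupOf M)) y = 1 :=
              (QuotientGroup.eq_one_iff y).mpr hy
            rw [this]; exact Subgroup.one_mem _
          · rw [Subgroup.mem_comap]; exact Subgroup.mem_zpowers _
          · rw [Subgroup.mem_subgroupOf]; exact htH
        have h2 := hmaxH.2 _ h1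
        intro a
        induction a using QuotientGroup.induction_on with
        | H y =>
          have : y ∈ (Subgroup.zpowers ((⟨t, htM⟩ : M) : M ⧸ H.subgroupOf M)).comap
              (QuotientGroup.mk' (H.subgroupOf M)) := by rw [h2]; trivial
          exact this
      intro a b
      obtain ⟨i, rfl⟩ := Subgroup.mem_zpowers_iff.mp (hgen a)
      obtain ⟨j, rfl⟩ := Subgroup.mem_zpowers_iff.mp (hgen b)
      rw [← zpow_add, ← zpow_add, add_comm]
    obtain ⟨V, hV1, hV2⟩ := Helper1.exists_transfer' (G := G) (M := M) hcomm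
      (QuotientGroup.mk' (H.subgroupOf M))
    have hphi : ∀ (y : G) (hy : y ∈ M), y ∈ H →
        (QuotientGroup.mk' (H.subgroupOf M)) ⟨y, hy⟩ = 1 := by
      intro y hy hyH
      exact (QuotientGroup.eq_one_iff _).mpr (Subgroup.mem_subgroupOf.mpr hyH)
    refine ⟨V.ker, inferInstance, ?_, ?_⟩
    · intro h hh
      rw [MonoidHom.mem_ker]
      apply hV1
      intro x n hy
      apply hphi
      have h1 := ha' x⁻¹ (h ^ n) (H.pow_mem hh n) (by rw [inv_inv]; exact hy)
      rw [inv_inv] at h1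
      exact h1
    · rintro s ⟨hsK, hsM⟩
      by_contra hsH
      have hsK' : V s = 1 := hsK
      have h1 : V s = (QuotientGroup.mk' (H.subgroupOf M)) ⟨s, hsM⟩ := by
        apply hV2 s hsM
        intro x hx n hy
        apply hphi
        by_cases hn : s ^ n ∈ H
        · have h1 := ha' x⁻¹ (s ^ n) hn (by rw [inv_inv]; exact hy)
          rw [inv_inv] at h1
          exact h1
        · exact absurd hy (hA (s ^ n) (M.pow_mem hsM n) hn x hx)
      rw [hsK'] at h1
      exact hsH (Subgroup.mem_subgroupOf.mp ((QuotientGroup.eq_one_iff _).mp h1.symm))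

end Cfsg.Agent.S3014
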