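import Cfsg.Statements.S3021
import Cfsg.Agent.Helper19.PGroup
import Cfsg.Agent.Helper16.Conj

set_option autoImplicit false
open Cfsg

namespace Cfsg.Agent.S3021

theorem core {G : Type*} [Group G] [Finite G] {p : ℕ} [Fact p.Prime] (H : Subgroup G)
    (hcl : Cfsg.IsExtremelyClosed H) (Q : Subgroup G) (hQ : IsPGroup p Q) (hHQ : H ≤ Q) :
    Subgroup.normalizer (Q : Set G) ≤ Subgroup.normalizer (H : Set G) := by
  intro n hn
  have hconj : H.map (MulAut.conj n).toMonoidHom ≤ Q := by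
    rintro _ ⟨y, hy, rfl⟩
    have := (Subgroup.mem_normalizer_iff.mp hn y).mp (hHQ hy)
    simpa [MulAut.conj_apply] using this
  have hTQ : H ⊔ H.map (MulAut.conj n).toMonoidHom ≤ Q := sup_le hHQ hconj
  have hTp : IsPGroup p ↥(H ⊔ H.map (MulAut.conj n).toMonoidHom) := hQ.to_le hTQ
  have hHT : H = H ⊔ H.map (MulAut.conj n).toMonoidHom := by
    by_contra hne
    have hlt : H < H ⊔ H.map (MulAut.conj n).toMonoidHom := lt_of_le_of_ne le_sup_left hne
    obtain ⟨x, hxT, hxN, hxH⟩ := Cfsg.Agent.Helper19.exists_mem_normalizer_not_mem hTp hlt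
    apply hxH
    have : x ∈ (H ⊔ H.map (MulAut.conj n).toMonoidHom) ⊓ Subgroup.normalizer (H : Set G) :=
      Subgroup.mem_inf.mpr ⟨hxT, hxN⟩
    rw [hcl n] at this
    exact this
  apply Cfsg.Agent.Helper16.mem_normalizer_of_conj_mem
  intro x hx
  have : n * x * n⁻¹ ∈ H.map (MulAut.conj n).toMonoidHom := ⟨x, hx, by simp [MulAut.conj_apply]⟩
  have h2 : n * x * n⁻¹ ∈ H ⊔ H.map (MulAut.conj n).toMonoidHom :=
    (le_sup_right : H.map (MulAut.conj n).toMonoidHom ≤ _) this
  rw [← hHT] at h2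
  exact h2

/-- Let G be a finite group, p a prime and H a p-subgroup of G that is extremely closed (for every g, the subgroup generated by H and g H g⁻¹ meets N_G(H) exactly in H). Then every p-subgroup Q of G containing H has N_G(Q) ≤ N_G(H); in particular every Sylow p-subgroup P of G containing H normalizes H, and H is strongly closed in P with respect to G. -/
theorem result {G : Type*} [Group G] [Finite G] {p : ℕ} [Fact p.Prime] (H : Subgroup G) (hHp : IsPGroup p H) (hcl : Cfsg.IsExtremelyClosed H) : (∀ Q : Subgroup G, IsPGroup p Q → H ≤ Q → Subgroup.normalizer (Q : Set G) ≤ Subgroup.normalizer (H : Set G)) ∧ ∀ P : Sylow p G, H ≤ (P : Subgroup G) → (P : Subgroup G) ≤ Subgroup.normalizer (H : Set G) ∧ Cfsg.IsStronglyClosed H (P : Subgroup G) := by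
  refine ⟨fun Q hQ hHQ => core H hcl Q hQ hHQ, ?_⟩
  intro P hHP
  have hPN : (P : Subgroup G) ≤ Subgroup.normalizer (H : Set G) :=
    le_trans Subgroup.le_normalizer (core H hcl (P : Subgroup G) P.isPGroup' hHP)
  refine ⟨hPN, hHP, ?_⟩
  intro x hx g hgx
  have h1 : g * x * g⁻¹ ∈ H.map (MulAut.conj g).toMonoidHom := ⟨x, hx, by simp [MulAut.conj_apply]⟩
  have h2 : g * x * g⁻¹ ∈ (H ⊔ H.map (MulAut.conj g).toMonoidHom) ⊓ Subgroup.normalizer (H : Set G) :=
    Subgroup.mem_inf.mpr ⟨(le_sup_right : H.map (MulAut.conj g).toMonoidHom ≤ _) h1, hPN hgx⟩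
  rw [hcl g] at h2
  exact h2

end Cfsg.Agent.S3021
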