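import Cfsg.Statements.S3027
import Mathlib

set_option autoImplicit false
open Cfsg

namespace Cfsg.Agent.S3027

open scoped Pointwise commutatorElement

/-- `N` is a supplement of `D` inside `B`, normalized by `B`. -/
def IsNS {G : Type*} [Group G] (D B N : Subgroup G) : Prop :=
  N ≤ B ∧ (∀ b ∈ B, ∀ n ∈ N, b * n * b⁻¹ ∈ N) ∧ N ⊔ D = ⊤

theorem isNS_inf {G : Type*} [Group G] {D B N₁ N₂ : Subgroup G} [D.Normal]
    (hperf : ⁅(⊤ : Subgroup G), (⊤ : Subgroup G)⁆ ⊔ D = ⊤) (h₁ : IsNS D B N₁) (h₂ : IsNS D B N₂) :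
    IsNS D B (N₁ ⊓ N₂) := by
  obtain ⟨a1, b1, c1⟩ := h₁
  obtain ⟨a2, b2, c2⟩ := h₂
  refine ⟨le_trans inf_le_left a1, ?_, ?_⟩
  · intro b hb n hn
    exact Subgroup.mem_inf.mpr ⟨b1 b hb n (Subgroup.mem_inf.mp hn).1, b2 b hb n (Subgroup.mem_inf.mp hn).2⟩
  · rw [eq_top_iff, ← hperf]
    apply sup_le _ le_sup_right
    rw [Subgroup.commutator_le]
    intro x _ y _
    have hx : x ∈ ((N₁ ⊔ D : Subgroup G) : Set G) := by rw [c1]; exact Subgroup.mem_top x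
    have hy : y ∈ ((N₂ ⊔ D : Subgroup G) : Set G) := by rw [c2]; exact Subgroup.mem_top y
    rw [Subgroup.mul_normal] at hx hy
    obtain ⟨n₁, hn₁, d₁, hd₁, rfl⟩ := Set.mem_mul.mp hx
    obtain ⟨n₂, hn₂, d₂, hd₂, rfl⟩ := Set.mem_mul.mp hy
    have hn₁' : n₁ ∈ N₁ := hn₁
    have hn₂' : n₂ ∈ N₂ := hn₂
    have hd₁' : d₁ ∈ D := hd₁
    have hd₂' : d₂ ∈ D := hd₂
    have hcomm : ⁅n₁, n₂⁆ ∈ N₁ ⊓ N₂ := by
      refine Subgroup.mem_inf.mpr ⟨?_, ?_⟩
      · have h1 : n₂ * n₁⁻¹ * n₂⁻¹ ∈ N₁ := b1 n₂ (a2 hn₂') n₁⁻¹ (inv_mem hn₁')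
        have h2 := mul_mem hn₁' h1
        have e : ⁅n₁, n₂⁆ = n₁ * (n₂ * n₁⁻¹ * n₂⁻¹) := by rw [commutatorElement_def]; group
        rw [e]; exact h2
      · have h1 : n₁ * n₂ * n₁⁻¹ ∈ N₂ := b2 n₁ (a1 hn₁') n₂ hn₂'
        have h2 := mul_mem h1 (inv_mem hn₂')
        rw [commutatorElement_def]; exact h2
    have hD : ⁅n₁ * d₁, n₂ * d₂⁆ * ⁅n₁, n₂⁆⁻¹ ∈ D := by
      apply (QuotientGroup.eq_one_iff (N := D) _).mp
      have e1 : ((d₁ : G) : G ⧸ D) = 1 := (QuotientGroup.eq_one_iff d₁).mpr hd₁'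
      have e2 : ((d₂ : G) : G ⧸ D) = 1 := (QuotientGroup.eq_one_iff d₂).mpr hd₂'
      simp only [commutatorElement_def, QuotientGroup.mk_mul, QuotientGroup.mk_inv, e1, e2, mul_one]
      group
    have e : ⁅n₁ * d₁, n₂ * d₂⁆ = (⁅n₁ * d₁, n₂ * d₂⁆ * ⁅n₁, n₂⁆⁻¹) * ⁅n₁, n₂⁆ := by group
    rw [e]
    exact mul_mem (Subgroup.mem_sup_right hD) (Subgroup.mem_sup_left hcomm)

theorem exists_least {G : Type*} [Group G] [Finite G] {D B : Subgroup G} [D.Normal]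
    (hperf : ⁅(⊤ : Subgroup G), (⊤ : Subgroup G)⁆ ⊔ D = ⊤) (hB : B ⊔ D = ⊤) :
    ∃ L : Subgroup G, IsNS D B L ∧ ∀ M : Subgroup G, IsNS D B M → L ≤ M := by
  classical
  let 𝒯 : Set (Subgroup G) := {N | IsNS D B N}
  have hne : 𝒯.Nonempty :=
    ⟨B, le_rfl, fun b hb n hn => mul_mem (mul_mem hb hn) (inv_mem hb), hB⟩
  obtain ⟨L, hL, hmin⟩ := Set.exists_min_image 𝒯 (fun N => Nat.card ↥N) (Set.toFinite 𝒯) hne
  refine ⟨L, hL, fun M hM => ?_⟩
  have h1 : IsNS D B (L ⊓ M) := isNS_inf hperf hL hM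
  have h2 := hmin _ h1
  have h3 : L ⊓ M = L := Subgroup.eq_of_le_of_card_ge inf_le_left h2
  exact inf_eq_left.mp h3

theorem least_le_of_subnormal {G : Type*} [Group G] [Finite G] {D N : Subgroup G} [D.Normal]
    (hperf : ⁅(⊤ : Subgroup G), (⊤ : Subgroup G)⁆ ⊔ D = ⊤)
    (hleast : ∀ M : Subgroup G, IsNS D ⊤ M → N ≤ M) (B : Subgroup G) (hB : B.IsSubnormal) :
    B ⊔ D = ⊤ → (N ≤ B ∧ ∀ M : Subgroup G, IsNS D B M → N ≤ M) := by
  induction hB with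
  | top => intro _; exact ⟨le_top, hleast⟩
  | step H K h_le hSubn hNorm ih =>
    intro hH
    have hK : K ⊔ D = ⊤ := by
      rw [eq_top_iff, ← hH]; exact sup_le_sup_right h_le D
    obtain ⟨ih1, ih2⟩ := ih hK
    have hKH : ∀ k ∈ K, ∀ h ∈ H, k * h * k⁻¹ ∈ H :=
      Subgroup.le_normalizer_iff.mp ((Subgroup.normal_subgroupOf_iff_le_normalizer h_le).mp hNorm)
    obtain ⟨L, hL, hLmin⟩ := exists_least hperf hH
    have hconj : ∀ k ∈ K, IsNS D H (L.map (MulAut.conj k).toMonoidHom) := by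
      intro k hk
      refine ⟨?_, ?_, ?_⟩
      · rintro x ⟨l, hl, rfl⟩
        simp only [MulEquiv.coe_toMonoidHom, MulAut.conj_apply]
        exact hKH k hk l (hL.1 hl)
      · rintro h hh x ⟨l, hl, rfl⟩
        refine ⟨(k⁻¹ * h * k) * l * (k⁻¹ * h * k)⁻¹, ?_, ?_⟩
        · apply hL.2.1 _ _ l hl
          have := hKH k⁻¹ (inv_mem hk) h hh
          simpa using this
        · simp only [MulEquiv.coe_toMonoidHom, MulAut.conj_apply]; group
      · rw [eq_top_iff]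
        intro g _
        have hg : k⁻¹ * g * k ∈ ((L ⊔ D : Subgroup G) : Set G) := by
          rw [hL.2.2]; exact Subgroup.mem_top _
        rw [Subgroup.mul_normal] at hg
        obtain ⟨l, hl, d, hd, e⟩ := Set.mem_mul.mp hg
        have hl' : l ∈ L := hl
        have hd' : d ∈ D := hd
        have e' : g = (k * l * k⁻¹) * (k * d * k⁻¹) := by
          have e0 : g = k * (k⁻¹ * g * k) * k⁻¹ := by group
          rw [e0, ← e]; group
        rw [e']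
        exact mul_mem (Subgroup.mem_sup_left ⟨l, hl', by simp [MulAut.conj_apply]⟩)
          (Subgroup.mem_sup_right (Subgroup.Normal.conj_mem inferInstance d hd' k))
    have hKL : ∀ k ∈ K, ∀ l ∈ L, k * l * k⁻¹ ∈ L := by
      intro k hk l hl
      have h1 := hLmin _ (hconj k⁻¹ (inv_mem hk))
      obtain ⟨l', hl', e⟩ := h1 hl
      simp only [MulEquiv.coe_toMonoidHom, MulAut.conj_apply, inv_inv] at e
      have e2 : k * l * k⁻¹ = l' := by rw [← e]; group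
      rw [e2]; exact hl'
    have hLK : IsNS D K L := ⟨le_trans hL.1 h_le, hKL, hL.2.2⟩
    have hNL := ih2 L hLK
    exact ⟨le_trans hNL hL.1, fun M hM => le_trans hNL (hLmin M hM)⟩

/-- Let G be a finite group and D a normal subgroup of G such that G/D is perfect (that is, G = G′D). Then among the subnormal subgroups B of G with BD = G there is a least one, and it is normal in G. -/
theorem result {G : Type*} [Group G] [Finite G] (D : Subgroup G) [D.Normal] (hperf : ⁅(⊤ : Subgroup G), (⊤ : Subgroup G)⁆ ⊔ D = ⊤) :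
    ∃ B : Subgroup G, B.Normal ∧ B ⊔ D = ⊤ ∧ ∀ B' : Subgroup G, B'.IsSubnormal → B' ⊔ D = ⊤ → B ≤ B' := by
  obtain ⟨N, hN, hleast⟩ := exists_least (B := ⊤) hperf (top_sup_eq D)
  refine ⟨N, ⟨fun n hn g => hN.2.1 g (Subgroup.mem_top g) n hn⟩, hN.2.2, ?_⟩
  intro B' hB' hB'D
  exact (least_le_of_subnormal hperf hleast B' hB' hB'D).1

end Cfsg.Agent.S3027
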