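import Cfsg.Statements.S3028
import Cfsg.Agent.Helper3.Subnormal
import Cfsg.Agent.S0542
import Cfsg.Agent.Helper15.Gaschutz

set_option autoImplicit false
open Cfsg

namespace Cfsg.Agent.S3028


open Cfsg.Agent.Helper3
open scoped Pointwise

universe u

variable {G : Type u} [Group G]

/-- the image in `G` of the normal closure in `A` of the `p'`-elements of `A` -/
def Dp (p : ℕ) (A : Subgroup G) : Subgroup G :=
  (Subgroup.normalClosure {x : ↥A | ¬ p ∣ orderOf x}).map A.subtype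

theorem Dp_le (p : ℕ) (A : Subgroup G) : Dp p A ≤ A := by
  intro x hx
  obtain ⟨y, -, rfl⟩ := hx
  exact y.2

theorem Dp_subnormal (p : ℕ) (A : Subgroup G) (hA : A.IsSubnormal) : (Dp p A).IsSubnormal :=
  Subgroup.IsSubnormal.trans' (Subgroup.Normal.isSubnormal inferInstance) hA

theorem Dp_le_of_pow (p : ℕ) (hp : p.Prime) (A K : Subgroup G) [K.Normal] (j : ℕ)
    (hK : ∀ g : G, g ^ (p ^ j) ∈ K) : Dp p A ≤ K := by
  have h1 : Subgroup.normalClosure {x : ↥A | ¬ p ∣ orderOf x} ≤ K.subgroupOf A := by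
    apply Subgroup.normalClosure_le_normal
    intro x hx
    have hx' : ¬ p ∣ orderOf x := hx
    show (x : G) ∈ K
    have h2 : ¬ p ∣ orderOf (x : G) := by rwa [Subgroup.orderOf_coe]
    have hc : Nat.Coprime (p ^ j) (orderOf (x : G)) :=
      Nat.Coprime.pow_left j ((Nat.Prime.coprime_iff_not_dvd hp).mpr h2)
    obtain ⟨m, hm⟩ := exists_pow_eq_self_of_coprime hc
    rw [← hm]
    exact K.pow_mem (hK _) m
  intro x hx
  obtain ⟨y, hy, rfl⟩ := hx
  exact h1 hy

theorem le_Dp_sup [Finite G] {p : ℕ} [Fact p.Prime] (S : Sylow p G) (A : Subgroup G)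
    (hA : A.IsSubnormal) : A ≤ Dp p A ⊔ (A ⊓ (S : Subgroup G)) := by
  have hp : p.Prime := Fact.out
  obtain ⟨Q, hQ⟩ := Cfsg.Agent.S0542.result p A hA S
  obtain ⟨D', hD'⟩ : ∃ D' : Subgroup ↥A, D' = Subgroup.normalClosure {x : ↥A | ¬ p ∣ orderOf x} :=
    ⟨_, rfl⟩
  haveI : D'.Normal := by rw [hD']; infer_instance
  have hpg : IsPGroup p (↥A ⧸ D') := by
    intro g
    induction g using QuotientGroup.induction_on with
    | H x =>
      obtain ⟨k, m, hm, hkm⟩ := Nat.exists_eq_pow_mul_and_not_dvd (orderOf_pos x).ne' p hp.ne_one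
      refine ⟨k, ?_⟩
      rw [← QuotientGroup.mk_pow, QuotientGroup.eq_one_iff, hD']
      apply Subgroup.subset_normalClosure
      show ¬ p ∣ orderOf (x ^ p ^ k)
      intro hdvd
      apply hm
      have : orderOf (x ^ p ^ k) ∣ m := by
        apply orderOf_dvd_of_pow_eq_one
        rw [← pow_mul, ← hkm, pow_orderOf_eq_one]
      exact hdvd.trans this
  have hidx : (D' ⊔ (Q : Subgroup ↥A)).index = 1 := by
    obtain ⟨n, hn⟩ := (IsPGroup.iff_card).mp hpg
    have h1 : (D' ⊔ (Q : Subgroup ↥A)).index ∣ p ^ n := by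
      rw [← hn]; exact Subgroup.index_dvd_of_le le_sup_left
    have h2 : (D' ⊔ (Q : Subgroup ↥A)).index ∣ (Q : Subgroup ↥A).index :=
      Subgroup.index_dvd_of_le le_sup_right
    have h3 : ¬ p ∣ (Q : Subgroup ↥A).index := Q.not_dvd_index
    obtain ⟨i, hi, hi2⟩ := (Nat.dvd_prime_pow hp).mp h1
    rcases Nat.eq_zero_or_pos i with rfl | hpos
    · simpa using hi2
    · exfalso; apply h3; rw [hi2] at h2; exact (dvd_pow_self p hpos.ne').trans h2
  have htop : D' ⊔ (Q : Subgroup ↥A) = ⊤ := Subgroup.index_eq_one.mp hidx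
  intro x hx
  have h4 : (⟨x, hx⟩ : ↥A) ∈ D' ⊔ (Q : Subgroup ↥A) := by rw [htop]; trivial
  have h5 : x ∈ (D' ⊔ (Q : Subgroup ↥A)).map A.subtype := ⟨⟨x, hx⟩, h4, rfl⟩
  rw [Subgroup.map_sup, hQ, Subgroup.subgroupOf_map_subtype, hD'] at h5
  rw [inf_comm]
  exact h5

/-- The induction hypothesis, as a proposition on the ambient group. -/
def IH (p : ℕ) [Fact p.Prime] (G : Type u) [Group G] [Finite G] : Prop :=
  ∀ (H : Type u) [Group H] [Finite H], Nat.card H < Nat.card G →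
    ∀ (S : Sylow p H) (A₁ A₂ : Subgroup H), A₁.IsSubnormal → A₂.IsSubnormal →
      (A₁ ⊔ A₂) ⊓ (S : Subgroup H) ≤ (A₁ ⊓ (S : Subgroup H)) ⊔ (A₂ ⊓ (S : Subgroup H))

theorem rel_step {p : ℕ} [Fact p.Prime] [Finite G] (ih : IH p G)
    (S : Sylow p G) (J : Subgroup G) (hJ : J.IsSubnormal) (hJt : J ≠ ⊤) (A₁ A₂ : Subgroup G)
    (h₁ : A₁.IsSubnormal) (h₂ : A₂.IsSubnormal) (h₁J : A₁ ≤ J) (h₂J : A₂ ≤ J) :
    (A₁ ⊔ A₂) ⊓ (S : Subgroup G) ≤ (A₁ ⊓ (S : Subgroup G)) ⊔ (A₂ ⊓ (S : Subgroup G)) := by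
  obtain ⟨Q, hQ⟩ := Cfsg.Agent.S0542.result p J hJ S
  have hcard : Nat.card ↥J < Nat.card G :=
    lt_of_le_of_ne (Subgroup.card_le_card_group J)
      (fun h => hJt ((Subgroup.card_eq_iff_eq_top J).mp h))
  have key := ih ↥J hcard Q (A₁.subgroupOf J) (A₂.subgroupOf J) h₁.subgroupOf h₂.subgroupOf
  intro x hx
  have hxJ : x ∈ J := (sup_le h₁J h₂J) hx.1
  have h1 : (⟨x, hxJ⟩ : ↥J) ∈ (A₁.subgroupOf J ⊔ A₂.subgroupOf J) ⊓ (Q : Subgroup ↥J) := by
    refine ⟨?_, ?_⟩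
    · rw [← Subgroup.subgroupOf_sup h₁J h₂J]; exact hx.1
    · rw [hQ]; exact hx.2
  have h2 := key h1
  have h3 : x ∈ ((A₁.subgroupOf J ⊓ (Q : Subgroup ↥J)) ⊔
      (A₂.subgroupOf J ⊓ (Q : Subgroup ↥J))).map J.subtype := ⟨_, h2, rfl⟩
  rw [Subgroup.map_sup] at h3
  have h5 : Subgroup.map J.subtype (A₁.subgroupOf J ⊓ (Q : Subgroup ↥J)) ⊔
      Subgroup.map J.subtype (A₂.subgroupOf J ⊓ (Q : Subgroup ↥J)) ≤
      (A₁ ⊓ (S : Subgroup G)) ⊔ (A₂ ⊓ (S : Subgroup G)) := by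
    refine sup_le_sup ?_ ?_
    · rintro _ ⟨y, hy, rfl⟩
      have h4 := hy.2
      rw [hQ] at h4
      exact ⟨hy.1, h4⟩
    · rintro _ ⟨y, hy, rfl⟩
      have h4 := hy.2
      rw [hQ] at h4
      exact ⟨hy.1, h4⟩
  exact h5 h3

theorem fam_step {p : ℕ} [Fact p.Prime] [Finite G] (ih : IH p G)
    (S : Sylow p G) (J : Subgroup G) (hJ : J.IsSubnormal) (hJt : J ≠ ⊤) (T : Subgroup G)
    (𝒜 : Set (Subgroup G)) (h𝒜 : ∀ A ∈ 𝒜, A.IsSubnormal ∧ A ≤ J ∧ A ⊓ (S : Subgroup G) ≤ T) :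
    sSup 𝒜 ⊓ (S : Subgroup G) ≤ T := by
  have hfin : 𝒜.Finite := Set.toFinite 𝒜
  induction 𝒜, hfin using Set.Finite.induction_on with
  | empty => rw [sSup_empty, bot_inf_eq]; exact bot_le
  | @insert a s _ _ ihs =>
    have hs' : ∀ A ∈ s, A.IsSubnormal ∧ A ≤ J ∧ A ⊓ (S : Subgroup G) ≤ T :=
      fun A hA => h𝒜 A (Set.mem_insert_of_mem _ hA)
    have ha := h𝒜 a (Set.mem_insert _ _)
    rw [sSup_insert]
    have hsub : (sSup s).IsSubnormal := wielandt_sSup s (fun U hU => (hs' U hU).1)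
    have hle : sSup s ≤ J := sSup_le (fun A hA => (hs' A hA).2.1)
    exact (rel_step ih S J hJ hJt a (sSup s) ha.1 hsub ha.2.1 hle).trans
      (sup_le ha.2.2 (ihs hs'))

theorem image_lemma {p : ℕ} [Fact p.Prime] [Finite G] {H : Type u} [Group H] [Finite H]
    (π : G →* H) (S : Sylow p G) (A : Subgroup G) (hA : A.IsSubnormal) :
    A.map π ⊓ (S : Subgroup G).map π ≤ (A ⊓ (S : Subgroup G)).map π := by
  obtain ⟨Q, hQ⟩ := Cfsg.Agent.S0542.result p A hA S
  have hf : Function.Surjective (π.subgroupMap A) := π.subgroupMap_surjective A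
  obtain ⟨Q', hQ'⟩ : ∃ Q' : Sylow p ↥(A.map π), Q' = Q.mapSurjective hf := ⟨_, rfl⟩
  obtain ⟨R, hR⟩ : ∃ R : Subgroup ↥(A.map π),
      R = ((S : Subgroup G).map π).subgroupOf (A.map π) := ⟨_, rfl⟩
  have hRp : IsPGroup p R := by rw [hR]; exact (S.isPGroup'.map π).comap_subtype
  have hle : (Q' : Subgroup ↥(A.map π)) ≤ R := by
    rw [hQ', Sylow.coe_mapSurjective, hR]
    rintro _ ⟨q, hq, rfl⟩
    rw [hQ] at hq
    show ((π.subgroupMap A q : ↥(A.map π)) : H) ∈ (S : Subgroup G).map π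
    exact ⟨q, hq, rfl⟩
  have heq : R = Q' := Q'.is_maximal' hRp hle
  intro y hy
  have h1 : (⟨y, hy.1⟩ : ↥(A.map π)) ∈ R := by rw [hR]; exact hy.2
  rw [heq, hQ', Sylow.coe_mapSurjective] at h1
  obtain ⟨q, hq, hqe⟩ := h1
  rw [hQ] at hq
  exact ⟨q, ⟨q.2, hq⟩, congrArg Subtype.val hqe⟩

theorem quot_step {p : ℕ} [Fact p.Prime] [Finite G] (ih : IH p G)
    (S : Sylow p G) (A₁ A₂ : Subgroup G) (h₁ : A₁.IsSubnormal) (h₂ : A₂.IsSubnormal)
    (hJ : A₁ ⊔ A₂ = ⊤) (M : Subgroup G) [M.Normal] (hM : M ≠ ⊥) :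
    ∀ x ∈ (S : Subgroup G),
      ∃ t ∈ (A₁ ⊓ (S : Subgroup G)) ⊔ (A₂ ⊓ (S : Subgroup G)), ∃ m ∈ M, x = t * m := by
  have hπ : Function.Surjective (QuotientGroup.mk' M) := QuotientGroup.mk'_surjective M
  have key := ih (G ⧸ M) (card_quot_lt_of_ne_bot M hM) (S.mapSurjective hπ)
    (A₁.map (QuotientGroup.mk' M)) (A₂.map (QuotientGroup.mk' M)) (h₁.map hπ) (h₂.map hπ)
  rw [← Subgroup.map_sup, hJ, ← MonoidHom.range_eq_map, MonoidHom.range_eq_top.mpr hπ,
    top_inf_eq, Sylow.coe_mapSurjective] at key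
  intro x hx
  have h1 : QuotientGroup.mk' M x ∈ (S : Subgroup G).map (QuotientGroup.mk' M) :=
    Subgroup.mem_map_of_mem _ hx
  have h2 := (key.trans (sup_le_sup (image_lemma (QuotientGroup.mk' M) S A₁ h₁)
    (image_lemma (QuotientGroup.mk' M) S A₂ h₂))) h1
  rw [← Subgroup.map_sup] at h2
  obtain ⟨t, ht, hte⟩ := h2
  refine ⟨t, ht, t⁻¹ * x, ?_, by group⟩
  exact QuotientGroup.eq.mp hte

theorem conj_aux (M A B : Subgroup G) [M.Normal] (hA : M ≤ Subgroup.normalizer (A : Set G)) :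
    ∀ a ∈ A, ∀ x ∈ (M ⊓ A) ⊔ (M ⊓ B), a * x * a⁻¹ ∈ (M ⊓ A) ⊔ (M ⊓ B) := by
  intro a ha
  have h1 : (M ⊓ A) ⊔ (M ⊓ B) ≤
      ((M ⊓ A) ⊔ (M ⊓ B)).comap (MulAut.conj a).toMonoidHom := by
    apply sup_le
    · intro x hx
      rw [Subgroup.mem_comap]
      show a * x * a⁻¹ ∈ (M ⊓ A) ⊔ (M ⊓ B)
      exact (le_sup_left : M ⊓ A ≤ (M ⊓ A) ⊔ (M ⊓ B))
        ⟨Subgroup.Normal.conj_mem inferInstance x hx.1 a, A.mul_mem (A.mul_mem ha hx.2) (A.inv_mem ha)⟩
    · intro x hx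
      rw [Subgroup.mem_comap]
      show a * x * a⁻¹ ∈ (M ⊓ A) ⊔ (M ⊓ B)
      have h2 : a * x * a⁻¹ * x⁻¹ ∈ M ⊓ A := by
        refine ⟨M.mul_mem (Subgroup.Normal.conj_mem inferInstance x hx.1 a) (M.inv_mem hx.1), ?_⟩
        have h3 : x * a⁻¹ * x⁻¹ ∈ A :=
          (Subgroup.mem_normalizer_iff.mp (hA hx.1) a⁻¹).mp (A.inv_mem ha)
        have h4 : a * x * a⁻¹ * x⁻¹ = a * (x * a⁻¹ * x⁻¹) := by group
        rw [h4]
        exact A.mul_mem ha h3
      have h5 : a * x * a⁻¹ = (a * x * a⁻¹ * x⁻¹) * x := by group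
      rw [h5]
      exact Subgroup.mul_mem _ ((le_sup_left : M ⊓ A ≤ (M ⊓ A) ⊔ (M ⊓ B)) h2)
        ((le_sup_right : M ⊓ B ≤ (M ⊓ A) ⊔ (M ⊓ B)) hx)
  intro x hx
  exact h1 hx

theorem normal_of_gen (E A B : Subgroup G) (hAB : ⊤ ≤ A ⊔ B)
    (hA : ∀ a ∈ A, ∀ x ∈ E, a * x * a⁻¹ ∈ E) (hB : ∀ a ∈ B, ∀ x ∈ E, a * x * a⁻¹ ∈ E) :
    E.Normal := by
  rw [← Subgroup.normalizer_eq_top_iff]
  apply top_le_iff.mp
  refine hAB.trans (sup_le ?_ ?_)
  · intro a ha
    rw [Subgroup.mem_normalizer_iff]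
    intro x
    refine ⟨hA a ha x, fun h => ?_⟩
    have := hA a⁻¹ (A.inv_mem ha) _ h
    have e : a⁻¹ * (a * x * a⁻¹) * a⁻¹⁻¹ = x := by group
    rwa [e] at this
  · intro a ha
    rw [Subgroup.mem_normalizer_iff]
    intro x
    refine ⟨hB a ha x, fun h => ?_⟩
    have := hB a⁻¹ (B.inv_mem ha) _ h
    have e : a⁻¹ * (a * x * a⁻¹) * a⁻¹⁻¹ = x := by group
    rwa [e] at this

theorem main (p : ℕ) [Fact p.Prime] : ∀ (n : ℕ) (G : Type u) [Group G] [Finite G],
    Nat.card G = n → ∀ (S : Sylow p G) (A₁ A₂ : Subgroup G), A₁.IsSubnormal → A₂.IsSubnormal →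
      (A₁ ⊔ A₂) ⊓ (S : Subgroup G) ≤ (A₁ ⊓ (S : Subgroup G)) ⊔ (A₂ ⊓ (S : Subgroup G)) := by
  intro n
  induction n using Nat.strong_induction_on with
  | _ n ih =>
    intro G _ _ hn S A₁ A₂ h₁ h₂
    have hp : p.Prime := Fact.out
    have ih' : IH p G := by
      intro H _ _ hH
      exact ih _ (hn ▸ hH) H rfl
    by_cases hJ : A₁ ⊔ A₂ = ⊤
    swap
    · exact rel_step ih' S (A₁ ⊔ A₂) (wielandt_join A₁ A₂ h₁ h₂) hJ A₁ A₂ h₁ h₂
        le_sup_left le_sup_right
    rw [hJ, top_inf_eq]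
    by_cases hA₁t : A₁ = ⊤
    · rw [hA₁t, top_inf_eq]; exact le_sup_left
    by_cases hA₂t : A₂ = ⊤
    · rw [hA₂t, top_inf_eq]; exact le_sup_right
    obtain ⟨T, hT⟩ : ∃ T : Subgroup G,
        T = (A₁ ⊓ (S : Subgroup G)) ⊔ (A₂ ⊓ (S : Subgroup G)) := ⟨_, rfl⟩
    rw [← hT]
    have hTS : T ≤ (S : Subgroup G) := by rw [hT]; exact sup_le inf_le_right inf_le_right
    have hT₁ : A₁ ⊓ (S : Subgroup G) ≤ T := by rw [hT]; exact le_sup_left
    have hT₂ : A₂ ⊓ (S : Subgroup G) ≤ T := by rw [hT]; exact le_sup_right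
    obtain ⟨𝒜, h𝒜⟩ : ∃ 𝒜 : Set (Subgroup G), 𝒜 = {X | ∃ t ∈ T,
        X = (Dp p A₁).map (MulAut.conj t).toMonoidHom ∨
        X = (Dp p A₂).map (MulAut.conj t).toMonoidHom} := ⟨_, rfl⟩
    obtain ⟨N, hN⟩ : ∃ N : Subgroup G, N = sSup 𝒜 := ⟨_, rfl⟩
    have hmapone : ∀ D : Subgroup G, D.map (MulAut.conj (1 : G)).toMonoidHom = D := by
      intro D
      ext x
      simp
    have hD₁N : Dp p A₁ ≤ N := by
      rw [hN]; apply le_sSup; rw [h𝒜]; exact ⟨1, T.one_mem, Or.inl (hmapone _).symm⟩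
    have hD₂N : Dp p A₂ ≤ N := by
      rw [hN]; apply le_sSup; rw [h𝒜]; exact ⟨1, T.one_mem, Or.inr (hmapone _).symm⟩
    have hA₁NT : A₁ ≤ N ⊔ T := (le_Dp_sup S A₁ h₁).trans (sup_le_sup hD₁N hT₁)
    have hA₂NT : A₂ ≤ N ⊔ T := (le_Dp_sup S A₂ h₂).trans (sup_le_sup hD₂N hT₂)
    have hNT : ⊤ ≤ N ⊔ T := by rw [← hJ]; exact sup_le hA₁NT hA₂NT
    have hnrm : ∀ t ∈ T, ∀ x ∈ N, t * x * t⁻¹ ∈ N := by
      intro t ht
      have h1 : N ≤ N.comap (MulAut.conj t).toMonoidHom := by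
        rw [hN]
        apply sSup_le
        intro X hX
        rw [h𝒜] at hX
        obtain ⟨t', ht', hX'⟩ := hX
        have hmem : ∀ D : Subgroup G, (D = Dp p A₁ ∨ D = Dp p A₂) →
            D.map (MulAut.conj t').toMonoidHom ≤
              (sSup 𝒜).comap (MulAut.conj t).toMonoidHom := by
          intro D hD
          rintro _ ⟨d, hd, rfl⟩
          rw [Subgroup.mem_comap]
          have h2 : D.map (MulAut.conj (t * t')).toMonoidHom ≤ sSup 𝒜 := by
            apply le_sSup; rw [h𝒜]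
            refine ⟨t * t', T.mul_mem ht ht', ?_⟩
            rcases hD with rfl | rfl
            · left; rfl
            · right; rfl
          apply h2
          refine ⟨d, hd, ?_⟩
          simp [MulAut.conj_apply, mul_assoc]
        rcases hX' with rfl | rfl
        · exact hmem _ (Or.inl rfl)
        · exact hmem _ (Or.inr rfl)
      intro x hx
      exact h1 hx
    haveI hNn : N.Normal := normal_of_gen N N T hNT
      (fun a ha x hx => N.mul_mem (N.mul_mem ha hx) (N.inv_mem ha)) hnrm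
    have hfac : ∀ x : G, ∃ n ∈ N, ∃ t ∈ T, x = n * t := by
      intro x
      have hx : x ∈ ((N ⊔ T : Subgroup G) : Set G) := hNT (Subgroup.mem_top x)
      rw [Subgroup.normal_mul] at hx
      obtain ⟨n, hn', t, ht, rfl⟩ := Set.mem_mul.mp hx
      exact ⟨n, hn', t, ht, rfl⟩
    have hsuff : N ⊓ (S : Subgroup G) ≤ T → (S : Subgroup G) ≤ T := by
      intro h x hx
      obtain ⟨n', hn', t, ht, rfl⟩ := hfac x
      have h1 : n' ∈ (S : Subgroup G) := by
        have := (S : Subgroup G).mul_mem hx ((S : Subgroup G).inv_mem (hTS ht))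
        rwa [mul_inv_cancel_right] at this
      exact T.mul_mem (h ⟨hn', h1⟩) ht
    by_cases hNtop : N = ⊤
    swap
    · apply hsuff
      rw [hN]
      apply fam_step ih' S N hNn.isSubnormal hNtop T 𝒜
      intro X hX
      rw [h𝒜] at hX
      obtain ⟨t, ht, hX'⟩ := hX
      have hgen : ∀ (A : Subgroup G), A.IsSubnormal → A ⊓ (S : Subgroup G) ≤ T →
          (Dp p A).map (MulAut.conj t).toMonoidHom ≤ N →
          ((Dp p A).map (MulAut.conj t).toMonoidHom).IsSubnormal ∧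
          (Dp p A).map (MulAut.conj t).toMonoidHom ≤ N ∧
          (Dp p A).map (MulAut.conj t).toMonoidHom ⊓ (S : Subgroup G) ≤ T := by
        intro A hA hAT hle
        refine ⟨(Dp_subnormal p A hA).map (MulAut.conj t).surjective, hle, ?_⟩
        rintro x ⟨⟨d, hd, rfl⟩, hxS⟩
        have hdS : d ∈ (S : Subgroup G) := by
          have h1 : t * d * t⁻¹ ∈ (S : Subgroup G) := hxS
          have h2 := (S : Subgroup G).mul_mem ((S : Subgroup G).mul_mem
            ((S : Subgroup G).inv_mem (hTS ht)) h1) (hTS ht)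
          have e : t⁻¹ * (t * d * t⁻¹) * t = d := by group
          rwa [e] at h2
        have hdT : d ∈ T := hAT ⟨Dp_le p A hd, hdS⟩
        show t * d * t⁻¹ ∈ T
        exact T.mul_mem (T.mul_mem ht hdT) (T.inv_mem ht)
      rcases hX' with rfl | rfl
      · exact hgen A₁ h₁ hT₁ (by rw [hN]; apply le_sSup; rw [h𝒜]; exact ⟨t, ht, Or.inl rfl⟩)
      · exact hgen A₂ h₂ hT₂ (by rw [hN]; apply le_sSup; rw [h𝒜]; exact ⟨t, ht, Or.inr rfl⟩)
    have hperf : ∀ K : Subgroup G, K.Normal → ∀ j : ℕ, (∀ g : G, g ^ (p ^ j) ∈ K) → K = ⊤ := by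
      intro K hK j hKj
      haveI := hK
      apply top_le_iff.mp
      rw [← hNtop, hN]
      apply sSup_le
      intro X hX
      rw [h𝒜] at hX
      obtain ⟨t, ht, hX'⟩ := hX
      have hgen : ∀ A : Subgroup G, (Dp p A).map (MulAut.conj t).toMonoidHom ≤ K := by
        intro A
        rintro _ ⟨d, hd, rfl⟩
        exact hK.conj_mem d (Dp_le_of_pow p hp A K j hKj hd) t
      rcases hX' with rfl | rfl
      · exact hgen A₁
      · exact hgen A₂
    by_cases hbot : (⊤ : Subgroup G) = ⊥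
    · intro x _
      have : x ∈ (⊥ : Subgroup G) := hbot ▸ Subgroup.mem_top x
      rw [Subgroup.mem_bot] at this
      rw [this]; exact T.one_mem
    obtain ⟨M, hM, -⟩ := exists_isMinNormal_le (⊤ : Subgroup G) hbot
    obtain ⟨hMn, hM0, hMmin⟩ := hM
    haveI := hMn
    have hQ := quot_step ih' S A₁ A₂ h₁ h₂ hJ M hM0
    rw [← hT] at hQ
    have hsuffM : M ⊓ (S : Subgroup G) ≤ T → (S : Subgroup G) ≤ T := by
      intro h x hx
      obtain ⟨t, ht, m, hm, rfl⟩ := hQ x hx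
      have h1 : m ∈ (S : Subgroup G) := by
        have := (S : Subgroup G).mul_mem ((S : Subgroup G).inv_mem (hTS ht)) hx
        rwa [inv_mul_cancel_left] at this
      exact T.mul_mem ht (h ⟨hm, h1⟩)
    have hMA₁ := minNormal_le_normalizer _ G rfl A₁ h₁ M ⟨hMn, hM0, hMmin⟩
    have hMA₂ := minNormal_le_normalizer _ G rfl A₂ h₂ M ⟨hMn, hM0, hMmin⟩
    obtain ⟨E, hE⟩ : ∃ E : Subgroup G, E = (M ⊓ A₁) ⊔ (M ⊓ A₂) := ⟨_, rfl⟩
    have hEn : E.Normal := by
      rw [hE]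
      apply normal_of_gen _ A₁ A₂ hJ.ge (conj_aux M A₁ A₂ hMA₁)
      have := conj_aux M A₂ A₁ hMA₂
      rwa [sup_comm] at this
    have hEM : E ≤ M := by rw [hE]; exact sup_le inf_le_left inf_le_left
    rcases hMmin E hEn hEM with hE0 | hE1
    · -- central case
      have hbA : ∀ (A : Subgroup G), M ≤ Subgroup.normalizer (A : Set G) → M ⊓ A ≤ E →
          ∀ m ∈ M, ∀ a ∈ A, m * a = a * m := by
        intro A hMA hAE m hm a ha
        have h1 : m * a * m⁻¹ * a⁻¹ ∈ M ⊓ A := by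
          refine ⟨?_, ?_⟩
          · have h2 : a * m⁻¹ * a⁻¹ ∈ M := hMn.conj_mem _ (M.inv_mem hm) a
            have e : m * a * m⁻¹ * a⁻¹ = m * (a * m⁻¹ * a⁻¹) := by group
            rw [e]; exact M.mul_mem hm h2
          · have h2 : m * a * m⁻¹ ∈ A := (Subgroup.mem_normalizer_iff.mp (hMA hm) a).mp ha
            exact A.mul_mem h2 (A.inv_mem ha)
        have h3 : m * a * m⁻¹ * a⁻¹ ∈ E := hAE h1
        rw [hE0, Subgroup.mem_bot] at h3
        have e : m * a = (m * a * m⁻¹ * a⁻¹) * (a * m) := by group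
        rw [e, h3, one_mul]
      have hc₁ := hbA A₁ hMA₁ (by rw [hE]; exact le_sup_left)
      have hc₂ := hbA A₂ hMA₂ (by rw [hE]; exact le_sup_right)
      have hMZ : ∀ m ∈ M, ∀ g : G, g * m = m * g := by
        intro m hm g
        have h1 : A₁ ⊔ A₂ ≤ Subgroup.centralizer ({m} : Set G) := by
          apply sup_le
          · intro a ha
            rw [Subgroup.mem_centralizer_iff]
            intro h hh
            rw [Set.mem_singleton_iff] at hh
            rw [hh]; exact hc₁ m hm a ha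
          · intro a ha
            rw [Subgroup.mem_centralizer_iff]
            intro h hh
            rw [Set.mem_singleton_iff] at hh
            rw [hh]; exact hc₂ m hm a ha
        have h2 : g ∈ Subgroup.centralizer ({m} : Set G) := h1 (hJ ▸ Subgroup.mem_top g)
        exact ((Subgroup.mem_centralizer_iff.mp h2) m rfl).symm
      by_cases hMST : M ⊓ (S : Subgroup G) ≤ T
      · exact hsuffM hMST
      exfalso
      obtain ⟨x, hx, hxT⟩ := SetLike.not_le_iff_exists.mp hMST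
      have hZn : (Subgroup.zpowers x).Normal := by
        constructor
        intro y hy g
        have hyM : y ∈ M := (Subgroup.zpowers_le.mpr hx.1) hy
        have e : g * y * g⁻¹ = y := by rw [hMZ y hyM g, mul_inv_cancel_right]
        rw [e]; exact hy
      have hZM : Subgroup.zpowers x = M := by
        rcases hMmin _ hZn (Subgroup.zpowers_le.mpr hx.1) with h | h
        · exfalso; apply hxT
          have : x ∈ (⊥ : Subgroup G) := h ▸ Subgroup.mem_zpowers x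
          rw [Subgroup.mem_bot] at this; rw [this]; exact T.one_mem
        · exact h
      have hMS : M ≤ (S : Subgroup G) := by rw [← hZM]; exact Subgroup.zpowers_le.mpr hx.2
      have hTMn : (T ⊓ M).Normal := by
        constructor
        intro y hy g
        have e : g * y * g⁻¹ = y := by rw [hMZ y hy.2 g, mul_inv_cancel_right]
        rw [e]; exact hy
      have hTM : T ⊓ M = ⊥ := by
        rcases hMmin _ hTMn inf_le_right with h | h
        · exact h
        · exfalso; apply hxT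
          have : x ∈ T ⊓ M := by rw [h]; exact hx.1
          exact this.1
      haveI : IsMulCommutative ↥M := ⟨⟨fun a b => Subtype.ext (hMZ b.1 b.2 a.1)⟩⟩
      obtain ⟨k, hk⟩ := (IsPGroup.iff_card).mp (S.isPGroup'.to_le hMS)
      have hcop : (Nat.card ↥M).Coprime (S : Subgroup G).index := by
        rw [hk]
        exact Nat.Coprime.pow_left k ((Nat.Prime.coprime_iff_not_dvd hp).mpr S.not_dvd_index)
      have hex : ∀ h : G, h ∈ (S : Subgroup G) → ∃ t ∈ T, h * t⁻¹ ∈ M := by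
        intro h hh
        obtain ⟨t, ht, m, hm, rfl⟩ := hQ h hh
        refine ⟨t, ht, ?_⟩
        have e : t * m * t⁻¹ = m := by rw [hMZ m hm t, mul_inv_cancel_right]
        rw [e]; exact hm
      have huniq : ∀ t ∈ T, ∀ t' ∈ T, ∀ h : G, h * t⁻¹ ∈ M → h * t'⁻¹ ∈ M → t = t' := by
        intro t ht t' ht' h h1 h2
        have h3 : t' * t⁻¹ ∈ T ⊓ M := by
          refine ⟨T.mul_mem ht' (T.inv_mem ht), ?_⟩
          have e : t' * t⁻¹ = (h * t'⁻¹)⁻¹ * (h * t⁻¹) := by group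
          rw [e]; exact M.mul_mem (M.inv_mem h2) h1
        rw [hTM, Subgroup.mem_bot] at h3
        exact (mul_inv_eq_one.mp h3).symm
      obtain ⟨c, hc⟩ : ∃ c : G → G, ∀ h ∈ (S : Subgroup G), c h ∈ T ∧ h * (c h)⁻¹ ∈ M := by
        classical
        refine ⟨fun h => if hh : h ∈ (S : Subgroup G) then Classical.choose (hex h hh) else 1, ?_⟩
        intro h hh
        simp only [dif_pos hh]
        exact Classical.choose_spec (hex h hh)
      have hcmul : ∀ h ∈ (S : Subgroup G), ∀ h' ∈ (S : Subgroup G),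
          c (h * h') = c h * c h' := by
        intro h hh h' hh'
        have hS2 := (S : Subgroup G).mul_mem hh hh'
        apply huniq _ (hc _ hS2).1 _ (T.mul_mem (hc h hh).1 (hc h' hh').1) (h * h') (hc _ hS2).2
        have hm' := (hc h' hh').2
        have e : h * h' * (c h * c h')⁻¹ = (h' * (c h')⁻¹) * (h * (c h)⁻¹) := by
          have e1 : h * h' * (c h * c h')⁻¹ = h * (h' * (c h')⁻¹) * (c h)⁻¹ := by group
          rw [e1, hMZ _ hm' h, mul_assoc]
        rw [e]; exact M.mul_mem hm' (hc h hh).2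
      have hca : ∀ a ∈ M, c a = 1 := by
        intro a ha
        apply huniq _ (hc a (hMS ha)).1 _ T.one_mem a (hc a (hMS ha)).2
        rw [inv_one, mul_one]; exact ha
      obtain ⟨K, hK1, hK2⟩ := Cfsg.Agent.Helper15.gaschutz M (S : Subgroup G) hMS hcop c
        (fun h hh => (hc h hh).2) hcmul hca
      have hKn : K.Normal := by
        constructor
        intro y hy g
        obtain ⟨a, ha, k', hk', rfl⟩ := hK2 g
        have e : a * k' * y * (a * k')⁻¹ = k' * y * k'⁻¹ := by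
          have e1 : a * k' * y * (a * k')⁻¹ = a * (k' * y * k'⁻¹) * a⁻¹ := by group
          rw [e1, ← hMZ a ha (k' * y * k'⁻¹), mul_inv_cancel_right]
        rw [e]; exact K.mul_mem (K.mul_mem hk' hy) (K.inv_mem hk')
      have hKpow : ∀ g : G, g ^ (p ^ k) ∈ K := by
        intro g
        obtain ⟨a, ha, k', hk', rfl⟩ := hK2 g
        have hcm : Commute a k' := (hMZ a ha k').symm
        rw [hcm.mul_pow]
        have ha1 : a ^ (p ^ k) = 1 := by
          have := pow_card_eq_one' (G := ↥M) (x := ⟨a, ha⟩)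
          rw [hk] at this
          exact congrArg Subtype.val this
        rw [ha1, one_mul]; exact K.pow_mem hk' _
      have hKt := hperf K hKn k hKpow
      have hx1 : x = 1 := hK1 x (hKt ▸ Subgroup.mem_top x) hx.1
      apply hxT; rw [hx1]; exact T.one_mem
    · -- E = M
      apply hsuffM
      by_cases hMt : M = ⊤
      · exfalso
        obtain h | ⟨K₁, hK₁n, hA₁K, hK₁t⟩ := h₁.lt_normal
        · exact hA₁t h
        obtain h | ⟨K₂, hK₂n, hA₂K, hK₂t⟩ := h₂.lt_normal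
        · exact hA₂t h
        have hK₁b : K₁ = ⊥ := by
          rcases hMmin K₁ hK₁n (hMt ▸ le_top) with h | h
          · exact h
          · exact absurd (h.trans hMt) hK₁t.ne
        have hK₂b : K₂ = ⊥ := by
          rcases hMmin K₂ hK₂n (hMt ▸ le_top) with h | h
          · exact h
          · exact absurd (h.trans hMt) hK₂t.ne
        apply hbot
        rw [← hJ]
        apply le_bot_iff.mp
        exact sup_le (hK₁b ▸ hA₁K) (hK₂b ▸ hA₂K)
      · have h1 := rel_step ih' S M hMn.isSubnormal hMt (M ⊓ A₁) (M ⊓ A₂)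
          (hMn.isSubnormal.inf h₁) (hMn.isSubnormal.inf h₂) inf_le_left inf_le_left
        rw [← hE, hE1] at h1
        refine h1.trans (sup_le ?_ ?_)
        · exact (inf_le_inf_right _ inf_le_right).trans hT₁
        · exact (inf_le_inf_right _ inf_le_right).trans hT₂


/-- Let G be a finite group, p a prime, S a Sylow p-subgroup of G and A₁, A₂ subnormal subgroups of G. Then the join of S ∩ A₁ and S ∩ A₂ is a Sylow p-subgroup of the join of A₁ and A₂; equivalently ⟨A₁, A₂⟩ ∩ S = ⟨A₁ ∩ S, A₂ ∩ S⟩. -/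
theorem result {G : Type*} [Group G] [Finite G] {p : ℕ} [Fact p.Prime] (S : Sylow p G) (A₁ A₂ : Subgroup G)
    (h₁ : A₁.IsSubnormal) (h₂ : A₂.IsSubnormal) :
    (A₁ ⊔ A₂) ⊓ (S : Subgroup G) = (A₁ ⊓ (S : Subgroup G)) ⊔ (A₂ ⊓ (S : Subgroup G)) := by
  apply le_antisymm
  · exact main p _ G rfl S A₁ A₂ h₁ h₂
  · exact sup_le (inf_le_inf_right _ le_sup_left) (inf_le_inf_right _ le_sup_right)

end Cfsg.Agent.S3028
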