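import Cfsg.Statements.S3053
import Mathlib
import Cfsg.Agent.Helper5.Grp

set_option autoImplicit false
open Cfsg

namespace Cfsg.Agent.S3053

theorem pg_zpowers {G : Type*} [Group G] {p : ℕ} [Fact p.Prime] (a : G) (e : ℕ)
    (h : a ^ (p ^ e) = 1) : IsPGroup p (Subgroup.zpowers a) := by
  obtain ⟨k, -, hk⟩ := (Nat.dvd_prime_pow Fact.out).mp (orderOf_dvd_of_pow_eq_one h)
  exact IsPGroup.of_card (n := k) (by rw [Nat.card_zpowers, hk])

theorem pow_of_mem {G : Type*} [Group G] {p : ℕ} [hp : Fact p.Prime] (Z : Subgroup G)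
    (hZ : Nat.card Z = p) {z c : G} (hz : z ∈ Z) (hz1 : z ≠ 1) (hc : c ∈ Z) :
    ∃ n : ℕ, z ^ n = c := by
  have h1 : (⟨z, hz⟩ : Z) ≠ 1 := fun h => hz1 (congrArg Subtype.val h)
  have h2 : (⟨c, hc⟩ : Z) ∈ Submonoid.powers (⟨z, hz⟩ : Z) := mem_powers_of_prime_card hZ h1
  obtain ⟨n, hn⟩ := (Submonoid.mem_powers_iff _ _).1 h2
  exact ⟨n, by simpa using congrArg Subtype.val hn⟩

theorem cent_Z {G : Type*} [Group G] {p : ℕ} [hp : Fact p.Prime] (Z : Subgroup G)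
    (hZ : Nat.card Z = p) {z : G} (hz : z ∈ Z) (hz1 : z ≠ 1) {c : G} (hc : c * z = z * c) :
    ∀ c' ∈ Z, c * c' = c' * c := by
  intro c' hc'
  obtain ⟨n, rfl⟩ := pow_of_mem Z hZ hz hz1 hc'
  exact ((show Commute c z from hc).pow_right n).eq

theorem pow_comm_aux {G : Type*} [Group G] (a b c : G) (hba : b * a = c * a * b)
    (hcb : c * b = b * c) (n : ℕ) : b ^ n * a = c ^ n * a * b ^ n := by
  induction n with
  | zero => simp
  | succ n ih =>
    have hcbn : c ^ n * b = b * c ^ n := ((show Commute c b from hcb).pow_left n).eq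
    calc b ^ (n + 1) * a = b * (b ^ n * a) := by rw [pow_succ', mul_assoc]
      _ = b * (c ^ n * a * b ^ n) := by rw [ih]
      _ = (b * c ^ n) * a * b ^ n := by simp only [mul_assoc]
      _ = (c ^ n * b) * a * b ^ n := by rw [hcbn]
      _ = c ^ n * (b * a) * b ^ n := by simp only [mul_assoc]
      _ = c ^ n * (c * a * b) * b ^ n := by rw [hba]
      _ = c ^ (n + 1) * a * b ^ (n + 1) := by
        rw [pow_succ c n, pow_succ' b n]; simp only [mul_assoc]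

theorem mul_pow_class2 {G : Type*} [Group G] (a b c : G) (hba : b * a = c * a * b)
    (hca : c * a = a * c) (hcb : c * b = b * c) (n : ℕ) :
    (a * b) ^ n = c ^ (∑ i ∈ Finset.range n, i) * a ^ n * b ^ n := by
  induction n with
  | zero => simp
  | succ n ih =>
    have h1 := pow_comm_aux a b c hba hcb n
    have hcan : c ^ n * a ^ n = a ^ n * c ^ n := ((show Commute c a from hca).pow_pow n n).eq
    calc (a * b) ^ (n + 1) = (a * b) ^ n * (a * b) := pow_succ _ _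
      _ = c ^ (∑ i ∈ Finset.range n, i) * a ^ n * b ^ n * (a * b) := by rw [ih]
      _ = c ^ (∑ i ∈ Finset.range n, i) * a ^ n * (b ^ n * a) * b := by simp only [mul_assoc]
      _ = c ^ (∑ i ∈ Finset.range n, i) * a ^ n * (c ^ n * a * b ^ n) * b := by rw [h1]
      _ = c ^ (∑ i ∈ Finset.range n, i) * (a ^ n * c ^ n) * a * b ^ n * b := by
        simp only [mul_assoc]
      _ = c ^ (∑ i ∈ Finset.range n, i) * (c ^ n * a ^ n) * a * b ^ n * b := by rw [hcan]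
      _ = c ^ (∑ i ∈ Finset.range (n + 1), i) * a ^ (n + 1) * b ^ (n + 1) := by
        rw [Finset.sum_range_succ, pow_add c (∑ i ∈ Finset.range n, i) n, pow_succ a n,
          pow_succ b n]
        simp only [mul_assoc]

theorem conj_pow_central {G : Type*} [Group G] (x u c : G) (h : x * u * x⁻¹ = c * u)
    (hc : x * c = c * x) (i : ℕ) : x ^ i * u * (x ^ i)⁻¹ = c ^ i * u := by
  induction i with
  | zero => simp
  | succ i ih =>
    have hc' : x * c ^ i = c ^ i * x := ((show Commute x c from hc).pow_right i).eq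
    calc x ^ (i + 1) * u * (x ^ (i + 1))⁻¹ = x * (x ^ i * u * (x ^ i)⁻¹) * x⁻¹ := by
          rw [pow_succ' x i, mul_inv_rev]; simp only [mul_assoc]
      _ = x * (c ^ i * u) * x⁻¹ := by rw [ih]
      _ = (x * c ^ i) * u * x⁻¹ := by simp only [mul_assoc]
      _ = c ^ i * (x * u * x⁻¹) := by rw [hc']; simp only [mul_assoc]
      _ = c ^ i * (c * u) := by rw [h]
      _ = c ^ (i + 1) * u := by rw [pow_succ c i, mul_assoc]

theorem mem_cent_iff {G : Type*} [Group G] (z c : G) :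
    c ∈ Subgroup.centralizer ({z} : Set G) ↔ z * c = c * z := by
  rw [Subgroup.mem_centralizer_iff]
  constructor
  · intro h; exact h z (Set.mem_singleton z)
  · intro h y hy
    rw [Set.mem_singleton_iff] at hy
    rw [hy]; exact h

theorem cj_eq_self_iff {G : Type*} [Group G] (a x : G) :
    MulAut.conj a x = x ↔ a * x = x * a := by
  rw [MulAut.conj_apply, mul_inv_eq_iff_eq_mul]

theorem cj_conj {G : Type*} [Group G] (a b x : G) :
    MulAut.conj (MulAut.conj a b) (MulAut.conj a x) = MulAut.conj a (MulAut.conj b x) := by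
  simp only [MulAut.conj_apply]; group

theorem cj_cancel {G : Type*} [Group G] (q a : G) :
    MulAut.conj q (MulAut.conj q⁻¹ a) = a := by
  simp only [MulAut.conj_apply]; group

theorem cj_cancel' {G : Type*} [Group G] (q a : G) :
    MulAut.conj q⁻¹ (MulAut.conj q a) = a := by
  simp only [MulAut.conj_apply]; group

theorem cj_mul {G : Type*} [Group G] (a b x : G) :
    MulAut.conj (a * b) x = MulAut.conj a (MulAut.conj b x) := by
  simp only [MulAut.conj_apply]; group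

theorem exists_prod {G : Type*} [Group G] (P C : Subgroup G)
    (hn : ∀ q ∈ P, ∀ c ∈ C, q * c * q⁻¹ ∈ C) :
    ∃ M : Subgroup G, ∀ m, m ∈ M ↔ ∃ q ∈ P, ∃ c ∈ C, m = q * c := by
  refine ⟨{ carrier := {m | ∃ q ∈ P, ∃ c ∈ C, m = q * c}
            mul_mem' := ?_
            one_mem' := ⟨1, P.one_mem, 1, C.one_mem, by simp⟩
            inv_mem' := ?_ }, fun m => Iff.rfl⟩
  · rintro a b ⟨q₁, hq₁, c₁, hc₁, rfl⟩ ⟨q₂, hq₂, c₂, hc₂, rfl⟩
    refine ⟨q₁ * q₂, P.mul_mem hq₁ hq₂, q₂⁻¹ * c₁ * q₂ * c₂, C.mul_mem ?_ hc₂, by group⟩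
    have := hn q₂⁻¹ (P.inv_mem hq₂) c₁ hc₁
    rwa [inv_inv] at this
  · rintro a ⟨q, hq, c, hc, rfl⟩
    exact ⟨q⁻¹, P.inv_mem hq, q * c⁻¹ * q⁻¹, hn q hq c⁻¹ (C.inv_mem hc), by group⟩

theorem lemL {G : Type*} [Group G] [Finite G] {p : ℕ} [hp : Fact p.Prime]
    (P Z : Subgroup G)
    (hZc' : ∀ c ∈ P, (∀ q ∈ P, c * q = q * c) → c ∈ Z)
    (hPcard : Nat.card P = p ^ 3)
    (hZpow : ∀ c ∈ Z, c ^ p = 1)
    (hpow : ∀ a ∈ P, a ^ p ∈ Z)
    {q t : G} (hq : q ∈ P) (ht : t ∈ P) (htZ : t ∉ Z) (htp : t ^ p = 1)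
    (hqt : q * t = t * q) : q ^ p = 1 := by
  by_contra hqp
  have hq2 : q ^ p ^ 2 = 1 := by
    rw [pow_two, pow_mul]
    exact hZpow _ (hpow q hq)
  have hord : orderOf q = p ^ 2 :=
    orderOf_eq_prime_pow (n := 1) (by rw [pow_one]; exact hqp) hq2
  have htq : t ∉ Subgroup.zpowers q := by
    intro hmem
    obtain ⟨k, hk⟩ := (Submonoid.mem_powers_iff _ _).1 ((mem_powers_iff_mem_zpowers).2 hmem)
    have h1 : q ^ (k * p) = 1 := by rw [pow_mul, hk, htp]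
    have h2 : p ^ 2 ∣ k * p := by rw [← hord]; exact orderOf_dvd_of_pow_eq_one h1
    have h3 : p ∣ k := by
      rw [pow_two] at h2
      exact Nat.dvd_of_mul_dvd_mul_right hp.out.pos h2
    obtain ⟨m, rfl⟩ := h3
    apply htZ
    rw [← hk, pow_mul]
    exact Z.pow_mem (hpow q hq) m
  obtain ⟨W, hW⟩ : ∃ W : Subgroup G, W = Subgroup.zpowers q ⊔ Subgroup.zpowers t := ⟨_, rfl⟩
  have hWP : W ≤ P := by
    rw [hW]
    exact sup_le ((Subgroup.zpowers_le).2 hq) ((Subgroup.zpowers_le).2 ht)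
  have hqW : Subgroup.zpowers q ≤ W := by rw [hW]; exact le_sup_left
  have htW : t ∈ W := by
    rw [hW]; exact (le_sup_right : Subgroup.zpowers t ≤ _) (Subgroup.mem_zpowers t)
  have hWcent : W ≤ Subgroup.centralizer ({t} : Set G) := by
    rw [hW]
    refine sup_le ((Subgroup.zpowers_le).2 ?_) ((Subgroup.zpowers_le).2 ?_)
    · rw [mem_cent_iff]; exact hqt.symm
    · rw [mem_cent_iff]
  have hcq : Nat.card (Subgroup.zpowers q) = p ^ 2 := by rw [Nat.card_zpowers, hord]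
  have hd1 : p ^ 2 ∣ Nat.card W := by rw [← hcq]; exact Subgroup.card_dvd_of_le hqW
  have hd2 : Nat.card W ∣ p ^ 3 := by rw [← hPcard]; exact Subgroup.card_dvd_of_le hWP
  obtain ⟨k, hk3, hk⟩ := (Nat.dvd_prime_pow hp.out).1 hd2
  have hk2 : 2 ≤ k := by
    rw [hk] at hd1
    exact (Nat.pow_dvd_pow_iff_le_right hp.out.one_lt).1 hd1
  have hk' : k = 2 ∨ k = 3 := by omega
  rcases hk' with rfl | rfl
  · apply htq
    have h4 : Subgroup.zpowers q = W := Subgroup.eq_of_le_of_card_ge hqW (by rw [hk, hcq])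
    rw [h4]; exact htW
  · have hWP' : W = P := Subgroup.eq_of_le_of_card_ge hWP (by rw [hk, hPcard])
    apply htZ
    apply hZc' t ht
    intro x hx
    have hxW : x ∈ W := by rw [hWP']; exact hx
    exact (mem_cent_iff t x).1 (hWcent hxW)

theorem capture {G : Type*} [Group G] [Finite G] {p : ℕ} [hp : Fact p.Prime]
    (P : Sylow p G) (N : Subgroup G) (z y : G) (hz : z ∈ N) (hy : y ∈ N)
    (hzo : z ^ p ^ 1 = 1) (hyo : IsPGroup p (Subgroup.zpowers y)) :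
    ∃ c ∈ N, ∃ h : G, h * z * h⁻¹ ∈ (P : Subgroup G) ∧
      h * (c * y * c⁻¹) * h⁻¹ ∈ (P : Subgroup G) := by
  have hz' : IsPGroup p (Subgroup.zpowers (⟨z, hz⟩ : N)) :=
    pg_zpowers _ 1 (Subtype.ext (by simpa using hzo))
  obtain ⟨R, hR⟩ := hz'.exists_le_sylow
  obtain ⟨c, hc, hcR⟩ := Helper5.exists_conj_mem_of_sylow_map N R (Subgroup.zpowers y) hyo
    ((Subgroup.zpowers_le).2 hy)
  obtain ⟨h, hh⟩ := Helper5.exists_conj_mem_sylow' P ((R : Subgroup N).map N.subtype)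
    (R.isPGroup'.map _)
  refine ⟨c, hc, h, hh z ?_, hh _ (hcR y (Subgroup.mem_zpowers y))⟩
  exact Subgroup.mem_map.2 ⟨⟨z, hz⟩, hR (Subgroup.mem_zpowers _), rfl⟩

theorem core {G : Type*} [Group G] [Finite G] {p : ℕ} [hp : Fact p.Prime] (hp2 : p ≠ 2)
    (P : Sylow p G) (Z : Subgroup G)
    (hZP : Z ≤ (P : Subgroup G))
    (hZc : ∀ c ∈ Z, ∀ q ∈ (P : Subgroup G), c * q = q * c)
    (hZc' : ∀ c ∈ (P : Subgroup G), (∀ q ∈ (P : Subgroup G), c * q = q * c) → c ∈ Z)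
    (hZcard : Nat.card Z = p)
    (hcomm : ∀ a ∈ (P : Subgroup G), ∀ b ∈ (P : Subgroup G), a * b * a⁻¹ * b⁻¹ ∈ Z)
    (hPcard : Nat.card (P : Subgroup G) = p ^ 3)
    (hx : ∃ x ∈ (P : Subgroup G), x ^ p ≠ 1) :
    ∀ z ∈ Z, ∀ g : G, g * z * g⁻¹ ∈ (P : Subgroup G) → g * z * g⁻¹ ∈ Z := by
  intro z hz g hu
  by_contra hnot
  have hZpow : ∀ c ∈ Z, c ^ p = 1 := by
    intro c hc
    have h := pow_card_eq_one' (G := Z) (x := ⟨c, hc⟩)
    rw [hZcard] at h
    simpa using congrArg Subtype.val h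
  have hcj : ∀ a ∈ (P : Subgroup G), ∀ b ∈ (P : Subgroup G), ∃ c ∈ Z, a * b * a⁻¹ = c * b := by
    intro a ha b hb
    exact ⟨a * b * a⁻¹ * b⁻¹, hcomm a ha b hb, by group⟩
  have hcop : Nat.Coprime p 2 := (Nat.coprime_primes hp.out Nat.prime_two).2 hp2
  have hsum : p ∣ ∑ i ∈ Finset.range p, i := by
    have h1 : p ∣ (∑ i ∈ Finset.range p, i) * 2 := by
      rw [Finset.sum_range_id_mul_two]; exact dvd_mul_right _ _
    exact hcop.dvd_of_dvd_mul_right h1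
  have hmul : ∀ a ∈ (P : Subgroup G), ∀ b ∈ (P : Subgroup G),
      (a * b) ^ p = a ^ p * b ^ p := by
    intro a ha b hb
    have hc := hcomm b hb a ha
    have h1 := mul_pow_class2 a b (b * a * b⁻¹ * a⁻¹) (by group) (hZc _ hc a ha)
      (hZc _ hc b hb) p
    obtain ⟨k, hk⟩ := hsum
    rw [h1, hk, pow_mul, hZpow _ hc, one_pow, one_mul]
  have hpow : ∀ a ∈ (P : Subgroup G), a ^ p ∈ Z := by
    intro a ha
    apply hZc' _ (Subgroup.pow_mem _ ha p)
    intro q hq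
    obtain ⟨c, hc, hc2⟩ := hcj q hq a ha
    have h1 : q * a ^ p * q⁻¹ = a ^ p := by
      rw [← conj_pow, hc2, (show Commute c a from hZc c hc a ha).mul_pow, hZpow c hc, one_mul]
    calc a ^ p * q = (q * a ^ p * q⁻¹) * q := by rw [h1]
      _ = q * a ^ p := by rw [inv_mul_cancel_right]
  have hL : ∀ q ∈ (P : Subgroup G), ∀ t ∈ (P : Subgroup G), t ∉ Z → t ^ p = 1 →
      q * t = t * q → q ^ p = 1 :=
    fun q hq t ht htZ htp hqt =>
      lemL (P : Subgroup G) Z hZc' hPcard hZpow hpow hq ht htZ htp hqt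
  obtain ⟨u, hu_def⟩ : ∃ u, u = g * z * g⁻¹ := ⟨_, rfl⟩
  rw [← hu_def] at hu hnot
  have hz1 : z ≠ 1 := by
    intro hz1
    apply hnot
    rw [hu_def, hz1]
    simp
  have hu1 : u ≠ 1 := fun h => hnot (by rw [h]; exact Z.one_mem)
  have hup : u ^ p = 1 := by rw [hu_def, conj_pow, hZpow z hz]; simp
  -- x with x ^ p = z
  obtain ⟨x, hxP, hxz⟩ : ∃ x ∈ (P : Subgroup G), x ^ p = z := by
    obtain ⟨x₀, hx₀, hx₀p⟩ := hx
    obtain ⟨n, hn⟩ := pow_of_mem Z hZcard (hpow x₀ hx₀) hx₀p hz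
    refine ⟨x₀ ^ n, Subgroup.pow_mem _ hx₀ n, ?_⟩
    rw [← pow_mul, mul_comm, pow_mul, hn]
  have hxu : MulAut.conj x u ≠ u := by
    intro h
    rw [cj_eq_self_iff] at h
    have h2 := hL x hxP u hu hnot hup h
    exact hz1 (hxz.symm.trans h2)
  obtain ⟨c₀, hc₀Z, hc₀⟩ := hcj x hxP u hu
  have hc₀1 : c₀ ≠ 1 := by
    intro hc1
    apply hxu
    rw [MulAut.conj_apply, hc₀, hc1, one_mul]
  obtain ⟨i, hi⟩ := pow_of_mem Z hZcard hc₀Z hc₀1 hz
  obtain ⟨x₁, hx₁⟩ : ∃ x₁, x₁ = x ^ i := ⟨_, rfl⟩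
  have hx₁P : x₁ ∈ (P : Subgroup G) := by rw [hx₁]; exact Subgroup.pow_mem _ hxP i
  have hx₁u : MulAut.conj x₁ u = z * u := by
    rw [MulAut.conj_apply, hx₁, conj_pow_central x u c₀ hc₀ (hZc c₀ hc₀Z x hxP).symm i, hi]
  have hx₁z : MulAut.conj x₁ z = z := by
    rw [cj_eq_self_iff]; exact (hZc z hz x₁ hx₁P).symm
  -- y₀
  obtain ⟨y₀, hy₀⟩ : ∃ y₀, y₀ = g * x * g⁻¹ := ⟨_, rfl⟩
  have hy₀p : y₀ ^ p = u := by rw [hy₀, conj_pow, hxz, hu_def]
  have hzN : z ∈ Subgroup.centralizer ({u} : Set G) := by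
    rw [mem_cent_iff]; exact (hZc z hz u hu).symm
  have hy₀N : y₀ ∈ Subgroup.centralizer ({u} : Set G) := by
    rw [mem_cent_iff, ← hy₀p]; exact pow_mul_comm' y₀ p
  have hy₀pg : IsPGroup p (Subgroup.zpowers y₀) :=
    pg_zpowers y₀ 2 (by rw [pow_two, pow_mul, hy₀p, hup])
  obtain ⟨c, hcN, h, hzt, hyt⟩ := capture P (Subgroup.centralizer ({u} : Set G)) z y₀ hzN hy₀N
    (by rw [pow_one]; exact hZpow z hz) hy₀pg
  obtain ⟨y, hy⟩ : ∃ y, y = c * y₀ * c⁻¹ := ⟨_, rfl⟩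
  rw [← hy] at hyt
  have hcu : MulAut.conj c u = u := by
    rw [cj_eq_self_iff]; exact ((mem_cent_iff u c).1 hcN).symm
  have hyp : y ^ p = u := by
    rw [hy, conj_pow, hy₀p]; exact (MulAut.conj_apply c u).symm.trans hcu
  obtain ⟨yt, hyt_def⟩ : ∃ yt, yt = MulAut.conj h y := ⟨_, rfl⟩
  obtain ⟨zt, hzt_def⟩ : ∃ zt, zt = MulAut.conj h z := ⟨_, rfl⟩
  obtain ⟨ut, hut_def⟩ : ∃ ut, ut = MulAut.conj h u := ⟨_, rfl⟩
  have hyt' : yt ∈ (P : Subgroup G) := by rw [hyt_def, MulAut.conj_apply]; exact hyt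
  have hzt' : zt ∈ (P : Subgroup G) := by rw [hzt_def, MulAut.conj_apply]; exact hzt
  have hytp : yt ^ p = ut := by
    rw [hyt_def, hut_def, ← map_pow (MulAut.conj h) y p, hyp]
  have hutZ : ut ∈ Z := by rw [← hytp]; exact hpow yt hyt'
  have hut1 : ut ≠ 1 := by
    intro h1
    rw [hut_def] at h1
    exact hu1 ((MulAut.conj h).injective (h1.trans (map_one (MulAut.conj h)).symm))
  have hzt1 : zt ≠ 1 := by
    intro h1
    rw [hzt_def] at h1
    exact hz1 ((MulAut.conj h).injective (h1.trans (map_one (MulAut.conj h)).symm))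
  have hztZ : zt ∉ Z := by
    intro hmem
    obtain ⟨n, hn⟩ := pow_of_mem Z hZcard hmem hzt1 hutZ
    rw [hzt_def, hut_def, ← map_pow (MulAut.conj h) z n] at hn
    have h2 := (MulAut.conj h).injective hn
    exact hnot (by rw [← h2]; exact Z.pow_mem hz n)
  have hztp : zt ^ p = 1 := by
    rw [hzt_def, ← map_pow (MulAut.conj h) z p, hZpow z hz, map_one]
  obtain ⟨c₁, hc₁Z, hc₁⟩ := hcj yt hyt' zt hzt'
  have hc₁1 : c₁ ≠ 1 := by
    intro hc1
    rw [hc1, one_mul, ← MulAut.conj_apply, cj_eq_self_iff] at hc₁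
    have h2 := hL yt hyt' zt hzt' hztZ hztp hc₁
    exact hut1 (hytp.symm.trans h2)
  obtain ⟨j, hj⟩ := pow_of_mem Z hZcard hc₁Z hc₁1 (Z.inv_mem hutZ)
  have hconj : MulAut.conj (yt ^ j) zt = ut⁻¹ * zt := by
    rw [MulAut.conj_apply, conj_pow_central yt zt c₁ hc₁ (hZc c₁ hc₁Z yt hyt').symm j, hj]
  obtain ⟨y₁, hy₁⟩ : ∃ y₁, y₁ = y ^ j := ⟨_, rfl⟩
  have hzu : z * u = u * z := hZc z hz u hu
  have hy₁z : MulAut.conj y₁ z = u⁻¹ * z := by
    apply (MulAut.conj h).injective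
    rw [← cj_conj, map_mul (MulAut.conj h) u⁻¹ z, map_inv (MulAut.conj h) u, ← hzt_def,
      ← hut_def, hy₁, map_pow (MulAut.conj h) y j, ← hyt_def]
    exact hconj
  have hy₁z' : MulAut.conj y₁ z = z * u⁻¹ :=
    hy₁z.trans ((show Commute z u from hzu).inv_right.eq).symm
  have hy₁u : MulAut.conj y₁ u = u := by
    rw [cj_eq_self_iff, hy₁, ← hyp]; exact pow_mul_comm y j p
  -- s swaps
  obtain ⟨s, hs⟩ : ∃ s, s = x₁ * y₁ * x₁ := ⟨_, rfl⟩
  have hsz : MulAut.conj s z = u⁻¹ := by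
    rw [hs, cj_mul, cj_mul, hx₁z, hy₁z, map_mul (MulAut.conj x₁) u⁻¹ z,
      map_inv (MulAut.conj x₁) u, hx₁u, hx₁z]
    group
  have hsu : MulAut.conj s u = z := by
    rw [hs, cj_mul, cj_mul, hx₁u, map_mul (MulAut.conj y₁) z u, hy₁z', hy₁u,
      map_mul (MulAut.conj x₁) (z * u⁻¹) u, map_mul (MulAut.conj x₁) z u⁻¹,
      map_inv (MulAut.conj x₁) u, hx₁u, hx₁z]
    group
  obtain ⟨w, hw⟩ : ∃ w, w = s * s := ⟨_, rfl⟩
  have hwz : MulAut.conj w z = z⁻¹ := by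
    rw [hw, cj_mul, hsz, map_inv (MulAut.conj s) u, hsu]
  have hwu : MulAut.conj w u = u⁻¹ := by
    rw [hw, cj_mul, hsu, hsz]
  -- v
  obtain ⟨v, hv⟩ : ∃ v, v = w * x * w⁻¹ := ⟨_, rfl⟩
  have hvw : ∀ a, MulAut.conj v (MulAut.conj w a) = MulAut.conj w (MulAut.conj x a) := by
    intro a
    rw [hv]; simp only [MulAut.conj_apply]; group
  have hvp : v ^ p = z⁻¹ := by
    rw [hv, conj_pow, hxz]; exact (MulAut.conj_apply w z).symm.trans hwz
  have hxz' : MulAut.conj x z = z := by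
    rw [cj_eq_self_iff]; exact (hZc z hz x hxP).symm
  have hxu' : MulAut.conj x u = c₀ * u := by rw [MulAut.conj_apply]; exact hc₀
  have hwc₀ : MulAut.conj w c₀ = c₀⁻¹ := by
    obtain ⟨n, hn⟩ := pow_of_mem Z hZcard hz hz1 hc₀Z
    rw [← hn, map_pow (MulAut.conj w) z n, hwz, inv_pow]
  have hvz : MulAut.conj v z = z := by
    have h1 : z = MulAut.conj w z⁻¹ := by rw [map_inv (MulAut.conj w) z, hwz, inv_inv]
    calc MulAut.conj v z = MulAut.conj v (MulAut.conj w z⁻¹) := congrArg (MulAut.conj v) h1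
      _ = MulAut.conj w (MulAut.conj x z⁻¹) := hvw _
      _ = z := by
        rw [map_inv (MulAut.conj x) z, hxz', map_inv (MulAut.conj w) z, hwz, inv_inv]
  have hvu : MulAut.conj v u = c₀ * u := by
    have h1 : u = MulAut.conj w u⁻¹ := by rw [map_inv (MulAut.conj w) u, hwu, inv_inv]
    calc MulAut.conj v u = MulAut.conj v (MulAut.conj w u⁻¹) := congrArg (MulAut.conj v) h1
      _ = MulAut.conj w (MulAut.conj x u⁻¹) := hvw _
      _ = c₀ * u := by
        rw [map_inv (MulAut.conj x) u, hxu', map_inv (MulAut.conj w) (c₀ * u),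
          map_mul (MulAut.conj w) c₀ u, hwc₀, hwu, ← mul_inv_rev, inv_inv]
        exact (hZc c₀ hc₀Z u hu).symm
  -- C and M
  obtain ⟨C, hC⟩ : ∃ C : Subgroup G, C = Subgroup.centralizer ({z} : Set G) ⊓
      Subgroup.centralizer ({u} : Set G) := ⟨_, rfl⟩
  have hCmem : ∀ a, a ∈ C ↔ MulAut.conj a z = z ∧ MulAut.conj a u = u := by
    intro a
    rw [hC, Subgroup.mem_inf, mem_cent_iff, mem_cent_iff, cj_eq_self_iff, cj_eq_self_iff]
    constructor
    · rintro ⟨h1, h2⟩; exact ⟨h1.symm, h2.symm⟩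
    · rintro ⟨h1, h2⟩; exact ⟨h1.symm, h2.symm⟩
  have hnorm : ∀ q ∈ (P : Subgroup G), ∀ c ∈ C, q * c * q⁻¹ ∈ C := by
    intro q hq c' hc'
    rw [hCmem] at hc' ⊢
    obtain ⟨h1, h2⟩ := hc'
    have hq' : q⁻¹ ∈ (P : Subgroup G) := Subgroup.inv_mem _ hq
    obtain ⟨d, hdZ, hd⟩ := hcj q⁻¹ hq' u hu
    have hqz : MulAut.conj q⁻¹ z = z := by
      rw [cj_eq_self_iff]; exact (hZc z hz q⁻¹ hq').symm
    have hqz2 : MulAut.conj q z = z := by
      rw [cj_eq_self_iff]; exact (hZc z hz q hq).symm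
    have hqu : MulAut.conj q⁻¹ u = d * u := by rw [MulAut.conj_apply]; exact hd
    have hcd : MulAut.conj c' d = d := by
      rw [cj_eq_self_iff]
      exact cent_Z Z hZcard hz hz1 ((cj_eq_self_iff c' z).1 h1) d hdZ
    constructor
    · rw [cj_mul, cj_mul, hqz, h1, hqz2]
    · rw [cj_mul, cj_mul, hqu, map_mul (MulAut.conj c') d u, hcd, h2, ← hqu, cj_cancel]
  obtain ⟨M, hM⟩ := exists_prod (P : Subgroup G) C hnorm
  have hPM : (P : Subgroup G) ≤ M := by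
    intro q hq
    rw [hM]
    exact ⟨q, hq, 1, C.one_mem, (mul_one q).symm⟩
  have htC : x⁻¹ * v ∈ C := by
    rw [hCmem]
    constructor
    · calc MulAut.conj (x⁻¹ * v) z = MulAut.conj x⁻¹ (MulAut.conj v z) := cj_mul _ _ _
        _ = MulAut.conj x⁻¹ (MulAut.conj x z) := by rw [hvz, hxz']
        _ = z := cj_cancel' x z
    · calc MulAut.conj (x⁻¹ * v) u = MulAut.conj x⁻¹ (MulAut.conj v u) := cj_mul _ _ _
        _ = MulAut.conj x⁻¹ (MulAut.conj x u) := by rw [hvu, hxu']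
        _ = u := cj_cancel' x u
  have hvM : v ∈ M := by
    rw [hM]
    exact ⟨x, hxP, x⁻¹ * v, htC, by group⟩
  have hvpg : IsPGroup p (Subgroup.zpowers v) :=
    pg_zpowers v 2 (by rw [pow_two, pow_mul, hvp, inv_pow, hZpow z hz, inv_one])
  obtain ⟨m, hmM, hm⟩ := Helper5.exists_conj_mem_sylow_rel M P hPM (Subgroup.zpowers v) hvpg
    ((Subgroup.zpowers_le).2 hvM)
  have hmv := hm v (Subgroup.mem_zpowers v)
  obtain ⟨q₀, hq₀, c₂, hc₂, hmeq⟩ := (hM m).1 hmM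
  rw [hmeq] at hmv
  obtain ⟨x', hx'⟩ : ∃ x', x' = c₂ * v * c₂⁻¹ := ⟨_, rfl⟩
  have hx'P : x' ∈ (P : Subgroup G) := by
    have e : x' = q₀⁻¹ * (q₀ * c₂ * v * (q₀ * c₂)⁻¹) * q₀ := by rw [hx']; group
    rw [e]
    exact Subgroup.mul_mem _ (Subgroup.mul_mem _ (Subgroup.inv_mem _ hq₀) hmv) hq₀
  rw [hCmem] at hc₂
  obtain ⟨hc₂z, hc₂u⟩ := hc₂
  have hx'p : x' ^ p = z⁻¹ := by
    rw [hx', conj_pow, hvp]
    exact (MulAut.conj_apply c₂ z⁻¹).symm.trans
      ((map_inv (MulAut.conj c₂) z).trans (congrArg (·⁻¹) hc₂z))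
  have hc₂c₀ : MulAut.conj c₂ c₀ = c₀ := by
    rw [cj_eq_self_iff]
    exact cent_Z Z hZcard hz hz1 ((cj_eq_self_iff c₂ z).1 hc₂z) c₀ hc₀Z
  have hc₂u' : MulAut.conj c₂⁻¹ u = u := by
    calc MulAut.conj c₂⁻¹ u = MulAut.conj c₂⁻¹ (MulAut.conj c₂ u) := by rw [hc₂u]
      _ = u := cj_cancel' c₂ u
  have hx'u : MulAut.conj x' u = c₀ * u := by
    rw [hx', cj_mul, cj_mul, hc₂u', hvu, map_mul (MulAut.conj c₂) c₀ u, hc₂c₀, hc₂u]
  -- final contradiction
  obtain ⟨q, hq_def⟩ : ∃ q, q = x⁻¹ * x' := ⟨_, rfl⟩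
  have hqP : q ∈ (P : Subgroup G) := by
    rw [hq_def]; exact Subgroup.mul_mem _ (Subgroup.inv_mem _ hxP) hx'P
  have hqu : q * u = u * q := by
    rw [← cj_eq_self_iff, hq_def]
    calc MulAut.conj (x⁻¹ * x') u = MulAut.conj x⁻¹ (MulAut.conj x' u) := cj_mul _ _ _
      _ = MulAut.conj x⁻¹ (MulAut.conj x u) := by rw [hx'u, hxu']
      _ = u := cj_cancel' x u
  have hqp : q ^ p = 1 := hL q hqP u hu hnot hup hqu
  have hx'eq : x' = x * q := by rw [hq_def]; group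
  have h1 : x' ^ p = z := by rw [hx'eq, hmul x hxP q hqP, hqp, mul_one, hxz]
  have hzz : z = z⁻¹ := h1.symm.trans hx'p
  have hz2 : z ^ 2 = 1 := by
    rw [pow_two]
    calc z * z = z * z⁻¹ := congrArg (fun t => z * t) hzz
      _ = 1 := mul_inv_cancel z
  have ho2 : orderOf z ∣ 2 := orderOf_dvd_of_pow_eq_one hz2
  have hop : orderOf z ∣ p := orderOf_dvd_of_pow_eq_one (hZpow z hz)
  have ho1 : orderOf z ∣ 1 := by
    have h3 := Nat.dvd_gcd hop ho2
    rwa [Nat.Coprime.gcd_eq_one hcop] at h3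
  exact hz1 (orderOf_eq_one_iff.1 (Nat.dvd_one.1 ho1))


/-- Let p be an odd prime and G a finite group with a Sylow p-subgroup P that is extraspecial of order p³ and exponent p². Then the centre of P is strongly closed in P with respect to G: a G-conjugate of an element of Z(P) that lies in P already lies in Z(P). In particular a nontrivial central element of P is conjugate in G to no noncentral element of P. -/
theorem result {G : Type*} [Group G] [Finite G]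
    {p : ℕ} [Fact p.Prime] (hp : p ≠ 2) (P : Sylow p G) (hE : Cfsg.IsExtraspecial p ↥P)
    (hcard : Nat.card P = p ^ 3) (hexp : Monoid.exponent ↥P = p ^ 2) :
    Cfsg.IsStronglyClosed ((Subgroup.center ↥P).map (P : Subgroup G).subtype) (P : Subgroup G) := by

  obtain ⟨⟨_, _, hcm⟩, hcc⟩ := hE
  have hcm' : commutator ↥(P : Subgroup G) = Subgroup.center ↥(P : Subgroup G) := hcm
  have hcc' : Nat.card (Subgroup.center ↥(P : Subgroup G)) = p := hcc
  have hexp' : Monoid.exponent ↥(P : Subgroup G) = p ^ 2 := hexp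
  have hcard' : Nat.card ↥(P : Subgroup G) = p ^ 3 := hcard
  have hZc : ∀ c ∈ (Subgroup.center ↥(P : Subgroup G)).map (P : Subgroup G).subtype,
      ∀ q ∈ (P : Subgroup G), c * q = q * c := by
    intro c hc q hq
    obtain ⟨y, hy, rfl⟩ := Subgroup.mem_map.1 hc
    have h1 := (Subgroup.mem_center_iff.1 hy) ⟨q, hq⟩
    exact (congrArg Subtype.val h1).symm
  have hZc' : ∀ c ∈ (P : Subgroup G), (∀ q ∈ (P : Subgroup G), c * q = q * c) →
      c ∈ (Subgroup.center ↥(P : Subgroup G)).map (P : Subgroup G).subtype := by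
    intro c hc hcq
    refine Subgroup.mem_map.2 ⟨⟨c, hc⟩, ?_, rfl⟩
    rw [Subgroup.mem_center_iff]
    intro q
    exact Subtype.ext (hcq q q.2).symm
  have hZcard : Nat.card ((Subgroup.center ↥(P : Subgroup G)).map (P : Subgroup G).subtype) = p :=
    (Subgroup.card_map_of_injective (Subgroup.subtype_injective _)).trans hcc'
  have hcomm : ∀ a ∈ (P : Subgroup G), ∀ b ∈ (P : Subgroup G),
      a * b * a⁻¹ * b⁻¹ ∈ (Subgroup.center ↥(P : Subgroup G)).map (P : Subgroup G).subtype := by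
    intro a ha b hb
    have h1 : ((⟨a, ha⟩ : ↥(P : Subgroup G)) * ⟨b, hb⟩ * (⟨a, ha⟩ : ↥(P : Subgroup G))⁻¹ *
        (⟨b, hb⟩ : ↥(P : Subgroup G))⁻¹) ∈ commutator ↥(P : Subgroup G) := by
      rw [commutator_def]
      exact Subgroup.commutator_mem_commutator (Subgroup.mem_top _) (Subgroup.mem_top _)
    rw [hcm'] at h1
    exact Subgroup.mem_map.2 ⟨_, h1, rfl⟩
  have hx : ∃ x ∈ (P : Subgroup G), x ^ p ≠ 1 := by
    by_contra hcon
    push Not at hcon
    have h1 : Monoid.exponent ↥(P : Subgroup G) ∣ p :=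
      Monoid.exponent_dvd_of_forall_pow_eq_one
        (fun g => Subtype.ext (by simpa using hcon g g.2))
    rw [hexp'] at h1
    have h2 : p ^ 2 ≤ p := Nat.le_of_dvd (Fact.out : p.Prime).pos h1
    have h3 : 1 < p := (Fact.out : p.Prime).one_lt
    nlinarith
  exact ⟨Subgroup.map_subtype_le _,
    core hp P _ (Subgroup.map_subtype_le _) hZc hZc' hZcard hcomm hcard' hx⟩

end Cfsg.Agent.S3053
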