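import Cfsg.Statements.S3056
import Cfsg.Agent.Helper15.SE
import Cfsg.Agent.Helper16.Basic

set_option autoImplicit false
open Cfsg

namespace Cfsg.Agent.S3056

open Cfsg.Agent.Helper15

theorem forward {G : Type*} [Group G] [Finite G] (p : ℕ) [Fact p.Prime]
    (h : ¬ Cfsg.IsSylowChainConnected p G) :
    ∃ H : Subgroup G, H ≠ ⊤ ∧ p ∣ Nat.card H ∧
      ∀ g : G, g ∉ H → ¬ p ∣ Nat.card ↥(H ⊓ H.map (MulAut.conj g).toMonoidHom) := by
  have hp : p.Prime := Fact.out
  have hex : ∃ S T : Sylow p G, ¬ sylReach S T := by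
    by_contra hcon
    push Not at hcon
    exact h (chainConnected_of_sylReach hcon)
  obtain ⟨S, T, hST⟩ := hex
  have hSH : (S : Subgroup G) ≤ compSubgroup S := le_compSubgroup S
  -- every p-element of H lies in a Sylow of the component
  have hkey : ∀ w : G, w ∈ compSubgroup S → (∃ k : ℕ, w ^ p ^ k = 1) →
      ∃ S₁ : Sylow p G, sylReach S S₁ ∧ w ∈ (S₁ : Subgroup G) := by
    intro w hw ⟨k, hk⟩
    have hzp : IsPGroup p ↥(Subgroup.zpowers (⟨w, hw⟩ : ↥(compSubgroup S))) := by
      have hord : orderOf (⟨w, hw⟩ : ↥(compSubgroup S)) ∣ p ^ k := by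
        rw [Subgroup.orderOf_mk]
        exact orderOf_dvd_of_pow_eq_one hk
      obtain ⟨j, -, hj⟩ := (Nat.dvd_prime_pow hp).mp hord
      exact IsPGroup.of_card (n := j) (by rw [Nat.card_zpowers, hj])
    obtain ⟨h, hh⟩ := Cfsg.Agent.Helper16.exists_conj_le_sylow (S.subtype hSH) hzp
    have h1 := Subgroup.mem_subgroupOf.mp
      (show _ ∈ (S : Subgroup G).subgroupOf (compSubgroup S) from hh _ (Subgroup.mem_zpowers _))
    refine ⟨(h : G)⁻¹ • S, ?_, ?_⟩
    · exact mem_compSubgroup.mp ((compSubgroup S).inv_mem h.2)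
    · rw [mem_smul_sylow, inv_inv]
      simpa using h1
  refine ⟨compSubgroup S, ?_, ?_, ?_⟩
  · intro htop
    obtain ⟨g, hg⟩ := MulAction.exists_smul_eq G S T
    apply hST
    rw [← hg]
    exact mem_compSubgroup.mp (htop ▸ Subgroup.mem_top g)
  · have hne : S ≠ T := by
      intro heq
      apply hST
      rw [heq]
      exact Relation.ReflTransGen.refl
    have hScard : Nat.card (S : Subgroup G) = p ^ (Nat.card G).factorization p :=
      S.card_eq_multiplicity
    have hTcard : Nat.card (T : Subgroup G) = p ^ (Nat.card G).factorization p :=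
      T.card_eq_multiplicity
    have hfac : (Nat.card G).factorization p ≠ 0 := by
      intro h0
      rw [h0, pow_zero] at hScard hTcard
      apply hne
      apply Sylow.ext
      rw [Subgroup.card_eq_one.mp hScard, Subgroup.card_eq_one.mp hTcard]
    have h1 : p ∣ Nat.card (S : Subgroup G) := by
      rw [hScard]; exact dvd_pow_self p hfac
    exact dvd_trans h1 (Subgroup.card_dvd_of_le hSH)
  · intro g hg hdvd
    apply hg
    obtain ⟨y', hy'⟩ := exists_prime_orderOf_dvd_card' p hdvd
    have hyo : orderOf (y' : G) = p := by rw [Subgroup.orderOf_coe]; exact hy'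
    have hy1 : (y' : G) ≠ 1 := by
      intro h1
      rw [h1, orderOf_one] at hyo
      exact hp.one_lt.ne hyo
    have hyp : (y' : G) ^ p ^ 1 = 1 := by
      rw [pow_one]
      have := pow_orderOf_eq_one (y' : G)
      rwa [hyo] at this
    obtain ⟨hyH, hyg⟩ := Subgroup.mem_inf.mp y'.2
    obtain ⟨z, hzH, hzy⟩ := hyg
    have hzy' : g * z * g⁻¹ = (y' : G) := by simpa [MulAut.conj_apply] using hzy
    have hzp : z ^ p ^ 1 = 1 := by
      have : z = g⁻¹ * (y' : G) * g := by rw [← hzy']; group
      rw [this]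
      have e : (g⁻¹ * (y' : G) * g) ^ p ^ 1 = g⁻¹ * (y' : G) ^ p ^ 1 * g := by
        have := conj_pow (a := g⁻¹) (b := (y' : G)) (i := p ^ 1)
        simpa using this
      rw [e, hyp]; group
    obtain ⟨S₁, hS₁, hyS₁⟩ := hkey (y' : G) hyH ⟨1, hyp⟩
    obtain ⟨S₂, hS₂, hzS₂⟩ := hkey z hzH ⟨1, hzp⟩
    have hyS₂ : (y' : G) ∈ ((g • S₂ : Sylow p G) : Subgroup G) := by
      rw [mem_smul_sylow, ← hzy']
      have : g⁻¹ * (g * z * g⁻¹) * g = z := by group
      rw [this]; exact hzS₂
    have h1 : sylReach S₁ (g • S₂) := sylReach_of_mem hy1 hyS₁ hyS₂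
    have h2 : sylReach (g • S₂) (g • S) := sylReach_symm (sylReach_smul g hS₂)
    exact mem_compSubgroup.mpr (Relation.ReflTransGen.trans (Relation.ReflTransGen.trans hS₁ h1) h2)

theorem backward {G : Type*} [Group G] [Finite G] (p : ℕ) [Fact p.Prime]
    (H : Subgroup G) (hH : H ≠ ⊤) (hpH : p ∣ Nat.card H)
    (hse : ∀ g : G, g ∉ H → ¬ p ∣ Nat.card ↥(H ⊓ H.map (MulAut.conj g).toMonoidHom)) :
    ¬ Cfsg.IsSylowChainConnected p G := by
  have hp : p.Prime := Fact.out
  intro hconn
  obtain ⟨P, hPH⟩ := cse_exists_sylow_le hpH hse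
  obtain ⟨g, hg⟩ : ∃ g : G, g ∉ H := by
    by_contra hcon
    push Not at hcon
    exact hH (eq_top_iff.mpr (fun x _ => hcon x))
  obtain ⟨n, c, hc0, hcl, -, hadj⟩ := hconn P (g • P)
  have hall : ∀ i : Fin (n + 1), ((c i : Sylow p G) : Subgroup G) ≤ H := by
    intro i
    refine Fin.induction (motive := fun i => ((c i : Sylow p G) : Subgroup G) ≤ H) ?_ ?_ i
    · rw [hc0]; exact hPH
    · intro i ih
      obtain ⟨-, hint⟩ := hadj i
      obtain ⟨y, hy, hy1⟩ := exists_ne_one_of_ne_bot hint
      obtain ⟨hy1', hy2'⟩ := Subgroup.mem_inf.mp hy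
      obtain ⟨k, hk⟩ := MulAction.exists_smul_eq G (c i.castSucc) (c i.succ)
      obtain ⟨e, he⟩ := exists_pow_of_mem_pgroup (c i.castSucc).isPGroup' hy1'
      have hyk : k⁻¹ * y * k ∈ ((c i.castSucc : Sylow p G) : Subgroup G) := by
        rw [← mem_smul_sylow, hk]; exact hy2'
      have hkH : k ∈ H := by
        apply cse_mem_of_mem_map hse hy1 he (ih hy1') k
        refine ⟨k⁻¹ * y * k, ih hyk, ?_⟩
        simp [MulAut.conj_apply, mul_assoc]
      intro x hx
      have hxk : k⁻¹ * x * k ∈ ((c i.castSucc : Sylow p G) : Subgroup G) := by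
        rw [← mem_smul_sylow, hk]; exact hx
      have : x = k * (k⁻¹ * x * k) * k⁻¹ := by group
      rw [this]
      exact H.mul_mem (H.mul_mem hkH (ih hxk)) (H.inv_mem hkH)
  have hT : ((g • P : Sylow p G) : Subgroup G) ≤ H := by
    rw [← hcl]; exact hall _
  have hP1 : (P : Subgroup G) ≠ ⊥ := by
    intro hb
    have hcard : Nat.card (P : Subgroup G) = p ^ (Nat.card G).factorization p :=
      P.card_eq_multiplicity
    rw [hb, Subgroup.card_bot] at hcard
    have hG : p ∣ Nat.card G := dvd_trans hpH (Subgroup.card_subgroup_dvd_card H)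
    have hfac : 0 < (Nat.card G).factorization p :=
      hp.factorization_pos_of_dvd Nat.card_pos.ne' hG
    have : 1 < p ^ (Nat.card G).factorization p := Nat.one_lt_pow hfac.ne' hp.one_lt
    omega
  obtain ⟨y, hyP, hy1⟩ := exists_ne_one_of_ne_bot hP1
  obtain ⟨e, he⟩ := exists_pow_of_mem_pgroup P.isPGroup' hyP
  apply hg
  apply cse_mem_of_conj_mem hse hy1 he (hPH hyP) g
  apply hT
  rw [mem_smul_sylow]
  have : g⁻¹ * (g * y * g⁻¹) * g = y := by group
  rw [this]; exact hyP

/-- Let G be a finite group and p a prime. Join two Sylow p-subgroups when they are distinct and meet nontrivially. This graph on the Sylow p-subgroups is disconnected (the Sylow p-subgroups are not chain-connected through nontrivial intersections) if and only if G has a strongly p-embedded subgroup in the classical sense: a proper subgroup H of order divisible by p such that H ∩ gHg⁻¹ has order prime to p for every g outside H. -/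
theorem result {G : Type*} [Group G] [Finite G]
    (p : ℕ) [Fact p.Prime] :
    ¬ Cfsg.IsSylowChainConnected p G ↔
      ∃ H : Subgroup G, H ≠ ⊤ ∧ p ∣ Nat.card H ∧
        ∀ g : G, g ∉ H → ¬ p ∣ Nat.card ↥(H ⊓ H.map (MulAut.conj g).toMonoidHom) := by
  constructor
  · exact forward p
  · rintro ⟨H, hH, hpH, hse⟩
    exact backward p H hH hpH hse

end Cfsg.Agent.S3056
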