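import Cfsg.Statements.S3059
import Cfsg.Agent.Helper15.SE
import Cfsg.Agent.Helper19.Basic

set_option autoImplicit false
open Cfsg

namespace Cfsg.Agent.S3059

open Cfsg.Agent.Helper15

/-- Let p be a prime and H a strongly p-embedded subgroup of the finite group G in the classical sense: H is proper, p divides the order of H, and H ∩ gHg⁻¹ has order prime to p for every g outside H. Then for every normal subgroup N of G of order divisible by p, G = H · O^p(N), where O^p(N) is the subgroup generated by the elements of N of order prime to p. -/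
theorem result {G : Type*} [Group G] [Finite G]
    (p : ℕ) [Fact p.Prime] (H : Subgroup G) (hH : H ≠ ⊤) (hpH : p ∣ Nat.card H)
    (hse : ∀ g : G, g ∉ H → ¬ p ∣ Nat.card ↥(H ⊓ H.map (MulAut.conj g).toMonoidHom))
    (N : Subgroup G) [N.Normal] (hN : p ∣ Nat.card N) :
    H ⊔ Subgroup.closure {g : G | g ∈ N ∧ (orderOf g).Coprime p} = ⊤ := by
  have hp : p.Prime := Fact.out
  obtain ⟨P, hPH⟩ := cse_exists_sylow_le hpH hse
  have hA1 : (P : Subgroup G) ⊓ N ≠ ⊥ := inf_normal_ne_bot P N hN
  have hNA : Subgroup.normalizer (((P : Subgroup G) ⊓ N : Subgroup G) : Set G) ≤ H :=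
    cse_normalizer_le hse (P.isPGroup'.to_le inf_le_left) (le_trans inf_le_left hPH) hA1
  have hfr := Cfsg.Agent.Helper19.frattini_inf P N
  have hNW : N ≤ pres p N ⊔ ((P : Subgroup G) ⊓ N) := le_pres_sup_sylow P N
  show H ⊔ pres p N = ⊤
  rw [eq_top_iff, ← hfr]
  apply sup_le
  · exact le_trans hNA le_sup_left
  · exact le_trans hNW (sup_le le_sup_right (le_trans (le_trans inf_le_left hPH) le_sup_left))

end Cfsg.Agent.S3059
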