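import Cfsg.Statements.S3061
import Cfsg.Agent.Helper15.CD
import Cfsg.Agent.Helper19.PGroup
import Cfsg.Agent.Helper16.Conj

set_option autoImplicit false
open Cfsg

namespace Cfsg.Agent.S3061

open scoped commutatorElement

section aux

variable {S : Type*} [Group S]

/-- Auxiliary subgroup: elements of `closure T` whose commutator with `g` lies in `C`. -/
def commSub (T : Set S) (C : Subgroup S)
    (hC : C ≤ Subgroup.centralizer ((Subgroup.closure T : Subgroup S) : Set S)) (g : S) :
    Subgroup S where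
  carrier := {h | h ∈ Subgroup.closure T ∧ ⁅g, h⁆ ∈ C}
  one_mem' := ⟨Subgroup.one_mem _, by rw [commutatorElement_one_right]; exact C.one_mem⟩
  mul_mem' := by
    rintro h₁ h₂ ⟨h1, c1⟩ ⟨h2, c2⟩
    refine ⟨Subgroup.mul_mem _ h1 h2, ?_⟩
    have hcomm : h₁ * ⁅g, h₂⁆ = ⁅g, h₂⁆ * h₁ := by
      have := hC c2
      rw [Subgroup.mem_centralizer_iff] at this
      exact this h₁ h1
    have e : ⁅g, h₁ * h₂⁆ = ⁅g, h₁⁆ * ⁅g, h₂⁆ := by
      have e1 : ⁅g, h₁ * h₂⁆ = ⁅g, h₁⁆ * (h₁ * ⁅g, h₂⁆ * h₁⁻¹) := by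
        simp only [commutatorElement_def]; group
      rw [e1, hcomm, mul_inv_cancel_right]
    rw [e]; exact C.mul_mem c1 c2
  inv_mem' := by
    rintro h ⟨h1, c1⟩
    refine ⟨Subgroup.inv_mem _ h1, ?_⟩
    have hcomm : h⁻¹ * ⁅g, h⁆⁻¹ = ⁅g, h⁆⁻¹ * h⁻¹ := by
      have := hC (C.inv_mem c1)
      rw [Subgroup.mem_centralizer_iff] at this
      exact this h⁻¹ (Subgroup.inv_mem _ h1)
    have e : ⁅g, h⁻¹⁆ = ⁅g, h⁆⁻¹ := by
      have e1 : ⁅g, h⁻¹⁆ = h⁻¹ * ⁅g, h⁆⁻¹ * h := by
        simp only [commutatorElement_def]; group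
      rw [e1, hcomm, inv_mul_cancel_right]
    rw [e]; exact C.inv_mem c1

theorem comm_mem_of_gens (T : Set S) (C : Subgroup S)
    (hC : C ≤ Subgroup.centralizer ((Subgroup.closure T : Subgroup S) : Set S))
    (hgen : ∀ g ∈ T, ∀ h ∈ T, ⁅g, h⁆ ∈ C) :
    ∀ g ∈ Subgroup.closure T, ∀ h ∈ Subgroup.closure T, ⁅g, h⁆ ∈ C := by
  have step1 : ∀ g ∈ T, ∀ h ∈ Subgroup.closure T, ⁅g, h⁆ ∈ C := by
    intro g hg h hh
    have hle : Subgroup.closure T ≤ commSub T C hC g := by
      rw [Subgroup.closure_le]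
      intro t ht
      exact ⟨Subgroup.subset_closure ht, hgen g hg t ht⟩
    exact (hle hh).2
  intro g hg h hh
  have hle : Subgroup.closure T ≤ commSub T C hC h := by
    rw [Subgroup.closure_le]
    intro t ht
    refine ⟨Subgroup.subset_closure ht, ?_⟩
    rw [← commutatorElement_inv]
    exact C.inv_mem (step1 t ht h hh)
  have := (hle hg).2
  rw [← commutatorElement_inv]
  exact C.inv_mem this

theorem class2 (A : Subgroup S) (hA : A ≤ Subgroup.centralizer (A : Set S)) (x : S)
    (Z : Subgroup S) (h1 : ∀ a ∈ A, ⁅a, x⁆ ∈ Z) (h2 : ∀ z ∈ Z, ∀ a ∈ A, a * z = z * a)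
    (h3 : ∀ z ∈ Z, x * z = z * x) :
    ⁅⁅A ⊔ Subgroup.zpowers x, A ⊔ Subgroup.zpowers x⁆, A ⊔ Subgroup.zpowers x⁆ = ⊥ := by
  have hH : A ⊔ Subgroup.zpowers x = Subgroup.closure ((A : Set S) ∪ {x}) := by
    rw [Subgroup.closure_union, Subgroup.closure_eq, Subgroup.zpowers_eq_closure]
  have hC : Z ≤ Subgroup.centralizer
      ((Subgroup.closure ((A : Set S) ∪ {x}) : Subgroup S) : Set S) := by
    intro z hz
    rw [Subgroup.mem_centralizer_iff]
    have hle : Subgroup.closure ((A : Set S) ∪ {x}) ≤ Subgroup.centralizer ({z} : Set S) := by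
      rw [Subgroup.closure_le]
      rintro t (ht | ht)
      · rw [SetLike.mem_coe, Subgroup.mem_centralizer_iff]
        intro y hy
        rw [Set.mem_singleton_iff] at hy
        rw [hy]
        exact (h2 z hz t ht).symm
      · rw [Set.mem_singleton_iff] at ht
        rw [SetLike.mem_coe, Subgroup.mem_centralizer_iff]
        intro y hy
        rw [Set.mem_singleton_iff] at hy
        rw [hy, ht]
        exact (h3 z hz).symm
    intro h hh
    have := hle hh
    rw [Subgroup.mem_centralizer_iff] at this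
    exact (this z (Set.mem_singleton z)).symm
  have hgen : ∀ g ∈ (A : Set S) ∪ {x}, ∀ h ∈ (A : Set S) ∪ {x}, ⁅g, h⁆ ∈ Z := by
    rintro g (hg | hg) h (hh | hh)
    · have : ⁅g, h⁆ = 1 := by
        rw [commutatorElement_eq_one_iff_commute]
        have := hA hg
        rw [Subgroup.mem_centralizer_iff] at this
        exact (this h hh).symm
      rw [this]; exact Z.one_mem
    · rw [Set.mem_singleton_iff] at hh
      rw [hh]; exact h1 g hg
    · rw [Set.mem_singleton_iff] at hg
      rw [hg, ← commutatorElement_inv]; exact Z.inv_mem (h1 h hh)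
    · rw [Set.mem_singleton_iff] at hg hh
      rw [hg, hh, commutatorElement_self]; exact Z.one_mem
  have hall := comm_mem_of_gens _ Z hC hgen
  rw [hH, Subgroup.commutator_eq_bot_iff_le_centralizer, Subgroup.commutator_le]
  intro g hg h hh
  exact hC (hall g hg h hh)

theorem bot_mem_family : (⊥ : Subgroup S) ∈ Cfsg.dStarFamily S := by
  refine ⟨?_, ?_⟩
  · exact Subgroup.le_centralizer_iff_isMulCommutative.mp bot_le
  · intro x _ a ha
    rw [Subgroup.mem_bot] at ha
    rw [ha, one_mul, mul_one]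

theorem conj_mem_family {A : Subgroup S} (hA : A ∈ Cfsg.dStarFamily S) (g : S) :
    A.map (MulAut.conj g).toMonoidHom ∈ Cfsg.dStarFamily S := by
  obtain ⟨hAc, hA2⟩ := hA
  refine ⟨?_, ?_⟩
  · apply Subgroup.le_centralizer_iff_isMulCommutative.mp
    have hAc' := Subgroup.le_centralizer_iff_isMulCommutative.mpr hAc
    rintro _ ⟨a, ha, rfl⟩
    rw [Subgroup.mem_centralizer_iff]
    rintro _ ⟨b, hb, rfl⟩
    have := hAc' ha
    rw [Subgroup.mem_centralizer_iff] at this
    have hba : b * a = a * b := this b hb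
    simp only [MulEquiv.toMonoidHom_eq_coe, MonoidHom.coe_coe, MulAut.conj_apply]
    calc g * b * g⁻¹ * (g * a * g⁻¹) = g * (b * a) * g⁻¹ := by group
      _ = g * (a * b) * g⁻¹ := by rw [hba]
      _ = g * a * g⁻¹ * (g * b * g⁻¹) := by group
  · intro x hx
    have e1 : (A.map (MulAut.conj g).toMonoidHom).map (MulAut.conj g⁻¹).toMonoidHom = A := by
      ext y
      constructor
      · rintro ⟨_, ⟨a, ha, rfl⟩, rfl⟩
        simpa [MulAut.conj_apply, mul_assoc] using ha
      · intro hy
        exact ⟨g * y * g⁻¹, ⟨y, hy, by simp [MulAut.conj_apply]⟩,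
          by simp [MulAut.conj_apply, mul_assoc]⟩
    have e2 : (Subgroup.zpowers x).map (MulAut.conj g⁻¹).toMonoidHom =
        Subgroup.zpowers (g⁻¹ * x * g) := by
      rw [MonoidHom.map_zpowers]
      simp [MulAut.conj_apply]
    have hmap : (A.map (MulAut.conj g).toMonoidHom ⊔ Subgroup.zpowers x).map
        (MulAut.conj g⁻¹).toMonoidHom = A ⊔ Subgroup.zpowers (g⁻¹ * x * g) := by
      rw [Subgroup.map_sup, e1, e2]
    have hx' : ⁅⁅A ⊔ Subgroup.zpowers (g⁻¹ * x * g), A ⊔ Subgroup.zpowers (g⁻¹ * x * g)⁆,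
        A ⊔ Subgroup.zpowers (g⁻¹ * x * g)⁆ = ⊥ := by
      rw [← hmap, ← Subgroup.map_commutator, ← Subgroup.map_commutator, hx, Subgroup.map_bot]
    have h3 := hA2 (g⁻¹ * x * g) hx'
    intro y hy
    obtain ⟨a, ha, rfl⟩ := hy
    have h4 := h3 a ha
    simp only [MulEquiv.toMonoidHom_eq_coe, MonoidHom.coe_coe, MulAut.conj_apply]
    calc g * a * g⁻¹ * x = g * (a * (g⁻¹ * x * g)) * g⁻¹ := by group
      _ = g * ((g⁻¹ * x * g) * a) * g⁻¹ := by rw [h4]
      _ = x * (g * a * g⁻¹) := by group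

theorem sup_mem_family {A B : Subgroup S} (hA : A ∈ Cfsg.dStarFamily S)
    (hB : B ∈ Cfsg.dStarFamily S) (hAB : B ≤ Subgroup.centralizer (A : Set S)) :
    A ⊔ B ∈ Cfsg.dStarFamily S := by
  obtain ⟨hAc, hA2⟩ := hA
  obtain ⟨hBc, hB2⟩ := hB
  refine ⟨?_, ?_⟩
  · exact Subgroup.le_centralizer_iff_isMulCommutative.mp
      (Cfsg.Agent.Helper15.sup_le_centralizer_sup
        (Subgroup.le_centralizer_iff_isMulCommutative.mpr hAc)
        (Subgroup.le_centralizer_iff_isMulCommutative.mpr hBc) hAB)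
  · intro x hx
    have hxA : ⁅⁅A ⊔ Subgroup.zpowers x, A ⊔ Subgroup.zpowers x⁆, A ⊔ Subgroup.zpowers x⁆ = ⊥ := by
      rw [eq_bot_iff, ← hx]
      have hle : A ⊔ Subgroup.zpowers x ≤ A ⊔ B ⊔ Subgroup.zpowers x :=
        sup_le_sup_right le_sup_left _
      exact Subgroup.commutator_mono (Subgroup.commutator_mono hle hle) hle
    have hxB : ⁅⁅B ⊔ Subgroup.zpowers x, B ⊔ Subgroup.zpowers x⁆, B ⊔ Subgroup.zpowers x⁆ = ⊥ := by
      rw [eq_bot_iff, ← hx]
      have hle : B ⊔ Subgroup.zpowers x ≤ A ⊔ B ⊔ Subgroup.zpowers x :=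
        sup_le_sup_right le_sup_right _
      exact Subgroup.commutator_mono (Subgroup.commutator_mono hle hle) hle
    have h1 := hA2 x hxA
    have h2 := hB2 x hxB
    have hle : A ⊔ B ≤ Subgroup.centralizer ({x} : Set S) := by
      apply sup_le
      · intro a ha
        rw [Subgroup.mem_centralizer_iff]
        intro y hy
        rw [Set.mem_singleton_iff] at hy
        rw [hy]
        exact (h1 a ha).symm
      · intro b hb
        rw [Subgroup.mem_centralizer_iff]
        intro y hy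
        rw [Set.mem_singleton_iff] at hy
        rw [hy]
        exact (h2 b hb).symm
    intro c hc
    have := hle hc
    rw [Subgroup.mem_centralizer_iff] at this
    exact (this x (Set.mem_singleton x)).symm

end aux

/-- Let S be a finite p-group. Then D*(S) itself belongs to the family that generates it: D*(S) is abelian, and every x ∈ S with ⟨D*(S), x⟩ of class at most two centralizes D*(S). Hence D*(S) is the unique maximal member of that family. -/
theorem result {S : Type*} [Group S] [Finite S] {p : ℕ} [Fact p.Prime] (hS : IsPGroup p S) :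
    Cfsg.dStar S ∈ Cfsg.dStarFamily S := by
  classical
  obtain ⟨A, hA, hmax⟩ := Set.exists_max_image (Cfsg.dStarFamily S) (fun X => Nat.card ↥X)
    (Set.toFinite _) ⟨⊥, bot_mem_family⟩
  have hAc' : A ≤ Subgroup.centralizer (A : Set S) :=
    Subgroup.le_centralizer_iff_isMulCommutative.mpr hA.1
  have habsorb : ∀ B ∈ Cfsg.dStarFamily S, B ≤ Subgroup.centralizer (A : Set S) → B ≤ A := by
    intro B hB hBA
    have h1 := sup_mem_family hA hB hBA
    have h2 := hmax _ h1
    have h3 : A = A ⊔ B := Subgroup.eq_of_le_of_card_ge le_sup_left h2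
    rw [h3]; exact le_sup_right
  have hAn : Subgroup.normalizer (A : Set S) = ⊤ := by
    by_contra hne
    have hlt : Subgroup.normalizer (A : Set S) < ⊤ := lt_top_iff_ne_top.mpr hne
    obtain ⟨g, -, hgN, hgn⟩ :=
      Cfsg.Agent.Helper19.exists_mem_normalizer_not_mem (hS.to_subgroup ⊤) hlt
    apply hgn
    have hB := conj_mem_family hA g
    have hBN : A.map (MulAut.conj g).toMonoidHom ≤ Subgroup.normalizer (A : Set S) := by
      rintro _ ⟨a, ha, rfl⟩
      have := (Subgroup.mem_normalizer_iff.mp hgN a).mp (Subgroup.le_normalizer ha)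
      simpa [MulAut.conj_apply] using this
    have hAB : ∀ a ∈ A, ∀ b ∈ A.map (MulAut.conj g).toMonoidHom,
        a * b * a⁻¹ ∈ A.map (MulAut.conj g).toMonoidHom := by
      intro a ha b hb
      obtain ⟨a', ha', rfl⟩ := hb
      have h1 : g⁻¹ * a * g ∈ Subgroup.normalizer (A : Set S) := by
        have := (Subgroup.mem_normalizer_iff.mp (Subgroup.inv_mem _ hgN) a).mp
          (Subgroup.le_normalizer ha)
        simpa using this
      have h2 : (g⁻¹ * a * g) * a' * (g⁻¹ * a * g)⁻¹ ∈ A :=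
        (Subgroup.mem_normalizer_iff.mp h1 a').mp ha'
      refine ⟨(g⁻¹ * a * g) * a' * (g⁻¹ * a * g)⁻¹, h2, ?_⟩
      simp only [MulEquiv.toMonoidHom_eq_coe, MonoidHom.coe_coe, MulAut.conj_apply]
      group
    have hcomm : A.map (MulAut.conj g).toMonoidHom ≤ Subgroup.centralizer (A : Set S) := by
      intro b hb
      have hBc' := Subgroup.le_centralizer_iff_isMulCommutative.mpr hB.1
      have hcl : ⁅⁅A ⊔ Subgroup.zpowers b, A ⊔ Subgroup.zpowers b⁆, A ⊔ Subgroup.zpowers b⁆ = ⊥ := by
        apply class2 A hAc' b (A ⊓ A.map (MulAut.conj g).toMonoidHom)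
        · intro a ha
          apply Subgroup.mem_inf.mpr
          constructor
          · have hb' := (Subgroup.mem_normalizer_iff.mp (hBN hb) a⁻¹).mp (A.inv_mem ha)
            have : ⁅a, b⁆ = a * (b * a⁻¹ * b⁻¹) := by rw [commutatorElement_def]; group
            rw [this]; exact A.mul_mem ha hb'
          · have : ⁅a, b⁆ = (a * b * a⁻¹) * b⁻¹ := by rw [commutatorElement_def]
            rw [this]; exact Subgroup.mul_mem _ (hAB a ha b hb) (Subgroup.inv_mem _ hb)
        · intro z hz a ha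
          have := hAc' (Subgroup.mem_inf.mp hz).1
          rw [Subgroup.mem_centralizer_iff] at this
          exact this a ha
        · intro z hz
          have := hBc' (Subgroup.mem_inf.mp hz).2
          rw [Subgroup.mem_centralizer_iff] at this
          exact this b hb
      rw [Subgroup.mem_centralizer_iff]
      intro a ha
      exact hA.2 b hcl a ha
    have hBA := habsorb _ hB hcomm
    apply Cfsg.Agent.Helper16.mem_normalizer_of_conj_mem
    intro y hy
    exact hBA ⟨y, hy, by simp [MulAut.conj_apply]⟩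
  have hAnormal : A.Normal := by
    constructor
    intro n hn g
    have hg : g ∈ Subgroup.normalizer (A : Set S) := by rw [hAn]; exact Subgroup.mem_top g
    exact (Subgroup.mem_normalizer_iff.mp hg n).mp hn
  have hle : ∀ B ∈ Cfsg.dStarFamily S, B ≤ A := by
    intro B hB
    apply habsorb B hB
    have hBc' := Subgroup.le_centralizer_iff_isMulCommutative.mpr hB.1
    by_contra hnot
    have hDle : (A ⊓ Subgroup.centralizer (B : Set S)) ⊔ B ≤ A ⊔ B :=
      sup_le_sup_right inf_le_left B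
    have hDc : (A ⊓ Subgroup.centralizer (B : Set S)) ⊔ B ≤ Subgroup.centralizer (B : Set S) :=
      sup_le inf_le_right hBc'
    have hDne : (A ⊓ Subgroup.centralizer (B : Set S)) ⊔ B ≠ A ⊔ B := by
      intro heq
      apply hnot
      have hAcB : A ≤ Subgroup.centralizer (B : Set S) :=
        le_trans (le_trans le_sup_left (le_of_eq heq.symm)) hDc
      exact Subgroup.le_centralizer_iff.mp hAcB
    have hlt : (A ⊓ Subgroup.centralizer (B : Set S)) ⊔ B < A ⊔ B := lt_of_le_of_ne hDle hDne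
    obtain ⟨x, hxP, hxN, hxD⟩ :=
      Cfsg.Agent.Helper19.exists_mem_normalizer_not_mem (hS.to_subgroup (A ⊔ B)) hlt
    have hx' : x ∈ ((A ⊔ B : Subgroup S) : Set S) := hxP
    rw [Subgroup.normal_mul] at hx'
    obtain ⟨a, ha, b, hb, rfl⟩ := Set.mem_mul.mp hx'
    have ha' : a ∈ A := ha
    have hb' : b ∈ B := hb
    have hbD : b ∈ (A ⊓ Subgroup.centralizer (B : Set S)) ⊔ B := (le_sup_right : B ≤ _) hb'
    have haN : a ∈ Subgroup.normalizer
        (((A ⊓ Subgroup.centralizer (B : Set S)) ⊔ B : Subgroup S) : Set S) := by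
      have : a = (a * b) * b⁻¹ := by group
      rw [this]
      exact Subgroup.mul_mem _ hxN (Subgroup.inv_mem _ (Subgroup.le_normalizer hbD))
    have haD : a ∉ (A ⊓ Subgroup.centralizer (B : Set S)) ⊔ B := by
      intro h
      exact hxD (Subgroup.mul_mem _ h hbD)
    have hcl : ⁅⁅B ⊔ Subgroup.zpowers a, B ⊔ Subgroup.zpowers a⁆, B ⊔ Subgroup.zpowers a⁆ = ⊥ := by
      apply class2 B hBc' a (A ⊓ ((A ⊓ Subgroup.centralizer (B : Set S)) ⊔ B))
      · intro b₁ hb₁
        apply Subgroup.mem_inf.mpr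
        constructor
        · have : ⁅b₁, a⁆ = (b₁ * a * b₁⁻¹) * a⁻¹ := by rw [commutatorElement_def]
          rw [this]; exact A.mul_mem (hAnormal.conj_mem a ha' b₁) (A.inv_mem ha')
        · have h1 := (Subgroup.mem_normalizer_iff.mp haN b₁⁻¹).mp
            (Subgroup.inv_mem _ ((le_sup_right : B ≤ _) hb₁))
          have : ⁅b₁, a⁆ = b₁ * (a * b₁⁻¹ * a⁻¹) := by rw [commutatorElement_def]; group
          rw [this]; exact Subgroup.mul_mem _ ((le_sup_right : B ≤ _) hb₁) h1
      · intro z hz b₁ hb₁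
        have := hDc (Subgroup.mem_inf.mp hz).2
        rw [Subgroup.mem_centralizer_iff] at this
        exact this b₁ hb₁
      · intro z hz
        have := hAc' (Subgroup.mem_inf.mp hz).1
        rw [Subgroup.mem_centralizer_iff] at this
        exact this a ha'
    have h5 := hB.2 a hcl
    apply haD
    apply (le_sup_left : A ⊓ Subgroup.centralizer (B : Set S) ≤ _)
    apply Subgroup.mem_inf.mpr
    refine ⟨ha', ?_⟩
    rw [Subgroup.mem_centralizer_iff]
    intro b₁ hb₁
    exact h5 b₁ hb₁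
  have heq : Cfsg.dStar S = A := by
    apply le_antisymm
    · exact sSup_le hle
    · exact le_sSup hA
  rw [heq]; exact hA

end Cfsg.Agent.S3061
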