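import Cfsg.Statements.S3063
import Mathlib
import Cfsg.Agent.Helper15.CD
import Cfsg.Agent.Helper5.Grp

set_option autoImplicit false
open Cfsg

namespace Cfsg.Agent.S3063

open scoped commutatorElement

theorem comm_sup {S : Type*} [Group S] {H K : Subgroup S}
    (hH : ∀ x ∈ H, ∀ y ∈ H, x * y = y * x)
    (hK : ∀ x ∈ K, ∀ y ∈ K, x * y = y * x) (hHK : ∀ x ∈ H, ∀ y ∈ K, x * y = y * x) :
    IsMulCommutative ↥(H ⊔ K) := by
  have hcl : H ⊔ K = Subgroup.closure ((H : Set S) ∪ K) := by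
    rw [Subgroup.closure_union, Subgroup.closure_eq, Subgroup.closure_eq]
  rw [hcl]
  apply Subgroup.isMulCommutative_closure
  rintro x (hx | hx) y (hy | hy)
  · exact hH x hx y hy
  · exact hHK x hx y hy
  · exact (hHK y hy x hx).symm
  · exact hK x hx y hy

theorem comm_of {S : Type*} [Group S] {H : Subgroup S} (hH : IsMulCommutative ↥H) :
    ∀ x ∈ H, ∀ y ∈ H, x * y = y * x := by
  intro x hx y hy
  exact congrArg Subtype.val (hH.is_comm.comm (⟨x, hx⟩ : ↥H) ⟨y, hy⟩)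

theorem mem_cent_iff {G : Type*} [Group G] (z c : G) :
    c ∈ Subgroup.centralizer ({z} : Set G) ↔ z * c = c * z := by
  rw [Subgroup.mem_centralizer_iff]
  constructor
  · intro h; exact h z (Set.mem_singleton z)
  · intro h y hy
    rw [Set.mem_singleton_iff] at hy
    rw [hy]; exact h

theorem card_le_mul_of_fiber {α β G : Type*} [Group G] [Finite α] [Finite β] (C : Subgroup G)
    [Finite C] (f : α → β) (φ : α → α → G)
    (hφ : ∀ a₀ a, f a = f a₀ → φ a₀ a ∈ C)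
    (h : ∀ a₀ a a', f a = f a₀ → f a' = f a₀ → φ a₀ a = φ a₀ a' → a = a') :
    Nat.card α ≤ Nat.card C * Nat.card β := by
  rcases isEmpty_or_nonempty α with hα | hα
  · rw [Nat.card_of_isEmpty]; exact Nat.zero_le _
  have hs : ∀ a : α, f (Function.invFun f (f a)) = f a := fun a => Function.invFun_eq ⟨a, rfl⟩
  have hΨ : Function.Injective (fun a : α =>
      ((⟨φ (Function.invFun f (f a)) a, hφ _ _ (hs a).symm⟩ : C), f a)) := by
    intro a a' haa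
    have h1 : f a = f a' := congrArg Prod.snd haa
    have h2 : φ (Function.invFun f (f a)) a = φ (Function.invFun f (f a')) a' :=
      congrArg (fun z : C × β => (z.1 : G)) haa
    rw [← h1] at h2
    exact h _ a a' (hs a).symm (h1.symm.trans (hs a).symm) h2
  have h3 := Nat.card_le_card_of_injective _ hΨ
  rwa [Nat.card_prod] at h3

/-- Unified replacement step. -/
theorem repl {S : Type*} [Group S] [Finite S] (B X : Subgroup S) (g : S)
    (hBc : ∀ b ∈ B, ∀ b' ∈ B, b * b' = b' * b)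
    (hXc : ∀ a ∈ X, ∀ b ∈ X, a * b = b * a)
    (hgB : ∀ a ∈ X, a⁻¹ * (g * a * g⁻¹) ∈ B)
    (hgN : ∀ a ∈ X, a⁻¹ * (g * a * g⁻¹) ∈ Subgroup.normalizer (X : Set S)) :
    ∃ T : Subgroup S, IsMulCommutative ↥T ∧ Nat.card X ≤ Nat.card T ∧ X ⊓ B ≤ T ⊓ B ∧
      (∀ a ∈ X, a⁻¹ * (g * a * g⁻¹) ∈ T) ∧
      (∀ L : Subgroup S, X ≤ L → (∀ a ∈ X, g * a * g⁻¹ ∈ L) → T ≤ L) := by
  obtain ⟨M, hM⟩ : ∃ M : Subgroup S,
      M = Subgroup.closure {m | ∃ a ∈ X, m = a⁻¹ * (g * a * g⁻¹)} ⊔ (X ⊓ B) := ⟨_, rfl⟩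
  obtain ⟨C, hC⟩ : ∃ C : Subgroup S, C = X ⊓ Subgroup.centralizer (M : Set S) := ⟨_, rfl⟩
  have hcM : ∀ a ∈ X, a⁻¹ * (g * a * g⁻¹) ∈ M := by
    intro a ha
    rw [hM]
    exact (le_sup_left : Subgroup.closure _ ≤ _) (Subgroup.subset_closure ⟨a, ha, rfl⟩)
  have hDM : X ⊓ B ≤ M := by rw [hM]; exact le_sup_right
  have hMB : M ≤ B := by
    rw [hM]
    refine sup_le ((Subgroup.closure_le _).2 ?_) inf_le_right
    rintro m ⟨a, ha, rfl⟩
    exact hgB a ha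
  have hCX : C ≤ X := by rw [hC]; exact inf_le_left
  have hMC : ∀ x ∈ M, ∀ y ∈ C, x * y = y * x := by
    intro x hx y hy
    rw [hC] at hy
    exact Subgroup.mem_centralizer_iff.1 (Subgroup.mem_inf.1 hy).2 x hx
  have hTc : IsMulCommutative ↥(M ⊔ C) :=
    comm_sup (fun x hx y hy => hBc x (hMB hx) y (hMB hy))
      (fun x hx y hy => hXc x (hCX hx) y (hCX hy)) hMC
  have h1 : Nat.card M * Nat.card C ≤ Nat.card ↥(M ⊔ C) * Nat.card ↥(X ⊓ B) := by
    refine (Helper15.card_mul_card_le M C).trans (Nat.mul_le_mul_left _ ?_)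
    exact Subgroup.card_le_of_le (fun m hm =>
      Subgroup.mem_inf.2 ⟨hCX (Subgroup.mem_inf.1 hm).2, hMB (Subgroup.mem_inf.1 hm).1⟩)
  have h2 : Nat.card X * Nat.card ↥(X ⊓ B) ≤ Nat.card C * Nat.card M := by
    have h3 := card_le_mul_of_fiber (α := ↥X × ↥(X ⊓ B)) (β := ↥M) C
      (fun q => (⟨(q.1 : S)⁻¹ * (g * (q.1 : S) * g⁻¹) * (q.2 : S),
        M.mul_mem (hcM _ q.1.2) (hDM q.2.2)⟩ : ↥M))
      (fun q₀ q => (q₀.1 : S)⁻¹ * (q.1 : S)) ?_ ?_
    · rwa [Nat.card_prod] at h3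
    · rintro ⟨⟨a₀, ha₀⟩, ⟨d₀, hd₀⟩⟩ ⟨⟨a, ha⟩, ⟨d, hd⟩⟩ hf
      have hfe : a⁻¹ * (g * a * g⁻¹) * d = a₀⁻¹ * (g * a₀ * g⁻¹) * d₀ :=
        congrArg Subtype.val hf
      show a₀⁻¹ * a ∈ C
      have hbX : a₀⁻¹ * a ∈ X := X.mul_mem (X.inv_mem ha₀) ha
      have hc₀N := hgN a₀ ha₀
      have e1 : g * (a₀⁻¹ * a) * g⁻¹ =
          ((a₀⁻¹ * (g * a₀ * g⁻¹))⁻¹ * (a₀⁻¹ * a) * (a₀⁻¹ * (g * a₀ * g⁻¹))) * (d₀ * d⁻¹) := by
        calc g * (a₀⁻¹ * a) * g⁻¹
            = (a₀⁻¹ * (g * a₀ * g⁻¹))⁻¹ * (a₀⁻¹ * a) * (a⁻¹ * (g * a * g⁻¹) * d) * d⁻¹ := by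
              group
          _ = (a₀⁻¹ * (g * a₀ * g⁻¹))⁻¹ * (a₀⁻¹ * a) * (a₀⁻¹ * (g * a₀ * g⁻¹) * d₀) * d⁻¹ := by
              rw [hfe]
          _ = _ := by group
      have hbbX : g * (a₀⁻¹ * a) * g⁻¹ ∈ X := by
        rw [e1]
        exact X.mul_mem ((Subgroup.mem_normalizer_iff''.1 hc₀N _).1 hbX)
          (X.mul_mem (Subgroup.mem_inf.1 hd₀).1 (X.inv_mem (Subgroup.mem_inf.1 hd).1))
      obtain ⟨b, hb⟩ : ∃ b, b = a₀⁻¹ * a := ⟨_, rfl⟩
      rw [← hb] at hbX hbbX ⊢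
      have hcbX : b⁻¹ * (g * b * g⁻¹) ∈ X := X.mul_mem (X.inv_mem hbX) hbbX
      have hcbB : b⁻¹ * (g * b * g⁻¹) ∈ B := hgB b hbX
      have hcomm : ∀ a₁ ∈ X, Commute b (a₁⁻¹ * (g * a₁ * g⁻¹)) := by
        intro a₁ ha₁
        have k1 : Commute b a₁ := hXc b hbX a₁ ha₁
        have k2 : Commute (g * b * g⁻¹) (g * a₁ * g⁻¹) := by
          show g * b * g⁻¹ * (g * a₁ * g⁻¹) = g * a₁ * g⁻¹ * (g * b * g⁻¹)
          calc g * b * g⁻¹ * (g * a₁ * g⁻¹) = g * (b * a₁) * g⁻¹ := by group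
            _ = g * (a₁ * b) * g⁻¹ := by rw [k1.eq]
            _ = g * a₁ * g⁻¹ * (g * b * g⁻¹) := by group
        have k3 : Commute (b⁻¹ * (g * b * g⁻¹)) (g * a₁ * g⁻¹) := by
          have k4 : Commute (b⁻¹ * (g * b * g⁻¹)) a₁ := hXc _ hcbX a₁ ha₁
          have k5 : Commute (b⁻¹ * (g * b * g⁻¹)) (a₁⁻¹ * (g * a₁ * g⁻¹)) :=
            hBc _ hcbB _ (hgB a₁ ha₁)
          have k6 := k4.mul_right k5
          rwa [mul_inv_cancel_left] at k6
        have k7 : Commute b (g * a₁ * g⁻¹) := by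
          have k8 := k2.mul_left k3.inv_left
          have e2 : g * b * g⁻¹ * (b⁻¹ * (g * b * g⁻¹))⁻¹ = b := by group
          rwa [e2] at k8
        exact k1.inv_right.mul_right k7
      rw [hC]
      refine Subgroup.mem_inf.2 ⟨hbX, ?_⟩
      have hle : M ≤ Subgroup.centralizer ({b} : Set S) := by
        rw [hM]
        refine sup_le ((Subgroup.closure_le _).2 ?_) ?_
        · rintro m ⟨a₁, ha₁, rfl⟩
          exact (mem_cent_iff b _).2 (hcomm a₁ ha₁).eq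
        · intro d₁ hd₁
          exact (mem_cent_iff b d₁).2 (hXc b hbX d₁ (Subgroup.mem_inf.1 hd₁).1)
      rw [Subgroup.mem_centralizer_iff]
      intro m hm
      exact ((mem_cent_iff b m).1 (hle hm)).symm
    · rintro ⟨⟨a₀, ha₀⟩, ⟨d₀, hd₀⟩⟩ ⟨⟨a, ha⟩, ⟨d, hd⟩⟩ ⟨⟨a', ha'⟩, ⟨d', hd'⟩⟩ hf hf' he
      have hfe : a⁻¹ * (g * a * g⁻¹) * d = a₀⁻¹ * (g * a₀ * g⁻¹) * d₀ :=
        congrArg Subtype.val hf
      have hfe' : a'⁻¹ * (g * a' * g⁻¹) * d' = a₀⁻¹ * (g * a₀ * g⁻¹) * d₀ :=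
        congrArg Subtype.val hf'
      have he' : a₀⁻¹ * a = a₀⁻¹ * a' := he
      have haa : a = a' := mul_left_cancel he'
      subst haa
      have hdd : d = d' := mul_left_cancel (hfe.trans hfe'.symm)
      subst hdd
      rfl
  have hDpos : 0 < Nat.card ↥(X ⊓ B) := Nat.card_pos
  have h4 : Nat.card X * Nat.card ↥(X ⊓ B) ≤ Nat.card ↥(M ⊔ C) * Nat.card ↥(X ⊓ B) := by
    calc Nat.card X * Nat.card ↥(X ⊓ B) ≤ Nat.card C * Nat.card M := h2
      _ = Nat.card M * Nat.card C := mul_comm _ _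
      _ ≤ _ := h1
  refine ⟨M ⊔ C, hTc, Nat.le_of_mul_le_mul_right h4 hDpos, ?_, ?_, ?_⟩
  · exact le_inf (hDM.trans le_sup_left) inf_le_right
  · intro a ha
    exact (le_sup_left : M ≤ M ⊔ C) (hcM a ha)
  · intro L hXL hgL
    refine sup_le ?_ (hCX.trans hXL)
    rw [hM]
    refine sup_le ((Subgroup.closure_le _).2 ?_) (inf_le_left.trans hXL)
    rintro m ⟨a, ha, rfl⟩
    exact L.mul_mem (L.inv_mem (hXL ha)) (hgL a ha)


/-- A weak replacement Theorem for metabelian p-groups: let S be a finite p-group whose derived subgroup is abelian and A an abelian subgroup of S of largest possible order. Then the normal closure of A in S contains an abelian subgroup B of the same order as A that is normal in S. -/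
theorem result {S : Type*} [Group S] [Finite S] {p : ℕ} [Fact p.Prime]
    (hS : IsPGroup p S) (hmeta : IsMulCommutative ↥(commutator S))
    (A : Subgroup S) (hA : A ∈ Cfsg.maxAbelianSubgroups S) :
    ∃ B ∈ Cfsg.maxAbelianSubgroups S, B.Normal ∧ B ≤ Subgroup.normalClosure (A : Set S) := by

  classical
  obtain ⟨B, hB⟩ : ∃ B : Subgroup S, B = commutator S := ⟨_, rfl⟩
  have hBc : ∀ b ∈ B, ∀ b' ∈ B, b * b' = b' * b := by
    rw [hB]; exact comm_of hmeta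
  have hgB : ∀ (g a : S), a⁻¹ * (g * a * g⁻¹) ∈ B := by
    intro g a
    have h1 : ⁅a⁻¹, g⁆ ∈ commutator S := by
      rw [commutator_def]
      exact Subgroup.commutator_mem_commutator (Subgroup.mem_top _) (Subgroup.mem_top _)
    rw [commutatorElement_def, inv_inv] at h1
    rw [hB]
    have e : a⁻¹ * (g * a * g⁻¹) = a⁻¹ * g * a * g⁻¹ := by group
    rw [e]; exact h1
  have hXfam : ∃ X : Subgroup S,
      (X ∈ Cfsg.maxAbelianSubgroups S ∧ X ≤ Subgroup.normalClosure (A : Set S)) ∧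
      ∀ Y : Subgroup S,
        (Y ∈ Cfsg.maxAbelianSubgroups S ∧ Y ≤ Subgroup.normalClosure (A : Set S)) →
        Nat.card ↥(Y ⊓ B) ≤ Nat.card ↥(X ⊓ B) := by
    have hfin : Set.Finite {X : Subgroup S | X ∈ Cfsg.maxAbelianSubgroups S ∧
        X ≤ Subgroup.normalClosure (A : Set S)} := Set.toFinite _
    obtain ⟨X, hX, hmax⟩ := Set.exists_max_image _ (fun X : Subgroup S => Nat.card ↥(X ⊓ B))
      hfin ⟨A, hA, Subgroup.le_normalClosure⟩
    exact ⟨X, hX, fun Y hY => hmax Y hY⟩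
  obtain ⟨X, ⟨hXmax, hXL⟩, hmaxB⟩ := hXfam
  obtain ⟨hXab, hXbig⟩ := hXmax
  have hXc : ∀ a ∈ X, ∀ b ∈ X, a * b = b * a := comm_of hXab
  have key : ∀ g : S, (∀ a ∈ X, a⁻¹ * (g * a * g⁻¹) ∈ Subgroup.normalizer (X : Set S)) →
      ∀ a ∈ X, g * a * g⁻¹ ∈ X := by
    intro g hgN a ha
    obtain ⟨T, hTc, hcard, hDT, hcT, hTL⟩ := repl B X g hBc hXc (fun a _ => hgB g a) hgN
    have hTmax : T ∈ Cfsg.maxAbelianSubgroups S :=
      ⟨hTc, fun Y hY => (hXbig Y hY).trans hcard⟩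
    have hTL' : T ≤ Subgroup.normalClosure (A : Set S) :=
      hTL _ hXL (fun a ha => Subgroup.normalClosure_normal.conj_mem a (hXL ha) g)
    have hle := hmaxB T ⟨hTmax, hTL'⟩
    have heq : X ⊓ B = T ⊓ B := Subgroup.eq_of_le_of_card_ge hDT hle
    have hc : a⁻¹ * (g * a * g⁻¹) ∈ X ⊓ B := by
      rw [heq]; exact Subgroup.mem_inf.2 ⟨hcT a ha, hgB g a⟩
    have e : g * a * g⁻¹ = a * (a⁻¹ * (g * a * g⁻¹)) := by group
    rw [e]
    exact X.mul_mem ha (Subgroup.mem_inf.1 hc).1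
  have hnil : Group.IsNilpotent S := hS.isNilpotent
  obtain ⟨n, hn⟩ := Subgroup.nilpotent_iff_lowerCentralSeries.1 hnil
  have hBN : B ≤ Subgroup.normalizer (X : Set S) := by
    by_contra hcon
    have hk : ∀ k : ℕ, ∃ x ∈ B, x ∈ (⊤ : Subgroup S).lowerCentralSeries k ∧
        x ∉ Subgroup.normalizer (X : Set S) := by
      intro k
      induction k with
      | zero =>
        obtain ⟨x, hx, hxN⟩ := SetLike.not_le_iff_exists.1 hcon
        exact ⟨x, hx, Subgroup.mem_top x, hxN⟩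
      | succ k ih =>
        obtain ⟨x, hxB, hxk, hxN⟩ := ih
        by_contra hno
        apply hxN
        apply Helper5.mem_normalizer_of_conj_mem X x
        apply key x
        intro a ha
        by_contra hca
        apply hno
        refine ⟨a⁻¹ * (x * a * x⁻¹), hgB x a, ?_, hca⟩
        rw [Subgroup.lowerCentralSeries_succ]
        have h1 : ⁅x, a⁻¹⁆ ∈ ⁅(⊤ : Subgroup S).lowerCentralSeries k, (⊤ : Subgroup S)⁆ :=
          Subgroup.commutator_mem_commutator hxk (Subgroup.mem_top _)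
        have e : a⁻¹ * (x * a * x⁻¹) = (⁅x, a⁻¹⁆)⁻¹ := by
          rw [commutatorElement_def]; group
        rw [e]
        exact Subgroup.inv_mem _ h1
    obtain ⟨x, -, hxn, hxN⟩ := hk n
    rw [hn, Subgroup.mem_bot] at hxn
    apply hxN
    rw [hxn]
    exact Subgroup.one_mem _
  have hXn : X.Normal := by
    constructor
    intro a ha g
    exact key g (fun a' _ => hBN (hgB g a')) a ha
  exact ⟨X, ⟨hXab, hXbig⟩, hXn, hXL⟩

end Cfsg.Agent.S3063
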