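import Cfsg.Statements.S3064
import Mathlib
import Cfsg.Agent.Lead.FrobConj
import Cfsg.Agent.Helper5.Grp

set_option autoImplicit false
open Cfsg

namespace Cfsg.Agent.S3064

open scoped Pointwise

universe u

theorem pg_zpowers {G : Type*} [Group G] {p : ℕ} [Fact p.Prime] (a : G) (e : ℕ)
    (h : a ^ (p ^ e) = 1) : IsPGroup p (Subgroup.zpowers a) := by
  obtain ⟨k, -, hk⟩ := (Nat.dvd_prime_pow Fact.out).mp (orderOf_dvd_of_pow_eq_one h)
  exact IsPGroup.of_card (n := k) (by rw [Nat.card_zpowers, hk])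

theorem mem_cent_iff {G : Type*} [Group G] (z c : G) :
    c ∈ Subgroup.centralizer ({z} : Set G) ↔ z * c = c * z := by
  rw [Subgroup.mem_centralizer_iff]
  constructor
  · intro h; exact h z (Set.mem_singleton z)
  · intro h y hy
    rw [Set.mem_singleton_iff] at hy
    rw [hy]; exact h

theorem mem_conj_smul {G : Type*} [Group G] (g y : G) (H : Subgroup G) :
    y ∈ MulAut.conj g • H ↔ g⁻¹ * y * g ∈ H := by
  rw [Subgroup.mem_pointwise_smul_iff_inv_smul_mem]
  simp [MulAut.smul_def]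

theorem conj_pow_inv {G : Type*} [Group G] (g x : G) (n : ℕ) :
    (g⁻¹ * x * g) ^ n = g⁻¹ * x ^ n * g := by
  have h := conj_pow (a := g⁻¹) (b := x) (i := n)
  rwa [inv_inv] at h

theorem eq_one_of_pow_of_coprime {G : Type*} [Group G] {p : ℕ} {y : G} {j m : ℕ}
    (h1 : y ^ p ^ j = 1) (h2 : y ^ m = 1) (hc : Nat.Coprime m p) : y = 1 := by
  have d1 : orderOf y ∣ p ^ j := orderOf_dvd_of_pow_eq_one h1
  have d2 : orderOf y ∣ m := orderOf_dvd_of_pow_eq_one h2
  have hcop : Nat.Coprime m (p ^ j) := Nat.Coprime.pow_right j hc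
  have h3 : orderOf y ∣ 1 := by
    have h4 := Nat.dvd_gcd d2 d1
    rwa [Nat.Coprime.gcd_eq_one hcop] at h4
  exact orderOf_eq_one_iff.1 (Nat.dvd_one.1 h3)

theorem sub_step {G : Type u} [Group G] [Finite G] {p : ℕ} [Fact p.Prime]
    (IH : ∀ (H : Type u) [Group H] [Finite H], Nat.card H < Nat.card G →
      ∀ (T : Sylow p H) (y : H), y ∈ T →
      (∀ g : H, g⁻¹ * y * g ∈ T → g⁻¹ * y * g = y) →
      (∀ L : Subgroup H, (Nat.card L).Coprime p → (∀ h ∈ L, y * h * y⁻¹ ∈ L) →
        ∀ h ∈ L, y * h = h * y) → ∀ g : H, y * g = g * y)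
    (S : Sylow p G) (x : G) (hx : x ∈ S)
    (hU : ∀ g : G, g⁻¹ * x * g ∈ S → g⁻¹ * x * g = x)
    (hb : ∀ H : Subgroup G, (Nat.card H).Coprime p → (∀ h ∈ H, x * h * x⁻¹ ∈ H) →
      ∀ h ∈ H, x * h = h * x)
    (K : Subgroup G) (hxK : x ∈ K) (hK : K ≠ ⊤) : ∀ k ∈ K, x * k = k * x := by
  have hlt : Nat.card K < Nat.card G :=
    lt_of_le_of_ne (Subgroup.card_le_card_group K)
      (fun h => hK (Subgroup.eq_top_of_card_eq K h))
  obtain ⟨j, hj⟩ := S.isPGroup' ⟨x, hx⟩
  have hxj : x ^ p ^ j = 1 := by simpa using congrArg Subtype.val hj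
  have hpg : IsPGroup p (Subgroup.zpowers (⟨x, hxK⟩ : K)) :=
    pg_zpowers _ j (Subtype.ext (by simpa using hxj))
  obtain ⟨R, hR⟩ := hpg.exists_le_sylow
  obtain ⟨t, ht⟩ := Helper5.exists_conj_mem_sylow' S ((R : Subgroup K).map K.subtype)
    (R.isPGroup'.map _)
  have hxR : (⟨x, hxK⟩ : K) ∈ (R : Subgroup K) := hR (Subgroup.mem_zpowers _)
  have htx : t * x * t⁻¹ = x := by
    have h1 : t * x * t⁻¹ ∈ (S : Subgroup G) :=
      ht x (Subgroup.mem_map.2 ⟨⟨x, hxK⟩, hxR, rfl⟩)
    have h2 := hU t⁻¹ (by rw [inv_inv]; exact h1)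
    rwa [inv_inv] at h2
  have key := IH K hlt R ⟨x, hxK⟩ hxR ?_ ?_
  · intro k hk
    exact congrArg Subtype.val (key ⟨k, hk⟩)
  · intro g hg
    have h1 : t * ((g : G)⁻¹ * x * (g : G)) * t⁻¹ ∈ (S : Subgroup G) :=
      ht _ (Subgroup.mem_map.2 ⟨_, hg, rfl⟩)
    have e1 : t * ((g : G)⁻¹ * x * (g : G)) * t⁻¹ =
        ((g : G) * t⁻¹)⁻¹ * x * ((g : G) * t⁻¹) := by group
    have h1' : ((g : G) * t⁻¹)⁻¹ * x * ((g : G) * t⁻¹) ∈ (S : Subgroup G) := by
      rw [← e1]; exact h1
    have h2 := hU ((g : G) * t⁻¹) h1'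
    apply Subtype.ext
    show (g : G)⁻¹ * x * (g : G) = x
    have h3 : t * ((g : G)⁻¹ * x * (g : G)) * t⁻¹ = t * x * t⁻¹ := by rw [e1, h2, htx]
    exact mul_left_cancel (mul_right_cancel h3)
  · intro L hL hinv h hh
    have h1 := hb (L.map K.subtype)
      (by rw [Subgroup.card_map_of_injective K.subtype_injective]; exact hL) ?_ (h : G)
      (Subgroup.mem_map.2 ⟨h, hh, rfl⟩)
    · exact Subtype.ext h1
    · rintro _ ⟨h', hh', rfl⟩
      exact Subgroup.mem_map.2 ⟨_, hinv h' hh', rfl⟩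

theorem main (p : ℕ) [Fact p.Prime] : ∀ (n : ℕ) (G : Type u) [Group G] [Finite G],
    Nat.card G = n → ∀ (S : Sylow p G) (x : G), x ∈ S →
    (∀ g : G, g⁻¹ * x * g ∈ S → g⁻¹ * x * g = x) →
    (∀ H : Subgroup G, (Nat.card H).Coprime p → (∀ h ∈ H, x * h * x⁻¹ ∈ H) →
      ∀ h ∈ H, x * h = h * x) → ∀ g : G, x * g = g * x := by
  intro n
  induction n using Nat.strong_induction_on with
  | _ n ih =>
    intro G _ _ hn S x hx hU hb
    by_contra hnc
    push Not at hnc
    obtain ⟨g₀, hg₀⟩ := hnc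
    have IH : ∀ (H : Type u) [Group H] [Finite H], Nat.card H < Nat.card G →
        ∀ (T : Sylow p H) (y : H), y ∈ T →
        (∀ g : H, g⁻¹ * y * g ∈ T → g⁻¹ * y * g = y) →
        (∀ L : Subgroup H, (Nat.card L).Coprime p → (∀ h ∈ L, y * h * y⁻¹ ∈ L) →
          ∀ h ∈ L, y * h = h * y) → ∀ g : H, y * g = g * y := by
      intro H _ _ hlt T y hy h1 h2
      exact ih (Nat.card H) (by rw [← hn]; exact hlt) H rfl T y hy h1 h2
    have hsub := sub_step IH S x hx hU hb
    have hSC : ∀ s ∈ (S : Subgroup G), x * s = s * x := by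
      intro s hs
      have h1 := hU s (Subgroup.mul_mem _ (Subgroup.mul_mem _ (Subgroup.inv_mem _ hs) hx) hs)
      calc x * s = s * (s⁻¹ * x * s) := by group
        _ = s * x := by rw [h1]
    obtain ⟨j, hj⟩ := S.isPGroup' ⟨x, hx⟩
    have hxj : x ^ p ^ j = 1 := by simpa using congrArg Subtype.val hj
    have hC : ∀ g : G, x * (g⁻¹ * x * g) = (g⁻¹ * x * g) * x → x * g = g * x := by
      intro g hg
      have hpg : IsPGroup p (Subgroup.zpowers (g⁻¹ * x * g)) :=
        pg_zpowers _ j (by rw [conj_pow_inv, hxj]; group)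
      obtain ⟨n', hn', hn'S⟩ := Helper5.exists_conj_mem_sylow_rel
        (Subgroup.centralizer ({x} : Set G)) S
        (fun s hs => (mem_cent_iff x s).2 (hSC s hs)) (Subgroup.zpowers (g⁻¹ * x * g)) hpg
        ((Subgroup.zpowers_le).2 ((mem_cent_iff x _).2 hg))
      have h1 := hn'S _ (Subgroup.mem_zpowers _)
      have e1 : n' * (g⁻¹ * x * g) * n'⁻¹ = (g * n'⁻¹)⁻¹ * x * (g * n'⁻¹) := by group
      rw [e1] at h1
      have h2 := hU _ h1
      have hn'x : x * n' = n' * x := (mem_cent_iff x n').1 hn'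
      have h3 : g⁻¹ * x * g = x := by
        calc g⁻¹ * x * g = n'⁻¹ * ((g * n'⁻¹)⁻¹ * x * (g * n'⁻¹)) * n' := by group
          _ = n'⁻¹ * x * n' := by rw [h2]
          _ = n'⁻¹ * (x * n') := by group
          _ = n'⁻¹ * (n' * x) := by rw [hn'x]
          _ = x := by group
      calc x * g = g * (g⁻¹ * x * g) := by group
        _ = g * x := by rw [h3]
    have hD : ∀ g : G, x * g ≠ g * x →
        Subgroup.zpowers x ⊔ Subgroup.zpowers (g⁻¹ * x * g) = ⊤ := by
      intro g hg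
      by_contra hne
      apply hg
      apply hC g
      exact hsub _ (Subgroup.mem_sup_left (Subgroup.mem_zpowers x)) hne (g⁻¹ * x * g)
        (Subgroup.mem_sup_right (Subgroup.mem_zpowers _))
    have hE : ∀ g : G, x * g ≠ g * x → ∀ y : G, x * y = y * x →
        x * (g⁻¹ * y * g) = (g⁻¹ * y * g) * x → y ∈ Subgroup.center G := by
      intro g hg y hy hy2
      have hg' : x * g⁻¹ ≠ g⁻¹ * x := by
        intro e
        apply hg
        calc x * g = g * (g⁻¹ * x) * g := by group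
          _ = g * (x * g⁻¹) * g := by rw [e]
          _ = g * x := by group
      have htop := hD g⁻¹ hg'
      rw [inv_inv] at htop
      have hle : Subgroup.zpowers x ⊔ Subgroup.zpowers (g * x * g⁻¹) ≤
          Subgroup.centralizer ({y} : Set G) := by
        refine sup_le ((Subgroup.zpowers_le).2 ?_) ((Subgroup.zpowers_le).2 ?_)
        · exact (mem_cent_iff y x).2 hy.symm
        · rw [mem_cent_iff]
          calc y * (g * x * g⁻¹) = g * ((g⁻¹ * y * g) * x) * g⁻¹ := by group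
            _ = g * (x * (g⁻¹ * y * g)) * g⁻¹ := by rw [hy2]
            _ = g * x * g⁻¹ * y := by group
      rw [htop] at hle
      rw [Subgroup.mem_center_iff]
      intro z
      exact ((mem_cent_iff y z).1 (hle (Subgroup.mem_top z))).symm
    -- the quotient by the centre
    obtain ⟨Z, hZ⟩ : ∃ Z : Subgroup G, Z = Subgroup.center G := ⟨_, rfl⟩
    haveI hZn : Z.Normal := by rw [hZ]; infer_instance
    obtain ⟨C, hCdef⟩ : ∃ C : Subgroup G, C = Subgroup.centralizer ({x} : Set G) := ⟨_, rfl⟩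
    have hCmem : ∀ y, y ∈ C ↔ x * y = y * x := fun y => by
      rw [hCdef]; exact mem_cent_iff x y
    have hZC : Z ≤ C := by
      intro z hz
      rw [hZ, Subgroup.mem_center_iff] at hz
      exact (hCmem z).2 (hz x)
    have hxZ : x ∉ Z := by
      intro hxz
      rw [hZ, Subgroup.mem_center_iff] at hxz
      exact hg₀ (hxz g₀).symm
    have hmkC : ∀ g : G, QuotientGroup.mk' Z g ∈ C.map (QuotientGroup.mk' Z) → g ∈ C := by
      intro g hg
      obtain ⟨c, hc, hcg⟩ := Subgroup.mem_map.1 hg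
      have h1 : c⁻¹ * g ∈ Z := QuotientGroup.eq.1 hcg
      have e : g = c * (c⁻¹ * g) := by group
      rw [e]; exact C.mul_mem hc (hZC h1)
    have hFrob : Cfsg.IsFrobeniusComplement (C.map (QuotientGroup.mk' Z)) := by
      refine ⟨?_, ?_, ?_⟩
      · intro hbot
        apply hxZ
        have h1 : QuotientGroup.mk' Z x ∈ C.map (QuotientGroup.mk' Z) :=
          Subgroup.mem_map_of_mem _ ((hCmem x).2 rfl)
        rw [hbot, Subgroup.mem_bot] at h1
        exact (QuotientGroup.eq_one_iff x).1 h1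
      · intro htop
        apply hg₀
        apply (hCmem g₀).1
        apply hmkC
        rw [htop]; exact Subgroup.mem_top _
      · intro gb hgb
        obtain ⟨g, rfl⟩ := QuotientGroup.mk'_surjective Z gb
        have hgC : x * g ≠ g * x := fun e => hgb (Subgroup.mem_map_of_mem _ ((hCmem g).2 e))
        rw [eq_bot_iff]
        intro yb hyb
        obtain ⟨hy1, hy2⟩ := Subgroup.mem_inf.1 hyb
        obtain ⟨c₁, hc₁, rfl⟩ := Subgroup.mem_map.1 hy1
        rw [mem_conj_smul] at hy2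
        have e : QuotientGroup.mk' Z (g⁻¹ * c₁ * g) =
            (QuotientGroup.mk' Z g)⁻¹ * QuotientGroup.mk' Z c₁ * QuotientGroup.mk' Z g := by
          rw [map_mul, map_mul, map_inv]
        have h1 : g⁻¹ * c₁ * g ∈ C := by
          apply hmkC
          rw [e]; exact hy2
        have h2 : c₁ ∈ Z := by
          rw [hZ]
          exact hE g hgC c₁ ((hCmem c₁).1 hc₁) ((hCmem _).1 h1)
        rw [Subgroup.mem_bot]
        exact (QuotientGroup.eq_one_iff c₁).2 h2
    obtain ⟨Nb, d⟩ := Lead.exists_frobData _ hFrob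
    haveI hNbn : Nb.Normal := d.2.2.1
    have hcomp : Subgroup.IsComplement' Nb (C.map (QuotientGroup.mk' Z)) := d.2.2.2
    have hcop : (Nat.card ↥(C.map (QuotientGroup.mk' Z))).Coprime (Nat.card ↥Nb) :=
      Lead.FrobData.coprime d
    have hpN : (Nat.card ↥Nb).Coprime p := by
      have hxb1 : QuotientGroup.mk' Z x ≠ 1 := fun e => hxZ ((QuotientGroup.eq_one_iff x).1 e)
      have hxbj : (QuotientGroup.mk' Z x) ^ p ^ j = 1 := by
        rw [← map_pow (QuotientGroup.mk' Z) x (p ^ j), hxj, map_one]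
      have hdvd : p ∣ orderOf (QuotientGroup.mk' Z x) := by
        obtain ⟨i, -, hi⟩ := (Nat.dvd_prime_pow Fact.out).1 (orderOf_dvd_of_pow_eq_one hxbj)
        rw [hi]
        cases i with
        | zero => exact absurd (orderOf_eq_one_iff.1 (by rw [hi, pow_zero])) hxb1
        | succ i => exact dvd_pow_self p (Nat.succ_ne_zero i)
      have hdvd2 : p ∣ Nat.card ↥(C.map (QuotientGroup.mk' Z)) :=
        hdvd.trans (Subgroup.orderOf_dvd_natCard _
          (Subgroup.mem_map_of_mem _ ((hCmem x).2 rfl)))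
      exact (Nat.Coprime.coprime_dvd_left hdvd2 hcop).symm
    obtain ⟨K, hKdef⟩ : ∃ K : Subgroup G, K = Nb.comap (QuotientGroup.mk' Z) := ⟨_, rfl⟩
    have hKmem : ∀ g, g ∈ K ↔ QuotientGroup.mk' Z g ∈ Nb := fun g => by
      rw [hKdef, Subgroup.mem_comap]
    have hKn : ∀ k ∈ K, ∀ g : G, g * k * g⁻¹ ∈ K := by
      intro k hk g
      rw [hKmem] at hk ⊢
      rw [map_mul, map_mul, map_inv]
      exact hNbn.conj_mem _ hk _
    have hKC : ∀ k ∈ K, k ∈ C → k ∈ Z := by
      intro k hk hkC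
      rw [hKmem] at hk
      have h1 : QuotientGroup.mk' Z k ∈ Nb ⊓ C.map (QuotientGroup.mk' Z) :=
        Subgroup.mem_inf.2 ⟨hk, Subgroup.mem_map_of_mem _ hkC⟩
      rw [hcomp.disjoint.eq_bot, Subgroup.mem_bot] at h1
      exact (QuotientGroup.eq_one_iff k).1 h1
    have hGKC : ∀ g : G, ∃ k ∈ K, ∃ c ∈ C, g = k * c := by
      intro g
      obtain ⟨⟨⟨nb, hnb⟩, ⟨cb, hcb⟩⟩, he⟩ := hcomp.2 (QuotientGroup.mk' Z g)
      obtain ⟨c, hc, rfl⟩ := Subgroup.mem_map.1 hcb
      have he' : nb * QuotientGroup.mk' Z c = QuotientGroup.mk' Z g := he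
      refine ⟨g * c⁻¹, ?_, c, hc, by group⟩
      rw [hKmem, map_mul, map_inv, ← he', mul_inv_cancel_right]
      exact hnb
    -- a Sylow p-subgroup of K is central
    obtain ⟨Q⟩ : Nonempty (Sylow p ↥K) := inferInstance
    have hQZ : ∀ q : ↥K, q ∈ (Q : Subgroup ↥K) → (q : G) ∈ Z := by
      intro q hq
      obtain ⟨i, hi⟩ := Q.isPGroup' ⟨q, hq⟩
      have hqi' : q ^ p ^ i = 1 := by simpa using congrArg Subtype.val hi
      have hqi : (q : G) ^ p ^ i = 1 := by simpa using congrArg Subtype.val hqi'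
      have hqN : QuotientGroup.mk' Z (q : G) ∈ Nb := (hKmem _).1 q.2
      have h1 : (QuotientGroup.mk' Z (q : G)) ^ p ^ i = 1 := by
        rw [← map_pow (QuotientGroup.mk' Z) (q : G) (p ^ i), hqi, map_one]
      have h2 : (QuotientGroup.mk' Z (q : G)) ^ Nat.card ↥Nb = 1 := by
        have h3 := pow_card_eq_one' (G := ↥Nb) (x := ⟨_, hqN⟩)
        exact congrArg Subtype.val h3
      exact (QuotientGroup.eq_one_iff (q : G)).1 (eq_one_of_pow_of_coprime h1 h2 hpN)
    haveI hQn : (Q : Subgroup ↥K).Normal := by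
      constructor
      intro q hq g
      have hqZ := hQZ q hq
      rw [hZ, Subgroup.mem_center_iff] at hqZ
      have e : g * q * g⁻¹ = q := by
        apply Subtype.ext
        show (g : G) * (q : G) * (g : G)⁻¹ = (q : G)
        rw [hqZ (g : G), mul_inv_cancel_right]
      rw [e]; exact hq
    obtain ⟨H₀, hH₀⟩ := Subgroup.exists_right_complement'_of_coprime
      (N := (Q : Subgroup ↥K)) (Sylow.card_coprime_index Q)
    have hH₀card : (Nat.card ↥H₀).Coprime p := by
      have h1 : (Q : Subgroup ↥K).index = Nat.card ↥H₀ := hH₀.symm.index_eq_card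
      rw [← h1]
      exact ((Nat.Prime.coprime_iff_not_dvd Fact.out).2 Q.not_dvd_index).symm
    have hK₀inv : ∀ h ∈ H₀.map K.subtype, x * h * x⁻¹ ∈ H₀.map K.subtype := by
      rintro _ ⟨h, hh, rfl⟩
      have hk : x * (h : G) * x⁻¹ ∈ K := hKn _ h.2 x
      obtain ⟨⟨⟨q, hq⟩, ⟨h', hh'⟩⟩, he⟩ := hH₀.2 ⟨_, hk⟩
      have he' : q * h' = ⟨x * (h : G) * x⁻¹, hk⟩ := he
      have hqZ := hQZ q hq
      have hm : h ^ Nat.card ↥H₀ = 1 := by
        have h3 := pow_card_eq_one' (G := ↥H₀) (x := ⟨h, hh⟩)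
        exact congrArg Subtype.val h3
      have hm' : h' ^ Nat.card ↥H₀ = 1 := by
        have h3 := pow_card_eq_one' (G := ↥H₀) (x := ⟨h', hh'⟩)
        exact congrArg Subtype.val h3
      have hcomm : Commute q h' := by
        rw [hZ, Subgroup.mem_center_iff] at hqZ
        exact Subtype.ext (hqZ (h' : G)).symm
      have hqm : q ^ Nat.card ↥H₀ = 1 := by
        have h1 : (q * h') ^ Nat.card ↥H₀ = 1 := by
          rw [he']
          apply Subtype.ext
          show (x * (h : G) * x⁻¹) ^ Nat.card ↥H₀ = 1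
          have h4 : (h : G) ^ Nat.card ↥H₀ = 1 := congrArg Subtype.val hm
          rw [conj_pow, h4]; group
        rw [hcomm.mul_pow, hm', mul_one] at h1
        exact h1
      obtain ⟨i, hi⟩ := Q.isPGroup' ⟨q, hq⟩
      have hqi : q ^ p ^ i = 1 := by simpa using congrArg Subtype.val hi
      have hq1 : q = 1 := eq_one_of_pow_of_coprime hqi hqm hH₀card
      rw [hq1, one_mul] at he'
      refine Subgroup.mem_map.2 ⟨h', hh', ?_⟩
      rw [he']; rfl
    have hK₀C := hb (H₀.map K.subtype)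
      (by rw [Subgroup.card_map_of_injective K.subtype_injective]; exact hH₀card) hK₀inv
    have hKleC : ∀ k ∈ K, k ∈ C := by
      intro k hk
      obtain ⟨⟨⟨q, hq⟩, ⟨h', hh'⟩⟩, he⟩ := hH₀.2 ⟨k, hk⟩
      have he' : (q : G) * (h' : G) = k := congrArg Subtype.val he
      rw [← he']
      exact C.mul_mem (hZC (hQZ q hq))
        ((hCmem _).2 (hK₀C _ (Subgroup.mem_map.2 ⟨h', hh', rfl⟩)))
    apply hg₀
    obtain ⟨k, hk, c, hc, rfl⟩ := hGKC g₀
    have hkZ : k ∈ Z := hKC k hk (hKleC k hk)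
    exact (hCmem _).1 (C.mul_mem (hZC hkZ) hc)


/-- Let S be a Sylow p-subgroup of the finite group G and x an element of S such that (i) x is the only G-conjugate of x lying in S, and (ii) x centralizes every subgroup of order prime to p that it normalizes. Then x lies in the centre of G. -/
theorem result {G : Type*} [Group G] [Finite G] {p : ℕ} [Fact p.Prime]
    (S : Sylow p G) (x : G) (hx : x ∈ S)
    (hU : ∀ g : G, g⁻¹ * x * g ∈ S → g⁻¹ * x * g = x)
    (hb : ∀ H : Subgroup G, (Nat.card H).Coprime p → (∀ h ∈ H, x * h * x⁻¹ ∈ H) → ∀ h ∈ H, x * h = h * x) :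
    x ∈ Subgroup.center G := by

  rw [Subgroup.mem_center_iff]
  intro g
  exact (main p _ G rfl S x hx hU hb g).symm

end Cfsg.Agent.S3064
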