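import Cfsg.Statements.S3069
import Mathlib
import Cfsg.Agent.S1991

set_option autoImplicit false
open Cfsg

namespace Cfsg.Agent.S3069

/-- Let p ≥ 7 be a prime and S a nontrivial Sylow p-subgroup of the finite group G. If N_G(S)/C_G(S) is a p-group (every element of N_G(S) of order prime to p centralizes S), then O^p(G) < G, i.e. G has a nontrivial p-factor group. -/
theorem result {G : Type*} [Group G] [Finite G] {p : ℕ} [Fact p.Prime]
    (hp : 7 ≤ p) (S : Sylow p G) (hS : (S : Subgroup G) ≠ ⊥)
    (hN : ∀ g ∈ Subgroup.normalizer ((S : Subgroup G) : Set G), (orderOf g).Coprime p →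
      g ∈ Subgroup.centralizer ((S : Subgroup G) : Set G)) :
    Cfsg.pResidual p G ≠ ⊤ := by
  obtain ⟨N, hN1, hN2⟩ := Cfsg.Agent.S1991.result (by omega) S hS hN
  intro htop
  have hle : Cfsg.pResidual p G ≤ N := by
    unfold Cfsg.pResidual
    rw [Subgroup.closure_le]
    intro g hg
    have hg' : (orderOf g).Coprime p := hg
    have h1 : orderOf (QuotientGroup.mk' N g) ∣ orderOf g := orderOf_map_dvd _ g
    have h2 : orderOf (QuotientGroup.mk' N g) ∣ p := by
      have h3 : orderOf (QuotientGroup.mk' N g) ∣ Nat.card (G ⧸ N) := orderOf_dvd_natCard _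
      rw [← Subgroup.index_eq_card, hN2] at h3
      exact h3
    have h4 := Nat.dvd_gcd h1 h2
    rw [Nat.Coprime.gcd_eq_one hg'] at h4
    have h5 : orderOf (QuotientGroup.mk' N g) = 1 := Nat.dvd_one.mp h4
    have h6 : QuotientGroup.mk' N g = 1 := orderOf_eq_one_iff.mp h5
    exact (QuotientGroup.eq_one_iff g).mp h6
  rw [htop] at hle
  have hNtop : N = ⊤ := top_le_iff.mp hle
  rw [hNtop, Subgroup.index_top] at hN2
  exact (Fact.out : p.Prime).one_lt.ne hN2

end Cfsg.Agent.S3069
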