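import Cfsg.Statements.S3073
import Mathlib
import Cfsg.Agent.S1988
import Cfsg.Agent.S1978
import Cfsg.Agent.Helper10.KInf
import Cfsg.Agent.Helper1.Frobenius

set_option autoImplicit false
universe u
open Cfsg

namespace Cfsg.Agent.S3073

/-- For an odd prime p, every finite p-group S has a characteristic subgroup K with C_S(K) ≤ K such that, whenever S is (isomorphic to) a Sylow p-subgroup of a finite group G, G has a normal p-complement if and only if N_G(K)/C_G(K) is a p-group, i.e. every element of N_G(K) of order prime to p centralizes K (K transported into G along the isomorphism). -/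
theorem result (p : ℕ) [Fact p.Prime] (hp : p ≠ 2)
    (S : Type u) [Group S] [Finite S] (hS : IsPGroup p S) :
    ∃ K : Subgroup S, K.Characteristic ∧ Subgroup.centralizer (K : Set S) ≤ K ∧
      ∀ (G : Type u) [Group G] [Finite G] (P : Sylow p G) (e : ↥(P : Subgroup G) ≃* S),
        Cfsg.HasNormalPComplement p G ↔
          ∀ g ∈ Subgroup.normalizer (((K.comap (e : ↥(P : Subgroup G) →* S)).map (P : Subgroup G).subtype : Subgroup G) : Set G),
            (orderOf g).Coprime p →
              g ∈ Subgroup.centralizer (((K.comap (e : ↥(P : Subgroup G) →* S)).map (P : Subgroup G).subtype : Subgroup G) : Set G) := by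
  refine ⟨Cfsg.kInfLower S, ?_, (Cfsg.Agent.S1978.result hS).1, ?_⟩
  · rw [Subgroup.characteristic_iff_map_eq]
    intro ϕ
    exact Cfsg.Agent.Helper10.kInfLower_map_equiv ϕ
  · intro G _ _ P e
    have hK : ((Cfsg.kInfLower S).comap (e : ↥(P : Subgroup G) →* S)).map (P : Subgroup G).subtype
        = Cfsg.inducedFunctor Cfsg.kInfLower (P : Subgroup G) := by
      unfold Cfsg.inducedFunctor
      congr 1
      rw [← Cfsg.Agent.Helper10.kInfLower_map_equiv e]
      exact Subgroup.comap_map_eq_self_of_injective e.injective _
    rw [hK]
    constructor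
    · intro hnpc g hg hgo
      exact Cfsg.Agent.Helper1.local_of_npc hnpc _
        (P.2.to_le (Cfsg.Agent.Helper10.ind_le (fun (Q : Type u) [Group Q] => Cfsg.kInfLower Q) _))
        g hg hgo
    · intro h
      exact Cfsg.Agent.S1988.result hp P (Or.inr h)

end Cfsg.Agent.S3073
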