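import Cfsg.Statements.S3075
import Cfsg.Agent.Helper12.SL2

set_option autoImplicit false
open Cfsg

namespace Cfsg.Agent.S3075

open scoped commutatorElement
open Cfsg.Agent.Helper12

section SL2

variable {F : Type*} [Field F]

/-- `-I`. -/
def negOne : Matrix.SpecialLinearGroup (Fin 2) F := sl2mk (-1) 0 0 (-1) (by ring)

def upper : Matrix.SpecialLinearGroup (Fin 2) F := sl2mk 1 1 0 1 (by ring)

def lower : Matrix.SpecialLinearGroup (Fin 2) F := sl2mk 1 0 1 1 (by ring)

theorem negOne_mul_self : (negOne : Matrix.SpecialLinearGroup (Fin 2) F) * negOne = 1 := by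
  rw [← one_mul (1 : Matrix.SpecialLinearGroup (Fin 2) F), sl2_mul_eq_iff]
  rw [negOne, sl2mk_val, Matrix.SpecialLinearGroup.coe_one, Matrix.mul_fin_two, one_mul,
    Matrix.one_fin_two]
  simp

theorem negOne_comm (g : Matrix.SpecialLinearGroup (Fin 2) F) : g * negOne = negOne * g := by
  rw [sl2_mul_eq_iff]
  obtain ⟨a, b, c, d, hg, -⟩ := sl2_eta g
  rw [hg, negOne, sl2mk_val, Matrix.mul_fin_two, Matrix.mul_fin_two]
  simp

theorem negOne_ne_one [Fintype F] {p : ℕ} [Fact p.Prime] (hF : Fintype.card F = p) (hp : p ≠ 2) :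
    (negOne : Matrix.SpecialLinearGroup (Fin 2) F) ≠ 1 := by
  intro h
  have h1 : ((negOne : Matrix.SpecialLinearGroup (Fin 2) F) : Matrix (Fin 2) (Fin 2) F) 0 0 =
      ((1 : Matrix.SpecialLinearGroup (Fin 2) F) : Matrix (Fin 2) (Fin 2) F) 0 0 := by rw [h]
  have h1a : ((negOne : Matrix.SpecialLinearGroup (Fin 2) F) : Matrix (Fin 2) (Fin 2) F) 0 0 = -1 := by
    rw [negOne, sl2mk_val]; rfl
  have h1b : ((1 : Matrix.SpecialLinearGroup (Fin 2) F) : Matrix (Fin 2) (Fin 2) F) 0 0 = 1 := by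
    rw [Matrix.SpecialLinearGroup.coe_one, Matrix.one_apply_eq]
  rw [h1a, h1b] at h1
  obtain ⟨k, hk⟩ : ∃ k, p = 2 * k + 1 := by
    rcases Nat.Prime.eq_two_or_odd' (Fact.out : p.Prime) with h | h
    · exact absurd h hp
    · exact h
  have h2 : (2 : F) = 0 := by linear_combination (-1 : F) * h1
  have h0 : ((2 * k + 1 : ℕ) : F) = 0 := by
    rw [← hk, ← hF]; exact Nat.cast_card_eq_zero F
  push_cast at h0
  rw [h2, zero_mul, zero_add] at h0
  exact one_ne_zero h0

theorem upper_lower_ne : (upper : Matrix.SpecialLinearGroup (Fin 2) F) * lower ≠ lower * upper := by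
  intro h
  rw [sl2_mul_eq_iff] at h
  rw [upper, lower, sl2mk_val, sl2mk_val, Matrix.mul_fin_two, Matrix.mul_fin_two] at h
  have h1 := congrFun (congrFun h 0) 0
  have h2 : (1 : F) * 1 + 1 * 1 = 1 * 1 + 0 * 0 := h1
  have h3 : (1 : F) = 0 := by linear_combination h2
  exact one_ne_zero h3

end SL2

section Aux

variable {N : Type*} [Group N]

theorem mulAut_comm_of_isCyclic {B : Type*} [Group B] [IsCyclic B] (f g : MulAut B) :
    f * g = g * f := by
  apply (IsCyclic.mulAutMulEquiv B).injective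
  rw [map_mul, map_mul, mul_comm]

theorem comm_centralizes_cyclic (B : Subgroup N) [B.Normal] [IsCyclic B] (n m : N) (b : N)
    (hb : b ∈ B) : ⁅n, m⁆ * b = b * ⁅n, m⁆ := by
  have h1 : MulAut.conjNormal (H := B) ⁅n, m⁆ = 1 := by
    rw [commutatorElement_def, map_mul, map_mul, map_mul, map_inv, map_inv]
    have hc := mulAut_comm_of_isCyclic (MulAut.conjNormal (H := B) n) (MulAut.conjNormal (H := B) m)
    rw [hc]; group
  have h2 : ((MulAut.conjNormal (H := B) ⁅n, m⁆ ⟨b, hb⟩ : B) : N) = b := by rw [h1]; rfl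
  rw [MulAut.conjNormal_apply] at h2
  calc ⁅n, m⁆ * b = (⁅n, m⁆ * b * ⁅n, m⁆⁻¹) * ⁅n, m⁆ := by group
    _ = b * ⁅n, m⁆ := by rw [h2]

/-- The elements of `A` inverted by `t`. -/
def Aminus (A : Subgroup N) (t : N) (hAcomm : ∀ a ∈ A, ∀ b ∈ A, a * b = b * a) : Subgroup N where
  carrier := {a | a ∈ A ∧ t * a * t⁻¹ = a⁻¹}
  one_mem' := ⟨one_mem A, by simp⟩
  mul_mem' := by
    rintro a b ⟨ha, ha'⟩ ⟨hb, hb'⟩
    refine ⟨mul_mem ha hb, ?_⟩
    have : t * (a * b) * t⁻¹ = (t * a * t⁻¹) * (t * b * t⁻¹) := by group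
    rw [this, ha', hb', mul_inv_rev]
    exact hAcomm _ (inv_mem ha) _ (inv_mem hb)
  inv_mem' := by
    rintro a ⟨ha, ha'⟩
    refine ⟨inv_mem ha, ?_⟩
    have : t * a⁻¹ * t⁻¹ = (t * a * t⁻¹)⁻¹ := by group
    rw [this, ha']

theorem mem_Aminus {A : Subgroup N} {t : N} {hAcomm : ∀ a ∈ A, ∀ b ∈ A, a * b = b * a} {a : N} :
    a ∈ Aminus A t hAcomm ↔ a ∈ A ∧ t * a * t⁻¹ = a⁻¹ := Iff.rfl

theorem Aplus_normal (A : Subgroup N) [hA : A.Normal] (t : N)
    (hAcomm : ∀ a ∈ A, ∀ b ∈ A, a * b = b * a) (hcent : ∀ n : N, ∃ c ∈ A, n⁻¹ * t * n = t * c) :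
    (A ⊓ Subgroup.centralizer ({t} : Set N)).Normal := by
  constructor
  intro a ha n
  obtain ⟨ha1, ha2⟩ := Subgroup.mem_inf.mp ha
  rw [Subgroup.mem_centralizer_singleton_iff] at ha2
  obtain ⟨c, hc, hct⟩ := hcent n
  refine Subgroup.mem_inf.mpr ⟨hA.conj_mem a ha1 n, ?_⟩
  rw [Subgroup.mem_centralizer_singleton_iff]
  have e1 : n * a * n⁻¹ * t = n * (a * (n⁻¹ * t * n)) * n⁻¹ := by group
  have e2 : t * (n * a * n⁻¹) = n * ((n⁻¹ * t * n) * a) * n⁻¹ := by group
  rw [e1, e2, hct]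
  have : a * (t * c) = t * c * a := by
    calc a * (t * c) = (a * t) * c := by group
      _ = (t * a) * c := by rw [ha2]
      _ = t * (a * c) := by group
      _ = t * (c * a) := by rw [hAcomm a ha1 c hc]
      _ = t * c * a := by group
  rw [this]

theorem Aminus_normal (A : Subgroup N) [hA : A.Normal] (t : N)
    (hAcomm : ∀ a ∈ A, ∀ b ∈ A, a * b = b * a) (hcent : ∀ n : N, ∃ c ∈ A, n⁻¹ * t * n = t * c) :
    (Aminus A t hAcomm).Normal := by
  constructor
  intro a ha n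
  obtain ⟨ha1, ha2⟩ := mem_Aminus.mp ha
  obtain ⟨c, hc, hct⟩ := hcent n
  refine mem_Aminus.mpr ⟨hA.conj_mem a ha1 n, ?_⟩
  have e1 : t * (n * a * n⁻¹) * t⁻¹ = n * ((n⁻¹ * t * n) * a * (n⁻¹ * t * n)⁻¹) * n⁻¹ := by group
  rw [e1, hct]
  have e2 : t * c * a * (t * c)⁻¹ = t * (c * a * c⁻¹) * t⁻¹ := by group
  have e3 : c * a * c⁻¹ = a := by rw [hAcomm c hc a ha1]; group
  rw [e2, e3, ha2]; group

theorem mem_sup_plus_minus (A : Subgroup N) [hA : A.Normal] (t : N)
    (hAcomm : ∀ a ∈ A, ∀ b ∈ A, a * b = b * a) (ht2 : t * t = 1) {k : ℕ}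
    (hsq : ∀ a ∈ A, (a * a) ^ (k + 1) = a) (a : N) (ha : a ∈ A) :
    a ∈ (A ⊓ Subgroup.centralizer ({t} : Set N)) ⊔ Aminus A t hAcomm := by
  obtain ⟨b, hbdef⟩ : ∃ b, b = t * a * t⁻¹ := ⟨_, rfl⟩
  have hb : b ∈ A := by rw [hbdef]; exact hA.conj_mem a ha t
  have htb : t * b * t⁻¹ = a := by
    rw [hbdef]
    have : t * (t * a * t⁻¹) * t⁻¹ = (t * t) * a * (t * t)⁻¹ := by group
    rw [this, ht2]; group
  have hu : a * b ∈ A ⊓ Subgroup.centralizer ({t} : Set N) := by
    refine Subgroup.mem_inf.mpr ⟨mul_mem ha hb, ?_⟩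
    rw [Subgroup.mem_centralizer_singleton_iff]
    have h1 : t * (a * b) * t⁻¹ = a * b := by
      have : t * (a * b) * t⁻¹ = (t * a * t⁻¹) * (t * b * t⁻¹) := by group
      rw [this, htb, ← hbdef]; exact hAcomm b hb a ha
    calc a * b * t = (t * (a * b) * t⁻¹) * t := by rw [h1]
      _ = t * (a * b) := by group
  have hv : a * b⁻¹ ∈ Aminus A t hAcomm := by
    refine mem_Aminus.mpr ⟨mul_mem ha (inv_mem hb), ?_⟩
    have : t * (a * b⁻¹) * t⁻¹ = (t * a * t⁻¹) * (t * b * t⁻¹)⁻¹ := by group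
    rw [this, htb, ← hbdef, mul_inv_rev, inv_inv]
  have hprod : a * a = (a * b) * (a * b⁻¹) := by
    calc a * a = a * (a * b) * b⁻¹ := by group
      _ = a * (b * a) * b⁻¹ := by rw [hAcomm a ha b hb]
      _ = (a * b) * (a * b⁻¹) := by group
  have h2 : a * a ∈ (A ⊓ Subgroup.centralizer ({t} : Set N)) ⊔ Aminus A t hAcomm := by
    rw [hprod]; exact mul_mem (Subgroup.mem_sup_left hu) (Subgroup.mem_sup_right hv)
  rw [← hsq a ha]; exact pow_mem h2 _

theorem eq_or_cyclic [Finite N] {p : ℕ} [Fact p.Prime] (A B : Subgroup N) (hBA : B ≤ A)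
    (hAcard : Nat.card A = p ^ 2) : B = A ∨ IsCyclic B := by
  have hdvd : Nat.card B ∣ p ^ 2 := hAcard ▸ Subgroup.card_dvd_of_le hBA
  obtain ⟨m, hm, hcard⟩ := (Nat.dvd_prime_pow (Fact.out : p.Prime)).mp hdvd
  interval_cases m
  · right
    have : Subsingleton B := (Nat.card_eq_one_iff_unique.mp (by simpa using hcard)).1
    exact isCyclic_of_subsingleton
  · right; exact isCyclic_of_prime_card (p := p) (by simpa using hcard)
  · left; exact Subgroup.eq_of_le_of_card_ge hBA (by rw [hAcard, hcard])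

theorem split_aux [Finite N] {p : ℕ} [Fact p.Prime] (hp : p ≠ 2) (A : Subgroup N) [hA : A.Normal]
    (hAcomm : ∀ a ∈ A, ∀ b ∈ A, a * b = b * a) (hAcard : Nat.card A = p ^ 2)
    (hApow : ∀ a ∈ A, a ^ p = 1) (hAself : Subgroup.centralizer (A : Set N) = A)
    (t : N) (ht2 : t * t = 1) (htA : t ∉ A) (hcent : ∀ n : N, ∃ c ∈ A, n⁻¹ * t * n = t * c)
    (hnonab : ∃ n m : N, ⁅n, m⁆ ∉ A) : ∃ U : Subgroup N, A ⊓ U = ⊥ ∧ A ⊔ U = ⊤ := by
  obtain ⟨k, hk⟩ : ∃ k, p = 2 * k + 1 := by
    rcases Nat.Prime.eq_two_or_odd' (Fact.out : p.Prime) with h | h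
    · exact absurd h hp
    · exact h
  have hsq : ∀ a ∈ A, (a * a) ^ (k + 1) = a := by
    intro a ha
    have e : 2 * (k + 1) = p + 1 := by omega
    rw [← pow_two, ← pow_mul, e, pow_succ, hApow a ha, one_mul]
  have htinv : t⁻¹ = t := inv_eq_of_mul_eq_one_left ht2
  have hT : ∀ a ∈ A, t * a * t⁻¹ = a⁻¹ := by
    by_contra hcon
    push Not at hcon
    obtain ⟨a₁, ha₁, hne₁⟩ := hcon
    have hpn : (A ⊓ Subgroup.centralizer ({t} : Set N)).Normal := Aplus_normal A t hAcomm hcent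
    have hmn : (Aminus A t hAcomm).Normal := Aminus_normal A t hAcomm hcent
    have hp_cyc : IsCyclic ↥(A ⊓ Subgroup.centralizer ({t} : Set N)) := by
      rcases eq_or_cyclic A _ inf_le_left hAcard with h | h
      · exfalso; apply htA
        have hle : A ≤ Subgroup.centralizer ({t} : Set N) := inf_eq_left.mp h
        rw [← hAself, Subgroup.mem_centralizer_iff]
        intro a ha
        exact Subgroup.mem_centralizer_singleton_iff.mp (hle ha)
      · exact h
    have hm_cyc : IsCyclic ↥(Aminus A t hAcomm) := by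
      rcases eq_or_cyclic A _ (fun a ha => (mem_Aminus.mp ha).1) hAcard with h | h
      · exfalso; apply hne₁
        have : a₁ ∈ Aminus A t hAcomm := by rw [h]; exact ha₁
        exact (mem_Aminus.mp this).2
      · exact h
    obtain ⟨n, m, hnm⟩ := hnonab
    apply hnm
    rw [← hAself, Subgroup.mem_centralizer_iff]
    intro a ha
    have hmem := mem_sup_plus_minus A t hAcomm ht2 hsq a ha
    have hle : (A ⊓ Subgroup.centralizer ({t} : Set N)) ⊔ Aminus A t hAcomm ≤
        Subgroup.centralizer ({⁅n, m⁆} : Set N) := by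
      apply sup_le
      · intro b hb
        rw [Subgroup.mem_centralizer_singleton_iff]
        exact (comm_centralizes_cyclic _ n m b hb).symm
      · intro b hb
        rw [Subgroup.mem_centralizer_singleton_iff]
        exact (comm_centralizes_cyclic _ n m b hb).symm
    exact Subgroup.mem_centralizer_singleton_iff.mp (hle hmem)
  refine ⟨Subgroup.centralizer ({t} : Set N), ?_, ?_⟩
  · rw [eq_bot_iff]
    intro a ha
    obtain ⟨ha1, ha2⟩ := Subgroup.mem_inf.mp ha
    rw [Subgroup.mem_centralizer_singleton_iff] at ha2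
    have h1 : a⁻¹ = a := by
      rw [← hT a ha1, ← ha2]; group
    have h2 : a * a = 1 := by
      nth_rewrite 1 [← h1]; group
    rw [Subgroup.mem_bot, ← hsq a ha1, h2, one_pow]
  · rw [eq_top_iff]
    intro n _
    obtain ⟨c, hc, hct⟩ := hcent n
    have key : ∀ a ∈ A, a * a = c⁻¹ → n * a ∈ Subgroup.centralizer ({t} : Set N) := by
      intro a ha haa
      rw [Subgroup.mem_centralizer_singleton_iff]
      have h3 : t⁻¹ * a⁻¹ * t = a := by
        have h := hT a⁻¹ (inv_mem ha)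
        rw [inv_inv] at h
        calc t⁻¹ * a⁻¹ * t = t * a⁻¹ * t⁻¹ := by rw [htinv]
          _ = a := h
      have h4 : a⁻¹ * (t * c) * a = t := by
        calc a⁻¹ * (t * c) * a = t * (t⁻¹ * a⁻¹ * t) * c * a := by group
          _ = t * a * c * a := by rw [h3]
          _ = t * (a * c) * a := by group
          _ = t * (c * a) * a := by rw [hAcomm a ha c hc]
          _ = t * c * (a * a) := by group
          _ = t := by rw [haa]; group
      calc n * a * t = n * a * (a⁻¹ * (t * c) * a) := by rw [h4]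
        _ = n * (t * c) * a := by group
        _ = n * (n⁻¹ * t * n) * a := by rw [hct]
        _ = t * (n * a) := by group
    have ha : (c⁻¹) ^ (k + 1) ∈ A := pow_mem (inv_mem hc) _
    have haa : (c⁻¹) ^ (k + 1) * (c⁻¹) ^ (k + 1) = c⁻¹ := by
      have e : k + 1 + (k + 1) = p + 1 := by omega
      rw [← pow_add, e, pow_succ, hApow _ (inv_mem hc), one_mul]
    have hU := key _ ha haa
    have e : n = (n * (c⁻¹) ^ (k + 1)) * ((c⁻¹) ^ (k + 1))⁻¹ := by group
    rw [e]
    exact mul_mem (Subgroup.mem_sup_right hU) (Subgroup.mem_sup_left (inv_mem ha))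

end Aux

/-- Let p be an odd prime and N a finite group with a normal elementary abelian subgroup A of order p² that is its own centralizer in N, such that N/A is isomorphic to SL₂(p) (over any field F with p elements). Then N splits over A: some subgroup U of N satisfies A ∩ U = 1 and AU = N. -/
theorem result {N : Type*} [Group N] [Finite N] {p : ℕ} [Fact p.Prime] (hp : p ≠ 2)
    (A : Subgroup N) [A.Normal] (hAcomm : IsMulCommutative A) (hAcard : Nat.card A = p ^ 2) (hAexp : Monoid.exponent ↥A = p)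
    (hAself : Subgroup.centralizer (A : Set N) = A)
    {F : Type*} [Field F] [Fintype F] (hF : Fintype.card F = p) (e : N ⧸ A ≃* Matrix.SpecialLinearGroup (Fin 2) F) :
    ∃ U : Subgroup N, A ⊓ U = ⊥ ∧ A ⊔ U = ⊤ := by
  have hAcomm' : ∀ a ∈ A, ∀ b ∈ A, a * b = b * a := by
    have h := Subgroup.le_centralizer_iff_isMulCommutative.mpr hAcomm
    intro a ha b hb
    exact Subgroup.mem_centralizer_iff.mp (h hb) a ha
  have hApow : ∀ a ∈ A, a ^ p = 1 := by
    intro a ha
    have h := Monoid.pow_exponent_eq_one (⟨a, ha⟩ : A)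
    rw [hAexp] at h
    have h' := congrArg Subtype.val h
    simpa using h'
  obtain ⟨k, hk⟩ : ∃ k, p = 2 * k + 1 := by
    rcases Nat.Prime.eq_two_or_odd' (Fact.out : p.Prime) with h | h
    · exact absurd h hp
    · exact h
  have hsurj : ∀ g : Matrix.SpecialLinearGroup (Fin 2) F, ∃ n : N, e (n : N ⧸ A) = g := by
    intro g
    obtain ⟨q, hq⟩ := e.surjective g
    obtain ⟨n, rfl⟩ := QuotientGroup.mk_surjective q
    exact ⟨n, hq⟩
  obtain ⟨n₀, hn₀⟩ := hsurj negOne
  have hnegpow : (negOne : Matrix.SpecialLinearGroup (Fin 2) F) ^ p = negOne := by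
    rw [hk, pow_succ, pow_mul, pow_two, negOne_mul_self, one_pow, one_mul]
  have het : e ((n₀ ^ p : N) : N ⧸ A) = negOne := by
    rw [QuotientGroup.mk_pow, map_pow, hn₀, hnegpow]
  have ht2 : n₀ ^ p * n₀ ^ p = 1 := by
    have h1 : n₀ * n₀ ∈ A := by
      apply (QuotientGroup.eq_one_iff (N := A) _).mp
      apply e.injective
      rw [QuotientGroup.mk_mul, map_mul, hn₀, negOne_mul_self, map_one]
    rw [← (Commute.refl n₀).mul_pow p]; exact hApow _ h1
  have htA : n₀ ^ p ∉ A := by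
    intro h
    have h1 : ((n₀ ^ p : N) : N ⧸ A) = 1 := (QuotientGroup.eq_one_iff _).mpr h
    rw [h1, map_one] at het
    exact negOne_ne_one hF hp het.symm
  have hcent : ∀ n : N, ∃ c ∈ A, n⁻¹ * n₀ ^ p * n = n₀ ^ p * c := by
    intro n
    refine ⟨(n₀ ^ p)⁻¹ * (n⁻¹ * n₀ ^ p * n), ?_, by group⟩
    apply (QuotientGroup.eq_one_iff (N := A) _).mp
    apply e.injective
    have hg : (e ((n : N) : N ⧸ A))⁻¹ * negOne * e ((n : N) : N ⧸ A) = negOne := by
      rw [mul_assoc, ← negOne_comm, ← mul_assoc, inv_mul_cancel, one_mul]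
    simp only [QuotientGroup.mk_mul, QuotientGroup.mk_inv, map_mul, map_inv, het, map_one]
    rw [hg, inv_mul_cancel]
  have hnonab : ∃ n m : N, ⁅n, m⁆ ∉ A := by
    obtain ⟨n, hn⟩ := hsurj upper
    obtain ⟨m, hm⟩ := hsurj lower
    refine ⟨n, m, fun h => ?_⟩
    have h1 : ((⁅n, m⁆ : N) : N ⧸ A) = 1 := (QuotientGroup.eq_one_iff _).mpr h
    have h2 := congrArg e h1
    simp only [commutatorElement_def, QuotientGroup.mk_mul, QuotientGroup.mk_inv, map_mul,
      map_inv, hn, hm, map_one] at h2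
    apply upper_lower_ne (F := F)
    calc upper * lower = (upper * lower * upper⁻¹ * lower⁻¹) * (lower * upper) := by group
      _ = lower * upper := by rw [h2, one_mul]
  exact split_aux hp A hAcomm' hAcard hApow hAself (n₀ ^ p) ht2 htA hcent hnonab

end Cfsg.Agent.S3075
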