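import Cfsg.Statements.S3087
import Mathlib


set_option autoImplicit false
open Cfsg

namespace Cfsg.Agent.S3087

/-- The fixed-point submodule of a subgroup. -/
def fixedSub {G V : Type*} [Group G] [AddCommGroup V] (p : ℕ) [Fact p.Prime] [Module (ZMod p) V]
    (ρ : Representation (ZMod p) G V) (X : Subgroup G) : Submodule (ZMod p) V where
  carrier := {v | ∀ b ∈ X, ρ b v = v}
  add_mem' := by
    intro a b ha hb x hx
    rw [map_add, ha x hx, hb x hx]
  zero_mem' := by
    intro x hx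
    exact map_zero _
  smul_mem' := by
    intro c v hv x hx
    rw [map_smul, hv x hx]

theorem card_sub (p : ℕ) [Fact p.Prime] {V : Type*} [AddCommGroup V] [Finite V]
    [Module (ZMod p) V] (S : Submodule (ZMod p) V) :
    Nat.card S = p ^ Module.finrank (ZMod p) S := by
  classical
  have := Fintype.ofFinite ↥S
  rw [Nat.card_eq_fintype_card, Module.card_eq_pow_finrank (K := ZMod p), ZMod.card]

/-- Let p be a prime, G a finite group acting linearly on a finite vector space V over the field with p elements, W a G-invariant subspace, and A a subgroup of G with |A|·|C_V(A)| ≥ |B|·|C_V(B)| for every subgroup B of A. Then |A|·|C_W(A)| ≥ |B|·|C_W(B)| for every subgroup B of A that contains C_A(W); that is, the image of A in the group induced on W satisfies the same maximality condition. -/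
theorem result {G V : Type*} [Group G] [Finite G] [AddCommGroup V] [Finite V] (p : ℕ) [Fact p.Prime] [Module (ZMod p) V]
    (ρ : Representation (ZMod p) G V) (W : Submodule (ZMod p) V) (hW : ∀ g : G, ∀ w ∈ W, ρ g w ∈ W)
    (A : Subgroup G)
    (hP : ∀ B : Subgroup G, B ≤ A →
      Nat.card ↥B * Nat.card {v : V // ∀ b ∈ B, ρ b v = v} ≤ Nat.card ↥A * Nat.card {v : V // ∀ a ∈ A, ρ a v = v})
    (B : Subgroup G) (hBA : B ≤ A) (hCB : ∀ a ∈ A, (∀ w ∈ W, ρ a w = w) → a ∈ B) :
    Nat.card ↥B * Nat.card {w : W // ∀ b ∈ B, ρ b w = w} ≤ Nat.card ↥A * Nat.card {w : W // ∀ a ∈ A, ρ a w = w} := by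
  have hp : p.Prime := Fact.out
  have hcV : ∀ X : Subgroup G, Nat.card {v : V // ∀ b ∈ X, ρ b v = v} =
      p ^ Module.finrank (ZMod p) (fixedSub p ρ X) := by
    intro X
    have h1 : Nat.card {v : V // ∀ b ∈ X, ρ b v = v} = Nat.card (fixedSub p ρ X) :=
      Nat.card_congr (Equiv.subtypeEquivRight (fun v => Iff.rfl))
    rw [h1, card_sub]
  have hcW : ∀ X : Subgroup G, Nat.card {w : W // ∀ b ∈ X, ρ b w = w} =
      p ^ Module.finrank (ZMod p) ↥(W ⊓ fixedSub p ρ X) := by
    intro X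
    have h1 : Nat.card {w : W // ∀ b ∈ X, ρ b w = w} = Nat.card ↥(W ⊓ fixedSub p ρ X) :=
      Nat.card_congr
        { toFun := fun w => ⟨w.1.1, ⟨w.1.2, w.2⟩⟩
          invFun := fun v => ⟨⟨v.1, v.2.1⟩, v.2.2⟩
          left_inv := fun w => rfl
          right_inv := fun v => rfl }
    rw [h1, card_sub]
  rw [hcW, hcW]
  have h0 := hP B hBA
  rw [hcV, hcV] at h0
  have hle : fixedSub p ρ A ≤ fixedSub p ρ B := fun v hv b hb => hv b (hBA hb)
  have hsup : fixedSub p ρ A ⊔ (W ⊓ fixedSub p ρ B) ≤ fixedSub p ρ B := sup_le hle inf_le_right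
  have hinf : fixedSub p ρ A ⊓ (W ⊓ fixedSub p ρ B) = W ⊓ fixedSub p ρ A := by
    rw [← inf_assoc, inf_comm (fixedSub p ρ A) W, inf_assoc, inf_of_le_left hle]
  have hdim := Submodule.finrank_sup_add_finrank_inf_eq (K := ZMod p) (V := V) (fixedSub p ρ A) (W ⊓ fixedSub p ρ B)
  rw [hinf] at hdim
  have hmono := Submodule.finrank_mono hsup
  have key : Module.finrank (ZMod p) ↥(fixedSub p ρ A) +
      Module.finrank (ZMod p) ↥(W ⊓ fixedSub p ρ B) ≤
      Module.finrank (ZMod p) ↥(fixedSub p ρ B) +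
      Module.finrank (ZMod p) ↥(W ⊓ fixedSub p ρ A) := by omega
  have hpos : 0 < p ^ Module.finrank (ZMod p) ↥(fixedSub p ρ A) := pow_pos hp.pos _
  apply Nat.le_of_mul_le_mul_right _ hpos
  calc Nat.card ↥B * p ^ Module.finrank (ZMod p) ↥(W ⊓ fixedSub p ρ B) *
        p ^ Module.finrank (ZMod p) ↥(fixedSub p ρ A)
      = Nat.card ↥B * p ^ (Module.finrank (ZMod p) ↥(fixedSub p ρ A) +
          Module.finrank (ZMod p) ↥(W ⊓ fixedSub p ρ B)) := by
        rw [mul_assoc, ← pow_add, add_comm]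
    _ ≤ Nat.card ↥B * p ^ (Module.finrank (ZMod p) ↥(fixedSub p ρ B) +
          Module.finrank (ZMod p) ↥(W ⊓ fixedSub p ρ A)) :=
        Nat.mul_le_mul_left _ (Nat.pow_le_pow_right hp.pos key)
    _ = (Nat.card ↥B * p ^ Module.finrank (ZMod p) ↥(fixedSub p ρ B)) *
          p ^ Module.finrank (ZMod p) ↥(W ⊓ fixedSub p ρ A) := by
        rw [pow_add, mul_assoc]
    _ ≤ (Nat.card ↥A * p ^ Module.finrank (ZMod p) ↥(fixedSub p ρ A)) *
          p ^ Module.finrank (ZMod p) ↥(W ⊓ fixedSub p ρ A) := Nat.mul_le_mul_right _ h0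
    _ = Nat.card ↥A * p ^ Module.finrank (ZMod p) ↥(W ⊓ fixedSub p ρ A) *
          p ^ Module.finrank (ZMod p) ↥(fixedSub p ρ A) := by ring

end Cfsg.Agent.S3087
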