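import Mathlib
import Cfsg.Statements.S3155

set_option autoImplicit false
open Cfsg

namespace Cfsg.Agent.S3155

theorem sq_ne_neg_one : ∀ x : ZMod 4, x * x ≠ -1 := by decide

/-- Let B be the direct product of three cyclic groups of order 4. Then the automorphism of B inverting every element is not the square of any automorphism of B. -/
theorem result {B : Type*} [CommGroup B] [Finite B] (hB : Nonempty (B ≃* Multiplicative (ZMod 4 × ZMod 4 × ZMod 4)))
    (τ : B ≃* B) : τ.trans τ ≠ MulEquiv.inv B := by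
  obtain ⟨e⟩ := hB
  intro h
  let σ : Multiplicative (ZMod 4 × ZMod 4 × ZMod 4) ≃* Multiplicative (ZMod 4 × ZMod 4 × ZMod 4) :=
    (e.symm.trans τ).trans e
  have hσ : ∀ m : Multiplicative (ZMod 4 × ZMod 4 × ZMod 4), σ (σ m) = m⁻¹ := by
    intro m
    have h1 : τ (τ (e.symm m)) = (e.symm m)⁻¹ := by
      have := congrArg (fun φ : B ≃* B => φ (e.symm m)) h
      simpa using this
    simp only [σ, MulEquiv.trans_apply, MulEquiv.symm_apply_apply]
    rw [h1, map_inv, MulEquiv.apply_symm_apply]
  let f : (ZMod 4 × ZMod 4 × ZMod 4) →+ (ZMod 4 × ZMod 4 × ZMod 4) :=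
    AddMonoidHom.toMultiplicative.symm σ.toMonoidHom
  have hf : ∀ m, f (f m) = -m := by
    intro m
    have := hσ (Multiplicative.ofAdd m)
    exact congrArg Multiplicative.toAdd this
  let g : (ZMod 4 × ZMod 4 × ZMod 4) →ₗ[ZMod 4] (ZMod 4 × ZMod 4 × ZMod 4) := f.toZModLinearMap 4
  have hg : g.comp g = (-1 : ZMod 4) • LinearMap.id := by
    apply LinearMap.ext
    intro m
    simp [g, hf]
  have hdet := congrArg LinearMap.det hg
  rw [LinearMap.det_comp, LinearMap.det_smul, LinearMap.det_id] at hdet
  have hrank : Module.finrank (ZMod 4) (ZMod 4 × ZMod 4 × ZMod 4) = 3 := by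
    have : Fact (1 < 4) := ⟨by norm_num⟩
    rw [Module.finrank_prod, Module.finrank_prod, Module.finrank_self]
  rw [hrank] at hdet
  have : LinearMap.det g * LinearMap.det g = -1 := by
    rw [hdet]; decide
  exact sq_ne_neg_one _ this

end Cfsg.Agent.S3155
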