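import Cfsg.Statements.S3179
import Mathlib
import Cfsg.Agent.S0278
import Cfsg.Agent.S0279
import Cfsg.Agent.Helper12.SL2Card
import Cfsg.Agent.Helper12.SL2Orders
import Cfsg.Agent.Helper6.SzLie

set_option autoImplicit false
open Cfsg

namespace Cfsg.Agent.S3179

open Matrix

/-- A permutation of order dividing 9: the points moved by its cube come in free orbits. -/
theorem perm_nine {X : Type*} [Fintype X] (σ : Equiv.Perm X) (h9 : σ ^ 9 = 1) :
    9 ∣ Nat.card {x : X // (σ ^ 3) x ≠ x} := by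
  classical
  by_cases h3 : σ ^ 3 = 1
  · have : IsEmpty {x : X // (σ ^ 3) x ≠ x} := ⟨fun x => x.2 (Equiv.Perm.congr_fun h3 x.1)⟩
    rw [Nat.card_of_isEmpty]
    exact dvd_zero 9
  · haveI : Fact (Nat.Prime 3) := ⟨Nat.prime_three⟩
    have ho : orderOf σ = 9 := by
      have := orderOf_eq_prime_pow (x := σ) (p := 3) (n := 1) (by simpa using h3) (by simpa using h9)
      simpa using this
    have hC : Nat.card (Subgroup.zpowers σ) = 9 := by rw [Nat.card_zpowers, ho]
    let S : SubMulAction (Subgroup.zpowers σ) X :=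
      { carrier := {x | (σ ^ 3) x ≠ x}
        smul_mem' := by
          rintro ⟨c, hc⟩ x hx
          obtain ⟨k, rfl⟩ := Subgroup.mem_zpowers_iff.mp hc
          have hcomm : Commute (σ ^ 3) (σ ^ k) := ((Commute.refl σ).pow_left 3).zpow_right k
          show (σ ^ 3) ((σ ^ k) x) ≠ (σ ^ k) x
          intro h
          apply hx
          have h' : (σ ^ k) ((σ ^ 3) x) = (σ ^ k) x := by
            rw [← Equiv.Perm.mul_apply, ← hcomm.eq, Equiv.Perm.mul_apply]; exact h
          exact (σ ^ k).injective h' }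
    have hfree : ∀ x : S, MulAction.stabilizer (Subgroup.zpowers σ) x = ⊥ := by
      intro x
      rw [eq_bot_iff]
      rintro ⟨c, hc⟩ hcx
      rw [MulAction.mem_stabilizer_iff] at hcx
      have hcx' : c (x : X) = (x : X) := congrArg Subtype.val hcx
      rw [(isOfFinOrder_of_finite σ).mem_zpowers_iff_mem_range_orderOf, ho] at hc
      obtain ⟨k, hk, rfl⟩ := Finset.mem_image.mp hc
      rw [Finset.mem_range] at hk
      rw [Subgroup.mem_bot]
      apply Subtype.ext
      show σ ^ k = 1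
      rcases Nat.eq_zero_or_pos k with h0 | hpos
      · rw [h0, pow_zero]
      · exfalso
        have hjt : ∀ k < 9, 0 < k → ∃ j < 9, ∃ t < 9, k * j = 3 + 9 * t := by decide
        obtain ⟨j, -, t, -, hjt⟩ := hjt k hk hpos
        apply x.2
        show (σ ^ 3) (x : X) = (x : X)
        have h1 : ((σ ^ k) ^ j) (x : X) = (x : X) :=
          Equiv.Perm.pow_apply_eq_self_of_apply_eq_self hcx' j
        have h2 : (σ ^ k) ^ j = σ ^ 3 := by
          rw [← pow_mul, hjt, pow_add, pow_mul, h9, one_pow, mul_one]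
        rw [← h2]; exact h1
    have e := MulAction.selfEquivOrbitsQuotientProd hfree
    have hcard : Nat.card S = Nat.card (Quotient (MulAction.orbitRel (Subgroup.zpowers σ) S)) * 9 := by
      rw [Nat.card_congr e, Nat.card_prod, hC]
    exact Dvd.intro_left _ hcard.symm

/-- The action of `GL₅(2)` on vectors, as a permutation representation. -/
def permHom : GL (Fin 5) (ZMod 2) →* Equiv.Perm (Fin 5 → ZMod 2) where
  toFun g :=
    { toFun := fun v => (g : Matrix (Fin 5) (Fin 5) (ZMod 2)) *ᵥ v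
      invFun := fun v => ((g⁻¹ : GL (Fin 5) (ZMod 2)) : Matrix (Fin 5) (Fin 5) (ZMod 2)) *ᵥ v
      left_inv := fun v => by
        simp only [Matrix.mulVec_mulVec, ← Units.val_mul, inv_mul_cancel, Units.val_one,
          Matrix.one_mulVec]
      right_inv := fun v => by
        simp only [Matrix.mulVec_mulVec, ← Units.val_mul, mul_inv_cancel, Units.val_one,
          Matrix.one_mulVec] }
  map_one' := by
    ext v
    simp
  map_mul' := fun a b => by
    ext v
    simp [Matrix.mulVec_mulVec]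

/-- `GL₅(2)` has no element of order 9. -/
theorem no_nine (g : GL (Fin 5) (ZMod 2)) (hg : orderOf g = 9) : False := by
  classical
  have h9 : (permHom g) ^ 9 = 1 := by
    rw [← map_pow, ← hg, pow_orderOf_eq_one, map_one]
  have hdiv := perm_nine (permHom g) h9
  have hσ3 : ∀ v, ((permHom g) ^ 3) v = ((g ^ 3 : GL (Fin 5) (ZMod 2)) : Matrix (Fin 5) (Fin 5) (ZMod 2)) *ᵥ v := by
    intro v
    rw [← map_pow]; rfl
  let T : AddSubgroup (Fin 5 → ZMod 2) :=
    { carrier := {v | ((g ^ 3 : GL (Fin 5) (ZMod 2)) : Matrix (Fin 5) (Fin 5) (ZMod 2)) *ᵥ v = v}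
      zero_mem' := by simp
      add_mem' := by
        intro a b ha hb
        simp only [Set.mem_setOf_eq] at ha hb ⊢
        rw [Matrix.mulVec_add, ha, hb]
      neg_mem' := by
        intro a ha
        simp only [Set.mem_setOf_eq] at ha ⊢
        rw [Matrix.mulVec_neg, ha] }
  have hV : Nat.card (Fin 5 → ZMod 2) = 32 := by
    rw [Nat.card_eq_fintype_card, Fintype.card_fun, ZMod.card, Fintype.card_fin]
    norm_num
  have hT : Nat.card T ∣ 32 := by
    have := AddSubgroup.card_addSubgroup_dvd_card T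
    rwa [hV] at this
  have h1 : (T : Set (Fin 5 → ZMod 2)).ncard + (T : Set (Fin 5 → ZMod 2))ᶜ.ncard = 32 := by
    rw [Set.ncard_add_ncard_compl, hV]
  have h2 : Nat.card {v : Fin 5 → ZMod 2 // ((permHom g) ^ 3) v ≠ v}
      = (T : Set (Fin 5 → ZMod 2))ᶜ.ncard := by
    rw [← Nat.card_coe_set_eq]
    refine Nat.card_congr (Equiv.subtypeEquivRight (fun v => ?_))
    rw [hσ3]
    rfl
  have h3 : Nat.card T = (T : Set (Fin 5 → ZMod 2)).ncard := by
    rw [← Nat.card_coe_set_eq]; rfl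
  rw [h2] at hdiv
  rw [h3] at hT
  have hT32 : (T : Set (Fin 5 → ZMod 2)).ncard = 32 := by
    have hle : (T : Set (Fin 5 → ZMod 2)).ncard ≤ 32 := by omega
    generalize (T : Set (Fin 5 → ZMod 2)).ncard = t at *
    generalize (T : Set (Fin 5 → ZMod 2))ᶜ.ncard = c at *
    interval_cases t <;> omega
  have htop : T = ⊤ := by
    rw [← AddSubgroup.card_eq_iff_eq_top, h3, hT32, hV]
  have hall : ∀ v, ((g ^ 3 : GL (Fin 5) (ZMod 2)) : Matrix (Fin 5) (Fin 5) (ZMod 2)) *ᵥ v = v := by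
    intro v
    have : v ∈ T := by rw [htop]; trivial
    exact this
  have hone : ((g ^ 3 : GL (Fin 5) (ZMod 2)) : Matrix (Fin 5) (Fin 5) (ZMod 2)) = 1 := by
    apply Matrix.toLin'.injective
    apply LinearMap.ext
    intro v
    rw [Matrix.toLin'_apply, hall v, Matrix.toLin'_one]; rfl
  have hg3 : g ^ 3 = 1 := Units.ext hone
  have := orderOf_dvd_of_pow_eq_one hg3
  rw [hg] at this
  omega

/-- Element orders of a section lift to the group. -/
theorem lift_order {G : Type*} [Group G] [Finite G] (H : Subgroup G) (K : Subgroup H) [K.Normal]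
    (y : H ⧸ K) (m : ℕ) (hy : orderOf y = m) : ∃ z : G, orderOf z = m := by
  obtain ⟨h, rfl⟩ := QuotientGroup.mk_surjective y
  have hd : m ∣ orderOf h := by
    rw [← hy]
    apply orderOf_dvd_of_pow_eq_one
    rw [← QuotientGroup.mk_pow, pow_orderOf_eq_one]
    rfl
  obtain ⟨t, ht⟩ := hd
  have hpos : 0 < orderOf h := orderOf_pos h
  have ht0 : t ≠ 0 := by
    rintro rfl
    rw [mul_zero] at ht
    omega
  refine ⟨((h ^ t : H) : G), ?_⟩
  rw [Subgroup.orderOf_coe, orderOf_pow_of_dvd ht0 ⟨m, by rw [ht, mul_comm]⟩, ht,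
    Nat.mul_div_cancel _ (Nat.pos_of_ne_zero ht0)]

theorem card_gl : Nat.card (GL (Fin 5) (ZMod 2)) = 9999360 := by
  rw [Matrix.card_GL_field, ZMod.card, Fin.prod_univ_five]
  norm_num

theorem card_dvd (H : Subgroup (GL (Fin 5) (ZMod 2))) (K : Subgroup ↥H) [K.Normal] :
    Nat.card (↥H ⧸ K) ∣ 9999360 := by
  rw [← card_gl]
  exact (Subgroup.card_quotient_dvd_card K).trans (Subgroup.card_subgroup_dvd_card H)

theorem two_zero {F : Type*} [Field F] [Fintype F] {k : ℕ} (hk : k ≠ 0)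
    (hF : Fintype.card F = 2 ^ k) : (2 : F) = 0 := by
  have h := FiniteField.cast_card_eq_zero F
  rw [hF] at h
  have h' : (2 : F) ^ k = 0 := by exact_mod_cast h
  exact (pow_eq_zero_iff hk).mp h'

theorem psu_bound (q N S c : ℕ) (h1 : (q + 1) * S = q ^ 3 * ((q + 1) * (q ^ 2 - 1) * (q ^ 3 + 1)))
    (h3 : S = N * c) (hc : c = Nat.gcd 3 (q + 1)) (hN : N ∣ 9999360)
    (hq : q = 4 ∨ q = 8 ∨ 16 ≤ q) : False := by
  rcases hq with rfl | rfl | hq16
  · have hc1 : c = 1 := by rw [hc]; decide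
    subst hc1
    norm_num at h1
    have : N = 62400 := by omega
    subst this
    omega
  · have hc1 : c = 3 := by rw [hc]; decide
    subst hc1
    norm_num at h1
    have : N = 5515776 := by omega
    subst this
    omega
  · have hc3 : c ≤ 3 := by rw [hc]; exact Nat.gcd_le_left _ (by norm_num)
    have hN' : N ≤ 9999360 := Nat.le_of_dvd (by norm_num) hN
    have a1 : 4096 ≤ q ^ 3 := by
      calc 4096 = 16 ^ 3 := by norm_num
        _ ≤ q ^ 3 := Nat.pow_le_pow_left hq16 3
    have a2 : 255 ≤ q ^ 2 - 1 := by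
      have : 16 ^ 2 ≤ q ^ 2 := Nat.pow_le_pow_left hq16 2
      omega
    have a3 : 4097 ≤ q ^ 3 + 1 := by omega
    have key : (q + 1) * (q ^ 3 * (q ^ 2 - 1) * (q ^ 3 + 1)) ≤ (q + 1) * (9999360 * 3) := by
      calc (q + 1) * (q ^ 3 * (q ^ 2 - 1) * (q ^ 3 + 1))
          = q ^ 3 * ((q + 1) * (q ^ 2 - 1) * (q ^ 3 + 1)) := by ring
        _ = (q + 1) * S := h1.symm
        _ = (q + 1) * (N * c) := by rw [h3]
        _ ≤ (q + 1) * (9999360 * 3) := Nat.mul_le_mul_left _ (Nat.mul_le_mul hN' hc3)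
    have key2 := Nat.le_of_mul_le_mul_left key (by omega : 0 < q + 1)
    have key3 : 4096 * 255 * 4097 ≤ q ^ 3 * (q ^ 2 - 1) * (q ^ 3 + 1) :=
      Nat.mul_le_mul (Nat.mul_le_mul a1 a2) a3
    omega

/-- Let X be a section of the general linear group GL(5, 2), that is, a quotient of a subgroup of it. If X is isomorphic to PSL(2, 2^n) for some n ≥ 2, to a Suzuki group over the field with 2^(2m+1) elements for some m ≥ 1, or to PSU(3, 2^n) for some n ≥ 2, then X is isomorphic to PSL(2, 4). -/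
theorem result {H : Subgroup (GL (Fin 5) (ZMod 2))}
    {K : Subgroup ↥H} [K.Normal]
    (hX : (∃ (n : ℕ) (F : Type) (_ : Field F) (_ : Fintype F), 2 ≤ n ∧ Fintype.card F = 2 ^ n ∧
        Nonempty (↥H ⧸ K ≃* Matrix.ProjectiveSpecialLinearGroup (Fin 2) F)) ∨
      (∃ (m : ℕ) (F : Type) (_ : Field F) (_ : Fintype F), 1 ≤ m ∧ Fintype.card F = 2 ^ (2 * m + 1) ∧
        Nonempty (↥H ⧸ K ≃* ↥(Cfsg.Lie.Sz F (2 ^ (m + 1))))) ∨
      (∃ (n : ℕ) (F : Type) (_ : Field F) (_ : Fintype F), 2 ≤ n ∧ Fintype.card F = 4 ^ n ∧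
        Nonempty (↥H ⧸ K ≃* Cfsg.PSU 3 F (2 ^ n)))) :
    ∃ (F : Type) (_ : Field F) (_ : Fintype F), Fintype.card F = 4 ∧
      Nonempty (↥H ⧸ K ≃* Matrix.ProjectiveSpecialLinearGroup (Fin 2) F) := by
  have hd := card_dvd H K
  rcases hX with ⟨n, F, _, _, hn, hF, ⟨e⟩⟩ | ⟨m, F, _, _, hm, hF, ⟨e⟩⟩ | ⟨n, F, _, _, hn, hF, ⟨e⟩⟩
  · have h2 : (2 : F) = 0 := two_zero (by omega) hF
    have hc : Nat.card (↥H ⧸ K) = 2 ^ n * ((2 ^ n) ^ 2 - 1) := by
      rw [Nat.card_congr e.toEquiv, Helper12.psl2_card_char2 h2, hF]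
    rw [hc] at hd
    have hn10 : n ≤ 10 := by
      by_contra hcon
      have : 2 ^ 11 ∣ 9999360 :=
        (pow_dvd_pow 2 (by omega : 11 ≤ n)).trans ((dvd_mul_right _ _).trans hd)
      omega
    interval_cases n
    · exact ⟨F, inferInstance, inferInstance, by simpa using hF, ⟨e⟩⟩
    · exfalso
      haveI : Fact (Nat.Prime 2) := ⟨Nat.prime_two⟩
      haveI : CharP F 2 := CharTwo.of_one_ne_zero_of_two_eq_zero one_ne_zero h2
      obtain ⟨X, hX⟩ := Helper12.sl2_exists_orderOf_card_add_one (F := F) 2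
      rw [hF] at hX
      have hinj : Function.Injective
          (QuotientGroup.mk' (Subgroup.center (Matrix.SpecialLinearGroup (Fin 2) F))) := by
        rw [← MonoidHom.ker_eq_bot_iff, QuotientGroup.ker_mk', Helper12.sl2_center_eq_bot_char2 h2]
      have ho : orderOf (e.symm (QuotientGroup.mk' _ X)) = 9 := by
        rw [MulEquiv.orderOf_eq, orderOf_injective _ hinj, hX]
        norm_num
      obtain ⟨z, hz⟩ := lift_order H K _ 9 ho
      exact no_nine z hz
    all_goals (exfalso; omega)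
  · exfalso
    have D := Helper6.Sz.szData hm hF
    have hc : Nat.card (↥H ⧸ K) =
        (2 ^ (2 * m + 1)) ^ 2 * ((2 ^ (2 * m + 1)) ^ 2 + 1) * (2 ^ (2 * m + 1) - 1) := by
      rw [Nat.card_congr e.toEquiv, ← Nat.card_congr (Helper6.Sz.lieEquiv D).toEquiv,
        Helper6.Sz.card_SzG D, hF]
    rw [hc] at hd
    have hm2 : m ≤ 2 := by
      by_contra hcon
      have h14 : 2 ^ 11 ∣ (2 ^ (2 * m + 1)) ^ 2 := by
        rw [← pow_mul]; exact pow_dvd_pow 2 (by omega)
      have : 2 ^ 11 ∣ 9999360 :=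
        h14.trans ((dvd_mul_right _ _).trans ((dvd_mul_right _ _).trans hd))
      omega
    interval_cases m <;> omega
  · exfalso
    have hF' : Fintype.card F = (2 ^ n) ^ 2 := by
      rw [hF, ← pow_mul, mul_comm, pow_mul]; norm_num
    have h1 := Cfsg.Agent.S0278.result hF' 3 (by norm_num)
    have h2 := Cfsg.Agent.S0279.result hF' 3 le_rfl
    have h3 := Subgroup.card_eq_card_quotient_mul_card_subgroup
      (Subgroup.center (Cfsg.SU 3 F (2 ^ n)))
    have hc : Nat.card (↥H ⧸ K) = Nat.card (Cfsg.PSU 3 F (2 ^ n)) := Nat.card_congr e.toEquiv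
    rw [hc] at hd
    have h1' : (2 ^ n + 1) * Nat.card (Cfsg.SU 3 F (2 ^ n)) =
        (2 ^ n) ^ 3 * ((2 ^ n + 1) * ((2 ^ n) ^ 2 - 1) * ((2 ^ n) ^ 3 + 1)) := by
      rw [h1]
      norm_num [Finset.prod_range_succ]
    refine psu_bound (2 ^ n) _ _ _ h1' h3 h2 hd ?_
    rcases Nat.lt_or_ge n 4 with h4 | h4
    · interval_cases n
      · left; norm_num
      · right; left; norm_num
    · right; right
      calc 16 = 2 ^ 4 := by norm_num
        _ ≤ 2 ^ n := Nat.pow_le_pow_right (by norm_num) h4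

end Cfsg.Agent.S3179
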