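import Mathlib
import Cfsg.Statements.S3180
import Cfsg.Agent.Helper16.Basic

set_option autoImplicit false
open Cfsg

namespace Cfsg.Agent.S3180

open Cfsg.Agent.Helper16

/-- Let P be a Sylow p-subgroup of a finite group J and P₁ a subgroup of P that is weakly closed in P with respect to J. If J acts on a set and two points, each fixed by every element of P₁, lie in one J-orbit, then they lie in one orbit of the normalizer of P₁ in J. -/
theorem result {J : Type*} [Group J] [Finite J]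
    {p : ℕ} [Fact p.Prime] (P : Sylow p J) (P₁ : Subgroup J) (hW : Cfsg.IsWeaklyClosed P₁ (P : Subgroup J))
    {Ω : Type*} [MulAction J Ω] (x y : Ω) (hx : ∀ g ∈ P₁, g • x = x) (hy : ∀ g ∈ P₁, g • y = y)
    (hc : ∃ g : J, g • x = y) :
    ∃ g ∈ Subgroup.normalizer (P₁ : Set J), g • x = y := by
  obtain ⟨g, hg⟩ := hc
  obtain ⟨hP₁P, hwc⟩ := hW
  have hP₁p : IsPGroup p P₁ := P.2.to_le hP₁P
  set K : Subgroup J := MulAction.stabilizer J y with hK
  have hP₁K : P₁ ≤ K := fun h hh => MulAction.mem_stabilizer_iff.mpr (hy h hh)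
  -- the conjugate of P₁ by g lies in K
  have hgK : ∀ h ∈ P₁, g * h * g⁻¹ ∈ K := by
    intro h hh
    rw [hK, MulAction.mem_stabilizer_iff, ← hg, mul_smul, mul_smul, inv_smul_smul, hx h hh]
  -- Sylow subgroup of K containing P₁
  obtain ⟨Q₁, hQ₁⟩ := (hP₁p.comap_subtype (K := K)).exists_le_sylow
  -- the conjugate of P₁ by g, inside K
  set B : Subgroup ↥K := (P₁.map (MulAut.conj g).toMonoidHom).subgroupOf K with hB
  have hBp : IsPGroup p B := (hP₁p.map _).comap_subtype
  obtain ⟨c, hc⟩ := exists_conj_le_sylow Q₁ hBp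
  -- the p-subgroup Q of J
  set Q : Subgroup J := (Q₁ : Subgroup ↥K).map K.subtype with hQ
  have hQp : IsPGroup p Q := Q₁.2.map _
  have hP₁Q : P₁ ≤ Q := by
    intro h hh
    refine ⟨⟨h, hP₁K hh⟩, hQ₁ ?_, rfl⟩
    exact hh
  have hcgQ : ∀ h ∈ P₁, (c : J) * g * h * ((c : J) * g)⁻¹ ∈ Q := by
    intro h hh
    have hb : (⟨g * h * g⁻¹, hgK h hh⟩ : ↥K) ∈ B := by
      rw [hB, Subgroup.mem_subgroupOf]
      exact ⟨h, hh, by simp [MulAut.conj_apply]⟩
    have := hc _ hb
    refine ⟨_, this, ?_⟩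
    simp [mul_assoc]
  obtain ⟨k, hk⟩ := exists_conj_le_sylow P hQp
  -- k normalizes P₁
  have hk1 : k ∈ Subgroup.normalizer (P₁ : Set J) := by
    apply mem_normalizer_of_map_conj_eq
    apply hwc
    rw [map_conj_le_iff]
    intro h hh
    exact hk h (hP₁Q hh)
  have hk2 : k * ((c : J) * g) ∈ Subgroup.normalizer (P₁ : Set J) := by
    apply mem_normalizer_of_map_conj_eq
    apply hwc
    rw [map_conj_le_iff]
    intro h hh
    have := hk _ (hcgQ h hh)
    have e : k * ((c : J) * g) * h * (k * ((c : J) * g))⁻¹ =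
        k * ((c : J) * g * h * ((c : J) * g)⁻¹) * k⁻¹ := by group
    rw [e]; exact this
  refine ⟨(c : J) * g, ?_, ?_⟩
  · have := Subgroup.mul_mem _ (Subgroup.inv_mem _ hk1) hk2
    have e : k⁻¹ * (k * ((c : J) * g)) = (c : J) * g := by group
    rwa [e] at this
  · rw [mul_smul, hg]
    exact MulAction.mem_stabilizer_iff.mp c.2

end Cfsg.Agent.S3180
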