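import Mathlib
import Cfsg.Statements.S3183
import Cfsg.Agent.Helper16.Basic
-- import your own Cfsg.Agent.* helpers here

set_option autoImplicit false
open Cfsg

namespace Cfsg.Agent.S3183

open Cfsg.Agent.Helper16

theorem key {G : Type*} [Group G] [Finite G]
    (hCI : ∀ S T : Sylow 2 G, S ≠ T → ∃ U : Sylow 2 G,
      (S : Subgroup G) ⊓ (T : Subgroup G) ≤ (Subgroup.center ↥(U : Subgroup G)).map (U : Subgroup G).subtype) :
    ∀ n : ℕ, ∀ S T : Sylow 2 G, S ≠ T →
      Nat.card G - Nat.card ↥((S : Subgroup G) ⊓ (T : Subgroup G)) = n →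
      (S : Subgroup G) ⊓ (T : Subgroup G) ≤
        (Subgroup.center ↥(S : Subgroup G)).map (S : Subgroup G).subtype := by
  have hprime : Fact (Nat.Prime 2) := ⟨Nat.prime_two⟩
  intro n
  induction n using Nat.strong_induction_on with
  | _ n ih =>
  intro S T hST hn
  have hDS : (S : Subgroup G) ⊓ (T : Subgroup G) ≤ S := inf_le_left
  have hnSD : ¬ (S : Subgroup G) ≤ (S : Subgroup G) ⊓ (T : Subgroup G) := by
    intro h
    exact hST (sylow_eq_of_le S T (h.trans inf_le_right))
  obtain ⟨m, hmS, hmD, hmN⟩ := exists_mem_normalizer_not_mem S.2 hDS hnSD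
  obtain ⟨U, hU⟩ := hCI S T hST
  have hM2 : IsPGroup 2 ↥((S : Subgroup G) ⊓
      Subgroup.normalizer (((S : Subgroup G) ⊓ (T : Subgroup G) : Subgroup G) : Set G)) :=
    S.2.to_le inf_le_left
  obtain ⟨S₁, hS₁⟩ := (hM2.comap_subtype
    (K := Subgroup.normalizer (((S : Subgroup G) ⊓ (T : Subgroup G) : Subgroup G) : Set G))).exists_le_sylow
  have hS₁2 : IsPGroup 2 ↥((S₁ : Subgroup _).map
      (Subgroup.normalizer (((S : Subgroup G) ⊓ (T : Subgroup G) : Subgroup G) : Set G)).subtype) :=
    S₁.2.map _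
  obtain ⟨S₂, hS₂⟩ := hS₁2.exists_le_sylow
  have hMS₂ : (S : Subgroup G) ⊓
      Subgroup.normalizer (((S : Subgroup G) ⊓ (T : Subgroup G) : Subgroup G) : Set G) ≤ S₂ := by
    intro g hg
    apply hS₂
    exact ⟨⟨g, hg.2⟩, hS₁ hg, rfl⟩
  by_cases hS₂S : S₂ = S
  · have hUN : (U : Subgroup G) ≤
        Subgroup.normalizer (((S : Subgroup G) ⊓ (T : Subgroup G) : Subgroup G) : Set G) := by
      apply le_normalizer_of_conj_mem
      intro u hu d hd
      have := ((mem_map_center_iff _ d).mp (hU hd)).2 u hu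
      have e : u * d * u⁻¹ = d := by rw [this]; group
      rw [e]; exact hd
    obtain ⟨k, hk⟩ := exists_conj_le_sylow S₁ (U.2.comap_subtype
      (K := Subgroup.normalizer (((S : Subgroup G) ⊓ (T : Subgroup G) : Subgroup G) : Set G)))
    have hkU : ∀ u ∈ (U : Subgroup G), (k : G) * u * (k : G)⁻¹ ∈ (S : Subgroup G) := by
      intro u hu
      have h1 := hk ⟨u, hUN hu⟩ hu
      have h2 : (k : G) * u * (k : G)⁻¹ ∈ (S₂ : Subgroup G) := hS₂ ⟨_, h1, rfl⟩
      rw [hS₂S] at h2; exact h2
    have hkUS : ((k : G) • U : Sylow 2 G) = S := by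
      apply sylow_eq_of_le
      intro x hx
      rw [mem_sylow_smul_iff] at hx
      have := hkU _ hx
      have e : (k : G) * ((k : G)⁻¹ * x * (k : G)) * (k : G)⁻¹ = x := by group
      rwa [e] at this
    intro d hd
    rw [mem_map_center_iff]
    refine ⟨hDS hd, fun s hs => ?_⟩
    have hkN : (k : G)⁻¹ ∈
        Subgroup.normalizer (((S : Subgroup G) ⊓ (T : Subgroup G) : Subgroup G) : Set G) :=
      Subgroup.inv_mem _ k.2
    have hd' : (k : G)⁻¹ * d * (k : G) ∈ (S : Subgroup G) ⊓ (T : Subgroup G) := by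
      have := (Subgroup.mem_normalizer_iff.mp hkN d).mp hd
      rwa [inv_inv] at this
    have hu : (k : G)⁻¹ * s * (k : G) ∈ (U : Subgroup G) := by
      rw [← mem_sylow_smul_iff, hkUS]; exact hs
    have hcomm := ((mem_map_center_iff _ _).mp (hU hd')).2 _ hu
    calc s * d = (k : G) * (((k : G)⁻¹ * s * (k : G)) * ((k : G)⁻¹ * d * (k : G))) * (k : G)⁻¹ := by
          group
      _ = (k : G) * (((k : G)⁻¹ * d * (k : G)) * ((k : G)⁻¹ * s * (k : G))) * (k : G)⁻¹ := by
          rw [hcomm]
      _ = d * s := by group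
  · have hDle : (S : Subgroup G) ⊓ (T : Subgroup G) ≤ (S : Subgroup G) ⊓ (S₂ : Subgroup G) :=
      le_inf hDS (fun d hd => hMS₂ ⟨hDS hd, Subgroup.le_normalizer hd⟩)
    have hlt : Nat.card ↥((S : Subgroup G) ⊓ (T : Subgroup G)) <
        Nat.card ↥((S : Subgroup G) ⊓ (S₂ : Subgroup G)) := by
      by_contra hle
      rw [not_lt] at hle
      have := Subgroup.eq_of_le_of_card_ge hDle hle
      apply hmD
      rw [this]
      exact ⟨hmS, hMS₂ ⟨hmS, hmN⟩⟩
    have hcardle : Nat.card ↥((S : Subgroup G) ⊓ (S₂ : Subgroup G)) ≤ Nat.card G :=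
      Subgroup.card_le_card_group _
    have := ih (Nat.card G - Nat.card ↥((S : Subgroup G) ⊓ (S₂ : Subgroup G))) (by omega) S S₂
      (Ne.symm hS₂S) rfl
    intro d hd
    exact this (hDle hd)

/-- Let G be a finite group in which the intersection of any two distinct Sylow 2-subgroups is contained in the centre of some Sylow 2-subgroup, and let S be a Sylow 2-subgroup. Then for every x in S the centralizer of x in S is a Sylow 2-subgroup of the centralizer of x in G (no 2-subgroup centralizing x is larger), and for every other Sylow 2-subgroup T the intersection S ∩ T lies in both the centre of S and the centre of T. -/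
theorem result {G : Type*} [Group G] [Finite G]
    (hCI : ∀ S T : Sylow 2 G, S ≠ T → ∃ U : Sylow 2 G,
      (S : Subgroup G) ⊓ (T : Subgroup G) ≤ (Subgroup.center ↥(U : Subgroup G)).map (U : Subgroup G).subtype)
    (S : Sylow 2 G) :
    (∀ x ∈ (S : Subgroup G), ∀ P : Subgroup G, IsPGroup 2 ↥P → P ≤ Subgroup.centralizer ({x} : Set G) →
        Nat.card ↥P ≤ Nat.card ↥((S : Subgroup G) ⊓ Subgroup.centralizer ({x} : Set G))) ∧
    (∀ T : Sylow 2 G, T ≠ S →
        (S : Subgroup G) ⊓ (T : Subgroup G) ≤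
          (Subgroup.center ↥(S : Subgroup G)).map (S : Subgroup G).subtype ⊓
            (Subgroup.center ↥(T : Subgroup G)).map (T : Subgroup G).subtype) := by
  have hprime : Fact (Nat.Prime 2) := ⟨Nat.prime_two⟩
  have part2 : ∀ S T : Sylow 2 G, S ≠ T → (S : Subgroup G) ⊓ (T : Subgroup G) ≤
      (Subgroup.center ↥(S : Subgroup G)).map (S : Subgroup G).subtype :=
    fun S T h => key hCI _ S T h rfl
  refine ⟨?_, ?_⟩
  · intro x hx P hP hPx
    have hx2 : IsPGroup 2 ↥(Subgroup.zpowers x) := S.2.to_le (Subgroup.zpowers_le.mpr hx)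
    have hnorm : P ≤ Subgroup.normalizer ((Subgroup.zpowers x : Subgroup G) : Set G) := by
      apply le_normalizer_of_conj_mem
      intro g hg y hy
      obtain ⟨m, rfl⟩ := Subgroup.mem_zpowers_iff.mp hy
      have hgx : x * g = g * x := Subgroup.mem_centralizer_iff.mp (hPx hg) x (Set.mem_singleton x)
      have hc : Commute g (x ^ m) := Commute.zpow_right hgx.symm m
      have e : g * x ^ m * g⁻¹ = x ^ m := by rw [hc.eq]; group
      rw [e]; exact hy
    have hQ : IsPGroup 2 ↥(P ⊔ Subgroup.zpowers x) := IsPGroup.to_sup_of_normal_right' hP hx2 hnorm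
    obtain ⟨T, hT⟩ := hQ.exists_le_sylow
    have hPT : P ≤ T := le_sup_left.trans hT
    have hxT : x ∈ (T : Subgroup G) :=
      hT ((le_sup_right : Subgroup.zpowers x ≤ P ⊔ Subgroup.zpowers x) (Subgroup.mem_zpowers x))
    by_cases hTS : T = S
    · apply Subgroup.card_le_of_le
      rw [← hTS]
      exact le_inf hPT hPx
    · have hxZ := part2 S T (Ne.symm hTS) ⟨hx, hxT⟩
      have hSC : (S : Subgroup G) ≤ Subgroup.centralizer ({x} : Set G) := by
        intro s hs
        rw [Subgroup.mem_centralizer_iff]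
        intro y hy
        rw [Set.mem_singleton_iff] at hy
        rw [hy]
        exact (((mem_map_center_iff _ x).mp hxZ).2 s hs).symm
      rw [inf_eq_left.mpr hSC]
      calc Nat.card ↥P ≤ Nat.card ↥(T : Subgroup G) := Subgroup.card_le_of_le hPT
        _ = Nat.card ↥(S : Subgroup G) := by
          rw [Sylow.card_eq_multiplicity, Sylow.card_eq_multiplicity]
  · intro T hTS
    exact le_inf (part2 S T (Ne.symm hTS)) (by rw [inf_comm]; exact part2 T S hTS)

end Cfsg.Agent.S3183
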