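import Mathlib
import Cfsg.Statements.S3190
import Cfsg.Agent.Helper16.Basic
-- import your own Cfsg.Agent.* helpers here

set_option autoImplicit false
open Cfsg

namespace Cfsg.Agent.S3190

open Cfsg.Agent.Helper16

/-- Let p be an odd prime and, inside a finite group, let P be a p-subgroup normalized by a Klein four-group T. Let R be a subgroup of P, normal in P and normalized by T, such that P is the product of R with the centralizer of T in P. If T centralizes the centre of P, then T centralizes the centre of R. -/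
theorem result {X : Type*} [Group X] [Finite X]
    {p : ℕ} (hp : p.Prime) (hodd : Odd p) (P T R : Subgroup X) (hP : IsPGroup p ↥P) (hT : IsKleinFour ↥T)
    (hTP : T ≤ Subgroup.normalizer (P : Set X)) (hRP : R ≤ P) (hRn : (R.subgroupOf P).Normal)
    (hTR : T ≤ Subgroup.normalizer (R : Set X)) (hfac : R ⊔ (P ⊓ Subgroup.centralizer (T : Set X)) = P)
    (hZ : T ≤ Subgroup.centralizer (((Subgroup.center ↥P).map P.subtype : Subgroup X) : Set X)) :
    T ≤ Subgroup.centralizer (((Subgroup.center ↥R).map R.subtype : Subgroup X) : Set X) := by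
  have hpf : Fact p.Prime := ⟨hp⟩
  intro t ht
  have htt : t * t = 1 := by
    have := hT
    have h := IsKleinFour.mul_self (⟨t, ht⟩ : ↥T)
    exact congrArg Subtype.val h
  have hti : t⁻¹ = t := inv_eq_of_mul_eq_one_right htt
  have htR : ∀ r ∈ R, t * r * t⁻¹ ∈ R := fun r hr =>
    (Subgroup.mem_normalizer_iff.mp (hTR ht) r).mp hr
  have htR' : ∀ r ∈ R, t⁻¹ * r * t ∈ R := by
    intro r hr
    have := htR r hr
    rw [hti] at this ⊢
    exact this
  -- conjugation by t preserves Z(R)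
  have htZ : ∀ z ∈ (Subgroup.center ↥R).map R.subtype, t * z * t⁻¹ ∈ (Subgroup.center ↥R).map R.subtype := by
    intro z hz
    rw [mem_map_center_iff] at hz ⊢
    refine ⟨htR z hz.1, fun r hr => ?_⟩
    have h1 := hz.2 _ (htR' r hr)
    calc r * (t * z * t⁻¹) = t * ((t⁻¹ * r * t) * z) * t⁻¹ := by group
      _ = t * (z * (t⁻¹ * r * t)) * t⁻¹ := by rw [h1]
      _ = t * z * t⁻¹ * r := by group
  -- the subgroup of Z(R) inverted by t
  let W : Subgroup X :=
    { carrier := {z | z ∈ (Subgroup.center ↥R).map R.subtype ∧ t * z * t⁻¹ = z⁻¹}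
      one_mem' := ⟨Subgroup.one_mem _, by simp⟩
      mul_mem' := by
        rintro a b ⟨ha, ha'⟩ ⟨hb, hb'⟩
        refine ⟨Subgroup.mul_mem _ ha hb, ?_⟩
        have hab : b * a = a * b := ((mem_map_center_iff R a).mp ha).2 b ((mem_map_center_iff R b).mp hb).1
        calc t * (a * b) * t⁻¹ = (t * a * t⁻¹) * (t * b * t⁻¹) := by group
          _ = a⁻¹ * b⁻¹ := by rw [ha', hb']
          _ = (b * a)⁻¹ := by rw [mul_inv_rev]
          _ = (a * b)⁻¹ := by rw [hab]
      inv_mem' := by
        rintro a ⟨ha, ha'⟩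
        refine ⟨Subgroup.inv_mem _ ha, ?_⟩
        calc t * a⁻¹ * t⁻¹ = (t * a * t⁻¹)⁻¹ := by group
          _ = a⁻¹⁻¹ := by rw [ha'] }
  have hWmem : ∀ z, z ∈ W ↔ z ∈ (Subgroup.center ↥R).map R.subtype ∧ t * z * t⁻¹ = z⁻¹ := fun z => Iff.rfl
  have hWR : W ≤ R := fun z hz => ((mem_map_center_iff R z).mp ((hWmem z).mp hz).1).1
  have hWP : W ≤ P := hWR.trans hRP
  have hWp : IsPGroup p W := hP.to_le hWP
  -- P normalizes W
  have hPW : P ≤ Subgroup.normalizer (W : Set X) := by
    have h1 : R ≤ Subgroup.normalizer (W : Set X) := by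
      apply le_normalizer_of_conj_mem
      intro r hr w hw
      have := ((mem_map_center_iff R w).mp ((hWmem w).mp hw).1).2 r hr
      have e : r * w * r⁻¹ = w := by rw [this]; group
      rw [e]; exact hw
    have h2 : P ⊓ Subgroup.centralizer (T : Set X) ≤ Subgroup.normalizer (W : Set X) := by
      apply le_normalizer_of_conj_mem
      rintro c ⟨hcP, hcT⟩ w hw
      have hct : t * c = c * t := Subgroup.mem_centralizer_iff.mp hcT t ht
      obtain ⟨hwZ, hwt⟩ := (hWmem w).mp hw
      obtain ⟨hwR, hwc⟩ := (mem_map_center_iff R w).mp hwZ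
      -- conjugation by elements of P preserves R
      have hcR : ∀ c ∈ P, ∀ r ∈ R, c * r * c⁻¹ ∈ R := by
        intro c hc r hr
        have := hRn.conj_mem ⟨r, hRP hr⟩ (Subgroup.mem_subgroupOf.mpr hr) ⟨c, hc⟩
        exact Subgroup.mem_subgroupOf.mp this
      rw [hWmem]
      refine ⟨(mem_map_center_iff R _).mpr ⟨hcR c hcP w hwR, fun r hr => ?_⟩, ?_⟩
      · have h3 := hcR c⁻¹ (P.inv_mem hcP) r hr
        rw [inv_inv] at h3
        have h4 := hwc _ h3
        calc r * (c * w * c⁻¹) = c * ((c⁻¹ * r * c) * w) * c⁻¹ := by group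
          _ = c * (w * (c⁻¹ * r * c)) * c⁻¹ := by rw [h4]
          _ = c * w * c⁻¹ * r := by group
      · have hct' : t * c⁻¹ = c⁻¹ * t := by
          calc t * c⁻¹ = c⁻¹ * (c * t) * c⁻¹ := by group
            _ = c⁻¹ * (t * c) * c⁻¹ := by rw [hct]
            _ = c⁻¹ * t := by group
        calc t * (c * w * c⁻¹) * t⁻¹ = (t * c) * w * (c⁻¹ * t⁻¹) := by group
          _ = (c * t) * w * (c⁻¹ * t⁻¹) := by rw [hct]
          _ = c * (t * w * t⁻¹) * (t * c⁻¹) * t⁻¹ := by group
          _ = c * (t * w * t⁻¹) * (c⁻¹ * t) * t⁻¹ := by rw [hct']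
          _ = c * w⁻¹ * c⁻¹ := by rw [hwt]; group
          _ = (c * w * c⁻¹)⁻¹ := by group
    rw [← hfac]
    exact sup_le h1 h2
  -- W is trivial
  have hWbot : W = ⊥ := by
    by_contra hne
    obtain ⟨w, hw, hw1, hwc⟩ := exists_ne_one_centralized hP hWp hne hPW
    apply hw1
    obtain ⟨hwZ, hwt⟩ := (hWmem w).mp hw
    have hwZP : w ∈ (Subgroup.center ↥P).map P.subtype := by
      rw [mem_map_center_iff]
      refine ⟨hWP hw, fun g hg => ?_⟩
      have := hwc g hg
      calc g * w = (g * w * g⁻¹) * g := by group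
        _ = w * g := by rw [this]
    have hcomm : w * t = t * w := Subgroup.mem_centralizer_iff.mp (hZ ht) w hwZP
    have hww : w * w = 1 := by
      have : t * w * t⁻¹ = w := by rw [← hcomm]; group
      rw [this] at hwt
      calc w * w = w * w⁻¹ := by rw [← hwt]
        _ = 1 := mul_inv_cancel w
    exact eq_one_of_mul_self_of_isPGroup_odd hodd hP (hWP hw) hww
  -- conclude
  show t ∈ Subgroup.centralizer (((Subgroup.center ↥R).map R.subtype : Subgroup X) : Set X)
  rw [Subgroup.mem_centralizer_iff]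
  intro z hz
  have hz' : z ∈ (Subgroup.center ↥R).map R.subtype := hz
  have hzinv : t * z⁻¹ * t⁻¹ ∈ (Subgroup.center ↥R).map R.subtype := htZ _ (Subgroup.inv_mem _ hz')
  have hw : z * (t * z⁻¹ * t⁻¹) ∈ W := by
    rw [hWmem]
    refine ⟨Subgroup.mul_mem _ hz' hzinv, ?_⟩
    calc t * (z * (t * z⁻¹ * t⁻¹)) * t⁻¹ = (t * z * t⁻¹) * ((t * t) * z⁻¹ * (t * t)⁻¹) := by group
      _ = (t * z * t⁻¹) * z⁻¹ := by rw [htt]; group
      _ = (z * (t * z⁻¹ * t⁻¹))⁻¹ := by group
  rw [hWbot, Subgroup.mem_bot] at hw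
  -- z = t z t⁻¹
  calc z * t = z * (t * z⁻¹ * t⁻¹) * (t * z) := by group
    _ = t * z := by rw [hw, one_mul]

end Cfsg.Agent.S3190
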