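import Mathlib
import Cfsg.Statements.S3195
import Cfsg.Agent.Helper16.BaerSuzuki
import Cfsg.Agent.Helper16.Sylow2
-- import your own Cfsg.Agent.* helpers here

set_option autoImplicit false
open Cfsg

namespace Cfsg.Agent.S3195

open Cfsg.Agent.Helper16

theorem eq_one_of_odd_of_two_pow {G : Type*} [Group G] {x : G} {m j : ℕ} (hm : Odd m)
    (h1 : x ^ m = 1) (h2 : x ^ (2 ^ j) = 1) : x = 1 := by
  have d1 : orderOf x ∣ m := orderOf_dvd_of_pow_eq_one h1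
  have d2 : orderOf x ∣ 2 ^ j := orderOf_dvd_of_pow_eq_one h2
  have hcop : Nat.gcd m (2 ^ j) = 1 := Nat.Coprime.pow_right j hm.coprime_two_right
  exact orderOf_eq_one_iff.1 (Nat.dvd_one.1 (by rw [← hcop]; exact Nat.dvd_gcd d1 d2))

theorem commute_of_sq_commute {G : Type*} [Group G] {x w : G} {m : ℕ} (hm : Odd m)
    (h1 : x ^ m = 1) (h : Commute (x ^ 2) w) : Commute x w := by
  obtain ⟨j, rfl⟩ := hm
  have : x = (x ^ 2) ^ (j + 1) := by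
    rw [← pow_mul, show 2 * (j + 1) = (2 * j + 1) + 1 by ring, pow_succ, h1, one_mul]
  rw [this]; exact h.pow_left _

theorem fin_lemma {G : Type*} [Group G] (U W : G) (hα : U * W * U = W⁻¹)
    (hβ : U * W ^ 2 * U = (W ^ 2)⁻¹) : U ^ 2 = 1 := by
  have h1 : W * U = U⁻¹ * W⁻¹ := by rw [← hα]; group
  have h2 : U * W * U⁻¹ = W⁻¹ := by
    calc U * W * U⁻¹ = (U * W ^ 2 * U) * (W * U)⁻¹ * U⁻¹ := by group
      _ = (W ^ 2)⁻¹ * (U⁻¹ * W⁻¹)⁻¹ * U⁻¹ := by rw [hβ, h1]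
      _ = W⁻¹ := by group
  calc U ^ 2 = (U * W * U⁻¹)⁻¹ * (U * W * U) := by rw [pow_two]; group
    _ = 1 := by rw [h2, hα]; group

theorem key_lemma {G : Type*} [Group G] (x₁ x₂ p q r : G) (m₁ m₂ : ℕ)
    (hm₁ : Odd m₁) (hm₂ : Odd m₂) (hx₁ : x₁ ^ m₁ = 1) (hx₂ : x₂ ^ m₂ = 1) (h1 : x₁ ≠ 1)
    (h2 : x₂ ≠ 1)
    (hp1 : p * x₁ * p⁻¹ = x₁⁻¹) (hp2 : p * x₂ * p⁻¹ = x₂)
    (hq1 : q * x₁ * q⁻¹ = x₁) (hq2 : q * x₂ * q⁻¹ = x₂⁻¹)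
    (hr1 : r * x₁ * r⁻¹ = x₁⁻¹) (hr2 : r * x₂ * r⁻¹ = x₂⁻¹)
    (hpr : Commute p r) (hqr : Commute q r)
    (hyp : ∀ g : G, Commute p (g * r * g⁻¹) ∨ Commute q (g * r * g⁻¹) ∨
      Commute r (g * r * g⁻¹)) : False := by
  have hconj : ∀ (y t : G) (k : ℕ), y * t ^ k * y⁻¹ = (y * t * y⁻¹) ^ k :=
    fun y t k => (conj_pow).symm
  have step : ∀ k j : ℕ, 4 * k = 2 ^ j →
      (x₂ ^ k * x₁ ^ 2 * x₂ ^ k) * (x₂ ^ k * x₁ ^ 2 * x₂ ^ k) = 1 := by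
    intro k j hkj
    have hc : (x₁ * x₂ ^ k)⁻¹ * r * (x₁ * x₂ ^ k)⁻¹⁻¹ = (x₂ ^ k * x₁ ^ 2 * x₂ ^ k)⁻¹ * r := by
      have e : r * (x₁ * x₂ ^ k) * r⁻¹ = x₁⁻¹ * (x₂⁻¹) ^ k := by
        calc r * (x₁ * x₂ ^ k) * r⁻¹ = (r * x₁ * r⁻¹) * (r * x₂ ^ k * r⁻¹) := by group
          _ = x₁⁻¹ * (x₂⁻¹) ^ k := by rw [hr1, hconj, hr2]
      calc (x₁ * x₂ ^ k)⁻¹ * r * (x₁ * x₂ ^ k)⁻¹⁻¹
          = (x₁ * x₂ ^ k)⁻¹ * (r * (x₁ * x₂ ^ k) * r⁻¹) * r := by group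
        _ = (x₁ * x₂ ^ k)⁻¹ * (x₁⁻¹ * (x₂⁻¹) ^ k) * r := by rw [e]
        _ = (x₂ ^ k * x₁ ^ 2 * x₂ ^ k)⁻¹ * r := by group
    have hcomm : ∀ y : G, Commute y r →
        Commute y ((x₁ * x₂ ^ k)⁻¹ * r * (x₁ * x₂ ^ k)⁻¹⁻¹) →
        Commute y (x₂ ^ k * x₁ ^ 2 * x₂ ^ k) := by
      intro y hyr hy
      rw [hc] at hy
      have h3 : Commute y ((x₂ ^ k * x₁ ^ 2 * x₂ ^ k)⁻¹ * r * r⁻¹) := hy.mul_right hyr.inv_right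
      rw [mul_inv_cancel_right] at h3
      have := h3.inv_right
      rwa [inv_inv] at this
    rcases hyp (x₁ * x₂ ^ k)⁻¹ with hy | hy | hy
    · exfalso
      have hpk := hcomm p hpr hy
      have e : p * (x₂ ^ k * x₁ ^ 2 * x₂ ^ k) * p⁻¹ = x₂ ^ k * (x₁⁻¹) ^ 2 * x₂ ^ k := by
        calc p * (x₂ ^ k * x₁ ^ 2 * x₂ ^ k) * p⁻¹
            = (p * x₂ ^ k * p⁻¹) * (p * x₁ ^ 2 * p⁻¹) * (p * x₂ ^ k * p⁻¹) := by group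
          _ = x₂ ^ k * (x₁⁻¹) ^ 2 * x₂ ^ k := by rw [hconj, hconj, hp1, hp2]
      have e' : p * (x₂ ^ k * x₁ ^ 2 * x₂ ^ k) * p⁻¹ = x₂ ^ k * x₁ ^ 2 * x₂ ^ k := by
        rw [hpk.eq, mul_inv_cancel_right]
      rw [e'] at e
      have e3 : x₁ ^ 2 = (x₁⁻¹) ^ 2 := mul_left_cancel (mul_right_cancel e)
      have e4 : x₁ ^ (2 ^ 2) = 1 := by
        have : x₁ ^ (2 ^ 2) = x₁ ^ 2 * ((x₁⁻¹) ^ 2)⁻¹ := by group
        rw [this, ← e3, mul_inv_cancel]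
      exact h1 (eq_one_of_odd_of_two_pow hm₁ hx₁ e4)
    · exfalso
      have hqk := hcomm q hqr hy
      have e : q * (x₂ ^ k * x₁ ^ 2 * x₂ ^ k) * q⁻¹ = (x₂⁻¹) ^ k * x₁ ^ 2 * (x₂⁻¹) ^ k := by
        calc q * (x₂ ^ k * x₁ ^ 2 * x₂ ^ k) * q⁻¹
            = (q * x₂ ^ k * q⁻¹) * (q * x₁ ^ 2 * q⁻¹) * (q * x₂ ^ k * q⁻¹) := by group
          _ = (x₂⁻¹) ^ k * x₁ ^ 2 * (x₂⁻¹) ^ k := by rw [hconj, hconj, hq1, hq2]
      have e' : q * (x₂ ^ k * x₁ ^ 2 * x₂ ^ k) * q⁻¹ = x₂ ^ k * x₁ ^ 2 * x₂ ^ k := by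
        rw [hqk.eq, mul_inv_cancel_right]
      rw [e'] at e
      have hUm : (x₁ ^ 2) ^ m₁ = 1 := by rw [← pow_mul, mul_comm, pow_mul, hx₁, one_pow]
      generalize hU : x₁ ^ 2 = U at e hUm
      have e5 : (x₂ ^ k * x₂ ^ k) * U * (x₂ ^ k * x₂ ^ k) = U := by
        calc (x₂ ^ k * x₂ ^ k) * U * (x₂ ^ k * x₂ ^ k)
            = x₂ ^ k * (x₂ ^ k * U * x₂ ^ k) * x₂ ^ k := by group
          _ = x₂ ^ k * ((x₂⁻¹) ^ k * U * (x₂⁻¹) ^ k) * x₂ ^ k := by rw [e]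
          _ = U := by group
      have hWW : (x₂ ^ k * x₂ ^ k) * (x₂ ^ k * x₂ ^ k) = x₂ ^ (2 ^ j) := by
        rw [← hkj, ← pow_add, ← pow_add]; congr 1; ring
      generalize hW : x₂ ^ k * x₂ ^ k = W at e5 hWW
      have e6 : U * W * U⁻¹ = W⁻¹ := by
        calc U * W * U⁻¹ = W⁻¹ * (W * U * W) * U⁻¹ := by group
          _ = W⁻¹ * U * U⁻¹ := by rw [e5]
          _ = W⁻¹ := by group
      have e7 : Commute (U ^ 2) W := by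
        have h7 : U ^ 2 * W * (U ^ 2)⁻¹ = W := by
          calc U ^ 2 * W * (U ^ 2)⁻¹ = U * (U * W * U⁻¹) * U⁻¹ := by rw [pow_two]; group
            _ = U * W⁻¹ * U⁻¹ := by rw [e6]
            _ = (U * W * U⁻¹)⁻¹ := by group
            _ = W := by rw [e6, inv_inv]
        show U ^ 2 * W = W * U ^ 2
        calc U ^ 2 * W = (U ^ 2 * W * (U ^ 2)⁻¹) * U ^ 2 := by group
          _ = W * U ^ 2 := by rw [h7]
      have e8 : Commute U W := commute_of_sq_commute hm₁ hUm e7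
      have e9 : W⁻¹ = W := by
        rw [← e6, e8.eq, mul_inv_cancel_right]
      have e10 : W * W = 1 := by
        calc W * W = W⁻¹ * W := by rw [e9]
          _ = 1 := inv_mul_cancel W
      rw [e10] at hWW
      exact h2 (eq_one_of_odd_of_two_pow hm₂ hx₂ hWW.symm)
    · have hrk := hcomm r (Commute.refl r) hy
      have e : r * (x₂ ^ k * x₁ ^ 2 * x₂ ^ k) * r⁻¹ = (x₂ ^ k * x₁ ^ 2 * x₂ ^ k)⁻¹ := by
        calc r * (x₂ ^ k * x₁ ^ 2 * x₂ ^ k) * r⁻¹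
            = (r * x₂ ^ k * r⁻¹) * (r * x₁ ^ 2 * r⁻¹) * (r * x₂ ^ k * r⁻¹) := by group
          _ = (x₂⁻¹) ^ k * (x₁⁻¹) ^ 2 * (x₂⁻¹) ^ k := by rw [hconj, hconj, hr1, hr2]
          _ = (x₂ ^ k * x₁ ^ 2 * x₂ ^ k)⁻¹ := by group
      have e' : r * (x₂ ^ k * x₁ ^ 2 * x₂ ^ k) * r⁻¹ = x₂ ^ k * x₁ ^ 2 * x₂ ^ k := by
        rw [hrk.eq, mul_inv_cancel_right]
      have e2 : (x₂ ^ k * x₁ ^ 2 * x₂ ^ k)⁻¹ = x₂ ^ k * x₁ ^ 2 * x₂ ^ k := e.symm.trans e'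
      calc (x₂ ^ k * x₁ ^ 2 * x₂ ^ k) * (x₂ ^ k * x₁ ^ 2 * x₂ ^ k)
          = (x₂ ^ k * x₁ ^ 2 * x₂ ^ k)⁻¹ * (x₂ ^ k * x₁ ^ 2 * x₂ ^ k) := by rw [e2]
        _ = 1 := inv_mul_cancel _
  have s1 := step 1 2 (by norm_num)
  have s2 := step 2 3 (by norm_num)
  have hα : x₁ ^ 2 * x₂ ^ 2 * x₁ ^ 2 = (x₂ ^ 2)⁻¹ := by
    calc x₁ ^ 2 * x₂ ^ 2 * x₁ ^ 2
        = x₂⁻¹ * ((x₂ ^ 1 * x₁ ^ 2 * x₂ ^ 1) * (x₂ ^ 1 * x₁ ^ 2 * x₂ ^ 1)) * x₂⁻¹ := by group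
      _ = (x₂ ^ 2)⁻¹ := by rw [s1]; group
  have hβ : x₁ ^ 2 * (x₂ ^ 2) ^ 2 * x₁ ^ 2 = ((x₂ ^ 2) ^ 2)⁻¹ := by
    calc x₁ ^ 2 * (x₂ ^ 2) ^ 2 * x₁ ^ 2
        = (x₂ ^ 2)⁻¹ * ((x₂ ^ 2 * x₁ ^ 2 * x₂ ^ 2) * (x₂ ^ 2 * x₁ ^ 2 * x₂ ^ 2)) * (x₂ ^ 2)⁻¹ := by
          group
      _ = ((x₂ ^ 2) ^ 2)⁻¹ := by rw [s2]; group
  have hU2 : (x₁ ^ 2) ^ 2 = 1 := fin_lemma _ _ hα hβ
  have h22 : (2 : ℕ) ^ 2 = 2 * 2 := by norm_num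
  exact h1 (eq_one_of_odd_of_two_pow (j := 2) hm₁ hx₁ (by rw [h22, pow_mul]; exact hU2))


/-- Let A be a Klein four-subgroup of a finite group G. If every G-conjugate of every involution of A commutes with some involution of A (its centralizer meets A nontrivially), then A meets the largest normal 2-subgroup O₂(G) nontrivially. -/
theorem result {G : Type*} [Group G] [Finite G]
    (A : Subgroup G) (hA : IsKleinFour ↥A)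
    (h : ∀ a ∈ A, a ≠ 1 → ∀ g : G, A ⊓ Subgroup.centralizer ({g * a * g⁻¹} : Set G) ≠ ⊥) :
    A ⊓ Cfsg.pCore 2 G ≠ ⊥ := by
  intro hbot
  have hsq : ∀ a ∈ A, a * a = 1 := fun a ha => by
    have := IsKleinFour.mul_self (⟨a, ha⟩ : ↥A)
    exact congrArg Subtype.val this
  have hinv : ∀ a ∈ A, a⁻¹ = a := fun a ha => inv_eq_of_mul_eq_one_left (hsq a ha)
  have hcomm : ∀ a ∈ A, ∀ b ∈ A, a * b = b * a := by
    intro a ha b hb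
    have h1 := hsq (a * b) (A.mul_mem ha hb)
    calc a * b = (a * b) * (a * b) * (b⁻¹ * a⁻¹) := by group
      _ = b⁻¹ * a⁻¹ := by rw [h1, one_mul]
      _ = b * a := by rw [hinv a ha, hinv b hb]
  have hnot : ∀ a ∈ A, a ≠ 1 → a ∉ Cfsg.pCore 2 G := by
    intro a ha ha1 hmem
    have : a ∈ A ⊓ Cfsg.pCore 2 G := ⟨ha, hmem⟩
    rw [hbot] at this
    exact ha1 (Subgroup.mem_bot.1 this)
  have stepi : ∀ a ∈ A, a ≠ 1 → ∃ (x : G) (m : ℕ) (y : G), x ≠ 1 ∧ Odd m ∧ x ^ m = 1 ∧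
      a * x * a⁻¹ = x⁻¹ ∧ y ∈ A ∧ y ≠ 1 ∧ y ≠ a ∧ y * x * y⁻¹ = x := by
    intro a ha ha1
    obtain ⟨x, m, hx1, hm, hxm, hax⟩ :=
      exists_inverted_of_not_mem_pCore a (hsq a ha) (hnot a ha ha1)
    have hne := h a ha ha1 x⁻¹
    obtain ⟨y, hyAC, hy1⟩ : ∃ y ∈ A ⊓ Subgroup.centralizer ({x⁻¹ * a * x⁻¹⁻¹} : Set G),
        y ≠ 1 := by
      by_contra hc; push Not at hc
      exact hne ((Subgroup.eq_bot_iff_forall _).2 hc)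
    have hyA := hyAC.1
    have hyc : (x⁻¹ * a * x⁻¹⁻¹) * y = y * (x⁻¹ * a * x⁻¹⁻¹) :=
      (mem_centralizer_singleton_iff _ _).1 hyAC.2
    have e1 : x⁻¹ * a * x⁻¹⁻¹ = a * x ^ 2 := by
      calc x⁻¹ * a * x⁻¹⁻¹ = (a * x * a⁻¹) * a * x := by rw [hax, inv_inv]
        _ = a * x ^ 2 := by rw [pow_two]; group
    rw [e1] at hyc
    have hya : a * y = y * a := hcomm a ha y hyA
    have hyx2 : Commute (x ^ 2) y := by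
      show x ^ 2 * y = y * x ^ 2
      calc x ^ 2 * y = a⁻¹ * (a * x ^ 2 * y) := by group
        _ = a⁻¹ * (y * (a * x ^ 2)) := by rw [hyc]
        _ = a⁻¹ * (y * a) * x ^ 2 := by group
        _ = a⁻¹ * (a * y) * x ^ 2 := by rw [hya]
        _ = y * x ^ 2 := by group
    have hyx : Commute x y := commute_of_sq_commute hm hxm hyx2
    refine ⟨x, m, y, hx1, hm, hxm, hax, hyA, hy1, ?_, ?_⟩
    · intro hya'
      rw [hya'] at hyx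
      have hxi : x⁻¹ = x := by rw [← hax, ← hyx.eq, mul_inv_cancel_right]
      have hx2 : x ^ (2 ^ 1) = 1 := by
        rw [pow_one, pow_two]
        calc x * x = x⁻¹ * x := by rw [hxi]
          _ = 1 := inv_mul_cancel x
      exact hx1 (eq_one_of_odd_of_two_pow hm hxm hx2)
    · rw [← hyx.eq, mul_inv_cancel_right]
  obtain ⟨a, ha, ha1⟩ : ∃ a ∈ A, a ≠ 1 := by
    by_contra hc; push Not at hc
    have hAb : A = ⊥ := (Subgroup.eq_bot_iff_forall _).2 hc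
    have h4 : Nat.card ↥A = 4 := IsKleinFour.card_four
    have h1 : Nat.card ↥A = 1 := Subgroup.card_eq_one.2 hAb
    omega
  obtain ⟨x₁, m₁, y₁, hx₁1, hm₁, hx₁m, hax₁, hy₁A, hy₁1, hy₁a, hy₁x₁⟩ := stepi a ha ha1
  obtain ⟨x₂, m₂, y₂, hx₂1, hm₂, hx₂m, hy₁x₂, hy₂A, hy₂1, hy₂y₁, hy₂x₂⟩ := stepi y₁ hy₁A hy₁1
  have hp1 : y₂ * x₁ * y₂⁻¹ = x₁⁻¹ := by
    by_cases hya : y₂ = a
    · rw [hya]; exact hax₁
    · have h3 := IsKleinFour.eq_mul_of_ne_all (G := ↥A) (x := ⟨a, ha⟩) (y := ⟨y₁, hy₁A⟩)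
        (z := ⟨y₂, hy₂A⟩) (fun h => ha1 (congrArg Subtype.val h))
        (fun h => hy₁1 (congrArg Subtype.val h))
        (fun h => hy₁a (congrArg Subtype.val h).symm)
        (fun h => hy₂1 (congrArg Subtype.val h))
        (fun h => hya (congrArg Subtype.val h))
        (fun h => hy₂y₁ (congrArg Subtype.val h))
      have h4 : y₂ = a * y₁ := congrArg Subtype.val h3
      rw [h4]
      calc a * y₁ * x₁ * (a * y₁)⁻¹ = a * (y₁ * x₁ * y₁⁻¹) * a⁻¹ := by group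
        _ = x₁⁻¹ := by rw [hy₁x₁, hax₁]
  have hr1 : (y₂ * y₁) * x₁ * (y₂ * y₁)⁻¹ = x₁⁻¹ := by
    calc (y₂ * y₁) * x₁ * (y₂ * y₁)⁻¹ = y₂ * (y₁ * x₁ * y₁⁻¹) * y₂⁻¹ := by group
      _ = x₁⁻¹ := by rw [hy₁x₁, hp1]
  have hr2 : (y₂ * y₁) * x₂ * (y₂ * y₁)⁻¹ = x₂⁻¹ := by
    calc (y₂ * y₁) * x₂ * (y₂ * y₁)⁻¹ = y₂ * (y₁ * x₂ * y₁⁻¹) * y₂⁻¹ := by group
      _ = y₂ * x₂⁻¹ * y₂⁻¹ := by rw [hy₁x₂]
      _ = (y₂ * x₂ * y₂⁻¹)⁻¹ := by group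
      _ = x₂⁻¹ := by rw [hy₂x₂]
  have hrA : y₂ * y₁ ∈ A := A.mul_mem hy₂A hy₁A
  have hr1' : y₂ * y₁ ≠ 1 := by
    intro h3
    apply hy₂y₁
    calc y₂ = (y₂ * y₁) * y₁⁻¹ := by group
      _ = y₁ := by rw [h3, one_mul, hinv y₁ hy₁A]
  have h21 : y₂ * y₁ = y₁ * y₂ := hcomm y₂ hy₂A y₁ hy₁A
  have hpr : Commute y₂ (y₂ * y₁) := by
    show y₂ * (y₂ * y₁) = (y₂ * y₁) * y₂
    rw [mul_assoc, h21]
  have hqr : Commute y₁ (y₂ * y₁) := by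
    show y₁ * (y₂ * y₁) = (y₂ * y₁) * y₁
    rw [← mul_assoc, h21]
  refine key_lemma x₁ x₂ y₂ y₁ (y₂ * y₁) m₁ m₂ hm₁ hm₂ hx₁m hx₂m hx₁1 hx₂1 hp1 hy₂x₂ hy₁x₁
    hy₁x₂ hr1 hr2 hpr hqr ?_
  intro g
  have hne := h (y₂ * y₁) hrA hr1' g
  obtain ⟨y, hyAC, hy1⟩ : ∃ y ∈ A ⊓ Subgroup.centralizer ({g * (y₂ * y₁) * g⁻¹} : Set G),
      y ≠ 1 := by
    by_contra hc; push Not at hc
    exact hne ((Subgroup.eq_bot_iff_forall _).2 hc)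
  have hyc : Commute y (g * (y₂ * y₁) * g⁻¹) :=
    ((mem_centralizer_singleton_iff _ _).1 hyAC.2).symm
  by_cases hy2 : y = y₂
  · left; rw [hy2] at hyc; exact hyc
  · by_cases hy3 : y = y₁
    · right; left; rw [hy3] at hyc; exact hyc
    · right; right
      have h3 := IsKleinFour.eq_mul_of_ne_all (G := ↥A) (x := ⟨y₂, hy₂A⟩) (y := ⟨y₁, hy₁A⟩)
        (z := ⟨y, hyAC.1⟩) (fun h => hy₂1 (congrArg Subtype.val h))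
        (fun h => hy₁1 (congrArg Subtype.val h))
        (fun h => hy₂y₁ (congrArg Subtype.val h))
        (fun h => hy1 (congrArg Subtype.val h))
        (fun h => hy2 (congrArg Subtype.val h))
        (fun h => hy3 (congrArg Subtype.val h))
      have h4 : y = y₂ * y₁ := congrArg Subtype.val h3
      rw [h4] at hyc; exact hyc

end Cfsg.Agent.S3195
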