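import Mathlib
import Cfsg.Statements.S3200
import Cfsg.Agent.Helper16.NPC
import Cfsg.Agent.Helper16.Sylow2
import Cfsg.Agent.Helper1.Hall
import Cfsg.Agent.Helper24.CharBurnside
-- import your own Cfsg.Agent.* helpers here

set_option autoImplicit false
open Cfsg

namespace Cfsg.Agent.S3200

open Cfsg.Agent.Helper16

theorem compl_of_data {L : Type*} [Group L] [Finite L] (S C : Subgroup L)
    (hS : IsPGroup 2 S) (hodd : Odd (Nat.card C))
    (hcard : Nat.card S * Nat.card C = Nat.card L) : Subgroup.IsComplement' S C := by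
  apply Subgroup.isComplement'_of_coprime hcard
  obtain ⟨k, hk⟩ := IsPGroup.iff_card.1 hS
  rw [hk]
  exact Nat.Coprime.pow_left k (Nat.coprime_two_left.2 hodd)

theorem exists_sylow_compl {L : Type*} [Group L] [Finite L] (S C : Subgroup L)
    (hS : IsPGroup 2 S) (hC : IsMulCommutative C) (hodd : Odd (Nat.card C))
    (hcard : Nat.card S * Nat.card C = Nat.card L) :
    ∃ (P : Sylow 2 L) (D : Subgroup L), IsMulCommutative D ∧
      Subgroup.IsComplement' (P : Subgroup L) D := by
  haveI : Fact (Nat.Prime 2) := ⟨Nat.prime_two⟩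
  have hidx : ¬ 2 ∣ S.index := by
    have h1 : Nat.card S * S.index = Nat.card L := Subgroup.card_mul_index S
    have h2 : S.index = Nat.card C :=
      Nat.eq_of_mul_eq_mul_left Nat.card_pos (h1.trans hcard.symm)
    rw [h2]; exact hodd.not_two_dvd_nat
  refine ⟨hS.toSylow hidx, C, hC, ?_⟩
  rw [IsPGroup.toSylow_coe]
  exact compl_of_data S C hS hodd hcard

theorem quot_data {H : Type*} [Group H] [Finite H] (N : Subgroup H) [N.Normal]
    (S C : Subgroup H) (hS : IsPGroup 2 S) (hC : IsMulCommutative C) (hodd : Odd (Nat.card C))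
    (hcard : Nat.card S * Nat.card C = Nat.card H) :
    IsPGroup 2 (S.map (QuotientGroup.mk' N)) ∧ IsMulCommutative (C.map (QuotientGroup.mk' N)) ∧
      Odd (Nat.card (C.map (QuotientGroup.mk' N))) ∧
      Nat.card (S.map (QuotientGroup.mk' N)) * Nat.card (C.map (QuotientGroup.mk' N)) =
        Nat.card (H ⧸ N) := by
  have hoddq : Odd (Nat.card (C.map (QuotientGroup.mk' N))) :=
    Odd.of_dvd_nat hodd (Subgroup.card_map_dvd C _)
  have hSq : IsPGroup 2 (S.map (QuotientGroup.mk' N)) := hS.map _
  refine ⟨hSq, inferInstance, hoddq, ?_⟩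
  have hcomp : Subgroup.IsComplement' S C := compl_of_data S C hS hodd hcard
  have hcompq : Subgroup.IsComplement' (S.map (QuotientGroup.mk' N))
      (C.map (QuotientGroup.mk' N)) := by
    apply Subgroup.isComplement'_of_disjoint_and_mul_eq_univ
    · apply Subgroup.disjoint_of_coprime_natCard
      obtain ⟨k, hk⟩ := IsPGroup.iff_card.1 hSq
      rw [hk]
      exact Nat.Coprime.pow_left k (Nat.coprime_two_left.2 hoddq)
    · rw [Set.eq_univ_iff_forall]
      intro y
      obtain ⟨x, rfl⟩ := QuotientGroup.mk'_surjective N y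
      obtain ⟨⟨s, c⟩, hsc⟩ := hcomp.2 x
      refine ⟨QuotientGroup.mk' N s, Subgroup.mem_map_of_mem _ s.2, QuotientGroup.mk' N c,
        Subgroup.mem_map_of_mem _ c.2, ?_⟩
      show (QuotientGroup.mk' N) ↑s * (QuotientGroup.mk' N) ↑c = (QuotientGroup.mk' N) x
      rw [← map_mul]; exact congrArg _ hsc
  exact hcompq.card_mul_card

theorem card_map_mul_card_subgroupOf {H : Type*} [Group H] (N : Subgroup H) [N.Normal]
    (S : Subgroup H) :
    Nat.card (S.subgroupOf N) * Nat.card (S.map (QuotientGroup.mk' N)) = Nat.card S := by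
  have h1 : Nat.card (S.subgroupOf N) = Nat.card ↥(N ⊓ S) := by
    rw [← Subgroup.inf_subgroupOf_left S N]
    exact Nat.card_congr (Subgroup.subgroupOfEquivOfLe inf_le_left).toEquiv
  have h2 : (N ⊓ S).relIndex S = Nat.card (S.map (QuotientGroup.mk' N)) := by
    rw [Subgroup.inf_relIndex_right]
    have := Subgroup.relIndex_ker (QuotientGroup.mk' N) (K := S)
    rwa [QuotientGroup.ker_mk'] at this
  rw [h1, ← h2]
  exact card_mul_relIndex_of_le inf_le_right

theorem sub_data {H : Type*} [Group H] [Finite H] (N : Subgroup H) [N.Normal]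
    (S C : Subgroup H) (hS : IsPGroup 2 S) (hC : IsMulCommutative C) (hodd : Odd (Nat.card C))
    (hcard : Nat.card S * Nat.card C = Nat.card H) :
    IsPGroup 2 (S.subgroupOf N) ∧ IsMulCommutative (C.subgroupOf N) ∧
      Odd (Nat.card (C.subgroupOf N)) ∧
      Nat.card (S.subgroupOf N) * Nat.card (C.subgroupOf N) = Nat.card N := by
  have h1 := card_map_mul_card_subgroupOf N S
  have h2 := card_map_mul_card_subgroupOf N C
  have h3 := (quot_data N S C hS hC hodd hcard).2.2.2
  have h4 := Subgroup.card_eq_card_quotient_mul_card_subgroup N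
  refine ⟨hS.comap_subtype, inferInstance, ?_, ?_⟩
  · exact Odd.of_dvd_nat hodd (Dvd.intro _ h2)
  · have hpos : 0 < Nat.card (H ⧸ N) := Nat.card_pos
    apply Nat.eq_of_mul_eq_mul_right hpos
    rw [← h3]
    calc Nat.card (S.subgroupOf N) * Nat.card (C.subgroupOf N) *
          (Nat.card (S.map (QuotientGroup.mk' N)) * Nat.card (C.map (QuotientGroup.mk' N)))
        = (Nat.card (S.subgroupOf N) * Nat.card (S.map (QuotientGroup.mk' N))) *
          (Nat.card (C.subgroupOf N) * Nat.card (C.map (QuotientGroup.mk' N))) := by ring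
      _ = Nat.card N * (Nat.card (S.map (QuotientGroup.mk' N)) *
          Nat.card (C.map (QuotientGroup.mk' N))) := by
          rw [h1, h2, hcard, h4, h3, mul_comm]

theorem solvable_aux.{u} : ∀ (n : ℕ) (H : Type u) [Group H] [Finite H], Nat.card H ≤ n →
    ∀ (S C : Subgroup H), IsPGroup 2 S → IsMulCommutative C → Odd (Nat.card C) →
    Nat.card S * Nat.card C = Nat.card H → Group.IsSolvable H := by
  intro n
  induction n with
  | zero =>
    intro H _ _ hn
    exact absurd hn (by have := Nat.card_pos (α := H); omega)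
  | succ n ih =>
    intro H _ _ hn S C hS hC hodd hcard
    by_cases hC1 : C = ⊥
    · have h1 : Nat.card C = 1 := Subgroup.card_eq_one.2 hC1
      rw [h1, mul_one] at hcard
      obtain ⟨k, hk⟩ := IsPGroup.iff_card.1 hS
      have hH : IsPGroup 2 H := IsPGroup.of_card (n := k) (by rw [← hcard, hk])
      haveI : Fact (Nat.Prime 2) := ⟨Nat.prime_two⟩
      haveI := hH.isNilpotent
      infer_instance
    · obtain ⟨c, hcC, hc1⟩ : ∃ c ∈ C, c ≠ 1 := by
        by_contra hcon; push Not at hcon
        exact hC1 ((Subgroup.eq_bot_iff_forall _).2 hcon)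
      by_cases hsim : IsSimpleGroup H
      · have hCle : C ≤ Subgroup.centralizer ({c} : Set H) := by
          intro x hx
          rw [mem_centralizer_singleton_iff]
          exact congrArg Subtype.val (hC.is_comm.comm ⟨c, hcC⟩ ⟨x, hx⟩)
        have hidxC : C.index = Nat.card S := by
          have h1 : Nat.card C * C.index = Nat.card H := Subgroup.card_mul_index C
          have h2 : Nat.card C * C.index = Nat.card C * Nat.card S := by
            rw [h1, ← hcard, mul_comm]
          exact Nat.eq_of_mul_eq_mul_left Nat.card_pos h2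
        obtain ⟨k, hk⟩ := IsPGroup.iff_card.1 hS
        have hdvd : (Subgroup.centralizer ({c} : Set H)).index ∣ 2 ^ k := by
          rw [← hk, ← hidxC]; exact Subgroup.index_dvd_of_le hCle
        obtain ⟨j, -, hj⟩ := (Nat.dvd_prime_pow Nat.prime_two).1 hdvd
        have hprime := Cfsg.Agent.Helper24.prime_card_of_simple_of_primepow_class 2 j
          Nat.prime_two c hc1 hj
        haveI : Fact (Nat.card H).Prime := ⟨hprime⟩
        have hH : IsPGroup (Nat.card H) H := IsPGroup.of_card (n := 1) (by rw [pow_one])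
        haveI := hH.isNilpotent
        infer_instance
      · have hex : ∃ N : Subgroup H, N.Normal ∧ N ≠ ⊥ ∧ N ≠ ⊤ := by
          by_contra hno; push Not at hno
          apply hsim
          haveI : Nontrivial H := by
            refine ⟨⟨c, 1, hc1⟩⟩
          exact ⟨fun N hN => by
            by_cases hb : N = ⊥
            · exact Or.inl hb
            · exact Or.inr (hno N hN hb)⟩
        obtain ⟨N, hN, hNb, hNt⟩ := hex
        haveI := hN
        obtain ⟨q1, q2, q3, q4⟩ := quot_data N S C hS hC hodd hcard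
        obtain ⟨s1, s2, s3, s4⟩ := sub_data N S C hS hC hodd hcard
        have hcN := Subgroup.card_eq_card_quotient_mul_card_subgroup N
        have hN1 : 1 < Nat.card N := (Subgroup.one_lt_card_iff_ne_bot N).2 hNb
        have hQ1 : 1 < Nat.card (H ⧸ N) := by
          by_contra hle
          have h1 : Nat.card (H ⧸ N) = 1 := by
            have := Nat.card_pos (α := H ⧸ N); omega
          rw [h1, one_mul] at hcN
          exact hNt ((Subgroup.card_eq_iff_eq_top N).1 hcN.symm)
        have hlt1 : Nat.card N ≤ n := by nlinarith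
        have hlt2 : Nat.card (H ⧸ N) ≤ n := by nlinarith
        haveI : Group.IsSolvable N := ih N hlt1 _ _ s1 s2 s3 s4
        haveI : Group.IsSolvable (H ⧸ N) := ih (H ⧸ N) hlt2 _ _ q1 q2 q3 q4
        exact Group.isSolvable_of_ker_le_range N.subtype (QuotientGroup.mk' N) (by simp)


/-- Let H be a finite group in which a Sylow 2-subgroup has an abelian complement (an abelian subgroup meeting it trivially whose product with it is all of H). Then H is solvable, and every subgroup and every quotient group of H again has a Sylow 2-subgroup with an abelian complement. -/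
theorem result {H : Type*} [Group H] [Finite H]
    (S : Sylow 2 H) (C : Subgroup H) (hC : IsMulCommutative ↥C) (hSC : Subgroup.IsComplement' (S : Subgroup H) C) :
    Group.IsSolvable H ∧
    (∀ L : Subgroup H, ∃ (P : Sylow 2 ↥L) (D : Subgroup ↥L), IsMulCommutative ↥D ∧ Subgroup.IsComplement' (P : Subgroup ↥L) D) ∧
    (∀ (N : Subgroup H) [N.Normal], ∃ (P : Sylow 2 (H ⧸ N)) (D : Subgroup (H ⧸ N)),
      IsMulCommutative ↥D ∧ Subgroup.IsComplement' (P : Subgroup (H ⧸ N)) D) := by
  haveI : Fact (Nat.Prime 2) := ⟨Nat.prime_two⟩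
  have hSp : IsPGroup 2 (S : Subgroup H) := S.isPGroup'
  have hcard : Nat.card (S : Subgroup H) * Nat.card C = Nat.card H := hSC.card_mul_card
  have hodd : Odd (Nat.card C) := by
    have h1 : (S : Subgroup H).index = Nat.card C := by
      have h2 : Nat.card (S : Subgroup H) * (S : Subgroup H).index = Nat.card H :=
        Subgroup.card_mul_index _
      exact Nat.eq_of_mul_eq_mul_left Nat.card_pos (h2.trans hcard.symm)
    rw [← h1, ← Nat.not_even_iff_odd, even_iff_two_dvd]
    exact S.not_dvd_index
  have hsol : Group.IsSolvable H := solvable_aux _ H le_rfl _ _ hSp hC hodd hcard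
  refine ⟨hsol, ?_, ?_⟩
  · intro L
    obtain ⟨P⟩ : Nonempty (Sylow 2 ↥L) := inferInstance
    have hPc : Nat.card (P : Subgroup ↥L) * (P : Subgroup ↥L).index = Nat.card ↥L :=
      Subgroup.card_mul_index _
    obtain ⟨k, hk⟩ := IsPGroup.iff_card.1 P.isPGroup'
    have hPodd : Odd (P : Subgroup ↥L).index := by
      rw [← Nat.not_even_iff_odd, even_iff_two_dvd]; exact P.not_dvd_index
    have hcop : ((P : Subgroup ↥L).index).Coprime (Nat.card (P : Subgroup ↥L)) := by
      rw [hk]; exact Nat.Coprime.pow_right k (Nat.coprime_two_right.2 hPodd)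
    obtain ⟨⟨D, hD⟩, -⟩ := Cfsg.Agent.Helper1.hall_aux (Nat.card ↥L) ↥L rfl
      (P : Subgroup ↥L).index (Nat.card (P : Subgroup ↥L)) (by rw [mul_comm]; exact hPc.symm) hcop
    -- D is abelian
    obtain ⟨k', hk'⟩ := IsPGroup.iff_card.1 hSp
    have hD' : Nat.card (D.map L.subtype) = (P : Subgroup ↥L).index := by
      rw [Subgroup.card_map_of_injective L.subtype_injective, hD]
    have hcop' : (Nat.card (D.map L.subtype)).Coprime (Nat.card (S : Subgroup H)) := by
      rw [hD', hk']; exact Nat.Coprime.pow_right k' (Nat.coprime_two_right.2 hPodd)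
    have hcopH : (Nat.card C).Coprime (Nat.card (S : Subgroup H)) := by
      rw [hk']; exact Nat.Coprime.pow_right k' (Nat.coprime_two_right.2 hodd)
    obtain ⟨g, hg⟩ := (Cfsg.Agent.Helper1.hall_aux (Nat.card H) H rfl (Nat.card C)
      (Nat.card (S : Subgroup H)) (by rw [mul_comm]; exact hcard.symm) hcopH).2 C
      (D.map L.subtype) rfl hcop'
    have hDc : IsMulCommutative D := by
      refine ⟨⟨fun a b => ?_⟩⟩
      have ha := hg (a : H) (Subgroup.mem_map_of_mem _ a.2)
      have hb := hg (b : H) (Subgroup.mem_map_of_mem _ b.2)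
      have h1 := congrArg Subtype.val (hC.is_comm.comm ⟨_, ha⟩ ⟨_, hb⟩)
      have h2 : ((a : ↥L) : H) * ((b : ↥L) : H) = ((b : ↥L) : H) * ((a : ↥L) : H) := by
        have e1 : ((a : ↥L) : H) * ((b : ↥L) : H) =
            g * ((g⁻¹ * ((a : ↥L) : H) * g) * (g⁻¹ * ((b : ↥L) : H) * g)) * g⁻¹ := by group
        have e2 : ((b : ↥L) : H) * ((a : ↥L) : H) =
            g * ((g⁻¹ * ((b : ↥L) : H) * g) * (g⁻¹ * ((a : ↥L) : H) * g)) * g⁻¹ := by group
        rw [e1, e2]
        exact congrArg (fun t => g * t * g⁻¹) h1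
      exact Subtype.ext (Subtype.ext h2)
    refine ⟨P, D, hDc, ?_⟩
    apply Subgroup.isComplement'_of_coprime
    · rw [hD]; exact hPc
    · rw [hD]; exact hcop.symm
  · intro N _
    obtain ⟨q1, q2, q3, q4⟩ := quot_data N _ _ hSp hC hodd hcard
    exact exists_sylow_compl _ _ q1 q2 q3 q4

end Cfsg.Agent.S3200
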