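import Mathlib
import Cfsg.Statements.S3208
import Cfsg.Agent.Helper16.Basic
-- import your own Cfsg.Agent.* helpers here

set_option autoImplicit false
open Cfsg

namespace Cfsg.Agent.S3208

open Cfsg.Agent.Helper16

/-- Let j be an involution of a finite group G, H a subgroup of G, and T a Sylow 2-subgroup of H ∩ C_G(j) containing j such that ⟨j⟩ is a characteristic subgroup of T. Then T is a Sylow 2-subgroup of H. -/
theorem result {G : Type*} [Group G] [Finite G]
    (j : G) (hj : orderOf j = 2) (H T : Subgroup G) (hT : T ≤ H ⊓ Subgroup.centralizer ({j} : Set G)) (h2 : IsPGroup 2 ↥T)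
    (hSyl : ¬ 2 ∣ T.relIndex (H ⊓ Subgroup.centralizer ({j} : Set G))) (hjT : j ∈ T)
    (hchar : ((Subgroup.zpowers j).subgroupOf T).Characteristic) :
    ¬ 2 ∣ T.relIndex H := by
  have : Fact (Nat.Prime 2) := ⟨Nat.prime_two⟩
  have hTH : T ≤ H := hT.trans inf_le_left
  obtain ⟨P, hP⟩ := (h2.comap_subtype (K := H)).exists_le_sylow
  set S : Subgroup G := (P : Subgroup ↥H).map H.subtype with hS
  have hSH : S ≤ H := by rintro _ ⟨x, -, rfl⟩; exact x.2
  have hTS : T ≤ S := fun t ht => ⟨⟨t, hTH ht⟩, hP ht, rfl⟩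
  have hS2 : IsPGroup 2 S := P.2.map _
  have hj2 : j ^ 2 = 1 := by rw [← hj]; exact pow_orderOf_eq_one j
  have key : S ≤ T := by
    by_contra hne
    obtain ⟨n, hnS, hnT, hnN⟩ := exists_mem_normalizer_not_mem hS2 hTS hne
    have hnj : n * j * n⁻¹ = j := by
      have h1 := (Subgroup.characteristic_iff_le_comap.mp hchar) (T.normalizerMonoidHom ⟨n, hnN⟩)
      have h2' : (⟨j, hjT⟩ : ↥T) ∈ (Subgroup.zpowers j).subgroupOf T := by
        rw [Subgroup.mem_subgroupOf]; exact Subgroup.mem_zpowers j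
      have h3 := h1 h2'
      rw [Subgroup.mem_comap, Subgroup.mem_subgroupOf] at h3
      have h4 : n * j * n⁻¹ ∈ Subgroup.zpowers j := by simpa using h3
      rcases eq_one_or_eq_of_mem_zpowers_of_sq hj2 h4 with h5 | h5
      · exfalso
        have hj1 : j = 1 := by
          have : j = n⁻¹ * (n * j * n⁻¹) * n := by group
          rw [this, h5]; group
        rw [hj1, orderOf_one] at hj; omega
      · exact h5
    have hnK : n ∈ H ⊓ Subgroup.centralizer ({j} : Set G) := by
      refine ⟨hSH hnS, ?_⟩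
      show n ∈ Subgroup.centralizer ({j} : Set G)
      rw [Subgroup.mem_centralizer_iff]
      intro y hy
      rw [Set.mem_singleton_iff] at hy; subst hy
      have : n * y = (n * y * n⁻¹) * n := by group
      rw [this, hnj]
    have hTM : T ≤ S ⊓ (H ⊓ Subgroup.centralizer ({j} : Set G)) := le_inf hTS hT
    have hM2 : IsPGroup 2 ↥(S ⊓ (H ⊓ Subgroup.centralizer ({j} : Set G))) := hS2.to_le inf_le_left
    have hmul := Subgroup.relIndex_mul_relIndex T (S ⊓ (H ⊓ Subgroup.centralizer ({j} : Set G)))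
      (H ⊓ Subgroup.centralizer ({j} : Set G)) hTM inf_le_right
    apply hSyl
    rw [← hmul]
    apply Dvd.dvd.mul_right
    have hne1 : T.relIndex (S ⊓ (H ⊓ Subgroup.centralizer ({j} : Set G))) ≠ 1 := by
      rw [Ne, Subgroup.relIndex_eq_one]
      intro h; exact hnT (h ⟨hnS, hnK⟩)
    obtain ⟨a, ha⟩ := IsPGroup.iff_card.mp hM2
    have hdvd : T.relIndex (S ⊓ (H ⊓ Subgroup.centralizer ({j} : Set G))) ∣ 2 ^ a := by
      rw [← ha]; exact Subgroup.relIndex_dvd_card _ _
    obtain ⟨b, -, hb⟩ := (Nat.dvd_prime_pow Nat.prime_two).mp hdvd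
    rw [hb] at hne1 ⊢
    cases b with
    | zero => simp at hne1
    | succ b => exact dvd_pow_self 2 (Nat.succ_ne_zero b)
  have hST : S = T := le_antisymm key hTS
  have hidx : T.relIndex H = (P : Subgroup ↥H).index := by
    rw [← hST, Subgroup.relIndex, hS]
    congr 1
    exact Subgroup.comap_map_eq_self_of_injective H.subtype_injective _
  rw [hidx]
  exact P.not_dvd_index

end Cfsg.Agent.S3208
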