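import Cfsg.Statements.S3209
import Cfsg.Agent.S0809

set_option autoImplicit false
open Cfsg

namespace Cfsg.Agent.S3209

open Cfsg.Agent.Helper12

/-- The matrix `[[0,-1],[1,0]]`, a square root of `-1`. -/
def sl2W {F : Type*} [Field F] : Matrix.SpecialLinearGroup (Fin 2) F := sl2mk 0 (-1) 1 0 (by ring)

theorem sl2W_sq {F : Type*} [Field F] : (sl2W * sl2W : Matrix.SpecialLinearGroup (Fin 2) F) = sl2NegOne := by
  apply S0809.sq_eq_negOne_of_trace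
  rw [sl2W, sl2mk_val, Matrix.trace_fin_two_of, add_zero]

/-- The image of the involution `j` is `-1`. -/
theorem e_j {G : Type*} [Group G] {F : Type*} [Field F] [Fintype F] (hF : Odd (Fintype.card F))
    (L : Subgroup G) (e : ↥L ≃* Matrix.SpecialLinearGroup (Fin 2) F) (j : G) (hjL : j ∈ L)
    (hj : orderOf j = 2) : e ⟨j, hjL⟩ = sl2NegOne := by
  have h1 : e ⟨j, hjL⟩ ≠ 1 := by
    intro h
    have h' : (⟨j, hjL⟩ : L) = 1 := e.injective (h.trans (map_one e).symm)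
    have h'' : j = 1 := congrArg Subtype.val h'
    rw [h'', orderOf_one] at hj
    omega
  have h2 : e ⟨j, hjL⟩ * e ⟨j, hjL⟩ = 1 := by
    rw [← map_mul]
    have hjj : j * j = 1 := by
      have := pow_orderOf_eq_one j
      rw [hj, pow_two] at this
      exact this
    have : (⟨j, hjL⟩ : L) * ⟨j, hjL⟩ = 1 := Subtype.ext hjj
    rw [this, map_one]
  apply Subtype.ext
  rw [S0268.result hF _ h1 h2, S0809.negOne_val]

/-- Elements of `L ≅ SL₂(F)` squaring to `1` are `1` or `j`. -/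
theorem inv_cases {G : Type*} [Group G] {F : Type*} [Field F] [Fintype F] (hF : Odd (Fintype.card F))
    (L : Subgroup G) (e : ↥L ≃* Matrix.SpecialLinearGroup (Fin 2) F) (j : G) (hjL : j ∈ L)
    (hj : orderOf j = 2) (a : G) (ha : a ∈ L) (haa : a * a = 1) : a = 1 ∨ a = j := by
  by_cases h1 : a = 1
  · exact Or.inl h1
  · right
    have h1' : e ⟨a, ha⟩ ≠ 1 := by
      intro h
      have h' : (⟨a, ha⟩ : L) = 1 := e.injective (h.trans (map_one e).symm)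
      exact h1 (congrArg Subtype.val h')
    have h2 : e ⟨a, ha⟩ * e ⟨a, ha⟩ = 1 := by
      rw [← map_mul]
      have : (⟨a, ha⟩ : L) * ⟨a, ha⟩ = 1 := Subtype.ext haa
      rw [this, map_one]
    have h3 : e ⟨a, ha⟩ = e ⟨j, hjL⟩ := by
      rw [e_j hF L e j hjL hj]
      apply Subtype.ext
      rw [S0268.result hF _ h1' h2, S0809.negOne_val]
    exact congrArg Subtype.val (e.injective h3)

/-- `j` has a square root in `L ≅ SL₂(F)`. -/
theorem exists_sqrt {G : Type*} [Group G] {F : Type*} [Field F] [Fintype F] (hF : Odd (Fintype.card F))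
    (L : Subgroup G) (e : ↥L ≃* Matrix.SpecialLinearGroup (Fin 2) F) (j : G) (hjL : j ∈ L)
    (hj : orderOf j = 2) : ∃ a ∈ L, a * a = j := by
  refine ⟨(e.symm sl2W : L), (e.symm sl2W).2, ?_⟩
  have h3 : e.symm sl2W * e.symm sl2W = ⟨j, hjL⟩ := by
    apply e.injective
    rw [map_mul, e.apply_symm_apply, sl2W_sq, e_j hF L e j hjL hj]
  exact congrArg Subtype.val h3

/-- Any two square roots of `j` in `L ≅ SL₂(F)` are conjugate in `L`. -/
theorem sqrt_conj {G : Type*} [Group G] {F : Type*} [Field F] [Fintype F] (hF : Odd (Fintype.card F))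
    (L : Subgroup G) (e : ↥L ≃* Matrix.SpecialLinearGroup (Fin 2) F) (j : G) (hjL : j ∈ L)
    (hj : orderOf j = 2) (a a' : G) (ha : a ∈ L) (ha' : a' ∈ L) (haa : a * a = j) (haa' : a' * a' = j) :
    ∃ c ∈ L, c * a * c⁻¹ = a' := by
  have hA : e ⟨a, ha⟩ * e ⟨a, ha⟩ = sl2NegOne := by
    rw [← map_mul, ← e_j hF L e j hjL hj]
    congr 1
    exact Subtype.ext haa
  have hA' : e ⟨a', ha'⟩ * e ⟨a', ha'⟩ = sl2NegOne := by
    rw [← map_mul, ← e_j hF L e j hjL hj]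
    congr 1
    exact Subtype.ext haa'
  have ht := S0809.trace_of_sq_eq_negOne _ hA
  have ht' := S0809.trace_of_sq_eq_negOne _ hA'
  have hconj : IsConj (e ⟨a, ha⟩) (e ⟨a', ha'⟩) := by
    apply sl2_odd_isConj_of_trace hF _ _ (by rw [ht, ht'])
    rw [ht]
    exact S0809.four_ne_zero_sq hF
  obtain ⟨C, hC⟩ := isConj_iff.mp hconj
  refine ⟨(e.symm C : L), (e.symm C).2, ?_⟩
  have h3 : e.symm C * ⟨a, ha⟩ * (e.symm C)⁻¹ = ⟨a', ha'⟩ := by
    apply e.injective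
    rw [map_mul, map_mul, map_inv, e.apply_symm_apply, hC]
  exact congrArg Subtype.val h3

/-- The set of products `a * b`, `a ∈ L₁`, `b ∈ L₂`, for commuting subgroups. -/
def prodSub {G : Type*} [Group G] (L₁ L₂ : Subgroup G) (hc : ∀ x ∈ L₁, ∀ y ∈ L₂, x * y = y * x) :
    Subgroup G where
  carrier := {y | ∃ a ∈ L₁, ∃ b ∈ L₂, y = a * b}
  mul_mem' := by
    rintro _ _ ⟨a, ha, b, hb, rfl⟩ ⟨a', ha', b', hb', rfl⟩
    refine ⟨a * a', L₁.mul_mem ha ha', b * b', L₂.mul_mem hb hb', ?_⟩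
    have h := hc a' ha' b hb
    calc a * b * (a' * b') = a * (b * a') * b' := by group
      _ = a * (a' * b) * b' := by rw [h]
      _ = a * a' * (b * b') := by group
  one_mem' := ⟨1, L₁.one_mem, 1, L₂.one_mem, (mul_one 1).symm⟩
  inv_mem' := by
    rintro _ ⟨a, ha, b, hb, rfl⟩
    refine ⟨a⁻¹, L₁.inv_mem ha, b⁻¹, L₂.inv_mem hb, ?_⟩
    have h := hc a⁻¹ (L₁.inv_mem ha) b⁻¹ (L₂.inv_mem hb)
    rw [mul_inv_rev, h]

theorem exists_decomp {G : Type*} [Group G] (L₁ L₂ : Subgroup G)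
    (hc : ∀ x ∈ L₁, ∀ y ∈ L₂, x * y = y * x) (y : G) (hy : y ∈ L₁ ⊔ L₂) :
    ∃ a ∈ L₁, ∃ b ∈ L₂, y = a * b := by
  have hS : L₁ ⊔ L₂ ≤ prodSub L₁ L₂ hc := by
    apply sup_le
    · intro a ha
      exact ⟨a, ha, 1, L₂.one_mem, (mul_one a).symm⟩
    · intro b hb
      exact ⟨1, L₁.one_mem, b, hb, (one_mul b).symm⟩
  exact hS hy

/-- Let L₁ ≅ SL₂(q₁) and L₂ ≅ SL₂(q₂), q₁ and q₂ odd, be elementwise-commuting subgroups of a finite group meeting in ⟨j⟩ for an involution j. Then L₁L₂ has exactly two conjugacy classes of involutions: the central involution j, and one further class (there is an involution x ≠ j in L₁L₂, and every involution of L₁L₂ other than j is conjugate to x by an element of L₁L₂). -/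
theorem result {G : Type*} [Group G] [Finite G]
    {F₁ : Type*} [Field F₁] [Fintype F₁] {F₂ : Type*} [Field F₂] [Fintype F₂]
    (hF₁ : Odd (Fintype.card F₁)) (hF₂ : Odd (Fintype.card F₂)) (L₁ L₂ : Subgroup G)
    (e₁ : ↥L₁ ≃* Matrix.SpecialLinearGroup (Fin 2) F₁) (e₂ : ↥L₂ ≃* Matrix.SpecialLinearGroup (Fin 2) F₂)
    (hc : ∀ x ∈ L₁, ∀ y ∈ L₂, x * y = y * x) (j : G) (hj : orderOf j = 2) (hm : L₁ ⊓ L₂ = Subgroup.zpowers j) :
    ∃ x ∈ L₁ ⊔ L₂, orderOf x = 2 ∧ x ≠ j ∧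
      ∀ y ∈ L₁ ⊔ L₂, orderOf y = 2 → y = j ∨ ∃ g ∈ L₁ ⊔ L₂, g * x * g⁻¹ = y := by
  have hjm : j ∈ L₁ ⊓ L₂ := by rw [hm]; exact Subgroup.mem_zpowers j
  have hj1 : j ∈ L₁ := hjm.1
  have hj2 : j ∈ L₂ := hjm.2
  have hjj : j * j = 1 := by
    have := pow_orderOf_eq_one j
    rw [hj, pow_two] at this
    exact this
  have hj_ne : j ≠ 1 := by
    intro h
    rw [h, orderOf_one] at hj
    omega
  have hint : ∀ z, z ∈ L₁ → z ∈ L₂ → z = 1 ∨ z = j := by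
    intro z h1 h2
    have hz : z ∈ Subgroup.zpowers j := by rw [← hm]; exact ⟨h1, h2⟩
    obtain ⟨k, hk⟩ := Subgroup.mem_zpowers_iff.mp hz
    have hj2' : j ^ (2 : ℤ) = 1 := by
      rw [zpow_two]; exact hjj
    rcases Int.even_or_odd' k with ⟨m, hm' | hm'⟩
    · left
      rw [← hk, hm', zpow_mul, hj2', one_zpow]
    · right
      rw [← hk, hm', zpow_add, zpow_mul, hj2', one_zpow, one_mul, zpow_one]
  obtain ⟨a₀, ha₀, ha₀j⟩ := exists_sqrt hF₁ L₁ e₁ j hj1 hj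
  obtain ⟨b₀, hb₀, hb₀j⟩ := exists_sqrt hF₂ L₂ e₂ j hj2 hj
  have hab₀ := hc a₀ ha₀ b₀ hb₀
  have ha₀2 : a₀ ∉ L₂ := by
    intro h
    rcases hint a₀ ha₀ h with h' | h'
    · rw [h', mul_one] at ha₀j; exact hj_ne ha₀j.symm
    · rw [h', hjj] at ha₀j; exact hj_ne ha₀j.symm
  have hxx : a₀ * b₀ * (a₀ * b₀) = 1 := by
    calc a₀ * b₀ * (a₀ * b₀) = a₀ * (b₀ * a₀) * b₀ := by group
      _ = a₀ * (a₀ * b₀) * b₀ := by rw [hab₀]
      _ = (a₀ * a₀) * (b₀ * b₀) := by group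
      _ = 1 := by rw [ha₀j, hb₀j, hjj]
  have hx1 : a₀ * b₀ ≠ 1 := by
    intro h
    apply ha₀2
    have : a₀ = b₀⁻¹ := eq_inv_of_mul_eq_one_left h
    rw [this]
    exact L₂.inv_mem hb₀
  have hxj : a₀ * b₀ ≠ j := by
    intro h
    apply ha₀2
    have : a₀ = j * b₀⁻¹ := by rw [← h, mul_inv_cancel_right]
    rw [this]
    exact L₂.mul_mem hj2 (L₂.inv_mem hb₀)
  have : Fact (Nat.Prime 2) := ⟨Nat.prime_two⟩
  refine ⟨a₀ * b₀, Subgroup.mul_mem_sup ha₀ hb₀, orderOf_eq_prime (by rw [pow_two]; exact hxx) hx1, hxj, ?_⟩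
  intro y hy hy2
  obtain ⟨a, ha, b, hb, rfl⟩ := exists_decomp L₁ L₂ hc y hy
  have hyy : a * b * (a * b) = 1 := by
    have := pow_orderOf_eq_one (a * b)
    rw [hy2, pow_two] at this
    exact this
  have hy1 : a * b ≠ 1 := by
    intro h
    rw [h, orderOf_one] at hy2
    omega
  have hab := hc a ha b hb
  have hsq : a * a * (b * b) = 1 := by
    calc a * a * (b * b) = a * (a * b) * b := by group
      _ = a * (b * a) * b := by rw [hab]
      _ = a * b * (a * b) := by group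
      _ = 1 := hyy
  have haa2 : a * a ∈ L₂ := by
    rw [eq_inv_of_mul_eq_one_left hsq]
    exact L₂.inv_mem (L₂.mul_mem hb hb)
  rcases hint (a * a) (L₁.mul_mem ha ha) haa2 with h' | h'
  · have hbb : b * b = 1 := by
      rw [h', one_mul] at hsq
      exact hsq
    rcases inv_cases hF₁ L₁ e₁ j hj1 hj a ha h' with ha1 | ha1 <;>
      rcases inv_cases hF₂ L₂ e₂ j hj2 hj b hb hbb with hb1 | hb1
    · exfalso; apply hy1; rw [ha1, hb1, mul_one]
    · left; rw [ha1, hb1, one_mul]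
    · left; rw [ha1, hb1, mul_one]
    · exfalso; apply hy1; rw [ha1, hb1, hjj]
  · right
    have hbb : b * b = j := by
      rw [h'] at hsq
      rw [eq_inv_of_mul_eq_one_right hsq, inv_eq_of_mul_eq_one_right hjj]
    obtain ⟨c₁, hc₁, hc₁a⟩ := sqrt_conj hF₁ L₁ e₁ j hj1 hj a₀ a ha₀ ha ha₀j h'
    obtain ⟨c₂, hc₂, hc₂b⟩ := sqrt_conj hF₂ L₂ e₂ j hj2 hj b₀ b hb₀ hb hb₀j hbb
    refine ⟨c₁ * c₂, Subgroup.mul_mem_sup hc₁ hc₂, ?_⟩
    have h1 := hc a₀ ha₀ c₂ hc₂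
    have h2 := hc c₁⁻¹ (L₁.inv_mem hc₁) b hb
    calc c₁ * c₂ * (a₀ * b₀) * (c₁ * c₂)⁻¹ = c₁ * (c₂ * a₀) * b₀ * c₂⁻¹ * c₁⁻¹ := by group
      _ = c₁ * (a₀ * c₂) * b₀ * c₂⁻¹ * c₁⁻¹ := by rw [h1]
      _ = c₁ * a₀ * ((c₂ * b₀ * c₂⁻¹) * c₁⁻¹) := by group
      _ = c₁ * a₀ * (b * c₁⁻¹) := by rw [hc₂b]
      _ = c₁ * a₀ * (c₁⁻¹ * b) := by rw [h2]
      _ = (c₁ * a₀ * c₁⁻¹) * b := by group
      _ = a * b := by rw [hc₁a]

end Cfsg.Agent.S3209
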