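import Mathlib
import Cfsg.Statements.S3276
import Cfsg.Agent.Helper16.Basic
import Cfsg.Agent.Helper6.Isolated
-- import your own Cfsg.Agent.* helpers here

set_option autoImplicit false
open Cfsg

namespace Cfsg.Agent.S3276

open Cfsg.Agent.Helper16

/-- Let x and y be commuting, non-conjugate involutions of a finite group G, and suppose that for every involution u commuting with x, each conjugate of y that commutes with u also commutes with y. Then the normal closure of y is a proper, normal, elementary abelian 2-subgroup of G; and if y is the only involution of that normal closure commuting with x, it has order at most 4. -/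
theorem result {G : Type*} [Group G] [Finite G] (x y : G) (hx : orderOf x = 2) (hy : orderOf y = 2)
    (hxy : Commute x y) (hnc : ¬ IsConj x y)
    (hstar : ∀ u : G, orderOf u = 2 → Commute u x → ∀ g : G, Commute (g * y * g⁻¹) u → Commute (g * y * g⁻¹) y) :
    Subgroup.normalClosure ({y} : Set G) ≠ ⊤ ∧ Cfsg.IsElementaryAbelian 2 (Subgroup.normalClosure ({y} : Set G)) ∧
      ((∀ u ∈ Subgroup.normalClosure ({y} : Set G), orderOf u = 2 → Commute u x → u = y) →
        Nat.card ↥(Subgroup.normalClosure ({y} : Set G)) ≤ 4) := by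
  classical
  have hxx : x * x = 1 := Cfsg.Agent.Helper6.inv_sq_one hx
  have hyy : y * y = 1 := Cfsg.Agent.Helper6.inv_sq_one hy
  have hx1 : x ≠ 1 := Cfsg.Agent.Helper6.ne_one_of_order_two hx
  have hy1 : y ≠ 1 := Cfsg.Agent.Helper6.ne_one_of_order_two hy
  have hprime : Fact (Nat.Prime 2) := ⟨Nat.prime_two⟩
  -- Step 1: every conjugate of y commutes with y
  have step1 : ∀ g : G, Commute (g * y * g⁻¹) y := by
    intro g
    have hww : (g * y * g⁻¹) * (g * y * g⁻¹) = 1 := Cfsg.Agent.Helper6.conj_sq_one hyy g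
    have hpos : 0 < orderOf (x * (g * y * g⁻¹)) := orderOf_pos _
    rcases Nat.even_or_odd' (orderOf (x * (g * y * g⁻¹))) with ⟨k, hk | hk⟩
    · have hk0 : 0 < k := by omega
      have hu2 : orderOf ((x * (g * y * g⁻¹)) ^ k) = 2 := by
        apply orderOf_eq_prime
        · rw [← pow_mul, mul_comm, ← hk, pow_orderOf_eq_one]
        · intro h1
          have h2 := orderOf_dvd_of_pow_eq_one h1
          rw [hk] at h2
          have := Nat.le_of_dvd hk0 h2
          omega
      have huinv : ((x * (g * y * g⁻¹)) ^ k)⁻¹ = (x * (g * y * g⁻¹)) ^ k := by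
        apply inv_eq_of_mul_eq_one_right
        rw [← pow_add, ← two_mul, ← hk, pow_orderOf_eq_one]
      have hux : Commute ((x * (g * y * g⁻¹)) ^ k) x := by
        have h := Cfsg.Agent.Helper6.inv_mul_inverts_pow hxx hww k
        rw [huinv] at h
        show (x * (g * y * g⁻¹)) ^ k * x = x * (x * (g * y * g⁻¹)) ^ k
        calc (x * (g * y * g⁻¹)) ^ k * x = (x * (x * (g * y * g⁻¹)) ^ k * x) * x := by rw [h]
          _ = x * (x * (g * y * g⁻¹)) ^ k * (x * x) := by group
          _ = x * (x * (g * y * g⁻¹)) ^ k := by rw [hxx, mul_one]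
      have huw : Commute (g * y * g⁻¹) ((x * (g * y * g⁻¹)) ^ k) := by
        have h := Cfsg.Agent.Helper6.inv_mul_inverts_pow hww hxx k
        have e : (g * y * g⁻¹) * x = (x * (g * y * g⁻¹))⁻¹ := by
          rw [mul_inv_rev, Cfsg.Agent.Helper6.inv_eq_self hxx, Cfsg.Agent.Helper6.inv_eq_self hww]
        rw [e, inv_pow, inv_inv, huinv] at h
        show (g * y * g⁻¹) * (x * (g * y * g⁻¹)) ^ k = (x * (g * y * g⁻¹)) ^ k * (g * y * g⁻¹)
        calc (g * y * g⁻¹) * (x * (g * y * g⁻¹)) ^ k
            = (g * y * g⁻¹) * (x * (g * y * g⁻¹)) ^ k * ((g * y * g⁻¹) * (g * y * g⁻¹)) := by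
              rw [hww, mul_one]
          _ = ((g * y * g⁻¹) * (x * (g * y * g⁻¹)) ^ k * (g * y * g⁻¹)) * (g * y * g⁻¹) := by
              simp only [mul_assoc]
          _ = (x * (g * y * g⁻¹)) ^ k * (g * y * g⁻¹) := by rw [h]
      exact hstar _ hu2 hux g huw
    · exfalso
      apply hnc
      have h := Cfsg.Agent.Helper6.conj_of_odd hxx hww k (by rw [← hk]; exact pow_orderOf_eq_one _)
      rw [isConj_iff]
      refine ⟨g⁻¹ * (x * (g * y * g⁻¹)) ^ k, ?_⟩
      have e : g⁻¹ * (x * (g * y * g⁻¹)) ^ k * x * (g⁻¹ * (x * (g * y * g⁻¹)) ^ k)⁻¹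
          = g⁻¹ * ((x * (g * y * g⁻¹)) ^ k * x * ((x * (g * y * g⁻¹)) ^ k)⁻¹) * g := by
        simp only [mul_inv_rev, inv_inv, mul_assoc]
      rw [e, h]; group
  -- Step 2: conjugates of y commute pairwise
  have step2 : ∀ a ∈ Group.conjugatesOfSet ({y} : Set G),
      ∀ b ∈ Group.conjugatesOfSet ({y} : Set G), a * b = b * a := by
    intro a ha b hb
    rw [Group.mem_conjugatesOfSet_iff] at ha hb
    obtain ⟨a', ha', ha⟩ := ha
    obtain ⟨b', hb', hb⟩ := hb
    rw [Set.mem_singleton_iff] at ha' hb'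
    rw [ha'] at ha
    rw [hb'] at hb
    obtain ⟨g, rfl⟩ := isConj_iff.mp ha
    obtain ⟨h, rfl⟩ := isConj_iff.mp hb
    have := (step1 (h⁻¹ * g)).eq
    have e1 : g * y * g⁻¹ * (h * y * h⁻¹) = h * ((h⁻¹ * g) * y * (h⁻¹ * g)⁻¹ * y) * h⁻¹ := by group
    have e2 : h * y * h⁻¹ * (g * y * g⁻¹) = h * (y * ((h⁻¹ * g) * y * (h⁻¹ * g)⁻¹)) * h⁻¹ := by group
    rw [e1, e2, this]
  have hNcl : Subgroup.normalClosure ({y} : Set G)
      = Subgroup.closure (Group.conjugatesOfSet ({y} : Set G)) := rfl
  have hcomm : ∀ a ∈ Subgroup.normalClosure ({y} : Set G),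
      ∀ b ∈ Subgroup.normalClosure ({y} : Set G), a * b = b * a := by
    have h1 : Subgroup.normalClosure ({y} : Set G)
        ≤ Subgroup.centralizer (Group.conjugatesOfSet ({y} : Set G)) := by
      rw [hNcl, Subgroup.closure_le]
      intro a ha
      rw [SetLike.mem_coe, Subgroup.mem_centralizer_iff]
      intro b hb
      exact step2 b hb a ha
    have h2 : Subgroup.closure (Group.conjugatesOfSet ({y} : Set G))
        ≤ Subgroup.centralizer (Subgroup.normalClosure ({y} : Set G) : Set G) := by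
      rw [Subgroup.closure_le]
      intro a ha
      rw [SetLike.mem_coe, Subgroup.mem_centralizer_iff]
      intro b hb
      have := h1 hb
      rw [Subgroup.mem_centralizer_iff] at this
      exact (this a ha).symm
    intro a ha b hb
    have := h2 ha
    rw [Subgroup.mem_centralizer_iff] at this
    exact (this b hb).symm
  have hsq : ∀ a ∈ Subgroup.normalClosure ({y} : Set G), a * a = 1 := by
    intro a ha
    rw [hNcl] at ha
    induction ha using Subgroup.closure_induction with
    | mem a ha =>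
      rw [Group.mem_conjugatesOfSet_iff] at ha
      obtain ⟨a', ha', hc⟩ := ha
      rw [Set.mem_singleton_iff] at ha'
      rw [ha'] at hc
      obtain ⟨g, rfl⟩ := isConj_iff.mp hc
      exact Cfsg.Agent.Helper6.conj_sq_one hyy g
    | one => simp
    | mul a b ha hb iha ihb =>
      have := hcomm a ha b hb
      calc a * b * (a * b) = a * (b * a) * b := by group
        _ = a * (a * b) * b := by rw [this]
        _ = (a * a) * (b * b) := by group
        _ = 1 := by rw [iha, ihb, one_mul]
    | inv a ha iha =>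
      rw [← mul_inv_rev, iha, inv_one]
  have hNn : (Subgroup.normalClosure ({y} : Set G)).Normal := Subgroup.normalClosure_normal
  have hyN : y ∈ Subgroup.normalClosure ({y} : Set G) :=
    Subgroup.subset_normalClosure (Set.mem_singleton y)
  refine ⟨?_, ⟨?_, ?_⟩, ?_⟩
  · intro htop
    have hall : ∀ a b : G, a * b = b * a := fun a b =>
      hcomm a (htop ▸ Subgroup.mem_top a) b (htop ▸ Subgroup.mem_top b)
    have hle : Subgroup.normalClosure ({y} : Set G) ≤ Subgroup.zpowers y := by
      rw [hNcl, Subgroup.closure_le]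
      intro a ha
      rw [Group.mem_conjugatesOfSet_iff] at ha
      obtain ⟨a', ha', hc⟩ := ha
      rw [Set.mem_singleton_iff] at ha'
      rw [ha'] at hc
      obtain ⟨g, rfl⟩ := isConj_iff.mp hc
      have : g * y * g⁻¹ = y := by rw [hall g y, mul_assoc, mul_inv_cancel, mul_one]
      rw [this]; exact Subgroup.mem_zpowers y
    have hxN : x ∈ Subgroup.zpowers y := hle (htop ▸ Subgroup.mem_top x)
    rcases eq_one_or_eq_of_mem_zpowers_of_sq (by rw [pow_two]; exact hyy) hxN with h | h
    · exact hx1 h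
    · exact hnc (h ▸ IsConj.refl x)
  · exact ⟨⟨fun a b => Subtype.ext (hcomm a a.2 b b.2)⟩⟩
  · intro a ha; rw [pow_two]; exact hsq a ha
  · intro huniq
    let φ : ↥(Subgroup.normalClosure ({y} : Set G)) →* ↥(Subgroup.normalClosure ({y} : Set G)) :=
      { toFun := fun n => ⟨n.1 * (x * n.1 * x⁻¹), Subgroup.mul_mem _ n.2 (hNn.conj_mem n.1 n.2 x)⟩
        map_one' := by ext; simp
        map_mul' := by
          intro a b
          ext
          simp only [Subgroup.coe_mul]
          have h1 := hcomm (x * a.1 * x⁻¹) (hNn.conj_mem a.1 a.2 x) b.1 b.2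
          calc a.1 * b.1 * (x * (a.1 * b.1) * x⁻¹)
              = a.1 * ((x * a.1 * x⁻¹) * b.1) * (x * b.1 * x⁻¹) := by rw [h1]; group
            _ = a.1 * (x * a.1 * x⁻¹) * (b.1 * (x * b.1 * x⁻¹)) := by group }
    have hφ : ∀ n : ↥(Subgroup.normalClosure ({y} : Set G)), ((φ n : ↥(Subgroup.normalClosure ({y} : Set G))) : G) = n.1 * (x * n.1 * x⁻¹) := fun n => rfl
    have hfix : ∀ n ∈ Subgroup.normalClosure ({y} : Set G), x * n * x⁻¹ = n → n = 1 ∨ n = y := by
      intro n hn hc
      by_cases h1 : n = 1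
      · exact Or.inl h1
      · right
        apply huniq n hn
        · exact orderOf_eq_prime (by rw [pow_two]; exact hsq n hn) h1
        · show n * x = x * n
          calc n * x = (x * n * x⁻¹) * x := by rw [hc]
            _ = x * n := by group
    have hker : ∀ n ∈ φ.ker, n = 1 ∨ n = ⟨y, hyN⟩ := by
      intro n hn
      rw [MonoidHom.mem_ker] at hn
      have h1 : n.1 * (x * n.1 * x⁻¹) = 1 := by
        rw [← hφ n, hn]; rfl
      have h2 : x * n.1 * x⁻¹ = n.1 := by
        have h3 : n.1 * n.1 = 1 := hsq n.1 n.2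
        have : x * n.1 * x⁻¹ = n.1⁻¹ := (inv_eq_of_mul_eq_one_right h1).symm
        rw [this]; exact inv_eq_of_mul_eq_one_right h3
      rcases hfix n.1 n.2 h2 with h | h
      · left; exact Subtype.ext h
      · right; exact Subtype.ext h
    have hrange : ∀ n ∈ φ.range, n = 1 ∨ n = ⟨y, hyN⟩ := by
      rintro _ ⟨n, rfl⟩
      have h2 : x * (n.1 * (x * n.1 * x⁻¹)) * x⁻¹ = n.1 * (x * n.1 * x⁻¹) := by
        have e : x * x * n.1 * x⁻¹ * x⁻¹ = n.1 := by
          rw [hxx, one_mul, mul_assoc, ← mul_inv_rev, hxx, inv_one, mul_one]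
        have h1 := hcomm (x * n.1 * x⁻¹) (hNn.conj_mem n.1 n.2 x) n.1 n.2
        calc x * (n.1 * (x * n.1 * x⁻¹)) * x⁻¹ = (x * n.1 * x⁻¹) * (x * x * n.1 * x⁻¹ * x⁻¹) := by group
          _ = (x * n.1 * x⁻¹) * n.1 := by rw [e]
          _ = n.1 * (x * n.1 * x⁻¹) := h1
      rcases hfix _ (φ n).2 (by rw [hφ n]; exact h2) with h | h
      · left; exact Subtype.ext h
      · right; exact Subtype.ext h
    have card_le : ∀ K : Subgroup ↥(Subgroup.normalClosure ({y} : Set G)),
        (∀ n ∈ K, n = 1 ∨ n = ⟨y, hyN⟩) → Nat.card K ≤ 2 := by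
      intro K hK
      have hsub : (K : Set ↥(Subgroup.normalClosure ({y} : Set G))) ⊆ {1, ⟨y, hyN⟩} := by
        intro n hn
        rcases hK n hn with h | h
        · left; exact h
        · right; exact h
      calc Nat.card K = (K : Set ↥(Subgroup.normalClosure ({y} : Set G))).ncard :=
            _root_.Nat.card_coe_set_eq _
        _ ≤ ({1, ⟨y, hyN⟩} : Set ↥(Subgroup.normalClosure ({y} : Set G))).ncard :=
            Set.ncard_le_ncard hsub (Set.toFinite _)
        _ ≤ 2 := (Set.ncard_insert_le _ _).trans (by rw [Set.ncard_singleton])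
    have hcard := Subgroup.card_mul_index φ.ker
    rw [Subgroup.index_ker] at hcard
    rw [← hcard]
    calc Nat.card φ.ker * Nat.card φ.range ≤ 2 * 2 :=
          Nat.mul_le_mul (card_le _ hker) (card_le _ hrange)
      _ = 4 := rfl

end Cfsg.Agent.S3276
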