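import Mathlib
import Cfsg.Statements.S3279
-- import your own Cfsg.Agent.* helpers here

set_option autoImplicit false
open Cfsg

namespace Cfsg.Agent.S3279

variable {G : Type*} [Group G]

theorem sq_of_ord {u : G} (hu : orderOf u = 2) : u * u = 1 := by
  have h := (orderOf_eq_prime_iff (p := 2)).1 hu
  rw [← pow_two]; exact h.1

theorem ne_of_ord {u : G} (hu : orderOf u = 2) : u ≠ 1 :=
  ((orderOf_eq_prime_iff (p := 2)).1 hu).2

theorem ord_of_sq {u : G} (h1 : u * u = 1) (h2 : u ≠ 1) : orderOf u = 2 :=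
  (orderOf_eq_prime_iff (p := 2)).2 ⟨by rw [pow_two]; exact h1, h2⟩

theorem ord_conj (g : G) {v : G} (hv : orderOf v = 2) : orderOf (g * v * g⁻¹) = 2 := by
  apply ord_of_sq
  · rw [← pow_two, conj_pow, pow_two, sq_of_ord hv, mul_one, mul_inv_cancel]
  · rw [Ne, conj_eq_one_iff]; exact ne_of_ord hv

theorem ord_of_isConj {u v : G} (h : IsConj u v) (hu : orderOf u = 2) : orderOf v = 2 := by
  obtain ⟨c, rfl⟩ := isConj_iff.1 h
  exact ord_conj c hu

theorem zp_isP {u : G} (hu : orderOf u = 2) : IsPGroup 2 (Subgroup.zpowers u) :=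
  IsPGroup.of_card (n := 1) (by rw [Nat.card_zpowers, hu, pow_one])

theorem conj_comm_iff (a u v : G) :
    a * u * a⁻¹ * (a * v * a⁻¹) = a * v * a⁻¹ * (a * u * a⁻¹) ↔ u * v = v * u := by
  constructor
  · intro h
    have h1 : a * (u * v) * a⁻¹ = a * (v * u) * a⁻¹ := by
      calc a * (u * v) * a⁻¹ = a * u * a⁻¹ * (a * v * a⁻¹) := by group
        _ = a * v * a⁻¹ * (a * u * a⁻¹) := h
        _ = a * (v * u) * a⁻¹ := by group
    exact mul_left_cancel (mul_right_cancel h1)
  · intro h
    calc a * u * a⁻¹ * (a * v * a⁻¹) = a * (u * v) * a⁻¹ := by group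
      _ = a * (v * u) * a⁻¹ := by rw [h]
      _ = a * v * a⁻¹ * (a * u * a⁻¹) := by group

/-! ### Dihedral lemmas -/

theorem dih_conj_a (a b : G) (ha : a * a = 1) (hb : b * b = 1) (i : ℕ) :
    (a * b) ^ i * a * ((a * b) ^ i)⁻¹ = (a * b) ^ (2 * i) * a := by
  have ha' : a⁻¹ = a := inv_eq_of_mul_eq_one_left ha
  have hb' : b⁻¹ = b := inv_eq_of_mul_eq_one_left hb
  have hs : SemiconjBy a (a * b)⁻¹ (a * b) := by
    unfold SemiconjBy
    rw [mul_inv_rev, ha', hb', mul_assoc]
  have h2 := hs.pow_right i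
  have h3 : a * ((a * b) ^ i)⁻¹ = (a * b) ^ i * a := by rw [← inv_pow]; exact h2
  rw [mul_assoc, h3, ← mul_assoc, ← pow_add, two_mul]

theorem dih_conj_b (a b : G) (ha : a * a = 1) (hb : b * b = 1) (i : ℕ) :
    (a * b) ^ i * b * ((a * b) ^ i)⁻¹ = (a * b) ^ (2 * i) * b := by
  have ha' : a⁻¹ = a := inv_eq_of_mul_eq_one_left ha
  have hb' : b⁻¹ = b := inv_eq_of_mul_eq_one_left hb
  have hs : SemiconjBy b (a * b)⁻¹ (a * b) := by
    unfold SemiconjBy
    rw [mul_inv_rev, ha', hb']
    calc b * (b * a) = (b * b) * a := by rw [mul_assoc]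
      _ = a * (b * b) := by rw [hb, one_mul, mul_one]
      _ = a * b * b := by rw [mul_assoc]
  have h2 := hs.pow_right i
  have h3 : b * ((a * b) ^ i)⁻¹ = (a * b) ^ i * b := by rw [← inv_pow]; exact h2
  rw [mul_assoc, h3, ← mul_assoc, ← pow_add, two_mul]

theorem dih_odd (a b : G) (ha : a * a = 1) (hb : b * b = 1) (hk : Odd (orderOf (a * b))) :
    IsConj a b := by
  obtain ⟨m, hm⟩ := hk
  have h := dih_conj_b a b ha hb (m + 1)
  have h1 : (a * b) ^ (2 * (m + 1)) * b = a := by
    have e : 2 * (m + 1) = orderOf (a * b) + 1 := by omega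
    rw [e, pow_succ, pow_orderOf_eq_one, one_mul, mul_assoc, hb, mul_one]
  rw [h1] at h
  exact (isConj_iff.2 ⟨_, h⟩).symm

theorem dih_even (a b : G) (ha : a * a = 1) (hb : b * b = 1) (j : ℕ) (hj : 0 < j)
    (hk : orderOf (a * b) = 2 * j) :
    (a * b) ^ j * a = a * (a * b) ^ j ∧ (a * b) ^ j * b = b * (a * b) ^ j ∧
    (a * b) ^ j * (a * b) ^ j = 1 ∧ (a * b) ^ j ≠ 1 ∧
    (Even j → IsConj a ((a * b) ^ j * a)) ∧ (Odd j → IsConj b ((a * b) ^ j * a)) := by
  have hw2 : (a * b) ^ j * (a * b) ^ j = 1 := by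
    rw [← pow_add, ← two_mul, ← hk, pow_orderOf_eq_one]
  have hw1 : (a * b) ^ j ≠ 1 := by
    intro h
    have h1 := orderOf_dvd_of_pow_eq_one h
    rw [hk] at h1
    have h2 := Nat.le_of_dvd hj h1
    omega
  have hwinv : ((a * b) ^ j)⁻¹ = (a * b) ^ j := inv_eq_of_mul_eq_one_left hw2
  refine ⟨?_, ?_, hw2, hw1, ?_, ?_⟩
  · have h := dih_conj_a a b ha hb j
    rw [← hk, pow_orderOf_eq_one, one_mul, hwinv] at h
    calc (a * b) ^ j * a = (a * b) ^ j * a * ((a * b) ^ j * (a * b) ^ j) := by rw [hw2, mul_one]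
      _ = ((a * b) ^ j * a * (a * b) ^ j) * (a * b) ^ j := by simp only [mul_assoc]
      _ = a * (a * b) ^ j := by rw [h]
  · have h := dih_conj_b a b ha hb j
    rw [← hk, pow_orderOf_eq_one, one_mul, hwinv] at h
    calc (a * b) ^ j * b = (a * b) ^ j * b * ((a * b) ^ j * (a * b) ^ j) := by rw [hw2, mul_one]
      _ = ((a * b) ^ j * b * (a * b) ^ j) * (a * b) ^ j := by simp only [mul_assoc]
      _ = b * (a * b) ^ j := by rw [h]
  · rintro ⟨i, hi⟩
    have h := dih_conj_a a b ha hb i
    have h2 : 2 * i = j := by omega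
    rw [h2] at h
    exact isConj_iff.2 ⟨_, h⟩
  · rintro ⟨i, hi⟩
    have h := dih_conj_b a b ha hb (i + 1)
    have h1 : (a * b) ^ (2 * (i + 1)) * b = (a * b) ^ j * a := by
      have e : 2 * (i + 1) = j + 1 := by omega
      rw [e, pow_succ]
      calc (a * b) ^ j * (a * b) * b = (a * b) ^ j * (a * (b * b)) := by simp only [mul_assoc]
        _ = (a * b) ^ j * a := by rw [hb, mul_one]
    rw [h1] at h
    exact isConj_iff.2 ⟨_, h⟩

/-! ### Centralizers with exactly three involutions -/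

structure Tri (x y z : G) : Prop where
  hx : orderOf x = 2
  hy : orderOf y = 2
  hz : orderOf z = 2
  xy : x * y = z
  yx : y * x = z
  hI : ∀ v : G, orderOf v = 2 → v * x = x * v → v = x ∨ v = y ∨ v = z

namespace Tri

variable {x y z : G}

theorem xz (T : Tri x y z) : x * z = y := by
  rw [← T.xy, ← mul_assoc, sq_of_ord T.hx, one_mul]

theorem zx (T : Tri x y z) : z * x = y := by
  rw [← T.yx, mul_assoc, sq_of_ord T.hx, mul_one]

theorem yz (T : Tri x y z) : y * z = x := by
  rw [← T.yx, ← mul_assoc, sq_of_ord T.hy, one_mul]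

theorem zy (T : Tri x y z) : z * y = x := by
  rw [← T.xy, mul_assoc, sq_of_ord T.hy, mul_one]

theorem swap (T : Tri x y z) : Tri x z y :=
  ⟨T.hx, T.hz, T.hy, T.xz, T.zx, fun v hv h => by
    rcases T.hI v hv h with h | h | h
    · exact Or.inl h
    · exact Or.inr (Or.inr h)
    · exact Or.inr (Or.inl h)⟩

theorem x_ne_y (T : Tri x y z) : x ≠ y := by
  intro h
  have h1 := T.xy
  rw [← h, sq_of_ord T.hx] at h1
  exact ne_of_ord T.hz h1.symm

theorem y_ne_z (T : Tri x y z) : y ≠ z := by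
  intro h
  have h1 := T.yz
  rw [← h, sq_of_ord T.hy] at h1
  exact ne_of_ord T.hx h1.symm

theorem conj_cases (T : Tri x y z) (g v : G) (hv : orderOf v = 2)
    (hc : v * (g * x * g⁻¹) = g * x * g⁻¹ * v) :
    v = g * x * g⁻¹ ∨ v = g * y * g⁻¹ ∨ v = g * z * g⁻¹ := by
  have h1 : orderOf (g⁻¹ * v * g) = 2 := by
    have h := ord_conj g⁻¹ hv
    rwa [inv_inv] at h
  have h2 : g⁻¹ * v * g * x = x * (g⁻¹ * v * g) := by
    calc g⁻¹ * v * g * x = g⁻¹ * (v * (g * x * g⁻¹)) * g := by group
      _ = g⁻¹ * (g * x * g⁻¹ * v) * g := by rw [hc]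
      _ = x * (g⁻¹ * v * g) := by group
  have hb : v = g * (g⁻¹ * v * g) * g⁻¹ := by group
  rcases T.hI _ h1 h2 with h | h | h
  · left; rw [h] at hb; exact hb
  · right; left; rw [h] at hb; exact hb
  · right; right; rw [h] at hb; exact hb

end Tri

theorem central_of_commute_conj [IsSimpleGroup G] (p q : G) (hq : q ≠ 1)
    (h : ∀ c : G, p * (c * q * c⁻¹) = c * q * c⁻¹ * p) : p ∈ Subgroup.center G := by
  have hN : Subgroup.normalClosure ({q} : Set G) = ⊤ := by
    rcases (Subgroup.normalClosure_normal (s := ({q} : Set G))).eq_bot_or_eq_top with h1 | h1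
    · exfalso; apply hq
      have h2 : q ∈ Subgroup.normalClosure ({q} : Set G) :=
        Subgroup.subset_normalClosure (Set.mem_singleton q)
      rw [h1] at h2; exact Subgroup.mem_bot.1 h2
    · exact h1
  have hle : Subgroup.normalClosure ({q} : Set G) ≤ Subgroup.centralizer ({p} : Set G) := by
    unfold Subgroup.normalClosure
    rw [Subgroup.closure_le]
    intro c hc
    obtain ⟨a, ha, hac⟩ := Group.mem_conjugatesOfSet_iff.1 hc
    rw [Set.mem_singleton_iff] at ha; subst ha
    obtain ⟨d, rfl⟩ := isConj_iff.1 hac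
    rw [SetLike.mem_coe, Subgroup.mem_centralizer_iff]
    intro e he
    rw [Set.mem_singleton_iff] at he; subst he
    exact h d
  rw [hN] at hle
  rw [Subgroup.mem_center_iff]
  intro g
  have h1 := hle (Subgroup.mem_top g)
  rw [Subgroup.mem_centralizer_iff] at h1
  exact (h1 p (Set.mem_singleton p)).symm

theorem center_eq_bot [Finite G] [IsSimpleGroup G] (x y : G) (hx : orderOf x = 2)
    (hy : orderOf y = 2) (hne : x ≠ y) : Subgroup.center G = ⊥ := by
  rcases (inferInstance : (Subgroup.center G).Normal).eq_bot_or_eq_top with h | h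
  · exact h
  · exfalso
    have hcomm : ∀ a b : G, a * b = b * a := fun a b => by
      have hb : b ∈ Subgroup.center G := by rw [h]; exact Subgroup.mem_top b
      exact (Subgroup.mem_center_iff.1 hb a)
    have hn : (Subgroup.zpowers x).Normal := ⟨fun n hn g => by
      have e : g * n * g⁻¹ = n := by rw [hcomm g n, mul_assoc, mul_inv_cancel, mul_one]
      rw [e]; exact hn⟩
    rcases hn.eq_bot_or_eq_top with h1 | h1
    · have h2 : x ∈ Subgroup.zpowers x := Subgroup.mem_zpowers x
      rw [h1] at h2; exact ne_of_ord hx (Subgroup.mem_bot.1 h2)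
    · have h2 : y ∈ Subgroup.zpowers x := by rw [h1]; exact Subgroup.mem_top y
      obtain ⟨k, hk⟩ := (Submonoid.mem_powers_iff _ _).1 (mem_powers_iff_mem_zpowers.2 h2)
      rcases Nat.even_or_odd' k with ⟨m, rfl | rfl⟩
      · rw [pow_mul, pow_two, sq_of_ord hx, one_pow] at hk
        exact ne_of_ord hy hk.symm
      · rw [pow_succ, pow_mul, pow_two, sq_of_ord hx, one_pow, one_mul] at hk
        exact hne hk

theorem mem_smul_syl (g : G) (S : Sylow 2 G) (x : G) :
    x ∈ ((g • S : Sylow 2 G) : Subgroup G) ↔ g⁻¹ * x * g ∈ (S : Subgroup G) := by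
  rw [Sylow.smul_def, Sylow.pointwise_smul_def, Subgroup.mem_pointwise_smul_iff_inv_smul_mem]
  simp [MulAut.smul_def]

theorem conj_into [Finite G] (S : Sylow 2 G) (P₀ : Subgroup G) (hP : IsPGroup 2 P₀) :
    ∃ g : G, ∀ p ∈ P₀, g⁻¹ * p * g ∈ (S : Subgroup G) := by
  obtain ⟨Q, hQ⟩ := hP.exists_le_sylow
  obtain ⟨g, hg⟩ := MulAction.exists_smul_eq G S Q
  refine ⟨g, fun p hp => ?_⟩
  have h1 : p ∈ ((g • S : Sylow 2 G) : Subgroup G) := by rw [hg]; exact hQ hp
  exact (mem_smul_syl g S p).1 h1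

theorem exists_central_inv [Finite G] (S : Sylow 2 G) (hS : ∃ s ∈ (S : Subgroup G), s ≠ 1) :
    ∃ c ∈ (S : Subgroup G), orderOf c = 2 ∧ ∀ s ∈ (S : Subgroup G), s * c = c * s := by
  haveI : Nontrivial ↥(S : Subgroup G) := by
    obtain ⟨s, hs, hs1⟩ := hS
    exact ⟨⟨⟨s, hs⟩, 1, fun h => hs1 (by simpa using congrArg Subtype.val h)⟩⟩
  haveI := S.2.center_nontrivial
  have h2 : 2 ∣ Nat.card (Subgroup.center ↥(S : Subgroup G)) := by
    have hp : IsPGroup 2 (Subgroup.center ↥(S : Subgroup G)) := S.2.to_subgroup _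
    obtain ⟨n, hn⟩ := IsPGroup.iff_card.1 hp
    rw [hn]
    have hn0 : n ≠ 0 := by
      rintro rfl
      rw [pow_zero] at hn
      have h1 := Finite.one_lt_card (α := Subgroup.center ↥(S : Subgroup G))
      omega
    exact dvd_pow_self 2 hn0
  obtain ⟨c, hc⟩ := exists_prime_orderOf_dvd_card' 2 h2
  refine ⟨((c : ↥(S : Subgroup G)) : G), (c : ↥(S : Subgroup G)).2, ?_, ?_⟩
  · rw [Subgroup.orderOf_coe, Subgroup.orderOf_coe]; exact hc
  · intro s hs
    have h1 := Subgroup.mem_center_iff.1 c.2 ⟨s, hs⟩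
    exact congrArg Subtype.val h1

theorem three_inv [Finite G] (x : G)
    (h3 : Nat.card {u : ↥(Subgroup.centralizer ({x} : Set G)) // orderOf u = 2} ≤ 3)
    (a b c d : G) (ha : orderOf a = 2) (hb : orderOf b = 2) (hc : orderOf c = 2)
    (hd : orderOf d = 2)
    (hax : a * x = x * a) (hbx : b * x = x * b) (hcx : c * x = x * c) (hdx : d * x = x * d)
    (hab : a ≠ b) (hac : a ≠ c) (had : a ≠ d) (hbc : b ≠ c) (hbd : b ≠ d) (hcd : c ≠ d) :
    False := by
  classical
  have mem : ∀ w : G, w * x = x * w → w ∈ Subgroup.centralizer ({x} : Set G) := by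
    intro w hw
    rw [Subgroup.mem_centralizer_iff]
    intro t ht
    rw [Set.mem_singleton_iff] at ht; subst ht
    exact hw.symm
  haveI : Fintype {u : ↥(Subgroup.centralizer ({x} : Set G)) // orderOf u = 2} :=
    Fintype.ofFinite _
  have mk : ∀ w : G, w * x = x * w → orderOf w = 2 →
      ∃ t : {u : ↥(Subgroup.centralizer ({x} : Set G)) // orderOf u = 2},
        ((t : ↥(Subgroup.centralizer ({x} : Set G))) : G) = w := fun w hw ho =>
    ⟨⟨⟨w, mem w hw⟩, by rw [Subgroup.orderOf_mk]; exact ho⟩, rfl⟩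
  obtain ⟨A, hA⟩ := mk a hax ha
  obtain ⟨B, hB⟩ := mk b hbx hb
  obtain ⟨C, hC⟩ := mk c hcx hc
  obtain ⟨D, hD⟩ := mk d hdx hd
  have nAB : A ≠ B := fun h => hab (by rw [← hA, ← hB, h])
  have nAC : A ≠ C := fun h => hac (by rw [← hA, ← hC, h])
  have nAD : A ≠ D := fun h => had (by rw [← hA, ← hD, h])
  have nBC : B ≠ C := fun h => hbc (by rw [← hB, ← hC, h])
  have nBD : B ≠ D := fun h => hbd (by rw [← hB, ← hD, h])
  have nCD : C ≠ D := fun h => hcd (by rw [← hC, ← hD, h])
  have h4 : ({A, B, C, D} : Finset _).card = 4 := by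
    rw [Finset.card_insert_of_notMem, Finset.card_insert_of_notMem,
      Finset.card_insert_of_notMem, Finset.card_singleton]
    all_goals simp only [Finset.mem_insert, Finset.mem_singleton, not_or]
    all_goals first | exact nCD | exact ⟨nBC, nBD⟩ | exact ⟨nAB, nAC, nAD⟩
  have h5 := Finset.card_le_univ ({A, B, C, D} : Finset _)
  rw [h4, ← Nat.card_eq_fintype_card] at h5
  omega

/-- An involution which is not conjugate to any other involution of its centralizer is central
in every Sylow `2`-subgroup containing it. -/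
theorem iso_central [Finite G] (x : G) (hx : orderOf x = 2)
    (hiso : ∀ v : G, orderOf v = 2 → v * x = x * v → IsConj x v → v = x)
    (S : Sylow 2 G) (hxS : x ∈ (S : Subgroup G)) :
    ∀ s ∈ (S : Subgroup G), s * x = x * s := by
  intro s hs
  have hx'S : s * x * s⁻¹ ∈ (S : Subgroup G) :=
    S.1.mul_mem (S.1.mul_mem hs hxS) (S.1.inv_mem hs)
  have hx'o : orderOf (s * x * s⁻¹) = 2 := ord_conj s hx
  have hconj : IsConj x (s * x * s⁻¹) := isConj_iff.2 ⟨s, rfl⟩
  have hdS : x * (s * x * s⁻¹) ∈ (S : Subgroup G) := S.1.mul_mem hxS hx'S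
  obtain ⟨i, hi⟩ : ∃ i, orderOf (x * (s * x * s⁻¹)) = 2 ^ i := by
    obtain ⟨k, hk⟩ := S.2 ⟨x * (s * x * s⁻¹), hdS⟩
    have h1 : (x * (s * x * s⁻¹)) ^ (2 ^ k) = 1 := by simpa using congrArg Subtype.val hk
    obtain ⟨m, -, hm⟩ := (Nat.dvd_prime_pow Nat.prime_two).1 (orderOf_dvd_of_pow_eq_one h1)
    exact ⟨m, hm⟩
  have hd1 : x * (s * x * s⁻¹) = 1 := by
    by_contra hne
    have hi0 : i ≠ 0 := by
      rintro rfl
      rw [pow_zero, orderOf_eq_one_iff] at hi
      exact hne hi
    obtain ⟨i', rfl⟩ := Nat.exists_eq_succ_of_ne_zero hi0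
    have hk : orderOf (x * (s * x * s⁻¹)) = 2 * 2 ^ i' := by rw [hi, pow_succ, mul_comm]
    obtain ⟨hwa, hwb, hw2, hw1, hev, -⟩ :=
      dih_even x (s * x * s⁻¹) (sq_of_ord hx) (sq_of_ord hx'o) (2 ^ i') (by positivity) hk
    by_cases hi' : i' = 0
    · subst hi'
      rw [pow_zero, pow_one] at hwa hw1
      have hc : s * x * s⁻¹ * x = x * (s * x * s⁻¹) :=
        mul_left_cancel (a := x) (by rw [← mul_assoc, hwa])
      have h1 := hiso _ hx'o hc hconj
      apply hw1
      rw [h1]; exact sq_of_ord hx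
    · have hev2 : Even (2 ^ i') := (Nat.even_pow.2 ⟨even_two, hi'⟩)
      have hc1 := hev hev2
      have ho : orderOf ((x * (s * x * s⁻¹)) ^ 2 ^ i' * x) = 2 := ord_of_isConj hc1 hx
      have hcomm : (x * (s * x * s⁻¹)) ^ 2 ^ i' * x * x = x * ((x * (s * x * s⁻¹)) ^ 2 ^ i' * x) := by
        calc (x * (s * x * s⁻¹)) ^ 2 ^ i' * x * x = x * (x * (s * x * s⁻¹)) ^ 2 ^ i' * x := by rw [hwa]
          _ = x * ((x * (s * x * s⁻¹)) ^ 2 ^ i' * x) := mul_assoc _ _ _
      have h1 := hiso _ ho hcomm hc1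
      apply hw1
      exact mul_right_cancel (b := x) (by rw [h1, one_mul])
  have h2 : s * x * s⁻¹ = x := by
    have h3 : x * (s * x * s⁻¹) = x * x := by rw [hd1, sq_of_ord hx]
    exact mul_left_cancel h3
  calc s * x = s * x * s⁻¹ * s := by group
    _ = x * s := by rw [h2]

/-- Pattern `x ∼ y ≁ z` is impossible in a simple group. -/
theorem pattern_gamma [Finite G] [IsSimpleGroup G] {x y z : G} (T : Tri x y z)
    (hxy : IsConj x y) (hxz : ¬ IsConj x z) : False := by
  obtain ⟨g, hg⟩ := isConj_iff.1 hxy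
  have hyz : ¬ IsConj y z := fun h => hxz (hxy.trans h)
  have hzg : g * z * g⁻¹ = z := by
    have hc : z * (g * x * g⁻¹) = g * x * g⁻¹ * z := by rw [hg, T.zy, T.yz]
    rcases T.conj_cases g z T.hz hc with h | h | h
    · exact absurd (isConj_iff.2 ⟨g, h.symm⟩) hxz
    · exact absurd (isConj_iff.2 ⟨g, h.symm⟩) hyz
    · exact h.symm
  have key : ∀ c : G, z * (c * z * c⁻¹) = c * z * c⁻¹ * z := by
    intro c
    by_cases hzz : c * z * c⁻¹ = z
    · rw [hzz]
    have hz'o : orderOf (c * z * c⁻¹) = 2 := ord_conj c T.hz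
    have hzz' : IsConj z (c * z * c⁻¹) := isConj_iff.2 ⟨c, rfl⟩
    have hnc : ¬ IsConj x (c * z * c⁻¹) := fun h => hxz (h.trans hzz'.symm)
    have hpos : 0 < orderOf (x * (c * z * c⁻¹)) := orderOf_pos _
    rcases Nat.even_or_odd (orderOf (x * (c * z * c⁻¹))) with hev | hodd
    · obtain ⟨j, hj⟩ := hev
      rw [← two_mul] at hj
      have hj0 : 0 < j := by omega
      obtain ⟨hwa, hwb, hw2, hw1, -, -⟩ :=
        dih_even x (c * z * c⁻¹) (sq_of_ord T.hx) (sq_of_ord hz'o) j hj0 hj
      have hwo := ord_of_sq hw2 hw1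
      rcases T.hI _ hwo hwa with h | h | h
      · rw [h] at hwb
        rcases T.hI _ hz'o hwb.symm with h' | h' | h'
        · rw [h'] at hzz'; exact absurd hzz'.symm hxz
        · rw [h'] at hzz'; exact absurd hzz'.symm hyz
        · exact absurd h' hzz
      · rw [h] at hwb
        have hc : c * z * c⁻¹ * (g * x * g⁻¹) = g * x * g⁻¹ * (c * z * c⁻¹) := by
          rw [hg]; exact hwb.symm
        rcases T.conj_cases g _ hz'o hc with h' | h' | h'
        · rw [hg] at h'; rw [h'] at hzz'; exact absurd hzz'.symm hyz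
        · exfalso
          have h1 : IsConj y (c * z * c⁻¹) := isConj_iff.2 ⟨g, h'.symm⟩
          exact hyz (h1.trans hzz'.symm)
        · rw [hzg] at h'; exact absurd h' hzz
      · rw [h] at hwb; exact hwb
    · exact absurd (dih_odd _ _ (sq_of_ord T.hx) (sq_of_ord hz'o) hodd) hnc
  have hcen := central_of_commute_conj z z (ne_of_ord T.hz) key
  have hbot := center_eq_bot x y T.hx T.hy T.x_ne_y
  rw [hbot] at hcen
  exact ne_of_ord T.hz (Subgroup.mem_bot.1 hcen)

/-- Pattern: `x, y, z` pairwise non-conjugate is impossible in a simple group. -/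
theorem pattern_Ia [Finite G] [IsSimpleGroup G] {x y z : G} (T : Tri x y z)
    (hxy : ¬ IsConj x y) (hxz : ¬ IsConj x z) (hyz : ¬ IsConj y z) : False := by
  have key : ∀ c : G, y * (c * z * c⁻¹) = c * z * c⁻¹ * y := by
    intro c
    have hz'o : orderOf (c * z * c⁻¹) = 2 := ord_conj c T.hz
    have hzz' : IsConj z (c * z * c⁻¹) := isConj_iff.2 ⟨c, rfl⟩
    have hnc : ¬ IsConj x (c * z * c⁻¹) := fun h => hxz (h.trans hzz'.symm)
    have hpos : 0 < orderOf (x * (c * z * c⁻¹)) := orderOf_pos _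
    rcases Nat.even_or_odd (orderOf (x * (c * z * c⁻¹))) with hev | hodd
    · obtain ⟨j, hj⟩ := hev
      rw [← two_mul] at hj
      have hj0 : 0 < j := by omega
      obtain ⟨hwa, hwb, hw2, hw1, hE, hO⟩ :=
        dih_even x (c * z * c⁻¹) (sq_of_ord T.hx) (sq_of_ord hz'o) j hj0 hj
      have hwo := ord_of_sq hw2 hw1
      rcases T.hI _ hwo hwa with h | h | h
      · rw [h] at hwb
        rcases T.hI _ hz'o hwb.symm with h' | h' | h'
        · rw [h'] at hzz'; exact absurd hzz'.symm hxz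
        · rw [h'] at hzz'; exact absurd hzz'.symm hyz
        · rw [h', T.yz, T.zy]
      · rw [h] at hwb; exact hwb
      · exfalso
        rw [h, T.zx] at hE hO
        rcases Nat.even_or_odd j with hje | hjo
        · exact hxy (hE hje)
        · exact hyz ((hO hjo).symm.trans hzz'.symm)
    · exact absurd (dih_odd _ _ (sq_of_ord T.hx) (sq_of_ord hz'o) hodd) hnc
  have hcen := central_of_commute_conj y z (ne_of_ord T.hz) key
  have hbot := center_eq_bot x y T.hx T.hy T.x_ne_y
  rw [hbot] at hcen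
  exact ne_of_ord T.hy (Subgroup.mem_bot.1 hcen)

/-- The relation "equal or non-commuting". -/
def R (u v : G) : Prop := u = v ∨ u * v ≠ v * u

theorem R_conj (a : G) {u v : G} (h : R u v) : R (a * u * a⁻¹) (a * v * a⁻¹) := by
  rcases h with h | h
  · left; rw [h]
  · right; intro h'; exact h ((conj_comm_iff a u v).1 h')

theorem R_symm {u v : G} (h : R u v) : R v u := by
  rcases h with h | h
  · left; exact h.symm
  · right; exact fun h' => h h'.symm

/-- Pattern: `x` isolated and `y ∼ z`, with `x` central in a Sylow 2-subgroup, is impossible in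
a simple group: the commuting graph on the class of `y` is complete bipartite, which yields a
subgroup of index 2. -/
theorem pattern_Ib [Finite G] [IsSimpleGroup G] {x y z : G} (T : Tri x y z)
    (hxy : ¬ IsConj x y) (hxz : ¬ IsConj x z) (hyz : IsConj y z)
    (S : Sylow 2 G) (hS : ∀ s ∈ (S : Subgroup G), s * x = x * s) : False := by
  have F2 : ∀ u v : G, IsConj y u → IsConj y v → u ≠ v → u * v = v * u →
      ∃ g : G, u * v = g * x * g⁻¹ ∧
        ((u = g * y * g⁻¹ ∧ v = g * z * g⁻¹) ∨ (u = g * z * g⁻¹ ∧ v = g * y * g⁻¹)) := by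
    intro u v hu hv hne hc
    have huo := ord_of_isConj hu T.hy
    have hvo := ord_of_isConj hv T.hy
    have hcomm : ∀ h ∈ Subgroup.zpowers v, u * h * u⁻¹ = h := by
      intro h hh
      obtain ⟨k, rfl⟩ := Subgroup.mem_zpowers_iff.1 hh
      have h1 : Commute u (v ^ k) := (show Commute u v from hc).zpow_right k
      rw [h1.eq, mul_assoc, mul_inv_cancel, mul_one]
    have hP : IsPGroup 2 (Subgroup.zpowers u ⊔ Subgroup.zpowers v : Subgroup G) := by
      apply IsPGroup.to_sup_of_normal_right' (zp_isP huo) (zp_isP hvo)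
      rw [Subgroup.zpowers_le, Subgroup.mem_normalizer_iff]
      intro h
      constructor
      · intro hh
        rw [hcomm h hh]; exact hh
      · intro hh
        have h1 := hcomm _ hh
        have h2 : u * h * u⁻¹ = h := mul_left_cancel (mul_right_cancel h1)
        rw [h2] at hh
        exact hh
    obtain ⟨g, hg⟩ := conj_into S _ hP
    have hu1 := hg u (Subgroup.mem_sup_left (Subgroup.mem_zpowers u))
    have hv1 := hg v (Subgroup.mem_sup_right (Subgroup.mem_zpowers v))
    have hcase : ∀ w : G, IsConj y w → g⁻¹ * w * g ∈ (S : Subgroup G) →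
        w = g * y * g⁻¹ ∨ w = g * z * g⁻¹ := by
      intro w hw hwS
      have hwo := ord_of_isConj hw T.hy
      have h1 : orderOf (g⁻¹ * w * g) = 2 := by
        have h := ord_conj g⁻¹ hwo
        rwa [inv_inv] at h
      have hb : w = g * (g⁻¹ * w * g) * g⁻¹ := by group
      rcases T.hI _ h1 (hS _ hwS) with h | h | h
      · exfalso; rw [h] at hb; exact hxy ((isConj_iff.2 ⟨g, hb.symm⟩).trans hw.symm)
      · left; rw [h] at hb; exact hb
      · right; rw [h] at hb; exact hb
    have e1 : g * y * g⁻¹ * (g * z * g⁻¹) = g * x * g⁻¹ := by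
      rw [← T.yz]; group
    have e2 : g * z * g⁻¹ * (g * y * g⁻¹) = g * x * g⁻¹ := by
      rw [← T.zy]; group
    rcases hcase u hu hu1 with h1 | h1 <;> rcases hcase v hv hv1 with h2 | h2
    · exact absurd (h1.trans h2.symm) hne
    · exact ⟨g, by rw [h1, h2, e1], Or.inl ⟨h1, h2⟩⟩
    · exact ⟨g, by rw [h1, h2, e2], Or.inr ⟨h1, h2⟩⟩
    · exact absurd (h1.trans h2.symm) hne
  have F3 : ∀ (g y' : G), IsConj y y' →
      y' * (g * y * g⁻¹) = g * y * g⁻¹ * y' ∨ y' * (g * z * g⁻¹) = g * z * g⁻¹ * y' := by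
    intro g y' hy'
    have hy'o := ord_of_isConj hy' T.hy
    have hao : orderOf (g * x * g⁻¹) = 2 := ord_conj g T.hx
    have hnc : ¬ IsConj (g * x * g⁻¹) y' := fun h =>
      hxy (((isConj_iff.2 ⟨g, rfl⟩ : IsConj x (g * x * g⁻¹)).trans h).trans hy'.symm)
    rcases Nat.even_or_odd (orderOf (g * x * g⁻¹ * y')) with hev | hodd
    · obtain ⟨j, hj⟩ := hev
      rw [← two_mul] at hj
      have hj0 : 0 < j := by
        have hpos := orderOf_pos (g * x * g⁻¹ * y')
        omega
      obtain ⟨hwa, hwb, hw2, hw1, -, -⟩ :=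
        dih_even (g * x * g⁻¹) y' (sq_of_ord hao) (sq_of_ord hy'o) j hj0 hj
      have hwo := ord_of_sq hw2 hw1
      rcases T.conj_cases g _ hwo hwa with h | h | h
      · rw [h] at hwb
        rcases T.conj_cases g y' hy'o hwb.symm with h' | h' | h'
        · exfalso; rw [h'] at hnc; exact hnc (IsConj.refl _)
        · left; rw [h']
        · right; rw [h']
      · left; rw [h] at hwb; exact hwb.symm
      · right; rw [h] at hwb; exact hwb.symm
    · exact absurd (dih_odd _ _ (sq_of_ord hao) (sq_of_ord hy'o) hodd) hnc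
  have F5 : ∀ u v₁ v₂ : G, IsConj y u → IsConj y v₁ → IsConj y v₂ → v₁ ≠ u → v₂ ≠ u →
      u * v₁ = v₁ * u → u * v₂ = v₂ * u → v₁ ≠ v₂ → v₁ * v₂ ≠ v₂ * v₁ := by
    intro u v₁ v₂ hu hv₁ hv₂ hne₁ hne₂ hc₁ hc₂ hne hc
    obtain ⟨g₁, hg₁, -⟩ := F2 u v₁ hu hv₁ (Ne.symm hne₁) hc₁
    obtain ⟨g₂, hg₂, -⟩ := F2 u v₂ hu hv₂ (Ne.symm hne₂) hc₂
    have hpo : orderOf (u * v₂) = 2 := by rw [hg₂]; exact ord_conj g₂ T.hx
    have hpc : u * v₂ * (g₁ * x * g₁⁻¹) = g₁ * x * g₁⁻¹ * (u * v₂) := by
      rw [← hg₁]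
      calc u * v₂ * (u * v₁) = u * (v₂ * u) * v₁ := by simp only [mul_assoc]
        _ = u * (u * v₂) * v₁ := by rw [hc₂]
        _ = u * u * (v₂ * v₁) := by simp only [mul_assoc]
        _ = u * u * (v₁ * v₂) := by rw [hc]
        _ = u * (u * v₁) * v₂ := by simp only [mul_assoc]
        _ = u * (v₁ * u) * v₂ := by rw [hc₁]
        _ = u * v₁ * (u * v₂) := by simp only [mul_assoc]
    have hx2 : IsConj x (u * v₂) := by rw [hg₂]; exact isConj_iff.2 ⟨g₂, rfl⟩
    rcases T.conj_cases g₁ _ hpo hpc with h | h | h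
    · rw [← hg₁] at h
      exact hne (mul_left_cancel h).symm
    · rw [h] at hx2
      exact hxy (hx2.trans (isConj_iff.2 ⟨g₁, rfl⟩ : IsConj y (g₁ * y * g₁⁻¹)).symm)
    · rw [h] at hx2
      exact hxz (hx2.trans (isConj_iff.2 ⟨g₁, rfl⟩ : IsConj z (g₁ * z * g₁⁻¹)).symm)
  have F6 : ∀ u y' v : G, IsConj y u → IsConj y y' → IsConj y v → y' * u ≠ u * y' → v ≠ u →
      u * v = v * u → y' * v = v * y' := by
    intro u y' v hu hy' hv hnc hne hc
    obtain ⟨g, -, h | h⟩ := F2 u v hu hv (Ne.symm hne) hc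
    · rcases F3 g y' hy' with h3 | h3
      · exfalso; rw [← h.1] at h3; exact hnc h3
      · rw [← h.2] at h3; exact h3
    · rcases F3 g y' hy' with h3 | h3
      · rw [← h.2] at h3; exact h3
      · exfalso; rw [← h.1] at h3; exact hnc h3
  have Rtrans : ∀ u v w : G, IsConj y u → IsConj y v → IsConj y w →
      R u v → R v w → R u w := by
    intro u v w hu hv hw h1 h2
    by_contra hcon
    unfold R at hcon
    push_neg at hcon
    obtain ⟨hne, hc⟩ := hcon
    rcases h1 with h1 | h1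
    · subst h1
      rcases h2 with h2 | h2
      · exact hne h2
      · exact h2 hc
    · have hvw : v * w = w * v := F6 u v w hu hv hw (fun h => h1 h.symm) (Ne.symm hne) hc
      rcases h2 with h2 | h2
      · subst h2; exact h1 hc
      · exact h2 hvw
  let K : Subgroup G :=
    { carrier := {g | R (g * y * g⁻¹) y}
      one_mem' := by
        show R (1 * y * 1⁻¹) y
        left; group
      mul_mem' := by
        intro a b ha hb
        have ha' : R (a * y * a⁻¹) y := ha
        have hb' : R (b * y * b⁻¹) y := hb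
        have e : a * b * y * (a * b)⁻¹ = a * (b * y * b⁻¹) * a⁻¹ := by group
        show R (a * b * y * (a * b)⁻¹) y
        rw [e]
        exact Rtrans _ _ _ (isConj_iff.2 ⟨a * b, e⟩) (isConj_iff.2 ⟨a, rfl⟩) (IsConj.refl y)
          (R_conj a hb') ha'
      inv_mem' := by
        intro a ha
        have ha' : R (a * y * a⁻¹) y := ha
        have h1 := R_conj a⁻¹ ha'
        have e : a⁻¹ * (a * y * a⁻¹) * a⁻¹⁻¹ = y := by group
        rw [e] at h1
        exact R_symm h1 }
  have hK : ∀ g : G, g ∈ K ↔ R (g * y * g⁻¹) y := fun g => Iff.rfl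
  obtain ⟨g₀, hg₀⟩ := isConj_iff.1 hyz
  have hg₀K : g₀ ∉ K := by
    intro h
    rw [hK, hg₀] at h
    rcases h with h | h
    · exact T.y_ne_z h.symm
    · exact h (by rw [T.zy, T.yz])
  have hidx : K.index = 2 := by
    rw [Subgroup.index_eq_two_iff]
    refine ⟨g₀, fun b => ?_⟩
    by_cases hb : b ∈ K
    · right
      refine ⟨hb, fun h => hg₀K ?_⟩
      have h1 := K.mul_mem (K.inv_mem hb) h
      rwa [inv_mul_cancel_left] at h1
    · left
      refine ⟨?_, hb⟩
      have hb' : ¬ R (b * y * b⁻¹) y := fun h => hb ((hK b).2 h)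
      unfold R at hb'
      push_neg at hb'
      obtain ⟨hb1, hb2⟩ := hb'
      have e : b * g₀ * y * (b * g₀)⁻¹ = b * z * b⁻¹ := by rw [← hg₀]; group
      rw [hK, e]
      by_cases hzy : b * z * b⁻¹ = y
      · left; exact hzy
      · right
        apply F5 (b * y * b⁻¹) (b * z * b⁻¹) y (isConj_iff.2 ⟨b, rfl⟩)
          (hyz.trans (isConj_iff.2 ⟨b, rfl⟩)) (IsConj.refl y)
        · intro h
          exact T.y_ne_z (mul_left_cancel (mul_right_cancel h)).symm
        · exact Ne.symm hb1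
        · exact (conj_comm_iff b y z).2 (by rw [T.yz, T.zy])
        · exact hb2
        · exact hzy
  have hn : K.Normal := Subgroup.normal_of_index_eq_two hidx
  rcases hn.eq_bot_or_eq_top with h | h
  · have hxK : x ∈ K := by
      rw [hK]
      left
      have hxi : x⁻¹ = x := inv_eq_of_mul_eq_one_left (sq_of_ord T.hx)
      rw [hxi, T.xy, T.zx]
    rw [h] at hxK
    exact ne_of_ord T.hx (Subgroup.mem_bot.1 hxK)
  · exact hg₀K (by rw [h]; exact Subgroup.mem_top g₀)


/-- Let G be a finite simple group and x an involution of G whose centralizer contains at most three involutions. Then C_G(x) contains a Sylow 2-subgroup of G, and all involutions of G are conjugate. -/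
theorem result {G : Type*} [Group G] [Finite G] [IsSimpleGroup G] (x : G) (hx : orderOf x = 2)
    (h3 : Nat.card {u : ↥(Subgroup.centralizer ({x} : Set G)) // orderOf u = 2} ≤ 3) :
    (∃ S : Sylow 2 G, (S : Subgroup G) ≤ Subgroup.centralizer ({x} : Set G)) ∧
      ∀ u v : G, orderOf u = 2 → orderOf v = 2 → IsConj u v := by
  classical
  have hxsq := sq_of_ord hx
  obtain ⟨S, hS⟩ := (zp_isP hx).exists_le_sylow
  have hxS : x ∈ (S : Subgroup G) := hS (Subgroup.mem_zpowers x)
  have hfin : ∀ (S₁ : Sylow 2 G), (∀ s ∈ (S₁ : Subgroup G), s * x = x * s) →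
      (∀ v : G, orderOf v = 2 → v * x = x * v → IsConj x v) →
      ∀ u v : G, orderOf u = 2 → orderOf v = 2 → IsConj u v := by
    intro S₁ hS₁ hall
    have h1 : ∀ u : G, orderOf u = 2 → IsConj x u := by
      intro u hu
      obtain ⟨g, hg⟩ := conj_into S₁ _ (zp_isP hu)
      have hug := hg u (Subgroup.mem_zpowers u)
      have ho : orderOf (g⁻¹ * u * g) = 2 := by
        have h := ord_conj g⁻¹ hu
        rwa [inv_inv] at h
      have h2 := hall _ ho (hS₁ _ hug)
      exact h2.trans (isConj_iff.2 ⟨g, by group⟩)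
    intro u v hu hv
    exact (h1 u hu).symm.trans (h1 v hv)
  have hmemC : ∀ (S₁ : Sylow 2 G), (∀ s ∈ (S₁ : Subgroup G), s * x = x * s) →
      (S₁ : Subgroup G) ≤ Subgroup.centralizer ({x} : Set G) := by
    intro S₁ h s hs
    rw [Subgroup.mem_centralizer_iff]
    intro t ht
    rw [Set.mem_singleton_iff] at ht; subst ht
    exact (h s hs).symm
  by_cases hex : ∃ y : G, orderOf y = 2 ∧ y * x = x * y ∧ y ≠ x
  · obtain ⟨y, hy, hyx, hne⟩ := hex
    have hysq := sq_of_ord hy
    have hz : orderOf (x * y) = 2 := by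
      apply ord_of_sq
      · calc x * y * (x * y) = x * (y * x) * y := by simp only [mul_assoc]
          _ = x * (x * y) * y := by rw [hyx]
          _ = (x * x) * (y * y) := by simp only [mul_assoc]
          _ = 1 := by rw [hxsq, hysq, one_mul]
      · intro h
        apply hne
        have h1 : x * y = x * x := by rw [h, hxsq]
        exact mul_left_cancel h1
    have hzx : x * y ≠ x := fun h => ne_of_ord hy (by simpa using h)
    have hzy : x * y ≠ y := fun h => ne_of_ord hx (by simpa using h)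
    have hzc : x * y * x = x * (x * y) := by rw [mul_assoc, hyx]
    have hI : ∀ v : G, orderOf v = 2 → v * x = x * v → v = x ∨ v = y ∨ v = x * y := by
      intro v hv hvx
      by_contra hcon
      push_neg at hcon
      obtain ⟨n1, n2, n3⟩ := hcon
      exact three_inv x h3 x y (x * y) v hx hy hz hv rfl hyx hzc hvx (Ne.symm hne)
        (Ne.symm hzx) (Ne.symm n1) (Ne.symm hzy) (Ne.symm n2) (Ne.symm n3)
    have T : Tri x y (x * y) := ⟨hx, hy, hz, rfl, hyx.trans rfl, hI⟩
    by_cases c1 : IsConj x y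
    · by_cases c2 : IsConj x (x * y)
      · have hall : ∀ v : G, orderOf v = 2 → v * x = x * v → IsConj x v := by
          intro v hv hvx
          rcases hI v hv hvx with rfl | rfl | rfl
          · exact IsConj.refl _
          · exact c1
          · exact c2
        obtain ⟨c, hcS, hco, hcc⟩ := exists_central_inv S ⟨x, hxS, ne_of_ord hx⟩
        have hcx : c * x = x * c := (hcc x hxS).symm
        obtain ⟨g, hg⟩ := isConj_iff.1 (hall c hco hcx)
        have hS₁ : ∀ s ∈ ((g⁻¹ • S : Sylow 2 G) : Subgroup G), s * x = x * s := by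
          intro s hs
          rw [mem_smul_syl, inv_inv] at hs
          have h1 := hcc _ hs
          rw [← hg] at h1
          exact (conj_comm_iff g s x).1 h1
        exact ⟨⟨_, hmemC _ hS₁⟩, hfin _ hS₁ hall⟩
      · exact (pattern_gamma T c1 c2).elim
    · by_cases c2 : IsConj x (x * y)
      · exact (pattern_gamma T.swap c2 c1).elim
      · have hiso : ∀ v : G, orderOf v = 2 → v * x = x * v → IsConj x v → v = x := by
          intro v hv hvx hc
          rcases hI v hv hvx with h | h | h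
          · exact h
          · rw [h] at hc; exact absurd hc c1
          · rw [h] at hc; exact absurd hc c2
        have hSc := iso_central x hx hiso S hxS
        by_cases c3 : IsConj y (x * y)
        · exact (pattern_Ib T c1 c2 c3 S hSc).elim
        · exact (pattern_Ia T c1 c2 c3).elim
  · push_neg at hex
    have hiso : ∀ v : G, orderOf v = 2 → v * x = x * v → IsConj x v → v = x :=
      fun v hv hvx _ => hex v hv hvx
    have hSc := iso_central x hx hiso S hxS
    refine ⟨⟨S, hmemC S hSc⟩, hfin S hSc ?_⟩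
    intro v hv hvx
    have hv' := hex v hv hvx
    subst hv'
    exact IsConj.refl _

end Cfsg.Agent.S3279
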