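import Mathlib
import Cfsg.Statements.S3277
import Cfsg.Agent.S3279
import Cfsg.Agent.S3276
-- import your own Cfsg.Agent.* helpers here

set_option autoImplicit false
open Cfsg

namespace Cfsg.Agent.S3277

open Cfsg.Agent.S3279

variable {G : Type*} [Group G]

/-- `g` normalizes the commuting class of the involution `a`. -/
def Nrm (g a : G) : Prop := g * a * g⁻¹ * a = a * (g * a * g⁻¹)

/-- Groups in which involution centralizers are elementary abelian of order four. -/
structure Good (G : Type*) [Group G] : Prop where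
  h1 : ∀ t : G, orderOf t = 2 → ∀ p q : G, p * t = t * p → q * t = t * q → p * q = q * p
  h2 : ∀ t : G, orderOf t = 2 → ∀ p : G, p * t = t * p → p * p = 1
  h3 : ∀ t : G, orderOf t = 2 → ∃ t' t'' : G, Tri t t' t''

theorem comm_pull {h x p : G} (hc : p * (h * x * h⁻¹) = h * x * h⁻¹ * p) :
    h⁻¹ * p * h * x = x * (h⁻¹ * p * h) := by
  calc h⁻¹ * p * h * x = h⁻¹ * (p * (h * x * h⁻¹)) * h := by group
    _ = h⁻¹ * (h * x * h⁻¹ * p) * h := by rw [hc]
    _ = x * (h⁻¹ * p * h) := by group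

theorem comm_push {h x p : G} (hc : h⁻¹ * p * h * x = x * (h⁻¹ * p * h)) :
    p * (h * x * h⁻¹) = h * x * h⁻¹ * p := by
  calc p * (h * x * h⁻¹) = h * (h⁻¹ * p * h * x) * h⁻¹ := by group
    _ = h * (x * (h⁻¹ * p * h)) * h⁻¹ := by rw [hc]
    _ = h * x * h⁻¹ * p := by group

theorem tri_conj {x y z : G} (T : Tri x y z) (g : G) :
    Tri (g * x * g⁻¹) (g * y * g⁻¹) (g * z * g⁻¹) :=
  ⟨ord_conj g T.hx, ord_conj g T.hy, ord_conj g T.hz,
    by rw [← T.xy]; group, by rw [← T.yx]; group, fun v hv hc => T.conj_cases g v hv hc⟩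

theorem swap_back {u a b : G} (huu : u * u = 1) (h : u * a * u⁻¹ = b) : u * b * u⁻¹ = a := by
  rw [← h]
  calc u * (u * a * u⁻¹) * u⁻¹ = (u * u) * a * (u * u)⁻¹ := by group
    _ = a := by rw [huu]; group

theorem fixA (hG : Good G) {k b : G} (hk : orderOf k = 2) (hb : orderOf b = 2)
    (h : k * b * k⁻¹ * b = b * (k * b * k⁻¹)) : k * b = b * k := by
  have hkk := sq_of_ord hk
  have hbb := sq_of_ord hb
  by_cases hfix : k * b * k⁻¹ = b
  · calc k * b = k * b * k⁻¹ * k := by group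
      _ = b * k := by rw [hfix]
  · have hb'o : orderOf (k * b * k⁻¹) = 2 := ord_conj k hb
    have hb'b' := sq_of_ord hb'o
    have hcc : b * (k * b * k⁻¹) * (b * (k * b * k⁻¹)) = 1 := by
      calc b * (k * b * k⁻¹) * (b * (k * b * k⁻¹))
          = b * ((k * b * k⁻¹) * b) * (k * b * k⁻¹) := by group
        _ = b * (b * (k * b * k⁻¹)) * (k * b * k⁻¹) := by rw [h]
        _ = (b * b) * ((k * b * k⁻¹) * (k * b * k⁻¹)) := by group
        _ = 1 := by rw [hbb, hb'b', one_mul]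
    have hc1 : b * (k * b * k⁻¹) ≠ 1 := by
      intro h1
      apply hfix
      have h2 : k * b * k⁻¹ = b⁻¹ := eq_inv_of_mul_eq_one_right h1
      rw [h2]; exact inv_eq_of_mul_eq_one_left hbb
    have hco : orderOf (b * (k * b * k⁻¹)) = 2 := ord_of_sq hcc hc1
    have hkc : k * (b * (k * b * k⁻¹)) = b * (k * b * k⁻¹) * k := by
      calc k * (b * (k * b * k⁻¹)) = (k * b * k⁻¹) * ((k * k) * b * (k * k)⁻¹) * k := by group
        _ = (k * b * k⁻¹) * b * k := by rw [hkk]; group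
        _ = b * (k * b * k⁻¹) * k := by rw [h]
    have hbc : b * (b * (k * b * k⁻¹)) = b * (k * b * k⁻¹) * b := by
      calc b * (b * (k * b * k⁻¹)) = b * ((k * b * k⁻¹) * b) := by rw [h]
        _ = b * (k * b * k⁻¹) * b := by group
    exact hG.h1 _ hco k b hkc hbc

theorem odd_prod [Finite G] (hG : Good G) {a b : G} (ha : orderOf a = 2) (hb : orderOf b = 2)
    (hne : a * b ≠ b * a) : Odd (orderOf (a * b)) := by
  rcases Nat.even_or_odd (orderOf (a * b)) with hev | hodd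
  · exfalso
    obtain ⟨j, hj⟩ := hev
    rw [← two_mul] at hj
    have hpos : 0 < orderOf (a * b) := orderOf_pos _
    have hj0 : 0 < j := by omega
    obtain ⟨hwa, hwb, hw2, hw1, -, -⟩ := dih_even a b (sq_of_ord ha) (sq_of_ord hb) j hj0 hj
    exact hne (hG.h1 _ (ord_of_sq hw2 hw1) a b hwa.symm hwb.symm)
  · exact hodd

theorem swap_aux {X a b : G} (hb : b * b = 1) (hc : X * a * X⁻¹ = b)
    (hXX : X * X * a = b) : (X * a) * (X * a) = 1 ∧ (X * a) * a * (X * a)⁻¹ = b := by
  constructor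
  · have e : X * a = b * X := by
      calc X * a = X * a * X⁻¹ * X := by group
        _ = b * X := by rw [hc]
    calc X * a * (X * a) = b * X * (X * a) := by rw [e]
      _ = b * (X * X * a) := by group
      _ = 1 := by rw [hXX, hb]
  · calc X * a * a * (X * a)⁻¹ = X * a * X⁻¹ := by group
      _ = b := hc

theorem swap_inv [Finite G] {a b : G} (ha : a * a = 1) (hb : b * b = 1)
    (hodd : Odd (orderOf (a * b))) : ∃ u : G, u * u = 1 ∧ u * a * u⁻¹ = b ∧ u * b * u⁻¹ = a := by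
  obtain ⟨m, hm⟩ := hodd
  have hainv : a⁻¹ = a := inv_eq_of_mul_eq_one_left ha
  have hbinv : b⁻¹ = b := inv_eq_of_mul_eq_one_left hb
  have h1 : (a * b) ^ (2 * m) * (a * b) = 1 := by
    rw [← pow_succ, ← hm, pow_orderOf_eq_one]
  have h2 : (a * b) ^ (2 * m) = b * a := by
    have h : (a * b) ^ (2 * m) = (a * b)⁻¹ := eq_inv_of_mul_eq_one_left h1
    rw [h, mul_inv_rev, hainv, hbinv]
  have h3 : (a * b) ^ (2 * m) * a = b := by
    rw [h2, mul_assoc, ha, mul_one]
  have hc := dih_conj_a a b ha hb m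
  rw [h3] at hc
  have hXX : (a * b) ^ m * (a * b) ^ m * a = b := by
    rw [← pow_add, ← two_mul]; exact h3
  obtain ⟨huu, hu⟩ := swap_aux hb hc hXX
  exact ⟨(a * b) ^ m * a, huu, hu, swap_back huu hu⟩

theorem nrm_inv {g a : G} (h : Nrm g a) : Nrm g⁻¹ a := by
  unfold Nrm at *
  have e1 : g⁻¹ * a * g⁻¹⁻¹ * a = g⁻¹ * (a * (g * a * g⁻¹)) * g := by group
  have e2 : a * (g⁻¹ * a * g⁻¹⁻¹) = g⁻¹ * (g * a * g⁻¹ * a) * g := by group
  rw [e1, e2, h]

theorem nrm_mul (hG : Good G) {g g' a : G} (ha : orderOf a = 2) (h : Nrm g a) (h' : Nrm g' a) :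
    Nrm (g * g') a := by
  unfold Nrm at *
  have e : g * g' * a * (g * g')⁻¹ = g * (g' * a * g'⁻¹) * g⁻¹ := by group
  rw [e]
  have c1 : g * (g' * a * g'⁻¹) * g⁻¹ * (g * a * g⁻¹) = g * a * g⁻¹ * (g * (g' * a * g'⁻¹) * g⁻¹) :=
    (conj_comm_iff g _ _).2 h'
  exact hG.h1 _ (ord_conj g ha) _ _ c1 h.symm

theorem nrm_of_comm (hG : Good G) {g a b : G} (ha : orderOf a = 2)
    (hab : a * b = b * a) (h : Nrm g a) : Nrm g b := by
  unfold Nrm at *
  have s1 := hG.h1 _ (ord_conj g ha) _ _ ((conj_comm_iff g b a).2 hab.symm) h.symm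
  exact hG.h1 a ha _ _ s1 hab.symm

theorem D0 (hG : Good G) {a b k : G} (ha : orderOf a = 2) (hb : orderOf b = 2)
    (hab : a * b ≠ b * a) (hka : Nrm k a) (hkb : Nrm k b) (hkk : k * k = 1) : k = 1 := by
  by_contra hk1
  have hko := ord_of_sq hkk hk1
  have c1 := fixA hG hko ha hka
  have c2 := fixA hG hko hb hkb
  exact hab (hG.h1 k hko a b c1.symm c2.symm)

theorem D1 (hG : Good G) {a b k : G} (ha : orderOf a = 2) (hb : orderOf b = 2)
    (hab : a * b ≠ b * a) (hkc : k * a = a * k) (hkb : Nrm k b) : k = 1 := by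
  have e : k * a * k⁻¹ = a := by rw [hkc, mul_assoc, mul_inv_cancel, mul_one]
  have hka : Nrm k a := by unfold Nrm; rw [e]
  exact D0 hG ha hb hab hka hkb (hG.h2 a ha k hkc)

theorem D2 (hG : Good G) {a b g g' : G} (ha : orderOf a = 2) (hb : orderOf b = 2)
    (hab : a * b ≠ b * a) (hgb : Nrm g b) (hg'b : Nrm g' b)
    (he : g * a * g⁻¹ = g' * a * g'⁻¹) : g = g' := by
  have hk : g'⁻¹ * g * a = a * (g'⁻¹ * g) := by
    calc g'⁻¹ * g * a = g'⁻¹ * (g * a * g⁻¹) * g := by group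
      _ = g'⁻¹ * (g' * a * g'⁻¹) * g := by rw [he]
      _ = a * (g'⁻¹ * g) := by group
  have hkb : Nrm (g'⁻¹ * g) b := nrm_mul hG hb (nrm_inv hg'b) hgb
  have h1 := D1 hG ha hb hab hk hkb
  calc g = g' * (g'⁻¹ * g) := by group
    _ = g' := by rw [h1, mul_one]

theorem D_dich (hG : Good G) {a a' a'' b δ g : G} (T : Tri a a' a'') (hb : orderOf b = 2)
    (hab : a * b ≠ b * a) (hδ1 : δ ≠ 1) (hδa : Nrm δ a) (hδb : Nrm δ b)
    (hg1 : g ≠ 1) (hga : Nrm g a) (hgb : Nrm g b) : g = δ ∨ g = δ⁻¹ := by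
  have key : ∀ k : G, k ≠ 1 → Nrm k a → Nrm k b → k * a * k⁻¹ = a' ∨ k * a * k⁻¹ = a'' := by
    intro k hk1 hka hkb
    rcases T.hI _ (ord_conj k T.hx) hka with h | h | h
    · exfalso
      apply hk1
      have hc : k * a = a * k := by
        calc k * a = k * a * k⁻¹ * k := by group
          _ = a * k := by rw [h]
      exact D1 hG T.hx hb hab hc hkb
    · exact Or.inl h
    · exact Or.inr h
  have hne : δ * a * δ⁻¹ ≠ δ⁻¹ * a * δ⁻¹⁻¹ := by
    intro h
    have h1 : δ = δ⁻¹ := D2 hG T.hx hb hab hδb (nrm_inv hδb) h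
    have h2 : δ * δ = 1 := by
      have e : δ * δ = δ * δ⁻¹ := by rw [← h1]
      rw [e, mul_inv_cancel]
    exact hδ1 (D0 hG T.hx hb hab hδa hδb h2)
  rcases key δ hδ1 hδa hδb with h1 | h1 <;>
    rcases key δ⁻¹ (inv_ne_one.2 hδ1) (nrm_inv hδa) (nrm_inv hδb) with h2 | h2 <;>
    rcases key g hg1 hga hgb with h3 | h3
  all_goals first
    | exact Or.inl (D2 hG T.hx hb hab hgb hδb (h3.trans h1.symm))
    | exact Or.inr (D2 hG T.hx hb hab hgb (nrm_inv hδb) (h3.trans h2.symm))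
    | exact absurd (h1.trans h2.symm) hne

theorem D3 (hG : Good G) {a a' a'' b δ u : G} (T : Tri a a' a'') (hb : orderOf b = 2)
    (hab : a * b ≠ b * a) (hδ1 : δ ≠ 1) (hδa : Nrm δ a) (hδb : Nrm δ b)
    (huu : u * u = 1) (hu : u * a * u⁻¹ = b) : u * δ * u⁻¹ = δ⁻¹ := by
  have hub : u * b * u⁻¹ = a := swap_back huu hu
  have hu1 : u ≠ 1 := by
    intro h1
    apply hab
    have e : a = b := by
      rw [h1] at hu
      calc a = 1 * a * 1⁻¹ := by group
        _ = b := hu
    rw [e]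
  have huo := ord_of_sq huu hu1
  have hg1 : u * δ * u⁻¹ ≠ 1 := by rw [Ne, conj_eq_one_iff]; exact hδ1
  have hga : Nrm (u * δ * u⁻¹) a := by
    unfold Nrm at *
    have e : u * δ * u⁻¹ * a * (u * δ * u⁻¹)⁻¹ = u * (δ * b * δ⁻¹) * u⁻¹ := by
      rw [← hub]; group
    rw [e]
    have c := (conj_comm_iff u (δ * b * δ⁻¹) b).2 hδb
    rw [hub] at c
    exact c
  have hgb : Nrm (u * δ * u⁻¹) b := by
    unfold Nrm at *
    have e : u * δ * u⁻¹ * b * (u * δ * u⁻¹)⁻¹ = u * (δ * a * δ⁻¹) * u⁻¹ := by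
      rw [← hu]; group
    rw [e]
    have c := (conj_comm_iff u (δ * a * δ⁻¹) a).2 hδa
    rw [hu] at c
    exact c
  rcases D_dich hG T hb hab hδ1 hδa hδb hg1 hga hgb with h | h
  · exfalso
    have hc : δ * u = u * δ := by
      calc δ * u = u * δ * u⁻¹ * u := by rw [h]
        _ = u * δ := by group
    exact hδ1 (D0 hG T.hx hb hab hδa hδb (hG.h2 u huo δ hc))
  · exact h

theorem D4 (hG : Good G) {a a' a'' b δ : G} (T : Tri a a' a'') (hb : orderOf b = 2)
    (hab : a * b ≠ b * a) (hδ1 : δ ≠ 1) (hδa : Nrm δ a) (hδb : Nrm δ b) : δ * δ * δ = 1 := by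
  have h2 : δ * δ ≠ 1 := fun h => hδ1 (D0 hG T.hx hb hab hδa hδb h)
  rcases D_dich hG T hb hab hδ1 hδa hδb h2 (nrm_mul hG T.hx hδa hδa) (nrm_mul hG hb hδb hδb)
    with h | h
  · exfalso; apply hδ1
    have e : δ * δ = δ * 1 := by rw [h, mul_one]
    exact mul_left_cancel e
  · rw [h, inv_mul_cancel]

theorem F_false [Finite G] (hG : Good G) {a b c δ : G} (ha : orderOf a = 2) (hb : orderOf b = 2)
    (hc : orderOf c = 2) (hab : a * b ≠ b * a) (hbc : b * c ≠ c * b) (hca : c * a ≠ a * c)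
    (hδ1 : δ ≠ 1) (hδa : Nrm δ a) (hδb : Nrm δ b) (hδc : Nrm δ c) : False := by
  obtain ⟨a', a'', Ta⟩ := hG.h3 a ha
  obtain ⟨b', b'', Tb⟩ := hG.h3 b hb
  obtain ⟨c', c'', Tc⟩ := hG.h3 c hc
  obtain ⟨u1, hu1, h1, -⟩ := swap_inv (sq_of_ord ha) (sq_of_ord hb) (odd_prod hG ha hb hab)
  obtain ⟨u2, hu2, h2, -⟩ := swap_inv (sq_of_ord hb) (sq_of_ord hc) (odd_prod hG hb hc hbc)
  obtain ⟨u3, hu3, h3, -⟩ := swap_inv (sq_of_ord hc) (sq_of_ord ha) (odd_prod hG hc ha hca)
  have i1 := D3 hG Ta hb hab hδ1 hδa hδb hu1 h1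
  have i2 := D3 hG Tb hc hbc hδ1 hδb hδc hu2 h2
  have i3 := D3 hG Tc ha hca hδ1 hδc hδa hu3 h3
  have hha : u3 * u2 * u1 * a = a * (u3 * u2 * u1) := by
    calc u3 * u2 * u1 * a = u3 * (u2 * (u1 * a * u1⁻¹) * u2⁻¹) * u3⁻¹ * (u3 * u2 * u1) := by group
      _ = a * (u3 * u2 * u1) := by rw [h1, h2, h3]
  have hhδ : u3 * u2 * u1 * δ * (u3 * u2 * u1)⁻¹ = δ⁻¹ := by
    calc u3 * u2 * u1 * δ * (u3 * u2 * u1)⁻¹ = u3 * (u2 * (u1 * δ * u1⁻¹) * u2⁻¹) * u3⁻¹ := by group
      _ = u3 * (u2 * δ * u2⁻¹)⁻¹ * u3⁻¹ := by rw [i1]; group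
      _ = u3 * δ * u3⁻¹ := by rw [i2, inv_inv]
      _ = δ⁻¹ := i3
  generalize u3 * u2 * u1 = h at hha hhδ
  have hh2 : h * h = 1 := hG.h2 a ha h hha
  by_cases hh1 : h = 1
  · rw [hh1] at hhδ
    have e : δ = δ⁻¹ := by
      calc δ = 1 * δ * 1⁻¹ := by group
        _ = δ⁻¹ := hhδ
    have e2 : δ * δ = 1 := by
      have e3 : δ * δ = δ * δ⁻¹ := by rw [← e]
      rw [e3, mul_inv_cancel]
    exact hδ1 (D0 hG ha hb hab hδa hδb e2)
  · have hho := ord_of_sq hh2 hh1
    have hδh : Nrm δ h := nrm_of_comm hG ha hha.symm hδa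
    unfold Nrm at hδh
    have hinv : h⁻¹ = h := inv_eq_of_mul_eq_one_left hh2
    have e1 : δ * h * δ⁻¹ = δ * δ * h := by
      calc δ * h * δ⁻¹ = δ * (h * δ * h⁻¹)⁻¹ * h := by group
        _ = δ * δ * h := by rw [hhδ, inv_inv]
    rw [e1] at hδh
    have e2 : δ * δ = h * (δ * δ) * h⁻¹ := by
      calc δ * δ = δ * δ * (h * h) := by rw [hh2, mul_one]
        _ = δ * δ * h * h := by group
        _ = h * (δ * δ * h) := hδh
        _ = h * (δ * δ) * h⁻¹ := by rw [hinv]; group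
    have e3 : h * (δ * δ) * h⁻¹ = δ⁻¹ * δ⁻¹ := by
      calc h * (δ * δ) * h⁻¹ = (h * δ * h⁻¹) * (h * δ * h⁻¹) := by group
        _ = δ⁻¹ * δ⁻¹ := by rw [hhδ]
    have e5 : δ * δ = δ⁻¹ * δ⁻¹ := e2.trans e3
    have e4 : δ * δ * (δ * δ) = 1 := by
      calc δ * δ * (δ * δ) = δ * δ * (δ⁻¹ * δ⁻¹) := by rw [← e5]
        _ = 1 := by group
    have hdd : δ * δ = 1 :=
      D0 hG ha hb hab (nrm_mul hG ha hδa hδa) (nrm_mul hG hb hδb hδb) e4
    exact hδ1 (D0 hG ha hb hab hδa hδb hdd)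

theorem gamma_false [Finite G] {x y z : G} (T : Tri x y z) (hxy : IsConj x y)
    (hxz : ¬ IsConj x z) (hC4 : Nat.card ↥(Subgroup.centralizer ({x} : Set G)) = 4)
    (hne : ∀ E : Subgroup G, E.Normal → Cfsg.IsElementaryAbelian 2 E →
      Nat.card ↥E ≠ 2 ∧ Nat.card ↥E ≠ 4) : False := by
  obtain ⟨g, hg⟩ := isConj_iff.1 hxy
  have hyz : ¬ IsConj y z := fun h => hxz (hxy.trans h)
  have hzg : g * z * g⁻¹ = z := by
    have hc : z * (g * x * g⁻¹) = g * x * g⁻¹ * z := by rw [hg, T.zy, T.yz]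
    rcases T.conj_cases g z T.hz hc with h | h | h
    · exact absurd (isConj_iff.2 ⟨g, h.symm⟩) hxz
    · exact absurd (isConj_iff.2 ⟨g, h.symm⟩) hyz
    · exact h.symm
  have key : ∀ c : G, z * (c * z * c⁻¹) = c * z * c⁻¹ * z := by
    intro c
    by_cases hzz : c * z * c⁻¹ = z
    · rw [hzz]
    have hz'o : orderOf (c * z * c⁻¹) = 2 := ord_conj c T.hz
    have hzz' : IsConj z (c * z * c⁻¹) := isConj_iff.2 ⟨c, rfl⟩
    have hnc : ¬ IsConj x (c * z * c⁻¹) := fun h => hxz (h.trans hzz'.symm)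
    have hpos : 0 < orderOf (x * (c * z * c⁻¹)) := orderOf_pos _
    rcases Nat.even_or_odd (orderOf (x * (c * z * c⁻¹))) with hev | hodd
    · obtain ⟨j, hj⟩ := hev
      rw [← two_mul] at hj
      have hj0 : 0 < j := by omega
      obtain ⟨hwa, hwb, hw2, hw1, -, -⟩ :=
        dih_even x (c * z * c⁻¹) (sq_of_ord T.hx) (sq_of_ord hz'o) j hj0 hj
      have hwo := ord_of_sq hw2 hw1
      rcases T.hI _ hwo hwa with h | h | h
      · rw [h] at hwb
        rcases T.hI _ hz'o hwb.symm with h' | h' | h'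
        · rw [h'] at hzz'; exact absurd hzz'.symm hxz
        · rw [h'] at hzz'; exact absurd hzz'.symm hyz
        · exact absurd h' hzz
      · rw [h] at hwb
        have hc : c * z * c⁻¹ * (g * x * g⁻¹) = g * x * g⁻¹ * (c * z * c⁻¹) := by
          rw [hg]; exact hwb.symm
        rcases T.conj_cases g _ hz'o hc with h' | h' | h'
        · rw [hg] at h'; rw [h'] at hzz'; exact absurd hzz'.symm hyz
        · exfalso
          have h1 : IsConj y (c * z * c⁻¹) := isConj_iff.2 ⟨g, h'.symm⟩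
          exact hyz (h1.trans hzz'.symm)
        · rw [hzg] at h'; exact absurd h' hzz
      · rw [h] at hwb; exact hwb
    · exact absurd (dih_odd _ _ (sq_of_ord T.hx) (sq_of_ord hz'o) hodd) hnc
  have hxzc : Commute x z := by
    show x * z = z * x
    rw [T.xz, T.zx]
  obtain ⟨-, hEA, hE4⟩ :=
    Cfsg.Agent.S3276.result x z T.hx T.hz hxzc hxz (fun u _ _ c _ => (key c).symm)
  have hzE : z ∈ Subgroup.normalClosure ({z} : Set G) :=
    Subgroup.subset_normalClosure (Set.mem_singleton z)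
  have hEn : (Subgroup.normalClosure ({z} : Set G)).Normal := Subgroup.normalClosure_normal
  have hcard : Nat.card ↥(Subgroup.normalClosure ({z} : Set G)) ≤ 4 := by
    by_cases hxE : x ∈ Subgroup.normalClosure ({z} : Set G)
    · have hle : Subgroup.normalClosure ({z} : Set G) ≤ Subgroup.centralizer ({x} : Set G) := by
        intro e he
        rw [Subgroup.mem_centralizer_iff]
        intro t ht
        rw [Set.mem_singleton_iff] at ht
        rw [ht]
        have h1 := hEA.1.is_comm.comm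
          (⟨x, hxE⟩ : ↥(Subgroup.normalClosure ({z} : Set G))) ⟨e, he⟩
        exact congrArg Subtype.val h1
      have h2 := Subgroup.card_le_of_le hle
      omega
    · apply hE4
      intro u hu huo hux
      rcases T.hI u huo hux.eq with h | h | h
      · exfalso; apply hxE; rw [← h]; exact hu
      · exfalso; apply hxE
        have hyE : y ∈ Subgroup.normalClosure ({z} : Set G) := by rw [← h]; exact hu
        have h3 := (Subgroup.normalClosure ({z} : Set G)).mul_mem hyE hzE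
        rwa [T.yz] at h3
      · exact h
  have hP : IsPGroup 2 ↥(Subgroup.normalClosure ({z} : Set G)) := by
    intro e
    refine ⟨1, ?_⟩
    rw [pow_one]
    apply Subtype.ext
    rw [Subgroup.coe_pow, Subgroup.coe_one]
    exact hEA.2 e.1 e.2
  obtain ⟨n, hn⟩ := IsPGroup.iff_card.1 hP
  have hn0 : n ≠ 0 := by
    rintro rfl
    rw [pow_zero] at hn
    have h1 := Subgroup.card_eq_one.1 hn
    rw [h1] at hzE
    exact ne_of_ord T.hz (Subgroup.mem_bot.1 hzE)
  have hn2 : n ≤ 2 := by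
    by_contra h
    have h1 : 2 ^ 3 ≤ 2 ^ n := Nat.pow_le_pow_right (by norm_num) (by omega)
    omega
  interval_cases n
  · exact absurd rfl hn0
  · exact (hne _ hEn hEA).1 (by norm_num [hn])
  · exact (hne _ hEn hEA).2 (by norm_num [hn])


/-- Let G be a finite group containing an involution whose centralizer is elementary abelian of order 4. If G has no normal 2-complement and no normal elementary abelian 2-subgroup of order 2 or 4, then G is isomorphic to the alternating group of degree 5 (that is, to PSL(2, 5)). -/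
theorem result {G : Type*} [Group G] [Finite G] (x : G) (hx : orderOf x = 2)
    (hC4 : Nat.card ↥(Subgroup.centralizer ({x} : Set G)) = 4) (hCe : ∀ c ∈ Subgroup.centralizer ({x} : Set G), c ^ 2 = 1)
    (hnc : ¬ Cfsg.HasNormalPComplement 2 G)
    (hne : ∀ E : Subgroup G, E.Normal → Cfsg.IsElementaryAbelian 2 E → Nat.card ↥E ≠ 2 ∧ Nat.card ↥E ≠ 4) :
    Nonempty (G ≃* ↥(alternatingGroup (Fin 5))) := by
  classical
  haveI : Fact (Nat.Prime 2) := ⟨Nat.prime_two⟩
  have hxx : x * x = 1 := sq_of_ord hx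
  have hx1 : x ≠ 1 := ne_of_ord hx
  have memC : ∀ w : G, w ∈ Subgroup.centralizer ({x} : Set G) ↔ w * x = x * w := by
    intro w
    rw [Subgroup.mem_centralizer_iff]
    constructor
    · intro h; exact (h x (Set.mem_singleton x)).symm
    · intro h t ht; rw [Set.mem_singleton_iff] at ht; rw [ht]; exact h.symm
  have C_sq : ∀ w : G, w * x = x * w → w * w = 1 := by
    intro w hw
    have h := hCe w ((memC w).2 hw)
    rwa [pow_two] at h
  have C_comm : ∀ p q : G, p * x = x * p → q * x = x * q → p * q = q * p := by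
    intro p q hp hq
    have hpq : (p * q) * x = x * (p * q) := by rw [mul_assoc, hq, ← mul_assoc, hp, mul_assoc]
    have h1 := C_sq _ hpq
    have hpinv : p⁻¹ = p := inv_eq_of_mul_eq_one_left (C_sq p hp)
    have hqinv : q⁻¹ = q := inv_eq_of_mul_eq_one_left (C_sq q hq)
    calc p * q = (p * q)⁻¹ := (inv_eq_of_mul_eq_one_left h1).symm
      _ = q⁻¹ * p⁻¹ := mul_inv_rev p q
      _ = q * p := by rw [hpinv, hqinv]
  -- a second involution
  obtain ⟨y, hyx, hy1, hyx'⟩ : ∃ y : G, y * x = x * y ∧ y ≠ 1 ∧ y ≠ x := by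
    by_contra hcon
    push_neg at hcon
    have hle : Subgroup.centralizer ({x} : Set G) ≤ Subgroup.zpowers x := by
      intro w hw
      by_cases hw1 : w = 1
      · rw [hw1]; exact one_mem _
      · rw [hcon w ((memC w).1 hw) hw1]; exact Subgroup.mem_zpowers x
    have h1 := Subgroup.card_le_of_le hle
    rw [hC4, Nat.card_zpowers, hx] at h1
    omega
  have hyy := C_sq y hyx
  have hy : orderOf y = 2 := ord_of_sq hyy hy1
  have hzx : x * y * x = x * (x * y) := by rw [mul_assoc, hyx]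
  have hzz := C_sq _ hzx
  have hz1 : x * y ≠ 1 := by
    intro h
    apply hyx'
    have h2 : y = x⁻¹ := eq_inv_of_mul_eq_one_right h
    rw [h2]; exact inv_eq_of_mul_eq_one_left hxx
  have hz : orderOf (x * y) = 2 := ord_of_sq hzz hz1
  have h3 : Nat.card {u : ↥(Subgroup.centralizer ({x} : Set G)) // orderOf u = 2} ≤ 3 := by
    haveI : Fintype ↥(Subgroup.centralizer ({x} : Set G)) := Fintype.ofFinite _
    have h := Fintype.card_subtype_lt
      (p := fun u : ↥(Subgroup.centralizer ({x} : Set G)) => orderOf u = 2) (x := 1)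
      (by rw [orderOf_one]; norm_num)
    rw [Nat.card_eq_fintype_card] at hC4 ⊢
    omega
  obtain ⟨z, T⟩ : ∃ z : G, Tri x y z := by
    refine ⟨x * y, hx, hy, hz, rfl, hyx, ?_⟩
    intro v hv hvx
    by_contra hcon
    push_neg at hcon
    refine three_inv x h3 x y (x * y) v hx hy hz hv rfl hyx hzx hvx hyx'.symm ?_ hcon.1.symm ?_
      hcon.2.1.symm hcon.2.2.symm
    · intro h
      apply hy1
      have h2 : x * 1 = x * y := by rw [mul_one]; exact h
      exact (mul_left_cancel h2).symm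
    · intro h
      apply hx1
      have h2 : 1 * y = x * y := by rw [one_mul]; exact h
      exact (mul_right_cancel h2).symm
  have hxyc : x * y = y * x := T.xy.trans T.yx.symm
  -- a Sylow 2-subgroup containing the centralizer
  have hCp : IsPGroup 2 ↥(Subgroup.centralizer ({x} : Set G)) :=
    IsPGroup.of_card (n := 2) (by rw [hC4]; norm_num)
  obtain ⟨S, hCS⟩ := hCp.exists_le_sylow
  have hxS : x ∈ (S : Subgroup G) := hCS ((memC x).2 rfl)
  by_cases hxy : IsConj x y
  swap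
  · by_cases hxz : IsConj x z
    · exact (gamma_false T.swap hxz hxy hC4 hne).elim
    · -- x is isolated: Burnside gives a normal 2-complement
      exfalso
      have hiso : ∀ v : G, orderOf v = 2 → v * x = x * v → IsConj x v → v = x := by
        intro v hv hvx hc
        rcases T.hI v hv hvx with h | h | h
        · exact h
        · rw [h] at hc; exact absurd hc hxy
        · rw [h] at hc; exact absurd hc hxz
      have hS_le : ∀ s ∈ (S : Subgroup G), s * x = x * s := iso_central x hx hiso S hxS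
      have hP : Subgroup.normalizer (S : Set G) ≤ Subgroup.centralizer (S : Set G) := by
        intro n hn
        rw [Subgroup.mem_centralizer_iff]
        intro s hs
        have h1 : n * x * n⁻¹ ∈ (S : Subgroup G) := (Subgroup.mem_normalizer_iff.1 hn x).1 hxS
        have h2 : n * x * n⁻¹ = x :=
          hiso _ (ord_conj n hx) (hS_le _ h1) (isConj_iff.2 ⟨n, rfl⟩)
        have hnx : n * x = x * n := by
          calc n * x = n * x * n⁻¹ * n := by group
            _ = x * n := by rw [h2]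
        exact C_comm s n (hS_le s hs) hnx
      exact hnc ⟨S, (MonoidHom.transferSylow S hP).ker, MonoidHom.normal_ker _,
        MonoidHom.ker_transferSylow_isComplement' S hP⟩
  by_cases hxz : IsConj x z
  swap
  · exact (gamma_false T hxy hxz hC4 hne).elim
  -- main case: x, y, z are all conjugate
  obtain ⟨g₁, hg₁⟩ := isConj_iff.1 hxy
  obtain ⟨g₂, hg₂⟩ := isConj_iff.1 hxz
  have conjC : ∀ v : G, orderOf v = 2 → v * x = x * v → ∃ g : G, v = g * x * g⁻¹ := by
    intro v hv hvx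
    rcases T.hI v hv hvx with h | h | h
    · exact ⟨1, by rw [h]; group⟩
    · exact ⟨g₁, by rw [h, hg₁]⟩
    · exact ⟨g₂, by rw [h, hg₂]⟩
  have hSC : (S : Subgroup G) = Subgroup.centralizer ({x} : Set G) := by
    obtain ⟨c, hcS, hco, hcc⟩ := exists_central_inv S ⟨x, hxS, hx1⟩
    have hcx : c * x = x * c := (hcc x hxS).symm
    obtain ⟨g, hg⟩ := conjC c hco hcx
    have hmap : ∀ s ∈ (S : Subgroup G), g⁻¹ * s * g ∈ Subgroup.centralizer ({x} : Set G) := by
      intro s hs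
      rw [memC]
      have h1 : s * c = c * s := hcc s hs
      rw [hg] at h1
      exact comm_pull h1
    have hcard : Nat.card ↥(S : Subgroup G) ≤ Nat.card ↥(Subgroup.centralizer ({x} : Set G)) := by
      apply Nat.card_le_card_of_injective (fun s : ↥(S : Subgroup G) =>
        (⟨g⁻¹ * s.1 * g, hmap s.1 s.2⟩ : ↥(Subgroup.centralizer ({x} : Set G))))
      intro s s' hss
      have h1 : g⁻¹ * s.1 * g = g⁻¹ * s'.1 * g := congrArg Subtype.val hss
      exact Subtype.ext (mul_left_cancel (mul_right_cancel h1))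
    exact (Subgroup.eq_of_le_of_card_ge hCS hcard).symm
  have memS : ∀ s : G, s ∈ (S : Subgroup G) ↔ s * x = x * s := by
    intro s; rw [hSC]; exact memC s
  have allc : ∀ t : G, orderOf t = 2 → ∃ g : G, t = g * x * g⁻¹ := by
    intro t ht
    obtain ⟨g, hg⟩ := conj_into S (Subgroup.zpowers t) (zp_isP ht)
    have h1 : g⁻¹ * t * g ∈ (S : Subgroup G) := hg t (Subgroup.mem_zpowers t)
    have h2 : orderOf (g⁻¹ * t * g) = 2 := by
      have h := ord_conj g⁻¹ ht
      rwa [inv_inv] at h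
    obtain ⟨k, hk⟩ := conjC _ h2 ((memS _).1 h1)
    refine ⟨g * k, ?_⟩
    calc t = g * (g⁻¹ * t * g) * g⁻¹ := by group
      _ = g * (k * x * k⁻¹) * g⁻¹ := by rw [hk]
      _ = g * k * x * (g * k)⁻¹ := by group
  have hG : Good G := by
    refine ⟨?_, ?_, ?_⟩
    · intro t ht p q hp hq
      obtain ⟨g, rfl⟩ := allc t ht
      have h1 := C_comm _ _ (comm_pull hp) (comm_pull hq)
      calc p * q = g * (g⁻¹ * p * g * (g⁻¹ * q * g)) * g⁻¹ := by group
        _ = g * (g⁻¹ * q * g * (g⁻¹ * p * g)) * g⁻¹ := by rw [h1]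
        _ = q * p := by group
    · intro t ht p hp
      obtain ⟨g, rfl⟩ := allc t ht
      have h1 := C_sq _ (comm_pull hp)
      calc p * p = g * (g⁻¹ * p * g * (g⁻¹ * p * g)) * g⁻¹ := by group
        _ = 1 := by rw [h1]; group
    · intro t ht
      obtain ⟨g, rfl⟩ := allc t ht
      exact ⟨g * y * g⁻¹, g * z * g⁻¹, tri_conj T g⟩
  have sylmem : ∀ g p : G, p ∈ ((g • S : Sylow 2 G) : Subgroup G) ↔
      p * (g * x * g⁻¹) = g * x * g⁻¹ * p := by
    intro g p
    rw [mem_smul_syl, memS]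
    exact ⟨comm_push, comm_pull⟩
  have syl_eq : ∀ a b : G, a * x * a⁻¹ * (b * x * b⁻¹) = b * x * b⁻¹ * (a * x * a⁻¹) →
      (a • S : Sylow 2 G) = b • S := by
    intro a b hab
    apply Sylow.ext
    apply le_antisymm
    · intro p hp
      rw [sylmem] at hp ⊢
      exact hG.h1 _ (ord_conj a hx) p _ hp hab.symm
    · intro p hp
      rw [sylmem] at hp ⊢
      exact hG.h1 _ (ord_conj b hx) p _ hp hab
  have ncx : ∀ g : G, (g • S : Sylow 2 G) ≠ S → x * (g * x * g⁻¹) ≠ g * x * g⁻¹ * x := by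
    intro g hgS hc
    apply hgS
    have e1 : (1 : G) * x * (1 : G)⁻¹ = x := by group
    have h1 := syl_eq g 1 (by rw [e1]; exact hc.symm)
    rw [h1, one_smul]
  have key : ∀ P : Sylow 2 G, ∃ g δ : G, g • S = P ∧
      (P ≠ S → δ * x * δ⁻¹ = y ∧ Nrm δ (g * x * g⁻¹)) := by
    intro P
    obtain ⟨g, hg⟩ := MulAction.exists_smul_eq G S P
    by_cases hPS : P = S
    · exact ⟨g, 1, hg, fun h => absurd hPS h⟩
    · have hw : orderOf (g * x * g⁻¹) = 2 := ord_conj g hx
      have hwx : x * (g * x * g⁻¹) ≠ g * x * g⁻¹ * x := ncx g (by rw [hg]; exact hPS)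
      have hwy : y * (g * x * g⁻¹) ≠ g * x * g⁻¹ * y := by
        intro hc
        exact hwx (hG.h1 y T.hy x _ hxyc hc.symm)
      obtain ⟨u₁, hu₁, h₁, h₁'⟩ := swap_inv hxx (sq_of_ord hw) (odd_prod hG hx hw hwx)
      obtain ⟨u₂, hu₂, h₂, h₂'⟩ := swap_inv (sq_of_ord T.hy) (sq_of_ord hw) (odd_prod hG T.hy hw hwy)
      refine ⟨g, u₂ * u₁, hg, fun _ => ⟨?_, ?_⟩⟩
      · calc u₂ * u₁ * x * (u₂ * u₁)⁻¹ = u₂ * (u₁ * x * u₁⁻¹) * u₂⁻¹ := by group
          _ = y := by rw [h₁, h₂']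
      · unfold Nrm
        have e : u₂ * u₁ * (g * x * g⁻¹) * (u₂ * u₁)⁻¹ = u₂ * x * u₂⁻¹ := by
          calc u₂ * u₁ * (g * x * g⁻¹) * (u₂ * u₁)⁻¹
              = u₂ * (u₁ * (g * x * g⁻¹) * u₁⁻¹) * u₂⁻¹ := by group
            _ = u₂ * x * u₂⁻¹ := by rw [h₁']
        rw [e]
        have c := (conj_comm_iff u₂ x y).2 hxyc
        rw [h₂] at c
        exact c
  choose gP δP hP using key
  have ncomm : ∀ P Q : Sylow 2 G, P ≠ Q →
      gP P * x * (gP P)⁻¹ * (gP Q * x * (gP Q)⁻¹) ≠ gP Q * x * (gP Q)⁻¹ * (gP P * x * (gP P)⁻¹) := by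
    intro P Q hPQ hc
    apply hPQ
    calc P = gP P • S := (hP P).1.symm
      _ = gP Q • S := syl_eq _ _ hc
      _ = Q := (hP Q).1
  -- at most five Sylow 2-subgroups
  have hcard5 : Nat.card (Sylow 2 G) ≤ 5 := by
    have hinj : Set.InjOn (fun P : Sylow 2 G => g₁⁻¹ * δP P) {P : Sylow 2 G | P ≠ S} := by
      intro P hP' Q hQ' hPQ
      simp only [Set.mem_setOf_eq] at hP' hQ'
      have hδ : δP P = δP Q := mul_left_cancel hPQ
      by_contra hne'
      obtain ⟨hPy, hPN⟩ := (hP P).2 hP'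
      obtain ⟨hQy, hQN⟩ := (hP Q).2 hQ'
      rw [← hδ] at hQN
      have hδ1 : δP P ≠ 1 := by
        intro h1
        rw [h1] at hPy
        apply T.x_ne_y
        calc x = 1 * x * 1⁻¹ := by group
          _ = y := hPy
      have hNx : Nrm (δP P) x := by
        unfold Nrm
        rw [hPy, T.yx, T.xy]
      exact F_false hG hx (ord_conj _ hx) (ord_conj _ hx)
        (ncx _ (by rw [(hP P).1]; exact hP')) (ncomm P Q hne')
        (ncx _ (by rw [(hP Q).1]; exact hQ')).symm hδ1 hNx hPN hQN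
    have hmaps : ∀ P ∈ {P : Sylow 2 G | P ≠ S},
        g₁⁻¹ * δP P ∈ ((Subgroup.centralizer ({x} : Set G) : Subgroup G) : Set G) := by
      intro P hP'
      simp only [Set.mem_setOf_eq] at hP'
      obtain ⟨hPy, -⟩ := (hP P).2 hP'
      rw [SetLike.mem_coe, memC]
      calc g₁⁻¹ * δP P * x = g₁⁻¹ * (δP P * x * (δP P)⁻¹) * δP P := by group
        _ = g₁⁻¹ * (g₁ * x * g₁⁻¹) * δP P := by rw [hPy, hg₁]
        _ = x * (g₁⁻¹ * δP P) := by group
    have h1 : ({P : Sylow 2 G | P ≠ S}).ncard ≤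
        ((Subgroup.centralizer ({x} : Set G) : Subgroup G) : Set G).ncard :=
      Set.ncard_le_ncard_of_injOn _ hmaps hinj (Set.toFinite _)
    have h2 : ((Subgroup.centralizer ({x} : Set G) : Subgroup G) : Set G).ncard = 4 := by
      rw [← hC4]; exact (Nat.card_coe_set_eq _).symm
    have h3 : (Set.univ : Set (Sylow 2 G)) = insert S {P : Sylow 2 G | P ≠ S} := by
      ext P
      simp [em]
    have h4 : (Set.univ : Set (Sylow 2 G)).ncard ≤ ({P : Sylow 2 G | P ≠ S}).ncard + 1 := by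
      rw [h3]; exact Set.ncard_insert_le _ _
    rw [Set.ncard_univ] at h4
    omega
  have hmod : Nat.card (Sylow 2 G) % 2 = 1 := card_sylow_modEq_one 2 G
  have hn1 : Nat.card (Sylow 2 G) ≠ 1 := by
    intro h1
    haveI : Subsingleton (Sylow 2 G) := (Nat.card_eq_one_iff_unique.1 h1).1
    have hSn : (S : Subgroup G).Normal := Sylow.normal_of_subsingleton S
    rw [hSC] at hSn
    have hEA : Cfsg.IsElementaryAbelian 2 (Subgroup.centralizer ({x} : Set G)) :=
      ⟨⟨⟨fun a b => Subtype.ext (C_comm a.1 b.1 ((memC _).1 a.2) ((memC _).1 b.2))⟩⟩, hCe⟩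
    exact (hne _ hSn hEA).2 hC4
  haveI : Fintype (Sylow 2 G) := Fintype.ofFinite _
  have hn3 : 2 < Fintype.card (Sylow 2 G) := by
    rw [← Nat.card_eq_fintype_card]
    have hpos : 0 < Nat.card (Sylow 2 G) := Nat.card_pos
    omega
  obtain ⟨P₁, P₂, P₃, h12, h13, h23⟩ := Fintype.two_lt_card_iff.1 hn3
  -- the action on the Sylow 2-subgroups is faithful
  have hφ : Function.Injective (MulAction.toPermHom G (Sylow 2 G)) := by
    rw [injective_iff_map_eq_one]
    intro k hk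
    by_contra hk1
    have hfix : ∀ P : Sylow 2 G, k • P = P := by
      intro P
      have h := congrArg (fun σ : Equiv.Perm (Sylow 2 G) => σ P) hk
      simpa using h
    have hN : ∀ P : Sylow 2 G, Nrm k (gP P * x * (gP P)⁻¹) := by
      intro P
      have hw : gP P * x * (gP P)⁻¹ ∈ ((gP P • S : Sylow 2 G) : Subgroup G) := by
        rw [sylmem]
      have h1 : k * (gP P * x * (gP P)⁻¹) * k⁻¹ ∈ ((k • (gP P • S) : Sylow 2 G) : Subgroup G) := by
        rw [mem_smul_syl]
        have e : k⁻¹ * (k * (gP P * x * (gP P)⁻¹) * k⁻¹) * k = gP P * x * (gP P)⁻¹ := by group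
        rw [e]; exact hw
      have e2 : k • (gP P • S) = gP P • S := by rw [(hP P).1]; exact hfix P
      rw [e2] at h1
      exact (sylmem _ _).1 h1
    exact F_false hG (ord_conj _ hx) (ord_conj _ hx) (ord_conj _ hx) (ncomm P₁ P₂ h12)
      (ncomm P₂ P₃ h23) (ncomm P₃ P₁ h13.symm) hk1 (hN P₁) (hN P₂) (hN P₃)
  have h4 : 4 ∣ Nat.card G := by rw [← hC4]; exact Subgroup.card_subgroup_dvd_card _
  have hdiv : Nat.card G ∣ (Nat.card (Sylow 2 G)).factorial := by
    have h1 : Nat.card G = Nat.card (MulAction.toPermHom G (Sylow 2 G)).range :=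
      Nat.card_congr (MonoidHom.ofInjective hφ).toEquiv
    rw [h1, ← Nat.card_perm]
    exact Subgroup.card_subgroup_dvd_card _
  have hn5 : Nat.card (Sylow 2 G) = 5 := by
    rw [← Nat.card_eq_fintype_card] at hn3
    have h35 : Nat.card (Sylow 2 G) = 3 ∨ Nat.card (Sylow 2 G) = 5 := by omega
    rcases h35 with h | h
    · exfalso
      rw [h] at hdiv
      have h46 : (4 : ℕ) ∣ Nat.factorial 3 := h4.trans hdiv
      revert h46; decide
    · exact h
  have h120 : Nat.card G ∣ 120 := by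
    rw [hn5] at hdiv
    exact hdiv
  have h5 : 5 ∣ Nat.card G := by
    have h := Sylow.card_dvd_index S
    rw [hn5] at h
    exact h.trans (Subgroup.index_dvd_card _)
  have hS4 : Nat.card ↥(S : Subgroup G) = 4 := by rw [hSC]; exact hC4
  have h8 : ¬ 8 ∣ Nat.card G := by
    intro h
    have h' : 2 ^ 3 ∣ Nat.card G := by norm_num; exact h
    have h2 := Sylow.pow_dvd_card_of_pow_dvd_card S h'
    rw [hS4] at h2
    revert h2; decide
  have h3' : 3 ∣ Nat.card G := by
    have hPS : ∃ P : Sylow 2 G, P ≠ S := by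
      by_cases h : P₁ = S
      · exact ⟨P₂, fun h' => h12 (h.trans h'.symm)⟩
      · exact ⟨P₁, h⟩
    obtain ⟨P, hPS⟩ := hPS
    obtain ⟨hPy, hPN⟩ := (hP P).2 hPS
    have hδ1 : δP P ≠ 1 := by
      intro h1
      rw [h1] at hPy
      apply T.x_ne_y
      calc x = 1 * x * 1⁻¹ := by group
        _ = y := hPy
    have hNx : Nrm (δP P) x := by
      unfold Nrm
      rw [hPy, T.yx, T.xy]
    have hcube := D4 hG T (ord_conj _ hx) (ncx _ (by rw [(hP P).1]; exact hPS)) hδ1 hNx hPN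
    haveI : Fact (Nat.Prime 3) := ⟨Nat.prime_three⟩
    have ho : orderOf (δP P) = 3 :=
      (orderOf_eq_prime_iff (p := 3)).2 ⟨by rw [pow_succ, pow_two]; exact hcube, hδ1⟩
    rw [← ho]
    exact orderOf_dvd_natCard _
  have h60 : Nat.card G = 60 := by
    obtain ⟨m, hm⟩ : 60 ∣ Nat.card G := by omega
    rw [hm] at h120 h8
    have hm2 : m ∣ 2 :=
      Nat.dvd_of_mul_dvd_mul_left (by norm_num : 0 < 60) (by simpa using h120)
    have hmle : m ≤ 2 := Nat.le_of_dvd (by norm_num) hm2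
    interval_cases m
    · simp at h120
    · rw [hm]
    · exfalso; apply h8; norm_num
  -- identify with the alternating group
  have hn5' : Fintype.card (Sylow 2 G) = 5 := by rw [← Nat.card_eq_fintype_card]; exact hn5
  have hψ : Function.Injective
      ((Equiv.permCongrHom (Fintype.equivFinOfCardEq hn5')).toMonoidHom.comp
        (MulAction.toPermHom G (Sylow 2 G))) := by
    rw [MonoidHom.coe_comp]
    exact (Equiv.permCongrHom (Fintype.equivFinOfCardEq hn5')).injective.comp hφ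
  have hr : Nat.card ((Equiv.permCongrHom (Fintype.equivFinOfCardEq hn5')).toMonoidHom.comp
      (MulAction.toPermHom G (Sylow 2 G))).range = 60 := by
    rw [← h60]; exact (Nat.card_congr (MonoidHom.ofInjective hψ).toEquiv).symm
  have hidx : ((Equiv.permCongrHom (Fintype.equivFinOfCardEq hn5')).toMonoidHom.comp
      (MulAction.toPermHom G (Sylow 2 G))).range.index = 2 := by
    have h1 := Subgroup.card_mul_index ((Equiv.permCongrHom
      (Fintype.equivFinOfCardEq hn5')).toMonoidHom.comp (MulAction.toPermHom G (Sylow 2 G))).range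
    rw [hr, Nat.card_perm, Nat.card_eq_fintype_card, Fintype.card_fin] at h1
    have h2 : Nat.factorial 5 = 120 := by decide
    rw [h2] at h1
    omega
  have halt := Equiv.Perm.eq_alternatingGroup_of_index_eq_two hidx
  exact ⟨(MonoidHom.ofInjective hψ).trans (MulEquiv.subgroupCongr halt)⟩

end Cfsg.Agent.S3277
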