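import Mathlib
import Cfsg.Statements.S3305

set_option autoImplicit false
open Cfsg

namespace Cfsg.Agent.S3305

open scoped Pointwise

/-- Lifting a `2`-subgroup whose image lies in a Sylow subgroup of the quotient. -/
theorem lift_sylow {G : Type*} [Group G] [Finite G] (H : Subgroup G) [H.Normal]
    (Sb : Sylow 2 (G ⧸ H)) (P : Subgroup G) (hP : IsPGroup 2 P)
    (hPS : P.map (QuotientGroup.mk' H) ≤ (Sb : Subgroup (G ⧸ H))) :
    ∃ S₁ : Sylow 2 G, P ≤ (S₁ : Subgroup G) ∧
      (S₁ : Subgroup G).map (QuotientGroup.mk' H) = (Sb : Subgroup (G ⧸ H)) := by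
  have : Fact (Nat.Prime 2) := ⟨Nat.prime_two⟩
  have hsurj : Function.Surjective (QuotientGroup.mk' H) := QuotientGroup.mk'_surjective H
  obtain ⟨S, hS⟩ := Sylow.mapSurjective_surjective hsurj 2 Sb
  have hS' : (S : Subgroup G).map (QuotientGroup.mk' H) = (Sb : Subgroup (G ⧸ H)) := by
    rw [← hS]; rfl
  set A : Subgroup G := (Sb : Subgroup (G ⧸ H)).comap (QuotientGroup.mk' H) with hA
  have hSA : (S : Subgroup G) ≤ A := by
    rw [hA, ← Subgroup.map_le_iff_le_comap, hS']
  have hPA : P ≤ A := by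
    rw [hA, ← Subgroup.map_le_iff_le_comap]; exact hPS
  have hP' : IsPGroup 2 (P.subgroupOf A) := hP.comap_subtype
  obtain ⟨Q, hQ⟩ := hP'.exists_le_sylow
  obtain ⟨a, ha⟩ := MulAction.exists_smul_eq (↥A) (S.subtype hSA) Q
  refine ⟨(a : G) • S, ?_, ?_⟩
  · intro x hx
    have hxQ : (⟨x, hPA hx⟩ : ↥A) ∈ (Q : Subgroup ↥A) := hQ (by
      rw [Subgroup.mem_subgroupOf]; exact hx)
    rw [← ha] at hxQ
    rw [Sylow.coe_subgroup_smul, Subgroup.mem_pointwise_smul_iff_inv_smul_mem] at hxQ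
    rw [Sylow.coe_subtype, Subgroup.mem_subgroupOf] at hxQ
    rw [Sylow.coe_subgroup_smul, Subgroup.mem_pointwise_smul_iff_inv_smul_mem]
    simpa [MulAut.smul_def] using hxQ
  · have hle : (((a : G) • S : Sylow 2 G) : Subgroup G).map (QuotientGroup.mk' H)
        ≤ (Sb : Subgroup (G ⧸ H)) := by
      rintro _ ⟨y, hy, rfl⟩
      rw [SetLike.mem_coe, Sylow.coe_subgroup_smul,
        Subgroup.mem_pointwise_smul_iff_inv_smul_mem] at hy
      have hy' : (a : G)⁻¹ * y * (a : G) ∈ (S : Subgroup G) := by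
        simpa [MulAut.smul_def] using hy
      have h1 : (QuotientGroup.mk' H) ((a : G)⁻¹ * y * (a : G)) ∈ (Sb : Subgroup (G ⧸ H)) := by
        rw [← hS']; exact Subgroup.mem_map_of_mem _ hy'
      have h2 : (QuotientGroup.mk' H) (a : G) ∈ (Sb : Subgroup (G ⧸ H)) := a.2
      have h3 : (QuotientGroup.mk' H) y =
          (QuotientGroup.mk' H) (a : G) * (QuotientGroup.mk' H) ((a : G)⁻¹ * y * (a : G)) *
            ((QuotientGroup.mk' H) (a : G))⁻¹ := by
        rw [← map_inv, ← map_mul, ← map_mul]; congr 1; group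
      rw [h3]
      exact Subgroup.mul_mem _ (Subgroup.mul_mem _ h2 h1) (Subgroup.inv_mem _ h2)
    have := (((a : G) • S : Sylow 2 G).mapSurjective hsurj).3 Sb.2 hle
    exact this.symm

/-- If any two distinct Sylow 2-subgroups of the finite group G intersect in a cyclic group, then the same holds in every quotient group G/H, H a normal subgroup of G. -/
theorem result {G : Type*} [Group G] [Finite G]
    (hC : ∀ S T : Sylow 2 G, S ≠ T → IsCyclic ↥((S : Subgroup G) ⊓ (T : Subgroup G))) (H : Subgroup G) [H.Normal] :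
    ∀ S T : Sylow 2 (G ⧸ H), S ≠ T → IsCyclic ↥((S : Subgroup (G ⧸ H)) ⊓ (T : Subgroup (G ⧸ H))) := by
  intro Sb Tb hne
  have : Fact (Nat.Prime 2) := ⟨Nat.prime_two⟩
  have hsurj : Function.Surjective (QuotientGroup.mk' H) := QuotientGroup.mk'_surjective H
  set Db : Subgroup (G ⧸ H) := (Sb : Subgroup (G ⧸ H)) ⊓ (Tb : Subgroup (G ⧸ H)) with hDb
  set D : Subgroup G := Db.comap (QuotientGroup.mk' H) with hD
  -- a Sylow 2-subgroup of D
  obtain ⟨P₀⟩ : Nonempty (Sylow 2 ↥D) := Sylow.nonempty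
  set P : Subgroup G := (P₀ : Subgroup ↥D).map D.subtype with hPdef
  have hP : IsPGroup 2 P := P₀.2.map _
  have hPD : P ≤ D := Subgroup.map_subtype_le _
  have hDb2 : IsPGroup 2 Db := Sb.2.to_le inf_le_left
  -- the image of P is Db
  have hmapP : P.map (QuotientGroup.mk' H) = Db := by
    apply le_antisymm
    · rw [Subgroup.map_le_iff_le_comap]; exact hPD
    · -- restricted map D → Db is surjective
      let φ : ↥D →* ↥Db := (QuotientGroup.mk' H).subgroupComap Db
      have hφ : Function.Surjective φ := (QuotientGroup.mk' H).subgroupComap_surjective_of_surjective Db hsurj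
      have htop : ((P₀.mapSurjective hφ : Sylow 2 ↥Db) : Subgroup ↥Db) = ⊤ := by
        have := (P₀.mapSurjective hφ).3 (Q := ⊤) (hDb2.to_subgroup ⊤) le_top
        exact this.symm
      intro y hy
      have hy' : (⟨y, hy⟩ : ↥Db) ∈ ((P₀.mapSurjective hφ : Sylow 2 ↥Db) : Subgroup ↥Db) := by
        rw [htop]; trivial
      rw [Sylow.coe_mapSurjective] at hy'
      obtain ⟨d, hd, hdy⟩ := hy'
      refine ⟨(d : G), ⟨d, hd, rfl⟩, ?_⟩
      exact congrArg Subtype.val hdy
  obtain ⟨S₁, hPS₁, hS₁⟩ := lift_sylow H Sb P hP (by rw [hmapP]; exact inf_le_left)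
  obtain ⟨T₁, hPT₁, hT₁⟩ := lift_sylow H Tb P hP (by rw [hmapP]; exact inf_le_right)
  have hne₁ : S₁ ≠ T₁ := by
    rintro rfl
    exact hne (Sylow.ext (hS₁.symm.trans hT₁))
  have := hC S₁ T₁ hne₁
  have hPle : P ≤ (S₁ : Subgroup G) ⊓ (T₁ : Subgroup G) := le_inf hPS₁ hPT₁
  have hPc : IsCyclic ↥P := by
    have e := Subgroup.subgroupOfEquivOfLe hPle
    exact isCyclic_of_surjective e e.surjective
  have hmc : IsCyclic ↥(P.map (QuotientGroup.mk' H)) :=
    isCyclic_of_surjective ((QuotientGroup.mk' H).subgroupMap P)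
      ((QuotientGroup.mk' H).subgroupMap_surjective P)
  rw [hmapP] at hmc
  exact hmc

end Cfsg.Agent.S3305
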