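import Mathlib
import Cfsg.Statements.S3303
import Cfsg.Agent.S3305
import Cfsg.Agent.Helper16.OddCore
-- import your own Cfsg.Agent.* helpers here

set_option autoImplicit false
open Cfsg

namespace Cfsg.Agent.S3303

open Cfsg.Agent.Helper16

/-- Let G be a finite solvable group in which the intersection of any two distinct Sylow 2-subgroups is cyclic. Then G/O(G) has a normal Sylow 2-subgroup, where O(G) is the largest normal subgroup of odd order. -/
theorem result {G : Type*} [Group G] [Finite G] (hs : Group.IsSolvable G)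
    (hC : ∀ S T : Sylow 2 G, S ≠ T → IsCyclic ↥((S : Subgroup G) ⊓ (T : Subgroup G))) :
    ∃ P : Sylow 2 (G ⧸ Cfsg.oddCore G), (P : Subgroup (G ⧸ Cfsg.oddCore G)).Normal := by
  have hprime : Fact (Nat.Prime 2) := ⟨Nat.prime_two⟩
  have hs' : Group.IsSolvable (G ⧸ Cfsg.oddCore G) := inferInstance
  have hC' := Cfsg.Agent.S3305.result hC (Cfsg.oddCore G)
  have hodd : ∀ N : Subgroup (G ⧸ Cfsg.oddCore G), N.Normal → (Nat.card N).Coprime 2 → N = ⊥ := by
    intro N hN hc
    have := le_oddCore hN hc
    rw [oddCore_quotient_oddCore] at this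
    exact le_bot_iff.mp this
  have huniq := sylow_two_unique_of_cyclic_inter hs' hodd hC'
  obtain ⟨P⟩ : Nonempty (Sylow 2 (G ⧸ Cfsg.oddCore G)) := Sylow.nonempty
  refine ⟨P, ?_⟩
  rw [← Subgroup.normalizer_eq_top_iff, eq_top_iff]
  intro g _
  exact Sylow.smul_eq_iff_mem_normalizer.mp (huniq _ _)

end Cfsg.Agent.S3303
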