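import Mathlib
import Cfsg.Statements.S3349

set_option autoImplicit false
open Cfsg

namespace Cfsg.Agent.S3349

variable {Q : Type*} [Group Q]

open scoped commutatorElement

/-- a maximal abelian subgroup contains its centralizer -/
theorem centralizer_le (A : Subgroup Q) (hA : IsMulCommutative A)
    (hmax : ∀ B : Subgroup Q, A ≤ B → IsMulCommutative B → B = A) (y : Q)
    (hy : ∀ a ∈ A, a * y = y * a) : y ∈ A := by
  -- S = A ∪ {y} is a commuting set; B = C(C(S))
  let S : Set Q := (A : Set Q) ∪ {y}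
  have hAcomm : ∀ a ∈ A, ∀ b ∈ A, a * b = b * a := by
    intro a ha b hb
    have := hA.is_comm.comm (⟨a, ha⟩ : A) ⟨b, hb⟩
    exact congrArg Subtype.val this
  have hS : ∀ s ∈ S, ∀ t ∈ S, s * t = t * s := by
    rintro s (hs | hs) t (ht | ht)
    · exact hAcomm s hs t ht
    · rw [Set.mem_singleton_iff] at ht; subst ht; exact hy s hs
    · rw [Set.mem_singleton_iff] at hs; subst hs; exact (hy t ht).symm
    · rw [Set.mem_singleton_iff] at hs ht; subst hs; subst ht; rfl
  let B : Subgroup Q := Subgroup.centralizer (Subgroup.centralizer S : Set Q)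
  have hSB : S ⊆ B := by
    intro s hs
    rw [SetLike.mem_coe, Subgroup.mem_centralizer_iff]
    intro c hc
    rw [SetLike.mem_coe, Subgroup.mem_centralizer_iff] at hc
    exact (hc s hs).symm
  have hBC : ∀ b ∈ B, b ∈ Subgroup.centralizer S := by
    intro b hb
    rw [Subgroup.mem_centralizer_iff] at hb ⊢
    intro s hs
    have hsC : s ∈ Subgroup.centralizer S := by
      rw [Subgroup.mem_centralizer_iff]
      intro t ht
      exact hS t ht s hs
    exact hb s hsC
  have hBcomm : IsMulCommutative B := by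
    refine ⟨⟨?_⟩⟩
    rintro ⟨b, hb⟩ ⟨c, hc⟩
    apply Subtype.ext
    show b * c = c * b
    have hcC := hBC c hc
    have hb' := hb
    rw [Subgroup.mem_centralizer_iff] at hb'
    exact (hb' c hcC).symm
  have hAB : A ≤ B := fun a ha => hSB (Or.inl ha)
  have hBA := hmax B hAB hBcomm
  rw [← hBA]
  exact hSB (Or.inr rfl)

/-- Let Q be a finite extraspecial p-group and α an automorphism of Q fixing every element of some maximal abelian subgroup of Q. Then the order of α is a power of p. -/
theorem result {Q : Type*} [Group Q] [Finite Q]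
    (p : ℕ) [Fact p.Prime] (hQ : Cfsg.IsExtraspecial p Q) (α : MulAut Q)
    (A : Subgroup Q) (hA : IsMulCommutative A) (hmax : ∀ B : Subgroup Q, A ≤ B → IsMulCommutative B → B = A)
    (hfix : ∀ a ∈ A, α a = a) :
    ∃ k : ℕ, orderOf α = p ^ k := by
  obtain ⟨⟨hpg, -, hcomm⟩, -⟩ := hQ
  have hp : p.Prime := Fact.out
  -- the centre lies in A
  have hZA : ∀ z ∈ Subgroup.center Q, z ∈ A := by
    intro z hz
    apply centralizer_le A hA hmax
    intro a _
    exact (Subgroup.mem_center_iff.mp hz a)
  -- x⁻¹ * α x ∈ A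
  have hc : ∀ x : Q, x⁻¹ * α x ∈ A := by
    intro x
    apply centralizer_le A hA hmax
    intro a ha
    have hmem : ⁅x, a⁆ ∈ commutator Q :=
      Subgroup.commutator_mem_commutator (Subgroup.mem_top x) (Subgroup.mem_top a)
    rw [hcomm] at hmem
    have h1 := hfix _ (hZA _ hmem)
    rw [commutatorElement_def] at h1
    simp only [map_mul, map_inv, hfix a ha] at h1
    -- h1 : α x * a * (α x)⁻¹ * a⁻¹ = x * a * x⁻¹ * a⁻¹
    have h2 : α x * a * (α x)⁻¹ = x * a * x⁻¹ := by
      have := congrArg (fun t => t * a) h1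
      simpa using this
    have h3 : a * (x⁻¹ * α x) = x⁻¹ * (x * a * x⁻¹) * α x := by group
    rw [h3, ← h2]
    group
  -- iterate
  have hiter : ∀ (x : Q) (n : ℕ), (α ^ n) x = x * (x⁻¹ * α x) ^ n := by
    intro x n
    induction n with
    | zero => simp
    | succ n ih =>
      rw [pow_succ', MulAut.mul_apply, ih, map_mul, hfix _ (A.pow_mem (hc x) n), pow_succ',
        ← mul_assoc, mul_inv_cancel_left]
  have hpow : α ^ Nat.card Q = 1 := by
    ext x
    rw [hiter, pow_card_eq_one', mul_one]
    rfl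
  have hdvd : orderOf α ∣ Nat.card Q := orderOf_dvd_of_pow_eq_one hpow
  obtain ⟨m, hm⟩ := IsPGroup.iff_card.mp hpg
  rw [hm] at hdvd
  obtain ⟨k, -, hk⟩ := (Nat.dvd_prime_pow hp).mp hdvd
  exact ⟨k, hk⟩

end Cfsg.Agent.S3349
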