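import Mathlib
import Cfsg.Statements.S3389

set_option autoImplicit false
open Cfsg

namespace Cfsg.Agent.S3389

open scoped Pointwise

theorem fixedPoints_zpowers {G : Type*} [Group G] {Ω : Type*} [MulAction G Ω] (u : G) :
    MulAction.fixedPoints (Subgroup.zpowers u) Ω = MulAction.fixedBy Ω u := by
  ext ω
  constructor
  · intro h
    exact h ⟨u, Subgroup.mem_zpowers u⟩
  · rintro h ⟨m, j, rfl⟩
    exact MulAction.fixedBy_subset_fixedBy_zpow Ω u j h

theorem part3 {G : Type*} [Group G] [Finite G] {Ω : Type*} [Fintype Ω] [MulAction G Ω]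
    (htr : MulAction.IsPretransitive G Ω) (k : ℕ)
    (hfix : ∀ g : G, g ≠ 1 → Nat.card (MulAction.fixedBy Ω g) ≤ k)
    (p : ℕ) (hp : p.Prime) (hkp : k < p) (α : Ω)
    (h1 : p ∣ Nat.card (MulAction.stabilizer G α))
    (h2 : p ∣ (MulAction.stabilizer G α).index) : False := by
  haveI : Fact p.Prime := ⟨hp⟩
  obtain ⟨u, hu⟩ := exists_prime_orderOf_dvd_card' p h1
  have hu' : orderOf (u : G) = p := by rw [Subgroup.orderOf_coe]; exact hu
  have hu1 : (u : G) ≠ 1 := by
    intro h
    rw [h, orderOf_one] at hu'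
    exact hp.one_lt.ne hu'
  have hpg : IsPGroup p (Subgroup.zpowers (u : G)) :=
    IsPGroup.of_card (n := 1) (by rw [Nat.card_zpowers, hu', pow_one])
  have hmod := hpg.card_modEq_card_fixedPoints Ω
  rw [fixedPoints_zpowers] at hmod
  have hΩ : Nat.card Ω = (MulAction.stabilizer G α).index :=
    (MulAction.index_stabilizer_of_transitive G α).symm
  have hdvd : p ∣ Nat.card (MulAction.fixedBy Ω (u : G)) := by
    have h3 : p ∣ Nat.card Ω := hΩ ▸ h2
    exact (Nat.modEq_zero_iff_dvd.mp (hmod.symm.trans (Nat.modEq_zero_iff_dvd.mpr h3)))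
  have hpos : 0 < Nat.card (MulAction.fixedBy Ω (u : G)) := by
    haveI : Nonempty (MulAction.fixedBy Ω (u : G)) := ⟨⟨α, u.2⟩⟩
    exact Nat.card_pos
  have h4 := Nat.le_of_dvd hpos hdvd
  have h5 := hfix u hu1
  omega

theorem part1 {G : Type*} [Group G] [Finite G] {Ω : Type*} [Fintype Ω] [MulAction G Ω]
    [FaithfulSMul G Ω] (htr : MulAction.IsPretransitive G Ω) (g : G) :
    Nat.card (Subgroup.center G) ∣ Nat.card (MulAction.fixedBy Ω g) := by
  classical
  letI : MulAction (Subgroup.center G) (MulAction.fixedBy Ω g) :=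
    { smul := fun z x => ⟨(z : G) • (x : Ω), by
        have hx : g • (x : Ω) = x := x.2
        have hz : g * (z : G) = (z : G) * g := (Subgroup.mem_center_iff.mp z.2 g)
        show g • ((z : G) • (x : Ω)) = (z : G) • (x : Ω)
        rw [← mul_smul, hz, mul_smul, hx]⟩
      one_smul := fun x => Subtype.ext (one_smul G (x : Ω))
      mul_smul := fun a b x => Subtype.ext (mul_smul (a : G) (b : G) (x : Ω)) }
  have hfree : ∀ (z : Subgroup.center G) (x : MulAction.fixedBy Ω g), z • x = x → z = 1 := by
    intro z x hzx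
    have h1 : (z : G) • (x : Ω) = x := congrArg Subtype.val hzx
    apply Subtype.ext
    apply FaithfulSMul.eq_of_smul_eq_smul (α := Ω)
    intro ω
    obtain ⟨h, rfl⟩ := MulAction.exists_smul_eq G (x : Ω) ω
    rw [Subgroup.coe_one, one_smul, ← mul_smul, ← Subgroup.mem_center_iff.mp z.2 h, mul_smul, h1]
  letI : Fintype (Subgroup.center G) := Fintype.ofFinite _
  letI : ∀ z : Subgroup.center G, Fintype (MulAction.fixedBy (MulAction.fixedBy Ω g) z) :=
    fun z => Fintype.ofFinite _
  letI : Fintype (Quotient (MulAction.orbitRel (Subgroup.center G) (MulAction.fixedBy Ω g))) :=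
    Fintype.ofFinite _
  have hB := MulAction.sum_card_fixedBy_eq_card_orbits_mul_card_group (Subgroup.center G)
    (MulAction.fixedBy Ω g)
  have hsum : ∑ z : Subgroup.center G,
      Fintype.card (MulAction.fixedBy (MulAction.fixedBy Ω g) z) =
        Nat.card (MulAction.fixedBy Ω g) := by
    rw [Finset.sum_eq_single (1 : Subgroup.center G)]
    · rw [← Nat.card_eq_fintype_card]
      apply Nat.card_congr
      exact (Equiv.subtypeUnivEquiv (fun x => by simp))
    · intro z _ hz
      rw [Fintype.card_eq_zero_iff]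
      constructor
      rintro ⟨x, hx⟩
      exact hz (hfree z x hx)
    · intro h
      exact absurd (Finset.mem_univ _) h
  rw [hsum] at hB
  rw [hB, ← Nat.card_eq_fintype_card (α := Subgroup.center G)]
  exact dvd_mul_left _ _

theorem part2 {G : Type*} [Group G] [Finite G] {Ω : Type*} [Fintype Ω] [MulAction G Ω]
    (htr : MulAction.IsPretransitive G Ω)
    (hfix : ∀ g : G, g ≠ 1 → Nat.card (MulAction.fixedBy Ω g) ≤ 2)
    (g : G) (hg1 : g ≠ 1) (hg : Nat.card (MulAction.fixedBy Ω g) = 2) : 2 ∣ Nat.card G := by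
  by_contra hodd
  have hog : orderOf g ≠ 1 := fun h => hg1 (orderOf_eq_one_iff.mp h)
  obtain ⟨p, hp, hpg⟩ := Nat.exists_prime_and_dvd hog
  haveI : Fact p.Prime := ⟨hp⟩
  have hpG : p ∣ Nat.card G := hpg.trans (orderOf_dvd_natCard g)
  have hp2 : p ≠ 2 := fun h => hodd (h ▸ hpG)
  have hp3 : 3 ≤ p := by
    have := hp.two_le
    omega
  set u := g ^ (orderOf g / p) with hu
  have hou : orderOf u = p := orderOf_pow_orderOf_div (orderOf_pos g).ne' hpg
  have hu1 : u ≠ 1 := by
    intro h
    rw [h, orderOf_one] at hou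
    exact hp.one_lt.ne hou
  have hsub : MulAction.fixedBy Ω g ⊆ MulAction.fixedBy Ω u := by
    intro ω hω
    have := MulAction.fixedBy_subset_fixedBy_zpow Ω g ((orderOf g / p : ℕ) : ℤ) hω
    rwa [zpow_natCast] at this
  have hg' : (MulAction.fixedBy Ω g).ncard = 2 := by rw [← Nat.card_coe_set_eq]; exact hg
  have hFu : MulAction.fixedBy Ω u = MulAction.fixedBy Ω g := by
    symm
    apply Set.eq_of_subset_of_ncard_le hsub
    have := hfix u hu1
    rw [Nat.card_coe_set_eq] at this
    omega
  obtain ⟨α, β, hαβ, hαβset⟩ := Set.ncard_eq_two.mp hg'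
  -- a Sylow subgroup containing u
  have hpu : IsPGroup p (Subgroup.zpowers u) :=
    IsPGroup.of_card (n := 1) (by rw [Nat.card_zpowers, hou, pow_one])
  obtain ⟨P, hP⟩ := hpu.exists_le_sylow
  have huP : u ∈ (P : Subgroup G) := hP (Subgroup.mem_zpowers u)
  have hmod1 := hpu.card_modEq_card_fixedPoints Ω
  rw [fixedPoints_zpowers, hFu, hg] at hmod1
  have hmod2 := P.isPGroup'.card_modEq_card_fixedPoints Ω
  have hsubP : MulAction.fixedPoints (P : Subgroup G) Ω ⊆ MulAction.fixedBy Ω u := by
    intro ω hω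
    exact hω ⟨u, huP⟩
  have hcardP : (MulAction.fixedPoints (P : Subgroup G) Ω).ncard = 2 := by
    have hle : (MulAction.fixedPoints (P : Subgroup G) Ω).ncard ≤ 2 := by
      rw [← hg', ← hFu]
      exact Set.ncard_le_ncard hsubP (Set.toFinite _)
    have h3 := hmod1.symm.trans hmod2
    rw [Nat.card_coe_set_eq] at h3
    exact (Nat.ModEq.eq_of_lt_of_lt h3 (by omega) (by omega)).symm
  have hFP : MulAction.fixedPoints (P : Subgroup G) Ω = MulAction.fixedBy Ω g := by
    rw [← hFu]
    apply Set.eq_of_subset_of_ncard_le hsubP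
    rw [hFu, hg', hcardP]
  have hPα : ∀ v ∈ (P : Subgroup G), v • α = α := by
    intro v hv
    have : α ∈ MulAction.fixedPoints (P : Subgroup G) Ω := by rw [hFP, hαβset]; simp
    exact this ⟨v, hv⟩
  have hPβ : ∀ v ∈ (P : Subgroup G), v • β = β := by
    intro v hv
    have : β ∈ MulAction.fixedPoints (P : Subgroup G) Ω := by rw [hFP, hαβset]; simp
    exact this ⟨v, hv⟩
  have hPfix : ∀ ω : Ω, (∀ v ∈ (P : Subgroup G), v • ω = ω) → ω = α ∨ ω = β := by
    intro ω hω
    have : ω ∈ MulAction.fixedPoints (P : Subgroup G) Ω := fun v => hω v v.2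
    rw [hFP, hαβset] at this
    simpa using this
  -- transitivity
  obtain ⟨x, hx⟩ := MulAction.exists_smul_eq G α β
  have hPle : (P : Subgroup G) ≤ MulAction.stabilizer G β := fun v hv => hPβ v hv
  have hQle : ((x • P : Sylow p G) : Subgroup G) ≤ MulAction.stabilizer G β := by
    intro v hv
    rw [Sylow.coe_subgroup_smul, Subgroup.mem_smul_pointwise_iff_exists] at hv
    obtain ⟨w, hw, rfl⟩ := hv
    rw [MulAction.mem_stabilizer_iff, MulAut.smul_def, MulAut.conj_apply, ← hx, ← mul_smul,
      inv_mul_cancel_right, mul_smul, hPα w hw]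
  obtain ⟨y, hy⟩ := MulAction.exists_smul_eq (MulAction.stabilizer G β)
    ((x • P).subtype hQle) (P.subtype hPle)
  simp_rw [Sylow.smul_subtype, Subgroup.smul_def, smul_smul] at hy
  have hn : (y : G) * x ∈ Subgroup.normalizer (P : Set G) :=
    Sylow.smul_eq_iff_mem_normalizer.mp (Sylow.subtype_injective hy)
  set n : G := (y : G) * x with hndef
  have hnα : n • α = β := by
    rw [hndef, mul_smul, hx]
    exact y.2
  have hnβ : n • β = α := by
    have h1 : ∀ v ∈ (P : Subgroup G), v • (n • β) = n • β := by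
      intro v hv
      have h2 : n⁻¹ * v * n ∈ (P : Subgroup G) := by
        have h3 := (Subgroup.mem_normalizer_iff.mp hn (n⁻¹ * v * n))
        apply h3.mpr
        have e : n * (n⁻¹ * v * n) * n⁻¹ = v := by group
        rw [e]
        exact hv
      have h4 := hPβ _ h2
      have e : v • n • β = n • ((n⁻¹ * v * n) • β) := by
        rw [← mul_smul, ← mul_smul]
        congr 1
        group
      rw [e, h4]
    rcases hPfix _ h1 with h | h
    · exact h
    · exfalso
      apply hαβ
      have : n • β = n • α := by rw [h, hnα]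
      exact (MulAction.injective n this).symm
  -- n has odd order
  have hodd' : ¬ 2 ∣ orderOf n := fun h => hodd (h.trans (orderOf_dvd_natCard n))
  obtain ⟨j, hj⟩ : ∃ j, orderOf n = 2 * j + 1 := by
    have := Nat.odd_iff.mpr (by omega : orderOf n % 2 = 1)
    exact this
  have hn2 : (n * n) • α = α := by rw [mul_smul, hnα, hnβ]
  have hnpow : n = (n * n) ^ (j + 1) := by
    have h1 : n ^ (2 * j + 1) = 1 := by rw [← hj]; exact pow_orderOf_eq_one n
    calc n = n ^ (2 * j + 1) * n := by rw [h1, one_mul]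
      _ = (n * n) ^ (j + 1) := by
        rw [← pow_two, ← pow_mul, ← pow_succ]
        congr 1
  have hfixα : n • α = α := by
    have hmem : n * n ∈ MulAction.stabilizer G α := hn2
    have : (n * n) ^ (j + 1) ∈ MulAction.stabilizer G α := Subgroup.pow_mem _ hmem _
    rw [← hnpow] at this
    exact this
  rw [hnα] at hfixα
  exact hαβ hfixα.symm

/-- Let G be a finite group acting faithfully and transitively on a finite set Ω with fixity k ≥ 1: every non-identity element fixes at most k points and some non-identity element fixes exactly k points. Then |Z(G)| divides k; if k = 2 then |G| is even; and for every prime p > k dividing |G| and every point α, either p does not divide |G_α| or G_α contains a Sylow p-subgroup of G. -/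
theorem result {G : Type*} [Group G] [Finite G] {Ω : Type*} [Fintype Ω] [MulAction G Ω] [FaithfulSMul G Ω]
    (htr : MulAction.IsPretransitive G Ω) (k : ℕ) (hk : 1 ≤ k)
    (hfix : ∀ g : G, g ≠ 1 → Nat.card (MulAction.fixedBy Ω g) ≤ k) (hex : ∃ g : G, g ≠ 1 ∧ Nat.card (MulAction.fixedBy Ω g) = k) :
    Nat.card (Subgroup.center G) ∣ k ∧ (k = 2 → 2 ∣ Nat.card G) ∧
      ∀ (p : ℕ), p.Prime → k < p → p ∣ Nat.card G → ∀ α : Ω,
        ¬ p ∣ Nat.card (MulAction.stabilizer G α) ∨ ¬ p ∣ (MulAction.stabilizer G α).index := by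
  obtain ⟨g, hg1, hgk⟩ := hex
  refine ⟨?_, ?_, ?_⟩
  · rw [← hgk]
    exact part1 htr g
  · intro hk2
    subst hk2
    exact part2 htr hfix g hg1 hgk
  · intro p hp hkp hpG α
    by_contra hcon
    push Not at hcon
    exact part3 htr k hfix p hp hkp α hcon.1 hcon.2

end Cfsg.Agent.S3389
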