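import Mathlib
import Cfsg.Statements.S3391
import Cfsg.Agent.Helper6.SzFix

set_option autoImplicit false
open Cfsg

namespace Cfsg.Agent.S3391

/-- Let q = 2^{2m+1} ≥ 8 and let G be isomorphic to the Suzuki group Sz(q). If G acts faithfully and transitively on a finite set Ω with fixity 2 (every non-identity element fixes at most two points, and some fixes exactly two), then either |Ω| = q² + 1 and the action is 2-transitive, or |Ω| = q²(q² + 1) and the point stabilizers have order q − 1. -/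
theorem result {G : Type*} [Group G] [Finite G] (F : Type) [Field F] [Fintype F] (m : ℕ) (hm : 1 ≤ m) (hF : Fintype.card F = 2 ^ (2 * m + 1))
    (e : G ≃* ↥(Cfsg.Lie.Sz F (2 ^ (m + 1)))) {Ω : Type*} [Fintype Ω] [MulAction G Ω] [FaithfulSMul G Ω] (htr : MulAction.IsPretransitive G Ω)
    (hfix : ∀ g : G, g ≠ 1 → Nat.card (MulAction.fixedBy Ω g) ≤ 2) (hex : ∃ g : G, g ≠ 1 ∧ Nat.card (MulAction.fixedBy Ω g) = 2) :
    (Fintype.card Ω = Fintype.card F ^ 2 + 1 ∧ MulAction.IsMultiplyPretransitive G Ω 2) ∨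
    (Fintype.card Ω = Fintype.card F ^ 2 * (Fintype.card F ^ 2 + 1) ∧ ∀ α : Ω, Nat.card (MulAction.stabilizer G α) = Fintype.card F - 1) := by
  classical
  have D := Cfsg.Agent.Helper6.Sz.szData hm hF
  let ψ : ↥(Cfsg.Agent.Helper6.Sz.SzG F (2 ^ (m + 1))) ≃* G :=
    (Cfsg.Agent.Helper6.Sz.lieEquiv D).trans e.symm
  letI act : MulAction ↥(Cfsg.Agent.Helper6.Sz.SzG F (2 ^ (m + 1))) Ω :=
    MulAction.compHom Ω ψ.toMonoidHom
  have hsm : ∀ (g : ↥(Cfsg.Agent.Helper6.Sz.SzG F (2 ^ (m + 1)))) (a : Ω), g • a = ψ g • a :=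
    fun _ _ => rfl
  have htr' : ∀ a b : Ω, ∃ g : ↥(Cfsg.Agent.Helper6.Sz.SzG F (2 ^ (m + 1))), g • a = b := by
    intro a b
    obtain ⟨g, hg⟩ := MulAction.exists_smul_eq G a b
    exact ⟨ψ.symm g, by rw [hsm, MulEquiv.apply_symm_apply]; exact hg⟩
  have hfb : ∀ g : ↥(Cfsg.Agent.Helper6.Sz.SzG F (2 ^ (m + 1))),
      MulAction.fixedBy Ω g = MulAction.fixedBy Ω (ψ g) := fun g => rfl
  have hfix' : ∀ g : ↥(Cfsg.Agent.Helper6.Sz.SzG F (2 ^ (m + 1))), g ≠ 1 →
      Nat.card (MulAction.fixedBy Ω g) ≤ 2 := by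
    intro g hg
    rw [hfb]
    exact hfix (ψ g) (fun h => hg ((MulEquiv.map_eq_one_iff ψ).mp h))
  have hex' : ∃ g : ↥(Cfsg.Agent.Helper6.Sz.SzG F (2 ^ (m + 1))), g ≠ 1 ∧
      Nat.card (MulAction.fixedBy Ω g) = 2 := by
    obtain ⟨g, hg1, hg⟩ := hex
    refine ⟨ψ.symm g, fun h => hg1 ?_, ?_⟩
    · have h' := congrArg ψ h
      rw [MulEquiv.apply_symm_apply, map_one] at h'
      exact h'
    · rw [hfb, MulEquiv.apply_symm_apply]; exact hg
  rcases Cfsg.Agent.Helper6.SzFix.fix_two hm hF htr' hfix' hex' with ⟨h1, h2⟩ | ⟨h1, h2⟩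
  · left
    refine ⟨by rw [← Nat.card_eq_fintype_card]; exact h1, ?_⟩
    rw [MulAction.is_two_pretransitive_iff]
    intro a b c d hab hcd
    obtain ⟨g, hg1, hg2⟩ := h2 a b c d hab hcd
    exact ⟨ψ g, hg1, hg2⟩
  · right
    refine ⟨by rw [← Nat.card_eq_fintype_card]; exact h1, fun α => ?_⟩
    rw [← h2 α]
    apply Nat.card_congr
    exact
      { toFun := fun x => ⟨ψ.symm (x : G), by
          show ψ (ψ.symm (x : G)) • α = α
          rw [MulEquiv.apply_symm_apply]; exact x.2⟩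
        invFun := fun y => ⟨ψ (y : ↥(Cfsg.Agent.Helper6.Sz.SzG F (2 ^ (m + 1)))), y.2⟩
        left_inv := fun x => Subtype.ext (MulEquiv.apply_symm_apply ψ _)
        right_inv := fun y => Subtype.ext (MulEquiv.symm_apply_apply ψ _) }

end Cfsg.Agent.S3391
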