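import Mathlib
import Cfsg.Statements.S3495

set_option autoImplicit false
open Cfsg

namespace Cfsg.Agent.S3495

theorem le_normalizer_of_conj {G : Type*} [Group G] (H C : Subgroup G)
    (h : ∀ x ∈ H, ∀ c ∈ C, x * c * x⁻¹ ∈ C) : H ≤ Subgroup.normalizer (C : Set G) := by
  intro x hx
  rw [Subgroup.mem_normalizer_iff]
  intro c
  constructor
  · exact h x hx c
  · intro hc
    have := h x⁻¹ (H.inv_mem hx) _ hc
    simpa [mul_assoc] using this

/-- Let a finite group G act faithfully and primitively on a finite set Ω with non-trivial point stabilizers, each acting primitively on every one of its orbits (an extremely primitive group), and suppose G has an elementary abelian normal p-subgroup N acting regularly on Ω (affine type). Then every non-trivial subgroup M of a point stabilizer G_α that is normal in G_α has the same orbits on Ω as G_α, and normalizes no subgroup of N other than 1 and N. -/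
theorem result {G : Type*} [Group G] [Finite G] {Ω : Type*} [Fintype Ω] [MulAction G Ω] [FaithfulSMul G Ω] (hprim : MulAction.IsPreprimitive G Ω) (hH : ∀ α : Ω, MulAction.stabilizer G α ≠ ⊥) (hep : ∀ (α : Ω) (ω : Ω), MulAction.IsPreprimitive (MulAction.stabilizer G α) (MulAction.orbit (MulAction.stabilizer G α) ω))
    (N : Subgroup G) [N.Normal] (hNc : IsMulCommutative N) (p : ℕ) (hp : p.Prime) (hNp : ∀ n ∈ N, n ^ p = 1)
    (hNtr : MulAction.IsPretransitive N Ω) (hNreg : ∀ ω : Ω, MulAction.stabilizer N ω = ⊥) (α : Ω) (M : Subgroup G) (hM : M ≠ ⊥) (hMle : M ≤ MulAction.stabilizer G α)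
    (hMn : MulAction.stabilizer G α ≤ Subgroup.normalizer (M : Set G)) :
    (∀ ω : Ω, MulAction.orbit M ω = MulAction.orbit (MulAction.stabilizer G α) ω) ∧
    (∀ L : Subgroup G, L ≤ N → M ≤ Subgroup.normalizer (L : Set G) → L = ⊥ ∨ L = N) := by
  -- regularity
  have hreg : ∀ n ∈ N, n • α = α → n = 1 := by
    intro n hn hnα
    have : (⟨n, hn⟩ : N) ∈ MulAction.stabilizer N α := hnα
    rw [hNreg α, Subgroup.mem_bot] at this
    exact congrArg Subtype.val this
  have hreg2 : ∀ n ∈ N, ∀ n' ∈ N, n • α = n' • α → n = n' := by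
    intro n hn n' hn' h
    have := hreg (n'⁻¹ * n) (N.mul_mem (N.inv_mem hn') hn) (by rw [mul_smul, h, inv_smul_smul])
    exact (inv_mul_eq_one.mp this).symm
  haveI : Nontrivial Ω := by
    by_contra hnt
    rw [not_nontrivial_iff_subsingleton] at hnt
    apply hH α
    rw [Subgroup.eq_bot_iff_forall]
    intro x _
    apply FaithfulSMul.eq_of_smul_eq_smul (α := Ω)
    intro ω
    exact Subsingleton.elim _ _
  have hco : IsCoatom (MulAction.stabilizer G α) :=
    MulAction.IsPreprimitive.isCoatom_stabilizer_of_isPreprimitive (G := G) (X := Ω) α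
  -- invariant subgroups of `N` are trivial
  have hX : ∀ C : Subgroup G, C ≤ N →
      MulAction.stabilizer G α ≤ Subgroup.normalizer (C : Set G) → C = ⊥ ∨ C = N := by
    intro C hCN hHC
    rcases hco.le_iff.mp (le_sup_right : MulAction.stabilizer G α ≤ C ⊔ MulAction.stabilizer G α)
      with hK | hK
    · right
      haveI : C.Normal := by
        rw [← Subgroup.normalizer_eq_top_iff]
        apply top_le_iff.mp
        rw [← hK]
        exact sup_le Subgroup.le_normalizer hHC
      apply le_antisymm hCN
      intro n hn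
      have hmem : n ∈ ((C ⊔ MulAction.stabilizer G α : Subgroup G) : Set G) := by
        rw [hK]; trivial
      rw [Subgroup.normal_mul] at hmem
      obtain ⟨c, hc, x, hx, rfl⟩ := Set.mem_mul.mp hmem
      have hxN : x ∈ N := by
        have := N.mul_mem (N.inv_mem (hCN hc)) hn
        simpa using this
      have hx1 : x = 1 := hreg x hxN hx
      rw [hx1, mul_one]
      exact hc
    · left
      rw [Subgroup.eq_bot_iff_forall]
      intro c hc
      have hcH : c ∈ MulAction.stabilizer G α := by
        rw [← hK]; exact (le_sup_left : C ≤ C ⊔ MulAction.stabilizer G α) hc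
      exact hreg c (hCN hc) hcH
  have hconjM : ∀ x ∈ MulAction.stabilizer G α, ∀ m ∈ M, x * m * x⁻¹ ∈ M :=
    fun x hx m hm => (Subgroup.mem_normalizer_iff.mp (hMn hx) m).mp hm
  -- the only fixed point of `M` is `α`
  have hF : ∀ ω : Ω, (∀ m ∈ M, m • ω = ω) → ω = α := by
    intro ω hω
    obtain ⟨n, rfl⟩ := MulAction.exists_smul_eq N α ω
    have hcent : ∀ m ∈ M, m * (n : G) = (n : G) * m := by
      intro m hm
      have h1 : m * n * m⁻¹ ∈ N := ‹N.Normal›.conj_mem n n.2 m
      have h2 : (m * n * m⁻¹) • α = (n : G) • α := by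
        rw [mul_smul, mul_smul]
        have : m⁻¹ • α = α := hMle (M.inv_mem hm)
        rw [this]
        exact hω m hm
      have h3 := hreg2 _ h1 _ n.2 h2
      calc m * n = (m * n * m⁻¹) * m := by group
        _ = n * m := by rw [h3]
    have hnC : (n : G) ∈ N ⊓ Subgroup.centralizer (M : Set G) :=
      ⟨n.2, fun m hm => hcent m hm⟩
    have hHC : MulAction.stabilizer G α ≤
        Subgroup.normalizer ((N ⊓ Subgroup.centralizer (M : Set G) : Subgroup G) : Set G) := by
      apply le_normalizer_of_conj
      rintro x hx c ⟨hcN, hcM⟩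
      refine ⟨‹N.Normal›.conj_mem c hcN x, ?_⟩
      intro m hm
      have h1 : x⁻¹ * m * x ∈ M := by
        have := hconjM x⁻¹ ((MulAction.stabilizer G α).inv_mem hx) m hm
        simpa using this
      have h2 := hcM _ h1
      calc m * (x * c * x⁻¹) = x * ((x⁻¹ * m * x) * c) * x⁻¹ := by group
        _ = x * (c * (x⁻¹ * m * x)) * x⁻¹ := by rw [h2]
        _ = x * c * x⁻¹ * m := by group
    rcases hX _ inf_le_left hHC with hCbot | hCN
    · rw [hCbot, Subgroup.mem_bot] at hnC
      show (n : G) • α = α
      rw [hnC, one_smul]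
    · exfalso
      apply hM
      rw [Subgroup.eq_bot_iff_forall]
      intro m hm
      apply FaithfulSMul.eq_of_smul_eq_smul (α := Ω)
      intro ω'
      obtain ⟨n', rfl⟩ := MulAction.exists_smul_eq N α ω'
      have hn'C : (n' : G) ∈ N ⊓ Subgroup.centralizer (M : Set G) := by rw [hCN]; exact n'.2
      have hcomm := hn'C.2 m hm
      have hmα : m • α = α := hMle hm
      rw [one_smul, Subgroup.smul_def, ← mul_smul, hcomm, mul_smul, hmα]
  have claim1 : ∀ ω : Ω, MulAction.orbit M ω = MulAction.orbit (MulAction.stabilizer G α) ω := by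
    intro ω
    apply Set.Subset.antisymm
    · rintro _ ⟨m, rfl⟩
      exact ⟨⟨m, hMle m.2⟩, rfl⟩
    · by_cases hωα : ω = α
      · subst hωα
        rintro _ ⟨x, rfl⟩
        have : (x : G) • ω = ω := x.2
        refine ⟨1, ?_⟩
        simp [Subgroup.smul_def, this]
      · haveI := hep α ω
        haveI : (M.subgroupOf (MulAction.stabilizer G α)).Normal :=
          (Subgroup.normal_subgroupOf_iff_le_normalizer hMle).mpr hMn
        have hne : MulAction.fixedPoints (M.subgroupOf (MulAction.stabilizer G α))
            (MulAction.orbit (MulAction.stabilizer G α) ω) ≠ Set.univ := by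
          intro heq
          apply hωα
          apply hF
          intro m hm
          have hmem : (⟨ω, MulAction.mem_orbit_self ω⟩ :
              MulAction.orbit (MulAction.stabilizer G α) ω) ∈
              MulAction.fixedPoints (M.subgroupOf (MulAction.stabilizer G α))
                (MulAction.orbit (MulAction.stabilizer G α) ω) := by
            rw [heq]; trivial
          have := hmem ⟨⟨m, hMle hm⟩, hm⟩
          exact congrArg Subtype.val this
        haveI := MulAction.IsQuasiPreprimitive.isPretransitive_of_normal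
          (G := MulAction.stabilizer G α) (X := MulAction.orbit (MulAction.stabilizer G α) ω)
          (N := M.subgroupOf (MulAction.stabilizer G α)) hne
        rintro x hx
        obtain ⟨m', hm'⟩ := MulAction.exists_smul_eq (M.subgroupOf (MulAction.stabilizer G α))
          (⟨ω, MulAction.mem_orbit_self ω⟩ : MulAction.orbit (MulAction.stabilizer G α) ω)
          ⟨x, hx⟩
        have hval := congrArg Subtype.val hm'
        refine ⟨⟨((m' : MulAction.stabilizer G α) : G), Subgroup.mem_subgroupOf.mp m'.2⟩, ?_⟩
        exact hval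
  refine ⟨claim1, ?_⟩
  intro L hLN hML
  apply hX L hLN
  apply le_normalizer_of_conj
  intro x hx l hl
  have hconjL : ∀ m ∈ M, ∀ l ∈ L, m * l * m⁻¹ ∈ L :=
    fun m hm l hl => (Subgroup.mem_normalizer_iff.mp (hML hm) l).mp hl
  have hxα : x⁻¹ • α = α := (MulAction.stabilizer G α).inv_mem hx
  have hmem : x • (l • α) ∈ MulAction.orbit (MulAction.stabilizer G α) (l • α) := ⟨⟨x, hx⟩, rfl⟩
  rw [← claim1] at hmem
  obtain ⟨m, hm⟩ := hmem
  have hmα : (m : G)⁻¹ • α = α := hMle (M.inv_mem m.2)
  have h1 : (x * l * x⁻¹) • α = ((m : G) * l * (m : G)⁻¹) • α := by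
    rw [mul_smul, mul_smul, hxα, mul_smul, mul_smul, hmα]
    exact hm.symm
  have h2 := hreg2 _ (‹N.Normal›.conj_mem l (hLN hl) x) _ (‹N.Normal›.conj_mem l (hLN hl) m) h1
  rw [h2]
  exact hconjL m m.2 l hl

end Cfsg.Agent.S3495
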