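import Mathlib
import Cfsg.Statements.S3504

set_option autoImplicit false
open Cfsg

namespace Cfsg.Agent.S3504

/-- structure of a fixed-point-free permutation of prime order -/
theorem struct {n : ℕ} (g : Equiv.Perm (Fin n)) (hg : (orderOf g).Prime) (hfix : ∀ i : Fin n, g i ≠ i) :
    orderOf g ∣ n ∧ g.cycleType = Multiset.replicate (n / orderOf g) (orderOf g) := by
  obtain ⟨m, hm⟩ := Equiv.Perm.cycleType_prime_order hg
  have hsupp : g.support = Finset.univ := by
    ext i
    simp [Equiv.Perm.mem_support, hfix i]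
  have hsum : (m + 1) * orderOf g = n := by
    have h := Equiv.Perm.sum_cycleType g
    rw [hm, hsupp, Multiset.sum_replicate, Finset.card_univ, Fintype.card_fin, smul_eq_mul] at h
    exact h
  refine ⟨⟨m + 1, by rw [mul_comm]; exact hsum.symm⟩, ?_⟩
  rw [hm]
  congr 1
  exact (Nat.div_eq_of_eq_mul_left hg.pos hsum.symm).symm

/-- existence of a fixed-point-free permutation of prime order `p` when `p ∣ n` -/
theorem exists_perm {n : ℕ} (hn : 0 < n) (p : ℕ) (hp : p.Prime) (hpn : p ∣ n) :
    ∃ g : Equiv.Perm (Fin n), orderOf g = p ∧ ∀ i : Fin n, g i ≠ i := by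
  have hex : ∃ g : Equiv.Perm (Fin n), g.cycleType = Multiset.replicate (n / p) p := by
    rw [Equiv.Perm.exists_with_cycleType_iff]
    constructor
    · rw [Multiset.sum_replicate, smul_eq_mul, Nat.div_mul_cancel hpn, Fintype.card_fin]
    · intro a ha
      rw [Multiset.eq_of_mem_replicate ha]
      exact hp.two_le
  obtain ⟨g, hg⟩ := hex
  have hnp : 0 < n / p := Nat.div_pos (Nat.le_of_dvd hn hpn) hp.pos
  have hord : orderOf g = p := by
    have hd : orderOf g ∣ p := by
      rw [← Equiv.Perm.lcm_cycleType, Multiset.lcm_dvd]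
      intro b hb
      rw [hg] at hb
      rw [Multiset.eq_of_mem_replicate hb]
    rcases (Nat.dvd_prime hp).mp hd with h | h
    · exfalso
      rw [orderOf_eq_one_iff] at h
      rw [← Equiv.Perm.cycleType_eq_zero, hg] at h
      have := congrArg Multiset.card h
      rw [Multiset.card_replicate, Multiset.card_zero] at this
      omega
    · exact h
  refine ⟨g, hord, ?_⟩
  have hsupp : g.support = Finset.univ := by
    rw [← Finset.card_eq_iff_eq_univ, ← Equiv.Perm.sum_cycleType, hg, Multiset.sum_replicate,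
      smul_eq_mul, Nat.div_mul_cancel hpn, Fintype.card_fin]
  intro i
  have : i ∈ g.support := by rw [hsupp]; exact Finset.mem_univ i
  exact Equiv.Perm.mem_support.mp this

/-- For n ≥ 5, the fixed-point-free permutations of prime order in the symmetric group of degree n form a single conjugacy class if and only if n is a prime power. -/
theorem result (n : ℕ) (hn : 5 ≤ n) :
    Nat.card {c : ConjClasses (Equiv.Perm (Fin n)) // ∃ g : Equiv.Perm (Fin n), ConjClasses.mk g = c ∧ (orderOf g).Prime ∧ ∀ i : Fin n, g i ≠ i} = 1 ↔ IsPrimePow n := by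
  have hn0 : 0 < n := by omega
  rw [isPrimePow_iff_unique_prime_dvd, Nat.card_eq_one_iff_unique]
  constructor
  · rintro ⟨hsub, ⟨⟨c, g, rfl, hg, hfix⟩⟩⟩
    obtain ⟨hdvd, hct⟩ := struct g hg hfix
    refine ⟨orderOf g, ⟨hg, hdvd⟩, ?_⟩
    rintro p ⟨hp, hpn⟩
    obtain ⟨g', hg', hfix'⟩ := exists_perm hn0 p hp hpn
    have hg'p : (orderOf g').Prime := by rw [hg']; exact hp
    have heq := hsub.elim ⟨ConjClasses.mk g', g', rfl, hg'p, hfix'⟩
      ⟨ConjClasses.mk g, g, rfl, hg, hfix⟩
    have heq' : ConjClasses.mk g' = ConjClasses.mk g := congrArg Subtype.val heq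
    rw [ConjClasses.mk_eq_mk_iff_isConj, Equiv.Perm.isConj_iff_cycleType_eq] at heq'
    rw [← hg', ← Equiv.Perm.lcm_cycleType, heq', Equiv.Perm.lcm_cycleType]
  · rintro ⟨p, ⟨hp, hpn⟩, huniq⟩
    constructor
    · constructor
      rintro ⟨c, g, rfl, hg, hfix⟩ ⟨c', g', rfl, hg', hfix'⟩
      apply Subtype.ext
      show ConjClasses.mk g = ConjClasses.mk g'
      rw [ConjClasses.mk_eq_mk_iff_isConj, Equiv.Perm.isConj_iff_cycleType_eq]
      obtain ⟨hdvd, hct⟩ := struct g hg hfix
      obtain ⟨hdvd', hct'⟩ := struct g' hg' hfix'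
      have h1 := huniq _ ⟨hg, hdvd⟩
      have h2 := huniq _ ⟨hg', hdvd'⟩
      rw [hct, hct', h1, h2]
    · obtain ⟨g, hg, hfix⟩ := exists_perm hn0 p hp hpn
      exact ⟨⟨ConjClasses.mk g, g, rfl, by rw [hg]; exact hp, hfix⟩⟩

end Cfsg.Agent.S3504
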