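import Mathlib
import Cfsg.Statements.S3508

set_option autoImplicit false
open Cfsg

namespace Cfsg.Agent.S3508

open scoped IsMulCommutative

open Polynomial in
theorem lin_alg (p : ℕ) [Fact p.Prime] {V : Type*} [AddCommGroup V] [Module (ZMod p) V] [Finite V]
    (m : ℕ) (hV : Nat.card V = p ^ m) (C : Module.End (ZMod p) V) (e : ℕ) (hC : C ^ (p ^ e) = 1)
    (t : ℕ) (ht : m + 1 ≤ p ^ t) :
    C ^ (p ^ t) = 1 ∧ ∑ i ∈ Finset.range (p ^ t), C ^ i = 0 := by
  have hfr : Module.finrank (ZMod p) V = m := by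
    have h := Module.natCard_eq_pow_finrank (K := ZMod p) (V := V)
    rw [hV, Nat.card_zmod] at h
    exact (Nat.pow_right_injective (Fact.out : p.Prime).two_le h).symm
  have hfrob : ∀ k : ℕ, (C - 1) ^ (p ^ k) = C ^ (p ^ k) - 1 := by
    intro k
    have hpoly : ((X : (ZMod p)[X]) - 1) ^ (p ^ k) = X ^ (p ^ k) - 1 := by
      rw [sub_pow_char_pow, one_pow]
    have := congrArg (aeval C) hpoly
    simpa using this
  have hnil : IsNilpotent (C - 1) := ⟨p ^ e, by rw [hfrob, hC, sub_self]⟩
  have hm : (C - 1) ^ m = 0 := by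
    have h1 := IsNilpotent.charpoly_eq_X_pow_finrank hnil
    have h2 := LinearMap.aeval_self_charpoly (C - 1)
    rw [h1, hfr] at h2
    simpa using h2
  have hq : (C - 1) ^ (p ^ t - 1) = 0 := pow_eq_zero_of_le (by omega) hm
  have hq' : (C - 1) ^ (p ^ t) = 0 := pow_eq_zero_of_le (by omega) hm
  refine ⟨?_, ?_⟩
  · have := hfrob t
    rw [hq'] at this
    exact (sub_eq_zero.mp this.symm)
  · have hpoly : (∑ i ∈ Finset.range (p ^ t), (X : (ZMod p)[X]) ^ i) = (X - 1) ^ (p ^ t - 1) := by
      have h1 : (∑ i ∈ Finset.range (p ^ t), (X : (ZMod p)[X]) ^ i) * (X - 1) =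
          (X - 1) ^ (p ^ t - 1) * (X - 1) := by
        rw [geom_sum_mul, ← pow_succ, Nat.sub_add_cancel (by omega : 1 ≤ p ^ t), sub_pow_char_pow,
          one_pow]
      have hne : (X : (ZMod p)[X]) - 1 ≠ 0 := by
        have := X_sub_C_ne_zero (1 : ZMod p)
        simpa using this
      exact mul_right_cancel₀ hne h1
    have := congrArg (aeval C) hpoly
    simp only [map_sum, map_pow, aeval_X, map_sub, map_one] at this
    rw [this, hq]

theorem grp_lin (p : ℕ) [Fact p.Prime] {A : Type*} [CommGroup A] [Finite A]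
    (hexp : ∀ a : A, a ^ p = 1) (m : ℕ) (hA : Nat.card A = p ^ m) (φ : A →* A) (e : ℕ)
    (hφ : ∀ a, (⇑φ)^[p ^ e] a = a) (t : ℕ) (ht : m + 1 ≤ p ^ t) :
    (∀ a, (⇑φ)^[p ^ t] a = a) ∧ ∀ a, ∏ i ∈ Finset.range (p ^ t), (⇑φ)^[i] a = 1 := by
  have hexp' : ∀ x : Additive A, p • x = 0 := by
    intro x
    exact congrArg Additive.ofMul (hexp (Additive.toMul x))
  obtain ⟨inst⟩ : Nonempty (Module (ZMod p) (Additive A)) := ⟨AddCommGroup.zmodModule hexp'⟩
  let C : Module.End (ZMod p) (Additive A) := (MonoidHom.toAdditive φ).toZModLinearMap p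
  have hCpow : ∀ (k : ℕ) (a : A), (C ^ k) (Additive.ofMul a) = Additive.ofMul ((⇑φ)^[k] a) := by
    intro k
    induction k with
    | zero => intro a; simp
    | succ k ih =>
      intro a
      rw [pow_succ', Module.End.mul_apply, ih, Function.iterate_succ_apply']
      rfl
  have hV : Nat.card (Additive A) = p ^ m := hA
  have hC : C ^ (p ^ e) = 1 := by
    ext x
    have := hCpow (p ^ e) (Additive.toMul x)
    rw [hφ] at this
    simpa using this
  obtain ⟨h1, h2⟩ := lin_alg p m hV C e hC t ht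
  refine ⟨?_, ?_⟩
  · intro a
    have := hCpow (p ^ t) a
    rw [h1] at this
    exact (Additive.ofMul.injective this).symm
  · intro a
    have := congrArg (fun D : Module.End (ZMod p) (Additive A) => D (Additive.ofMul a)) h2
    simp only [LinearMap.sum_apply, hCpow, LinearMap.zero_apply] at this
    rw [← ofMul_prod] at this
    exact Additive.ofMul.injective this

theorem lemA (k : ℕ) : k + 4 ≤ 2 ^ (k + 2) := by
  induction k with
  | zero => norm_num
  | succ k ih => rw [pow_succ]; omega

theorem lemB (k : ℕ) : k + 3 ≤ 3 ^ (k + 1) := by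
  induction k with
  | zero => norm_num
  | succ k ih => rw [pow_succ]; omega

/-- Let a finite group G act faithfully on a set Ω with p ^ m points (p prime) and have an elementary abelian normal p-subgroup N acting regularly on Ω (so G is a group of affine transformations of an m-dimensional space over the field with p elements). If G contains an element of order p ^ r with r ≥ 1, then p ^ (r − 1) ≤ m. In particular an element of order p ^ m forces m ≤ 2, and m ≤ 1 when p is odd. -/
theorem result {G : Type*} [Group G] [Finite G] {Ω : Type*} [Fintype Ω] [MulAction G Ω] [FaithfulSMul G Ω] (p m : ℕ) (hp : p.Prime) (hcard : Fintype.card Ω = p ^ m)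
    (N : Subgroup G) [N.Normal] (hNc : IsMulCommutative N) (hNp : ∀ n ∈ N, n ^ p = 1)
    (hNtr : MulAction.IsPretransitive N Ω) (hNreg : ∀ ω : Ω, MulAction.stabilizer N ω = ⊥)
    (g : G) (r : ℕ) (hr : 1 ≤ r) (hg : orderOf g = p ^ r) :
    p ^ (r - 1) ≤ m ∧ (r = m → m ≤ 2 ∧ (2 < p → m ≤ 1)) := by
  haveI : Fact p.Prime := ⟨hp⟩
  have key : p ^ (r - 1) ≤ m := by
    by_contra hcon
    push Not at hcon
    have ht : m + 1 ≤ p ^ (r - 1) := hcon
    have hΩpos : 0 < Fintype.card Ω := by rw [hcard]; exact pow_pos hp.pos m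
    obtain ⟨ω₀⟩ : Nonempty Ω := Fintype.card_pos_iff.mp hΩpos
    have hNcard : Nat.card N = p ^ m := by
      have h1 := MulAction.index_stabilizer_of_transitive N ω₀
      rw [hNreg ω₀, Subgroup.index_bot, Nat.card_eq_fintype_card (α := Ω), hcard] at h1
      exact h1
    obtain ⟨b, hb⟩ := MulAction.exists_smul_eq N ω₀ (g • ω₀)
    set h : G := (b : G)⁻¹ * g with hh
    have hhω : h • ω₀ = ω₀ := by
      rw [hh, mul_smul, ← hb]
      exact inv_smul_smul (b : G) ω₀
    have hg_eq : g = (b : G) * h := by rw [hh]; group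
    let φ : N →* N := (MulAut.conjNormal h : MulAut N).toMonoidHom
    have hφapp : ∀ n : N, ((φ n : N) : G) = h * n * h⁻¹ := fun n => by simp [φ]
    have hiter : ∀ (k : ℕ) (n : N), (((⇑φ)^[k] n : N) : G) = h ^ k * n * (h ^ k)⁻¹ := by
      intro k
      induction k with
      | zero => intro n; simp
      | succ k ih =>
        intro n
        rw [Function.iterate_succ_apply', hφapp, ih, pow_succ']
        group
    have hφg : ∀ n : N, ((φ n : N) : G) = g * n * g⁻¹ := by
      intro n
      rw [hφapp, hh]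
      have hgn : g * n * g⁻¹ ∈ N := ‹N.Normal›.conj_mem n n.2 g
      have hcomm : (b : G) * (g * n * g⁻¹) = (g * n * g⁻¹) * b := by
        have := mul_comm b ⟨g * n * g⁻¹, hgn⟩
        exact congrArg Subtype.val this
      calc (b : G)⁻¹ * g * n * ((b : G)⁻¹ * g)⁻¹ = (b : G)⁻¹ * ((g * n * g⁻¹) * b) := by group
        _ = (b : G)⁻¹ * (b * (g * n * g⁻¹)) := by rw [hcomm]
        _ = g * n * g⁻¹ := by group
    have hiterg : ∀ (k : ℕ) (n : N), (((⇑φ)^[k] n : N) : G) = g ^ k * n * (g ^ k)⁻¹ := by
      intro k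
      induction k with
      | zero => intro n; simp
      | succ k ih =>
        intro n
        rw [Function.iterate_succ_apply', hφg, ih, pow_succ']
        group
    have hφe : ∀ n : N, (⇑φ)^[p ^ r] n = n := by
      intro n
      apply Subtype.ext
      rw [hiterg, ← hg, pow_orderOf_eq_one]
      simp
    obtain ⟨h1, h2⟩ := grp_lin p (A := N) (fun a => Subtype.ext (by simpa using hNp a a.2)) m
      hNcard φ r hφe (r - 1) ht
    set q := p ^ (r - 1) with hq
    have hhq : h ^ q = 1 := by
      apply FaithfulSMul.eq_of_smul_eq_smul (α := Ω)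
      intro ω
      obtain ⟨n, rfl⟩ := MulAction.exists_smul_eq N ω₀ ω
      have e1 := hiter q n
      rw [h1] at e1
      have e2 : h ^ q • ω₀ = ω₀ := by
        have : h ∈ MulAction.stabilizer G ω₀ := hhω
        exact Subgroup.pow_mem _ this q
      rw [one_smul, Subgroup.smul_def, ← mul_smul]
      have e3 : h ^ q * (n : G) = (n : G) * h ^ q := by
        calc h ^ q * (n : G) = (h ^ q * n * (h ^ q)⁻¹) * h ^ q := by group
          _ = n * h ^ q := by rw [← e1]
      rw [e3, mul_smul, e2]
    have hprod : ∀ k : ℕ, ((b : G) * h) ^ k =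
        ((∏ i ∈ Finset.range k, (⇑φ)^[i] b : N) : G) * h ^ k := by
      intro k
      induction k with
      | zero => simp
      | succ k ih =>
        rw [pow_succ, ih, Finset.prod_range_succ, Subgroup.coe_mul, hiter, pow_succ]
        group
    have hgq : g ^ q = 1 := by
      rw [hg_eq, hprod, h2, hhq]
      simp
    have hdvd : orderOf g ∣ q := orderOf_dvd_of_pow_eq_one hgq
    rw [hg] at hdvd
    have hle := Nat.le_of_dvd (pow_pos hp.pos _) hdvd
    have hlt : p ^ (r - 1) < p ^ r := Nat.pow_lt_pow_right hp.one_lt (by omega)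
    omega
  refine ⟨key, ?_⟩
  intro hrm
  rw [hrm] at key
  constructor
  · by_contra hcon
    push Not at hcon
    obtain ⟨k, rfl⟩ : ∃ k, m = k + 3 := ⟨m - 3, by omega⟩
    have h1 := lemA k
    have h2 : 2 ^ (k + 2) ≤ p ^ (k + 2) := Nat.pow_le_pow_left hp.two_le _
    have h3 : k + 3 - 1 = k + 2 := by omega
    rw [h3] at key
    omega
  · intro hp2
    by_contra hcon
    push Not at hcon
    obtain ⟨k, rfl⟩ : ∃ k, m = k + 2 := ⟨m - 2, by omega⟩
    have h1 := lemB k
    have h2 : 3 ^ (k + 1) ≤ p ^ (k + 1) := Nat.pow_le_pow_left (by omega) _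
    have h3 : k + 2 - 1 = k + 1 := by omega
    rw [h3] at key
    omega

end Cfsg.Agent.S3508
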