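import Mathlib
import Cfsg.Statements.S3511

set_option autoImplicit false
open Cfsg

namespace Cfsg.Agent.S3511

theorem aux {G : Type*} [Group G] [Finite G] {Ω : Type*} [MulAction G Ω]
    (h : ∀ g : G, Squarefree (orderOf g) → ∃ ω : Ω, MulAction.stabilizer (Subgroup.zpowers g) ω = ⊥) :
    ∀ n : ℕ, ∀ g : G, orderOf g = n → ∃ ω : Ω, MulAction.stabilizer (Subgroup.zpowers g) ω = ⊥ := by
  intro n
  induction n using Nat.strong_induction_on with
  | _ n ih =>
    intro g hg
    by_cases hsq : Squarefree (orderOf g)
    · exact h g hsq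
    · rw [Nat.squarefree_iff_prime_squarefree] at hsq
      push_neg at hsq
      obtain ⟨p, hp, hpp⟩ := hsq
      have hpos : 0 < orderOf g := orderOf_pos g
      have hpd : p ∣ orderOf g := Dvd.dvd.trans (dvd_mul_right p p) hpp
      have ho : orderOf (g ^ p) = orderOf g / p := orderOf_pow_of_dvd hp.ne_zero hpd
      have hlt : orderOf (g ^ p) < n := by
        rw [ho, ← hg]; exact Nat.div_lt_self hpos hp.one_lt
      obtain ⟨ω, hω⟩ := ih _ hlt (g ^ p) rfl
      refine ⟨ω, ?_⟩
      rw [Subgroup.eq_bot_iff_forall] at hω ⊢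
      rintro ⟨x, hx⟩ hxs
      rw [MulAction.mem_stabilizer_iff] at hxs
      have hxω : x • ω = ω := hxs
      have hx' : x ∈ Submonoid.powers g :=
        (IsOfFinOrder.mem_powers_iff_mem_zpowers (isOfFinOrder_of_finite g)).mpr hx
      obtain ⟨k, rfl⟩ := (Submonoid.mem_powers_iff _ _).mp hx'
      -- first: (g^k)^p = 1
      have hmem1 : (g ^ k) ^ p ∈ Subgroup.zpowers (g ^ p) := by
        rw [← pow_mul, mul_comm, pow_mul]
        exact Subgroup.pow_mem _ (Subgroup.mem_zpowers _) _
      have hfix1 : ((g ^ k) ^ p) • ω = ω := by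
        have : ∀ m : ℕ, ((g ^ k) ^ m) • ω = ω := by
          intro m
          induction m with
          | zero => simp
          | succ m ihm => rw [pow_succ, mul_smul, hxω, ihm]
        exact this p
      have h1 := hω ⟨(g ^ k) ^ p, hmem1⟩ (by
        rw [MulAction.mem_stabilizer_iff]; exact hfix1)
      have h1' : (g ^ k) ^ p = 1 := by
        simpa using congrArg Subtype.val h1
      rw [← pow_mul] at h1'
      have hdvd : orderOf g ∣ k * p := orderOf_dvd_of_pow_eq_one h1'
      have hpk : p ∣ k := by
        have h2 : p * p ∣ k * p := hpp.trans hdvd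
        exact Nat.dvd_of_mul_dvd_mul_right hp.pos h2
      obtain ⟨j, rfl⟩ := hpk
      have hmem2 : g ^ (p * j) ∈ Subgroup.zpowers (g ^ p) := by
        rw [pow_mul]
        exact Subgroup.pow_mem _ (Subgroup.mem_zpowers _) _
      have h2 := hω ⟨g ^ (p * j), hmem2⟩ (by
        rw [MulAction.mem_stabilizer_iff]; exact hxω)
      have h2' : g ^ (p * j) = 1 := by
        simpa using congrArg Subtype.val h2
      exact Subtype.ext h2'

/-- Let a finite group G act faithfully on a set Ω. If every element of G of square-free order has a regular cycle (an orbit of the cyclic group it generates with trivial stabilizer), then every element of G has a regular cycle. -/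
theorem result {G : Type*} [Group G] [Finite G] {Ω : Type*} [MulAction G Ω] [FaithfulSMul G Ω]
    (h : ∀ g : G, Squarefree (orderOf g) → ∃ ω : Ω, MulAction.stabilizer (Subgroup.zpowers g) ω = ⊥) (g : G) :
    ∃ ω : Ω, MulAction.stabilizer (Subgroup.zpowers g) ω = ⊥ := by
  exact aux h (orderOf g) g rfl

end Cfsg.Agent.S3511
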