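import Mathlib
import Cfsg.Statements.S3515

set_option autoImplicit false
open Cfsg

namespace Cfsg.Agent.S3515

theorem affine_line {p : ℕ} {n : ℕ} (h : Equiv.Perm (Fin n → ZMod p))
    (haff : ∃ (A : (Fin n → ZMod p) ≃ₗ[ZMod p] (Fin n → ZMod p)) (b : Fin n → ZMod p),
      ∀ x, h x = A x + b)
    (P Q : Fin n → ZMod p) (s : ZMod p) :
    h (P + s • (Q - P)) = h P + s • (h Q - h P) := by
  obtain ⟨A, b, hA⟩ := haff
  rw [hA, hA, hA, map_add, map_smul, map_sub]
  have : A Q + b - (A P + b) = A Q - A P := by abel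
  rw [this]; abel

theorem cases2 : ∀ y : Fin 2 → ZMod 2, y = 0 ∨ y = ![1, 0] ∨ y = ![0, 1] ∨ y = ![1, 1] := by
  decide

theorem ne0 : (0 : Fin 2 → ZMod 2) ≠ ![1, 1] := by decide

theorem ne1 : (![1, 0] : Fin 2 → ZMod 2) ≠ ![1, 1] := by decide

theorem ne2 : (![0, 1] : Fin 2 → ZMod 2) ≠ ![1, 1] := by decide

/-- Every primitive affine permutation group of degree p² is 3-closed. Let p be a prime and G a group of permutations of the plane V = F_p² consisting of affine maps x ↦ Ax + b, containing all translations, and acting primitively on V. Then any permutation σ of V that agrees on every triple of points with some element of G (σ preserves every G-orbit on ordered triples) already lies in G. -/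
theorem result (p : ℕ) [Fact p.Prime] (G : Subgroup (Equiv.Perm (Fin 2 → ZMod p)))
    (haff : (G : Set (Equiv.Perm (Fin 2 → ZMod p))) ⊆ {τ : Equiv.Perm (Fin 2 → ZMod p) | ∃ (A : (Fin 2 → ZMod p) ≃ₗ[ZMod p] (Fin 2 → ZMod p)) (b : Fin 2 → ZMod p), ∀ x, τ x = A x + b})
    (htrans : ∀ b : Fin 2 → ZMod p, ∃ g ∈ G, ∀ x, g x = x + b) (hprim : MulAction.IsPreprimitive G (Fin 2 → ZMod p))
    (σ : Equiv.Perm (Fin 2 → ZMod p)) (hσ : (∀ t : Fin 3 → (Fin 2 → ZMod p), ∃ g ∈ G, ∀ i, σ (t i) = g (t i))) : σ ∈ G := by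
  obtain ⟨g, hg, hgσ⟩ := hσ ![0, ![1, 0], ![0, 1]]
  have h0 : σ 0 = g 0 := hgσ 0
  have h1 : σ ![1, 0] = g ![1, 0] := hgσ 1
  have h2 : σ ![0, 1] = g ![0, 1] := hgσ 2
  have hgaff := haff hg
  -- line closure
  have LC : ∀ P Q : Fin 2 → ZMod p, σ P = g P → σ Q = g Q → ∀ s : ZMod p,
      σ (P + s • (Q - P)) = g (P + s • (Q - P)) := by
    intro P Q hP hQ s
    obtain ⟨h, hh, hhσ⟩ := hσ ![P, Q, P + s • (Q - P)]
    have e0 : σ P = h P := hhσ 0
    have e1 : σ Q = h Q := hhσ 1
    have e2 : σ (P + s • (Q - P)) = h (P + s • (Q - P)) := hhσ 2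
    rw [e2, affine_line h (haff hh), affine_line g hgaff, ← e0, ← e1, hP, hQ]
  have hall : ∀ x, σ x = g x := by
    by_cases hp2 : p = 2
    · subst hp2
      have hcases : ∀ y : Fin 2 → ZMod 2, y = 0 ∨ y = ![1, 0] ∨ y = ![0, 1] ∨ y = ![1, 1] :=
        cases2
      intro x
      rcases hcases x with rfl | rfl | rfl | rfl
      · exact h0
      · exact h1
      · exact h2
      · by_contra hne
        have hgs : g (g.symm (σ ![1, 1])) = σ ![1, 1] := g.apply_symm_apply _
        rcases hcases (g.symm (σ ![1, 1])) with hy | hy | hy | hy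
        · rw [hy] at hgs
          exact absurd (σ.injective (h0.trans hgs)) ne0
        · rw [hy] at hgs
          exact absurd (σ.injective (h1.trans hgs)) ne1
        · rw [hy] at hgs
          exact absurd (σ.injective (h2.trans hgs)) ne2
        · rw [hy] at hgs
          exact hne hgs.symm
    · have h2ne : (2 : ZMod p) ≠ 0 := by
        intro h
        have : (p : ℕ) ∣ 2 := (ZMod.natCast_eq_zero_iff 2 p).mp (by exact_mod_cast h)
        exact hp2 ((Nat.prime_dvd_prime_iff_eq (Fact.out) Nat.prime_two).mp this)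
      have hx1 : ∀ a : ZMod p, σ ![a, 0] = g ![a, 0] := by
        intro a
        have := LC 0 ![1, 0] h0 h1 a
        have e : (0 : Fin 2 → ZMod p) + a • (![1, 0] - 0) = ![a, 0] := by
          ext i; fin_cases i <;> simp
        rwa [e] at this
      have hx2 : ∀ b : ZMod p, σ ![0, b] = g ![0, b] := by
        intro b
        have := LC 0 ![0, 1] h0 h2 b
        have e : (0 : Fin 2 → ZMod p) + b • (![0, 1] - 0) = ![0, b] := by
          ext i; fin_cases i <;> simp
        rwa [e] at this
      intro x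
      have := LC ![2 * x 0, 0] ![0, 2 * x 1] (hx1 _) (hx2 _) (2⁻¹)
      have e : ![2 * x 0, 0] + (2⁻¹ : ZMod p) • (![0, 2 * x 1] - ![2 * x 0, 0]) = x := by
        ext i
        fin_cases i
        · simp
          field_simp
          ring
        · simp
          field_simp
      rwa [e] at this
  have : σ = g := Equiv.ext hall
  rw [this]; exact hg

end Cfsg.Agent.S3515
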