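import Mathlib
import Cfsg.Statements.S3516

set_option autoImplicit false
open Cfsg

namespace Cfsg.Agent.S3516

open Matrix

theorem affine_line {p : ℕ} {n : ℕ} (h : Equiv.Perm (Fin n → ZMod p))
    (haff : ∃ (A : (Fin n → ZMod p) ≃ₗ[ZMod p] (Fin n → ZMod p)) (b : Fin n → ZMod p),
      ∀ x, h x = A x + b)
    (P Q : Fin n → ZMod p) (s : ZMod p) :
    h (P + s • (Q - P)) = h P + s • (h Q - h P) := by
  obtain ⟨A, b, hA⟩ := haff
  rw [hA, hA, hA, map_add, map_smul, map_sub]
  have : A Q + b - (A P + b) = A Q - A P := by abel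
  rw [this]; abel

theorem exists_orth {K : Type*} [Field K] {d : ℕ} (hd : 3 ≤ d) (u1 u2 : Fin d → K) :
    ∃ w : Fin d → K, w ≠ 0 ∧ u1 ⬝ᵥ w = 0 ∧ u2 ⬝ᵥ w = 0 := by
  let M : Matrix (Fin d) (Fin d) K :=
    fun i j => if i.val = 0 then u1 j else if i.val = 1 then u2 j else 0
  have hdet : M.det = 0 :=
    Matrix.det_eq_zero_of_row_eq_zero ⟨2, by omega⟩ (by intro j; simp [M])
  obtain ⟨w, hw, hMw⟩ := Matrix.exists_mulVec_eq_zero_iff.mpr hdet
  refine ⟨w, hw, ?_, ?_⟩
  · have := congrFun hMw ⟨0, by omega⟩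
    simpa [M, Matrix.mulVec, dotProduct] using this
  · have := congrFun hMw ⟨1, by omega⟩
    simpa [M, Matrix.mulVec, dotProduct] using this

theorem exists_dilation {K : Type*} [Field K] {d : ℕ} (w : Fin d → K) (hw : w ≠ 0) (c : K) :
    ∃ D : Matrix (Fin d) (Fin d) K, D.det = c ∧ ∀ u : Fin d → K, u ⬝ᵥ w = 0 → D *ᵥ u = u := by
  obtain ⟨k, hk⟩ : ∃ k, w k ≠ 0 := by
    by_contra h
    push Not at h
    exact hw (funext h)
  let v : Fin d → K := Pi.single k ((c - 1) * (w k)⁻¹)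
  refine ⟨1 + Matrix.vecMulVec v w, ?_, ?_⟩
  · rw [Matrix.vecMulVec_eq Unit, Matrix.det_one_add_replicateCol_mul_replicateRow]
    simp only [v, dotProduct_single]
    field_simp
    ring
  · intro u hu
    rw [Matrix.add_mulVec, Matrix.one_mulVec, Matrix.vecMulVec_mulVec]
    rw [dotProduct_comm] at hu
    simp [hu]

/-- Let p be an odd prime, d ≥ 3, and G a group of affine permutations x ↦ Ax + b of V = F_p^d containing all translations and all maps x ↦ Ax with A of determinant 1. Then the 3-closure of G is the full affine group: a permutation σ of V agrees on every triple of points with some element of G if and only if σ is an affine map. -/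
theorem result (p : ℕ) [Fact p.Prime] (hp : p ≠ 2) (d : ℕ) (hd : 3 ≤ d) (G : Subgroup (Equiv.Perm (Fin d → ZMod p)))
    (haff : (G : Set (Equiv.Perm (Fin d → ZMod p))) ⊆ {τ : Equiv.Perm (Fin d → ZMod p) | ∃ (A : (Fin d → ZMod p) ≃ₗ[ZMod p] (Fin d → ZMod p)) (b : Fin d → ZMod p), ∀ x, τ x = A x + b})
    (htrans : ∀ b : Fin d → ZMod p, ∃ g ∈ G, ∀ x, g x = x + b)
    (hsl : ∀ A : (Fin d → ZMod p) ≃ₗ[ZMod p] (Fin d → ZMod p), LinearMap.det (A : (Fin d → ZMod p) →ₗ[ZMod p] (Fin d → ZMod p)) = 1 → ∃ g ∈ G, ∀ x, g x = A x)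
    (σ : Equiv.Perm (Fin d → ZMod p)) :
    (∀ t : Fin 3 → (Fin d → ZMod p), ∃ g ∈ G, ∀ i, σ (t i) = g (t i)) ↔ σ ∈ {τ : Equiv.Perm (Fin d → ZMod p) | ∃ (A : (Fin d → ZMod p) ≃ₗ[ZMod p] (Fin d → ZMod p)) (b : Fin d → ZMod p), ∀ x, τ x = A x + b} := by
  constructor
  · intro hσ
    have h2ne : (2 : ZMod p) ≠ 0 := by
      intro h
      have : (p : ℕ) ∣ 2 := (ZMod.natCast_eq_zero_iff 2 p).mp (by exact_mod_cast h)
      exact hp ((Nat.prime_dvd_prime_iff_eq (Fact.out) Nat.prime_two).mp this)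
    have LCσ : ∀ (P Q : Fin d → ZMod p) (s : ZMod p),
        σ (P + s • (Q - P)) = σ P + s • (σ Q - σ P) := by
      intro P Q s
      obtain ⟨h, hh, hhσ⟩ := hσ ![P, Q, P + s • (Q - P)]
      have e0 : σ P = h P := hhσ 0
      have e1 : σ Q = h Q := hhσ 1
      have e2 : σ (P + s • (Q - P)) = h (P + s • (Q - P)) := hhσ 2
      rw [e2, affine_line h (haff hh), ← e0, ← e1]
    have hom : ∀ (s : ZMod p) (Q : Fin d → ZMod p), σ (s • Q) = σ 0 + s • (σ Q - σ 0) := by
      intro s Q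
      have := LCσ 0 Q s
      rw [zero_add, sub_zero] at this
      exact this
    have key : ∀ X Y : Fin d → ZMod p,
        (2⁻¹ : ZMod p) • ((2 : ZMod p) • X - (2 : ZMod p) • Y) = X - Y := by
      intro X Y
      rw [← smul_sub, smul_smul, inv_mul_cancel₀ h2ne, one_smul]
    have add : ∀ P Q : Fin d → ZMod p, σ (P + Q) - σ 0 = (σ P - σ 0) + (σ Q - σ 0) := by
      intro P Q
      have e : P + Q = (2 : ZMod p) • P + (2⁻¹ : ZMod p) • ((2 : ZMod p) • Q - (2 : ZMod p) • P) := by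
        rw [key, two_smul]; abel
      have h1 := LCσ ((2 : ZMod p) • P) ((2 : ZMod p) • Q) 2⁻¹
      rw [← e, hom, hom] at h1
      have e' : σ 0 + (2 : ZMod p) • (σ Q - σ 0) - (σ 0 + (2 : ZMod p) • (σ P - σ 0)) =
          (2 : ZMod p) • (σ Q - σ 0) - (2 : ZMod p) • (σ P - σ 0) := by abel
      rw [e', key, two_smul] at h1
      rw [h1]; abel
    let f : (Fin d → ZMod p) →ₗ[ZMod p] (Fin d → ZMod p) :=
      { toFun := fun x => σ x - σ 0
        map_add' := add
        map_smul' := by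
          intro s x
          simp only [RingHom.id_apply]
          rw [hom]; abel }
    have hbij : Function.Bijective f := by
      constructor
      · intro x y hxy
        have : σ x - σ 0 = σ y - σ 0 := hxy
        exact σ.injective (sub_left_injective this)
      · intro y
        refine ⟨σ.symm (y + σ 0), ?_⟩
        show σ (σ.symm (y + σ 0)) - σ 0 = y
        simp
    refine ⟨LinearEquiv.ofBijective f hbij, σ 0, fun x => ?_⟩
    show σ x = (σ x - σ 0) + σ 0
    abel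
  · rintro ⟨A, b, hA⟩ t
    obtain ⟨w, hw, hw1, hw2⟩ := exists_orth hd (t 1 - t 0) (t 2 - t 0)
    have hdetA : LinearMap.det (A : (Fin d → ZMod p) →ₗ[ZMod p] (Fin d → ZMod p)) ≠ 0 :=
      A.isUnit_det'.ne_zero
    obtain ⟨D, hDdet, hD⟩ := exists_dilation w hw
      (LinearMap.det (A : (Fin d → ZMod p) →ₗ[ZMod p] (Fin d → ZMod p)))⁻¹
    let f : (Fin d → ZMod p) →ₗ[ZMod p] (Fin d → ZMod p) :=
      (A : (Fin d → ZMod p) →ₗ[ZMod p] (Fin d → ZMod p)) ∘ₗ Matrix.toLin' D
    have hfdet : LinearMap.det f = 1 := by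
      rw [LinearMap.det_comp, LinearMap.det_toLin', hDdet, mul_inv_cancel₀ hdetA]
    have hfu : IsUnit (LinearMap.det f) := by rw [hfdet]; exact isUnit_one
    let A' := LinearMap.equivOfIsUnitDet hfu
    have hA'apply : ∀ x, A' x = A (D *ᵥ x) := by
      intro x
      have h := LinearMap.equivOfIsUnitDet_apply hfu x
      show LinearMap.equivOfIsUnitDet hfu x = A (D *ᵥ x)
      rw [h]
      simp [f]
    obtain ⟨g1, hg1, hg1x⟩ := hsl A' (by rw [LinearMap.coe_equivOfIsUnitDet]; exact hfdet)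
    obtain ⟨g2, hg2, hg2x⟩ := htrans (σ (t 0) - A' (t 0))
    refine ⟨g2 * g1, G.mul_mem hg2 hg1, ?_⟩
    have hfix : ∀ i, A' (t i - t 0) = A (t i - t 0) := by
      intro i
      rw [hA'apply, hD]
      fin_cases i
      · simp
      · exact hw1
      · exact hw2
    intro i
    rw [Equiv.Perm.mul_apply, hg2x, hg1x]
    simp only [hA]
    have := hfix i
    rw [map_sub, map_sub] at this
    linear_combination -this

end Cfsg.Agent.S3516
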