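import Mathlib
import Cfsg.Statements.S3517

set_option autoImplicit false
open Cfsg

namespace Cfsg.Agent.S3517

/-- two linearly independent families with the same finite index type are related by a linear
automorphism -/
theorem exists_linearEquiv_of_li {K V ι : Type*} [Field K] [AddCommGroup V] [Module K V] [Finite ι]
    (u w : ι → V) (hu : LinearIndependent K u) (hw : LinearIndependent K w) :
    ∃ g : V ≃ₗ[K] V, ∀ i, g (u i) = w i := by
  let f := hu.linearCombinationEquiv.symm ≪≫ₗ hw.linearCombinationEquiv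
  haveI : FiniteDimensional K (Submodule.span K (Set.range u)) :=
    FiniteDimensional.span_of_finite K (Set.finite_range _)
  obtain ⟨g, hg⟩ := Submodule.exists_linearEquiv_restrict_eq f
  refine ⟨g, fun i => ?_⟩
  have h1 : (hu.linearCombinationEquiv (Finsupp.single i 1) : V) = u i := by simp
  have h2 : (hw.linearCombinationEquiv (Finsupp.single i 1) : V) = w i := by simp
  have h3 := hg (hu.linearCombinationEquiv (Finsupp.single i 1))
  rw [h1] at h3
  rw [← h3, ← h2]
  simp [f]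

theorem exists_single {K V : Type*} [Field K] [AddCommGroup V] [Module K V] (u w : V)
    (hu : u ≠ 0) (hw : w ≠ 0) : ∃ g : V ≃ₗ[K] V, g u = w := by
  obtain ⟨g, hg⟩ := exists_linearEquiv_of_li (K := K) (fun _ : Unit => u) (fun _ : Unit => w)
    (linearIndependent_unique_iff.mpr hu) (linearIndependent_unique_iff.mpr hw)
  exact ⟨g, hg ()⟩

theorem li_pair {V : Type*} [AddCommGroup V] [Module (ZMod 2) V] (x y : V) (hx : x ≠ 0)
    (hy : y ≠ 0) (hxy : x ≠ y) : LinearIndependent (ZMod 2) ![x, y] := by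
  rw [LinearIndependent.pair_iff' hx]
  intro a
  have h2 : ∀ a : ZMod 2, a = 0 ∨ a = 1 := by decide
  rcases h2 a with rfl | rfl
  · rw [zero_smul]; exact fun h => hy h.symm
  · rw [one_smul]; exact hxy

/-- For d ≥ 3, the 3-closure of the affine group AGL_d(2) acting on F_2^d is the full symmetric group: every permutation of F_2^d agrees on every ordered triple of points with some affine map (AGL_d(2) is 3-transitive). -/
theorem result (d : ℕ) (hd : 3 ≤ d) (σ : Equiv.Perm (Fin d → ZMod 2)) (t : Fin 3 → (Fin d → ZMod 2)) :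
    ∃ (A : (Fin d → ZMod 2) ≃ₗ[ZMod 2] (Fin d → ZMod 2)) (b : Fin d → ZMod 2), ∀ i, σ (t i) = A (t i) + b := by
  have e1 : t 1 - t 0 = 0 ↔ σ (t 1) - σ (t 0) = 0 := by
    rw [sub_eq_zero, sub_eq_zero, σ.injective.eq_iff]
  have e2 : t 2 - t 0 = 0 ↔ σ (t 2) - σ (t 0) = 0 := by
    rw [sub_eq_zero, sub_eq_zero, σ.injective.eq_iff]
  have e3 : t 1 - t 0 = t 2 - t 0 ↔ σ (t 1) - σ (t 0) = σ (t 2) - σ (t 0) := by
    rw [sub_left_inj, sub_left_inj, σ.injective.eq_iff]
  have hA : ∃ A : (Fin d → ZMod 2) ≃ₗ[ZMod 2] (Fin d → ZMod 2),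
      A (t 1 - t 0) = σ (t 1) - σ (t 0) ∧ A (t 2 - t 0) = σ (t 2) - σ (t 0) := by
    by_cases h1 : t 1 - t 0 = 0
    · have h1' := e1.mp h1
      by_cases h2 : t 2 - t 0 = 0
      · have h2' := e2.mp h2
        exact ⟨LinearEquiv.refl _ _, by rw [h1, h1']; simp, by rw [h2, h2']; simp⟩
      · have h2' : σ (t 2) - σ (t 0) ≠ 0 := fun h => h2 (e2.mpr h)
        obtain ⟨A, hA⟩ := exists_single (K := ZMod 2) _ _ h2 h2'
        exact ⟨A, by rw [h1, h1', map_zero], hA⟩
    · have h1' : σ (t 1) - σ (t 0) ≠ 0 := fun h => h1 (e1.mpr h)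
      by_cases h2 : t 2 - t 0 = 0
      · have h2' := e2.mp h2
        obtain ⟨A, hA⟩ := exists_single (K := ZMod 2) _ _ h1 h1'
        exact ⟨A, hA, by rw [h2, h2', map_zero]⟩
      · have h2' : σ (t 2) - σ (t 0) ≠ 0 := fun h => h2 (e2.mpr h)
        by_cases h3 : t 1 - t 0 = t 2 - t 0
        · have h3' := e3.mp h3
          obtain ⟨A, hA⟩ := exists_single (K := ZMod 2) _ _ h1 h1'
          exact ⟨A, hA, by rw [← h3, ← h3']; exact hA⟩
        · have h3' : σ (t 1) - σ (t 0) ≠ σ (t 2) - σ (t 0) := fun h => h3 (e3.mpr h)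
          obtain ⟨A, hA⟩ := exists_linearEquiv_of_li (K := ZMod 2) ![t 1 - t 0, t 2 - t 0]
            ![σ (t 1) - σ (t 0), σ (t 2) - σ (t 0)] (li_pair _ _ h1 h2 h3) (li_pair _ _ h1' h2' h3')
          exact ⟨A, hA 0, hA 1⟩
  obtain ⟨A, hA1, hA2⟩ := hA
  refine ⟨A, σ (t 0) - A (t 0), ?_⟩
  rw [map_sub] at hA1 hA2
  intro i
  fin_cases i
  · show σ (t 0) = A (t 0) + (σ (t 0) - A (t 0))
    abel
  · show σ (t 1) = A (t 1) + (σ (t 0) - A (t 0))
    linear_combination -hA1
  · show σ (t 2) = A (t 2) + (σ (t 0) - A (t 0))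
    linear_combination -hA2

end Cfsg.Agent.S3517
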