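import Cfsg.Statements.S3524
-- import your own Cfsg.Agent.* helpers here

set_option autoImplicit false
open Cfsg

namespace Cfsg.Agent.S3524

/-- A permutation group with a base is closed at one level above the base size. Let G be a group of permutations of a set Ω and suppose some k points α₁, …, α_k are fixed simultaneously only by the identity of G (a base of size k). Then G is (k+1)-closed: a permutation of Ω that agrees on every (k+1)-tuple of points with some element of G belongs to G. -/
theorem result {Ω : Type*} (G : Subgroup (Equiv.Perm Ω)) (k : ℕ) (α : Fin k → Ω)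
    (hbase : ∀ g ∈ G, (∀ i, g (α i) = α i) → g = 1) (σ : Equiv.Perm Ω)
    (hσ : ∀ t : Fin (k + 1) → Ω, ∃ g ∈ G, ∀ i, σ (t i) = g (t i)) : σ ∈ G := by
  classical
  choose g hgG hg using fun x : Ω => hσ (Fin.snoc α x)
  have key : ∀ x y, g x = g y := by
    intro x y
    have h1 : ∀ i : Fin k, g x (α i) = g y (α i) := by
      intro i
      have hx := hg x (Fin.castSucc i)
      have hy := hg y (Fin.castSucc i)
      simp only [Fin.snoc_castSucc] at hx hy
      rw [← hx, ← hy]
    have h2 : (g y)⁻¹ * g x = 1 := by
      apply hbase _ (G.mul_mem (G.inv_mem (hgG y)) (hgG x))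
      intro i
      simp [h1 i]
    exact (inv_mul_eq_one.mp h2).symm
  have hval : ∀ x, σ x = g x x := by
    intro x
    have h3 := hg x (Fin.last k)
    simpa using h3
  by_cases hne : Nonempty Ω
  · obtain ⟨x₀⟩ := hne
    have h4 : σ = g x₀ := by
      ext x
      rw [hval x, key x x₀]
    rw [h4]; exact hgG x₀
  · have h5 : IsEmpty Ω := not_nonempty_iff.mp hne
    have h6 : σ = 1 := Subsingleton.elim _ _
    rw [h6]; exact G.one_mem

end Cfsg.Agent.S3524
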