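import Cfsg.Statements.S3547
import Mathlib
import Cfsg.Agent.Helper18.Derange
-- import your own Cfsg.Agent.* helpers here

set_option autoImplicit false
open Cfsg

namespace Cfsg.Agent.S3547

/-- Let G act faithfully and transitively on a finite set Ω, let D be the subgroup generated by the derangements, and let r_G and r_D be the numbers of orbits of G and of D on ordered pairs of points (the permutation ranks). Then r_D − 1 = (r_G − 1)·[G : D]. -/
theorem result {G Ω : Type*} [Group G] [Finite G] [MulAction G Ω] [FaithfulSMul G Ω] [Finite Ω]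
    (htrans : MulAction.IsPretransitive G Ω) :
    Nat.card (MulAction.orbitRel.Quotient ↥(Subgroup.closure {g : G | ∀ ω : Ω, g • ω ≠ ω}) (Ω × Ω)) - 1 =
      (Nat.card (MulAction.orbitRel.Quotient G (Ω × Ω)) - 1) * (Subgroup.closure {g : G | ∀ ω : Ω, g • ω ≠ ω}).index := by
  classical
  rcases isEmpty_or_nonempty Ω with hΩ | hΩ
  · have h1 : Nat.card (MulAction.orbitRel.Quotient
        ↥(Subgroup.closure {g : G | ∀ ω : Ω, g • ω ≠ ω}) (Ω × Ω)) = 0 := by
      have : IsEmpty (MulAction.orbitRel.Quotient
        ↥(Subgroup.closure {g : G | ∀ ω : Ω, g • ω ≠ ω}) (Ω × Ω)) :=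
        ⟨fun q => Quotient.inductionOn' q (fun x => isEmptyElim x.1)⟩
      exact Nat.card_of_isEmpty
    have h2 : Nat.card (MulAction.orbitRel.Quotient G (Ω × Ω)) = 0 := by
      have : IsEmpty (MulAction.orbitRel.Quotient G (Ω × Ω)) :=
        ⟨fun q => Quotient.inductionOn' q (fun x => isEmptyElim x.1)⟩
      exact Nat.card_of_isEmpty
    rw [h1, h2]
    simp
  · set D := Subgroup.closure {g : G | ∀ ω : Ω, g • ω ≠ ω} with hD
    obtain ⟨-, h2⟩ := Cfsg.Agent.Helper18.derange_key htrans D
      (fun g hg => Subgroup.subset_closure hg)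
    letI : Fintype G := Fintype.ofFinite G
    have hG := Cfsg.Agent.Helper18.burnside_nat G (Ω × Ω)
    have hDb := Cfsg.Agent.Helper18.burnside_nat D (Ω × Ω)
    have hsplit := Fintype.sum_subtype_add_sum_subtype (fun g : G => g ∈ D)
      (fun g : G => Nat.card (MulAction.fixedBy (Ω × Ω) g))
    have hsplit1 := Fintype.sum_subtype_add_sum_subtype (fun g : G => g ∈ D) (fun _ : G => (1 : ℕ))
    have hout : ∑ g : {g : G // g ∉ D}, Nat.card (MulAction.fixedBy (Ω × Ω) (g : G))
        = ∑ _g : {g : G // g ∉ D}, (1 : ℕ) := by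
      apply Finset.sum_congr rfl
      intro g _
      rw [Cfsg.Agent.Helper18.card_fixedBy_prod, h2 g g.2]
      norm_num
    have hDsum : ∑ g : {g : G // g ∈ D}, Nat.card (MulAction.fixedBy (Ω × Ω) (g : G))
        = Nat.card (MulAction.orbitRel.Quotient D (Ω × Ω)) * Nat.card D := hDb
    have hcardG : ∑ _g : G, (1 : ℕ) = Nat.card G := by
      simp [Nat.card_eq_fintype_card]
    have hcardD : ∑ _g : {g : G // g ∈ D}, (1 : ℕ) = Nat.card D := by
      simp [Nat.card_eq_fintype_card]
    have hidx : Nat.card D * D.index = Nat.card G := Subgroup.card_mul_index D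
    have hDpos : 0 < Nat.card D := Nat.card_pos
    have hrG : 1 ≤ Nat.card (MulAction.orbitRel.Quotient G (Ω × Ω)) := by
      have : Nonempty (MulAction.orbitRel.Quotient G (Ω × Ω)) :=
        (nonempty_quotient_iff _).mpr inferInstance
      exact Nat.card_pos
    set rG := Nat.card (MulAction.orbitRel.Quotient G (Ω × Ω)) with hrGdef
    set rD := Nat.card (MulAction.orbitRel.Quotient D (Ω × Ω)) with hrDdef
    set c := ∑ _g : {g : G // g ∉ D}, (1 : ℕ) with hc
    set i := D.index with hi
    set d := Nat.card D with hd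
    have e1 : rD * d + c = rG * (d * i) := by
      rw [hidx, ← hG, ← hDsum, ← hout]; exact hsplit
    have e2 : d + c = d * i := by
      rw [hidx, ← hcardD, ← hcardG]; exact hsplit1
    have e3 : d * (rG * i + 1) = d * (rD + i) := by
      have : rG * (d * i) + d = rD * d + d * i := by omega
      calc d * (rG * i + 1) = rG * (d * i) + d := by ring
        _ = rD * d + d * i := this
        _ = d * (rD + i) := by ring
    have e4 : rG * i + 1 = rD + i := Nat.eq_of_mul_eq_mul_left hDpos e3
    obtain ⟨r', hr'⟩ : ∃ r', rG = r' + 1 := ⟨rG - 1, by omega⟩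
    rw [hr'] at e4 ⊢
    have e5 : r' * i + 1 = rD := by
      have : (r' + 1) * i = r' * i + i := by ring
      omega
    rw [← e5]
    simp

end Cfsg.Agent.S3547
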