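import Cfsg.Statements.S3549
import Cfsg.Agent.Helper18.Derange
-- import your own Cfsg.Agent.* helpers here

set_option autoImplicit false
open Cfsg

namespace Cfsg.Agent.S3549

theorem arith (i b m n : ℕ) (hb : 2 ≤ b) (hm : 2 ≤ m) (h3 : b * m = n) (h1 : i ∣ b - 1)
    (h2 : i ∣ n - 1) : (i + 1) ^ 2 ≤ n := by
  have h4 : i ∣ m - 1 := by
    have h5 : n - 1 = (b - 1) * m + (m - 1) := by
      rw [← h3]
      obtain ⟨b', rfl⟩ : ∃ b', b = b' + 1 := ⟨b - 1, by omega⟩
      obtain ⟨m', rfl⟩ : ∃ m', m = m' + 1 := ⟨m - 1, by omega⟩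
      simp only [Nat.add_sub_cancel]
      have : (b' + 1) * (m' + 1) = b' * (m' + 1) + m' + 1 := by ring
      omega
    rw [h5] at h2
    exact (Nat.dvd_add_right (Dvd.dvd.mul_right h1 m)).mp h2
  have h6 : i ≤ b - 1 := Nat.le_of_dvd (by omega) h1
  have h7 : i ≤ m - 1 := Nat.le_of_dvd (by omega) h4
  rw [← h3, pow_two]
  exact Nat.mul_le_mul (by omega) (by omega)


open MulAction Cfsg.Agent.Helper18 Pointwise in
theorem aux {G Ω : Type*} [Group G] [Finite G] [MulAction G Ω] [Finite Ω]
    (htrans : MulAction.IsPretransitive G Ω) (himp : ¬ MulAction.IsPreprimitive G Ω) :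
    ((derSub G Ω).index + 1) ^ 2 ≤ Nat.card Ω := by
  classical
  obtain ⟨B, hB, hBnt⟩ : ∃ B : Set Ω, MulAction.IsBlock G B ∧ ¬ MulAction.IsTrivialBlock B := by
    by_contra hcon
    push Not at hcon
    exact himp { toIsPretransitive := htrans, isTrivialBlock_of_isBlock := fun {B} hB => hcon B hB }
  unfold MulAction.IsTrivialBlock at hBnt
  push Not at hBnt
  obtain ⟨hBns, hBu⟩ := hBnt
  obtain ⟨a, ha, b, hb, hab⟩ := hBns
  let S : SubMulAction (stabilizer G a) Ω :=
    { carrier := B \ {a}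
      smul_mem' := by
        intro c x hx
        have hca : (c : G) • a = a := mem_stabilizer_iff.mp c.2
        have hcB : (c : G) • B = B := hB.smul_eq_of_mem ha (by rw [hca]; exact ha)
        refine ⟨?_, ?_⟩
        · have h1 : (c : G) • x ∈ (c : G) • B := Set.smul_mem_smul_set hx.1
          rw [hcB] at h1
          exact h1
        · intro h2
          have h3 : (c : G) • x = (c : G) • a := by rw [hca]; exact h2
          exact hx.2 (smul_left_cancel _ h3) }
  have haS : a ∉ S := fun h => h.2 rfl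
  have h1 := derSub_index_dvd_card htrans a S haS
  have hcS : Nat.card S = B.ncard - 1 := by
    show Nat.card (B \ {a} : Set Ω) = _
    rw [Nat.card_coe_set_eq, Set.ncard_sdiff_singleton_of_mem ha]
  rw [hcS] at h1
  have h2 := derSub_index_dvd_card_sub_one htrans a
  have h3 := hB.ncard_block_mul_ncard_orbit_eq ⟨a, ha⟩
  have hb2 : 2 ≤ B.ncard := by
    have : 1 < B.ncard := (Set.one_lt_ncard_iff_nontrivial).mpr ⟨a, ha, b, hb, hab⟩
    omega
  have hn0 : 0 < Nat.card Ω := Nat.card_pos_iff.mpr ⟨⟨a⟩, inferInstance⟩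
  have hm2 : 2 ≤ (orbit G B).ncard := by
    by_contra hcon
    have hm : (orbit G B).ncard = 0 ∨ (orbit G B).ncard = 1 := by omega
    rcases hm with hm | hm
    · rw [hm, mul_zero] at h3; omega
    · rw [hm, mul_one] at h3
      exact hBu ((Set.eq_univ_iff_ncard B).mpr h3)
  exact arith _ _ _ _ hb2 hm2 h3 h1 h2

/-- Let G act faithfully, transitively but imprimitively on a finite set with n points, and let D be the subgroup generated by the derangements. Then the index of D in G is at most √n − 1. -/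
theorem result {G Ω : Type*} [Group G] [Finite G] [MulAction G Ω] [FaithfulSMul G Ω] [Finite Ω]
    (htrans : MulAction.IsPretransitive G Ω) (himp : ¬ MulAction.IsPreprimitive G Ω) :
    ((Subgroup.closure {g : G | ∀ ω : Ω, g • ω ≠ ω}).index : ℝ) ≤ Real.sqrt (Nat.card Ω) - 1 := by
  have h := aux htrans himp
  have h1 : (((Cfsg.Agent.Helper18.derSub G Ω).index : ℝ) + 1) ^ 2 ≤ (Nat.card Ω : ℝ) := by
    exact_mod_cast h
  have h2 := Real.le_sqrt_of_sq_le h1
  show ((Cfsg.Agent.Helper18.derSub G Ω).index : ℝ) ≤ _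
  linarith

end Cfsg.Agent.S3549
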