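import Cfsg.Statements.S3560
import Mathlib
import Cfsg.Agent.Helper18.PermTransport
-- import your own Cfsg.Agent.* helpers here

set_option autoImplicit false
open Cfsg

namespace Cfsg.Agent.S3560

open scoped Pointwise

/-- group of Hamming isometries of a product -/
def hamIso {ι : Type*} [Fintype ι] (F : ι → Type*) [∀ i, DecidableEq (F i)] :
    Subgroup (Equiv.Perm (∀ i, F i)) where
  carrier := {σ | ∀ x y, hammingDist (σ x) (σ y) = hammingDist x y}
  one_mem' := fun x y => rfl
  mul_mem' := by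
    intro a b ha hb x y
    show hammingDist (a (b x)) (a (b y)) = hammingDist x y
    rw [ha, hb]
  inv_mem' := by
    intro a ha x y
    have := ha (a.symm x) (a.symm y)
    rw [Equiv.apply_symm_apply, Equiv.apply_symm_apply] at this
    exact this.symm

theorem mem_hamIso {ι : Type*} [Fintype ι] {F : ι → Type*} [∀ i, DecidableEq (F i)]
    (σ : Equiv.Perm (∀ i, F i)) :
    σ ∈ hamIso F ↔ ∀ x y, hammingDist (σ x) (σ y) = hammingDist x y := Iff.rfl

theorem iso_mem {ι : Type*} [Fintype ι] {F : ι → Type*} [∀ i, DecidableEq (F i)]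
    [Finite (∀ i, F i)]
    (σ : (∀ i, F i) → (∀ i, F i)) (hσ : ∀ x y, hammingDist (σ x) (σ y) = hammingDist x y) :
    ∃ g ∈ hamIso F, ∀ x, g x = σ x := by
  have hinj : Function.Injective σ := by
    intro x y hxy
    have := hσ x y
    rw [hxy, hammingDist_self] at this
    exact hammingDist_eq_zero.1 this.symm
  refine ⟨Equiv.ofBijective σ (Finite.injective_iff_bijective.1 hinj), ?_, fun x => rfl⟩
  intro x y
  exact hσ x y

theorem block_closed {ι : Type*} [Fintype ι] {F : ι → Type*} [∀ i, DecidableEq (F i)]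
    [Finite (∀ i, F i)]
    {B : Set (∀ i, F i)} (hB : MulAction.IsBlock (hamIso F) B)
    (σ : (∀ i, F i) → (∀ i, F i)) (hσ : ∀ x y, hammingDist (σ x) (σ y) = hammingDist x y)
    (a : ∀ i, F i) (ha : a ∈ B) (hσa : σ a ∈ B) (x : ∀ i, F i) (hx : x ∈ B) : σ x ∈ B := by
  obtain ⟨g, hg, hgσ⟩ := iso_mem σ hσ
  have h1 : (⟨g, hg⟩ : hamIso F) • B = B := by
    apply hB.smul_eq_of_mem ha
    show g a ∈ B
    rw [hgσ]; exact hσa
  rw [← h1, ← hgσ x]
  exact Set.smul_mem_smul_set (a := (⟨g, hg⟩ : hamIso F)) hx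

theorem iso_mul {ι : Type*} [Fintype ι] {F : ι → Type*} [∀ i, Group (F i)]
    [∀ i, DecidableEq (F i)] (a x y : ∀ i, F i) :
    hammingDist (a * x) (a * y) = hammingDist x y :=
  hammingDist_comp (fun i => (a i * ·)) (fun i => mul_right_injective (a i))

theorem iso_coord {ι : Type*} [Fintype ι] [DecidableEq ι] {F : ι → Type*}
    [∀ i, DecidableEq (F i)] (i : ι) (τ : Equiv.Perm (F i)) (x y : ∀ i, F i) :
    hammingDist (Function.update x i (τ (x i))) (Function.update y i (τ (y i)))
      = hammingDist x y := by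
  unfold hammingDist
  congr 1
  ext k
  simp only [Finset.mem_filter, Finset.mem_univ, true_and]
  by_cases h : k = i
  · subst h
    simp
  · simp [Function.update_of_ne h]

theorem iso_perm {ι : Type*} [Fintype ι] {F : ι → Type*} [∀ i, DecidableEq (F i)]
    (π : Equiv.Perm ι) (ψ : ∀ k, F (π k) → F k) (hψ : ∀ k, Function.Injective (ψ k))
    (x y : ∀ i, F i) :
    hammingDist (fun k => ψ k (x (π k))) (fun k => ψ k (y (π k))) = hammingDist x y := by
  unfold hammingDist
  apply Finset.card_equiv π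
  intro k
  simp [(hψ k).ne_iff]

theorem exists_third {A : Type*} [Finite A] (h : 3 ≤ Nat.card A) (a b : A) :
    ∃ c, c ≠ a ∧ c ≠ b := by
  classical
  by_contra hne
  push Not at hne
  have : Fintype A := Fintype.ofFinite A
  have hsub : (Finset.univ : Finset A) ⊆ {a, b} := by
    intro c _
    by_cases hc : c = a
    · simp [hc]
    · simp [hne c hc]
  have h1 := Finset.card_le_card hsub
  have h2 : ({a, b} : Finset A).card ≤ 2 := Finset.card_le_two
  rw [Nat.card_eq_fintype_card, ← Finset.card_univ] at h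
  omega

theorem exists_equiv_one {A B : Type*} [One A] [One B] [Finite A] [Finite B]
    (h : Nat.card A = Nat.card B) : ∃ φ : A ≃ B, φ 1 = 1 := by
  classical
  have : Fintype A := Fintype.ofFinite A
  have : Fintype B := Fintype.ofFinite B
  rw [Nat.card_eq_fintype_card, Nat.card_eq_fintype_card] at h
  refine ⟨(Fintype.equivOfCardEq h).trans (Equiv.swap (Fintype.equivOfCardEq h 1) 1), ?_⟩
  rw [Equiv.trans_apply, Equiv.swap_apply_left]

theorem ham_prim {ι : Type*} [Fintype ι] [DecidableEq ι] {F : ι → Type*} [∀ i, Group (F i)]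
    [∀ i, DecidableEq (F i)] [∀ i, Finite (F i)] (m : ℕ) (hm : 3 ≤ m)
    (hcard : ∀ i, Nat.card (F i) = m) :
    MulAction.IsPreprimitive (hamIso F) (∀ i, F i) := by
  have htrans : MulAction.IsPretransitive (hamIso F) (∀ i, F i) := by
    constructor
    intro x y
    obtain ⟨g, hg, hgσ⟩ := iso_mem (fun z => (y * x⁻¹) * z) (fun a b => iso_mul _ a b)
    refine ⟨⟨g, hg⟩, ?_⟩
    show g x = y
    rw [hgσ, inv_mul_cancel_right]
  apply MulAction.IsPreprimitive.of_isTrivialBlock_base (1 : ∀ i, F i)
  intro B h1B hB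
  by_cases hs : B.Subsingleton
  · exact Or.inl hs
  right
  have hmul : ∀ a ∈ B, ∀ x ∈ B, a * x ∈ B := fun a ha x hx =>
    block_closed hB (fun z => a * z) (fun u v => iso_mul a u v) 1 h1B
      (by show a * 1 ∈ B; rw [mul_one]; exact ha) x hx
  have hinv : ∀ a ∈ B, ∀ x ∈ B, a⁻¹ * x ∈ B := fun a ha x hx =>
    block_closed hB (fun z => a⁻¹ * z) (fun u v => iso_mul a⁻¹ u v) a ha
      (by show a⁻¹ * a ∈ B; rw [inv_mul_cancel]; exact h1B) x hx
  have hcoord : ∀ (i : ι) (τ : Equiv.Perm (F i)), τ 1 = 1 →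
      ∀ x ∈ B, Function.update x i (τ (x i)) ∈ B := by
    intro i τ hτ x hx
    refine block_closed hB (fun z => Function.update z i (τ (z i)))
      (fun u v => iso_coord i τ u v) 1 h1B ?_ x hx
    show Function.update (1 : ∀ i, F i) i (τ ((1 : ∀ i, F i) i)) ∈ B
    have : Function.update (1 : ∀ i, F i) i (τ ((1 : ∀ i, F i) i)) = 1 := by
      rw [Pi.one_apply, hτ]; exact Function.update_eq_self i (1 : ∀ i, F i)
    rw [this]; exact h1B
  have haxis : ∀ (i : ι) (w : F i), w ≠ 1 → (Pi.mulSingle i w : ∀ i, F i) ∈ B →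
      ∀ v : F i, (Pi.mulSingle i v : ∀ i, F i) ∈ B := by
    intro i w hw hwB v
    by_cases hv : v = 1
    · rw [hv, Pi.mulSingle_one]; exact h1B
    have h := hcoord i (Equiv.swap w v)
      (Equiv.swap_apply_of_ne_of_ne (Ne.symm hw) (Ne.symm hv)) _ hwB
    rw [Pi.mulSingle_eq_same, Equiv.swap_apply_left] at h
    have e : Function.update (Pi.mulSingle i w : ∀ i, F i) i v = Pi.mulSingle i v :=
      Function.update_idem w v (1 : ∀ i, F i)
    rwa [e] at h
  obtain ⟨b, hbB, hb1⟩ : ∃ b ∈ B, b ≠ 1 := by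
    rw [Set.not_subsingleton_iff] at hs
    obtain ⟨x, hx, y, hy, hxy⟩ := hs
    by_cases hx1 : x = 1
    · exact ⟨y, hy, fun h => hxy (hx1.trans h.symm)⟩
    · exact ⟨x, hx, hx1⟩
  obtain ⟨i, hi⟩ : ∃ i, b i ≠ 1 := by
    by_contra hne
    push Not at hne
    exact hb1 (funext hne)
  obtain ⟨c, hc1, hcb⟩ := exists_third (A := F i) (by rw [hcard]; exact hm) 1 (b i)
  have hstep1 : (Pi.mulSingle i ((b i)⁻¹ * c) : ∀ i, F i) ∈ B := by
    have h := hcoord i (Equiv.swap (b i) c)
      (Equiv.swap_apply_of_ne_of_ne (Ne.symm hi) (Ne.symm hc1)) b hbB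
    rw [Equiv.swap_apply_left] at h
    have h' := hinv b hbB _ h
    have e : b⁻¹ * Function.update b i c = Pi.mulSingle i ((b i)⁻¹ * c) := by
      funext k
      by_cases hk : k = i
      · subst hk
        simp
      · simp [Function.update_of_ne hk, Pi.mulSingle_eq_of_ne hk]
    rwa [e] at h'
  have hw : (b i)⁻¹ * c ≠ 1 := by
    intro h
    exact hcb (inv_mul_eq_one.1 h).symm
  have hall : ∀ (j : ι) (v : F j), (Pi.mulSingle j v : ∀ i, F i) ∈ B := by
    intro j
    by_cases hji : j = i
    · subst hji; exact haxis _ _ hw hstep1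
    have hex : ∀ k, ∃ φ : F (Equiv.swap i j k) ≃ F k, φ 1 = 1 :=
      fun k => exists_equiv_one (by rw [hcard, hcard])
    choose φ hφ using hex
    have hσB := block_closed hB (fun z k => φ k (z (Equiv.swap i j k)))
      (fun u v => iso_perm (Equiv.swap i j) (fun k => φ k) (fun k => (φ k).injective) u v)
      1 h1B
      (by
        have : (fun k => φ k ((1 : ∀ i, F i) (Equiv.swap i j k))) = (1 : ∀ i, F i) := by
          funext k; exact hφ k
        rw [this]; exact h1B)
      _ hstep1
    have e : (fun k => φ k ((Pi.mulSingle i ((b i)⁻¹ * c) : ∀ i, F i) (Equiv.swap i j k)))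
        = Pi.mulSingle j
            (φ j ((Pi.mulSingle i ((b i)⁻¹ * c) : ∀ i, F i) (Equiv.swap i j j))) := by
      funext k
      by_cases hk : k = j
      · subst hk; rw [Pi.mulSingle_eq_same]
      · rw [Pi.mulSingle_eq_of_ne hk]
        have hne : Equiv.swap i j k ≠ i := by
          intro h
          apply hk
          have := congrArg (Equiv.swap i j) h
          rwa [Equiv.swap_apply_self, Equiv.swap_apply_left] at this
        rw [Pi.mulSingle_eq_of_ne hne]; exact hφ k
    have hv : φ j ((Pi.mulSingle i ((b i)⁻¹ * c) : ∀ i, F i) (Equiv.swap i j j)) ≠ 1 := by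
      have key : ∀ k', k' = i → (Pi.mulSingle i ((b i)⁻¹ * c) : ∀ i, F i) k' ≠ 1 := by
        intro k' hk'
        rw [hk', Pi.mulSingle_eq_same]; exact hw
      intro h
      have h' : φ j ((Pi.mulSingle i ((b i)⁻¹ * c) : ∀ i, F i) (Equiv.swap i j j)) = φ j 1 :=
        h.trans (hφ j).symm
      exact key _ (Equiv.swap_apply_right i j) ((φ j).injective h')
    rw [e] at hσB
    exact haxis j _ hv hσB
  have hsupp : ∀ (s : Finset ι) (x : ∀ i, F i), (∀ k, k ∉ s → x k = 1) → x ∈ B := by
    intro s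
    induction s using Finset.induction_on with
    | empty =>
      intro x hx
      have : x = 1 := funext (fun k => hx k (Finset.notMem_empty k))
      rw [this]; exact h1B
    | insert j s hj ih =>
      intro x hx
      have e : x = Pi.mulSingle j (x j) * Function.update x j 1 := by
        funext k
        by_cases hk : k = j
        · subst hk; simp
        · simp [Pi.mulSingle_eq_of_ne hk, Function.update_of_ne hk]
      rw [e]
      apply hmul _ (hall j (x j))
      apply ih
      intro k hk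
      by_cases hkj : k = j
      · subst hkj; simp
      · rw [Function.update_of_ne hkj]
        apply hx
        simp [hkj, hk]
  apply Set.eq_univ_of_forall
  intro x
  exact hsupp Finset.univ x (fun k hk => absurd (Finset.mem_univ k) hk)

theorem ham_not_two {ι : Type*} [Fintype ι] [DecidableEq ι] {F : ι → Type*} [∀ i, Group (F i)]
    [∀ i, DecidableEq (F i)] [∀ i, Finite (F i)] (hr : 2 ≤ Fintype.card ι) (m : ℕ)
    (hm : 3 ≤ m) (hcard : ∀ i, Nat.card (F i) = m) :
    ¬ MulAction.IsMultiplyPretransitive (hamIso F) (∀ i, F i) 2 := by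
  intro h2
  rw [MulAction.is_two_pretransitive_iff] at h2
  obtain ⟨i, j, hij⟩ := Fintype.exists_pair_of_one_lt_card (by omega : 1 < Fintype.card ι)
  obtain ⟨u, hu, _⟩ := exists_third (A := F i) (by rw [hcard]; exact hm) 1 1
  obtain ⟨v, hv, _⟩ := exists_third (A := F j) (by rw [hcard]; exact hm) 1 1
  have hb : (Pi.mulSingle i u : ∀ i, F i) ≠ 1 := by
    intro h
    have := congrFun h i
    rw [Pi.mulSingle_eq_same] at this
    exact hu this
  have hdj : ((Pi.mulSingle i u : ∀ i, F i) * Pi.mulSingle j v) j = v := by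
    rw [Pi.mul_apply, Pi.mulSingle_eq_same, Pi.mulSingle_eq_of_ne (Ne.symm hij), one_mul]
  have hdi : ((Pi.mulSingle i u : ∀ i, F i) * Pi.mulSingle j v) i = u := by
    rw [Pi.mul_apply, Pi.mulSingle_eq_same, Pi.mulSingle_eq_of_ne hij, mul_one]
  have hd : (Pi.mulSingle i u : ∀ i, F i) * Pi.mulSingle j v ≠ 1 := by
    intro h
    have := congrFun h j
    rw [hdj] at this
    exact hv this
  obtain ⟨g, hg1, hg2⟩ := h2 (a := (1 : ∀ i, F i)) (b := Pi.mulSingle i u) (c := 1)
    (d := Pi.mulSingle i u * Pi.mulSingle j v) (Ne.symm hb) (Ne.symm hd)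
  have hiso := (mem_hamIso _).1 g.2 1 (Pi.mulSingle i u)
  have hg1' : (g : Equiv.Perm (∀ i, F i)) 1 = 1 := hg1
  have hg2' : (g : Equiv.Perm (∀ i, F i)) (Pi.mulSingle i u)
      = Pi.mulSingle i u * Pi.mulSingle j v := hg2
  rw [hg1', hg2'] at hiso
  have hlt : hammingDist (1 : ∀ i, F i) (Pi.mulSingle i u)
      < hammingDist (1 : ∀ i, F i) (Pi.mulSingle i u * Pi.mulSingle j v) := by
    unfold hammingDist
    apply Finset.card_lt_card
    constructor
    · intro k hk
      simp only [Finset.mem_filter, Finset.mem_univ, true_and] at hk ⊢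
      have hki : k = i := by
        by_contra hne
        exact hk (Pi.mulSingle_eq_of_ne hne u).symm
      rw [hki, hdi]
      exact fun h => hu h.symm
    · intro hsub
      have hjm : j ∈ Finset.univ.filter (fun k => (1 : ∀ i, F i) k
          ≠ ((Pi.mulSingle i u : ∀ i, F i) * Pi.mulSingle j v) k) := by
        simp only [Finset.mem_filter, Finset.mem_univ, true_and]
        rw [hdj]; exact fun h => hv h.symm
      have := hsub hjm
      simp only [Finset.mem_filter, Finset.mem_univ, true_and] at this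
      exact this (Pi.mulSingle_eq_of_ne (Ne.symm hij) u).symm
  omega

/-- Let K be a finite group isomorphic to a direct product of r ≥ 2 groups all of the same order m ≥ 3. Then K is not a B-group: there is a primitive but not doubly transitive permutation group (on some finite set) containing a regular subgroup isomorphic to K. -/
theorem result {K : Type*} [Group K] [Finite K] {ι : Type*} [Fintype ι] (F : ι → Type*) [∀ i, Group (F i)]
    (hr : 2 ≤ Fintype.card ι) (m : ℕ) (hm : 3 ≤ m) (hcard : ∀ i, Nat.card (F i) = m) (e : K ≃* (∀ i, F i)) :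
    ∃ (n : ℕ) (G R : Subgroup (Equiv.Perm (Fin n))), R ≤ G ∧ Nonempty (↥R ≃* K) ∧
      MulAction.IsPretransitive ↥R (Fin n) ∧ (∀ a : Fin n, MulAction.stabilizer ↥R a = ⊥) ∧
      MulAction.IsPreprimitive ↥G (Fin n) ∧ ¬ MulAction.IsMultiplyPretransitive ↥G (Fin n) 2 := by
  classical
  have hfin : ∀ i, Finite (F i) := fun i => Nat.finite_of_card_ne_zero (by rw [hcard i]; omega)
  have hRG : Helper18.regSub (∀ i, F i) ≤ hamIso F := by
    rintro σ ⟨a, rfl⟩
    intro x y
    exact iso_mul a x y
  refine ⟨Nat.card (∀ i, F i), Helper18.trSub (Finite.equivFin (∀ i, F i)) (hamIso F),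
    Helper18.trSub (Finite.equivFin (∀ i, F i)) (Helper18.regSub (∀ i, F i)),
    Helper18.trSub_mono _ hRG, ?_, ?_, ?_, ?_, ?_⟩
  · exact ⟨((Helper18.trEquiv _ _).trans (Helper18.regEquiv (∀ i, F i))).trans e.symm⟩
  · exact (Helper18.tr_isPretransitive _ _).1 (Helper18.regSub_isPretransitive _)
  · exact Helper18.tr_stabilizer _ _ (Helper18.regSub_stabilizer _)
  · exact (Helper18.tr_isPreprimitive _ (hamIso F)).1 (ham_prim m hm hcard)
  · intro h
    exact ham_not_two hr m hm hcard ((Helper18.tr_isMultiplyPretransitive _ (hamIso F) 2).2 h)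

end Cfsg.Agent.S3560
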