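import Mathlib
import Cfsg.Statements.S3573

set_option autoImplicit false

open Cfsg

namespace Cfsg.Agent.S3573

theorem fix_modEq {α : Type*} [Fintype α] [DecidableEq α] (r : ℕ) (hr : r.Prime)
    (σ : Equiv.Perm α) (hσ : σ ^ r = 1) :
    Fintype.card α ≡ (Finset.univ.filter (fun x => σ x = x)).card [MOD r] := by
  have : Fact r.Prime := ⟨hr⟩
  obtain ⟨f, hf0⟩ : ∃ f : Function.End α, ∀ a, f a = σ a := ⟨⇑σ, fun _ => rfl⟩
  have key : ∀ k (a : α), (f ^ k) a = (σ ^ k) a := by
    intro k
    induction k with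
    | zero => intro a; rfl
    | succ k ih =>
      intro a
      rw [pow_succ, pow_succ]
      show (f ^ k) (f a) = (σ ^ k) (σ a)
      rw [ih, hf0]
  have hf : f ^ r ^ 1 = 1 := by
    funext a
    rw [pow_one, key, hσ]; rfl
  have h1 := Equiv.Perm.card_fixedPoints_modEq (f := f) (p := r) (n := 1) hf
  have h2 : Nat.card (Function.fixedPoints f) =
      (Finset.univ.filter (fun x => σ x = x)).card := by
    rw [← Nat.card_eq_finsetCard]
    exact Nat.card_congr
      ⟨fun x => ⟨x.1, by
          have := x.2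
          simp only [Finset.mem_filter, Finset.mem_univ, true_and]
          exact (hf0 x.1).symm.trans this⟩,
       fun x => ⟨x.1, by
          have := x.2
          simp only [Finset.mem_filter, Finset.mem_univ, true_and] at this
          exact (hf0 x.1).trans this⟩, fun _ => rfl, fun _ => rfl⟩
  rw [Fintype.card_eq_nat_card (α := ↥(Function.fixedPoints f)), h2] at h1
  exact h1

theorem image_eq_of_mem {α : Type*} [DecidableEq α] (σ : Equiv.Perm α) (s : Finset α)
    (hs : ∀ x ∈ s, σ x ∈ s) : s.image σ = s := by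
  apply Finset.eq_of_subset_of_card_le
  · intro y hy
    rw [Finset.mem_image] at hy
    obtain ⟨x, hx, rfl⟩ := hy
    exact hs x hx
  · rw [Finset.card_image_of_injective _ σ.injective]

theorem mem_of_image_eq {α : Type*} [DecidableEq α] (σ : Equiv.Perm α) (s : Finset α)
    (hs : s.image σ = s) : ∀ x, σ x ∈ s ↔ x ∈ s := by
  intro x
  constructor
  · intro h
    rw [← hs, Finset.mem_image] at h
    obtain ⟨y, hy, hxy⟩ := h
    rw [← σ.injective hxy]; exact hy
  · intro h
    rw [← hs]
    exact Finset.mem_image_of_mem _ h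

theorem inv_card_mod {α : Type*} [Fintype α] [DecidableEq α] (r : ℕ) (hr : r.Prime)
    (σ : Equiv.Perm α) (hσ : σ ^ r = 1) (s : Finset α) (hs : s.image σ = s) :
    ∃ b, b ≤ (Finset.univ.filter (fun x => σ x = x)).card ∧ s.card ≡ b [MOD r] := by
  have hmem := mem_of_image_eq σ s hs
  refine ⟨(s.filter (fun x => σ x = x)).card, ?_, ?_⟩
  · apply Finset.card_le_card
    intro x hx
    simp only [Finset.mem_filter, Finset.mem_univ, true_and] at hx ⊢
    exact hx.2
  · obtain ⟨τ, hτ⟩ : ∃ τ : Equiv.Perm {x // x ∈ s}, ∀ x, ((τ x : {x // x ∈ s}) : α) = σ x :=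
      ⟨σ.subtypePerm hmem, fun x => rfl⟩
    have hpow : ∀ k (x : {x // x ∈ s}), (((τ ^ k) x : {x // x ∈ s}) : α) = (σ ^ k) x := by
      intro k
      induction k with
      | zero => intro x; rfl
      | succ k ih =>
        intro x
        rw [pow_succ, pow_succ]
        show (((τ ^ k) (τ x) : {x // x ∈ s}) : α) = (σ ^ k) (σ x)
        rw [ih, hτ]
    have hτr : τ ^ r = 1 := by
      ext x
      rw [hpow, hσ]; rfl
    have h1 := fix_modEq r hr τ hτr
    rw [Fintype.card_coe] at h1
    have h2 : (Finset.univ.filter (fun x : {x // x ∈ s} => τ x = x)).card =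
        (s.filter (fun x => σ x = x)).card := by
      apply Finset.card_bij (fun (x : {x // x ∈ s}) _ => (x : α))
      · intro x hx
        simp only [Finset.mem_filter, Finset.mem_univ, true_and] at hx ⊢
        refine ⟨x.2, ?_⟩
        rw [← hτ, hx]
      · intro x _ y _ hxy
        exact Subtype.ext hxy
      · intro y hy
        simp only [Finset.mem_filter] at hy
        refine ⟨⟨y, hy.1⟩, ?_, rfl⟩
        simp only [Finset.mem_filter, Finset.mem_univ, true_and]
        apply Subtype.ext
        rw [hτ]; exact hy.2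
    rw [h2] at h1
    exact h1

theorem pow_mem_of_inv {α : Type*} (σ : Equiv.Perm α) (s : Finset α)
    (hs : ∀ x ∈ s, σ x ∈ s) (i : ℕ) : ∀ x ∈ s, (σ ^ i) x ∈ s := by
  induction i with
  | zero => intro x hx; exact hx
  | succ i ih =>
    intro x hx
    rw [pow_succ]
    exact ih _ (hs x hx)

theorem fix_of_pow_fix {α : Type*} (r : ℕ) (hr : r.Prime) (σ : Equiv.Perm α)
    (hσ : σ ^ r = 1) (x : α) (d : ℕ) (hd0 : 0 < d) (hdr : d < r) (hd : (σ ^ d) x = x) :
    σ x = x := by
  have hcop : Nat.Coprime d r := by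
    rw [Nat.coprime_comm]
    exact (Nat.Prime.coprime_iff_not_dvd hr).mpr (fun h => by
      have := Nat.le_of_dvd hd0 h; omega)
  obtain ⟨m, -, hm⟩ := Nat.exists_mul_mod_eq_one_of_coprime hcop hr.one_lt
  have h1 : σ = (σ ^ d) ^ m := by
    rw [← pow_mul, pow_eq_pow_mod (d * m) hσ, hm, pow_one]
  have h2 : σ ^ d ∈ MulAction.stabilizer (Equiv.Perm α) x := by
    rw [MulAction.mem_stabilizer_iff]; exact hd
  have h3 : σ ∈ MulAction.stabilizer (Equiv.Perm α) x := by
    rw [h1]; exact Subgroup.pow_mem _ h2 m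
  rw [MulAction.mem_stabilizer_iff] at h3
  exact h3

theorem add_orbit {α : Type*} [DecidableEq α] (r : ℕ) (hr : r.Prime) (σ : Equiv.Perm α)
    (hσ : σ ^ r = 1) (s : Finset α) (hs : ∀ x ∈ s, σ x ∈ s) (hfix : ∀ x ∈ s, σ x ≠ x)
    (x : α) (hx : x ∉ s) (hxf : σ x ≠ x) :
    ∃ s' : Finset α, (∀ y ∈ s', σ y ∈ s') ∧ (∀ y ∈ s', σ y ≠ y) ∧ s'.card = s.card + r := by
  have hinj : Set.InjOn (fun i => (σ ^ i) x) (Finset.range r : Set ℕ) := by
    have aux : ∀ i j, i < r → j < r → i ≤ j → (σ ^ i) x = (σ ^ j) x → i = j := by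
      intro i j hi hj hij h
      by_contra hne
      have hlt : i < j := lt_of_le_of_ne hij hne
      have h1 : (σ ^ (j - i)) x = x := by
        have h2 : (σ ^ j) x = (σ ^ i) ((σ ^ (j - i)) x) := by
          rw [← Equiv.Perm.mul_apply, ← pow_add]
          congr 2; omega
        rw [h2] at h
        exact ((σ ^ i).injective h).symm
      exact hxf (fix_of_pow_fix r hr σ hσ x (j - i) (by omega) (by omega) h1)
    intro i hi j hj h
    simp only [Finset.coe_range, Set.mem_Iio] at hi hj
    rcases le_total i j with hij | hij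
    · exact aux i j hi hj hij h
    · exact (aux j i hj hi hij h.symm).symm
  have hdisj : Disjoint s ((Finset.range r).image (fun i => (σ ^ i) x)) := by
    rw [Finset.disjoint_left]
    intro y hy hy2
    rw [Finset.mem_image] at hy2
    obtain ⟨i, hi, rfl⟩ := hy2
    rw [Finset.mem_range] at hi
    apply hx
    have h1 := pow_mem_of_inv σ s hs (r - i) _ hy
    rw [← Equiv.Perm.mul_apply, ← pow_add] at h1
    have h2 : r - i + i = r := by omega
    rw [h2, hσ] at h1
    exact h1
  refine ⟨s ∪ (Finset.range r).image (fun i => (σ ^ i) x), ?_, ?_, ?_⟩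
  · intro y hy
    rw [Finset.mem_union] at hy ⊢
    rcases hy with hy | hy
    · exact Or.inl (hs y hy)
    · right
      rw [Finset.mem_image] at hy ⊢
      obtain ⟨i, hi, rfl⟩ := hy
      rw [Finset.mem_range] at hi
      by_cases hi2 : i + 1 < r
      · refine ⟨i + 1, Finset.mem_range.mpr hi2, ?_⟩
        show (σ ^ (i + 1)) x = σ ((σ ^ i) x)
        rw [pow_succ']; rfl
      · refine ⟨0, Finset.mem_range.mpr hr.pos, ?_⟩
        have h2 : i + 1 = r := by omega
        show (σ ^ 0) x = σ ((σ ^ i) x)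
        rw [← Equiv.Perm.mul_apply, ← pow_succ', h2, hσ, pow_zero]
  · intro y hy
    rw [Finset.mem_union] at hy
    rcases hy with hy | hy
    · exact hfix y hy
    · rw [Finset.mem_image] at hy
      obtain ⟨i, hi, rfl⟩ := hy
      intro h
      apply hxf
      have h3 : σ ((σ ^ i) x) = (σ ^ i) (σ x) := by
        rw [← Equiv.Perm.mul_apply, ← Equiv.Perm.mul_apply, ← pow_succ', ← pow_succ]
      rw [h3] at h
      exact (σ ^ i).injective h
  · rw [Finset.card_union_of_disjoint hdisj, Finset.card_image_of_injOn hinj, Finset.card_range]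

theorem exists_inv_nonfixed {α : Type*} [Fintype α] [DecidableEq α] (r : ℕ) (hr : r.Prime)
    (σ : Equiv.Perm α) (hσ : σ ^ r = 1) (a : ℕ)
    (ha : a * r + (Finset.univ.filter (fun x => σ x = x)).card ≤ Fintype.card α) :
    ∃ s : Finset α, (∀ y ∈ s, σ y ∈ s) ∧ (∀ y ∈ s, σ y ≠ y) ∧ s.card = a * r := by
  induction a with
  | zero => exact ⟨∅, by simp, by simp, by simp⟩
  | succ a ih =>
    have hr0 := hr.pos
    have hexp : (a + 1) * r = a * r + r := by ring
    obtain ⟨s, hs1, hs2, hs3⟩ := ih (by omega)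
    have hex : ∃ x, x ∉ s ∧ σ x ≠ x := by
      by_contra hcon
      push Not at hcon
      have h1 : Fintype.card α ≤ s.card + (Finset.univ.filter (fun x => σ x = x)).card := by
        rw [← Finset.card_univ]
        calc (Finset.univ : Finset α).card
            ≤ (s ∪ Finset.univ.filter (fun x => σ x = x)).card := by
              apply Finset.card_le_card
              intro x _
              rw [Finset.mem_union]
              by_cases hx : x ∈ s
              · exact Or.inl hx
              · right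
                simp only [Finset.mem_filter, Finset.mem_univ, true_and]
                exact hcon x hx
          _ ≤ _ := Finset.card_union_le _ _
      omega
    obtain ⟨x, hx1, hx2⟩ := hex
    obtain ⟨s', h1, h2, h3⟩ := add_orbit r hr σ hσ s hs1 hs2 x hx1 hx2
    exact ⟨s', h1, h2, by rw [h3, hs3, hexp]⟩

theorem exists_inv_subset {α : Type*} [Fintype α] [DecidableEq α] (r : ℕ) (hr : r.Prime)
    (σ : Equiv.Perm α) (hσ : σ ^ r = 1) (k : ℕ) (hk : k ≤ Fintype.card α)
    (hmod : k % r ≤ Fintype.card α % r) :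
    ∃ s : Finset α, s.card = k ∧ s.image σ = s := by
  have hr0 := hr.pos
  have hmodeq := fix_modEq r hr σ hσ
  have hfle : (Finset.univ.filter (fun x => σ x = x)).card ≤ Fintype.card α := by
    rw [← Finset.card_univ]
    exact Finset.card_le_card (Finset.filter_subset _ _)
  obtain ⟨f, hf⟩ : ∃ f, f = (Finset.univ.filter (fun x => σ x = x)).card := ⟨_, rfl⟩
  obtain ⟨n, hn⟩ : ∃ n, n = Fintype.card α := ⟨_, rfl⟩
  rw [← hf] at hfle hmodeq
  rw [← hn] at hfle hmodeq hk hmod
  have hmod2 : n % r = f % r := hmodeq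
  have hdvd : r ∣ n - f := (Nat.modEq_iff_dvd' hfle).mp hmodeq.symm
  obtain ⟨m, hm⟩ := hdvd
  have hn2 : n = f + m * r := by rw [mul_comm]; omega
  have hfmod : f % r ≤ f := Nat.mod_le _ _
  obtain ⟨a, b, hab, hb, ha⟩ : ∃ a b, a * r + b = k ∧ b ≤ f ∧ a * r + f ≤ n := by
    by_cases hc : k / r ≤ m
    · refine ⟨k / r, k % r, Nat.div_add_mod' k r, by omega, ?_⟩
      have := Nat.mul_le_mul_right r hc
      omega
    · have h1 : m + 1 ≤ k / r := by omega
      have h2 := Nat.mul_le_mul_right r h1
      have h3 := Nat.div_mul_le_self k r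
      have h4 : (m + 1) * r = m * r + r := by ring
      refine ⟨m, k - m * r, by omega, by omega, by omega⟩
  obtain ⟨s₁, hs1, hs2, hs3⟩ := exists_inv_nonfixed r hr σ hσ a (by rw [← hf, ← hn]; exact ha)
  obtain ⟨t, ht1, ht2⟩ := Finset.exists_subset_card_eq (s := Finset.univ.filter (fun x => σ x = x))
    (n := b) (by rw [← hf]; exact hb)
  have hdisj : Disjoint s₁ t := by
    rw [Finset.disjoint_left]
    intro y hy hy2
    have := ht1 hy2
    simp only [Finset.mem_filter, Finset.mem_univ, true_and] at this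
    exact hs2 y hy this
  refine ⟨s₁ ∪ t, ?_, ?_⟩
  · rw [Finset.card_union_of_disjoint hdisj, hs3, ht2, hab]
  · apply image_eq_of_mem
    intro y hy
    rw [Finset.mem_union] at hy ⊢
    rcases hy with hy | hy
    · exact Or.inl (hs1 y hy)
    · right
      have := ht1 hy
      simp only [Finset.mem_filter, Finset.mem_univ, true_and] at this
      rw [this]; exact hy

theorem exists_perm (n r : ℕ) (hr : r.Prime) (hrn : r ≤ n) :
    ∃ σ : Equiv.Perm (Fin n), orderOf σ = r ∧
      (Finset.univ.filter (fun x => σ x = x)).card = n % r := by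
  have : Fact r.Prime := ⟨hr⟩
  have : NeZero r := ⟨hr.ne_zero⟩
  have : Fact (1 < r) := ⟨hr.one_lt⟩
  have hcard : Fintype.card ((Fin (n / r) × ZMod r) ⊕ Fin (n % r)) = Fintype.card (Fin n) := by
    rw [Fintype.card_sum, Fintype.card_prod, Fintype.card_fin, Fintype.card_fin, ZMod.card,
      Fintype.card_fin]
    exact Nat.div_add_mod' n r
  obtain ⟨e⟩ : Nonempty (((Fin (n / r) × ZMod r) ⊕ Fin (n % r)) ≃ Fin n) :=
    ⟨Fintype.equivOfCardEq hcard⟩
  obtain ⟨τ, hτl, hτr⟩ : ∃ τ : Equiv.Perm ((Fin (n / r) × ZMod r) ⊕ Fin (n % r)),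
      (∀ a z, τ (Sum.inl (a, z)) = Sum.inl (a, z + 1)) ∧ (∀ c, τ (Sum.inr c) = Sum.inr c) :=
    ⟨Equiv.sumCongr (Equiv.prodCongr (Equiv.refl _) (Equiv.addRight (1 : ZMod r))) (Equiv.refl _),
      fun a z => rfl, fun c => rfl⟩
  have hpl : ∀ (j : ℕ) a z, (τ ^ j) (Sum.inl (a, z)) = Sum.inl (a, z + (j : ZMod r)) := by
    intro j
    induction j with
    | zero => intro a z; simp
    | succ j ih =>
      intro a z
      rw [pow_succ, Equiv.Perm.mul_apply, hτl, ih]
      congr 2
      push_cast; ring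
  have hpr : ∀ (j : ℕ) c, (τ ^ j) (Sum.inr c) = Sum.inr c := by
    intro j
    induction j with
    | zero => intro c; simp
    | succ j ih =>
      intro c
      rw [pow_succ, Equiv.Perm.mul_apply, hτr, ih]
  have hτpow : τ ^ r = 1 := by
    ext x
    rcases x with ⟨a, z⟩ | c
    · rw [hpl, ZMod.natCast_self, add_zero]; rfl
    · rw [hpr]; rfl
  obtain ⟨σ, hσ⟩ : ∃ σ : Equiv.Perm (Fin n), ∀ y, σ (e y) = e (τ y) :=
    ⟨e.symm.trans (τ.trans e), fun y => by simp⟩
  have hσpow : ∀ (j : ℕ) y, (σ ^ j) (e y) = e ((τ ^ j) y) := by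
    intro j
    induction j with
    | zero => intro y; simp
    | succ j ih =>
      intro y
      rw [pow_succ, pow_succ, Equiv.Perm.mul_apply, Equiv.Perm.mul_apply, hσ, ih]
  have hσr : σ ^ r = 1 := by
    ext x
    obtain ⟨y, rfl⟩ := e.surjective x
    rw [hσpow, hτpow]; rfl
  have hσ1 : σ ≠ 1 := by
    intro h
    have hpos : 0 < n / r := Nat.div_pos hrn hr.pos
    have h1 := hσ (Sum.inl (⟨0, hpos⟩, 0))
    rw [h, hτl] at h1
    have h2 := e.injective h1
    have h3 : ((0 : ZMod r)) = 0 + 1 := by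
      have := Sum.inl.inj h2
      exact (Prod.ext_iff.mp this).2
    rw [zero_add] at h3
    exact zero_ne_one h3
  refine ⟨σ, orderOf_eq_prime hσr hσ1, ?_⟩
  have himg : Finset.univ.filter (fun x => σ x = x) =
      (Finset.univ : Finset (Fin (n % r))).image (fun c => e (Sum.inr c)) := by
    ext x
    simp only [Finset.mem_filter, Finset.mem_univ, true_and, Finset.mem_image]
    obtain ⟨y, rfl⟩ := e.surjective x
    rw [hσ]
    constructor
    · intro h
      have h2 := e.injective h
      rcases y with ⟨a, z⟩ | c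
      · exfalso
        rw [hτl] at h2
        have h3 : z + 1 = z := by
          have := Sum.inl.inj h2
          exact (Prod.ext_iff.mp this).2
        have h4 : (1 : ZMod r) = 0 := by
          have := congrArg (fun w => w - z) h3
          simpa using this
        exact one_ne_zero h4
      · exact ⟨c, rfl⟩
    · rintro ⟨c, hc⟩
      have := e.injective hc
      rw [← this, hτr]
  rw [himg, Finset.card_image_of_injective _ (fun c d h => Sum.inr.inj (e.injective h)),
    Finset.card_univ, Fintype.card_fin]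

theorem claimA (n k r : ℕ) (hr : r.Prime) (hrn : r ≤ n) (hkn : k ≤ n) :
    (∀ σ : Equiv.Perm (Fin n), orderOf σ = r →
      ∃ s : Finset (Fin n), s.card = k ∧ s.image σ = s) ↔ k % r ≤ n % r := by
  constructor
  · intro h
    obtain ⟨σ, hσ1, hσ2⟩ := exists_perm n r hr hrn
    obtain ⟨s, hs1, hs2⟩ := h σ hσ1
    have hσr : σ ^ r = 1 := by rw [← hσ1]; exact pow_orderOf_eq_one σ
    obtain ⟨b, hb1, hb2⟩ := inv_card_mod r hr σ hσr s hs2
    rw [hσ2] at hb1
    rw [hs1] at hb2
    have h1 : k % r = b % r := hb2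
    have h2 : n % r < r := Nat.mod_lt _ hr.pos
    rw [Nat.mod_eq_of_lt (lt_of_le_of_lt hb1 h2)] at h1
    omega
  · intro h σ hσ
    have hσr : σ ^ r = 1 := by rw [← hσ]; exact pow_orderOf_eq_one σ
    exact exists_inv_subset r hr σ hσr k (by rw [Fintype.card_fin]; exact hkn)
      (by rw [Fintype.card_fin]; exact h)

theorem claimB (n k r : ℕ) (hr : r.Prime) (hrd : r ∣ Nat.choose n k) (h : k % r ≤ n % r) :
    r ≤ k := by
  have : Fact r.Prime := ⟨hr⟩
  by_contra hlt
  push Not at hlt
  have h1 : k % r = k := Nat.mod_eq_of_lt hlt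
  have h2 : k / r = 0 := Nat.div_eq_of_lt hlt
  have h3 := Choose.choose_modEq_choose_mod_mul_choose_div_nat (n := n) (k := k) (p := r)
  rw [h1, h2, Nat.choose_zero_right, mul_one] at h3
  rw [h1] at h
  have h4 : r ∣ Nat.choose (n % r) k := (Nat.ModEq.dvd_iff h3 (dvd_refl r)).mp hrd
  have h5 : r ∣ Nat.factorial (n % r) := by
    rw [← Nat.choose_mul_factorial_mul_factorial h, mul_assoc]
    exact Dvd.dvd.mul_right h4 _
  have h6 := (Nat.Prime.dvd_factorial hr).mp h5
  have h7 : n % r < r := Nat.mod_lt _ hr.pos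
  omega


/-- Let 1 ≤ k with 2k < n and consider the symmetric group of degree n acting on the k-subsets of an n-set. Let r be a prime dividing the number C(n,k) of k-subsets. If r is odd, then every permutation of order r fixes some k-subset if and only if r ≤ k and the remainder of k modulo r is at most the remainder of n modulo r. If r = 2, then every involution fixes some k-subset if and only if k is even or n is odd. -/
theorem result (n k : ℕ) (hk : 1 ≤ k) (hkn : 2 * k < n) (r : ℕ) (hr : r.Prime) (hrd : r ∣ Nat.choose n k) :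
    (r ≠ 2 → ((∀ σ : Equiv.Perm (Fin n), orderOf σ = r → ∃ s : Finset (Fin n), s.card = k ∧ s.image σ = s) ↔
      (r ≤ k ∧ k % r ≤ n % r))) ∧
    (r = 2 → ((∀ σ : Equiv.Perm (Fin n), orderOf σ = 2 → ∃ s : Finset (Fin n), s.card = k ∧ s.image σ = s) ↔
      (Even k ∨ Odd n))) := by
  have hkn' : k ≤ n := by omega
  have hrn : r ≤ n := by
    have h5 : r ∣ Nat.factorial n := by
      rw [← Nat.choose_mul_factorial_mul_factorial hkn', mul_assoc]
      exact Dvd.dvd.mul_right hrd _
    exact (Nat.Prime.dvd_factorial hr).mp h5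
  have hA := claimA n k r hr hrn hkn'
  refine ⟨fun _ => ?_, fun h2 => ?_⟩
  · rw [hA]
    exact ⟨fun h => ⟨claimB n k r hr hrd h, h⟩, fun h => h.2⟩
  · subst h2
    rw [hA, Nat.even_iff, Nat.odd_iff]
    omega

end Cfsg.Agent.S3573
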