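import Cfsg.Statements.S3619
-- import your own Cfsg.Agent.* helpers here

set_option autoImplicit false
open Cfsg

namespace Cfsg.Agent.S3619

open MulAction Pointwise in
theorem prim {G Ω : Type*} [Group G] [Finite G] [MulAction G Ω] [FaithfulSMul G Ω] [Finite Ω]
    (hqp : ∀ N : Subgroup G, N.Normal → N ≠ ⊥ → MulAction.IsPretransitive ↥N Ω)
    (Γ : Set Ω) (hΓ1 : 1 < Γ.ncard)
    (hJp : MulAction.IsPreprimitive ↥(fixingSubgroup G Γᶜ) ↥(SubMulAction.ofFixingSubgroup G Γᶜ)) :
    MulAction.IsPreprimitive G Ω := by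
  classical
  obtain ⟨x, hx, x', hx', hxx'⟩ := (Set.one_lt_ncard_iff_nontrivial).mp hΓ1
  have hmem : ∀ y, y ∈ Γ ↔ y ∈ SubMulAction.ofFixingSubgroup G Γᶜ := by
    intro y; rw [SubMulAction.mem_ofFixingSubgroup_iff]; simp
  have hJ : IsPretransitive ↥(fixingSubgroup G Γᶜ) ↥(SubMulAction.ofFixingSubgroup G Γᶜ) :=
    hJp.toIsPretransitive
  obtain ⟨h₀, hh₀⟩ := hJ.exists_smul_eq
    (⟨x, (hmem x).mp hx⟩ : SubMulAction.ofFixingSubgroup G Γᶜ) ⟨x', (hmem x').mp hx'⟩
  have hh₀' : (h₀ : G) • x = x' := congrArg Subtype.val hh₀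
  have hfix : ∀ h : G, h ∈ fixingSubgroup G Γᶜ → ∀ y, y ∉ Γ → h • y = y := by
    intro h hh y hy
    exact (mem_fixingSubgroup_iff G).mp hh y hy
  have hpres : ∀ h : G, h ∈ fixingSubgroup G Γᶜ → ∀ y, y ∈ Γ → h • y ∈ Γ := by
    intro h hh y hy
    have := ((⟨h, hh⟩ : fixingSubgroup G Γᶜ) •
      (⟨y, (hmem y).mp hy⟩ : SubMulAction.ofFixingSubgroup G Γᶜ)).2
    exact (hmem _).mpr this
  have htop : IsPretransitive G Ω := by
    have h1 : IsPretransitive (⊤ : Subgroup G) Ω := hqp ⊤ inferInstance (by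
      intro hbot
      have : (h₀ : G) ∈ (⊤ : Subgroup G) := trivial
      rw [hbot, Subgroup.mem_bot] at this
      rw [this, one_smul] at hh₀'
      exact hxx' hh₀')
    constructor
    intro a b
    obtain ⟨g, hg⟩ := h1.exists_smul_eq a b
    exact ⟨g, hg⟩
  refine { toIsPretransitive := htop, isTrivialBlock_of_isBlock := ?_ }
  intro B hB
  by_contra hBnt
  unfold IsTrivialBlock at hBnt
  push Not at hBnt
  obtain ⟨hBns, hBu⟩ := hBnt
  obtain ⟨b, hb, b', hb', hbb'⟩ := hBns
  obtain ⟨g, hg⟩ := htop.exists_smul_eq b x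
  obtain ⟨B', hB'def⟩ : ∃ B' : Set Ω, B' = g • B := ⟨_, rfl⟩
  have hB' : IsBlock G B' := by rw [hB'def]; exact hB.translate g
  have hxB' : x ∈ B' := by rw [hB'def, ← hg]; exact Set.smul_mem_smul_set hb
  have hyB' : g • b' ∈ B' := by rw [hB'def]; exact Set.smul_mem_smul_set hb'
  have hyx : g • b' ≠ x := by rw [← hg]; intro h; exact hbb' (smul_left_cancel g h).symm
  have hB'u : B' ≠ Set.univ := by
    intro h
    apply hBu
    have h2 : g⁻¹ • B' = g⁻¹ • (Set.univ : Set Ω) := by rw [h]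
    rw [hB'def, inv_smul_smul, Set.smul_set_univ] at h2
    exact h2
  have hblk : IsBlock (fixingSubgroup G Γᶜ)
      (Subtype.val ⁻¹' B' : Set (SubMulAction.ofFixingSubgroup G Γᶜ)) :=
    (hB'.subgroup (H := fixingSubgroup G Γᶜ)).subtype_val_preimage
  rcases hJp.isTrivialBlock_of_isBlock hblk with hsub | huniv
  · have hyΓ : g • b' ∉ Γ := by
      intro hy
      have := hsub (show (⟨g • b', (hmem _).mp hy⟩ : SubMulAction.ofFixingSubgroup G Γᶜ) ∈
          Subtype.val ⁻¹' B' from hyB') (show (⟨x, (hmem x).mp hx⟩ :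
          SubMulAction.ofFixingSubgroup G Γᶜ) ∈ Subtype.val ⁻¹' B' from hxB')
      exact hyx (congrArg Subtype.val this)
    have h1 : (h₀ : G) • (g • b') = g • b' := hfix _ h₀.2 _ hyΓ
    have h2 : (h₀ : G) • B' = B' := hB'.smul_eq_of_mem hyB' (by rw [h1]; exact hyB')
    have h3 : x' ∈ B' := by rw [← h2, ← hh₀']; exact Set.smul_mem_smul_set hxB'
    have := hsub (show (⟨x', (hmem _).mp hx'⟩ : SubMulAction.ofFixingSubgroup G Γᶜ) ∈
        Subtype.val ⁻¹' B' from h3) (show (⟨x, (hmem x).mp hx⟩ :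
        SubMulAction.ofFixingSubgroup G Γᶜ) ∈ Subtype.val ⁻¹' B' from hxB')
    exact hxx' (congrArg Subtype.val this).symm
  · have hΓB : Γ ⊆ B' := by
      intro y hy
      have : (⟨y, (hmem y).mp hy⟩ : SubMulAction.ofFixingSubgroup G Γᶜ) ∈
          (Subtype.val ⁻¹' B' : Set _) := by rw [huniv]; trivial
      exact this
    have hstab : ∀ (k : G) (h : G), h ∈ fixingSubgroup G Γᶜ → h • (k • B') = k • B' := by
      intro k h hh
      by_cases hne : ∃ z, z ∈ k • B' ∧ z ∈ Γ
      · obtain ⟨z, hz1, hz2⟩ := hne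
        have hkB : k • B' = B' := hB'.smul_eq_of_nonempty ⟨z, hz1, hΓB hz2⟩
        rw [hkB]
        exact hB'.smul_eq_of_mem (hΓB hz2) (hΓB (hpres h hh z hz2))
      · push Not at hne
        ext z
        constructor
        · rintro ⟨w, hw, rfl⟩
          show h • w ∈ _
          rw [hfix h hh w (hne w hw)]; exact hw
        · intro hz
          exact ⟨z, hz, hfix h hh z (hne z hz)⟩
    have hle : fixingSubgroup G Γᶜ ≤ (stabilizer G B').normalCore := by
      intro h hh k
      show k * h * k⁻¹ ∈ stabilizer G B'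
      rw [mem_stabilizer_iff, mul_smul, mul_smul, hstab k⁻¹ h hh, smul_inv_smul]
    have hNne : (stabilizer G B').normalCore ≠ ⊥ := by
      intro hbot
      have : (h₀ : G) ∈ (stabilizer G B').normalCore := hle h₀.2
      rw [hbot, Subgroup.mem_bot] at this
      rw [this, one_smul] at hh₀'
      exact hxx' hh₀'
    have hNt := hqp _ (Subgroup.normalCore_normal _) hNne
    obtain ⟨z, hz⟩ : ∃ z, z ∉ B' := by
      by_contra hcon
      push Not at hcon
      exact hB'u (Set.eq_univ_of_forall hcon)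
    obtain ⟨n, hn⟩ := hNt.exists_smul_eq x z
    have hn2 : (n : G) • B' = B' := mem_stabilizer_iff.mp (Subgroup.normalCore_le _ n.2)
    apply hz
    have h5 : (n : G) • x = z := hn
    have h6 : (n : G) • x ∈ (n : G) • B' := Set.smul_mem_smul_set hxB'
    rw [hn2, h5] at h6
    exact h6

/-- Let G act faithfully on a finite set in such a way that every non-trivial normal subgroup of G is transitive (G is quasiprimitive). Let Γ be a subset with more than one point and not the whole set, such that the pointwise stabilizer of the complement of Γ acts transitively on Γ (a Jordan set). If that pointwise stabilizer acts primitively on Γ, then G is k-fold transitive where k is one more than the number of points outside Γ (the Jordan set is a trivial one). -/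
theorem result {G Ω : Type*} [Group G] [Finite G] [MulAction G Ω] [FaithfulSMul G Ω] [Finite Ω]
    (hqp : ∀ N : Subgroup G, N.Normal → N ≠ ⊥ → MulAction.IsPretransitive ↥N Ω)
    (Γ : Set Ω) (hΓ1 : 1 < Γ.ncard) (hΓ2 : Γ.ncard < Nat.card Ω)
    (hJ : MulAction.IsPretransitive ↥(fixingSubgroup G Γᶜ) ↥(SubMulAction.ofFixingSubgroup G Γᶜ))
    (hJp : MulAction.IsPreprimitive ↥(fixingSubgroup G Γᶜ) ↥(SubMulAction.ofFixingSubgroup G Γᶜ)) :
    MulAction.IsMultiplyPretransitive G Ω (Nat.card Ω - Γ.ncard + 1) := by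
  classical
  have hprim := prim hqp Γ hΓ1 hJp
  have hc : Γᶜ.ncard = Nat.card Ω - Γ.ncard := Set.ncard_compl Γ
  have hsn : Γᶜ.ncard = (Nat.card Ω - Γ.ncard - 1) + 1 := by omega
  have hsn' : (Nat.card Ω - Γ.ncard - 1) + 2 < Nat.card Ω := by omega
  have h := hprim.isMultiplyPreprimitive hsn hsn' hJp
  have h2 : Nat.card Ω - Γ.ncard + 1 = (Nat.card Ω - Γ.ncard - 1) + 2 := by omega
  rw [h2]
  exact h.isMultiplyPretransitive

end Cfsg.Agent.S3619
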