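import Cfsg.Statements.S3660
import Cfsg.Agent.Helper18.SL2Graph
-- import your own Cfsg.Agent.* helpers here

set_option autoImplicit false
open Cfsg

namespace Cfsg.Agent.S3660

/-- The prime graph of a finite group has the prime divisors of its order as vertices, two distinct primes p, q being joined when the group has an element of order pq; two groups have the same prime graph when they have the same prime divisors and the same joined pairs. Let F be a finite field of characteristic 2 with at least 4 elements. Then there are finite groups of arbitrarily large order with the same prime graph as PSL(2,F); in particular PSL(2,F) is not determined by its prime graph. -/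
theorem result {F : Type*} [Field F] [Fintype F] [CharP F 2] (hF : 4 ≤ Fintype.card F) (N : ℕ) :
    ∃ (H : Type) (_ : Group H) (_ : Finite H), N < Nat.card H ∧
      ((∀ p : ℕ, p.Prime → (p ∣ Nat.card (Matrix.ProjectiveSpecialLinearGroup (Fin 2) F) ↔ p ∣ Nat.card H)) ∧
      (∀ p q : ℕ, p.Prime → q.Prime → p ≠ q → ((∃ g : (Matrix.ProjectiveSpecialLinearGroup (Fin 2) F), orderOf g = p * q) ↔ (∃ g : H, orderOf g = p * q)))) := by
  classical
  obtain ⟨hlt, hcard, hgraph⟩ := Cfsg.Agent.Helper18.sl2_semidirect_graph F N
  obtain ⟨e⟩ := Cfsg.Agent.Helper18.psl2_equiv_sl2 F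
  have hfin : Finite (SemidirectProduct (Multiplicative (Fin N → Fin 2 → F))
      (Matrix.SpecialLinearGroup (Fin 2) F) (Cfsg.Agent.Helper18.slPhi F N)) :=
    Finite.of_equiv _ SemidirectProduct.equivProd.symm
  obtain ⟨H, hG, hFin, ⟨f⟩⟩ := Cfsg.Agent.Helper18.exists_small_model
    (SemidirectProduct (Multiplicative (Fin N → Fin 2 → F))
      (Matrix.SpecialLinearGroup (Fin 2) F) (Cfsg.Agent.Helper18.slPhi F N))
  refine ⟨H, hG, hFin, ?_, ?_, ?_⟩
  · rw [Nat.card_congr f.toEquiv]
    exact hlt
  · intro p hp
    rw [Nat.card_congr f.toEquiv, Nat.card_congr e.toEquiv]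
    exact (hcard p hp).symm
  · intro p q hp hq hpq
    rw [Cfsg.Agent.Helper18.exists_orderOf_congr e, Cfsg.Agent.Helper18.exists_orderOf_congr f]
    exact (hgraph p q hp hq hpq).symm

end Cfsg.Agent.S3660
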