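import Cfsg.Statements.S3669
import Cfsg.Agent.Helper12.Ord60

set_option autoImplicit false
open Cfsg

namespace Cfsg.Agent.S3669

/-- The character degree graph of a finite group has as vertices the primes dividing some irreducible complex character degree, two distinct primes being joined when their product divides some irreducible character degree; two groups have the same character degree graph when they have the same vertices and the same joined pairs. A finite group of order 60 with the same character degree graph as the alternating group A₅ (whose character degrees are 1, 3, 4, 5, so the graph has vertices 2, 3, 5 and no edges) is isomorphic to A₅. -/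
theorem result {G : Type*} [Group G] [Finite G] (hcard : Nat.card G = 60)
    (hΓ : Cfsg.degreePrimes G = Cfsg.degreePrimes (alternatingGroup (Fin 5)) ∧ Cfsg.degreeGraph G = Cfsg.degreeGraph (alternatingGroup (Fin 5))) : Nonempty (G ≃* alternatingGroup (Fin 5)) := by
  classical
  obtain ⟨⟨χa5, h5⟩, ⟨χa3, h3⟩, ⟨χa4, h4⟩⟩ := Helper12.a5_degrees
  have hP := hΓ.1
  have m5 : 5 ∈ Cfsg.degreePrimes G := by
    rw [hP]
    unfold Cfsg.degreePrimes Cfsg.charDegrees
    simp only [Set.mem_setOf_eq]
    exact ⟨by norm_num, 5, ⟨χa5, h5⟩, dvd_rfl⟩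
  have m3 : 3 ∈ Cfsg.degreePrimes G := by
    rw [hP]
    unfold Cfsg.degreePrimes Cfsg.charDegrees
    simp only [Set.mem_setOf_eq]
    exact ⟨by norm_num, 3, ⟨χa3, h3⟩, dvd_rfl⟩
  have m2 : 2 ∈ Cfsg.degreePrimes G := by
    rw [hP]
    unfold Cfsg.degreePrimes Cfsg.charDegrees
    simp only [Set.mem_setOf_eq]
    exact ⟨Nat.prime_two, 4, ⟨χa4, h4⟩, ⟨2, rfl⟩⟩
  unfold Cfsg.degreePrimes Cfsg.charDegrees at m5 m3 m2
  simp only [Set.mem_setOf_eq] at m5 m3 m2
  obtain ⟨-, d5, ⟨χ5, rfl⟩, hd5⟩ := m5
  obtain ⟨-, d3, ⟨χ3, rfl⟩, hd3⟩ := m3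
  obtain ⟨-, d2, ⟨χ2, rfl⟩, hd2⟩ := m2
  exact Helper12.ord60_of_degrees hcard χ5 χ3 χ2 hd5 hd3 hd2

end Cfsg.Agent.S3669
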