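import Cfsg.Statements.S3678
import Cfsg.Agent.Helper18.SL2Graph
-- import your own Cfsg.Agent.* helpers here

set_option autoImplicit false
open Cfsg

namespace Cfsg.Agent.S3678

open Cfsg.Agent.Helper18

theorem cheb_pow {R : Type*} [CommRing R] (M : Matrix (Fin 2) (Fin 2) R) (hdet : M.det = 1)
    (n : ℕ) (ε : R) (ha : chebU (M 0 0 + M 1 1) (n + 1) = 0)
    (hb : chebU (M 0 0 + M 1 1) n = -ε) :
    M ^ (n + 1) = ε • (1 : Matrix (Fin 2) (Fin 2) R) := by
  rw [sl2_pow M hdet n, ha, hb]
  simp

theorem sl2_char2_pow {E : Type*} [Field E] [CharP E 2] (h8 : ∀ t : E, t ^ 8 = t)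
    (g : Matrix.SpecialLinearGroup (Fin 2) E) : g ^ 2 = 1 ∨ g ^ 7 = 1 ∨ g ^ 9 = 1 := by
  have h2 : (2 : E) = 0 := CharTwo.two_eq_zero
  have hdet : g.1.det = 1 := g.2
  obtain ⟨t, ht⟩ : ∃ t : E, t = g.1 0 0 + g.1 1 1 := ⟨_, rfl⟩
  have hprod : t * (t - 1) * (t ^ 3 + t + 1) * (t ^ 3 + t ^ 2 + 1) = 0 := by
    linear_combination h8 t + (t ^ 5 - t ^ 4) * h2
  have lift : ∀ n : ℕ, g.1 ^ (n + 1) = (1 : E) • (1 : Matrix (Fin 2) (Fin 2) E) →
      g ^ (n + 1) = 1 := by
    intro n h
    apply sl_eq_of_coe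
    rw [Matrix.SpecialLinearGroup.coe_pow, Matrix.SpecialLinearGroup.coe_one, h, one_smul]
  rcases mul_eq_zero.mp hprod with h | hc2
  · rcases mul_eq_zero.mp h with h | hc1
    · rcases mul_eq_zero.mp h with h0 | h1
      · left
        apply lift 1
        apply cheb_pow g.1 hdet 1 1
        · rw [← ht]; simp only [chebU]; linear_combination h0
        · rw [← ht]; simp only [chebU]; linear_combination h2
      · right; right
        have h3 : g ^ 3 = 1 := by
          apply lift 2
          apply cheb_pow g.1 hdet 2 1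
          · rw [← ht]; simp only [chebU]; linear_combination (t + 1) * h1
          · rw [← ht]; simp only [chebU]; linear_combination h1 + h2
        rw [show 9 = 3 * 3 from rfl, pow_mul, h3, one_pow]
    · right; right
      apply lift 8
      apply cheb_pow g.1 hdet 8 1
      · rw [← ht]; simp only [chebU]
        linear_combination (t ^ 5 - 8 * t ^ 3 - t ^ 2 + 23 * t + 9) * hc1
          + (-16 * t ^ 2 - 16 * t - 4) * h2
      · rw [← ht]; simp only [chebU]
        linear_combination (t ^ 4 - 7 * t ^ 2 - t + 17) * hc1 + (4 * t ^ 2 - 10 * t - 8) * h2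
  · right; left
    apply lift 6
    apply cheb_pow g.1 hdet 6 1
    · rw [← ht]; simp only [chebU]
      linear_combination (t ^ 3 - t ^ 2 - 4 * t + 3) * hc2 + (2 * t ^ 2 + 2 * t - 2) * h2
    · rw [← ht]; simp only [chebU]
      linear_combination (t ^ 2 - t - 3) * hc2 + (t ^ 2 + 2 * t + 2) * h2

theorem sl2_char2_three {E : Type*} [Field E] [Finite E] [CharP E 2] :
    3 ∣ Nat.card (Matrix.SpecialLinearGroup (Fin 2) E) := by
  have h2 : (2 : E) = 0 := CharTwo.two_eq_zero
  have hd : (!![0, 1; 1, 1] : Matrix (Fin 2) (Fin 2) E).det = 1 := by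
    rw [Matrix.det_fin_two_of]; linear_combination (-1 : E) * h2
  obtain ⟨w, hw⟩ : ∃ w : Matrix.SpecialLinearGroup (Fin 2) E, w.1 = !![0, 1; 1, 1] :=
    ⟨⟨_, hd⟩, rfl⟩
  have htr : w.1 0 0 + w.1 1 1 = 1 := by rw [hw]; simp
  have hw3 : w ^ 3 = 1 := by
    apply sl_eq_of_coe
    rw [Matrix.SpecialLinearGroup.coe_pow, Matrix.SpecialLinearGroup.coe_one]
    have h := cheb_pow w.1 w.2 2 1 (by rw [htr]; simp only [chebU]; norm_num)
      (by rw [htr]; simp only [chebU]; linear_combination h2)
    rw [one_smul] at h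
    exact h
  have hw1 : w ≠ 1 := by
    intro h
    have h3 : w.1 0 0 = (1 : Matrix.SpecialLinearGroup (Fin 2) E).1 0 0 := by rw [h]
    rw [hw] at h3
    simp at h3
  have : Fact (Nat.Prime 3) := ⟨Nat.prime_three⟩
  have ho : orderOf w = 3 := orderOf_eq_prime hw3 hw1
  have h4 := orderOf_dvd_natCard w
  rw [ho] at h4
  exact h4

theorem diag_pow {E : Type*} [Field E] (a b : E) (n : ℕ) :
    (!![a, 0; 0, b] : Matrix (Fin 2) (Fin 2) E) ^ n = !![a ^ n, 0; 0, b ^ n] := by
  induction n with
  | zero => simp [Matrix.one_fin_two]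
  | succ n ih =>
    rw [pow_succ, ih, Matrix.mul_fin_two]
    simp [pow_succ]

theorem sl2_char2_seven {E : Type*} [Field E] [Finite E] (h8 : ∀ t : E, t ^ 8 = t)
    (hcard : 2 < Nat.card E) : 7 ∣ Nat.card (Matrix.SpecialLinearGroup (Fin 2) E) := by
  classical
  obtain ⟨a, ha0, ha1⟩ : ∃ a : E, a ≠ 0 ∧ a ≠ 1 := by
    by_contra hcon
    push Not at hcon
    have h01 : ∀ a : E, a = 0 ∨ a = 1 := fun a => by
      by_cases h : a = 0
      · left; exact h
      · right; exact hcon a h
    have := Fintype.ofFinite E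
    have hsub : (Finset.univ : Finset E) ⊆ {0, 1} := fun a _ => by simpa using h01 a
    have h3 := Finset.card_le_card hsub
    have h4 : ({0, 1} : Finset E).card ≤ 2 := Finset.card_le_two
    rw [Finset.card_univ, ← Nat.card_eq_fintype_card] at h3
    omega
  have ha7 : a ^ 7 = 1 := by
    have h := h8 a
    have h' : a * (a ^ 7 - 1) = 0 := by linear_combination h
    rcases mul_eq_zero.mp h' with h'' | h''
    · exact absurd h'' ha0
    · exact sub_eq_zero.mp h''
  have hd : (!![a, 0; 0, a⁻¹] : Matrix (Fin 2) (Fin 2) E).det = 1 := by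
    rw [Matrix.det_fin_two_of, mul_inv_cancel₀ ha0]; ring
  obtain ⟨g, hg⟩ : ∃ g : Matrix.SpecialLinearGroup (Fin 2) E, g.1 = !![a, 0; 0, a⁻¹] :=
    ⟨⟨_, hd⟩, rfl⟩
  have hg7 : g ^ 7 = 1 := by
    apply sl_eq_of_coe
    rw [Matrix.SpecialLinearGroup.coe_pow, Matrix.SpecialLinearGroup.coe_one, hg, diag_pow,
      inv_pow, ha7, inv_one, Matrix.one_fin_two]
  have hg1 : g ≠ 1 := by
    intro h
    have h3 : g.1 0 0 = (1 : Matrix.SpecialLinearGroup (Fin 2) E).1 0 0 := by rw [h]
    rw [hg] at h3
    simp at h3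
    exact ha1 h3
  have : Fact (Nat.Prime 7) := ⟨by norm_num⟩
  have ho : orderOf g = 7 := orderOf_eq_prime hg7 hg1
  have h4 := orderOf_dvd_natCard g
  rw [ho] at h4
  exact h4

theorem psl_pow_eq_one {F : Type*} [Field F] (g : Matrix.SpecialLinearGroup (Fin 2) F) (n : ℕ)
    (ε : F) (hε : ε ^ 2 = 1) (h : g.1 ^ n = ε • (1 : Matrix (Fin 2) (Fin 2) F)) :
    (QuotientGroup.mk g : Matrix.ProjectiveSpecialLinearGroup (Fin 2) F) ^ n = 1 := by
  rw [← QuotientGroup.mk_pow, QuotientGroup.eq_one_iff, Matrix.SpecialLinearGroup.mem_center_iff]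
  refine ⟨ε, by simpa using hε, ?_⟩
  rw [Matrix.SpecialLinearGroup.coe_pow, h, Matrix.scalar_apply, Matrix.smul_one_eq_diagonal]

theorem not_mem_center_of_entry {F : Type*} [Field F] (g : Matrix.SpecialLinearGroup (Fin 2) F)
    (h : g.1 0 1 ≠ 0) : g ∉ Subgroup.center (Matrix.SpecialLinearGroup (Fin 2) F) := by
  intro hc
  obtain ⟨r, _, hr⟩ := Matrix.SpecialLinearGroup.mem_center_iff.mp hc
  apply h
  rw [← hr]
  simp

theorem psl_dvd_card {F : Type*} [Field F] [Finite F] (g : Matrix.SpecialLinearGroup (Fin 2) F)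
    (p : ℕ) (hp : p.Prime) (h01 : g.1 0 1 ≠ 0)
    (hpow : (QuotientGroup.mk g : Matrix.ProjectiveSpecialLinearGroup (Fin 2) F) ^ p = 1) :
    p ∣ Nat.card (Matrix.ProjectiveSpecialLinearGroup (Fin 2) F) := by
  have hne : (QuotientGroup.mk g : Matrix.ProjectiveSpecialLinearGroup (Fin 2) F) ≠ 1 :=
    fun h => not_mem_center_of_entry g h01 ((QuotientGroup.eq_one_iff g).mp h)
  have : Fact p.Prime := ⟨hp⟩
  have ho := orderOf_eq_prime hpow hne
  have h4 := orderOf_dvd_natCard (QuotientGroup.mk g : Matrix.ProjectiveSpecialLinearGroup (Fin 2) F)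
  rw [ho] at h4
  exact h4

theorem f7_seven {F : Type*} [Field F] [Fintype F] (hF : Fintype.card F = 7) : (7 : F) = 0 := by
  have h := Nat.cast_card_eq_zero F
  rw [hF] at h
  exact_mod_cast h

theorem psl_f7_pow {F : Type*} [Field F] [Fintype F] (hF : Fintype.card F = 7)
    (x : Matrix.ProjectiveSpecialLinearGroup (Fin 2) F) : x ^ 4 = 1 ∨ x ^ 3 = 1 ∨ x ^ 7 = 1 := by
  have h7 : (7 : F) = 0 := f7_seven hF
  obtain ⟨g, rfl⟩ := QuotientGroup.mk_surjective x
  have hdet : g.1.det = 1 := g.2
  obtain ⟨t, ht⟩ : ∃ t : F, t = g.1 0 0 + g.1 1 1 := ⟨_, rfl⟩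
  have hpc : t ^ 7 = t := by
    have h := FiniteField.pow_card t
    rwa [hF] at h
  have hprod : t * (t - 1) * (t - 2) * (t - 3) * (t - 4) * (t - 5) * (t - 6) = 0 := by
    linear_combination hpc + (103 * t - 252 * t ^ 2 + 232 * t ^ 3 - 105 * t ^ 4 + 25 * t ^ 5
      - 3 * t ^ 6) * h7
  have hm1 : ((-1 : F)) ^ 2 = 1 := by norm_num
  have h1 : ((1 : F)) ^ 2 = 1 := by norm_num
  rcases mul_eq_zero.mp hprod with h | h6
  · rcases mul_eq_zero.mp h with h | h5
    · rcases mul_eq_zero.mp h with h | h4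
      · rcases mul_eq_zero.mp h with h | h3
        · rcases mul_eq_zero.mp h with h | h2'
          · rcases mul_eq_zero.mp h with h0 | h1'
            · left
              have htk : t = 0 := h0
              have e := psl_pow_eq_one g 2 (-1) hm1 (cheb_pow g.1 hdet 1 (-1)
                (by rw [← ht, htk]; simp only [chebU]; linear_combination (0 : F) * h7)
                (by rw [← ht, htk]; simp only [chebU]; linear_combination (0 : F) * h7))
              rw [show 4 = 2 * 2 from rfl, pow_mul, e, one_pow]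
            · right; left
              have htk : t = 1 := by linear_combination h1'
              exact psl_pow_eq_one g 3 (-1) hm1 (cheb_pow g.1 hdet 2 (-1)
                (by rw [← ht, htk]; simp only [chebU]; linear_combination (0 : F) * h7)
                (by rw [← ht, htk]; simp only [chebU]; linear_combination (0 : F) * h7))
          · right; right
            have htk : t = 2 := by linear_combination h2'
            exact psl_pow_eq_one g 7 1 h1 (cheb_pow g.1 hdet 6 1
              (by rw [← ht, htk]; simp only [chebU]; linear_combination (1 : F) * h7)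
              (by rw [← ht, htk]; simp only [chebU]; linear_combination (1 : F) * h7))
        · left
          have htk : t = 3 := by linear_combination h3
          exact psl_pow_eq_one g 4 (-1) hm1 (cheb_pow g.1 hdet 3 (-1)
            (by rw [← ht, htk]; simp only [chebU]; linear_combination (3 : F) * h7)
            (by rw [← ht, htk]; simp only [chebU]; linear_combination (1 : F) * h7))
      · left
        have htk : t = 4 := by linear_combination h4
        exact psl_pow_eq_one g 4 (-1) hm1 (cheb_pow g.1 hdet 3 (-1)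
          (by rw [← ht, htk]; simp only [chebU]; linear_combination (8 : F) * h7)
          (by rw [← ht, htk]; simp only [chebU]; linear_combination (2 : F) * h7))
    · right; right
      have htk : t = 5 := by linear_combination h5
      exact psl_pow_eq_one g 7 (-1) hm1 (cheb_pow g.1 hdet 6 (-1)
        (by rw [← ht, htk]; simp only [chebU]; linear_combination (1807 : F) * h7)
        (by rw [← ht, htk]; simp only [chebU]; linear_combination (377 : F) * h7))
  · right; left
    have htk : t = 6 := by linear_combination h6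
    exact psl_pow_eq_one g 3 1 h1 (cheb_pow g.1 hdet 2 1
      (by rw [← ht, htk]; simp only [chebU]; linear_combination (5 : F) * h7)
      (by rw [← ht, htk]; simp only [chebU]; linear_combination (1 : F) * h7))

theorem psl_f7_elements {F : Type*} [Field F] [Fintype F] (hF : Fintype.card F = 7) :
    2 ∣ Nat.card (Matrix.ProjectiveSpecialLinearGroup (Fin 2) F) ∧
    3 ∣ Nat.card (Matrix.ProjectiveSpecialLinearGroup (Fin 2) F) ∧
    7 ∣ Nat.card (Matrix.ProjectiveSpecialLinearGroup (Fin 2) F) := by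
  have h7 : (7 : F) = 0 := f7_seven hF
  have hm1 : ((-1 : F)) ^ 2 = 1 := by norm_num
  have h1 : ((1 : F)) ^ 2 = 1 := by norm_num
  have hne : (1 : F) ≠ 0 := one_ne_zero
  refine ⟨?_, ?_, ?_⟩
  · have hd : (!![0, -1; 1, 0] : Matrix (Fin 2) (Fin 2) F).det = 1 := by
      rw [Matrix.det_fin_two_of]; ring
    obtain ⟨s, hs⟩ : ∃ s : Matrix.SpecialLinearGroup (Fin 2) F, s.1 = !![0, -1; 1, 0] :=
      ⟨⟨_, hd⟩, rfl⟩
    have htr : s.1 0 0 + s.1 1 1 = 0 := by rw [hs]; simp
    have h01 : s.1 0 1 ≠ 0 := by rw [hs]; simp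
    exact psl_dvd_card s 2 Nat.prime_two h01 (psl_pow_eq_one s 2 (-1) hm1
      (cheb_pow s.1 s.2 1 (-1) (by rw [htr]; simp only [chebU]; norm_num)
        (by rw [htr]; simp only [chebU]; norm_num)))
  · have hd : (!![0, -1; 1, -1] : Matrix (Fin 2) (Fin 2) F).det = 1 := by
      rw [Matrix.det_fin_two_of]; ring
    obtain ⟨w, hw⟩ : ∃ w : Matrix.SpecialLinearGroup (Fin 2) F, w.1 = !![0, -1; 1, -1] :=
      ⟨⟨_, hd⟩, rfl⟩
    have htr : w.1 0 0 + w.1 1 1 = -1 := by rw [hw]; simp
    have h01 : w.1 0 1 ≠ 0 := by rw [hw]; simp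
    exact psl_dvd_card w 3 Nat.prime_three h01 (psl_pow_eq_one w 3 1 h1
      (cheb_pow w.1 w.2 2 1 (by rw [htr]; simp only [chebU]; norm_num)
        (by rw [htr]; simp only [chebU]; norm_num)))
  · have hd : (!![1, 1; 0, 1] : Matrix (Fin 2) (Fin 2) F).det = 1 := by
      rw [Matrix.det_fin_two_of]; ring
    obtain ⟨u, hu⟩ : ∃ u : Matrix.SpecialLinearGroup (Fin 2) F, u.1 = !![1, 1; 0, 1] :=
      ⟨⟨_, hd⟩, rfl⟩
    have htr : u.1 0 0 + u.1 1 1 = 2 := by rw [hu]; simp; norm_num
    have h01 : u.1 0 1 ≠ 0 := by rw [hu]; simp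
    exact psl_dvd_card u 7 (by norm_num) h01 (psl_pow_eq_one u 7 1 h1
      (cheb_pow u.1 u.2 6 1 (by rw [htr]; simp only [chebU]; linear_combination (1 : F) * h7)
        (by rw [htr]; simp only [chebU]; linear_combination (1 : F) * h7)))

theorem prime_dvd_of_pow {A : Type*} [Group A] [Finite A] (a b c : ℕ)
    (h : ∀ x : A, x ^ a = 1 ∨ x ^ b = 1 ∨ x ^ c = 1) (p : ℕ) (hp : p.Prime)
    (hpA : p ∣ Nat.card A) : p ∣ a ∨ p ∣ b ∨ p ∣ c := by
  have : Fact p.Prime := ⟨hp⟩
  obtain ⟨x, hx⟩ := exists_prime_orderOf_dvd_card' p hpA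
  rcases h x with h1 | h1 | h1
  · left; rw [← hx]; exact orderOf_dvd_of_pow_eq_one h1
  · right; left; rw [← hx]; exact orderOf_dvd_of_pow_eq_one h1
  · right; right; rw [← hx]; exact orderOf_dvd_of_pow_eq_one h1

/-- The prime graph of a finite group has the prime divisors of its order as vertices, two distinct primes p, q being joined when the group has an element of order pq; two groups have the same prime graph when they have the same prime divisors and the same joined pairs. Let F be the field with 7 elements. There are finite groups of arbitrarily large order with the same prime graph as PSL(2,F) (the graph on {2, 3, 7} with no edges, which is also the prime graph of PSL(2,8)). -/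
theorem result {F : Type*} [Field F] [Fintype F] (hF : Fintype.card F = 7) (N : ℕ) :
    ∃ (H : Type) (_ : Group H) (_ : Finite H), N < Nat.card H ∧
      ((∀ p : ℕ, p.Prime → (p ∣ Nat.card (Matrix.ProjectiveSpecialLinearGroup (Fin 2) F) ↔ p ∣ Nat.card H)) ∧
      (∀ p q : ℕ, p.Prime → q.Prime → p ≠ q → ((∃ g : (Matrix.ProjectiveSpecialLinearGroup (Fin 2) F), orderOf g = p * q) ↔ (∃ g : H, orderOf g = p * q)))) := by
  classical
  obtain ⟨hlt, hcard, hgraph⟩ := sl2_semidirect_graph (GaloisField 2 3) N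
  have hfin : Finite (SemidirectProduct (Multiplicative (Fin N → Fin 2 → GaloisField 2 3))
      (Matrix.SpecialLinearGroup (Fin 2) (GaloisField 2 3)) (slPhi (GaloisField 2 3) N)) :=
    Finite.of_equiv _ SemidirectProduct.equivProd.symm
  obtain ⟨H, hG, hFin, ⟨f⟩⟩ := exists_small_model
    (SemidirectProduct (Multiplicative (Fin N → Fin 2 → GaloisField 2 3))
      (Matrix.SpecialLinearGroup (Fin 2) (GaloisField 2 3)) (slPhi (GaloisField 2 3) N))
  have hEc : Nat.card (GaloisField 2 3) = 8 := by
    rw [GaloisField.card 2 3 (by norm_num)]; norm_num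
  have h8 : ∀ t : GaloisField 2 3, t ^ 8 = t := by
    intro t
    have := Fintype.ofFinite (GaloisField 2 3)
    have h := FiniteField.pow_card t
    rwa [← Nat.card_eq_fintype_card, hEc] at h
  have hS := sl2_char2_pow h8
  have hS2 : 2 ∣ Nat.card (Matrix.SpecialLinearGroup (Fin 2) (GaloisField 2 3)) := sl2_card_even
  have hS3 : 3 ∣ Nat.card (Matrix.SpecialLinearGroup (Fin 2) (GaloisField 2 3)) :=
    sl2_char2_three
  have hS7 : 7 ∣ Nat.card (Matrix.SpecialLinearGroup (Fin 2) (GaloisField 2 3)) :=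
    sl2_char2_seven h8 (by rw [hEc]; norm_num)
  have hP := psl_f7_pow hF
  obtain ⟨hP2, hP3, hP7⟩ := psl_f7_elements hF
  have hp7 : Nat.Prime 7 := by norm_num
  refine ⟨H, hG, hFin, ?_, ?_, ?_⟩
  · rw [Nat.card_congr f.toEquiv]
    exact hlt
  · intro p hp
    rw [Nat.card_congr f.toEquiv, hcard p hp]
    have e1 : p ∣ Nat.card (Matrix.ProjectiveSpecialLinearGroup (Fin 2) F) ↔
        (p = 2 ∨ p = 3 ∨ p = 7) := by
      constructor
      · intro h
        rcases prime_dvd_of_pow 4 3 7 hP p hp h with h' | h' | h'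
        · left
          exact (Nat.prime_dvd_prime_iff_eq hp Nat.prime_two).mp
            (hp.dvd_of_dvd_pow (show p ∣ 2 ^ 2 from h'))
        · right; left
          exact (Nat.prime_dvd_prime_iff_eq hp Nat.prime_three).mp h'
        · right; right
          exact (Nat.prime_dvd_prime_iff_eq hp hp7).mp h'
      · rintro (rfl | rfl | rfl)
        · exact hP2
        · exact hP3
        · exact hP7
    have e2 : p ∣ Nat.card (Matrix.SpecialLinearGroup (Fin 2) (GaloisField 2 3)) ↔
        (p = 2 ∨ p = 3 ∨ p = 7) := by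
      constructor
      · intro h
        rcases prime_dvd_of_pow 2 7 9 hS p hp h with h' | h' | h'
        · left
          exact (Nat.prime_dvd_prime_iff_eq hp Nat.prime_two).mp h'
        · right; right
          exact (Nat.prime_dvd_prime_iff_eq hp hp7).mp h'
        · right; left
          exact (Nat.prime_dvd_prime_iff_eq hp Nat.prime_three).mp
            (hp.dvd_of_dvd_pow (show p ∣ 3 ^ 2 from h'))
      · rintro (rfl | rfl | rfl)
        · exact hS2
        · exact hS3
        · exact hS7
    rw [e1, e2]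
  · intro p q hp hq hpq
    rw [exists_orderOf_congr f, hgraph p q hp hq hpq]
    constructor
    · rintro ⟨x, hx⟩
      exfalso
      rcases hP x with h | h | h
      · have h' := orderOf_dvd_of_pow_eq_one h
        rw [hx] at h'
        exact not_mul_dvd_prime_pow hp hq hpq Nat.prime_two (k := 2) h'
      · have h' := orderOf_dvd_of_pow_eq_one h
        rw [hx] at h'
        exact not_mul_dvd_prime_pow hp hq hpq Nat.prime_three (k := 1) h'
      · have h' := orderOf_dvd_of_pow_eq_one h
        rw [hx] at h'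
        exact not_mul_dvd_prime_pow hp hq hpq hp7 (k := 1) h'
    · rintro ⟨g, hg⟩
      exfalso
      rcases hS g with h | h | h
      · have h' := orderOf_dvd_of_pow_eq_one h
        rw [hg] at h'
        exact not_mul_dvd_prime_pow hp hq hpq Nat.prime_two (k := 1) h'
      · have h' := orderOf_dvd_of_pow_eq_one h
        rw [hg] at h'
        exact not_mul_dvd_prime_pow hp hq hpq hp7 (k := 1) h'
      · have h' := orderOf_dvd_of_pow_eq_one h
        rw [hg] at h'
        exact not_mul_dvd_prime_pow hp hq hpq Nat.prime_three (k := 2) h'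

end Cfsg.Agent.S3678
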