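import Cfsg.Statements.S3680
import Mathlib
import Cfsg.Agent.S0721
-- import your own Cfsg.Agent.* helpers here

set_option autoImplicit false
open Cfsg

namespace Cfsg.Agent.S3680

/-- minimal normal subgroup -/
def IsMinNormal {G : Type*} [Group G] (V : Subgroup G) : Prop :=
  V.Normal ∧ V ≠ ⊥ ∧ ∀ M : Subgroup G, M.Normal → M ≤ V → M = ⊥ ∨ M = V

theorem exists_min_normal {G : Type*} [Group G] [Finite G] [Nontrivial G] :
    ∃ V : Subgroup G, IsMinNormal V := by
  have hfin : ({V : Subgroup G | V.Normal ∧ V ≠ ⊥}).Finite := Set.toFinite _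
  have hne : ({V : Subgroup G | V.Normal ∧ V ≠ ⊥}).Nonempty :=
    ⟨⊤, inferInstance, top_ne_bot⟩
  obtain ⟨V, ⟨hVn, hV0⟩, hmin⟩ :=
    Set.exists_min_image _ (fun V : Subgroup G => Nat.card V) hfin hne
  refine ⟨V, hVn, hV0, ?_⟩
  intro M hMn hMV
  by_cases hM0 : M = ⊥
  · exact Or.inl hM0
  · right
    exact Subgroup.eq_of_le_of_card_ge hMV (hmin M ⟨hMn, hM0⟩)

theorem normal_trans {G Ω : Type*} [Group G] [MulAction G Ω] [FaithfulSMul G Ω]
    (hprim : MulAction.IsPreprimitive G Ω) (V : Subgroup G) (hV : V.Normal) (hV0 : V ≠ ⊥) :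
    MulAction.IsPretransitive V Ω := by
  apply MulAction.IsQuasiPreprimitive.isPretransitive_of_normal (G := G)
  intro h
  apply hV0
  rw [eq_bot_iff]
  intro v hv
  rw [Subgroup.mem_bot]
  apply FaithfulSMul.eq_of_smul_eq_smul (α := Ω)
  intro a
  have ha : a ∈ MulAction.fixedPoints V Ω := by rw [h]; exact Set.mem_univ a
  rw [one_smul]
  exact ha ⟨v, hv⟩

theorem semireg {G Ω : Type*} [Group G] [MulAction G Ω] [FaithfulSMul G Ω] (V : Subgroup G)
    (hV : MulAction.IsPretransitive V Ω) (c : G) (hc : ∀ v ∈ V, Commute c v) (ω : Ω)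
    (hω : c • ω = ω) : c = 1 := by
  apply FaithfulSMul.eq_of_smul_eq_smul (α := Ω)
  intro a
  obtain ⟨v, hv⟩ := hV.exists_smul_eq ω a
  have hv' : (v : G) • ω = a := hv
  rw [one_smul, ← hv', ← mul_smul, (hc v v.2).eq, mul_smul, hω]

/-- splitting a function on `Fin (m + n)` -/
def splitEquiv (T : Type*) [Group T] (m n : ℕ) :
    (Fin (m + n) → T) ≃* (Fin m → T) × (Fin n → T) :=
  { (Fin.appendEquiv m n).symm with map_mul' := fun _ _ => rfl }

theorem caseA {G Ω : Type*} [Group G] [Finite G] [MulAction G Ω] [FaithfulSMul G Ω]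
    (hprim : MulAction.IsPreprimitive G Ω) (M : Subgroup G) (hMn : M.Normal) (hM0 : M ≠ ⊥)
    (T : Type) [Group T] (m : ℕ) (hm : 0 < m) (hs : IsSimpleGroup T) (f : M ≃* (Fin m → T))
    (hT : IsMulCommutative T) :
    ∃ p : ℕ, p.Prime ∧ IsMulCommutative M ∧ (∀ x : M, x ^ p = 1) ∧
      MulAction.IsPretransitive M Ω ∧ ∀ ω : Ω, MulAction.stabilizer M ω = ⊥ := by
  have htr := normal_trans hprim M hMn hM0
  have hp : (Nat.card T).Prime := by
    letI : CommGroup T := { (inferInstance : Group T) with mul_comm := fun a b => mul_comm' a b }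
    exact IsSimpleGroup.prime_card (α := T)
  have hcomm : ∀ a b : M, a * b = b * a := by
    intro a b
    apply f.injective
    rw [map_mul, map_mul]
    funext i
    exact mul_comm' _ _
  refine ⟨Nat.card T, hp, isMulCommutative_iff.2 hcomm, ?_, htr, ?_⟩
  · intro x
    apply f.injective
    rw [map_pow, map_one]
    funext i
    rw [Pi.pow_apply, Pi.one_apply]
    exact pow_card_eq_one'
  · intro ω
    rw [eq_bot_iff]
    intro x hx
    rw [MulAction.mem_stabilizer_iff] at hx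
    rw [Subgroup.mem_bot]
    have hx' : (x : G) • ω = ω := hx
    have h1 : (x : G) = 1 := semireg M htr (x : G) (fun v hv => by
      have := hcomm x ⟨v, hv⟩
      exact congrArg Subtype.val this) ω hx'
    exact Subtype.ext h1

theorem caseB {G Ω : Type*} [Group G] [Finite G] [MulAction G Ω] [FaithfulSMul G Ω]
    (hprim : MulAction.IsPreprimitive G Ω) (ω₀ : Ω) (M₁ M₂ : Subgroup G)
    (h₁ : IsMinNormal M₁) (h₂ : IsMinNormal M₂) (hne : M₂ ≠ M₁)
    (T : Type) [Group T] (m : ℕ) (f : M₁ ≃* (Fin m → T)) :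
    ¬ IsMulCommutative T ∧
      Nonempty (↥(sSup {V : Subgroup G | IsMinNormal V}) ≃* (Fin (m + m) → T)) := by
  obtain ⟨hn₁, h0₁, hmin₁⟩ := h₁
  obtain ⟨hn₂, h0₂, hmin₂⟩ := h₂
  have htr₁ := normal_trans hprim M₁ hn₁ h0₁
  have htr₂ := normal_trans hprim M₂ hn₂ h0₂
  have hdisj : ∀ V : Subgroup G, IsMinNormal V → V ≠ M₁ → Disjoint M₁ V := by
    rintro V ⟨hVn, hV0, hVmin⟩ hVne
    rw [disjoint_iff]
    have hinf : (M₁ ⊓ V).Normal := Subgroup.normal_inf_normal M₁ V
    rcases hmin₁ (M₁ ⊓ V) hinf inf_le_left with h | h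
    · exact h
    · exfalso
      have hle : M₁ ≤ V := by rw [← h]; exact inf_le_right
      rcases hVmin M₁ hn₁ hle with h' | h'
      · exact h0₁ h'
      · exact hVne h'.symm
  have hcomm : ∀ V : Subgroup G, IsMinNormal V → V ≠ M₁ →
      ∀ x ∈ M₁, ∀ y ∈ V, Commute x y := by
    intro V hV hVne x hx y hy
    exact Subgroup.commute_of_normal_of_disjoint M₁ V hn₁ hV.1 (hdisj V hV hVne) x y hx hy
  have hc12 := hcomm M₂ ⟨hn₂, h0₂, hmin₂⟩ hne
  have hsr₁ : ∀ c : G, (∀ x ∈ M₁, Commute x c) → ∀ ω : Ω, c • ω = ω → c = 1 :=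
    fun c hc ω hω => semireg M₁ htr₁ c (fun v hv => (hc v hv).symm) ω hω
  have hsr₂ : ∀ c : G, (∀ y ∈ M₂, Commute c y) → ∀ ω : Ω, c • ω = ω → c = 1 :=
    fun c hc ω hω => semireg M₂ htr₂ c hc ω hω
  have hall : ∀ V : Subgroup G, IsMinNormal V → V = M₁ ∨ V = M₂ := by
    intro V hV
    by_cases hVne : V = M₁
    · exact Or.inl hVne
    right
    have hle : V ≤ M₂ := by
      intro v hv
      obtain ⟨y, hy⟩ := htr₂.exists_smul_eq ω₀ (v • ω₀)
      have hy' : (y : G) • ω₀ = v • ω₀ := hy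
      have h1 : (y : G)⁻¹ * v = 1 := by
        refine hsr₁ _ ?_ ω₀ ?_
        · intro x hx
          exact ((hc12 x hx y y.2).inv_right).mul_right (hcomm V hV hVne x hx v hv)
        · rw [mul_smul, ← hy', inv_smul_smul]
      have : v = y := by
        rw [inv_mul_eq_one] at h1; exact h1.symm
      rw [this]; exact y.2
    rcases hmin₂ V hV.1 hle with h | h
    · exact absurd h hV.2.1
    · exact h
  have hS : sSup {V : Subgroup G | IsMinNormal V} = M₁ ⊔ M₂ := by
    apply le_antisymm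
    · apply sSup_le
      intro V hV
      rcases hall V hV with h | h
      · rw [h]; exact le_sup_left
      · rw [h]; exact le_sup_right
    · exact sup_le (le_sSup ⟨hn₁, h0₁, hmin₁⟩) (le_sSup ⟨hn₂, h0₂, hmin₂⟩)
  have hTnc : ¬ IsMulCommutative T := by
    intro hT
    have hab : ∀ a b : M₁, a * b = b * a := by
      intro a b
      apply f.injective
      rw [map_mul, map_mul]
      funext i
      exact mul_comm' _ _
    apply h0₁
    rw [eq_bot_iff]
    intro x hx
    rw [Subgroup.mem_bot]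
    obtain ⟨y, hy⟩ := htr₂.exists_smul_eq ω₀ (x • ω₀)
    have hy' : (y : G) • ω₀ = x • ω₀ := hy
    have h1 : (y : G)⁻¹ * x = 1 := by
      refine hsr₁ _ ?_ ω₀ ?_
      · intro z hz
        exact ((hc12 z hz y y.2).inv_right).mul_right
          (congrArg Subtype.val (hab ⟨z, hz⟩ ⟨x, hx⟩))
      · rw [mul_smul, ← hy', inv_smul_smul]
    have hxy : x = y := by rw [inv_mul_eq_one] at h1; exact h1.symm
    have hx2 : x ∈ M₁ ⊓ M₂ := ⟨hx, by rw [hxy]; exact y.2⟩
    have hd := hdisj M₂ ⟨hn₂, h0₂, hmin₂⟩ hne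
    rw [disjoint_iff] at hd
    rw [hd] at hx2
    exact Subgroup.mem_bot.1 hx2
  have hex : ∀ x : M₁, ∃ y : M₂, ((y : G) * (x : G)) • ω₀ = ω₀ := by
    intro x
    obtain ⟨y, hy⟩ := htr₂.exists_smul_eq ((x : G) • ω₀) ω₀
    exact ⟨y, by rw [mul_smul]; exact hy⟩
  choose θ hθ using hex
  have huniq : ∀ (x : M₁) (y : M₂), ((y : G) * (x : G)) • ω₀ = ω₀ → y = θ x := by
    intro x y hy
    have h1 : ((θ x : G))⁻¹ * (y : G) = 1 := by
      refine hsr₁ _ ?_ ((x : G) • ω₀) ?_
      · intro z hz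
        exact ((hc12 z hz _ (θ x).2).inv_right).mul_right (hc12 z hz _ y.2)
      · have e1 : (y : G) • (x : G) • ω₀ = ω₀ := by rw [← mul_smul]; exact hy
        have e2 : (θ x : G) • (x : G) • ω₀ = ω₀ := by rw [← mul_smul]; exact hθ x
        rw [mul_smul, e1, inv_smul_eq_iff, e2]
    exact Subtype.ext (inv_mul_eq_one.1 h1).symm
  have hθmul : ∀ a b : M₁, θ (a * b) = θ a * θ b := by
    intro a b
    symm
    apply huniq
    have hc : Commute (a : G) (θ b : G) := hc12 a a.2 _ (θ b).2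
    have e : ((θ a * θ b : M₂) : G) * ((a * b : M₁) : G)
        = ((θ a : G) * (a : G)) * ((θ b : G) * (b : G)) := by
      rw [Subgroup.coe_mul, Subgroup.coe_mul]
      calc (θ a : G) * (θ b : G) * ((a : G) * (b : G))
          = (θ a : G) * ((θ b : G) * (a : G)) * (b : G) := by group
        _ = (θ a : G) * ((a : G) * (θ b : G)) * (b : G) := by rw [hc.eq]
        _ = ((θ a : G) * (a : G)) * ((θ b : G) * (b : G)) := by group
    rw [e, mul_smul, hθ b, hθ a]
  obtain ⟨θh, hθh⟩ : ∃ θh : M₁ →* M₂, ∀ x, θh x = θ x := ⟨MonoidHom.mk' θ hθmul, fun x => rfl⟩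
  have hθinj : Function.Injective θh := by
    rw [injective_iff_map_eq_one]
    intro x hx
    rw [hθh] at hx
    have h := hθ x
    rw [hx, Subgroup.coe_one, one_mul] at h
    exact Subtype.ext (hsr₂ (x : G) (fun y hy => hc12 x x.2 y hy) ω₀ h)
  have hθsurj : Function.Surjective θh := by
    intro y
    obtain ⟨x, hx⟩ := htr₁.exists_smul_eq ω₀ ((y : G)⁻¹ • ω₀)
    have hx' : (x : G) • ω₀ = (y : G)⁻¹ • ω₀ := hx
    refine ⟨x, ?_⟩
    rw [hθh]
    symm
    apply huniq
    rw [mul_smul, hx', smul_inv_smul]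
  have hcomm' : ∀ (a : M₁) (b : M₁), Commute (M₁.subtype a) ((M₂.subtype.comp θh) b) :=
    fun a b => hc12 a a.2 _ (θh b).2
  have hr2 : (M₂.subtype.comp θh).range = M₂ := by
    apply le_antisymm
    · rintro _ ⟨x, rfl⟩
      exact (θh x).2
    · intro y hy
      obtain ⟨x, hx⟩ := hθsurj ⟨y, hy⟩
      exact ⟨x, by rw [MonoidHom.comp_apply, hx]; rfl⟩
  have hinj : Function.Injective (MonoidHom.noncommCoprod M₁.subtype (M₂.subtype.comp θh) hcomm') := by
    rw [MonoidHom.noncommCoprod_injective]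
    refine ⟨M₁.subtype_injective, ?_, ?_⟩
    · rw [MonoidHom.coe_comp]
      exact M₂.subtype_injective.comp hθinj
    · rw [hr2, Subgroup.range_subtype]
      exact hdisj M₂ ⟨hn₂, h0₂, hmin₂⟩ hne
  have hrange : (MonoidHom.noncommCoprod M₁.subtype (M₂.subtype.comp θh) hcomm').range
      = sSup {V : Subgroup G | IsMinNormal V} := by
    rw [hS, MonoidHom.noncommCoprod_range, Subgroup.range_subtype, hr2]
  refine ⟨hTnc, ⟨?_⟩⟩
  exact ((MulEquiv.subgroupCongr hrange.symm).trans (MonoidHom.ofInjective hinj).symm).trans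
    ((MulEquiv.prodCongr f f).trans (splitEquiv T m m).symm)

/-- The socle of a finite primitive permutation group. Let a finite group G act faithfully and primitively on a set Ω, and let N be the subgroup generated by the minimal normal subgroups of G. Then either N is an elementary abelian p-group for some prime p and acts regularly on Ω (transitively with trivial point stabilizers), or N is isomorphic to a direct product of m ≥ 1 copies of a non-abelian simple group. -/
theorem result {G Ω : Type*} [Group G] [Finite G] [MulAction G Ω] [FaithfulSMul G Ω] [Finite Ω]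
    (hprim : MulAction.IsPreprimitive G Ω) (N : Subgroup G)
    (hN : N = sSup {V : Subgroup G | V.Normal ∧ V ≠ ⊥ ∧ ∀ M : Subgroup G, M.Normal → M ≤ V → M = ⊥ ∨ M = V}) :
    (∃ p : ℕ, p.Prime ∧ IsMulCommutative N ∧ (∀ x : N, x ^ p = 1) ∧
      MulAction.IsPretransitive N Ω ∧ ∀ ω : Ω, MulAction.stabilizer N ω = ⊥) ∨
    (∃ (T : Type) (_ : Group T) (m : ℕ), 1 ≤ m ∧ IsSimpleGroup T ∧ ¬ IsMulCommutative T ∧ Nonempty (N ≃* (Fin m → T))) := by
  classical
  by_cases hG : Subsingleton G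
  · left
    have h1 : ∀ x : N, x = 1 := fun x => Subsingleton.elim _ _
    refine ⟨2, Nat.prime_two, isMulCommutative_iff.2 (fun a b => by rw [h1 a, h1 b]),
      fun x => by rw [h1 x, one_pow], ?_, ?_⟩
    · constructor
      intro x y
      obtain ⟨g, hg⟩ := hprim.exists_smul_eq x y
      refine ⟨1, ?_⟩
      rw [one_smul, ← hg, Subsingleton.elim g 1, one_smul]
    · intro ω
      rw [eq_bot_iff]
      intro x _
      rw [Subgroup.mem_bot]; exact h1 x
  rw [not_subsingleton_iff_nontrivial] at hG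
  obtain ⟨ω₀⟩ : Nonempty Ω := by
    by_contra hΩ
    rw [not_nonempty_iff] at hΩ
    obtain ⟨g, h, hgh⟩ := exists_pair_ne G
    exact hgh (FaithfulSMul.eq_of_smul_eq_smul (α := Ω) (fun a => isEmptyElim a))
  obtain ⟨M₁, hM₁⟩ := exists_min_normal (G := G)
  have hM₁n : M₁.Normal := hM₁.1
  obtain ⟨T, instT, m, hsimple, hm, ⟨f⟩⟩ := Cfsg.Agent.S0721.result M₁ hM₁.2.1 hM₁.2.2
  by_cases huniq : ∀ V : Subgroup G, IsMinNormal V → V = M₁
  · have hNM : N = M₁ := by
      rw [hN]
      apply le_antisymm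
      · apply sSup_le
        intro V hV
        rw [huniq V hV]
      · exact le_sSup hM₁
    rw [hNM]
    by_cases hT : IsMulCommutative T
    · left; exact caseA hprim M₁ hM₁n hM₁.2.1 T m hm hsimple f hT
    · right; exact ⟨T, instT, m, hm, hsimple, hT, ⟨f⟩⟩
  · right
    push Not at huniq
    obtain ⟨M₂, hM₂, hM₂ne⟩ := huniq
    obtain ⟨hTnc, ⟨F⟩⟩ := caseB hprim ω₀ M₁ M₂ hM₁ hM₂ hM₂ne T m f
    rw [hN]
    exact ⟨T, instT, m + m, by omega, hsimple, hTnc, ⟨F⟩⟩

end Cfsg.Agent.S3680
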