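import Cfsg.Statements.S3681
-- import your own Cfsg.Agent.* helpers here

set_option autoImplicit false
open Cfsg

namespace Cfsg.Agent.S3681

theorem perm_inv_apply_self {Ω : Type*} (f : Equiv.Perm Ω) (x : Ω) : f⁻¹ (f x) = x :=
  f.symm_apply_apply x

theorem commutator_isThreeCycle {Ω : Type*} [DecidableEq Ω] [Fintype Ω] (x y : Equiv.Perm Ω)
    (α : Ω) (hxα : x α ≠ α) (hyα : y α ≠ α) (h : ∀ ω, x ω ≠ ω → y ω ≠ ω → ω = α) :
    (x⁻¹ * y⁻¹ * x * y).IsThreeCycle := by
  have hx : ∀ ω, ω ≠ α → y ω ≠ ω → x ω = ω := fun ω h1 h2 => by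
    by_contra h3; exact h1 (h ω h3 h2)
  have hy : ∀ ω, ω ≠ α → x ω ≠ ω → y ω = ω := fun ω h1 h2 => by
    by_contra h3; exact h1 (h ω h2 h3)
  have hxi : ∀ ω, x ω = ω → x⁻¹ ω = ω := fun ω h1 => by
    rw [Equiv.Perm.inv_eq_iff_eq]; exact h1.symm
  have hyi : ∀ ω, y ω = ω → y⁻¹ ω = ω := fun ω h1 => by
    rw [Equiv.Perm.inv_eq_iff_eq]; exact h1.symm
  obtain ⟨b, hb⟩ : ∃ b, b = x⁻¹ α := ⟨_, rfl⟩
  obtain ⟨d, hd⟩ : ∃ d, d = y⁻¹ α := ⟨_, rfl⟩
  have hxb : x b = α := by rw [hb]; simp
  have hyd : y d = α := by rw [hd]; simp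
  have hbα : b ≠ α := by intro e; rw [e] at hxb; exact hxα hxb
  have hdα : d ≠ α := by intro e; rw [e] at hyd; exact hyα hyd
  have hxb' : x b ≠ b := by rw [hxb]; exact hbα.symm
  have hyd' : y d ≠ d := by rw [hyd]; exact hdα.symm
  have hyb : y b = b := hy b hbα hxb'
  have hxd : x d = d := hx d hdα hyd'
  have hbd : b ≠ d := by intro e; rw [e] at hxb'; exact hxb' hxd
  have hxxα : x (x α) ≠ x α := fun e => hxα (x.injective e)
  have hyyα : y (y α) ≠ y α := fun e => hyα (y.injective e)
  have hy_xα : y (x α) = x α := hy _ hxα hxxα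
  have hx_yα : x (y α) = y α := hx _ hyα hyyα
  have key : x⁻¹ * y⁻¹ * x * y = Equiv.swap b α * Equiv.swap b d := by
    ext ω
    simp only [Equiv.Perm.mul_apply]
    by_cases h1 : ω = α
    · rw [h1, hx_yα, perm_inv_apply_self, ← hb,
        Equiv.swap_apply_of_ne_of_ne hbα.symm hdα.symm, Equiv.swap_apply_right]
    by_cases h2 : ω = b
    · rw [h2, hyb, hxb, ← hd, hxi d hxd, Equiv.swap_apply_left,
        Equiv.swap_apply_of_ne_of_ne hbd.symm hdα]
    by_cases h3 : ω = d
    · rw [h3, hyd, hyi _ hy_xα, perm_inv_apply_self, Equiv.swap_apply_right,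
        Equiv.swap_apply_left]
    rw [Equiv.swap_apply_of_ne_of_ne h2 h3, Equiv.swap_apply_of_ne_of_ne h2 h1]
    by_cases hyω : y ω = ω
    · rw [hyω]
      by_cases hxω : x ω = ω
      · rw [hxω, hyi ω hyω, hxi ω hxω]
      · have h4 : x ω ≠ α := by
          intro e
          apply h2
          rw [hb, Equiv.Perm.eq_inv_iff_eq]
          exact e
        have h5 : x (x ω) ≠ x ω := fun e => hxω (x.injective e)
        rw [hyi _ (hy _ h4 h5), perm_inv_apply_self]
    · have hxω : x ω = ω := hx ω h1 hyω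
      have h4 : y ω ≠ α := by
        intro e
        apply h3
        rw [hd, Equiv.Perm.eq_inv_iff_eq]
        exact e
      have h5 : y (y ω) ≠ y ω := fun e => hyω (y.injective e)
      rw [hx _ h4 h5, perm_inv_apply_self, hxi ω hxω]
  rw [key]
  exact Equiv.Perm.isThreeCycle_swap_mul_swap_same hbα hbd hdα.symm

/-- Bochert's bound for primitive groups. Let a finite group G act faithfully and primitively on a finite set Ω with n elements, and suppose the image of G in the symmetric group of Ω does not contain the alternating group of Ω. Then |G| · ⌊(n + 1)/2⌋! ≤ n!, that is, the index of G in the symmetric group is at least ⌊(n + 1)/2⌋!. -/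
theorem result {G Ω : Type*} [Group G] [Finite G] [MulAction G Ω] [FaithfulSMul G Ω] [Fintype Ω] [DecidableEq Ω]
    (hprim : MulAction.IsPreprimitive G Ω) (hA : ¬ alternatingGroup Ω ≤ (MulAction.toPermHom G Ω).range) :
    Nat.card G * Nat.factorial ((Fintype.card Ω + 1) / 2) ≤ Nat.factorial (Fintype.card Ω) := by
  classical
  have hfaith : ∀ g : G, (∀ ω : Ω, g • ω = ω) → g = 1 := fun g hg =>
    FaithfulSMul.eq_of_smul_eq_smul (α := Ω) (fun ω => by rw [hg ω, one_smul])
  have hex : ∃ k, ∃ Δ : Finset Ω, (∀ g : G, (∀ ω ∈ Δ, g • ω = ω) → g = 1) ∧ Δ.card = k :=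
    ⟨_, Finset.univ, fun g hg => hfaith g (fun ω => hg ω (Finset.mem_univ ω)), rfl⟩
  obtain ⟨Δ, hΔ, hcard⟩ := Nat.find_spec hex
  have hmin : ∀ Δ' : Finset Ω, (∀ g : G, (∀ ω ∈ Δ', g • ω = ω) → g = 1) →
      Δ.card ≤ Δ'.card :=
    fun Δ' h' => by rw [hcard]; exact Nat.find_min' hex ⟨Δ', h', rfl⟩
  by_cases hcase : 2 * Δ.card ≤ Fintype.card Ω
  · have hinj : Function.Injective (fun tg : Equiv.Perm {x : Ω // x ∉ Δ} × G =>
        Equiv.Perm.ofSubtype tg.1 * MulAction.toPermHom G Ω tg.2) := by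
      rintro ⟨t, g⟩ ⟨t', g'⟩ heq
      dsimp only at heq
      have h1 : (Equiv.Perm.ofSubtype (t'⁻¹ * t) : Equiv.Perm Ω)
          = MulAction.toPermHom G Ω (g' * g⁻¹) := by
        simp only [map_mul, map_inv]
        rw [inv_mul_eq_iff_eq_mul, ← mul_assoc, ← heq, mul_assoc, mul_inv_cancel, mul_one]
      have h2 : g' * g⁻¹ = 1 := by
        apply hΔ
        intro ω hω
        have h3 := congrArg (fun σ : Equiv.Perm Ω => σ ω) h1
        simp only [MulAction.toPermHom_apply, MulAction.toPerm_apply] at h3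
        rw [← h3]
        exact Equiv.Perm.ofSubtype_apply_of_not_mem _ (not_not.mpr hω)
      have h4 : g' = g := by rw [mul_inv_eq_one] at h2; exact h2
      subst h4
      have h5 : Equiv.Perm.ofSubtype t = Equiv.Perm.ofSubtype t' := mul_right_cancel heq
      rw [Equiv.Perm.ofSubtype_injective h5]
    have hle := Nat.card_le_card_of_injective _ hinj
    rw [Nat.card_prod, Nat.card_perm, Nat.card_perm] at hle
    have hcardc : Nat.card {x : Ω // x ∉ Δ} = Fintype.card Ω - Δ.card := by
      rw [Nat.card_eq_fintype_card, Fintype.card_subtype_compl, Fintype.card_coe]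
    rw [hcardc] at hle
    rw [Nat.card_eq_fintype_card (α := Ω)] at hle
    have h6 : (Fintype.card Ω + 1) / 2 ≤ Fintype.card Ω - Δ.card := by omega
    calc Nat.card G * ((Fintype.card Ω + 1) / 2).factorial
        ≤ Nat.card G * (Fintype.card Ω - Δ.card).factorial :=
          Nat.mul_le_mul_left _ (Nat.factorial_le h6)
      _ = (Fintype.card Ω - Δ.card).factorial * Nat.card G := mul_comm _ _
      _ ≤ (Fintype.card Ω).factorial := hle
  · exfalso
    push Not at hcase
    apply hA
    have hS : ¬ (∀ g : G, (∀ ω ∈ (Δᶜ : Finset Ω), g • ω = ω) → g = 1) := by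
      intro h'
      have h7 := hmin _ h'
      rw [Finset.card_compl] at h7
      omega
    push Not at hS
    obtain ⟨x, hxS, hx1⟩ := hS
    obtain ⟨α, hα⟩ : ∃ α : Ω, x • α ≠ α := by
      by_contra hcon
      push Not at hcon
      exact hx1 (hfaith x hcon)
    have hαΔ : α ∈ Δ := by
      by_contra hα'
      exact hα (hxS α (Finset.mem_compl.mpr hα'))
    have hE : ¬ (∀ g : G, (∀ ω ∈ Δ.erase α, g • ω = ω) → g = 1) := by
      intro h'
      have h7 := hmin _ h'
      rw [Finset.card_erase_of_mem hαΔ] at h7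
      have h8 : 0 < Δ.card := Finset.card_pos.mpr ⟨α, hαΔ⟩
      omega
    push Not at hE
    obtain ⟨y, hyE, hy1⟩ := hE
    have hyα : y • α ≠ α := by
      intro h'
      apply hy1
      apply hΔ
      intro ω hω
      by_cases e : ω = α
      · rw [e]; exact h'
      · exact hyE ω (Finset.mem_erase.mpr ⟨e, hω⟩)
    have h3 := commutator_isThreeCycle (MulAction.toPermHom G Ω x) (MulAction.toPermHom G Ω y)
      α hα hyα (by
        intro ω h1 h2
        by_contra e
        have hωΔ : ω ∈ Δ := by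
          by_contra hω'
          exact h1 (hxS ω (Finset.mem_compl.mpr hω'))
        exact h2 (hyE ω (Finset.mem_erase.mpr ⟨e, hωΔ⟩)))
    have hmem : (MulAction.toPermHom G Ω x)⁻¹ * (MulAction.toPermHom G Ω y)⁻¹
        * MulAction.toPermHom G Ω x * MulAction.toPermHom G Ω y
        ∈ (MulAction.toPermHom G Ω).range :=
      ⟨x⁻¹ * y⁻¹ * x * y, by simp only [map_mul, map_inv]⟩
    have hprim' : MulAction.IsPreprimitive (MulAction.toPermHom G Ω).range Ω := by
      let f : Ω →ₑ[(MulAction.toPermHom G Ω).rangeRestrict] Ω :=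
        { toFun := id, map_smul' := fun g ω => rfl }
      exact MulAction.IsPreprimitive.of_surjective (f := f) Function.surjective_id
    exact Equiv.Perm.alternatingGroup_le_of_isPreprimitive_of_isThreeCycle_mem hprim' h3 hmem

end Cfsg.Agent.S3681
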