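import Cfsg.Statements.S3683
-- import your own Cfsg.Agent.* helpers here

set_option autoImplicit false
open Cfsg

namespace Cfsg.Agent.S3683

/-- Let a finite group G act faithfully and primitively on a set Ω, and suppose the stabilizer of a point a fixes a second point b ≠ a (a suborbit of length 1 other than {a}). Then the stabilizer of a is trivial and G is cyclic of prime order. -/
theorem result {G Ω : Type*} [Group G] [Finite G] [MulAction G Ω] [FaithfulSMul G Ω] [Finite Ω]
    (hprim : MulAction.IsPreprimitive G Ω) (a b : Ω) (hab : a ≠ b) (hfix : ∀ g : G, g • a = a → g • b = b) :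
    MulAction.stabilizer G a = ⊥ ∧ IsCyclic G ∧ (Nat.card G).Prime := by
  classical
  have : Nontrivial Ω := ⟨⟨a, b, hab⟩⟩
  have : MulAction.IsPretransitive G Ω := hprim.toIsPretransitive
  have hGa : IsCoatom (MulAction.stabilizer G a) :=
    (MulAction.isCoatom_stabilizer_iff_preprimitive G a).mpr hprim
  have hGb : IsCoatom (MulAction.stabilizer G b) :=
    (MulAction.isCoatom_stabilizer_iff_preprimitive G b).mpr hprim
  have hle : MulAction.stabilizer G a ≤ MulAction.stabilizer G b := fun g hg => hfix g hg
  have heq : MulAction.stabilizer G a = MulAction.stabilizer G b := by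
    rcases eq_or_lt_of_le hle with h | h
    · exact h
    · exact absurd (hGa.2 _ h) hGb.1
  obtain ⟨g, hg⟩ := MulAction.exists_smul_eq G a b
  have hS : MulAction.stabilizer G a = ⊥ := by
    have hgN : g ∈ Subgroup.normalizer (MulAction.stabilizer G a : Set G) := by
      rw [Subgroup.mem_normalizer_iff]
      intro h
      have h1 : g * h * g⁻¹ ∈ MulAction.stabilizer G a ↔ g * h * g⁻¹ ∈ MulAction.stabilizer G b := by
        rw [heq]
      rw [h1, MulAction.mem_stabilizer_iff, MulAction.mem_stabilizer_iff, ← hg]
      rw [← mul_smul, inv_mul_cancel_right, mul_smul]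
      exact (smul_left_cancel_iff g).symm
    have hgS : g ∉ MulAction.stabilizer G a := by
      intro h
      rw [MulAction.mem_stabilizer_iff] at h
      exact hab (h.symm.trans hg)
    have hlt : MulAction.stabilizer G a < Subgroup.normalizer (MulAction.stabilizer G a : Set G) :=
      lt_of_le_of_ne Subgroup.le_normalizer (fun h => hgS (h ▸ hgN))
    have hN : (MulAction.stabilizer G a).Normal :=
      Subgroup.normalizer_eq_top_iff.mp (hGa.2 _ hlt)
    rw [Subgroup.eq_bot_iff_forall]
    intro s hs
    apply FaithfulSMul.eq_of_smul_eq_smul (α := Ω)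
    intro x
    obtain ⟨k, rfl⟩ := MulAction.exists_smul_eq G a x
    have h2 : k⁻¹ * s * k ∈ MulAction.stabilizer G a := by
      have := hN.conj_mem s hs k⁻¹
      simpa using this
    rw [MulAction.mem_stabilizer_iff] at h2
    rw [one_smul]
    calc s • k • a = k • (k⁻¹ * s * k) • a := by
          rw [← mul_smul, ← mul_smul]; congr 1; group
      _ = k • a := by rw [h2]
  rw [hS] at hGa
  refine ⟨hS, ?_⟩
  have hnt : Nontrivial G := by
    by_contra hnt
    rw [not_nontrivial_iff_subsingleton] at hnt
    exact hGa.1 (Subsingleton.elim _ _)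
  obtain ⟨x, hx⟩ := exists_ne (1 : G)
  have hzx : Subgroup.zpowers x = ⊤ :=
    hGa.2 _ (bot_lt_iff_ne_bot.mpr (Subgroup.zpowers_ne_bot.mpr hx))
  have hcyc : IsCyclic G := isCyclic_iff_exists_zpowers_eq_top.mpr ⟨x, hzx⟩
  refine ⟨hcyc, ?_⟩
  have : IsSimpleGroup G :=
    ⟨fun H _ => (eq_bot_or_bot_lt H).imp id (fun h => hGa.2 _ h)⟩
  have : IsMulCommutative G := inferInstance
  exact Group.is_simple_iff_prime_card.mp inferInstance

end Cfsg.Agent.S3683
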