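import Cfsg.Statements.S3696
import Cfsg.Agent.Helper28.AbPerm

set_option autoImplicit false
open Cfsg

namespace Cfsg.Agent.S3696

/-- Let p be a prime, Ω a finite set with n ≥ p elements, and A an abelian p-subgroup of the symmetric group on Ω whose elements of order dividing p number p^k (so k is the rank of A). Then |A| · k^k ≤ n^k, that is, |A| ≤ (n/k)^k. -/
theorem result {Ω : Type*} [Fintype Ω] [DecidableEq Ω]
    (p : ℕ) (hp : p.Prime) (hn : p ≤ Fintype.card Ω) (A : Subgroup (Equiv.Perm Ω)) (hA : IsPGroup p A) (hab : IsMulCommutative A)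
    (k : ℕ) (hk : Nat.card {x : A // x ^ p = 1} = p ^ k) :
    Nat.card A * k ^ k ≤ Fintype.card Ω ^ k := by
  classical
  let cg : CommGroup A :=
    { (inferInstance : Group A) with mul_comm := fun a b => hab.is_comm.comm a b }
  exact Cfsg.Agent.Helper28.AbPerm.main p hp hA A.subtype (Subgroup.subtype_injective A) k hk

end Cfsg.Agent.S3696
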