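import Mathlib
import Cfsg.Statements.S3703
import Cfsg.Agent.Helper19.Maz1

set_option autoImplicit false

open Cfsg

namespace Cfsg.Agent.S3703

open Cfsg.Agent.Helper19.Maz
open scoped Pointwise

theorem mem_conj_smul {Q : Type*} [Group Q] (H : Subgroup Q) (g x : Q) :
    x ∈ MulAut.conj g • H ↔ g⁻¹ * x * g ∈ H := by
  rw [Subgroup.mem_pointwise_smul_iff_inv_smul_mem, MulAut.smul_def, MulAut.conj_inv_apply]

theorem frob_inf {Q : Type*} [Group Q] (F Hq : Subgroup Q)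
    (hker : Cfsg.frobeniusKernel Hq = (F : Set Q)) (x : Q) (hx : x ∈ Hq) (hxF : x ∈ F) :
    x = 1 := by
  have h1 : x ∈ Cfsg.frobeniusKernel Hq := by rw [hker]; exact hxF
  rcases h1 with h1 | h1
  · exact h1
  · exfalso
    apply h1 1
    rw [mem_conj_smul]
    simpa using hx

theorem frob_out {Q : Type*} [Group Q] (F Hq : Subgroup Q)
    (hker : Cfsg.frobeniusKernel Hq = (F : Set Q)) (x : Q) (hx : x ∉ F) :
    ∃ g : Q, x ∈ MulAut.conj g • Hq := by
  by_contra hne
  push Not at hne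
  apply hx
  have h1 : x ∈ Cfsg.frobeniusKernel Hq := Or.inr hne
  rw [hker] at h1
  exact h1

theorem frob_cent {Q : Type*} [Group Q] (F Hq : Subgroup Q) [hFn : F.Normal]
    (hHb : Cfsg.IsFrobeniusComplement Hq) (hker : Cfsg.frobeniusKernel Hq = (F : Set Q))
    (g x f : Q) (hx : x ∈ MulAut.conj g • Hq) (hx1 : x ≠ 1) (hf : f ∈ F)
    (hcomm : f * x * f⁻¹ = x) : f = 1 := by
  rw [mem_conj_smul] at hx
  obtain ⟨x', hx'⟩ : ∃ x', x' = g⁻¹ * x * g := ⟨_, rfl⟩
  obtain ⟨f', hf'⟩ : ∃ f', f' = g⁻¹ * f * g := ⟨_, rfl⟩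
  rw [← hx'] at hx
  have hf'F : f' ∈ F := by
    have h1 := hFn.conj_mem f hf g⁻¹
    rw [inv_inv] at h1
    rw [hf']; exact h1
  have hc' : f' * x' * f'⁻¹ = x' := by
    rw [hf', hx']
    calc g⁻¹ * f * g * (g⁻¹ * x * g) * (g⁻¹ * f * g)⁻¹ = g⁻¹ * (f * x * f⁻¹) * g := by group
      _ = g⁻¹ * x * g := by rw [hcomm]
  have hx'1 : x' ≠ 1 := by
    intro e
    apply hx1
    have h1 : x = g * x' * g⁻¹ := by rw [hx']; group
    rw [h1, e]; group
  have hf'H : f' ∈ Hq := by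
    by_contra hnot
    have h2 := hHb.2.2 f' hnot
    have h3 : x' ∈ Hq ⊓ MulAut.conj f' • Hq := by
      refine ⟨hx, ?_⟩
      show x' ∈ MulAut.conj f' • Hq
      rw [mem_conj_smul]
      have h4 : f'⁻¹ * x' * f' = x' := by
        calc f'⁻¹ * x' * f' = f'⁻¹ * (f' * x' * f'⁻¹) * f' := by rw [hc']
          _ = x' := by group
      rw [h4]; exact hx
    rw [h2, Subgroup.mem_bot] at h3
    exact hx'1 h3
  have hf'1 : f' = 1 := frob_inf F Hq hker f' hf'H hf'F
  have h5 : f = g * f' * g⁻¹ := by rw [hf']; group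
  rw [h5, hf'1]; group

theorem frob_coset {Q : Type*} [Group Q] [Finite Q] (F Hq : Subgroup Q) [hFn : F.Normal]
    (hker : Cfsg.frobeniusKernel Hq = (F : Set Q))
    (h₀ : Q) (hh₀ : h₀ ∈ Hq) (hne : h₀ ≠ 1) (φ : Q) (hφ : φ ∈ F) :
    (∃ g : Q, h₀ * φ ∈ MulAut.conj g • Hq) ∧ orderOf (h₀ * φ) = orderOf h₀ := by
  have hyF : h₀ * φ ∉ F := by
    intro h1
    apply hne
    apply frob_inf F Hq hker h₀ hh₀
    have h2 := F.mul_mem h1 (F.inv_mem hφ)
    rwa [mul_inv_cancel_right] at h2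
  obtain ⟨g, hg⟩ := frob_out F Hq hker _ hyF
  refine ⟨⟨g, hg⟩, ?_⟩
  have hpowF : ∀ i : ℕ, (h₀ ^ i)⁻¹ * (h₀ * φ) ^ i ∈ F := by
    intro i
    induction i with
    | zero => simp
    | succ i ih =>
      have h1 := hFn.conj_mem _ ih h₀⁻¹
      rw [inv_inv] at h1
      have h2 := F.mul_mem h1 hφ
      have e : (h₀ ^ (i + 1))⁻¹ * (h₀ * φ) ^ (i + 1)
          = h₀⁻¹ * ((h₀ ^ i)⁻¹ * (h₀ * φ) ^ i) * h₀ * φ := by
        rw [pow_succ, pow_succ]; group
      rw [e]; exact h2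
  have hgF : ∀ w : Q, w ∈ MulAut.conj g • Hq → w ∈ F → w = 1 := by
    intro w hw hwF
    rw [mem_conj_smul] at hw
    have h1 := hFn.conj_mem w hwF g⁻¹
    rw [inv_inv] at h1
    have h2 := frob_inf F Hq hker _ hw h1
    have h3 : w = g * (g⁻¹ * w * g) * g⁻¹ := by group
    rw [h3, h2]; group
  have hpos : 0 < orderOf h₀ := orderOf_pos h₀
  rw [orderOf_eq_iff hpos]
  constructor
  · apply hgF _ (Subgroup.pow_mem _ hg _)
    have h1 := hpowF (orderOf h₀)
    rwa [pow_orderOf_eq_one, inv_one, one_mul] at h1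
  · intro j hj hj0 e
    have h1 := hpowF j
    rw [e, mul_one] at h1
    have h2 : h₀ ^ j ∈ F := by
      have := F.inv_mem h1
      rwa [inv_inv] at this
    have h3 := frob_inf F Hq hker _ (Hq.pow_mem hh₀ j) h2
    have h4 := orderOf_dvd_of_pow_eq_one h3
    have h5 := Nat.le_of_dvd hj0 h4
    omega

theorem stepA {G : Type*} [Group G] [Finite G] (N : Subgroup G) [N.Normal] (n : ℕ)
    (hno : ¬ ∃ p : ℕ, p.Prime ∧ p ∣ Nat.card N ∧ ∃ g : G, orderOf g = p * n)
    (g : G) (hg : orderOf ((QuotientGroup.mk' N) g) = n) : g ^ n = 1 := by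
  by_contra hne
  apply hno
  have hgN : g ^ n ∈ N := by
    rw [← QuotientGroup.eq_one_iff]
    show (QuotientGroup.mk' N) (g ^ n) = 1
    rw [map_pow, ← hg]
    exact pow_orderOf_eq_one _
  obtain ⟨k, hk⟩ : ∃ k, k = orderOf (g ^ n) := ⟨_, rfl⟩
  have hk1 : k ≠ 1 := fun e => hne (orderOf_eq_one_iff.mp (hk ▸ e))
  have hkN : k ∣ Nat.card N := by
    have h1 := orderOf_dvd_natCard (⟨g ^ n, hgN⟩ : ↥N)
    rw [Subgroup.orderOf_mk] at h1
    rw [hk]; exact h1
  obtain ⟨p, hp, hpk⟩ := Nat.exists_prime_and_dvd hk1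
  refine ⟨p, hp, hpk.trans hkN, g ^ (k / p), ?_⟩
  have ho : orderOf g = n * k := by
    apply Nat.dvd_antisymm
    · apply orderOf_dvd_of_pow_eq_one
      rw [pow_mul, hk]
      exact pow_orderOf_eq_one _
    · have h1 : n ∣ orderOf g := by
        rw [← hg]
        apply orderOf_dvd_of_pow_eq_one
        rw [← map_pow, pow_orderOf_eq_one, map_one]
      obtain ⟨t, ht⟩ := h1
      rw [ht]
      apply Nat.mul_dvd_mul_left
      rw [hk]
      apply orderOf_dvd_of_pow_eq_one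
      rw [← pow_mul, ← ht]
      exact pow_orderOf_eq_one _
  rw [orderOf_pow, ho]
  obtain ⟨k', hk'⟩ := hpk
  have hkpos : 0 < k := by rw [hk]; exact orderOf_pos _
  have hk'pos : 0 < k' := by
    rcases Nat.eq_zero_or_pos k' with h0 | h0
    · rw [h0, mul_zero] at hk'
      omega
    · exact h0
  rw [hk', Nat.mul_div_cancel_left k' hp.pos]
  have hg' : Nat.gcd (n * (p * k')) k' = k' :=
    Nat.gcd_eq_right ⟨n * p, by ring⟩
  rw [hg', show n * (p * k') = (p * n) * k' by ring, Nat.mul_div_cancel _ hk'pos]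

theorem lemD {Q : Type*} [Group Q] [Finite Q] (F Hq : Subgroup Q) [hFn : F.Normal]
    (hHb : Cfsg.IsFrobeniusComplement Hq) (hker : Cfsg.frobeniusKernel Hq = (F : Set Q))
    (h₀ : Q) (hh₀ : h₀ ∈ Hq) (hh₀1 : h₀ ≠ 1) (m : ℕ) (hord : orderOf h₀ = m + 1)
    {X : Type*} [Group X] [Finite X] (π : X →* Q) (hsurj : Function.Surjective π)
    (hA : ∀ g : X, orderOf (π g) = m + 1 → g ^ (m + 1) = 1)
    (p r : ℕ) [Fact p.Prime] [Fact r.Prime] (hpr : p ≠ r)
    (hker_r : ∀ c : X, π c = 1 → ∀ a : ℕ, c ^ r ^ a = 1 → c = 1)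
    (P : Subgroup X) [hPn : P.Normal] (hPp : ∀ u ∈ P, ∃ a : ℕ, u ^ p ^ a = 1)
    (hPk : ∀ u ∈ P, π u = 1)
    (x : X) (a : ℕ) (hx : x ^ r ^ a = 1) (hxF : π x ∈ F) :
    ∀ u ∈ P, x * u * x⁻¹ = u := by
  classical
  obtain ⟨FX, hFXdef⟩ : ∃ FX : Subgroup X, FX = F.comap π := ⟨_, rfl⟩
  haveI hFXn : FX.Normal := by rw [hFXdef]; exact Subgroup.Normal.comap hFn π
  have hFXmem : ∀ y : X, y ∈ FX ↔ π y ∈ F := by
    intro y; rw [hFXdef]; exact Subgroup.mem_comap
  have hxFX : x ∈ FX := (hFXmem x).mpr hxF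
  have hzp : IsPGroup r ↥(Subgroup.zpowers (⟨x, hxFX⟩ : ↥FX)) := by
    rintro ⟨y, hy⟩
    obtain ⟨j, rfl⟩ := Subgroup.mem_zpowers_iff.mp hy
    refine ⟨a, Subtype.ext ?_⟩
    show ((⟨x, hxFX⟩ : ↥FX) ^ j) ^ r ^ a = 1
    have h1 : (⟨x, hxFX⟩ : ↥FX) ^ r ^ a = 1 :=
      Subtype.ext (by rw [Subgroup.coe_pow]; exact hx)
    rw [← zpow_natCast, ← zpow_mul, mul_comm, zpow_mul, zpow_natCast, h1, one_zpow]
  obtain ⟨S, hS⟩ := hzp.exists_le_sylow
  obtain ⟨R, hRdef⟩ : ∃ R : Subgroup X, R = (S : Subgroup ↥FX).map FX.subtype := ⟨_, rfl⟩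
  have hxR : x ∈ R := by
    rw [hRdef]
    exact Subgroup.mem_map.mpr ⟨⟨x, hxFX⟩, hS (Subgroup.mem_zpowers _), rfl⟩
  have hRF : ∀ c ∈ R, π c ∈ F := by
    intro c hc
    rw [hRdef] at hc
    obtain ⟨c', -, rfl⟩ := Subgroup.mem_map.mp hc
    exact (hFXmem _).mp c'.2
  have hRr : ∀ c ∈ R, ∃ b : ℕ, c ^ r ^ b = 1 := by
    intro c hc
    rw [hRdef] at hc
    obtain ⟨c', hc', rfl⟩ := Subgroup.mem_map.mp hc
    obtain ⟨b, hb⟩ := S.isPGroup' ⟨c', hc'⟩
    refine ⟨b, ?_⟩
    have h1 : ((c' ^ r ^ b : ↥FX) : X) = 1 := by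
      have h2 : (c' ^ r ^ b : ↥FX) = 1 := congrArg Subtype.val hb
      rw [h2]; rfl
    rw [Subgroup.coe_pow] at h1
    exact h1
  have hfr : Subgroup.normalizer (R : Set X) ⊔ FX = ⊤ := by
    rw [hRdef]; exact Sylow.normalizer_sup_eq_top S
  obtain ⟨g₀, hg₀⟩ := hsurj h₀
  have hg₀mem : g₀ ∈ Subgroup.normalizer (R : Set X) ⊔ FX := by
    rw [hfr]; exact Subgroup.mem_top _
  obtain ⟨h, hh, f, hf, hhf⟩ := Subgroup.mem_sup_of_normal_right.mp hg₀mem
  have hπh : π h = h₀ * (π f)⁻¹ := by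
    rw [← hg₀, ← hhf, map_mul, mul_inv_cancel_right]
  have hφF : (π f)⁻¹ ∈ F := F.inv_mem ((hFXmem f).mp hf)
  obtain ⟨⟨g, hgmem⟩, hordh⟩ := frob_coset F Hq hker h₀ hh₀ hh₀1 _ hφF
  rw [← hπh] at hgmem hordh
  rw [hord] at hordh
  have hnorm : ∀ c ∈ R, h * c * h⁻¹ ∈ R := by
    intro c hc
    exact (Subgroup.mem_normalizer_iff.mp hh c).mp hc
  have hfpf : ∀ i, 0 < i → i < m + 1 → ∀ c ∈ R, c * h ^ i * c⁻¹ * (h ^ i)⁻¹ = 1 → c = 1 := by
    intro i hi0 hi c hc e
    obtain ⟨b, hb⟩ := hRr c hc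
    apply hker_r c _ b hb
    have hyi : (π h) ^ i ∈ MulAut.conj g • Hq := Subgroup.pow_mem _ hgmem i
    have hyi1 : (π h) ^ i ≠ 1 := by
      intro e1
      have h1 := orderOf_dvd_of_pow_eq_one e1
      rw [hordh] at h1
      have h2 := Nat.le_of_dvd hi0 h1
      omega
    apply frob_cent F Hq hHb hker g ((π h) ^ i) (π c) hyi hyi1 (hRF c hc)
    have e2 := congrArg π e
    rw [map_mul, map_mul, map_mul, map_inv, map_inv, map_pow, map_one] at e2
    exact mul_inv_eq_one.mp e2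
  have hpow : ∀ c ∈ R, ∀ u ∈ P, (c * h * c⁻¹ * u) ^ (m + 1) = 1 := by
    intro c hc u hu
    apply hA
    rw [map_mul, map_mul, map_mul, map_inv, hPk u hu, mul_one, ← hordh]
    have h1 := MulEquiv.orderOf_eq (MulAut.conj (π c)) (π h)
    rwa [MulAut.conj_apply] at h1
  exact lemC p r hpr (Nat.card P) X P R hPn h m le_rfl hPp hRr hnorm hfpf hpow x hxR


/-- Let N be a normal subgroup of the finite group G such that G/N is a Frobenius group with kernel F and cyclic complement H, where the order of F is coprime to that of N and F is not contained in the image of C_G(N) in G/N. Then G has an element of order p·#H for some prime p dividing the order of N. (A standard tool in recognising groups by their element orders.) -/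
theorem result {G : Type*} [Group G] [Finite G] (N : Subgroup G) [N.Normal]
    (Fb Hb : Subgroup (G ⧸ N)) [Fb.Normal] (hHb : Cfsg.IsFrobeniusComplement Hb) (hker : Cfsg.frobeniusKernel Hb = (Fb : Set (G ⧸ N)))
    (hcyc : IsCyclic Hb) (hcop : (Nat.card Fb).Coprime (Nat.card N))
    (hnot : ¬ Fb ≤ (Subgroup.centralizer (N : Set G)).map (QuotientGroup.mk' N)) :
    ∃ p : ℕ, p.Prime ∧ p ∣ Nat.card N ∧ ∃ g : G, orderOf g = p * Nat.card Hb := by
  classical
  by_contra hno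
  obtain ⟨π, hπdef⟩ : ∃ π : G →* G ⧸ N, π = QuotientGroup.mk' N := ⟨_, rfl⟩
  have hπsurj : Function.Surjective π := by rw [hπdef]; exact QuotientGroup.mk'_surjective N
  have hπ1 : ∀ y : G, π y = 1 ↔ y ∈ N := by
    intro y; rw [hπdef]; exact QuotientGroup.eq_one_iff y
  rw [← hπdef] at hnot
  -- generator of Hb
  obtain ⟨⟨h₀, hh₀⟩, hgen⟩ := hcyc.exists_generator
  have hordh₀ : orderOf h₀ = Nat.card Hb := by
    rw [← Subgroup.orderOf_mk h₀ hh₀]
    exact orderOf_eq_card_of_forall_mem_zpowers hgen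
  have hh₀1 : h₀ ≠ 1 := by
    intro e
    apply hHb.1
    rw [Subgroup.eq_bot_iff_forall]
    intro y hy
    obtain ⟨j, hj⟩ := Subgroup.mem_zpowers_iff.mp (hgen ⟨y, hy⟩)
    have h1 : (((⟨h₀, hh₀⟩ : ↥Hb) ^ j : ↥Hb) : G ⧸ N) = y := congrArg Subtype.val hj
    rw [Subgroup.coe_zpow] at h1
    rw [← h1]
    show h₀ ^ j = 1
    rw [e, one_zpow]
  obtain ⟨m, hm⟩ : ∃ m, Nat.card Hb = m + 1 :=
    ⟨Nat.card Hb - 1, by have := Nat.card_pos (α := ↥Hb); omega⟩
  rw [hm] at hno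
  have hA : ∀ g : G, orderOf (π g) = m + 1 → g ^ (m + 1) = 1 := by
    intro g hg
    rw [hπdef] at hg
    exact stepA N (m + 1) hno g hg
  -- choose r and an r-element
  obtain ⟨Cb, hCbdef⟩ : ∃ Cb : Subgroup (G ⧸ N),
      Cb = (Subgroup.centralizer (N : Set G)).map π := ⟨_, rfl⟩
  rw [← hCbdef] at hnot
  obtain ⟨fb, hfF, hfC⟩ := SetLike.not_le_iff_exists.mp hnot
  obtain ⟨W, hWdef⟩ : ∃ W : Subgroup (G ⧸ N), W = Cb ⊓ Subgroup.zpowers fb := ⟨_, rfl⟩
  have hWY : W ≤ Subgroup.zpowers fb := by rw [hWdef]; exact inf_le_right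
  have hcardY : Nat.card (Subgroup.zpowers fb) = orderOf fb := Nat.card_zpowers fb
  have hWdvd : Nat.card W ∣ orderOf fb := by
    rw [← hcardY]; exact Subgroup.card_dvd_of_le hWY
  have hWlt : Nat.card W < orderOf fb := by
    have hne : Nat.card W ≠ orderOf fb := by
      intro e
      have h1 : W = Subgroup.zpowers fb :=
        Subgroup.eq_of_le_of_card_ge hWY (by rw [e, hcardY])
      apply hfC
      have h2 : fb ∈ W := by rw [h1]; exact Subgroup.mem_zpowers fb
      rw [hWdef] at h2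
      exact h2.1
    exact lt_of_le_of_ne (Nat.le_of_dvd (orderOf_pos fb) hWdvd) hne
  obtain ⟨r, hr⟩ := Nat.exists_factorization_lt_of_lt (Nat.card_pos (α := ↥W)).ne' hWlt
  have hrp : r.Prime := by
    by_contra hnp
    have hz := Nat.factorization_eq_zero_of_not_prime (orderOf fb) hnp
    rw [hz] at hr
    exact absurd hr (Nat.not_lt_zero _)
  obtain ⟨a, hadef⟩ : ∃ a, a = (orderOf fb).factorization r := ⟨_, rfl⟩
  rw [← hadef] at hr
  have ha0 : 0 < a := lt_of_le_of_lt (Nat.zero_le _) hr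
  have hdiv : r ^ a ∣ orderOf fb := by rw [hadef]; exact Nat.ordProj_dvd _ _
  obtain ⟨yb, hybdef⟩ : ∃ yb, yb = fb ^ (orderOf fb / r ^ a) := ⟨_, rfl⟩
  have hordy : orderOf yb = r ^ a := by
    rw [hybdef]; exact orderOf_pow_orderOf_div (orderOf_pos fb).ne' hdiv
  have hyF : yb ∈ Fb := by rw [hybdef]; exact Fb.pow_mem hfF _
  have hyC : yb ∉ Cb := by
    intro hc
    have h1 : yb ∈ W := by
      rw [hWdef]
      refine ⟨hc, ?_⟩
      rw [hybdef]
      exact Subgroup.pow_mem _ (Subgroup.mem_zpowers fb) _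
    have h2 : orderOf yb ∣ Nat.card W := by
      have h3 := orderOf_dvd_natCard (⟨yb, h1⟩ : ↥W)
      rwa [Subgroup.orderOf_mk] at h3
    rw [hordy] at h2
    have h3 := (hrp.pow_dvd_iff_le_factorization (Nat.card_pos (α := ↥W)).ne').mp h2
    exact absurd h3 (not_le.mpr hr)
  haveI hrfact : Fact r.Prime := ⟨hrp⟩
  have hrF : r ∣ Nat.card Fb := by
    have h1 : orderOf yb ∣ Nat.card Fb := by
      have h3 := orderOf_dvd_natCard (⟨yb, hyF⟩ : ↥Fb)
      rwa [Subgroup.orderOf_mk] at h3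
    rw [hordy] at h1
    exact (dvd_pow_self r ha0.ne').trans h1
  have hrN : ¬ r ∣ Nat.card N := by
    intro h
    exact hrp.one_lt.ne' (Nat.eq_one_of_dvd_coprimes hcop hrF h)
  have hNr : ∀ c : G, c ∈ N → ∀ b : ℕ, c ^ r ^ b = 1 → c = 1 := by
    intro c hc b hb
    have d1 : orderOf c ∣ r ^ b := orderOf_dvd_of_pow_eq_one hb
    have d2 : orderOf c ∣ Nat.card N := by
      have h3 := orderOf_dvd_natCard (⟨c, hc⟩ : ↥N)
      rwa [Subgroup.orderOf_mk] at h3
    have hc' : Nat.Coprime (r ^ b) (Nat.card N) :=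
      Nat.Coprime.pow_left b ((Nat.Prime.coprime_iff_not_dvd hrp).mpr hrN)
    exact orderOf_eq_one_iff.mp (Nat.eq_one_of_dvd_coprimes hc' d1 d2)
  obtain ⟨g₁, hg₁⟩ := hπsurj yb
  obtain ⟨x, hxdef⟩ : ∃ x, x = g₁ ^ Nat.card N := ⟨_, rfl⟩
  have hxr : x ^ r ^ a = 1 := by
    have h1 : g₁ ^ r ^ a ∈ N := by
      rw [← hπ1, map_pow, hg₁, ← hordy, pow_orderOf_eq_one]
    have h2 : (g₁ ^ r ^ a) ^ Nat.card N = 1 := by
      have h3 := pow_card_eq_one' (G := ↥N) (x := ⟨g₁ ^ r ^ a, h1⟩)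
      exact congrArg Subtype.val h3
    rw [hxdef, ← pow_mul, mul_comm, pow_mul]
    exact h2
  have hπx : π x = yb ^ Nat.card N := by rw [hxdef, map_pow, hg₁]
  have hxF : π x ∈ Fb := by rw [hπx]; exact Fb.pow_mem hyF _
  have hxC : π x ∉ Cb := by
    intro hc
    apply hyC
    have hcop' : Nat.Coprime (Nat.card N) (r ^ a) :=
      (Nat.Coprime.pow_left a ((Nat.Prime.coprime_iff_not_dvd hrp).mpr hrN)).symm
    obtain ⟨t, -, ht⟩ := Nat.exists_mul_mod_eq_one_of_coprime hcop'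
      (Nat.one_lt_pow ha0.ne' hrp.one_lt)
    have h1 : yb = (π x) ^ t := by
      rw [hπx, ← pow_mul, ← pow_mod_orderOf, hordy, ht, pow_one]
    rw [h1]
    exact Cb.pow_mem hc t
  -- the centralizer of x in N
  apply hxC
  rw [hCbdef]
  refine Subgroup.mem_map_of_mem π ?_
  obtain ⟨CN, hCNdef⟩ : ∃ CN : Subgroup G, CN = N ⊓ Subgroup.centralizer ({x} : Set G) :=
    ⟨_, rfl⟩
  have hCNle : CN ≤ N := by rw [hCNdef]; exact inf_le_left
  have hCNmem : ∀ u : G, u ∈ N → x * u * x⁻¹ = u → u ∈ CN := by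
    intro u hu h2
    rw [hCNdef]
    refine ⟨hu, ?_⟩
    show u ∈ Subgroup.centralizer ({x} : Set G)
    rw [Subgroup.mem_centralizer_iff]
    intro y hy
    rw [Set.mem_singleton_iff] at hy
    rw [hy]
    calc x * u = (x * u * x⁻¹) * x := by group
      _ = u * x := by rw [h2]
  have hdvd : Nat.card N ∣ Nat.card CN := by
    rw [← Nat.factorization_le_iff_dvd (Nat.card_pos (α := ↥N)).ne'
      (Nat.card_pos (α := ↥CN)).ne']
    intro p
    by_cases hp : p.Prime
    · by_cases hpr : p = r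
      · rw [hpr, Nat.factorization_eq_zero_of_not_dvd hrN]
        exact Nat.zero_le _
      · haveI hpfact : Fact p.Prime := ⟨hp⟩
        -- a Sylow p-subgroup of N fixed by x
        letI act : MulAction ↥(Subgroup.zpowers x) (Sylow p ↥N) :=
          MulAction.compHom (Sylow p ↥N)
            ((MulAut.conjNormal : G →* MulAut ↥N).comp (Subgroup.zpowers x).subtype)
        have hzx : IsPGroup r ↥(Subgroup.zpowers x) := by
          rintro ⟨y, hy⟩
          obtain ⟨j, rfl⟩ := Subgroup.mem_zpowers_iff.mp hy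
          refine ⟨a, Subtype.ext ?_⟩
          show (x ^ j) ^ r ^ a = 1
          rw [← zpow_natCast, ← zpow_mul, mul_comm, zpow_mul, zpow_natCast, hxr, one_zpow]
        have hcardS : ¬ r ∣ Nat.card (Sylow p ↥N) := by
          intro h
          have P₁ : Sylow p ↥N := default
          have h1 := Sylow.card_dvd_index P₁
          have h2 : (P₁ : Subgroup ↥N).index ∣ Nat.card ↥N := Subgroup.index_dvd_card _
          exact hrN (h.trans (h1.trans h2))
        obtain ⟨P₀, hP₀⟩ := hzx.nonempty_fixed_point_of_prime_not_dvd_card (Sylow p ↥N) hcardS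
        rw [MulAction.mem_fixedPoints] at hP₀
        have hfix : (MulAut.conjNormal x : MulAut ↥N) • P₀ = P₀ :=
          hP₀ ⟨x, Subgroup.mem_zpowers x⟩
        have hfix' : (MulAut.conjNormal x⁻¹ : MulAut ↥N) • P₀ = P₀ :=
          hP₀ ⟨x⁻¹, Subgroup.inv_mem _ (Subgroup.mem_zpowers x)⟩
        obtain ⟨P, hPdef⟩ : ∃ P : Subgroup G, P = (P₀ : Subgroup ↥N).map N.subtype := ⟨_, rfl⟩
        have hPN : ∀ u ∈ P, u ∈ N := by
          intro u hu
          rw [hPdef] at hu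
          obtain ⟨u', -, rfl⟩ := Subgroup.mem_map.mp hu
          exact u'.2
        have hconj : ∀ (z : G), (MulAut.conjNormal z : MulAut ↥N) • P₀ = P₀ →
            ∀ u ∈ P, z * u * z⁻¹ ∈ P := by
          intro z hz u hu
          rw [hPdef] at hu ⊢
          obtain ⟨u', hu', rfl⟩ := Subgroup.mem_map.mp hu
          refine Subgroup.mem_map.mpr ⟨(MulAut.conjNormal z : MulAut ↥N) u', ?_,
            MulAut.conjNormal_apply z u'⟩
          have h1 : (MulAut.conjNormal z : MulAut ↥N) • u'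
              ∈ (MulAut.conjNormal z : MulAut ↥N) • (P₀ : Subgroup ↥N) :=
            Subgroup.smul_mem_pointwise_smul _ _ _ hu'
          rw [← Sylow.pointwise_smul_def, hz] at h1
          exact h1
        have hxL : x ∈ Subgroup.normalizer (P : Set G) := by
          rw [Subgroup.mem_normalizer_iff]
          intro u
          constructor
          · exact hconj x hfix u
          · intro hu
            have h1 := hconj x⁻¹ hfix' _ hu
            have e : x⁻¹ * (x * u * x⁻¹) * x⁻¹⁻¹ = u := by group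
            rwa [e] at h1
        obtain ⟨L, hLdef⟩ : ∃ L : Subgroup G, L = Subgroup.normalizer (P : Set G) := ⟨_, rfl⟩
        have hfrat : L ⊔ N = ⊤ := by
          rw [hLdef, hPdef]; exact Sylow.normalizer_sup_eq_top P₀
        have hxL' : x ∈ L := by rw [hLdef]; exact hxL
        have hPL : P ≤ L := by rw [hLdef]; exact Subgroup.le_normalizer
        have hsurjL : Function.Surjective (π.comp L.subtype) := by
          intro q
          obtain ⟨g, rfl⟩ := hπsurj q
          have hg : g ∈ L ⊔ N := by rw [hfrat]; exact Subgroup.mem_top g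
          obtain ⟨l, hl, ν, hν, rfl⟩ := Subgroup.mem_sup_of_normal_right.mp hg
          refine ⟨⟨l, hl⟩, ?_⟩
          show π l = π (l * ν)
          rw [map_mul, (hπ1 ν).mpr hν, mul_one]
        have hAL : ∀ g : ↥L, orderOf ((π.comp L.subtype) g) = m + 1 → g ^ (m + 1) = 1 := by
          intro g hg
          exact Subtype.ext (by rw [Subgroup.coe_pow, Subgroup.coe_one]; exact hA (g : G) hg)
        have hkerL : ∀ c : ↥L, (π.comp L.subtype) c = 1 → ∀ b : ℕ, c ^ r ^ b = 1 → c = 1 := by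
          intro c hc b hb
          have h1 : (c : G) ∈ N := (hπ1 _).mp hc
          have h2 : (c : G) ^ r ^ b = 1 := by
            rw [← Subgroup.coe_pow, hb, Subgroup.coe_one]
          exact Subtype.ext (hNr _ h1 b h2)
        haveI hPLn : (P.subgroupOf L).Normal := by
          rw [hLdef]; exact Subgroup.normal_in_normalizer
        have hPLp : ∀ u ∈ P.subgroupOf L, ∃ b : ℕ, u ^ p ^ b = 1 := by
          intro u hu
          have hu' : (u : G) ∈ P := Subgroup.mem_subgroupOf.mp hu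
          rw [hPdef] at hu'
          obtain ⟨u', hu'', e⟩ := Subgroup.mem_map.mp hu'
          obtain ⟨b, hb⟩ := P₀.isPGroup' ⟨u', hu''⟩
          refine ⟨b, Subtype.ext ?_⟩
          rw [Subgroup.coe_pow, Subgroup.coe_one, ← e]
          have h2 : (u' ^ p ^ b : ↥N) = 1 := congrArg Subtype.val hb
          have h3 : ((u' ^ p ^ b : ↥N) : G) = 1 := by rw [h2]; rfl
          rw [Subgroup.coe_pow] at h3
          exact h3
        have hPLk : ∀ u ∈ P.subgroupOf L, (π.comp L.subtype) u = 1 := by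
          intro u hu
          have hu' : (u : G) ∈ P := Subgroup.mem_subgroupOf.mp hu
          exact (hπ1 _).mpr (hPN _ hu')
        have hD := lemD Fb Hb hHb hker h₀ hh₀ hh₀1 m (by rw [hordh₀, hm]) (π.comp L.subtype)
          hsurjL hAL p r hpr hkerL (P.subgroupOf L) hPLp hPLk ⟨x, hxL'⟩ a
          (Subtype.ext (by rw [Subgroup.coe_pow, Subgroup.coe_one]; exact hxr)) hxF
        have hPC : P ≤ CN := by
          intro u hu
          have h1 := hD ⟨u, hPL hu⟩ (Subgroup.mem_subgroupOf.mpr hu)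
          have h2 : x * u * x⁻¹ = u := congrArg Subtype.val h1
          exact hCNmem u (hPN u hu) h2
        have hcardP : Nat.card P = p ^ (Nat.card N).factorization p := by
          rw [hPdef, Subgroup.card_map_of_injective N.subtype_injective]
          exact P₀.card_eq_multiplicity
        have h3 := Subgroup.card_dvd_of_le hPC
        rw [hcardP] at h3
        exact (hp.pow_dvd_iff_le_factorization (Nat.card_pos (α := ↥CN)).ne').mp h3
    · rw [Nat.factorization_eq_zero_of_not_prime _ hp]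
      exact Nat.zero_le _
  have hCNeq : CN = N :=
    Subgroup.eq_of_le_of_card_ge hCNle (Nat.le_of_dvd (Nat.card_pos (α := ↥CN)) hdvd)
  rw [Subgroup.mem_centralizer_iff]
  intro u hu
  have hu' : u ∈ CN := by rw [hCNeq]; exact hu
  rw [hCNdef] at hu'
  have h2 : u ∈ Subgroup.centralizer ({x} : Set G) := hu'.2
  rw [Subgroup.mem_centralizer_iff] at h2
  exact (h2 x rfl).symm

end Cfsg.Agent.S3703
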