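import Cfsg.Statements.S3737
import Cfsg.Agent.S0663
import Cfsg.Agent.Helper14.Comm
import Cfsg.Agent.Helper14.Coprime
import Cfsg.Agent.Helper14.PElem

set_option autoImplicit false
open Cfsg

namespace Cfsg.Agent.S3737
open Cfsg.Agent.Helper14
open scoped commutatorElement

universe u v

/-- Abelian case, abstract form: `P` a `p`-group and `Q` a `p'`-group of operators on an abelian
`p`-group `B`, `Q` normalized by `P`; if every `P`-fixed point is `Q`-fixed then `Q` acts trivially. -/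
theorem abFix {B : Type u} [CommGroup B] [Finite B] {H : Type v} [Group H] [Finite H]
    [MulDistribMulAction H B] {p : ℕ} [Fact p.Prime] (k : ℕ) (hB : Nat.card B = p ^ k)
    (P Q : Subgroup H) (hP : IsPGroup p P) (hQ : (Nat.card Q).Coprime p)
    (hPQ : ∀ u ∈ P, ∀ q ∈ Q, u * q * u⁻¹ ∈ Q)
    (hfix : ∀ b : B, (∀ u ∈ P, u • b = b) → ∀ q ∈ Q, q • b = b) :
    ∀ q ∈ Q, ∀ b : B, q • b = b := by
  classical
  have hFQ : Fintype ↥Q := Fintype.ofFinite _
  have hBp : IsPGroup p B := IsPGroup.of_card hB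
  obtain ⟨N, hN⟩ : ∃ N : B →* B, ∀ b, N b = ∏ q : ↥Q, (q : H) • b :=
    ⟨{ toFun := fun b => ∏ q : ↥Q, (q : H) • b
       map_one' := by simp
       map_mul' := fun a b => by simp [smul_mul', Finset.prod_mul_distrib] }, fun b => rfl⟩
  have hNq : ∀ q₀ ∈ Q, ∀ b, N (q₀ • b) = N b := by
    intro q₀ hq₀ b
    rw [hN, hN]
    exact Fintype.prod_equiv (Equiv.mulRight (⟨q₀, hq₀⟩ : ↥Q)) _ _ (fun q => by
      show (q : H) • q₀ • b = ((q * ⟨q₀, hq₀⟩ : ↥Q) : H) • b
      rw [Subgroup.coe_mul, mul_smul])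
  have hNu : ∀ u ∈ P, ∀ b, N (u • b) = u • N b := by
    intro u hu b
    rw [hN, hN]
    have h1 : u • ∏ q : ↥Q, (q : H) • b = ∏ q : ↥Q, u • (q : H) • b := by
      have := map_prod (MulDistribMulAction.toMonoidHom B u) (fun q : ↥Q => (q : H) • b)
        Finset.univ
      exact this
    rw [h1]
    let e : ↥Q ≃ ↥Q :=
      { toFun := fun q => ⟨u⁻¹ * q * u, by
          have := hPQ u⁻¹ (P.inv_mem hu) q q.2; rwa [inv_inv] at this⟩
        invFun := fun q => ⟨u * q * u⁻¹, hPQ u hu q q.2⟩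
        left_inv := fun q => Subtype.ext (by simp [mul_assoc])
        right_inv := fun q => Subtype.ext (by simp [mul_assoc]) }
    exact Fintype.prod_equiv e _ _ (fun q => by
      show (q : H) • u • b = u • ((u⁻¹ * (q : H) * u : H)) • b
      rw [← mul_smul, ← mul_smul]; congr 1; group)
  have hKinv : ∀ u ∈ P, ∀ b ∈ N.ker, u • b ∈ N.ker := by
    intro u hu b hb
    rw [MonoidHom.mem_ker] at hb ⊢
    rw [hNu u hu, hb, smul_one]
  have hKbot : N.ker = ⊥ := by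
    by_contra hK
    have hdvd : p ∣ Nat.card ↥N.ker := by
      rcases (hBp.to_subgroup N.ker).card_eq_or_dvd with h | h
      · exact absurd (Subgroup.card_eq_one.mp h) hK
      · exact h
    let act : MulAction ↥P ↥N.ker :=
      { smul := fun u b => ⟨(u : H) • (b : B), hKinv u u.2 b b.2⟩
        one_smul := fun b => Subtype.ext (one_smul H (b : B))
        mul_smul := fun u v b => Subtype.ext (mul_smul (u : H) (v : H) (b : B)) }
    have h1 : (1 : ↥N.ker) ∈ MulAction.fixedPoints ↥P ↥N.ker := by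
      intro u
      exact Subtype.ext (smul_one (u : H))
    obtain ⟨b, hb, hne⟩ :=
      hP.exists_fixed_point_of_prime_dvd_card_of_fixed_point ↥N.ker hdvd h1
    have hbP : ∀ u ∈ P, u • (b : B) = b := fun u hu => congrArg Subtype.val (hb ⟨u, hu⟩)
    have hbQ := hfix (b : B) hbP
    have hNb : N (b : B) = (b : B) ^ Fintype.card ↥Q := by
      rw [hN, Finset.prod_congr rfl (fun (q : ↥Q) _ => hbQ (q : H) q.2), Finset.prod_const,
        Finset.card_univ]
    have hb1 : N (b : B) = 1 := MonoidHom.mem_ker.mp b.2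
    rw [hb1] at hNb
    have hb2 : (b : B) ^ p ^ k = 1 := by rw [← hB]; exact pow_card_eq_one'
    have hcop : Nat.Coprime (Fintype.card ↥Q) p := by rwa [← Nat.card_eq_fintype_card]
    have hb3 : (b : B) = 1 :=
      eq_one_of_pow_coprime (p := p) (b : B) (Fintype.card ↥Q) k hcop hNb.symm hb2
    exact hne (Subtype.ext hb3.symm)
  intro q hq b
  exact (MonoidHom.ker_eq_bot_iff N).mp hKbot (hNq q hq b)

section Baer

variable {G : Type u} [Group G]

theorem comm_mul_left_of_central (hcl : ∀ x y z : G, ⁅x, y⁆ * z = z * ⁅x, y⁆) (a b c : G) :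
    ⁅a * b, c⁆ = ⁅a, c⁆ * ⁅b, c⁆ := by
  calc ⁅a * b, c⁆ = a * (⁅b, c⁆ * (c * a⁻¹ * c⁻¹)) := by
        simp only [commutatorElement_def]; group
    _ = a * ((c * a⁻¹ * c⁻¹) * ⁅b, c⁆) := by rw [hcl b c]
    _ = ⁅a, c⁆ * ⁅b, c⁆ := by simp only [commutatorElement_def]; group

theorem comm_mul_right_of_central (hcl : ∀ x y z : G, ⁅x, y⁆ * z = z * ⁅x, y⁆) (a b c : G) :
    ⁅a, b * c⁆ = ⁅a, b⁆ * ⁅a, c⁆ := by
  calc ⁅a, b * c⁆ = a * b * a⁻¹ * (⁅a, c⁆ * b⁻¹) := by
        simp only [commutatorElement_def]; group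
    _ = a * b * a⁻¹ * (b⁻¹ * ⁅a, c⁆) := by rw [hcl a c]
    _ = ⁅a, b⁆ * ⁅a, c⁆ := by simp only [commutatorElement_def]; group

theorem comm_central_right (hcl : ∀ x y z : G, ⁅x, y⁆ * z = z * ⁅x, y⁆) (a b z : G)
    (hz : ∀ g : G, z * g = g * z) : ⁅a, b * z⁆ = ⁅a, b⁆ := by
  rw [comm_mul_right_of_central hcl, commutatorElement_eq_one_iff_mul_comm.mpr (hz a).symm,
    mul_one]

theorem comm_central_left (hcl : ∀ x y z : G, ⁅x, y⁆ * z = z * ⁅x, y⁆) (a c z : G)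
    (hz : ∀ g : G, z * g = g * z) : ⁅a * z, c⁆ = ⁅a, c⁆ := by
  rw [comm_mul_left_of_central hcl, commutatorElement_eq_one_iff_mul_comm.mpr (hz c), mul_one]

theorem cpow (hcl : ∀ x y z : G, ⁅x, y⁆ * z = z * ⁅x, y⁆) (x y g : G) (m : ℕ) :
    ⁅x, y⁆ ^ m * g = g * ⁅x, y⁆ ^ m :=
  ((show Commute ⁅x, y⁆ g from hcl x y g).pow_left m).eq

theorem baer_assoc (hcl : ∀ x y z : G, ⁅x, y⁆ * z = z * ⁅x, y⁆) (m : ℕ) (a b c : G) :
    a * b * ⁅b, a⁆ ^ m * c * ⁅c, a * b * ⁅b, a⁆ ^ m⁆ ^ m =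
      a * (b * c * ⁅c, b⁆ ^ m) * ⁅b * c * ⁅c, b⁆ ^ m, a⁆ ^ m := by
  have e1 : ⁅c, a * b * ⁅b, a⁆ ^ m⁆ = ⁅c, a⁆ * ⁅c, b⁆ := by
    rw [comm_central_right hcl c (a * b) _ (fun g => cpow hcl b a g m),
      comm_mul_right_of_central hcl]
  have e2 : ⁅b * c * ⁅c, b⁆ ^ m, a⁆ = ⁅b, a⁆ * ⁅c, a⁆ := by
    rw [comm_central_left hcl (b * c) a _ (fun g => cpow hcl c b g m),
      comm_mul_left_of_central hcl]
  have p1 : (⁅c, a⁆ * ⁅c, b⁆) ^ m = ⁅c, a⁆ ^ m * ⁅c, b⁆ ^ m :=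
    (show Commute ⁅c, a⁆ ⁅c, b⁆ from hcl c a _).mul_pow m
  have p2 : (⁅b, a⁆ * ⁅c, a⁆) ^ m = ⁅b, a⁆ ^ m * ⁅c, a⁆ ^ m :=
    (show Commute ⁅b, a⁆ ⁅c, a⁆ from hcl b a _).mul_pow m
  rw [e1, e2, p1, p2]
  have hu := cpow hcl b a c m
  have hw := cpow hcl c b (⁅b, a⁆ ^ m * ⁅c, a⁆ ^ m) m
  calc a * b * ⁅b, a⁆ ^ m * c * (⁅c, a⁆ ^ m * ⁅c, b⁆ ^ m)
      = a * b * (⁅b, a⁆ ^ m * c) * (⁅c, a⁆ ^ m * ⁅c, b⁆ ^ m) := by simp only [mul_assoc]
    _ = a * b * (c * ⁅b, a⁆ ^ m) * (⁅c, a⁆ ^ m * ⁅c, b⁆ ^ m) := by rw [hu]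
    _ = a * b * c * (⁅b, a⁆ ^ m * ⁅c, a⁆ ^ m * ⁅c, b⁆ ^ m) := by simp only [mul_assoc]
    _ = a * b * c * (⁅c, b⁆ ^ m * (⁅b, a⁆ ^ m * ⁅c, a⁆ ^ m)) := by rw [hw]
    _ = a * (b * c * ⁅c, b⁆ ^ m) * (⁅b, a⁆ ^ m * ⁅c, a⁆ ^ m) := by simp only [mul_assoc]

theorem baer_comm (hcl : ∀ x y z : G, ⁅x, y⁆ * z = z * ⁅x, y⁆) (m : ℕ)
    (hm : ∀ g : G, g ^ m * g ^ m = g) (a b : G) :
    a * b * ⁅b, a⁆ ^ m = b * a * ⁅a, b⁆ ^ m := by
  have hu := cpow hcl b a (a * b) m
  have e1 : b * a = ⁅b, a⁆ * (a * b) := by rw [commutatorElement_def]; group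
  have e2 : ⁅a, b⁆ ^ m = (⁅b, a⁆ ^ m)⁻¹ := by rw [← commutatorElement_inv, inv_pow]
  have e3 : ⁅b, a⁆ * (a * b) * (⁅b, a⁆ ^ m)⁻¹ =
      ⁅b, a⁆ ^ m * ⁅b, a⁆ ^ m * (a * b) * (⁅b, a⁆ ^ m)⁻¹ := by rw [hm]
  rw [e1, e2, e3]
  calc a * b * ⁅b, a⁆ ^ m = ⁅b, a⁆ ^ m * (a * b) := hu.symm
    _ = ⁅b, a⁆ ^ m * ((a * b) * ⁅b, a⁆ ^ m) * (⁅b, a⁆ ^ m)⁻¹ := by
        simp only [mul_assoc, mul_inv_cancel, mul_one]
    _ = ⁅b, a⁆ ^ m * (⁅b, a⁆ ^ m * (a * b)) * (⁅b, a⁆ ^ m)⁻¹ := by rw [hu]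
    _ = ⁅b, a⁆ ^ m * ⁅b, a⁆ ^ m * (a * b) * (⁅b, a⁆ ^ m)⁻¹ := by simp only [mul_assoc]

theorem baer_one_mul (a : G) (m : ℕ) : 1 * a * ⁅a, (1 : G)⁆ ^ m = a := by simp

theorem baer_mul_one (a : G) (m : ℕ) : a * 1 * ⁅(1 : G), a⁆ ^ m = a := by simp

theorem baer_inv_mul (a : G) (m : ℕ) : a⁻¹ * a * ⁅a, a⁻¹⁆ ^ m = 1 := by
  simp [commutatorElement_def]

theorem baer_smul_mul {H : Type v} [Group H] [MulDistribMulAction H G] (h : H) (x y : G)
    (m : ℕ) : h • (x * y * ⁅y, x⁆ ^ m) = h • x * h • y * ⁅h • y, h • x⁆ ^ m := by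
  simp only [commutatorElement_def, smul_mul', smul_pow', smul_inv']

end Baer

/-- The Baer trick: the same underlying set with `x ∘ y = x y [y, x]^m`. -/
def BaerT (G : Type u) [Group G] (m : ℕ) (_hcl : ∀ x y z : G, ⁅x, y⁆ * z = z * ⁅x, y⁆)
    (_hm : ∀ g : G, g ^ m * g ^ m = g) : Type u := G

instance baerCommGroup (G : Type u) [Group G] (m : ℕ)
    (hcl : ∀ x y z : G, ⁅x, y⁆ * z = z * ⁅x, y⁆) (hm : ∀ g : G, g ^ m * g ^ m = g) :
    CommGroup (BaerT G m hcl hm) where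
  mul := fun (x y : G) => (x * y * ⁅y, x⁆ ^ m : G)
  mul_assoc := baer_assoc hcl m
  one := (1 : G)
  one_mul := fun (a : G) => baer_one_mul a m
  mul_one := fun (a : G) => baer_mul_one a m
  inv := fun (x : G) => (x⁻¹ : G)
  inv_mul_cancel := fun (a : G) => baer_inv_mul a m
  mul_comm := baer_comm hcl m hm

instance baerFinite (G : Type u) [Group G] [Finite G] (m : ℕ)
    (hcl : ∀ x y z : G, ⁅x, y⁆ * z = z * ⁅x, y⁆) (hm : ∀ g : G, g ^ m * g ^ m = g) :
    Finite (BaerT G m hcl hm) := inferInstanceAs (Finite G)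

instance baerAct (G : Type u) [Group G] (m : ℕ)
    (hcl : ∀ x y z : G, ⁅x, y⁆ * z = z * ⁅x, y⁆) (hm : ∀ g : G, g ^ m * g ^ m = g)
    (H : Type v) [Group H] [MulDistribMulAction H G] :
    MulDistribMulAction H (BaerT G m hcl hm) where
  smul := fun h (x : G) => h • x
  one_smul := fun (x : G) => one_smul H x
  mul_smul := fun a b (x : G) => mul_smul a b x
  smul_mul := fun h (x y : G) => baer_smul_mul h x y m
  smul_one := fun h => (smul_one h : h • (1 : G) = 1)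

/-- Class two, `p` odd. -/
theorem baerFix {G : Type u} [Group G] [Finite G] {H : Type v} [Group H] [Finite H]
    [MulDistribMulAction H G] {p : ℕ} [Fact p.Prime] (hp : p ≠ 2) (k : ℕ)
    (hG : Nat.card G = p ^ k) (hcl : ∀ x y z : G, ⁅x, y⁆ * z = z * ⁅x, y⁆)
    (P Q : Subgroup H) (hP : IsPGroup p P) (hQ : (Nat.card Q).Coprime p)
    (hPQ : ∀ u ∈ P, ∀ q ∈ Q, u * q * u⁻¹ ∈ Q)
    (hfix : ∀ g : G, (∀ u ∈ P, u • g = g) → ∀ q ∈ Q, q • g = g) :
    ∀ q ∈ Q, ∀ g : G, q • g = g := by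
  have hodd : Odd (p ^ k) := ((Fact.out : p.Prime).odd_of_ne_two hp).pow
  obtain ⟨m, hm⟩ : ∃ m, p ^ k + 1 = 2 * m := by
    obtain ⟨j, hj⟩ := hodd; exact ⟨j + 1, by omega⟩
  have hm' : ∀ g : G, g ^ m * g ^ m = g := by
    intro g
    rw [← pow_add, ← two_mul, ← hm, pow_succ, ← hG, pow_card_eq_one', one_mul]
  exact abFix (B := BaerT G m hcl hm') (H := H) k hG P Q hP hQ hPQ hfix

theorem mem_normalizer_commutator {X : Type u} [Group X] (A B : Subgroup X) (n : X)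
    (hA : n ∈ Subgroup.normalizer (A : Set X)) (hB : n ∈ Subgroup.normalizer (B : Set X)) :
    n ∈ Subgroup.normalizer ((⁅A, B⁆ : Subgroup X) : Set X) := by
  have key : ∀ n : X, n ∈ Subgroup.normalizer (A : Set X) → n ∈ Subgroup.normalizer (B : Set X) →
      ∀ w ∈ ⁅A, B⁆, n * w * n⁻¹ ∈ ⁅A, B⁆ := by
    intro n hA hB
    have hle : ⁅A, B⁆ ≤ (⁅A, B⁆).comap (MulAut.conj n).toMonoidHom := by
      rw [Subgroup.commutator_le]
      intro a ha b hb
      rw [Subgroup.mem_comap]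
      show n * ⁅a, b⁆ * n⁻¹ ∈ ⁅A, B⁆
      have e : n * ⁅a, b⁆ * n⁻¹ = ⁅n * a * n⁻¹, n * b * n⁻¹⁆ := by
        simp only [commutatorElement_def]; group
      rw [e]
      exact Subgroup.commutator_mem_commutator ((Subgroup.mem_normalizer_iff.mp hA a).mp ha)
        ((Subgroup.mem_normalizer_iff.mp hB b).mp hb)
    intro w hw; exact hle hw
  apply mem_normalizer_of_forall _ n (key n hA hB)
  intro w hw
  have := key n⁻¹ (Subgroup.inv_mem _ hA) (Subgroup.inv_mem _ hB) w hw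
  rwa [inv_inv] at this

theorem key {X : Type u} [Group X] [Finite X] {p : ℕ} [Fact p.Prime] (hp : p ≠ 2)
    (P Q : Subgroup X) (hP : IsPGroup p P) (hQ : (Nat.card Q).Coprime p)
    (hPQ : P ≤ Subgroup.normalizer (Q : Set X)) :
    ∀ n : ℕ, ∀ G : Subgroup X, Nat.card G = n → IsPGroup p G →
      P ≤ Subgroup.normalizer (G : Set X) → Q ≤ Subgroup.normalizer (G : Set X) →
      G ⊓ Subgroup.centralizer (P : Set X) ≤ Subgroup.centralizer (Q : Set X) →
      Q ≤ Subgroup.centralizer (G : Set X) := by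
  intro n
  induction n using Nat.strong_induction_on with
  | _ n ih =>
    intro G hn hG hPG hQG hC
    by_contra hnot
    have hsub : ∀ H : Subgroup X, H ≤ G → H ≠ G → P ≤ Subgroup.normalizer (H : Set X) →
        Q ≤ Subgroup.normalizer (H : Set X) → Q ≤ Subgroup.centralizer (H : Set X) := by
      intro H hHG hne hPH hQH
      have hlt : Nat.card H < n := by
        rw [← hn]
        exact lt_of_le_of_ne (Subgroup.card_le_of_le hHG)
          (fun h => hne (Subgroup.eq_of_le_of_card_ge hHG h.ge))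
      exact ih _ hlt H rfl (hG.to_le hHG) hPH hQH ((inf_le_inf_right _ hHG).trans hC)
    have hD_le : ⁅G, Q⁆ ≤ G := commutator_le_left_of_le_normalizer G Q hQG
    have hQD : Q ≤ Subgroup.normalizer ((⁅G, Q⁆ : Subgroup X) : Set X) := by
      rw [Subgroup.commutator_comm]; exact le_normalizer_commutator_left Q G
    have hPD : P ≤ Subgroup.normalizer ((⁅G, Q⁆ : Subgroup X) : Set X) :=
      fun u hu => mem_normalizer_commutator G Q u (hPG hu) (hPQ hu)
    have hD : ⁅G, Q⁆ = G := by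
      by_contra hne
      have h1 := hsub _ hD_le hne hPD hQD
      apply hnot
      have h2 : iterCommutator G Q (0 + 2) = ⊥ := by
        show ⁅⁅G, Q⁆, Q⁆ = ⊥
        rw [Subgroup.commutator_comm]
        exact Subgroup.commutator_eq_bot_iff_le_centralizer.mpr h1
      intro x hx
      rw [Subgroup.mem_centralizer_iff]
      intro r hr
      exact centralizes_of_nilpotent_action G hG Q hQG x hx (Nat.card Q) hQ
        (by
          have := pow_card_eq_one' (G := ↥Q) (x := ⟨x, hx⟩)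
          exact congrArg Subtype.val this) 2 0 h2 r hr
    have hGne : G ≠ ⊥ := by
      intro h
      apply hnot
      intro q _
      rw [Subgroup.mem_centralizer_iff]
      intro g hg
      have hg' : g ∈ G := hg
      rw [h, Subgroup.mem_bot] at hg'
      rw [hg', one_mul, mul_one]
    have hG'_le : ⁅G, G⁆ ≤ G := commutator_le_left_of_le_normalizer G G Subgroup.le_normalizer
    have hG'ne : ⁅G, G⁆ ≠ G :=
      Cfsg.Agent.S0663.comm_ne_self G G hG hG Subgroup.le_normalizer hGne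
    have hPG' : P ≤ Subgroup.normalizer ((⁅G, G⁆ : Subgroup X) : Set X) :=
      fun u hu => mem_normalizer_commutator G G u (hPG hu) (hPG hu)
    have hQG' : Q ≤ Subgroup.normalizer ((⁅G, G⁆ : Subgroup X) : Set X) :=
      fun u hu => mem_normalizer_commutator G G u (hQG hu) (hQG hu)
    have hQcG' := hsub _ hG'_le hG'ne hPG' hQG'
    have h3 : ⁅⁅G, Q⁆, ⁅G, G⁆⁆ = ⊥ := by
      have h1 : ⁅⁅Q, ⁅G, G⁆⁆, G⁆ = ⊥ := by
        rw [Subgroup.commutator_eq_bot_iff_le_centralizer.mpr hQcG', Subgroup.commutator_bot_left]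
      have h2 : ⁅⁅⁅G, G⁆, G⁆, Q⁆ = ⊥ := by
        have hle : ⁅⁅G, G⁆, G⁆ ≤ ⁅G, G⁆ :=
          commutator_le_left_of_le_normalizer _ G (le_normalizer_commutator_left G G)
        have h' : ⁅⁅G, G⁆, Q⁆ = ⊥ := by
          rw [Subgroup.commutator_comm]
          exact Subgroup.commutator_eq_bot_iff_le_centralizer.mpr hQcG'
        exact le_bot_iff.mp ((Subgroup.commutator_mono hle le_rfl).trans h'.le)
      exact Subgroup.commutator_commutator_eq_bot_of_rotate h1 h2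
    rw [hD] at h3
    obtain ⟨k, hk⟩ := hG.exists_card_eq
    have hcl : ∀ x y z : ↥G, ⁅x, y⁆ * z = z * ⁅x, y⁆ := by
      intro x y z
      have hmem : ⁅(z : X), ⁅(x : X), (y : X)⁆⁆ ∈ ⁅G, ⁅G, G⁆⁆ :=
        Subgroup.commutator_mem_commutator z.2 (Subgroup.commutator_mem_commutator x.2 y.2)
      rw [h3, Subgroup.mem_bot, commutatorElement_eq_one_iff_mul_comm] at hmem
      apply Subtype.ext
      exact hmem.symm
    have hP' : IsPGroup p (P.subgroupOf (Subgroup.normalizer (G : Set X))) := hP.comap_subtype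
    have hQ' : (Nat.card (Q.subgroupOf (Subgroup.normalizer (G : Set X)))).Coprime p := by
      rw [Nat.card_congr (Subgroup.subgroupOfEquivOfLe hQG).toEquiv]; exact hQ
    have hPQ' : ∀ u ∈ P.subgroupOf (Subgroup.normalizer (G : Set X)),
        ∀ q ∈ Q.subgroupOf (Subgroup.normalizer (G : Set X)),
        u * q * u⁻¹ ∈ Q.subgroupOf (Subgroup.normalizer (G : Set X)) := by
      intro u hu q hq
      rw [Subgroup.mem_subgroupOf] at hu hq ⊢
      exact (Subgroup.mem_normalizer_iff.mp (hPQ hu) _).mp hq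
    have hfix' : ∀ g : ↥G, (∀ u ∈ P.subgroupOf (Subgroup.normalizer (G : Set X)), u • g = g) →
        ∀ q ∈ Q.subgroupOf (Subgroup.normalizer (G : Set X)), q • g = g := by
      intro g hg q hq
      have hgP : (g : X) ∈ Subgroup.centralizer (P : Set X) := by
        rw [Subgroup.mem_centralizer_iff]
        intro u hu
        have h1 := hg ⟨u, hPG hu⟩ (Subgroup.mem_subgroupOf.mpr hu)
        have h2 : u * (g : X) * u⁻¹ = (g : X) := congrArg Subtype.val h1
        exact mul_inv_eq_iff_eq_mul.mp h2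
      have hgQ := hC ⟨g.2, hgP⟩
      rw [Subgroup.mem_centralizer_iff] at hgQ
      have h3 := hgQ (q : X) (Subgroup.mem_subgroupOf.mp hq)
      apply Subtype.ext
      show (q : X) * (g : X) * (q : X)⁻¹ = (g : X)
      exact mul_inv_eq_iff_eq_mul.mpr h3
    have hfin := baerFix hp k hk hcl (P.subgroupOf (Subgroup.normalizer (G : Set X)))
      (Q.subgroupOf (Subgroup.normalizer (G : Set X))) hP' hQ' hPQ' hfix'
    apply hnot
    intro q hq
    rw [Subgroup.mem_centralizer_iff]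
    intro g hg
    have h1 := hfin ⟨q, hQG hq⟩ (Subgroup.mem_subgroupOf.mpr hq) ⟨g, hg⟩
    have h2 : q * g * q⁻¹ = g := congrArg Subtype.val h1
    exact (mul_inv_eq_iff_eq_mul.mp h2).symm


/-- Thompson's strengthening of the P × Q lemma for odd primes. Let p be an odd prime and let P, Q and G be subgroups of a finite group with P a p-group, Q of order prime to p and normalized by P, and G a p-group normalized by both P and Q. If every element of G centralized by P is centralized by Q, then Q centralizes G. -/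
theorem result {X : Type*} [Group X] [Finite X] {p : ℕ} [Fact p.Prime] (hp : p ≠ 2) (P Q G : Subgroup X) (hP : IsPGroup p P) (hQ : (Nat.card Q).Coprime p) (hPQ : P ≤ Subgroup.normalizer (Q : Set X)) (hG : IsPGroup p G) (hPG : P ≤ Subgroup.normalizer (G : Set X)) (hQG : Q ≤ Subgroup.normalizer (G : Set X)) (hC : G ⊓ Subgroup.centralizer (P : Set X) ≤ Subgroup.centralizer (Q : Set X)) : Q ≤ Subgroup.centralizer (G : Set X) := by
  exact key hp P Q hP hQ hPQ _ G rfl hG hPG hQG hC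

end Cfsg.Agent.S3737
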