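import Mathlib
import Cfsg.Statements.S3772
import Cfsg.Agent.S4208
import Cfsg.Agent.S4056

set_option autoImplicit false
open Cfsg

namespace Cfsg.Agent.S3772

open Classical in
/-- `1` at the identity and `-1` elsewhere. -/
noncomputable def sgn {G : Type*} [Group G] (w : G) : ℤ := if w = 1 then 1 else -1

theorem sgn_one {G : Type*} [Group G] : sgn (1 : G) = 1 := by
  unfold sgn; rw [if_pos rfl]

theorem sgn_ne {G : Type*} [Group G] (w : G) (h : w ≠ 1) : sgn w = -1 := by
  unfold sgn; rw [if_neg h]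

theorem sgn_sq {G : Type*} [Group G] (w : G) : sgn w * sgn w = 1 := by
  unfold sgn; split_ifs <;> norm_num

theorem sgn_mul {G : Type*} [Group G] (z : G) (hzz : z * z = 1) (hz1 : z ≠ 1) (a b : G)
    (ha : a = 1 ∨ a = z) (hb : b = 1 ∨ b = z) : sgn (a * b) = sgn a * sgn b := by
  rcases ha with rfl | rfl <;> rcases hb with rfl | rfl
  · simp [sgn_one]
  · simp [sgn_one]
  · simp [sgn_one]
  · rw [hzz, sgn_one, sgn_ne _ hz1]; norm_num

/-- Let G be a finite 2-group whose Frattini subgroup Φ(G) has order 2, with |G : Φ(G)| = 2^d, and let j be the number of elements x of G with x² = 1. Then j = 2^d, or j = 2^d + 2^(d−r) or j = 2^d − 2^(d−r) for some positive integer r with 2r ≤ d. Moreover if d = 2r and j is 2^d + 2^r or 2^d − 2^r, then G is extraspecial. -/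
theorem result {G : Type*} [Group G] [Finite G] (hG : IsPGroup 2 G) (hΦ : Nat.card (frattini G) = 2) (d : ℕ) (hd : (frattini G).index = 2 ^ d) : (Nat.card {x : G // x ^ 2 = 1} = 2 ^ d ∨ ∃ r : ℕ, 1 ≤ r ∧ 2 * r ≤ d ∧ (Nat.card {x : G // x ^ 2 = 1} = 2 ^ d + 2 ^ (d - r) ∨ Nat.card {x : G // x ^ 2 = 1} + 2 ^ (d - r) = 2 ^ d)) ∧ (∀ r : ℕ, d = 2 * r → (Nat.card {x : G // x ^ 2 = 1} = 2 ^ d + 2 ^ r ∨ Nat.card {x : G // x ^ 2 = 1} + 2 ^ r = 2 ^ d) → Cfsg.IsExtraspecial 2 G) := by
  classical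
  haveI : Fintype G := Fintype.ofFinite G
  haveI : Fact (Nat.Prime 2) := ⟨Nat.prime_two⟩
  have hcard : Nat.card G = 2 ^ (d + 1) := by
    rw [← Subgroup.card_mul_index (frattini G), hΦ, hd, pow_succ, mul_comm]
  have hcardZ : (Nat.card G : ℤ) = (2 : ℤ) ^ (d + 1) := by rw [hcard]; norm_num
  obtain ⟨hcomm, hsq⟩ := Cfsg.Agent.S4208.frattini_quot 2 hcard
  obtain ⟨⟨z, hzΦ⟩, hz1, hzuniq⟩ := (Nat.card_eq_two_iff' (1 : frattini G)).1 hΦ
  have hz1' : z ≠ 1 := fun h => hz1 (Subtype.ext h)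
  have hΦ2 : ∀ a ∈ frattini G, a = 1 ∨ a = z := by
    intro a ha
    by_cases h : a = 1
    · exact Or.inl h
    · right
      have h2 := hzuniq ⟨a, ha⟩ (fun h' => h (congrArg Subtype.val h'))
      exact congrArg Subtype.val h2
  have hzz : z * z = 1 := by
    rcases hΦ2 (z * z) ((frattini G).mul_mem hzΦ hzΦ) with h | h
    · exact h
    · exfalso
      apply hz1'
      have h2 := congrArg (fun w => z⁻¹ * w) h
      simpa using h2
  have hzc : ∀ g : G, g * z = z * g := by
    intro g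
    have hn : g * z * g⁻¹ ∈ frattini G :=
      (inferInstance : (frattini G).Normal).conj_mem z hzΦ g
    rcases hΦ2 _ hn with h | h
    · exact absurd (conj_eq_one_iff.1 h) hz1'
    · calc g * z = g * z * g⁻¹ * g := by group
        _ = z * g := by rw [h]
  have hΦc : ∀ a ∈ frattini G, ∀ g : G, g * a = a * g := by
    intro a ha g
    rcases hΦ2 a ha with h | h
    · rw [h, mul_one, one_mul]
    · rw [h]; exact hzc g
  have hχmul : ∀ x y : G, sgn ((x * y) ^ 2) =
      sgn (y * x * y⁻¹ * x⁻¹) * (sgn (x ^ 2) * sgn (y ^ 2)) := by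
    intro x y
    have hc := hΦc _ (hcomm y x) x
    have h1 : (x * y) ^ 2 = x * (y * x * y⁻¹ * x⁻¹) * x * y * y := by
      rw [pow_two]; group
    rw [hc] at h1
    have h2 : (x * y) ^ 2 = (y * x * y⁻¹ * x⁻¹) * (x ^ 2 * y ^ 2) := by
      rw [h1]; simp only [pow_two, mul_assoc]
    rw [h2, sgn_mul z hzz hz1' _ _ (hΦ2 _ (hcomm y x))
      (hΦ2 _ ((frattini G).mul_mem (hsq x) (hsq y))),
      sgn_mul z hzz hz1' _ _ (hΦ2 _ (hsq x)) (hΦ2 _ (hsq y))]
  have hβmul : ∀ y y' x : G, sgn ((y * y') * x * (y * y')⁻¹ * x⁻¹) =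
      sgn (y * x * y⁻¹ * x⁻¹) * sgn (y' * x * y'⁻¹ * x⁻¹) := by
    intro y y' x
    have hc := hΦc _ (hcomm y' x) y
    have h1 : (y * y') * x * (y * y')⁻¹ * x⁻¹ =
        y * (y' * x * y'⁻¹ * x⁻¹) * y⁻¹ * (y * x * y⁻¹ * x⁻¹) := by group
    rw [hc, mul_inv_cancel_right] at h1
    rw [h1, sgn_mul z hzz hz1' _ _ (hΦ2 _ (hcomm y' x)) (hΦ2 _ (hcomm y x)), mul_comm]
  obtain ⟨T, hTdef⟩ : ∃ T : ℤ, T = ∑ x : G, sgn (x ^ 2) := ⟨_, rfl⟩
  have hT : ∀ y : G, ∑ x : G, sgn ((x * y) ^ 2) = T := fun y => by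
    rw [hTdef]
    exact Equiv.sum_comp (Equiv.mulRight y) (fun x => sgn (x ^ 2))
  have hTT : T * T = ∑ x : G, sgn (x ^ 2) * ∑ y : G, sgn (y * x * y⁻¹ * x⁻¹) := by
    calc T * T = ∑ y : G, sgn (y ^ 2) * T := by rw [← Finset.sum_mul, ← hTdef]
      _ = ∑ y : G, ∑ x : G, sgn (x ^ 2) * sgn (y * x * y⁻¹ * x⁻¹) := by
          apply Finset.sum_congr rfl
          intro y _
          rw [← hT y, Finset.mul_sum]
          apply Finset.sum_congr rfl
          intro x _
          rw [hχmul x y]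
          have h := sgn_sq (y ^ 2)
          linear_combination (sgn (x ^ 2) * sgn (y * x * y⁻¹ * x⁻¹)) * h
      _ = ∑ x : G, ∑ y : G, sgn (x ^ 2) * sgn (y * x * y⁻¹ * x⁻¹) := Finset.sum_comm
      _ = ∑ x : G, sgn (x ^ 2) * ∑ y : G, sgn (y * x * y⁻¹ * x⁻¹) := by
          apply Finset.sum_congr rfl
          intro x _
          rw [Finset.mul_sum]
  have hinner : ∀ x : G, ∑ y : G, sgn (y * x * y⁻¹ * x⁻¹) =
      if x ∈ Subgroup.center G then (Nat.card G : ℤ) else 0 := by
    intro x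
    split_ifs with hx
    · have h1 : ∀ y : G, sgn (y * x * y⁻¹ * x⁻¹) = 1 := by
        intro y
        have h2 : y * x * y⁻¹ * x⁻¹ = 1 := by
          have h3 := Subgroup.mem_center_iff.1 hx y
          rw [h3]; group
        rw [h2, sgn_one]
      rw [Finset.sum_congr rfl (fun y _ => h1 y), Finset.sum_const, Finset.card_univ,
        nsmul_eq_mul, mul_one, Nat.card_eq_fintype_card]
    · rw [Subgroup.mem_center_iff, not_forall] at hx
      obtain ⟨y0, hy0⟩ := hx
      have h0 : sgn (y0 * x * y0⁻¹ * x⁻¹) = -1 := by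
        apply sgn_ne
        intro h
        exact hy0 (mul_inv_eq_iff_eq_mul.1 (mul_inv_eq_one.1 h))
      have h1 : ∑ y : G, sgn (y * x * y⁻¹ * x⁻¹) =
          ∑ y : G, sgn ((y * y0) * x * (y * y0)⁻¹ * x⁻¹) :=
        (Equiv.sum_comp (Equiv.mulRight y0) (fun y => sgn (y * x * y⁻¹ * x⁻¹))).symm
      have h2 : ∑ y : G, sgn ((y * y0) * x * (y * y0)⁻¹ * x⁻¹) =
          - ∑ y : G, sgn (y * x * y⁻¹ * x⁻¹) := by
        rw [← Finset.sum_neg_distrib]
        apply Finset.sum_congr rfl
        intro y _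
        rw [hβmul, h0, mul_neg, mul_one]
      linarith
  have hTT2 : T * T = (Nat.card G : ℤ) *
      ∑ x : G, (if x ∈ Subgroup.center G then sgn (x ^ 2) else 0) := by
    rw [hTT, Finset.mul_sum]
    apply Finset.sum_congr rfl
    intro x _
    rw [hinner x]
    split_ifs <;> ring
  have hZcard : Nat.card (Subgroup.center G) =
      (Finset.univ.filter (fun x : G => x ∈ Subgroup.center G)).card := by
    rw [Nat.card_eq_fintype_card]
    exact Fintype.card_of_subtype _ (fun x => by simp)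
  have hzcen : z ∈ Subgroup.center G := Subgroup.mem_center_iff.2 hzc
  have hcases : T = 0 ∨ (Subgroup.center G ≠ ⊤ ∧
      T * T = (Nat.card G : ℤ) * (Nat.card (Subgroup.center G) : ℤ)) := by
    by_cases hA : ∃ x0 ∈ Subgroup.center G, x0 ^ 2 ≠ 1
    · left
      obtain ⟨x0, hx0c, hx0⟩ := hA
      have hs0 : sgn (x0 ^ 2) = -1 := sgn_ne _ hx0
      have h1 : ∑ x : G, (if x ∈ Subgroup.center G then sgn (x ^ 2) else 0) =
          ∑ x : G, (if x * x0 ∈ Subgroup.center G then sgn ((x * x0) ^ 2) else 0) :=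
        (Equiv.sum_comp (Equiv.mulRight x0)
          (fun x => if x ∈ Subgroup.center G then sgn (x ^ 2) else 0)).symm
      have h2 : ∑ x : G, (if x * x0 ∈ Subgroup.center G then sgn ((x * x0) ^ 2) else 0) =
          - ∑ x : G, (if x ∈ Subgroup.center G then sgn (x ^ 2) else 0) := by
        rw [← Finset.sum_neg_distrib]
        apply Finset.sum_congr rfl
        intro x _
        have hiff : x * x0 ∈ Subgroup.center G ↔ x ∈ Subgroup.center G :=
          ⟨fun h => by
            simpa using (Subgroup.center G).mul_mem h ((Subgroup.center G).inv_mem hx0c),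
            fun h => (Subgroup.center G).mul_mem h hx0c⟩
        have hc1 : x0 * x * x0⁻¹ * x⁻¹ = 1 := by
          have h3 := Subgroup.mem_center_iff.1 hx0c x
          rw [← h3]; group
        rw [hχmul x x0, hc1, sgn_one, hs0]
        by_cases hx : x ∈ Subgroup.center G
        · rw [if_pos (hiff.2 hx), if_pos hx]; ring
        · rw [if_neg (fun h => hx (hiff.1 h)), if_neg hx]; ring
      have hZs0 : ∑ x : G, (if x ∈ Subgroup.center G then sgn (x ^ 2) else 0) = 0 := by
        linarith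
      rw [hZs0, mul_zero] at hTT2
      exact mul_self_eq_zero.1 hTT2
    · right
      rw [not_exists] at hA
      have hB : ∀ x ∈ Subgroup.center G, x ^ 2 = 1 := by
        intro x hx
        by_contra h
        exact hA x ⟨hx, h⟩
      constructor
      · intro htop
        have hall : ∀ x : G, x ^ 2 ∈ (⊥ : Subgroup G) := fun x => by
          rw [Subgroup.mem_bot]; exact hB x (htop ▸ Subgroup.mem_top x)
        have h3 := Cfsg.Agent.S4056.frattini_le_of_sq_mem ⊥ hall hzΦ
        exact hz1' (Subgroup.mem_bot.1 h3)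
      · rw [hTT2]
        have h1 : ∑ x : G, (if x ∈ Subgroup.center G then sgn (x ^ 2) else 0) =
            ∑ x : G, (if x ∈ Subgroup.center G then (1 : ℤ) else 0) := by
          apply Finset.sum_congr rfl
          intro x _
          by_cases hx : x ∈ Subgroup.center G
          · rw [if_pos hx, if_pos hx, hB x hx, sgn_one]
          · rw [if_neg hx, if_neg hx]
        rw [h1, Finset.sum_boole, hZcard]
  -- `T` in terms of the number of solutions
  obtain ⟨j, hj⟩ : ∃ j : ℕ, j = Nat.card {x : G // x ^ 2 = 1} := ⟨_, rfl⟩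
  rw [← hj]
  have hjdef : j = (Finset.univ.filter (fun x : G => x ^ 2 = 1)).card := by
    rw [hj, Nat.card_eq_fintype_card]
    exact Fintype.card_of_subtype _ (fun x => by simp)
  have hTj : T = 2 * (j : ℤ) - (2 : ℤ) ^ (d + 1) := by
    have h1 : ∀ x : G, sgn (x ^ 2) = 2 * (if x ^ 2 = 1 then (1 : ℤ) else 0) - 1 := by
      intro x; unfold sgn; split_ifs <;> norm_num
    rw [hTdef, Finset.sum_congr rfl (fun x _ => h1 x), Finset.sum_sub_distrib, ← Finset.mul_sum,
      Finset.sum_boole, Finset.sum_const, Finset.card_univ, nsmul_eq_mul, mul_one, hjdef,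
      ← Nat.card_eq_fintype_card, hcardZ]
  have hp1 : (2 : ℕ) ^ (d + 1) = 2 ^ d * 2 := pow_succ 2 d
  -- the centre
  obtain ⟨e, he⟩ := IsPGroup.iff_card.1 (hG.to_subgroup (Subgroup.center G))
  have he1 : 1 ≤ e := by
    by_contra h
    have h0 : e = 0 := by omega
    rw [h0, pow_zero] at he
    have hbot := Subgroup.eq_bot_of_card_eq _ he
    rw [hbot] at hzcen
    exact hz1' (Subgroup.mem_bot.1 hzcen)
  have hfirst : j = 2 ^ d ∨ ∃ r : ℕ, 1 ≤ r ∧ 2 * r ≤ d ∧
      (j = 2 ^ d + 2 ^ (d - r) ∨ j + 2 ^ (d - r) = 2 ^ d) := by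
    rcases hcases with h0 | ⟨hne, hB⟩
    · left
      rw [h0] at hTj
      have h1 : (2 * j : ℤ) = ((2 ^ (d + 1) : ℕ) : ℤ) := by push_cast; linarith
      have h2 : 2 * j = 2 ^ (d + 1) := by exact_mod_cast h1
      omega
    · right
      have hed : e < d + 1 := by
        have h1 : Nat.card (Subgroup.center G) < Nat.card G := by
          rcases Nat.lt_or_ge (Nat.card (Subgroup.center G)) (Nat.card G) with h | h
          · exact h
          · exact absurd (Subgroup.eq_top_of_card_eq _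
              (le_antisymm (Subgroup.card_le_card_group _) h)) hne
        rw [he, hcard] at h1
        exact (Nat.pow_lt_pow_iff_right (by norm_num)).1 h1
      obtain ⟨t, ht0⟩ : ∃ t : ℕ, t = T.natAbs := ⟨_, rfl⟩
      have ht : t * t = 2 ^ (d + 1) * 2 ^ e := by
        have h := Int.natAbs_mul_self' T
        rw [hB, hcard, he, ← ht0] at h
        exact_mod_cast h
      have hdvd : t ∣ 2 ^ (d + 1 + e) := Dvd.intro t (by rw [pow_add]; exact ht)
      obtain ⟨k, -, rfl⟩ := (Nat.dvd_prime_pow Nat.prime_two).1 hdvd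
      have hk2 : k + k = d + 1 + e := by
        rw [← pow_add, ← pow_add] at ht
        exact Nat.pow_right_injective (le_refl 2) ht
      obtain ⟨k', rfl⟩ : ∃ k', k = k' + 1 := ⟨k - 1, by omega⟩
      have hp2 : (2 : ℕ) ^ (k' + 1) = 2 ^ k' * 2 := pow_succ 2 k'
      have hdr : d - (d - k') = k' := by omega
      refine ⟨d - k', by omega, by omega, ?_⟩
      rw [hdr]
      rcases Int.natAbs_eq T with h | h
      · left
        rw [← ht0] at h
        push_cast at h
        have h1 : (2 * j : ℤ) = ((2 ^ (d + 1) + 2 ^ (k' + 1) : ℕ) : ℤ) := by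
          push_cast; linarith
        have h2 : 2 * j = 2 ^ (d + 1) + 2 ^ (k' + 1) := by exact_mod_cast h1
        omega
      · right
        rw [← ht0] at h
        push_cast at h
        have h1 : ((2 * j + 2 ^ (k' + 1) : ℕ) : ℤ) = ((2 ^ (d + 1) : ℕ) : ℤ) := by
          push_cast; linarith
        have h2 : 2 * j + 2 ^ (k' + 1) = 2 ^ (d + 1) := by exact_mod_cast h1
        omega
  refine ⟨hfirst, ?_⟩
  intro r hdr hjr
  have hpd : (2 : ℤ) ^ d = 2 ^ r * 2 ^ r := by rw [hdr, two_mul, pow_add]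
  have hpd1 : (2 : ℤ) ^ (d + 1) = 2 ^ d * 2 := pow_succ 2 d
  have hrpos : (0 : ℤ) < 2 ^ r := by positivity
  have hT2 : T * T = (2 : ℤ) ^ (d + 1) * 2 := by
    rcases hjr with h | h
    · have h1 : (j : ℤ) = 2 ^ d + 2 ^ r := by rw [h]; push_cast; ring
      rw [hTj, h1, hpd1, hpd]; ring
    · have h1 : (j : ℤ) + 2 ^ r = 2 ^ d := by
        have h2 : ((j + 2 ^ r : ℕ) : ℤ) = ((2 ^ d : ℕ) : ℤ) := by rw [h]
        push_cast at h2; exact h2
      have h3 : (j : ℤ) = 2 ^ d - 2 ^ r := by linarith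
      rw [hTj, h3, hpd1, hpd]; ring
  rcases hcases with h0 | ⟨hne, hB⟩
  · exfalso
    rw [h0, mul_zero] at hT2
    have hpos : (0 : ℤ) < 2 ^ (d + 1) * 2 := by positivity
    omega
  · have hZ2 : Nat.card (Subgroup.center G) = 2 := by
      rw [hB, hcardZ] at hT2
      have hpos : (2 : ℤ) ^ (d + 1) ≠ 0 := by positivity
      have h1 := mul_left_cancel₀ hpos hT2
      exact_mod_cast h1
    have hΦZ : frattini G = Subgroup.center G :=
      Subgroup.eq_of_le_of_card_ge (fun a ha => Subgroup.mem_center_iff.2 (hΦc a ha))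
        (by rw [hΦ, hZ2])
    have hcomle : commutator G ≤ frattini G := by
      rw [commutator_def, Subgroup.commutator_le]
      intro x _ y _
      exact hcomm x y
    have hcomne : commutator G ≠ ⊥ := by
      intro hbot
      apply hne
      rw [Subgroup.eq_top_iff']
      intro x
      rw [Subgroup.mem_center_iff]
      intro g
      have h1 : g * x * g⁻¹ * x⁻¹ ∈ commutator G := by
        rw [commutator_def]
        exact Subgroup.commutator_mem_commutator (Subgroup.mem_top g) (Subgroup.mem_top x)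
      rw [hbot, Subgroup.mem_bot] at h1
      exact mul_inv_eq_iff_eq_mul.1 (mul_inv_eq_one.1 h1)
    have hcomΦ : commutator G = frattini G := by
      apply Subgroup.eq_of_le_of_card_ge hcomle
      rw [hΦ]
      have := (Subgroup.one_lt_card_iff_ne_bot _).2 hcomne
      omega
    exact ⟨⟨hG, hΦZ, hcomΦ.trans hΦZ⟩, hZ2⟩

end Cfsg.Agent.S3772
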