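import Mathlib
import Cfsg.Statements.S3773
import Cfsg.Agent.Helper19.Gauss
import Cfsg.Agent.S4208
import Cfsg.Agent.S4056

set_option autoImplicit false
open Cfsg
open scoped commutatorElement

namespace Cfsg.Agent.S3773

/-- Let G be a finite 2-group of nilpotency class at most 2 and exponent dividing 4 in which the elements x with x² = 1 form a subgroup N. Then |G| ≤ |N|³, and |G| < |N|³ unless G is special. -/
theorem result {G : Type*} [Group G] [Finite G] (hG : IsPGroup 2 G) (hcl : (⊤ : Subgroup G).lowerCentralSeries 2 = ⊥) (hexp : ∀ x : G, x ^ 4 = 1) (hN : ∀ x y : G, x ^ 2 = 1 → y ^ 2 = 1 → (x * y) ^ 2 = 1) : Nat.card G ≤ Nat.card {x : G // x ^ 2 = 1} ^ 3 ∧ (¬ Cfsg.IsSpecial 2 G → Nat.card G < Nat.card {x : G // x ^ 2 = 1} ^ 3) := by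
  classical
  have hcen : ∀ x y g : G, g * (x * y * x⁻¹ * y⁻¹) = (x * y * x⁻¹ * y⁻¹) * g := by
    intro x y g
    have h1 : ⁅⁅x, y⁆, g⁆ ∈ (⊤ : Subgroup G).lowerCentralSeries 2 :=
      Subgroup.commutator_mem_commutator
        (Subgroup.commutator_mem_commutator (Subgroup.mem_top x) (Subgroup.mem_top y))
        (Subgroup.mem_top g)
    rw [hcl, Subgroup.mem_bot] at h1
    have h4 := commutatorElement_eq_one_iff_commute.mp h1
    rw [commutatorElement_def] at h4
    exact h4.eq.symm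
  have hsq4 : ∀ x : G, (x ^ 2) ^ 2 = 1 := fun x => by rw [← pow_mul]; exact hexp x
  have hc2 : ∀ x y : G, (x * y * x⁻¹ * y⁻¹) ^ 2 = 1 := by
    intro x y
    have e : x * y * x⁻¹ * y⁻¹ = x ^ 2 * (x⁻¹ * y) ^ 2 * (y⁻¹) ^ 2 := by
      rw [pow_two, pow_two, pow_two]; group
    rw [e]
    exact hN _ _ (hN _ _ (hsq4 x) (hsq4 _)) (hsq4 _)
  have hsqc : ∀ x g : G, g * x ^ 2 = x ^ 2 * g := by
    intro x g
    have hc := hcen g x
    have hcc : (g * x * g⁻¹ * x⁻¹) * (g * x * g⁻¹ * x⁻¹) = 1 := by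
      rw [← pow_two]; exact hc2 g x
    calc g * x ^ 2 = g * (x * x) := by rw [pow_two]
      _ = (g * x * g⁻¹ * x⁻¹) * (x * (g * x * g⁻¹ * x⁻¹)) * (x * g) := by group
      _ = (g * x * g⁻¹ * x⁻¹) * ((g * x * g⁻¹ * x⁻¹) * x) * (x * g) := by rw [hc x]
      _ = ((g * x * g⁻¹ * x⁻¹) * (g * x * g⁻¹ * x⁻¹)) * (x * x * g) := by group
      _ = x ^ 2 * g := by rw [hcc, one_mul, pow_two]
  let W : Subgroup G :=
    { carrier := {z | z ∈ Subgroup.center G ∧ z ^ 2 = 1}
      one_mem' := ⟨Subgroup.one_mem _, one_pow 2⟩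
      mul_mem' := fun ha hb => ⟨Subgroup.mul_mem _ ha.1 hb.1, hN _ _ ha.2 hb.2⟩
      inv_mem' := fun ha => ⟨Subgroup.inv_mem _ ha.1, by rw [inv_pow, ha.2, inv_one]⟩ }
  have hWc : W ≤ Subgroup.center G := fun z hz => hz.1
  have hW2 : ∀ w ∈ W, w ^ 2 = 1 := fun w hw => hw.2
  have hsqW : ∀ x : G, x ^ 2 ∈ W := fun x =>
    ⟨Subgroup.mem_center_iff.mpr (fun g => hsqc x g), hsq4 x⟩
  have hcommW : ∀ x y : G, x * y * x⁻¹ * y⁻¹ ∈ W := fun x y =>
    ⟨Subgroup.mem_center_iff.mpr (fun g => hcen x y g), hc2 x y⟩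
  obtain ⟨a, ha1, ha2⟩ :=
    Helper19.Gauss.gauss hG W (Subgroup.center G) hWc hW2 hsqW hcommW le_rfl
  haveI : Nonempty {x : G // x ^ 2 = 1} := ⟨⟨1, one_pow 2⟩⟩
  have hqpos : 0 < Nat.card {x : G // x ^ 2 = 1} := Nat.card_pos
  have hwpos : 0 < Nat.card W := Nat.card_pos
  have hzpos : 0 < Nat.card (Subgroup.center G) := Nat.card_pos
  have hw_z : Nat.card W ≤ Nat.card (Subgroup.center G) := Subgroup.card_le_of_le hWc
  let ι : ↥W → {x : G // x ^ 2 = 1} := fun z => ⟨z.1, z.2.2⟩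
  have hι : Function.Injective ι := fun a b h => Subtype.ext (by
    have h' := congrArg Subtype.val h
    exact h')
  have hw_q : Nat.card W ≤ Nat.card {x : G // x ^ 2 = 1} := Nat.card_le_card_of_injective ι hι
  have h2a : 2 ^ a ≤ Nat.card W * Nat.card {x : G // x ^ 2 = 1} :=
    Nat.le_of_dvd (Nat.mul_pos hwpos hqpos) ha2
  obtain ⟨q, hq⟩ : ∃ q, q = Nat.card {x : G // x ^ 2 = 1} := ⟨_, rfl⟩
  obtain ⟨w, hw⟩ : ∃ w, w = Nat.card W := ⟨_, rfl⟩
  obtain ⟨zc, hzc⟩ : ∃ zc, zc = Nat.card (Subgroup.center G) := ⟨_, rfl⟩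
  obtain ⟨n, hn⟩ : ∃ n, n = Nat.card G := ⟨_, rfl⟩
  rw [← hq, ← hw] at h2a hw_q
  rw [← hw, ← hzc] at hw_z
  rw [← hn, ← hzc] at ha1
  rw [← hq] at hqpos
  rw [← hw] at hwpos
  rw [← hzc] at hzpos
  rw [← hq, ← hn]
  have hmain : n * zc ≤ w * w * (q * q) := by
    calc n * zc ≤ 2 ^ (2 * a) := ha1
      _ = 2 ^ a * 2 ^ a := by rw [two_mul, pow_add]
      _ ≤ (w * q) * (w * q) := Nat.mul_le_mul h2a h2a
      _ = w * w * (q * q) := by ring
  have hfirst : n ≤ q ^ 3 := by
    have h5 : zc * n ≤ zc * q ^ 3 := by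
      calc zc * n = n * zc := mul_comm _ _
        _ ≤ w * w * (q * q) := hmain
        _ ≤ zc * q * (q * q) := Nat.mul_le_mul (Nat.mul_le_mul hw_z hw_q) le_rfl
        _ = zc * q ^ 3 := by ring
    exact Nat.le_of_mul_le_mul_left h5 hzpos
  refine ⟨hfirst, ?_⟩
  intro hns
  by_contra hge
  push_neg at hge
  apply hns
  have hnq : n = q ^ 3 := le_antisymm hfirst hge
  have hqz : q * zc ≤ w * w := by
    have : q * q * (q * zc) ≤ q * q * (w * w) := by
      calc q * q * (q * zc) = n * zc := by rw [hnq]; ring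
        _ ≤ w * w * (q * q) := hmain
        _ = q * q * (w * w) := by ring
    exact Nat.le_of_mul_le_mul_left this (Nat.mul_pos hqpos hqpos)
  have hzw : zc ≤ w := by
    have : q * zc ≤ q * w := hqz.trans (Nat.mul_le_mul hw_q le_rfl)
    exact Nat.le_of_mul_le_mul_left this hqpos
  have hqw : q ≤ w := by
    have : q * zc ≤ w * zc := hqz.trans (Nat.mul_le_mul le_rfl hw_z)
    exact Nat.le_of_mul_le_mul_right this hzpos
  have hWZ : W = Subgroup.center G :=
    Subgroup.eq_of_le_of_card_ge hWc (by rw [← hw, ← hzc]; exact hzw)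
  have hZ2 : ∀ z ∈ Subgroup.center G, z ^ 2 = 1 := fun z hz => hW2 z (by rw [hWZ]; exact hz)
  have hzq : zc = q := le_antisymm (hzw.trans hw_q) (hqw.trans hw_z)
  have hsqZ : ∀ x : G, x ^ 2 ∈ Subgroup.center G := fun x => hWc (hsqW x)
  have hcomZ : commutator G ≤ Subgroup.center G := by
    rw [commutator_def, Subgroup.commutator_le]
    intro x _ y _
    exact hWc (hcommW x y)
  have hcm : commutator G = Subgroup.center G := by
    by_contra hne
    obtain ⟨w₀, hw₀Z, hw₀C⟩ := SetLike.exists_of_lt (lt_of_le_of_ne hcomZ hne)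
    have hcZ : ∀ a b : ↥(Subgroup.center G), a * b = b * a := fun a b =>
      Subtype.ext (Subgroup.mem_center_iff.mp b.2 a.1)
    have h2Z : ∀ z : ↥(Subgroup.center G), z ^ 2 = 1 := fun z =>
      Subtype.ext (by simpa using hZ2 z.1 z.2)
    obtain ⟨lam, hlam1, hlam2⟩ := Helper19.Gauss.sep hcZ h2Z
      ((commutator G).subgroupOf (Subgroup.center G)) (w := ⟨w₀, hw₀Z⟩)
      (fun h => hw₀C (Subgroup.mem_subgroupOf.mp h))
    have hlamc : ∀ x y : G, lam ⟨x * y * x⁻¹ * y⁻¹, hWc (hcommW x y)⟩ = 1 := fun x y =>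
      hlam2 _ (Subgroup.mem_subgroupOf.mpr
        (Subgroup.commutator_mem_commutator (Subgroup.mem_top x) (Subgroup.mem_top y)))
    let μ : G →* ℤˣ :=
      { toFun := fun x => lam ⟨x ^ 2, hsqZ x⟩
        map_one' := by
          have : (⟨(1 : G) ^ 2, hsqZ 1⟩ : ↥(Subgroup.center G)) = 1 := Subtype.ext (one_pow 2)
          show lam ⟨(1 : G) ^ 2, hsqZ 1⟩ = 1
          rw [this, map_one]
        map_mul' := fun x y => by
          have : (⟨(x * y) ^ 2, hsqZ (x * y)⟩ : ↥(Subgroup.center G))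
              = ⟨x ^ 2, hsqZ x⟩ * ⟨y ^ 2, hsqZ y⟩ * ⟨y * x * y⁻¹ * x⁻¹, hWc (hcommW y x)⟩ :=
            Subtype.ext (Helper19.Gauss.sq_mul (hcen y x))
          show lam ⟨(x * y) ^ 2, hsqZ (x * y)⟩ = lam ⟨x ^ 2, hsqZ x⟩ * lam ⟨y ^ 2, hsqZ y⟩
          rw [this, map_mul, map_mul, hlamc y x, mul_one] }
    have hZker : Subgroup.center G ≤ μ.ker := by
      intro z hz
      rw [MonoidHom.mem_ker]
      have : (⟨z ^ 2, hsqZ z⟩ : ↥(Subgroup.center G)) = 1 := Subtype.ext (hZ2 z hz)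
      show lam ⟨z ^ 2, hsqZ z⟩ = 1
      rw [this, map_one]
    let D : Subgroup G := lam.ker.map (Subgroup.center G).subtype
    have hDZ : D ≤ Subgroup.center G := by
      rintro _ ⟨z, -, rfl⟩; exact z.2
    obtain ⟨b, hb1, hb2⟩ := Helper19.Gauss.gauss (hG.to_subgroup μ.ker) (D.subgroupOf μ.ker)
      ((Subgroup.center G).subgroupOf μ.ker)
      (by
        intro x hx
        rw [Subgroup.mem_center_iff]
        intro g
        exact Subtype.ext (Subgroup.mem_center_iff.mp (hDZ (Subgroup.mem_subgroupOf.mp hx)) g.1))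
      (by
        intro x hx
        exact Subtype.ext (hZ2 _ (hDZ (Subgroup.mem_subgroupOf.mp hx))))
      (by
        intro x
        rw [Subgroup.mem_subgroupOf]
        exact ⟨⟨x.1 ^ 2, hsqZ x.1⟩, x.2, rfl⟩)
      (by
        intro x y
        rw [Subgroup.mem_subgroupOf]
        exact ⟨⟨x.1 * y.1 * x.1⁻¹ * y.1⁻¹, hWc (hcommW x.1 y.1)⟩, hlamc x.1 y.1, rfl⟩)
      (by
        intro x hx
        rw [Subgroup.mem_center_iff]
        intro g
        exact Subtype.ext (Subgroup.mem_center_iff.mp (Subgroup.mem_subgroupOf.mp hx) g.1))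
    have hc1 : Nat.card ((Subgroup.center G).subgroupOf μ.ker) = zc := by
      rw [hzc]; exact Nat.card_congr (Subgroup.subgroupOfEquivOfLe hZker).toEquiv
    have hc2' : Nat.card (D.subgroupOf μ.ker) = Nat.card lam.ker := by
      rw [Nat.card_congr (Subgroup.subgroupOfEquivOfLe (hDZ.trans hZker)).toEquiv]
      exact Subgroup.card_map_of_injective (Subgroup.subtype_injective _)
    have hk2 : 2 * Nat.card lam.ker ≤ zc := by
      have h1 := Subgroup.card_mul_index lam.ker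
      have h2 : lam.ker.index ≠ 1 := by
        intro h
        rw [Subgroup.index_eq_one] at h
        have : (⟨w₀, hw₀Z⟩ : ↥(Subgroup.center G)) ∈ lam.ker := by
          rw [h]; exact Subgroup.mem_top _
        exact hlam1 (MonoidHom.mem_ker.mp this)
      have h3 : lam.ker.index ≠ 0 := Subgroup.index_ne_zero_of_finite
      have h4 : 2 ≤ lam.ker.index := by omega
      rw [hzc, ← h1]
      calc 2 * Nat.card lam.ker = Nat.card lam.ker * 2 := mul_comm _ _
        _ ≤ Nat.card lam.ker * lam.ker.index := Nat.mul_le_mul le_rfl h4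
    have hn2 : n ≤ 2 * Nat.card μ.ker := by
      have h1 := Subgroup.card_mul_index μ.ker
      have h2 : μ.ker.index ≤ 2 := by
        rw [Subgroup.index_ker]
        calc Nat.card μ.range ≤ Nat.card ℤˣ := Subgroup.card_le_card_group _
          _ = 2 := by rw [Nat.card_eq_fintype_card]; exact Fintype.card_units_int
      rw [hn, ← h1]
      calc Nat.card μ.ker * μ.ker.index ≤ Nat.card μ.ker * 2 := Nat.mul_le_mul le_rfl h2
        _ = 2 * Nat.card μ.ker := mul_comm _ _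
    have hq' : Nat.card {x : ↥μ.ker // x ^ 2 = 1} ≤ q := by
      rw [hq]
      exact Nat.card_le_card_of_injective
        (fun x : {x : ↥μ.ker // x ^ 2 = 1} =>
          (⟨x.1.1, congrArg Subtype.val x.2⟩ : {x : G // x ^ 2 = 1}))
        (fun a b h => Subtype.ext (Subtype.ext (by
          have h' := congrArg Subtype.val h
          exact h')))
    have hpos' : 0 < Nat.card (D.subgroupOf μ.ker) * Nat.card {x : ↥μ.ker // x ^ 2 = 1} := by
      haveI : Nonempty {x : ↥μ.ker // x ^ 2 = 1} := ⟨⟨1, one_pow 2⟩⟩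
      exact Nat.mul_pos Nat.card_pos Nat.card_pos
    have h2b := Nat.le_of_dvd hpos' hb2
    rw [hc1] at hb1
    rw [hc2'] at h2b
    obtain ⟨k, hk⟩ : ∃ k, k = Nat.card lam.ker := ⟨_, rfl⟩
    obtain ⟨hH, hhH⟩ : ∃ hH, hH = Nat.card μ.ker := ⟨_, rfl⟩
    rw [← hk] at hk2 h2b
    rw [← hhH] at hb1 hn2
    have h2b' : 2 ^ b ≤ k * q := h2b.trans (Nat.mul_le_mul le_rfl hq')
    have hA1 : hH * zc ≤ (k * q) * (k * q) := by
      calc hH * zc ≤ 2 ^ (2 * b) := hb1
        _ = 2 ^ b * 2 ^ b := by rw [two_mul, pow_add]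
        _ ≤ (k * q) * (k * q) := Nat.mul_le_mul h2b' h2b'
    rw [hzq] at hA1 hk2
    have hA2 : hH ≤ k * k * q := by
      have : q * hH ≤ q * (k * k * q) := by
        calc q * hH = hH * q := mul_comm _ _
          _ ≤ (k * q) * (k * q) := hA1
          _ = q * (k * k * q) := by ring
      exact Nat.le_of_mul_le_mul_left this hqpos
    have hA3 : q * q * q ≤ 2 * (k * k * q) := by
      calc q * q * q = n := by rw [hnq]; ring
        _ ≤ 2 * hH := hn2
        _ ≤ 2 * (k * k * q) := Nat.mul_le_mul le_rfl hA2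
    have hA4 : q * q ≤ 2 * (k * k) := by
      have : q * (q * q) ≤ q * (2 * (k * k)) := by
        calc q * (q * q) = q * q * q := by ring
          _ ≤ 2 * (k * k * q) := hA3
          _ = q * (2 * (k * k)) := by ring
      exact Nat.le_of_mul_le_mul_left this hqpos
    have hA5 : 4 * (k * k) ≤ q * q := by
      calc 4 * (k * k) = (2 * k) * (2 * k) := by ring
        _ ≤ q * q := Nat.mul_le_mul hk2 hk2
    have hA6 := Nat.mul_pos hqpos hqpos
    omega
  have hfr : frattini G = Subgroup.center G := by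
    apply le_antisymm
    · exact S4056.frattini_le_of_sq_mem (Subgroup.center G) hsqZ
    · rw [← hcm, commutator_def, Subgroup.commutator_le]
      obtain ⟨N, hcard⟩ := IsPGroup.iff_card.mp hG
      intro x _ y _
      exact (S4208.frattini_quot 2 hcard).1 x y
  exact ⟨hG, hfr, hcm⟩

end Cfsg.Agent.S3773
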