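import Mathlib
import Cfsg.Statements.S3802
import Cfsg.Agent.Helper19.Basic

set_option autoImplicit false
open Cfsg

namespace Cfsg.Agent.S3802

open Cfsg.Agent.Helper19

universe u

theorem mem_normalizer_of_conj_mem {G : Type*} [Group G] [Finite G] (H : Subgroup G) (x : G)
    (h : ∀ y ∈ H, x * y * x⁻¹ ∈ H) : x ∈ Subgroup.normalizer (H : Set G) := by
  apply mem_normalizer_of_map_conj_eq
  apply Subgroup.eq_of_le_of_card_ge
  · rintro _ ⟨y, hy, rfl⟩
    exact h y hy
  · rw [card_map_conj]

/-- Wielandt: a minimal normal subgroup normalizes every subnormal subgroup. -/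
theorem wielandt : ∀ (n : ℕ) (G : Type u) [Group G] [Finite G], Nat.card G = n →
    ∀ A N : Subgroup G, A.Normal → A ≠ ⊥ →
      (∀ B : Subgroup G, B.Normal → B ≤ A → B = ⊥ ∨ B = A) → N.IsSubnormal →
      A ≤ Subgroup.normalizer (N : Set G) := by
  intro n
  induction n using Nat.strong_induction_on with
  | _ n ih =>
    intro G _ _ hcard A N hA hA0 hAmin hN
    rcases hN.lt_normal with hNtop | ⟨K, hK, hNK, hKtop⟩
    · intro x _
      rw [hNtop, Subgroup.mem_normalizer_iff]
      intro y; simp
    · by_cases hAK : A ⊓ K = ⊥
      · intro a ha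
        apply Subgroup.centralizer_le_normalizer
        rw [Subgroup.mem_centralizer_iff]
        intro x hx
        exact ((Subgroup.commute_of_normal_of_disjoint A K hA hK (disjoint_iff.mpr hAK) a x ha
          (hNK hx)).eq).symm
      · have hAKn : (A ⊓ K).Normal := inferInstance
        have hAleK : A ≤ K := by
          rcases hAmin (A ⊓ K) hAKn inf_le_left with h | h
          · exact absurd h hAK
          · rw [← h]; exact inf_le_right
        have hcardK : Nat.card K < n := by
          rw [← hcard]
          exact lt_of_le_of_ne (Subgroup.card_le_card_group K)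
            (fun h => hKtop.ne (Subgroup.eq_top_of_card_eq K h))
        have hne : ({B : Subgroup ↥K | B.Normal ∧ B ≠ ⊥ ∧ B ≤ A.subgroupOf K}).Nonempty := by
          refine ⟨A.subgroupOf K, inferInstance, ?_, le_rfl⟩
          intro h
          rw [Subgroup.subgroupOf_eq_bot] at h
          exact hAK (disjoint_iff.mp h)
        obtain ⟨B, ⟨hBn, hB0, hBA⟩, hBmin⟩ := (Set.toFinite _).exists_minimal hne
        have hBmin' : ∀ B' : Subgroup ↥K, B'.Normal → B' ≤ B → B' = ⊥ ∨ B' = B := by
          intro B' hB'n hB'B
          by_cases h0 : B' = ⊥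
          · exact Or.inl h0
          · right
            exact le_antisymm hB'B (hBmin ⟨hB'n, h0, le_trans hB'B hBA⟩ hB'B)
        have key := ih (Nat.card K) hcardK ↥K rfl B
        have hB0le : B.map K.subtype ≤ A := by
          rintro _ ⟨b, hb, rfl⟩
          exact Subgroup.mem_subgroupOf.mp (hBA hb)
        have hJle : Subgroup.normalClosure ((B.map K.subtype : Subgroup G) : Set G) ≤ A :=
          Subgroup.normalClosure_le_normal hB0le
        have hJ0 : Subgroup.normalClosure ((B.map K.subtype : Subgroup G) : Set G) ≠ ⊥ := by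
          intro h
          apply hB0
          rw [eq_bot_iff]
          intro b hb
          have : (b : G) ∈ Subgroup.normalClosure ((B.map K.subtype : Subgroup G) : Set G) :=
            Subgroup.subset_normalClosure ⟨b, hb, rfl⟩
          rw [h, Subgroup.mem_bot] at this
          rw [Subgroup.mem_bot]
          exact Subtype.ext this
        have hJ : Subgroup.normalClosure ((B.map K.subtype : Subgroup G) : Set G) = A := by
          rcases hAmin _ Subgroup.normalClosure_normal hJle with h | h
          · exact absurd h hJ0
          · exact h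
        rw [← hJ]
        show Subgroup.closure (Group.conjugatesOfSet _) ≤ _
        rw [Subgroup.closure_le]
        intro c hc
        rw [Group.mem_conjugatesOfSet_iff] at hc
        obtain ⟨b0, ⟨b, hb, rfl⟩, hconj⟩ := hc
        rw [isConj_iff] at hconj
        obtain ⟨g, rfl⟩ := hconj
        have hN'sub : (N.map (MulAut.conj g⁻¹).toMonoidHom).IsSubnormal :=
          hN.map (MulAut.conj g⁻¹).surjective
        have hN'K : N.map (MulAut.conj g⁻¹).toMonoidHom ≤ K := by
          rintro _ ⟨y, hy, rfl⟩
          exact hK.conj_mem y (hNK hy) g⁻¹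
        have hb' := key ((N.map (MulAut.conj g⁻¹).toMonoidHom).subgroupOf K) hBn hB0 hBmin'
          hN'sub.subgroupOf hb
        rw [Subgroup.mem_normalizer_iff] at hb'
        apply mem_normalizer_of_conj_mem
        intro y hy
        have h1 : g⁻¹ * y * g ∈ N.map (MulAut.conj g⁻¹).toMonoidHom :=
          ⟨y, hy, by simp⟩
        have h2 := (hb' ⟨g⁻¹ * y * g, hN'K h1⟩).mp (Subgroup.mem_subgroupOf.mpr h1)
        rw [Subgroup.mem_subgroupOf] at h2
        obtain ⟨z, hz, hz'⟩ := h2
        have e2 : (b : G) * (g⁻¹ * y * g) * (b : G)⁻¹ = g⁻¹ * z * g := by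
          have := hz'
          simp at this
          exact this.symm
        have e : (g * K.subtype b * g⁻¹) * y * (g * K.subtype b * g⁻¹)⁻¹ =
            g * ((b : G) * (g⁻¹ * y * g) * (b : G)⁻¹) * g⁻¹ := by
          simp only [Subgroup.coe_subtype]; group
        rw [e, e2]
        have : g * (g⁻¹ * z * g) * g⁻¹ = z := by group
        rw [this]; exact hz

theorem main : ∀ (n : ℕ) (G : Type u) [Group G] [Finite G], Nat.card G = n →
    ∀ M N : Subgroup G, IsCoatom M → N.IsSubnormal → N ≤ M → N ≤ Subgroup.normalCore M := by
  intro n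
  induction n using Nat.strong_induction_on with
  | _ n ih =>
    intro G _ _ hcard M N hM hN hNM
    have hne : ({A : Subgroup G | A.Normal ∧ A ≠ ⊥}).Nonempty := by
      refine ⟨⊤, inferInstance, ?_⟩
      intro h
      apply hM.1
      rw [eq_top_iff, h]; exact bot_le
    obtain ⟨A, ⟨hAn, hA0⟩, hAmin⟩ := (Set.toFinite _).exists_minimal hne
    have hAmin' : ∀ B : Subgroup G, B.Normal → B ≤ A → B = ⊥ ∨ B = A := by
      intro B hBn hBA
      by_cases h0 : B = ⊥
      · exact Or.inl h0
      · exact Or.inr (le_antisymm hBA (hAmin ⟨hBn, h0⟩ hBA))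
    by_cases hAM : A ≤ M
    · have hcardQ : Nat.card (G ⧸ A) < n := by
        rw [← hcard, Subgroup.card_eq_card_quotient_mul_card_subgroup A]
        have h1 : 1 < Nat.card A := (Subgroup.one_lt_card_iff_ne_bot A).mpr hA0
        have h2 : 0 < Nat.card (G ⧸ A) := Nat.card_pos
        nlinarith
      have hcomap : (M.map (QuotientGroup.mk' A)).comap (QuotientGroup.mk' A) = M :=
        Subgroup.comap_map_eq_self (by rw [QuotientGroup.ker_mk']; exact hAM)
      have hsurj := QuotientGroup.mk'_surjective A
      have hMbar : IsCoatom (M.map (QuotientGroup.mk' A)) := by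
        constructor
        · intro h
          apply hM.1
          rw [← hcomap, h, Subgroup.comap_top]
        · intro Hbar hlt
          have h1 : M < Hbar.comap (QuotientGroup.mk' A) := by
            refine lt_of_le_of_ne ?_ ?_
            · rw [← hcomap]; exact Subgroup.comap_mono hlt.le
            · intro h
              have := congrArg (Subgroup.map (QuotientGroup.mk' A)) h
              rw [Subgroup.map_comap_eq_self_of_surjective hsurj] at this
              exact hlt.ne this
          have h2 := hM.2 _ h1
          have := congrArg (Subgroup.map (QuotientGroup.mk' A)) h2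
          rw [Subgroup.map_comap_eq_self_of_surjective hsurj,
            Subgroup.map_top_of_surjective _ hsurj] at this
          exact this
      have hNbar : (N.map (QuotientGroup.mk' A)).IsSubnormal := hN.map hsurj
      have hle := ih _ hcardQ (G ⧸ A) rfl _ _ hMbar hNbar (Subgroup.map_mono hNM)
      intro x hx b
      have h1 : QuotientGroup.mk' A x ∈ Subgroup.normalCore (M.map (QuotientGroup.mk' A)) :=
        hle ⟨x, hx, rfl⟩
      have h2 := h1 (QuotientGroup.mk' A b)
      have h3 : b * x * b⁻¹ ∈ (M.map (QuotientGroup.mk' A)).comap (QuotientGroup.mk' A) := by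
        rw [Subgroup.mem_comap, map_mul, map_mul, map_inv]; exact h2
      rw [hcomap] at h3
      exact h3
    · have hsup : M ⊔ A = ⊤ :=
        hM.2 _ (lt_of_le_of_ne le_sup_left (fun h => hAM (h ▸ le_sup_right)))
      have hW := wielandt _ G rfl A N hAn hA0 hAmin' hN
      intro x hx b
      have hb : b ∈ M ⊔ A := by rw [hsup]; exact Subgroup.mem_top b
      obtain ⟨m, hm, a, ha, rfl⟩ := Subgroup.mem_sup_of_normal_right.mp hb
      have h1 : a * x * a⁻¹ ∈ N := (Subgroup.mem_normalizer_iff.mp (hW ha) x).mp hx
      have e : m * a * x * (m * a)⁻¹ = m * (a * x * a⁻¹) * m⁻¹ := by group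
      rw [e]
      exact M.mul_mem (M.mul_mem hm (hNM h1)) (M.inv_mem hm)

/-- Let G be a finite group, M a maximal subgroup of G and N a subnormal subgroup of G contained in M. Then N is contained in every conjugate of M, that is, N lies in the core of M in G. -/
theorem result {G : Type*} [Group G] [Finite G] (M N : Subgroup G) (hM : IsCoatom M) (hN : N.IsSubnormal) (hNM : N ≤ M) :
    N ≤ Subgroup.normalCore M :=
  main _ G rfl M N hM hN hNM

end Cfsg.Agent.S3802
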