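import Mathlib
import Cfsg.Statements.S3815

set_option autoImplicit false
open Cfsg

namespace Cfsg.Agent.S3815

/-- the subgroup of those `x` with `x * S ⊆ S`, `S` the set of `p'`-elements. -/
def stab {G : Type*} [Group G] [Finite G] (p : ℕ) : Subgroup G where
  carrier := {x : G | ∀ g : G, (orderOf g).Coprime p → (orderOf (x * g)).Coprime p}
  one_mem' := by
    intro g hg
    simpa using hg
  mul_mem' := by
    intro x y hx hy g hg
    rw [mul_assoc]
    exact hx _ (hy g hg)
  inv_mem' := by
    intro x hx
    have hpow : ∀ n : ℕ, ∀ g : G, (orderOf g).Coprime p → (orderOf (x ^ n * g)).Coprime p := by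
      intro n
      induction n with
      | zero => intro g hg; simpa using hg
      | succ n ih =>
        intro g hg
        rw [pow_succ, mul_assoc]
        exact ih _ (hx g hg)
    have hinv : x⁻¹ = x ^ (orderOf x - 1) := by
      rw [eq_comm, ← mul_eq_one_iff_eq_inv, ← pow_succ]
      have : 0 < orderOf x := orderOf_pos x
      rw [Nat.sub_add_cancel this, pow_orderOf_eq_one]
    intro g hg
    rw [hinv]
    exact hpow _ g hg

theorem stab_normal {G : Type*} [Group G] [Finite G] (p : ℕ) : (stab (G := G) p).Normal := by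
  constructor
  intro x hx c g hg
  have e : c * x * c⁻¹ * g = MulAut.conj c (x * (c⁻¹ * g * c)) := by
    simp [MulAut.conj_apply, mul_assoc]
  rw [e, MulEquiv.orderOf_eq]
  apply hx
  have e2 : c⁻¹ * g * c = MulAut.conj c⁻¹ g := by
    simp [MulAut.conj_apply]
  rw [e2, MulEquiv.orderOf_eq]
  exact hg

theorem stab_coprime {G : Type*} [Group G] [Finite G] (p : ℕ) [hp : Fact p.Prime] :
    (Nat.card (stab (G := G) p)).Coprime p := by
  rw [Nat.coprime_comm, Nat.Prime.coprime_iff_not_dvd hp.out]
  intro hdvd
  obtain ⟨x, hx⟩ := exists_prime_orderOf_dvd_card' p hdvd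
  have hx' : orderOf (x : G) = p := by rw [Subgroup.orderOf_coe]; exact hx
  have h1 : (orderOf ((x : G) * 1)).Coprime p := x.2 1 (by simp)
  rw [mul_one, hx'] at h1
  exact hp.out.one_lt.ne' ((Nat.coprime_self p).mp h1)

/-- Let G be a finite group, p a prime and d ∈ G an element of order prime to p. If dg has order prime to p for every element g ∈ G of order prime to p, then d ∈ O_{p'}(G). -/
theorem result {G : Type*} [Group G] [Finite G] {p : ℕ} [Fact p.Prime]
    (d : G) (hd : (orderOf d).Coprime p)
    (h : ∀ g : G, (orderOf g).Coprime p → (orderOf (d * g)).Coprime p) :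
    d ∈ Cfsg.pPrimeCore p G := by
  have hle : stab (G := G) p ≤ Cfsg.pPrimeCore p G :=
    le_sSup ⟨stab_normal p, stab_coprime p⟩
  exact hle h

end Cfsg.Agent.S3815
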