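import Mathlib
import Cfsg.Statements.S3820

set_option autoImplicit false
open Cfsg

namespace Cfsg.Agent.S3820

variable {G : Type*} [Group G]

theorem mem_map_conj (K : Subgroup G) (g y : G) :
    y ∈ K.map (MulAut.conj g).toMonoidHom ↔ g⁻¹ * y * g ∈ K := by
  constructor
  · rintro ⟨k, hk, rfl⟩
    simpa [MulAut.conj_apply, mul_assoc] using hk
  · intro h
    exact ⟨g⁻¹ * y * g, h, by simp [MulAut.conj_apply, mul_assoc]⟩

theorem map_conj_mul (K : Subgroup G) (a b : G) :
    (K.map (MulAut.conj b).toMonoidHom).map (MulAut.conj a).toMonoidHom =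
      K.map (MulAut.conj (a * b)).toMonoidHom := by
  ext y
  rw [mem_map_conj, mem_map_conj, mem_map_conj]
  simp [mul_assoc]

theorem map_conj_le_of_mem (H J : Subgroup G) (hHJ : H ≤ J) {x : G} (hx : x ∈ J) :
    H.map (MulAut.conj x).toMonoidHom ≤ J := by
  rintro _ ⟨h, hh, rfl⟩
  show x * h * x⁻¹ ∈ J
  exact J.mul_mem (J.mul_mem hx (hHJ hh)) (J.inv_mem hx)

/-- Call a subgroup H of G pronormal if H and gHg⁻¹ are conjugate inside ⟨H, gHg⁻¹⟩ for every g ∈ G. Let S ≤ H ≤ G be subgroups of a finite group with S pronormal in G (for instance S a Sylow subgroup). Then H is pronormal in G if and only if H and gHg⁻¹ are conjugate inside ⟨H, gHg⁻¹⟩ for every g ∈ N_G(S). In particular H is pronormal whenever N_G(S) ≤ H. -/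
theorem result {G : Type*} [Group G] [Finite G] (S H : Subgroup G) (hSH : S ≤ H)
    (hS : Cfsg.IsPronormal S) :
    Cfsg.IsPronormal H ↔
      ∀ g ∈ Subgroup.normalizer (S : Set G), ∃ w ∈ H ⊔ H.map (MulAut.conj g).toMonoidHom,
        H.map (MulAut.conj g).toMonoidHom = H.map (MulAut.conj w).toMonoidHom := by
  constructor
  · intro hH g _
    exact hH g
  · intro hN g
    obtain ⟨x, hx, hSx⟩ := hS g
    -- n = x⁻¹ * g normalizes S
    have hn : x⁻¹ * g ∈ Subgroup.normalizer (S : Set G) := by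
      rw [Subgroup.mem_normalizer_iff]
      intro y
      have e1 : x * ((x⁻¹ * g) * y * (x⁻¹ * g)⁻¹) * x⁻¹ ∈ S.map (MulAut.conj g).toMonoidHom ↔ y ∈ S := by
        rw [mem_map_conj]; simp [mul_assoc]
      have e2 : x * ((x⁻¹ * g) * y * (x⁻¹ * g)⁻¹) * x⁻¹ ∈ S.map (MulAut.conj x).toMonoidHom ↔
          (x⁻¹ * g) * y * (x⁻¹ * g)⁻¹ ∈ S := by
        rw [mem_map_conj]; simp [mul_assoc]
      rw [← e1, hSx, e2]
    obtain ⟨w, hw, hHw⟩ := hN _ hn
    set J := H ⊔ H.map (MulAut.conj g).toMonoidHom with hJ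
    have hxJ : x ∈ J := (sup_le_sup hSH (Subgroup.map_mono hSH)) hx
    have hg : x * (x⁻¹ * g) = g := by group
    refine ⟨x * w, ?_, ?_⟩
    · -- x * w = (x * w * x⁻¹) * x
      have h1 : x * w * x⁻¹ ∈ (H ⊔ H.map (MulAut.conj (x⁻¹ * g)).toMonoidHom).map (MulAut.conj x).toMonoidHom :=
        ⟨w, hw, by simp [MulAut.conj_apply]⟩
      rw [Subgroup.map_sup, map_conj_mul, hg] at h1
      have h2 : H.map (MulAut.conj x).toMonoidHom ⊔ H.map (MulAut.conj g).toMonoidHom ≤ J :=
        sup_le (map_conj_le_of_mem H J le_sup_left hxJ) le_sup_right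
      have h3 := J.mul_mem (h2 h1) hxJ
      have e : x * w * x⁻¹ * x = x * w := by group
      rwa [e] at h3
    · rw [← map_conj_mul H x w, ← hHw, map_conj_mul, hg]

end Cfsg.Agent.S3820
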