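import Mathlib
import Cfsg.Statements.S3821

set_option autoImplicit false
open Cfsg

namespace Cfsg.Agent.S3821

variable {G : Type*} [Group G]

theorem mem_map_conj (K : Subgroup G) (g y : G) :
    y ∈ K.map (MulAut.conj g).toMonoidHom ↔ g⁻¹ * y * g ∈ K := by
  constructor
  · rintro ⟨k, hk, rfl⟩
    simpa [MulAut.conj_apply, mul_assoc] using hk
  · intro h
    exact ⟨g⁻¹ * y * g, h, by simp [MulAut.conj_apply, mul_assoc]⟩

theorem map_conj_mul (K : Subgroup G) (a b : G) :
    (K.map (MulAut.conj b).toMonoidHom).map (MulAut.conj a).toMonoidHom =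
      K.map (MulAut.conj (a * b)).toMonoidHom := by
  ext y
  rw [mem_map_conj, mem_map_conj, mem_map_conj]
  simp [mul_assoc]

theorem map_conj_le_of_mem (H J : Subgroup G) (hHJ : H ≤ J) {x : G} (hx : x ∈ J) :
    H.map (MulAut.conj x).toMonoidHom ≤ J := by
  rintro _ ⟨h, hh, rfl⟩
  show x * h * x⁻¹ ∈ J
  exact J.mul_mem (J.mul_mem hx (hHJ hh)) (J.inv_mem hx)

theorem map_conj_of_mem_normalizer (H : Subgroup G) {n : G}
    (hn : n ∈ Subgroup.normalizer (H : Set G)) : H.map (MulAut.conj n).toMonoidHom = H := by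
  ext y
  rw [mem_map_conj]
  exact ((Subgroup.mem_normalizer_iff''.mp hn) y).symm

theorem mem_normalizer_of_map_conj_eq (H : Subgroup G) {x g : G}
    (h : H.map (MulAut.conj g).toMonoidHom = H.map (MulAut.conj x).toMonoidHom) :
    x⁻¹ * g ∈ Subgroup.normalizer (H : Set G) := by
  rw [Subgroup.mem_normalizer_iff]
  intro y
  have e1 : x * ((x⁻¹ * g) * y * (x⁻¹ * g)⁻¹) * x⁻¹ ∈ H.map (MulAut.conj g).toMonoidHom ↔ y ∈ H := by
    rw [mem_map_conj]; simp [mul_assoc]
  have e2 : x * ((x⁻¹ * g) * y * (x⁻¹ * g)⁻¹) * x⁻¹ ∈ H.map (MulAut.conj x).toMonoidHom ↔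
      (x⁻¹ * g) * y * (x⁻¹ * g)⁻¹ ∈ H := by
    rw [mem_map_conj]; simp [mul_assoc]
  rw [← e1, h, e2]

/-- conjugation inside `A` versus conjugation inside `G`. -/
theorem subgroupOf_map_conj (A H : Subgroup G) (a : A) :
    (H.subgroupOf A).map (MulAut.conj a).toMonoidHom =
      (H.map (MulAut.conj (a : G)).toMonoidHom).subgroupOf A := by
  ext y
  rw [mem_map_conj, Subgroup.mem_subgroupOf, Subgroup.mem_subgroupOf, mem_map_conj]
  simp

/-- Let A be a normal subgroup of the finite group G and H a subgroup of A. Then H is pronormal in G (H and gHg⁻¹ conjugate inside ⟨H, gHg⁻¹⟩ for every g ∈ G) if and only if H is pronormal in A and G = A · N_G(H). -/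
theorem result {G : Type*} [Group G] [Finite G] (A H : Subgroup G) [A.Normal] (hHA : H ≤ A) :
    Cfsg.IsPronormal H ↔ (Cfsg.IsPronormal (H.subgroupOf A) ∧ A ⊔ Subgroup.normalizer (H : Set G) = ⊤) := by
  have hconjA : ∀ g : G, H.map (MulAut.conj g).toMonoidHom ≤ A := by
    intro g
    rintro _ ⟨h, hh, rfl⟩
    exact Subgroup.Normal.conj_mem inferInstance h (hHA hh) g
  constructor
  · intro hH
    constructor
    · intro a
      obtain ⟨x, hx, hxe⟩ := hH (a : G)
      have hxA : x ∈ A := (sup_le hHA (hconjA _)) hx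
      refine ⟨⟨x, hxA⟩, ?_, ?_⟩
      · rw [subgroupOf_map_conj, ← Subgroup.subgroupOf_sup hHA (hconjA _), Subgroup.mem_subgroupOf]
        exact hx
      · rw [subgroupOf_map_conj, subgroupOf_map_conj, hxe]
    · rw [eq_top_iff]
      intro g _
      obtain ⟨x, hx, hxe⟩ := hH g
      have hxA : x ∈ A := (sup_le hHA (hconjA _)) hx
      have hn := mem_normalizer_of_map_conj_eq H hxe
      have e : g = x * (x⁻¹ * g) := by group
      rw [e]
      exact Subgroup.mul_mem _ (Subgroup.mem_sup_left hxA) (Subgroup.mem_sup_right hn)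
  · rintro ⟨hHA', hfrat⟩ g
    have hg : g ∈ A ⊔ Subgroup.normalizer (H : Set G) := hfrat ▸ Subgroup.mem_top g
    obtain ⟨a, ha, n, hn, rfl⟩ := Subgroup.mem_sup_of_normal_left.mp hg
    have hga : H.map (MulAut.conj (a * n)).toMonoidHom = H.map (MulAut.conj a).toMonoidHom := by
      rw [← map_conj_mul, map_conj_of_mem_normalizer H hn]
    obtain ⟨x, hx, hxe⟩ := hHA' ⟨a, ha⟩
    rw [subgroupOf_map_conj, ← Subgroup.subgroupOf_sup hHA (hconjA _), Subgroup.mem_subgroupOf] at hx
    rw [subgroupOf_map_conj, subgroupOf_map_conj, Subgroup.subgroupOf_inj,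
      inf_of_le_left (hconjA _), inf_of_le_left (hconjA _)] at hxe
    refine ⟨x, ?_, ?_⟩
    · rw [hga]; exact hx
    · rw [hga]; exact hxe

end Cfsg.Agent.S3821
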