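import Mathlib
import Cfsg.Statements.S3825

set_option autoImplicit false
open Cfsg

namespace Cfsg.Agent.S3825

open scoped commutatorElement

/-- Let U be a subgroup of a finite group H and w an involution of H normalizing U and commuting with exactly two elements of U, the identity and y. If V is a non-cyclic elementary abelian 2-subgroup of U containing y which is normal in U and invariant under w, then V is a Sylow 2-subgroup of U, V has order 4, and U/V is abelian. -/
theorem result {H : Type*} [Group H] [Finite H] (U : Subgroup H) (w : H) (hw : orderOf w = 2)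
    (hwU : w ∈ Subgroup.normalizer (U : Set H)) (y : H) (hy : y ≠ 1) (hyU : y ∈ U)
    (hfix : ∀ u ∈ U, w * u * w⁻¹ = u ↔ (u = 1 ∨ u = y))
    (V : Subgroup H) (hVU : V ≤ U) (hVn : (V.subgroupOf U).Normal) (hVw : ∀ v ∈ V, w * v * w⁻¹ ∈ V)
    (hVe : Cfsg.IsElementaryAbelian 2 V) (hVc : ¬ IsCyclic ↥V) (hyV : y ∈ V) :
    ¬ 2 ∣ V.relIndex U ∧ Nat.card ↥V = 4 ∧ ⁅U, U⁆ ≤ V := by
  classical
  have hw2 : w * w = 1 := by rw [← pow_two, ← hw]; exact pow_orderOf_eq_one w
  have hwinv : w⁻¹ = w := inv_eq_of_mul_eq_one_left hw2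
  have hσσ : ∀ x : H, w * (w * x * w⁻¹) * w⁻¹ = x := by
    intro x
    rw [hwinv]
    calc w * (w * x * w) * w = (w * w) * x * (w * w) := by group
      _ = x := by rw [hw2]; group
  have hσU : ∀ u ∈ U, w * u * w⁻¹ ∈ U := fun u hu => (Subgroup.mem_normalizer_iff.mp hwU u).mp hu
  have hsq : ∀ v ∈ V, v * v = 1 := fun v hv => by rw [← pow_two]; exact hVe.2 v hv
  have hinvV : ∀ v ∈ V, v⁻¹ = v := fun v hv => inv_eq_of_mul_eq_one_left (hsq v hv)
  have hVcomm : ∀ a ∈ V, ∀ b ∈ V, a * b = b * a := fun a ha b hb =>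
    (haveI := hVe.1; setLike_mul_comm ha hb)
  have hy2 : y * y = 1 := hsq y hyV
  have hfixV : ∀ v ∈ V, w * v * w⁻¹ = v → v = 1 ∨ v = y := fun v hv h => (hfix v (hVU hv)).mp h
  have hnorm : ∀ v ∈ V, v * (w * v * w⁻¹) = 1 ∨ v * (w * v * w⁻¹) = y := by
    intro v hv
    apply hfixV _ (V.mul_mem hv (hVw v hv))
    calc w * (v * (w * v * w⁻¹)) * w⁻¹ = (w * v * w⁻¹) * (w * (w * v * w⁻¹) * w⁻¹) := by group
      _ = (w * v * w⁻¹) * v := by rw [hσσ]
      _ = v * (w * v * w⁻¹) := hVcomm _ (hVw v hv) _ hv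
  have hdich : ∀ v ∈ V, w * v * w⁻¹ = v ∨ w * v * w⁻¹ = v * y := by
    intro v hv
    rcases hnorm v hv with h | h
    · left
      rw [eq_inv_of_mul_eq_one_right h, hinvV v hv]
    · right
      calc w * v * w⁻¹ = v⁻¹ * (v * (w * v * w⁻¹)) := by group
        _ = v * y := by rw [h, hinvV v hv]
  obtain ⟨a, haV, ha1, hay⟩ : ∃ a ∈ V, a ≠ 1 ∧ a ≠ y := by
    by_contra hcon
    simp only [not_exists, not_and, not_not] at hcon
    apply hVc
    have hVz : V = Subgroup.zpowers y := by
      apply le_antisymm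
      · intro x hx
        by_cases hx1 : x = 1
        · rw [hx1]; exact Subgroup.one_mem _
        · rw [hcon x hx hx1]; exact Subgroup.mem_zpowers y
      · exact Subgroup.zpowers_le.mpr hyV
    rw [hVz]; infer_instance
  have hσa : w * a * w⁻¹ = a * y := by
    rcases hdich a haV with h | h
    · exfalso
      rcases hfixV a haV h with h1 | h1
      · exact ha1 h1
      · exact hay h1
    · exact h
  have hainv : a⁻¹ = a := hinvV a haV
  -- key computation: if σ u = u * y then u * a is fixed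
  have hfixed_mul : ∀ u : H, w * u * w⁻¹ = u * y → w * (u * a) * w⁻¹ = u * a := by
    intro u h
    calc w * (u * a) * w⁻¹ = (w * u * w⁻¹) * (w * a * w⁻¹) := by group
      _ = u * y * (a * y) := by rw [h, hσa]
      _ = u * (y * a) * y := by group
      _ = u * (a * y) * y := by rw [hVcomm y hyV a haV]
      _ = u * a * (y * y) := by group
      _ = u * a := by rw [hy2, mul_one]
  have hVset : ∀ v ∈ V, v = 1 ∨ v = y ∨ v = a ∨ v = a * y := by
    intro v hv
    rcases hdich v hv with h | h
    · rcases hfixV v hv h with h1 | h1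
      · exact Or.inl h1
      · exact Or.inr (Or.inl h1)
    · rcases hfixV (v * a) (V.mul_mem hv haV) (hfixed_mul v h) with h1 | h1
      · right; right; left
        rw [eq_inv_of_mul_eq_one_left h1, hainv]
      · right; right; right
        have : v = y * a⁻¹ := eq_mul_inv_of_mul_eq h1
        rw [this, hainv, hVcomm y hyV a haV]
  have hcore : ∀ u ∈ U, (w * u * w⁻¹)⁻¹ * u ∈ V → u ∈ V := by
    intro u hu hv₀
    have hσv₀ : w * ((w * u * w⁻¹)⁻¹ * u) * w⁻¹ = ((w * u * w⁻¹)⁻¹ * u)⁻¹ := by
      calc w * ((w * u * w⁻¹)⁻¹ * u) * w⁻¹ = (w * (w * u⁻¹ * w⁻¹) * w⁻¹) * (w * u * w⁻¹) := by group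
        _ = u⁻¹ * (w * u * w⁻¹) := by rw [hσσ]
        _ = ((w * u * w⁻¹)⁻¹ * u)⁻¹ := by group
    rw [hinvV _ hv₀] at hσv₀
    rcases hfixV _ hv₀ hσv₀ with h | h
    · have h' : w * u * w⁻¹ = u := inv_mul_eq_one.mp h
      rcases (hfix u hu).mp h' with h1 | h1
      · rw [h1]; exact V.one_mem
      · rw [h1]; exact hyV
    · have h' : u = (w * u * w⁻¹) * y := inv_mul_eq_iff_eq_mul.mp h
      have h'' : w * u * w⁻¹ = u * y := by
        have := eq_mul_inv_of_mul_eq h'.symm
        rw [this, hinvV y hyV]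
      have hua := hfixed_mul u h''
      rcases (hfix (u * a) (U.mul_mem hu (hVU haV))).mp hua with h1 | h1
      · rw [eq_inv_of_mul_eq_one_left h1]; exact V.inv_mem haV
      · rw [eq_mul_inv_of_mul_eq h1]; exact V.mul_mem hyV (V.inv_mem haV)
  -- the induced automorphism on U / V
  haveI := hVn
  let σ : U →* U :=
    { toFun := fun u => ⟨w * u * w⁻¹, hσU u u.2⟩
      map_one' := by ext; simp
      map_mul' := fun a b => by ext; simp [mul_assoc] }
  have hle : V.subgroupOf U ≤ (V.subgroupOf U).comap σ := by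
    intro u hu
    rw [Subgroup.mem_comap, Subgroup.mem_subgroupOf]
    exact hVw _ (Subgroup.mem_subgroupOf.mp hu)
  let ψ : (U ⧸ V.subgroupOf U) →* (U ⧸ V.subgroupOf U) := QuotientGroup.map _ _ σ hle
  have hfpf : MonoidHom.FixedPointFree ψ := by
    intro q hq
    obtain ⟨u, rfl⟩ := QuotientGroup.mk_surjective q
    rw [QuotientGroup.map_mk, QuotientGroup.eq] at hq
    rw [QuotientGroup.eq_one_iff, Subgroup.mem_subgroupOf]
    apply hcore u u.2
    exact Subgroup.mem_subgroupOf.mp hq
  have hinv : Function.Involutive ψ := by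
    intro q
    obtain ⟨u, rfl⟩ := QuotientGroup.mk_surjective q
    rw [QuotientGroup.map_mk, QuotientGroup.map_mk]
    congr 1
    ext
    exact hσσ u
  have hodd := hfpf.odd_card_of_involutive hinv
  refine ⟨?_, ?_, ?_⟩
  · rw [Subgroup.relIndex, Subgroup.index_eq_card]
    exact fun h => (Nat.not_even_iff_odd.mpr hodd) (even_iff_two_dvd.mpr h)
  · have hset : (V : Set H) = {1, y, a, a * y} := by
      ext v
      simp only [SetLike.mem_coe, Set.mem_insert_iff, Set.mem_singleton_iff]
      constructor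
      · exact hVset v
      · rintro (rfl | rfl | rfl | rfl)
        · exact V.one_mem
        · exact hyV
        · exact haV
        · exact V.mul_mem haV hyV
    show Nat.card (V : Set H) = 4
    rw [Nat.card_coe_set_eq, hset]
    have h1 : (1 : H) ∉ ({y, a, a * y} : Set H) := by
      simp only [Set.mem_insert_iff, Set.mem_singleton_iff, not_or]
      refine ⟨fun h => hy h.symm, fun h => ha1 h.symm, fun h => ?_⟩
      apply hay
      rw [eq_inv_of_mul_eq_one_left h.symm, hinvV y hyV]
    have h2 : y ∉ ({a, a * y} : Set H) := by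
      simp only [Set.mem_insert_iff, Set.mem_singleton_iff, not_or]
      refine ⟨fun h => hay h.symm, fun h => ?_⟩
      apply ha1
      have : a * y = 1 * y := by rw [one_mul]; exact h.symm
      exact mul_right_cancel this
    have h3 : a ≠ a * y := by
      intro h
      apply hy
      have : a * 1 = a * y := by rw [mul_one]; exact h
      exact (mul_left_cancel this).symm
    rw [Set.ncard_insert_of_notMem h1, Set.ncard_insert_of_notMem h2, Set.ncard_pair h3]
  · rw [Subgroup.commutator_le]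
    intro g₁ h₁ g₂ h₂
    have hc := hfpf.commute_all_of_involutive hinv
      (QuotientGroup.mk (⟨g₁, h₁⟩ : U)) (QuotientGroup.mk (⟨g₂, h₂⟩ : U))
    have hmem : (⁅(⟨g₁, h₁⟩ : U), ⟨g₂, h₂⟩⁆ : U) ∈ V.subgroupOf U := by
      rw [← QuotientGroup.eq_one_iff]
      show (QuotientGroup.mk' (V.subgroupOf U)) ⁅(⟨g₁, h₁⟩ : U), ⟨g₂, h₂⟩⁆ = 1
      rw [map_commutatorElement, commutatorElement_eq_one_iff_commute]
      exact hc
    exact Subgroup.mem_subgroupOf.mp hmem

end Cfsg.Agent.S3825
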