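import Mathlib
import Cfsg.Statements.S3835
import Cfsg.Agent.Helper10.QdStruct
import Cfsg.Agent.Helper12.SL2Gen
-- import your own Cfsg.Agent.* helpers here

set_option autoImplicit false
open Cfsg

namespace Cfsg.Agent.S3835


open Cfsg.Agent.Helper10

variable {p : ℕ}

/-- A `p`-subgroup of a symmetric group of degree `< p²` is abelian. -/
theorem perm_pgroup_comm [hp : Fact p.Prime] {α : Type*} [Finite α] (hα : Nat.card α < p ^ 2)
    (H : Subgroup (Equiv.Perm α)) (hH : IsPGroup p H) (x y : H) : x * y = y * x := by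
  have key : ∀ a : α, (x * y) • a = (y * x) • a := by
    intro a
    obtain ⟨k, hk⟩ := IsPGroup.iff_card.mp hH
    have hidx : (MulAction.stabilizer H a).index = (MulAction.orbit H a).ncard :=
      MulAction.index_stabilizer H a
    have hle : (MulAction.orbit H a).ncard ≤ Nat.card α := Set.ncard_le_card _
    have hdvd : (MulAction.stabilizer H a).index ∣ p ^ k := by
      rw [← hk]; exact Subgroup.index_dvd_card _
    obtain ⟨j, hjk, hj⟩ := (Nat.dvd_prime_pow hp.out).mp hdvd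
    have hj2 : j < 2 := by
      by_contra hcon
      have h2 : p ^ 2 ≤ p ^ j := Nat.pow_le_pow_right hp.out.pos (by omega)
      rw [← hj, hidx] at h2
      omega
    have hj01 : j = 0 ∨ j = 1 := by omega
    rcases hj01 with rfl | rfl
    · rw [pow_zero, Subgroup.index_eq_one] at hj
      have hx : ∀ g : H, g • a = a := fun g => by
        have h3 : g ∈ MulAction.stabilizer H a := by rw [hj]; trivial
        exact h3
      rw [hx, hx]
    · rw [pow_one] at hj
      have hk0 : k ≠ 0 := by omega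
      haveI hN : (MulAction.stabilizer H a).Normal := by
        apply Subgroup.normal_of_index_eq_minFac_card
        rw [hj, hk, Nat.Prime.pow_minFac hp.out hk0]
      have hcard : Nat.card (H ⧸ MulAction.stabilizer H a) = p := by
        rw [← Subgroup.index_eq_card, hj]
      haveI : IsCyclic (H ⧸ MulAction.stabilizer H a) := isCyclic_of_prime_card hcard
      have hcomm : (QuotientGroup.mk (x * y) : H ⧸ MulAction.stabilizer H a) =
          QuotientGroup.mk (y * x) := by
        rw [QuotientGroup.mk_mul, QuotientGroup.mk_mul]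
        exact (IsCyclic.commGroup (α := H ⧸ MulAction.stabilizer H a)).mul_comm _ _
      rw [QuotientGroup.eq] at hcomm
      have h3 : ((x * y)⁻¹ * (y * x)) • a = a := hcomm
      calc (x * y) • a = (x * y) • (((x * y)⁻¹ * (y * x)) • a) := by rw [h3]
        _ = (y * x) • a := by rw [smul_smul, mul_inv_cancel_left]
  apply Subtype.ext
  apply Equiv.ext
  intro a
  exact key a

theorem pgroup_comm_of_inj [hp : Fact p.Prime] {K : Type*} [Group K] {α : Type*} [Finite α]
    (hα : Nat.card α < p ^ 2) (ι : K →* Equiv.Perm α) (hι : Function.Injective ι)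
    (P : Subgroup K) (hP : IsPGroup p P) (x : K) (hx : x ∈ P) (y : K) (hy : y ∈ P) :
    x * y = y * x := by
  have h1 := perm_pgroup_comm hα (P.map ι) (hP.map ι) ⟨ι x, Subgroup.mem_map_of_mem ι hx⟩
    ⟨ι y, Subgroup.mem_map_of_mem ι hy⟩
  have h2 : ι x * ι y = ι y * ι x := congrArg Subtype.val h1
  apply hι
  rw [map_mul, map_mul, h2]

theorem tS_sub_isPGroup [hp : Fact p.Prime] : IsPGroup p ((tS p).subgroupOf (Cfsg.qd p)) := by
  apply IsPGroup.of_card (n := 3)
  rw [Nat.card_congr (Subgroup.subgroupOfEquivOfLe (tS_le_qd (p := p))).toEquiv, card_tS]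

theorem XY_ne [hp : Fact p.Prime] :
    affSL (uMat (1 : ZMod p)) 0 * affSL 1 ![0, 1] ≠ affSL 1 ![0, 1] * affSL (uMat (1 : ZMod p)) 0 := by
  intro h
  rw [affSL_mul, affSL_mul] at h
  have h2 := congrFun (affSL_injective h).2 0
  rw [uMat_mulVec] at h2
  simp at h2

theorem no_surj [hp : Fact p.Prime] {K : Type*} [Group K] [Finite K]
    (hK : ∀ P : Subgroup K, IsPGroup p P → ∀ x ∈ P, ∀ y ∈ P, x * y = y * x)
    (f : K →* Cfsg.qd p) (hf : Function.Surjective f) : False := by
  obtain ⟨S, hS⟩ := (tS_sub_isPGroup (p := p)).exists_le_sylow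
  obtain ⟨P, hP⟩ := Sylow.mapSurjective_surjective hf p S
  have hPS : (P : Subgroup K).map f = (S : Subgroup (Cfsg.qd p)) := by rw [← hP]; rfl
  have hX : (⟨affSL (uMat (1 : ZMod p)) 0, affSL_mem_qd _ _⟩ : Cfsg.qd p) ∈ (P : Subgroup K).map f := by
    rw [hPS]
    apply hS
    rw [Subgroup.mem_subgroupOf]
    exact ⟨1, 0, rfl⟩
  have hY : (⟨affSL 1 ![0, 1], affSL_mem_qd _ _⟩ : Cfsg.qd p) ∈ (P : Subgroup K).map f := by
    rw [hPS]
    apply hS
    rw [Subgroup.mem_subgroupOf]
    exact ⟨0, ![0, 1], by rw [uMat_zero]⟩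
  obtain ⟨x, hx, hfx⟩ := hX
  obtain ⟨y, hy, hfy⟩ := hY
  have hc := hK P P.isPGroup' x hx y hy
  have h1 : f x * f y = f y * f x := by rw [← map_mul, ← map_mul, hc]
  rw [hfx, hfy] at h1
  exact XY_ne (congrArg Subtype.val h1)

/-- the affine action of a `3 × 3` matrix on the plane -/
def act (M : Matrix (Fin 3) (Fin 3) (ZMod p)) (v : Fin 2 → ZMod p) : Fin 2 → ZMod p :=
  ![M 0 0 * v 0 + M 0 1 * v 1 + M 0 2, M 1 0 * v 0 + M 1 1 * v 1 + M 1 2]

theorem act_one (v : Fin 2 → ZMod p) : act (1 : Matrix (Fin 3) (Fin 3) (ZMod p)) v = v := by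
  ext i
  fin_cases i <;> simp [act]

theorem act_mul (M N : Matrix (Fin 3) (Fin 3) (ZMod p)) (v : Fin 2 → ZMod p)
    (h0 : N 2 0 = 0) (h1 : N 2 1 = 0) (h2 : N 2 2 = 1) : act (M * N) v = act M (act N v) := by
  ext i
  fin_cases i <;> simp [act, Matrix.mul_apply, Fin.sum_univ_three, h0, h1, h2] <;> ring

/-- the affine action of `Qd(p)` on the plane -/
def actMA (p : ℕ) : MulAction (Cfsg.qd p) (Fin 2 → ZMod p) where
  smul g v := act (g : Matrix.SpecialLinearGroup (Fin 3) (ZMod p)).1 v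
  one_smul v := act_one v
  mul_smul x y v := by
    obtain ⟨h0, h1, h2⟩ := (mem_qd_iff (y : Matrix.SpecialLinearGroup (Fin 3) (ZMod p))).mp y.2
    exact act_mul (x : Matrix.SpecialLinearGroup (Fin 3) (ZMod p)).1
      (y : Matrix.SpecialLinearGroup (Fin 3) (ZMod p)).1 v h0 h1 h2

/-- the permutation representation of `Qd(p)` on the plane -/
def permHom (p : ℕ) : Cfsg.qd p →* Equiv.Perm (Fin 2 → ZMod p) :=
  @MulAction.toPermHom (Cfsg.qd p) (Fin 2 → ZMod p) _ (actMA p)

theorem permHom_apply (g : Cfsg.qd p) (v : Fin 2 → ZMod p) :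
    permHom p g v = act (g : Matrix.SpecialLinearGroup (Fin 3) (ZMod p)).1 v := rfl

theorem act_inj {M N : Matrix (Fin 3) (Fin 3) (ZMod p)}
    (hM0 : M 2 0 = 0) (hM1 : M 2 1 = 0) (hM2 : M 2 2 = 1)
    (hN0 : N 2 0 = 0) (hN1 : N 2 1 = 0) (hN2 : N 2 2 = 1)
    (h : ∀ v, act M v = act N v) : M = N := by
  have a0 : M 0 2 = N 0 2 := by simpa [act] using congrFun (h 0) 0
  have a1 : M 1 2 = N 1 2 := by simpa [act] using congrFun (h 0) 1
  have b0 : M 0 0 = N 0 0 := by
    have h3 := congrFun (h ![1, 0]) 0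
    simp [act] at h3
    linear_combination h3 - a0
  have b1 : M 1 0 = N 1 0 := by
    have h3 := congrFun (h ![1, 0]) 1
    simp [act] at h3
    linear_combination h3 - a1
  have c0 : M 0 1 = N 0 1 := by
    have h3 := congrFun (h ![0, 1]) 0
    simp [act] at h3
    linear_combination h3 - a0
  have c1 : M 1 1 = N 1 1 := by
    have h3 := congrFun (h ![0, 1]) 1
    simp [act] at h3
    linear_combination h3 - a1
  ext i j
  fin_cases i <;> fin_cases j
  · exact b0
  · exact c0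
  · exact a0
  · exact b1
  · exact c1
  · exact a1
  · show M 2 0 = N 2 0
    rw [hM0, hN0]
  · show M 2 1 = N 2 1
    rw [hM1, hN1]
  · show M 2 2 = N 2 2
    rw [hM2, hN2]

theorem permHom_injective : Function.Injective (permHom p) := by
  intro g h hgh
  obtain ⟨g0, g1, g2⟩ := (mem_qd_iff (g : Matrix.SpecialLinearGroup (Fin 3) (ZMod p))).mp g.2
  obtain ⟨h0, h1, h2⟩ := (mem_qd_iff (h : Matrix.SpecialLinearGroup (Fin 3) (ZMod p))).mp h.2
  apply Subtype.ext
  apply Subtype.ext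
  apply act_inj g0 g1 g2 h0 h1 h2
  intro v
  exact congrArg (fun σ : Equiv.Perm (Fin 2 → ZMod p) => σ v) hgh

/-- every homomorphism from `SL₂(p)`, `p` odd, to `ℤˣ` is trivial -/
theorem sl2_sign_trivial [hp : Fact p.Prime] (hp2 : p ≠ 2)
    (s : Matrix.SpecialLinearGroup (Fin 2) (ZMod p) →* ℤˣ)
    (A : Matrix.SpecialLinearGroup (Fin 2) (ZMod p)) : s A = 1 := by
  have h2 : (2 : ZMod p) ≠ 0 := two_ne_zero_zmod hp2
  have hU : ∀ y : ZMod p, Cfsg.Agent.Helper12.sl2U y ∈ s.ker := by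
    intro y
    have hy : y * 2⁻¹ + y * 2⁻¹ = y := by
      calc y * 2⁻¹ + y * 2⁻¹ = y * (2⁻¹ * 2) := by ring
        _ = y := by rw [inv_mul_cancel₀ h2, mul_one]
    rw [MonoidHom.mem_ker, ← hy, ← Cfsg.Agent.Helper12.sl2U_mul, map_mul, Int.units_mul_self]
  have hker : s.ker = ⊤ := by
    refine Cfsg.Agent.Helper12.sl2_generate (Cfsg.Agent.Helper12.sl2mk (1 : ZMod p) 0 1 1 (by ring))
      ?_ s.ker hU ?_
    · rw [Cfsg.Agent.Helper12.sl2mk_val]
      simp
    · intro y
      rw [MonoidHom.mem_ker, map_mul, map_mul, MonoidHom.mem_ker.mp (hU y), mul_one, map_inv,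
        mul_inv_cancel]
  have hA : A ∈ s.ker := by rw [hker]; trivial
  exact MonoidHom.mem_ker.mp hA

/-- the embedding of `SL₂(p)` in `Qd(p)` -/
def lam (p : ℕ) : Matrix.SpecialLinearGroup (Fin 2) (ZMod p) →* Cfsg.qd p where
  toFun A := ⟨affSL A 0, affSL_mem_qd A 0⟩
  map_one' := Subtype.ext affSL_one
  map_mul' A B := by
    apply Subtype.ext
    show affSL (A * B) 0 = affSL A 0 * affSL B 0
    rw [affSL_mul, Matrix.mulVec_zero, add_zero]

theorem qd_sign_trivial [hp : Fact p.Prime] (hp2 : p ≠ 2) (s : Cfsg.qd p →* ℤˣ) (g : Cfsg.qd p) :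
    s g = 1 := by
  have h2 : (2 : ZMod p) ≠ 0 := two_ne_zero_zmod hp2
  obtain ⟨A, t, hg⟩ := exists_affSL_of_mem_qd g.2
  have hT : ∀ t : Fin 2 → ZMod p, s ⟨affSL 1 t, affSL_mem_qd 1 t⟩ = 1 := by
    intro t
    have ht : (⟨affSL 1 t, affSL_mem_qd 1 t⟩ : Cfsg.qd p) =
        ⟨affSL 1 ((2⁻¹ : ZMod p) • t), affSL_mem_qd 1 _⟩ *
          ⟨affSL 1 ((2⁻¹ : ZMod p) • t), affSL_mem_qd 1 _⟩ := by
      apply Subtype.ext
      show affSL 1 t = affSL 1 ((2⁻¹ : ZMod p) • t) * affSL 1 ((2⁻¹ : ZMod p) • t)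
      rw [affSL_one_mul]
      congr 1
      funext i
      show t i = 2⁻¹ * t i + 2⁻¹ * t i
      calc t i = (2⁻¹ * 2) * t i := by rw [inv_mul_cancel₀ h2, one_mul]
        _ = 2⁻¹ * t i + 2⁻¹ * t i := by ring
    rw [ht, map_mul, Int.units_mul_self]
  have hdec : g = ⟨affSL 1 t, affSL_mem_qd 1 t⟩ * lam p A := by
    apply Subtype.ext
    show (g : Matrix.SpecialLinearGroup (Fin 3) (ZMod p)) = affSL 1 t * affSL A 0
    rw [hg, affSL_mul, one_mul, Matrix.mulVec_zero, zero_add]
  rw [hdec, map_mul, hT, one_mul]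
  exact sl2_sign_trivial hp2 (s.comp (lam p)) A

theorem exists_embed [hp : Fact p.Prime] (hp2 : p ≠ 2) (n : ℕ) (h : p ^ 2 ≤ n) :
    ∃ H : Subgroup (alternatingGroup (Fin n)), Nonempty (H ≃* Cfsg.qd p) := by
  haveI : NeZero p := ⟨hp.out.ne_zero⟩
  have hc : Fintype.card (Fin 2 → ZMod p) ≤ Fintype.card (Fin n) := by
    rw [Fintype.card_fin, Fintype.card_fun, ZMod.card, Fintype.card_fin]
    exact h
  obtain ⟨ι⟩ := Function.Embedding.nonempty_of_card_le hc
  let ψ₀ : Cfsg.qd p →* Equiv.Perm (Fin n) := (Equiv.Perm.viaEmbeddingHom ι).comp (permHom p)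
  have hψ₀ : Function.Injective ψ₀ :=
    (Equiv.Perm.viaEmbeddingHom_injective ι).comp permHom_injective
  have hmem : ∀ g, ψ₀ g ∈ alternatingGroup (Fin n) := by
    intro g
    rw [Equiv.Perm.mem_alternatingGroup]
    exact qd_sign_trivial hp2 (Equiv.Perm.sign.comp ψ₀) g
  let ψ : Cfsg.qd p →* alternatingGroup (Fin n) := ψ₀.codRestrict (alternatingGroup (Fin n)) hmem
  have hψ : Function.Injective ψ := by
    intro a b hab
    apply hψ₀
    exact congrArg Subtype.val hab
  exact ⟨ψ.range, ⟨(MonoidHom.ofInjective hψ).symm⟩⟩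



/-- Let p be an odd prime and n a natural number. The alternating group of degree n has a subgroup isomorphic to Qd(p) (the natural semidirect product of an elementary abelian group of order p² by SL₂(p)) if and only if n ≥ p²; and if n < p² then Qd(p) is not even involved in it. -/
theorem result {p : ℕ} [Fact p.Prime] (hp : p ≠ 2) (n : ℕ) : ((∃ H : Subgroup (alternatingGroup (Fin n)), Nonempty (↥H ≃* ↥(Cfsg.qd p))) ↔ p ^ 2 ≤ n) ∧ (n < p ^ 2 → ¬ Cfsg.Involves ↥(Cfsg.qd p) ↥(alternatingGroup (Fin n))) := by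
  have hno : n < p ^ 2 → ∀ (K : Subgroup (alternatingGroup (Fin n))) (f : K →* Cfsg.qd p),
      Function.Surjective f → False := by
    intro hn K f hf
    refine no_surj ?_ f hf
    intro P hP x hx y hy
    exact pgroup_comm_of_inj (α := Fin n) (by rw [Nat.card_fin]; exact hn)
      ((alternatingGroup (Fin n)).subtype.comp K.subtype)
      (fun a b hab => Subtype.ext (Subtype.ext hab)) P hP x hx y hy
  refine ⟨⟨?_, fun h => exists_embed hp n h⟩, ?_⟩
  · rintro ⟨H, ⟨e⟩⟩
    by_contra hcon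
    exact hno (by omega) H e.toMonoidHom e.surjective
  · rintro hn ⟨K, R, hN, ⟨e⟩⟩
    haveI := hN
    exact hno hn K (e.toMonoidHom.comp (QuotientGroup.mk' (R.subgroupOf K)))
      (e.surjective.comp (QuotientGroup.mk'_surjective _))

end Cfsg.Agent.S3835
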