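import Cfsg.Statements.S3838
import Cfsg.Agent.S0081
import Cfsg.Agent.Helper16.Conj
import Cfsg.Agent.Helper16.NPC

set_option autoImplicit false
open Cfsg

namespace Cfsg.Agent.S3838

open scoped commutatorElement

/-- Core: `Q ⊴ H`, `Q ≤ Φ(P)`, `P ≤ H`, and `N_H(P)` centralizes `P` modulo `Q`; then `H` has a
normal `p`-complement (Burnside in `H/Q`, then Tate). -/
theorem core {G : Type*} [Group G] [Finite G] {p : ℕ} [Fact p.Prime] (P : Sylow p G)
    (Q H : Subgroup G) (hPH : (P : Subgroup G) ≤ H)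
    (hQH : ∀ g ∈ H, ∀ q ∈ Q, g * q * g⁻¹ ∈ Q)
    (hfr : Q ≤ (frattini ↥(P : Subgroup G)).map (P : Subgroup G).subtype)
    (hF : ∀ n ∈ H, n ∈ Subgroup.normalizer ((P : Subgroup G) : Set G) →
      ∀ y ∈ (P : Subgroup G), n * y * n⁻¹ * y⁻¹ ∈ Q) :
    Cfsg.HasNormalPComplement p ↥H := by
  classical
  have hp : p.Prime := Fact.out
  have hQP : Q ≤ (P : Subgroup G) := le_trans hfr (Subgroup.map_subtype_le _)
  haveI hQ1n : (Q.subgroupOf H).Normal := by
    constructor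
    intro x hx g
    rw [Subgroup.mem_subgroupOf] at hx ⊢
    exact hQH g g.2 x hx
  obtain ⟨P₁, hP₁⟩ : ∃ P₁ : Sylow p ↥H, ∀ x : ↥H, x ∈ (P₁ : Subgroup ↥H) ↔
      (x : G) ∈ (P : Subgroup G) := ⟨P.subtype hPH, fun x => Iff.rfl⟩
  obtain ⟨Pb, hPb⟩ : ∃ Pb : Sylow p (↥H ⧸ Q.subgroupOf H),
      (Pb : Subgroup (↥H ⧸ Q.subgroupOf H)) =
        (P₁ : Subgroup ↥H).map (QuotientGroup.mk' (Q.subgroupOf H)) :=
    ⟨P₁.mapSurjective (QuotientGroup.mk'_surjective _), rfl⟩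
  -- elements normalizing the image of `P` normalize `P`
  have hnorm : ∀ m : ↥H, QuotientGroup.mk' (Q.subgroupOf H) m ∈
      Subgroup.normalizer ((Pb : Subgroup (↥H ⧸ Q.subgroupOf H)) : Set (↥H ⧸ Q.subgroupOf H)) →
      (m : G) ∈ Subgroup.normalizer ((P : Subgroup G) : Set G) := by
    intro m hm
    apply Cfsg.Agent.Helper16.mem_normalizer_of_conj_mem
    intro y hy
    have hy1 : (⟨y, hPH hy⟩ : ↥H) ∈ (P₁ : Subgroup ↥H) := (hP₁ _).mpr hy
    have hyb : QuotientGroup.mk' (Q.subgroupOf H) (⟨y, hPH hy⟩ : ↥H) ∈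
        (Pb : Subgroup (↥H ⧸ Q.subgroupOf H)) := by
      rw [hPb]; exact Subgroup.mem_map_of_mem _ hy1
    have h3 := (Subgroup.mem_normalizer_iff.mp hm _).mp hyb
    rw [hPb, ← map_mul, ← map_inv, ← map_mul] at h3
    obtain ⟨w, hw, hwe⟩ := h3
    have h4 : w⁻¹ * (m * (⟨y, hPH hy⟩ : ↥H) * m⁻¹) ∈ Q.subgroupOf H := by
      rw [← QuotientGroup.eq]; exact hwe
    have h5 : (w : G)⁻¹ * ((m : G) * y * (m : G)⁻¹) ∈ Q := Subgroup.mem_subgroupOf.mp h4
    have hwP : (w : G) ∈ (P : Subgroup G) := (hP₁ w).mp hw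
    have e : (m : G) * y * (m : G)⁻¹ = (w : G) * ((w : G)⁻¹ * ((m : G) * y * (m : G)⁻¹)) := by
      group
    rw [e]
    exact (P : Subgroup G).mul_mem hwP (hQP h5)
  have hNC : Subgroup.normalizer
      ((Pb : Subgroup (↥H ⧸ Q.subgroupOf H)) : Set (↥H ⧸ Q.subgroupOf H)) ≤
      Subgroup.centralizer
        ((Pb : Subgroup (↥H ⧸ Q.subgroupOf H)) : Set (↥H ⧸ Q.subgroupOf H)) := by
    intro nb hnb
    obtain ⟨n, rfl⟩ := QuotientGroup.mk'_surjective (Q.subgroupOf H) nb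
    have hnP := hnorm n hnb
    rw [Subgroup.mem_centralizer_iff]
    intro yb hyb
    have hyb' : yb ∈ (Pb : Subgroup (↥H ⧸ Q.subgroupOf H)) := hyb
    rw [hPb] at hyb'
    obtain ⟨y, hy, rfl⟩ := hyb'
    have hyP : (y : G) ∈ (P : Subgroup G) := (hP₁ y).mp hy
    have e1 : QuotientGroup.mk' (Q.subgroupOf H) (n * y * n⁻¹ * y⁻¹) = 1 :=
      (QuotientGroup.eq_one_iff _).mpr (Subgroup.mem_subgroupOf.mpr (hF n n.2 hnP y hyP))
    rw [map_mul, map_mul, map_mul, map_inv, map_inv] at e1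
    have e2 := mul_inv_eq_one.mp e1
    exact (mul_inv_eq_iff_eq_mul.mp e2).symm
  have hnpcb : Cfsg.HasNormalPComplement p (↥H ⧸ Q.subgroupOf H) :=
    ⟨Pb, (MonoidHom.transferSylow Pb hNC).ker, MonoidHom.normal_ker _,
      MonoidHom.ker_transferSylow_isComplement' Pb hNC⟩
  obtain ⟨Kb, k, hKbn, hKbcop, hKbidx⟩ := Cfsg.Agent.Helper16.npc_exists hnpcb
  haveI := hKbn
  obtain ⟨L, hLdef⟩ : ∃ L : Subgroup ↥H, L = Kb.comap (QuotientGroup.mk' (Q.subgroupOf H)) :=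
    ⟨_, rfl⟩
  haveI hLn : L.Normal := by rw [hLdef]; infer_instance
  have hLidx : L.index = p ^ k := by
    rw [hLdef, Subgroup.index_comap_of_surjective _ (QuotientGroup.mk'_surjective _)]
    exact hKbidx
  have hLP : L ⊓ (P₁ : Subgroup ↥H) ≤ (frattini P₁).map (P₁ : Subgroup ↥H).subtype := by
    intro x hx
    obtain ⟨hxL, hxP⟩ := Subgroup.mem_inf.mp hx
    have hxK : QuotientGroup.mk' (Q.subgroupOf H) x ∈ Kb := by rw [hLdef] at hxL; exact hxL
    have hxP' : (x : G) ∈ (P : Subgroup G) := (hP₁ x).mp hxP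
    obtain ⟨j, hj⟩ := P.isPGroup' ⟨(x : G), hxP'⟩
    have hxj : x ^ p ^ j = 1 := by
      apply Subtype.ext
      have h0 := congrArg Subtype.val hj
      simpa using h0
    have h1 : (QuotientGroup.mk' (Q.subgroupOf H) x) ^ p ^ j = 1 := by
      rw [← map_pow, hxj, map_one]
    have h2 : (QuotientGroup.mk' (Q.subgroupOf H) x) ^ Nat.card Kb = 1 := by
      have h0 : (⟨_, hxK⟩ : ↥Kb) ^ Nat.card ↥Kb = 1 := pow_card_eq_one'
      exact congrArg Subtype.val h0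
    have h3 : QuotientGroup.mk' (Q.subgroupOf H) x = 1 := by
      have d1 := orderOf_dvd_of_pow_eq_one h1
      have d2 := orderOf_dvd_of_pow_eq_one h2
      have c : (orderOf (QuotientGroup.mk' (Q.subgroupOf H) x)).Coprime (p ^ j) :=
        Nat.Coprime.coprime_dvd_left d2 (Nat.Coprime.pow_right j hKbcop)
      exact orderOf_eq_one_iff.mp (Nat.Coprime.eq_one_of_dvd c d1)
    have hxQ : (x : G) ∈ Q := Subgroup.mem_subgroupOf.mp ((QuotientGroup.eq_one_iff x).mp h3)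
    obtain ⟨y, hy, hyx⟩ := hfr hxQ
    have hyx' : (y : G) = (x : G) := hyx
    obtain ⟨e, he⟩ : ∃ e : ↥(P : Subgroup G) ≃* ↥(P₁ : Subgroup ↥H),
        ∀ u : ↥(P : Subgroup G), (((e u : ↥(P₁ : Subgroup ↥H)) : ↥H) : G) = (u : G) :=
      ⟨{ toFun := fun u => ⟨⟨u.1, hPH u.2⟩, (hP₁ _).mpr u.2⟩
         invFun := fun z => ⟨(z.1 : G), (hP₁ _).mp z.2⟩
         left_inv := fun u => rfl
         right_inv := fun z => rfl
         map_mul' := fun u v => rfl }, fun u => rfl⟩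
    have hfe : e y ∈ frattini ↥(P₁ : Subgroup ↥H) :=
      frattini_le_comap_frattini_of_surjective (φ := e.toMonoidHom) e.surjective hy
    refine ⟨e y, hfe, ?_⟩
    apply Subtype.ext
    show (((e y : ↥(P₁ : Subgroup ↥H)) : ↥H) : G) = (x : G)
    rw [he, hyx']
  have hT : Cfsg.HasNormalPComplement p ↥L := Cfsg.Agent.S0081.result P₁ L hLP
  exact Cfsg.Agent.Helper16.npc_of_normal_sub L k hLidx hT


/-- Let G be a finite group with Sylow p-subgroup P such that N_G(P) has a normal p-complement. Then N_G(Q) has a normal p-complement for every subgroup Q with [P, P] ≤ Q ≤ Φ(P). -/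
theorem result {G : Type*} [Group G] [Finite G] {p : ℕ} [Fact p.Prime] (P : Sylow p G) (hN : Cfsg.HasNormalPComplement p ↥(Subgroup.normalizer ((P : Subgroup G) : Set G))) (Q : Subgroup G) (h1 : (commutator ↥(P : Subgroup G)).map (P : Subgroup G).subtype ≤ Q) (h2 : Q ≤ (frattini ↥(P : Subgroup G)).map (P : Subgroup G).subtype) : Cfsg.HasNormalPComplement p ↥(Subgroup.normalizer (Q : Set G)) := by
  classical
  have hQP : Q ≤ (P : Subgroup G) := le_trans h2 (Subgroup.map_subtype_le _)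
  have hcomm : ∀ u ∈ (P : Subgroup G), ∀ y ∈ (P : Subgroup G), u * y * u⁻¹ * y⁻¹ ∈ Q := by
    intro u hu y hy
    apply h1
    refine ⟨⁅(⟨u, hu⟩ : ↥(P : Subgroup G)), ⟨y, hy⟩⁆, ?_, ?_⟩
    · show ⁅(⟨u, hu⟩ : ↥(P : Subgroup G)), ⟨y, hy⟩⁆ ∈ commutator ↥(P : Subgroup G)
      rw [commutator_def]
      exact Subgroup.commutator_mem_commutator (Subgroup.mem_top _) (Subgroup.mem_top _)
    · rw [commutatorElement_def]; rfl
  apply core P Q (Subgroup.normalizer (Q : Set G))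
  · intro u hu
    rw [Subgroup.mem_normalizer_iff]
    intro q
    constructor
    · intro hq
      have e : u * q * u⁻¹ = (u * q * u⁻¹ * q⁻¹) * q := by group
      rw [e]; exact Q.mul_mem (hcomm u hu q (hQP hq)) hq
    · intro hq
      have hq' : u * q * u⁻¹ ∈ (P : Subgroup G) := hQP hq
      have e : q = (u⁻¹ * (u * q * u⁻¹) * u⁻¹⁻¹ * (u * q * u⁻¹)⁻¹) * (u * q * u⁻¹) := by group
      rw [e]; exact Q.mul_mem (hcomm u⁻¹ ((P : Subgroup G).inv_mem hu) _ hq') hq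
  · intro g hg q hq
    exact (Subgroup.mem_normalizer_iff.mp hg q).mp hq
  · exact h2
  · intro n _ hn y hy
    have hL := Cfsg.Agent.Helper1.local_of_npc hN
    have hyn : n * y * n⁻¹ ∈ (P : Subgroup G) := (Subgroup.mem_normalizer_iff.mp hn y).mp hy
    obtain ⟨u, hu, hue⟩ := Cfsg.Agent.Helper1.fusion_of_local hL
      (P.subtype Subgroup.le_normalizer)
      (⟨y, Subgroup.le_normalizer hy⟩ : ↥(Subgroup.normalizer ((P : Subgroup G) : Set G)))
      (show (y : G) ∈ (P : Subgroup G) from hy) ⟨n, hn⟩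
      (show n * y * n⁻¹ ∈ (P : Subgroup G) from hyn)
    have hu' : (u : G) ∈ (P : Subgroup G) := hu
    have e : n * y * n⁻¹ = (u : G) * y * (u : G)⁻¹ := congrArg Subtype.val hue
    rw [e]; exact hcomm _ hu' y hy

end Cfsg.Agent.S3838
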