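import Mathlib
import Cfsg.Statements.S3858
import Cfsg.Agent.Helper19.Basic

set_option autoImplicit false
open Cfsg

namespace Cfsg.Agent.S3858

open Cfsg.Agent.Helper19

/-- Let G be a finite group with a normal non-abelian simple subgroup T whose centralizer is trivial (G almost simple with socle T), r a prime and R a Sylow r-subgroup of G meeting T nontrivially. Then R lies in exactly one maximal subgroup of G if and only if G has exactly one conjugacy class of maximal subgroups whose index is prime to r. -/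
theorem result {G : Type*} [Group G] [Finite G] (T : Subgroup G) [T.Normal] (hT : IsSimpleGroup T) (hna : ¬ IsMulCommutative T)
    (hC : Subgroup.centralizer (T : Set G) = ⊥) {r : ℕ} [Fact r.Prime] (R : Sylow r G) (hR0 : (R : Subgroup G) ⊓ T ≠ ⊥) :
    (∃! M : Subgroup G, IsCoatom M ∧ (R : Subgroup G) ≤ M) ↔
      ((∃ M : Subgroup G, IsCoatom M ∧ ¬ r ∣ M.index) ∧
        ∀ M₁ M₂ : Subgroup G, IsCoatom M₁ → ¬ r ∣ M₁.index → IsCoatom M₂ → ¬ r ∣ M₂.index → ∃ g : G, M₂ = M₁.map (MulAut.conj g).toMonoidHom) := by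
  have hidx : ∀ M : Subgroup G, (R : Subgroup G) ≤ M → ¬ r ∣ M.index := by
    intro M hRM hdvd
    exact R.not_dvd_index (dvd_trans hdvd (Subgroup.index_dvd_of_le hRM))
  constructor
  · rintro ⟨M, ⟨hMc, hRM⟩, hMu⟩
    refine ⟨⟨M, hMc, hidx M hRM⟩, ?_⟩
    -- every coatom of index prime to r is a conjugate of M
    have key : ∀ M₁ : Subgroup G, IsCoatom M₁ → ¬ r ∣ M₁.index →
        ∃ g : G, M₁.map (MulAut.conj g).toMonoidHom = M := by
      intro M₁ hM₁ hi
      obtain ⟨g, hg⟩ := exists_conj_le_of_not_dvd_index R M₁ hi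
      refine ⟨g⁻¹, hMu _ ⟨map_conj_isCoatom hM₁ g⁻¹, ?_⟩⟩
      intro x hx
      rw [mem_map_conj, inv_inv]
      exact hg x hx
    intro M₁ M₂ hM₁ hi₁ hM₂ hi₂
    obtain ⟨g₁, hg₁⟩ := key M₁ hM₁ hi₁
    obtain ⟨g₂, hg₂⟩ := key M₂ hM₂ hi₂
    refine ⟨g₂⁻¹ * g₁, ?_⟩
    rw [← map_conj_mul, hg₁, ← hg₂, map_conj_mul, inv_mul_cancel, map_conj_one]
  · rintro ⟨-, hconj⟩
    have hNtop : Subgroup.normalizer (((R : Subgroup G)) : Set G) ≠ ⊤ := by
      intro htop
      have hn : (R : Subgroup G).Normal := Subgroup.normalizer_eq_top_iff.mp htop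
      have hn2 : ((R : Subgroup G) ⊓ T).Normal := inferInstance
      exact normalizer_inf_ne_top T hT hna R hR0 (Subgroup.normalizer_eq_top_iff.mpr hn2)
    obtain ⟨M₀, hM₀c, hM₀⟩ := (eq_top_or_exists_le_coatom _).resolve_left hNtop
    have hRM₀ : (R : Subgroup G) ≤ M₀ := le_trans Subgroup.le_normalizer hM₀
    refine ⟨M₀, ⟨hM₀c, hRM₀⟩, ?_⟩
    rintro M ⟨hMc, hRM⟩
    obtain ⟨g, hg⟩ := hconj M₀ M hM₀c (hidx M₀ hRM₀) hMc (hidx M hRM)
    have hgM₀ : g ∈ M₀ := by
      apply mem_of_normalizer_le_of_conj_le R M₀ hM₀ g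
      intro x hx
      have := hRM hx
      rwa [hg, mem_map_conj] at this
    rw [hg]
    exact map_conj_of_mem_normalizer M₀ (Subgroup.le_normalizer hgM₀)

end Cfsg.Agent.S3858
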