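import Mathlib
import Cfsg.Statements.S3859
import Cfsg.Agent.Helper19.Basic

set_option autoImplicit false
open Cfsg

namespace Cfsg.Agent.S3859

open Cfsg.Agent.Helper19

/-- Let G be a finite group with a normal non-abelian simple subgroup T whose centralizer is trivial (G almost simple with socle T), r a prime and R a Sylow r-subgroup of G meeting T nontrivially. If R lies in exactly one maximal subgroup of G, then G/T is an r-group. -/
theorem result {G : Type*} [Group G] [Finite G] (T : Subgroup G) [T.Normal] (hT : IsSimpleGroup T) (hna : ¬ IsMulCommutative T)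
    (hC : Subgroup.centralizer (T : Set G) = ⊥) {r : ℕ} [Fact r.Prime] (R : Sylow r G) (hR0 : (R : Subgroup G) ⊓ T ≠ ⊥)
    (huniq : ∃! M : Subgroup G, IsCoatom M ∧ (R : Subgroup G) ≤ M) : IsPGroup r (G ⧸ T) := by
  obtain ⟨M, ⟨hMc, hRM⟩, hMu⟩ := huniq
  set Nm := Subgroup.normalizer ((((R : Subgroup G) ⊓ T : Subgroup G)) : Set G) with hNm
  have hfrat : Nm ⊔ T = ⊤ := frattini_inf R T
  have hRN : (R : Subgroup G) ≤ Nm := le_normalizer_inf_normal (R : Subgroup G) T
  have hNtop : Nm ≠ ⊤ := normalizer_inf_ne_top T hT hna R hR0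
  obtain ⟨M₂, hM₂c, hM₂⟩ := (eq_top_or_exists_le_coatom Nm).resolve_left hNtop
  have hM₂M : M₂ = M := hMu M₂ ⟨hM₂c, le_trans hRN hM₂⟩
  have hRT : (R : Subgroup G) ⊔ T = ⊤ := by
    by_contra hne
    obtain ⟨M₁, hM₁c, hM₁⟩ := (eq_top_or_exists_le_coatom _).resolve_left hne
    have hM₁M : M₁ = M := hMu M₁ ⟨hM₁c, le_trans le_sup_left hM₁⟩
    have hTM : T ≤ M := hM₁M ▸ le_trans le_sup_right hM₁
    have hNM : Nm ≤ M := hM₂M ▸ hM₂
    have : (⊤ : Subgroup G) ≤ M := hfrat ▸ sup_le hNM hTM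
    exact hMc.1 (top_le_iff.mp this)
  -- G/T is an r-group
  intro q
  obtain ⟨g, rfl⟩ := QuotientGroup.mk_surjective q
  have hg : g ∈ (R : Subgroup G) ⊔ T := hRT ▸ Subgroup.mem_top g
  obtain ⟨x, hx, t, ht, rfl⟩ := Subgroup.mem_sup_of_normal_right.mp hg
  obtain ⟨k, hk⟩ := R.isPGroup' ⟨x, hx⟩
  refine ⟨k, ?_⟩
  have hk' : x ^ r ^ k = 1 := by
    have := congrArg Subtype.val hk
    simpa using this
  have e : ((x * t : G) : G ⧸ T) = (x : G ⧸ T) := by
    rw [QuotientGroup.mk_mul, (QuotientGroup.eq_one_iff t).mpr ht, mul_one]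
  rw [e, ← QuotientGroup.mk_pow, hk']
  rfl

end Cfsg.Agent.S3859
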