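import Cfsg.Statements.S3861
import Cfsg.Agent.Lead.RealOdd
import Mathlib

set_option autoImplicit false
open Cfsg

namespace Cfsg.Agent.S3861

/-- A finite group G has no non-identity element of odd order that is conjugate to its inverse if and only if the Sylow 2-subgroups of G are normal. -/
theorem result {G : Type*} [Group G] [Finite G] (P : Sylow 2 G) : (∀ x : G, x ≠ 1 → Odd (orderOf x) → ¬ IsConj x x⁻¹) ↔ (P : Subgroup G).Normal := by
  haveI : Fact (Nat.Prime 2) := ⟨Nat.prime_two⟩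
  constructor
  · intro h
    by_contra hP
    obtain ⟨x, y, hx1, hxodd, hyx⟩ := Cfsg.Agent.Lead.exists_real_odd P hP
    exact h x hx1 hxodd (isConj_iff.mpr ⟨y, hyx⟩)
  · intro hP x hx1 hxodd hconj
    obtain ⟨g, hg⟩ := isConj_iff.mp hconj
    haveI := hP
    have hmodd : Odd (orderOf (QuotientGroup.mk g : G ⧸ (P : Subgroup G))) := by
      have hdvd : orderOf (QuotientGroup.mk g : G ⧸ (P : Subgroup G)) ∣ (P : Subgroup G).index := by
        rw [Subgroup.index_eq_card]; exact orderOf_dvd_natCard _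
      have hnd : ¬ 2 ∣ (P : Subgroup G).index := P.not_dvd_index
      by_contra hne
      rw [Nat.not_odd_iff_even] at hne
      exact hnd (dvd_trans hne.two_dvd hdvd)
    obtain ⟨j, hj⟩ := hmodd
    have hgm : g ^ (2 * j + 1) ∈ (P : Subgroup G) := by
      rw [← hj, ← QuotientGroup.eq_one_iff, QuotientGroup.mk_pow]; exact pow_orderOf_eq_one _
    have hsemi : SemiconjBy g x x⁻¹ := by unfold SemiconjBy; rw [← hg]; group
    have hcomm : Commute (g * g) x := Cfsg.Agent.Lead.commute_sq_of_inv hg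
    have hgm' : SemiconjBy (g ^ (2 * j + 1)) x x⁻¹ := by
      rw [pow_succ, pow_mul, pow_two]
      exact SemiconjBy.mul_left (show SemiconjBy ((g * g) ^ j) x⁻¹ x⁻¹ from
        (hcomm.pow_left j).inv_right) hsemi
    generalize g ^ (2 * j + 1) = c at hgm hgm'
    have h3 : c * x * c⁻¹ = x⁻¹ := by rw [hgm'.eq]; group
    have hx2 : x⁻¹ * x⁻¹ ∈ (P : Subgroup G) := by
      have e : x⁻¹ * x⁻¹ = c * (x * c⁻¹ * x⁻¹) := by
        calc x⁻¹ * x⁻¹ = (c * x * c⁻¹) * x⁻¹ := by rw [h3]
          _ = c * (x * c⁻¹ * x⁻¹) := by group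
      rw [e]
      exact Subgroup.mul_mem _ hgm (hP.conj_mem _ (Subgroup.inv_mem _ hgm) x)
    have hx2' : x ^ 2 ∈ (P : Subgroup G) := by
      have h0 := Subgroup.inv_mem _ hx2
      simpa [pow_two] using h0
    obtain ⟨e, he⟩ := P.isPGroup' ⟨x ^ 2, hx2'⟩
    have he' : (x ^ 2) ^ (2 ^ e) = 1 := by simpa using congrArg Subtype.val he
    have hxpow : x ^ (2 ^ (e + 1)) = 1 := by rw [pow_succ', pow_mul]; exact he'
    have d1 : orderOf x ∣ 2 ^ (e + 1) := orderOf_dvd_of_pow_eq_one hxpow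
    have hcop : Nat.Coprime (orderOf x) (2 ^ (e + 1)) :=
      Nat.Coprime.pow_right _ hxodd.coprime_two_right
    have h1 : orderOf x = 1 := Nat.Coprime.eq_one_of_dvd hcop d1
    exact hx1 (orderOf_eq_one_iff.mp h1)

end Cfsg.Agent.S3861
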