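import Mathlib
import Cfsg.Statements.S3863

set_option autoImplicit false
open Cfsg

namespace Cfsg.Agent.S3863

variable {G : Type*} [Group G]

/-- a 2-element inverting `x`, extracted from any element inverting `x`. -/
theorem exists_two_elt [Finite G] (x g : G) (hg : g * x * g⁻¹ = x⁻¹) :
    ∃ t : G, (∃ j : ℕ, orderOf t = 2 ^ j) ∧ t * x * t⁻¹ = x⁻¹ := by
  obtain ⟨k, m, hm, hkm⟩ := Nat.exists_eq_two_pow_mul_odd (orderOf_pos g).ne'
  refine ⟨g ^ m, ⟨k, ?_⟩, ?_⟩
  · have hm0 : m ≠ 0 := by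
      rintro rfl
      simp at hm
    rw [orderOf_pow_of_dvd hm0 (hkm ▸ Dvd.intro_left _ rfl), hkm]
    exact Nat.mul_div_cancel _ (Nat.pos_of_ne_zero hm0)
  · -- g^2 commutes with x
    have hg2 : Commute (g ^ 2) x := by
      have h1 : g * x = x⁻¹ * g := by
        rw [← hg]; group
      have h2 : g * x⁻¹ = x * g := by
        have : g * x⁻¹ * g⁻¹ = x := by
          have := congrArg Inv.inv hg
          simpa [mul_assoc] using this
        exact mul_inv_eq_iff_eq_mul.mp this
      show g ^ 2 * x = x * g ^ 2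
      rw [pow_two, mul_assoc, h1, ← mul_assoc, h2, mul_assoc]
    obtain ⟨r, rfl⟩ := hm
    have hc : Commute ((g ^ 2) ^ r) x⁻¹ := (hg2.pow_left r).inv_right
    have e : g ^ (2 * r + 1) = (g ^ 2) ^ r * g := by
      rw [pow_succ, pow_mul]
    rw [e]
    calc (g ^ 2) ^ r * g * x * ((g ^ 2) ^ r * g)⁻¹
        = (g ^ 2) ^ r * (g * x * g⁻¹) * ((g ^ 2) ^ r)⁻¹ := by group
      _ = (g ^ 2) ^ r * x⁻¹ * ((g ^ 2) ^ r)⁻¹ := by rw [hg]
      _ = x⁻¹ := by rw [hc.eq]; group

theorem mem_of_pow_two_pow_mem [Finite G] (N : Subgroup G) [N.Normal] (hN : Odd N.index)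
    (g : G) (j : ℕ) (hg : g ^ (2 ^ j) ∈ N) : g ∈ N := by
  rw [← QuotientGroup.eq_one_iff (N := N)] at hg ⊢
  rw [QuotientGroup.mk_pow] at hg
  have h1 : orderOf (g : G ⧸ N) ∣ 2 ^ j := orderOf_dvd_of_pow_eq_one hg
  have h2 : orderOf (g : G ⧸ N) ∣ N.index := by
    rw [Subgroup.index_eq_card]; exact orderOf_dvd_natCard _
  have hcop : Nat.Coprime (2 ^ j) N.index :=
    Nat.Coprime.pow_left j (Nat.coprime_two_left.mpr hN)
  have h3 : orderOf (g : G ⧸ N) = 1 := Nat.eq_one_of_dvd_coprimes hcop h1 h2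
  exact orderOf_eq_one_iff.mp h3

/-- Let x be an element of the finite group G that is conjugate to its inverse. Then some 2-element conjugates x to its inverse; if the conjugacy class of x has odd size then x ^ 2 = 1; and x lies in, and is conjugate to its inverse inside, every normal subgroup of odd index. -/
theorem result {G : Type*} [Group G] [Finite G] (x : G) (hx : IsConj x x⁻¹) : (∃ t : G, (∃ j : ℕ, orderOf t = 2 ^ j) ∧ t * x * t⁻¹ = x⁻¹) ∧ (Odd (Subgroup.centralizer ({x} : Set G)).index → x ^ 2 = 1) ∧ ∀ (N : Subgroup G) [N.Normal], Odd N.index → ∃ hxN : x ∈ N, IsConj (⟨x, hxN⟩ : N) (⟨x, hxN⟩ : N)⁻¹ := by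
  obtain ⟨g, hg⟩ := isConj_iff.mp hx
  obtain ⟨t, ⟨j, hj⟩, ht⟩ := exists_two_elt x g hg
  have ht' : t * x⁻¹ * t⁻¹ = x := by
    have := congrArg Inv.inv ht
    simpa [mul_assoc] using this
  refine ⟨⟨t, ⟨j, hj⟩, ht⟩, ?_, ?_⟩
  · intro hodd
    by_contra hx2
    have hne : x ≠ x⁻¹ := by
      intro h
      apply hx2
      rw [pow_two]
      nth_rewrite 2 [h]
      exact mul_inv_cancel x
    set C := Subgroup.centralizer ({x} : Set G) with hC
    set M := Subgroup.normalizer ({x, x⁻¹} : Set G) with hM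
    have hmemC : ∀ b : G, b ∈ C ↔ b * x * b⁻¹ = x := by
      intro b
      rw [hC, Subgroup.mem_centralizer_iff]
      constructor
      · intro h
        rw [← h x (Set.mem_singleton x)]; group
      · intro h y hy
        rw [Set.mem_singleton_iff] at hy
        subst hy
        exact (mul_inv_eq_iff_eq_mul.mp h).symm
    have hCM : C ≤ M := by
      intro b hb
      rw [hM, Subgroup.mem_set_normalizer_iff]
      have hb1 := (hmemC b).mp hb
      have hb2 : b * x⁻¹ * b⁻¹ = x⁻¹ := by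
        have := congrArg Inv.inv hb1
        simpa [mul_assoc] using this
      intro y
      constructor
      · rintro (rfl | rfl)
        · rw [hb1]; exact Or.inl rfl
        · rw [hb2]; exact Or.inr rfl
      · intro hy
        have hb' : b⁻¹ ∈ C := C.inv_mem hb
        have hb1' := (hmemC b⁻¹).mp hb'
        have hb2' : b⁻¹ * x⁻¹ * b⁻¹⁻¹ = x⁻¹ := by
          have := congrArg Inv.inv hb1'
          simpa [mul_assoc] using this
        have e : y = b⁻¹ * (b * y * b⁻¹) * b⁻¹⁻¹ := by group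
        rcases hy with hy | hy
        · rw [e, hy, hb1']; exact Or.inl rfl
        · rw [e, hy, hb2']; exact Or.inr rfl
    have htM : t ∈ M := by
      rw [hM, Subgroup.mem_set_normalizer_iff]
      have ht1 : t⁻¹ * x * t⁻¹⁻¹ = x⁻¹ := by
        rw [inv_inv]
        calc t⁻¹ * x * t = t⁻¹ * (t * x⁻¹ * t⁻¹) * t := by rw [ht']
          _ = x⁻¹ := by group
      have ht2 : t⁻¹ * x⁻¹ * t⁻¹⁻¹ = x := by
        rw [inv_inv]
        calc t⁻¹ * x⁻¹ * t = t⁻¹ * (t * x * t⁻¹) * t := by rw [ht]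
          _ = x := by group
      intro y
      constructor
      · rintro (rfl | rfl)
        · rw [ht]; exact Or.inr rfl
        · rw [ht']; exact Or.inl rfl
      · intro hy
        have e : y = t⁻¹ * (t * y * t⁻¹) * t⁻¹⁻¹ := by group
        rcases hy with hy | hy
        · rw [e, hy, ht1]; exact Or.inr rfl
        · rw [e, hy, ht2]; exact Or.inl rfl
    have h2 : C.relIndex M = 2 := by
      rw [Subgroup.relIndex_eq_two_iff]
      refine ⟨t, htM, ?_⟩
      intro b hb
      have hbx : b * x * b⁻¹ = x ∨ b * x * b⁻¹ = x⁻¹ := by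
        have := (Subgroup.mem_set_normalizer_iff.mp hb x).mp (Or.inl rfl)
        exact this
      have ebt : b * t * x * (b * t)⁻¹ = (b * x * b⁻¹)⁻¹ := by
        calc b * t * x * (b * t)⁻¹ = b * (t * x * t⁻¹) * b⁻¹ := by group
          _ = b * x⁻¹ * b⁻¹ := by rw [ht]
          _ = (b * x * b⁻¹)⁻¹ := by group
      rw [hmemC, hmemC, ebt]
      rcases hbx with hbx | hbx
      · rw [hbx]
        exact Or.inr ⟨rfl, fun h => hne h.symm⟩
      · rw [hbx, inv_inv]
        exact Or.inl ⟨rfl, fun h => hne h.symm⟩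
    have hdvd : 2 ∣ C.index := h2 ▸ Subgroup.relIndex_dvd_index_of_le hCM
    exact (Nat.not_even_iff_odd.mpr hodd) (even_iff_two_dvd.mpr hdvd)
  · intro N _ hN
    have htN : t ∈ N := by
      apply mem_of_pow_two_pow_mem N hN t j
      rw [← hj, pow_orderOf_eq_one]
      exact N.one_mem
    have hxN : x ∈ N := by
      apply mem_of_pow_two_pow_mem N hN x 1
      -- x^2 = x * x = x * (t x⁻¹ t⁻¹) = [x,t]-ish ∈ N
      have e : x ^ (2 ^ 1) = (x * t * x⁻¹) * t⁻¹ := by
        rw [pow_one, pow_two, mul_assoc, mul_assoc, ← mul_assoc t, ht']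
      rw [e]
      exact N.mul_mem (Subgroup.Normal.conj_mem inferInstance t htN x) (N.inv_mem htN)
    refine ⟨hxN, ?_⟩
    rw [isConj_iff]
    refine ⟨⟨t, htN⟩, ?_⟩
    apply Subtype.ext
    simpa using ht

end Cfsg.Agent.S3863
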