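import Mathlib
import Cfsg.Statements.S3866

set_option autoImplicit false
open Cfsg

namespace Cfsg.Agent.S3866

variable {G : Type*} [Group G]

open scoped commutatorElement

theorem comm_mul (A : Subgroup G) [A.Normal] [hA : IsMulCommutative A] (x : G) {a b : G}
    (ha : a ∈ A) (hb : b ∈ A) :
    x * (a * b) * x⁻¹ * (a * b)⁻¹ = (x * a * x⁻¹ * a⁻¹) * (x * b * x⁻¹ * b⁻¹) := by
  have hxb : x * b * x⁻¹ * b⁻¹ ∈ A :=
    A.mul_mem (Subgroup.Normal.conj_mem inferInstance b hb x) (A.inv_mem hb)
  have hc : a⁻¹ * (x * b * x⁻¹ * b⁻¹) = (x * b * x⁻¹ * b⁻¹) * a⁻¹ := setLike_mul_comm (A.inv_mem ha) hxb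
  calc x * (a * b) * x⁻¹ * (a * b)⁻¹ = x * a * x⁻¹ * ((x * b * x⁻¹ * b⁻¹) * a⁻¹) := by group
    _ = x * a * x⁻¹ * (a⁻¹ * (x * b * x⁻¹ * b⁻¹)) := by rw [hc]
    _ = _ := by group

/-- the map `a ↦ [x, a]` as a homomorphism on the abelian normal subgroup `A`. -/
def phi (A : Subgroup G) [A.Normal] [IsMulCommutative A] (x : G) : A →* G where
  toFun a := x * a * x⁻¹ * (a : G)⁻¹
  map_one' := by simp
  map_mul' a b := by
    simpa using comm_mul A x a.2 b.2

theorem phi_apply (A : Subgroup G) [A.Normal] [IsMulCommutative A] (x : G) (a : A) :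
    phi A x a = x * a * x⁻¹ * (a : G)⁻¹ := rfl

theorem range_le (A : Subgroup G) [A.Normal] [IsMulCommutative A] (x : G) :
    (phi A x).range ≤ A := by
  rintro _ ⟨a, rfl⟩
  exact A.mul_mem (Subgroup.Normal.conj_mem inferInstance _ a.2 x) (A.inv_mem a.2)

theorem range_normal (A : Subgroup G) [A.Normal] [IsMulCommutative A] (x : G)
    (hgen : A ⊔ Subgroup.zpowers x = ⊤) : (phi A x).range.Normal := by
  rw [← Subgroup.normalizer_eq_top_iff, eq_top_iff, ← hgen, sup_le_iff]
  constructor
  · intro a ha
    rw [Subgroup.mem_normalizer_iff]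
    intro h
    have hfix : h ∈ A → a * h * a⁻¹ = h := by
      intro hhA
      rw [setLike_mul_comm ha hhA]; group
    constructor
    · intro hh
      rw [hfix (range_le A x hh)]; exact hh
    · intro hh
      have hhA : h ∈ A := by
        have h1 := range_le A x hh
        have h2 := A.mul_mem (A.mul_mem (A.inv_mem ha) h1) ha
        have e : a⁻¹ * (a * h * a⁻¹) * a = h := by group
        rwa [e] at h2
      rw [hfix hhA] at hh; exact hh
  · rw [Subgroup.zpowers_le, Subgroup.mem_normalizer_iff]
    intro h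
    constructor
    · rintro ⟨a, rfl⟩
      refine ⟨⟨x * a * x⁻¹, Subgroup.Normal.conj_mem inferInstance _ a.2 x⟩, ?_⟩
      rw [phi_apply, phi_apply]
      simp only
      group
    · rintro ⟨a, ha⟩
      have hmem : x⁻¹ * a * x ∈ A := by
        have := Subgroup.Normal.conj_mem (inferInstance : A.Normal) _ a.2 x⁻¹
        simpa using this
      refine ⟨⟨x⁻¹ * a * x, hmem⟩, ?_⟩
      rw [phi_apply] at ha ⊢
      simp only
      have e : h = x⁻¹ * (x * h * x⁻¹) * x := by group
      rw [e, ← ha]
      group

theorem commutator_le_range (A : Subgroup G) [A.Normal] [IsMulCommutative A] (x : G)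
    (hgen : A ⊔ Subgroup.zpowers x = ⊤) : commutator G ≤ (phi A x).range := by
  have := range_normal A x hgen
  set I := (phi A x).range with hI
  let π := QuotientGroup.mk' I
  have hπ : Function.Surjective π := QuotientGroup.mk'_surjective I
  -- generators commute mod I
  have hAA : ∀ a ∈ A, ∀ b ∈ A, π a * π b = π b * π a := by
    intro a ha b hb
    rw [← map_mul, ← map_mul, setLike_mul_comm ha hb]
  have hxA : ∀ a ∈ A, π x * π a = π a * π x := by
    intro a ha
    rw [← map_mul, ← map_mul]
    show (QuotientGroup.mk (x * a) : G ⧸ I) = QuotientGroup.mk (a * x)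
    rw [QuotientGroup.eq_iff_div_mem]
    refine ⟨⟨a, ha⟩, ?_⟩
    rw [phi_apply, div_eq_mul_inv]
    simp only
    group
  -- the centralizer of π x and π A is everything
  have hcent : ∀ q : G ⧸ I, (∀ a ∈ A, q * π a = π a * q) ∧ q * π x = π x * q := by
    intro q
    obtain ⟨g, rfl⟩ := hπ q
    have hg : g ∈ A ⊔ Subgroup.zpowers x := hgen ▸ Subgroup.mem_top g
    rw [Subgroup.sup_eq_closure] at hg
    induction hg using Subgroup.closure_induction with
    | mem s hs =>
      rcases hs with hs | hs
      · exact ⟨fun a ha => hAA s hs a ha, (hxA s hs).symm⟩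
      · obtain ⟨n, rfl⟩ := Subgroup.mem_zpowers_iff.mp hs
        rw [map_zpow]
        refine ⟨fun a ha => ?_, ?_⟩
        · exact ((Commute.zpow_left (hxA a ha) n))
        · exact (Commute.zpow_left (Commute.refl (π x)) n)
    | one => simp
    | mul s t _ _ ihs iht =>
      rw [map_mul]
      refine ⟨fun a ha => ?_, ?_⟩
      · exact Commute.mul_left (ihs.1 a ha) (iht.1 a ha)
      · exact Commute.mul_left ihs.2 iht.2
    | inv s _ ihs =>
      rw [map_inv]
      refine ⟨fun a ha => ?_, ?_⟩
      · exact Commute.inv_left (ihs.1 a ha)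
      · exact Commute.inv_left ihs.2
  have hall : ∀ q r : G ⧸ I, q * r = r * q := by
    intro q r
    obtain ⟨g, rfl⟩ := hπ r
    have hg : g ∈ A ⊔ Subgroup.zpowers x := hgen ▸ Subgroup.mem_top g
    rw [Subgroup.sup_eq_closure] at hg
    induction hg using Subgroup.closure_induction with
    | mem s hs =>
      rcases hs with hs | hs
      · exact (hcent q).1 s hs
      · obtain ⟨n, rfl⟩ := Subgroup.mem_zpowers_iff.mp hs
        rw [map_zpow]
        exact Commute.zpow_right (hcent q).2 n
    | one => simp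
    | mul s t _ _ ihs iht =>
      rw [map_mul]
      exact Commute.mul_right ihs iht
    | inv s _ ihs =>
      rw [map_inv]
      exact Commute.inv_right ihs
  rw [commutator_def, Subgroup.commutator_le]
  intro g _ h _
  rw [← QuotientGroup.eq_one_iff (N := I)]
  show π ⁅g, h⁆ = 1
  rw [map_commutatorElement, commutatorElement_eq_one_iff_mul_comm]
  exact hall _ _

/-- Let A be a commutative normal subgroup of the finite group G with G generated by A and an element x. Then a ↦ x a x⁻¹ a⁻¹ is a surjective homomorphism from A onto the commutator subgroup of G whose kernel is the centralizer of x in A; in particular the commutator subgroup has order equal to the index in A of that centralizer. -/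
theorem result {G : Type*} [Group G] [Finite G] (A : Subgroup G) [A.Normal] (hA : IsMulCommutative A) (x : G) (hgen : A ⊔ Subgroup.zpowers x = ⊤) : (∀ a ∈ A, x * a * x⁻¹ * a⁻¹ ∈ commutator G) ∧ (∀ c ∈ commutator G, ∃ a ∈ A, x * a * x⁻¹ * a⁻¹ = c) ∧ (∀ a ∈ A, ∀ b ∈ A, x * (a * b) * x⁻¹ * (a * b)⁻¹ = (x * a * x⁻¹ * a⁻¹) * (x * b * x⁻¹ * b⁻¹)) ∧ Nat.card (commutator G) * Nat.card ↥(A ⊓ Subgroup.centralizer ({x} : Set G)) = Nat.card A := by
  have h1 : ∀ a ∈ A, x * a * x⁻¹ * a⁻¹ ∈ commutator G := by
    intro a _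
    rw [commutator_def, ← commutatorElement_def]
    exact Subgroup.commutator_mem_commutator (Subgroup.mem_top x) (Subgroup.mem_top a)
  have hrange : (phi A x).range = commutator G := by
    apply le_antisymm
    · rintro _ ⟨a, rfl⟩
      exact h1 a a.2
    · exact commutator_le_range A x hgen
  refine ⟨h1, ?_, fun a ha b hb => comm_mul A x ha hb, ?_⟩
  · intro c hc
    rw [← hrange] at hc
    obtain ⟨a, rfl⟩ := hc
    exact ⟨a, a.2, rfl⟩
  · have hker : (phi A x).ker = (A ⊓ Subgroup.centralizer ({x} : Set G)).subgroupOf A := by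
      ext a
      rw [MonoidHom.mem_ker, Subgroup.mem_subgroupOf, Subgroup.mem_inf, phi_apply,
        Subgroup.mem_centralizer_iff]
      constructor
      · intro h
        refine ⟨a.2, ?_⟩
        intro y hy
        rw [Set.mem_singleton_iff] at hy
        subst hy
        have : y * (a : G) * y⁻¹ = a := by
          rw [mul_inv_eq_one] at h; exact h
        exact mul_inv_eq_iff_eq_mul.mp this
      · rintro ⟨-, h⟩
        have := h x (Set.mem_singleton x)
        rw [mul_inv_eq_one]
        exact mul_inv_eq_iff_eq_mul.mpr this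
    have hc1 : Nat.card (phi A x).ker = Nat.card ↥(A ⊓ Subgroup.centralizer ({x} : Set G)) := by
      rw [hker]
      exact Nat.card_congr (Subgroup.subgroupOfEquivOfLe inf_le_left).toEquiv
    have hc2 := Subgroup.card_mul_index (phi A x).ker
    rw [Subgroup.index_ker, hrange, hc1] at hc2
    rw [mul_comm]; exact hc2

end Cfsg.Agent.S3866
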