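import Mathlib
import Cfsg.Statements.S3867
import Cfsg.Agent.Helper19.Basic
import Cfsg.Agent.Helper19.SylowQuot

set_option autoImplicit false
open Cfsg

namespace Cfsg.Agent.S3867

open Cfsg.Agent.Helper19

/-- Let M and N be nontrivial normal subgroups of the finite group G with M ⊓ N trivial, and let p be a prime. Writing n(X) for the number of Sylow p-subgroups of a group X, one has n(G) · n(G/MN) = n(G/M) · n(G/N). -/
theorem result {G : Type*} [Group G] [Finite G] (p : ℕ) [Fact p.Prime] (M N : Subgroup G) [M.Normal] [N.Normal] (hM : M ≠ ⊥) (hN : N ≠ ⊥) (hMN : M ⊓ N = ⊥) : Nat.card (Sylow p G) * Nat.card (Sylow p (G ⧸ (M ⊔ N))) = Nat.card (Sylow p (G ⧸ M)) * Nat.card (Sylow p (G ⧸ N)) := by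
  obtain ⟨P⟩ := (inferInstance : Nonempty (Sylow p G))
  rw [Sylow.card_eq_index_normalizer P, card_sylow_quotient (M ⊔ N) P, card_sylow_quotient M P,
    card_sylow_quotient N P]
  have hT : IsPGroup p ↥(((P : Subgroup G) ⊔ M) ⊓ ((P : Subgroup G) ⊔ N)) := by
    rintro ⟨t, ht1, ht2⟩
    obtain ⟨u, hu, m, hm, rfl⟩ := Subgroup.mem_sup_of_normal_right.mp ht1
    obtain ⟨u', hu', n, hn, hun⟩ := Subgroup.mem_sup_of_normal_right.mp ht2
    obtain ⟨a, ha⟩ := P.isPGroup' ⟨u, hu⟩
    obtain ⟨b, hb⟩ := P.isPGroup' ⟨u', hu'⟩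
    have ha' : u ^ p ^ a = 1 := by
      have := congrArg Subtype.val ha; simpa using this
    have hb' : u' ^ p ^ b = 1 := by
      have := congrArg Subtype.val hb; simpa using this
    have h1 : (u * m) ^ p ^ a ∈ M := by
      rw [← QuotientGroup.eq_one_iff]
      rw [QuotientGroup.mk_pow, QuotientGroup.mk_mul, (QuotientGroup.eq_one_iff m).mpr hm, mul_one,
        ← QuotientGroup.mk_pow, ha', QuotientGroup.mk_one]
    have h2 : (u * m) ^ p ^ b ∈ N := by
      rw [← hun]
      rw [← QuotientGroup.eq_one_iff]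
      rw [QuotientGroup.mk_pow, QuotientGroup.mk_mul, (QuotientGroup.eq_one_iff n).mpr hn, mul_one,
        ← QuotientGroup.mk_pow, hb', QuotientGroup.mk_one]
    refine ⟨a + b, ?_⟩
    apply Subtype.ext
    show (u * m) ^ p ^ (a + b) = 1
    have h3 : (u * m) ^ p ^ (a + b) ∈ M ⊓ N := by
      constructor
      · rw [pow_add, pow_mul]; exact Subgroup.pow_mem _ h1 _
      · rw [pow_add, mul_comm, pow_mul]; exact Subgroup.pow_mem _ h2 _
    rw [hMN, Subgroup.mem_bot] at h3
    exact h3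
  have hTP : ((P : Subgroup G) ⊔ M) ⊓ ((P : Subgroup G) ⊔ N) = P :=
    P.is_maximal' hT (le_inf le_sup_left le_sup_left)
  have hD : (Subgroup.normalizer ((P : Subgroup G) : Set G) ⊔ N) ⊓ M ≤
      Subgroup.normalizer ((P : Subgroup G) : Set G) := by
    rintro x ⟨hxLN, hxM⟩
    obtain ⟨l, hl, n, hn, rfl⟩ := Subgroup.mem_sup_of_normal_right.mp hxLN
    apply mem_normalizer_of_map_conj_eq
    apply Subgroup.eq_of_le_of_card_ge
    · rintro _ ⟨u, hu, rfl⟩
      rw [← hTP]
      constructor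
      · show (l * n) * u * (l * n)⁻¹ ∈ (P : Subgroup G) ⊔ M
        exact mul_mem (mul_mem (Subgroup.mem_sup_right hxM) (Subgroup.mem_sup_left hu))
          (inv_mem (Subgroup.mem_sup_right hxM))
      · show (l * n) * u * (l * n)⁻¹ ∈ (P : Subgroup G) ⊔ N
        have h1 : n * u * n⁻¹ ∈ (P : Subgroup G) ⊔ N :=
          mul_mem (mul_mem (Subgroup.mem_sup_right hn) (Subgroup.mem_sup_left hu))
            (inv_mem (Subgroup.mem_sup_right hn))
        have h2 : ((P : Subgroup G) ⊔ N).map (MulAut.conj l).toMonoidHom =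
            (P : Subgroup G) ⊔ N := by
          rw [Subgroup.map_sup, map_conj_of_mem_normalizer (P : Subgroup G) hl, map_conj_normal]
        have h3 : (MulAut.conj l).toMonoidHom (n * u * n⁻¹) ∈
            ((P : Subgroup G) ⊔ N).map (MulAut.conj l).toMonoidHom := ⟨_, h1, rfl⟩
        rw [h2] at h3
        have e : (l * n) * u * (l * n)⁻¹ = l * (n * u * n⁻¹) * l⁻¹ := by group
        rw [e]; exact h3
    · rw [card_map_conj]
  generalize Subgroup.normalizer ((P : Subgroup G) : Set G) = L at *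
  have hinf : (L ⊔ N) ⊓ M = L ⊓ M :=
    le_antisymm (le_inf hD inf_le_right) (inf_le_inf_right _ le_sup_left)
  have hr : (L ⊔ N).relIndex M = L.relIndex M := by
    rw [← Subgroup.inf_relIndex_right, hinf, Subgroup.inf_relIndex_right]
  have e1 : L.index = L.relIndex M * (L ⊔ M).index := by
    rw [← relIndex_sup_normal L M, Subgroup.relIndex_mul_index le_sup_left]
  have e2 : (L ⊔ N).index = L.relIndex M * (L ⊔ N ⊔ M).index := by
    rw [← hr, ← relIndex_sup_normal (L ⊔ N) M, Subgroup.relIndex_mul_index le_sup_left]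
  have e3 : L ⊔ (M ⊔ N) = L ⊔ N ⊔ M := by
    rw [sup_comm M N, sup_assoc]
  rw [e3, e1, e2]
  ring

end Cfsg.Agent.S3867
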