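import Cfsg.Statements.S3880
import Mathlib
import Cfsg.Agent.Helper8.Metacyclic
import Cfsg.Agent.Helper8.Metacyclic2
import Cfsg.Agent.Helper8.Metacyclic3

set_option autoImplicit false
open Cfsg

namespace Cfsg.Agent.S3880
open scoped commutatorElement
open Cfsg.Agent.Helper8.Meta


/-- Let p be an odd prime and G a finite metacyclic p-group (G has a cyclic normal subgroup with cyclic quotient). Then a subgroup L of G is abelian if and only if |L| ≤ |G : G'|, and L is a maximal abelian subgroup of G if and only if |L| = |G : G'|. -/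
theorem result {G : Type*} [Group G] [Finite G] {p : ℕ} [Fact p.Prime] (hp : p ≠ 2) (hG : IsPGroup p G) (hmc : Cfsg.IsMetacyclic G) (L : Subgroup G) :
    (IsMulCommutative ↥L ↔ Nat.card ↥L ≤ (commutator G).index) ∧
      (Maximal (fun K : Subgroup G => IsMulCommutative ↥K) L ↔ Nat.card ↥L = (commutator G).index) := by
  have hpp : p.Prime := Fact.out
  obtain ⟨a, b, h⟩ := exists_MC hmc
  have key := h.comm_iff_card_le hp hG
  refine ⟨key L, ?_⟩
  obtain ⟨K, hK⟩ := IsPGroup.iff_card.mp hG
  constructor
  · intro hmax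
    have h1 : Nat.card ↥L ≤ (commutator G).index := (key L).mp hmax.prop
    by_contra hne
    have hlt : Nat.card ↥L < (commutator G).index := lt_of_le_of_ne h1 hne
    have hd1 : Nat.card ↥L ∣ p ^ K := by rw [← hK]; exact Subgroup.card_subgroup_dvd_card L
    have hd2 : (commutator G).index ∣ p ^ K := by rw [← hK]; exact Subgroup.index_dvd_card _
    obtain ⟨e, -, he⟩ := (Nat.dvd_prime_pow hpp).mp hd1
    obtain ⟨f, -, hf⟩ := (Nat.dvd_prime_pow hpp).mp hd2
    rw [he, hf] at hlt
    have hef : e < f := (Nat.pow_lt_pow_iff_right hpp.one_lt).mp hlt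
    have hdvd : p ^ (e + 1) ∣ Nat.card G := by
      calc p ^ (e + 1) ∣ p ^ f := pow_dvd_pow p hef
        _ = (commutator G).index := hf.symm
        _ ∣ Nat.card G := Subgroup.index_dvd_card _
    obtain ⟨K', hK'card, hLK'⟩ := Sylow.exists_subgroup_card_pow_succ hdvd he
    have hK'ab : IsMulCommutative ↥K' := by
      rw [key K', hK'card, hf]
      exact Nat.pow_le_pow_right hpp.pos hef
    have hK'L : K' ≤ L := hmax.le_of_ge hK'ab hLK'
    have h2 := Subgroup.card_le_of_le hK'L
    rw [hK'card, he] at h2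
    have h3 : p ^ e < p ^ (e + 1) := Nat.pow_lt_pow_right hpp.one_lt (Nat.lt_succ_self e)
    omega
  · intro hcard
    refine ⟨(key L).mpr hcard.le, ?_⟩
    intro K' hK'ab hLK'
    have h1 : Nat.card ↥K' ≤ (commutator G).index := (key K').mp hK'ab
    exact (Subgroup.eq_of_le_of_card_ge hLK' (by rw [hcard]; exact h1)).ge

end Cfsg.Agent.S3880
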