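import Cfsg.Statements.S3881
import Mathlib
import Cfsg.Agent.Helper8.Metacyclic
import Cfsg.Agent.Helper8.Metacyclic2

set_option autoImplicit false
open Cfsg

namespace Cfsg.Agent.S3881
open scoped commutatorElement
open Cfsg.Agent.Helper8.Meta


/-- Let p be an odd prime and G a finite metacyclic p-group (G has a cyclic normal subgroup with cyclic quotient). Suppose G is non-abelian with |G'| = p^n. Then for 1 ≤ i ≤ n the number of elements of G whose conjugacy class has exactly p^i elements is |Z(G)| · (p^(2i) − p^(2i−2)). -/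
theorem result {G : Type*} [Group G] [Finite G] {p : ℕ} [Fact p.Prime] (hp : p ≠ 2) (hG : IsPGroup p G) (hmc : Cfsg.IsMetacyclic G) (n : ℕ) (hn : n ≠ 0) (hGn : Nat.card ↥(commutator G) = p ^ n) (i : ℕ) (hi : 1 ≤ i) (hin : i ≤ n) :
    Nat.card {g : G // (Subgroup.centralizer ({g} : Set G)).index = p ^ i} =
      Nat.card ↥(Subgroup.center G) * (p ^ (2 * i) - p ^ (2 * i - 2)) := by
  have hpp : p.Prime := Fact.out
  obtain ⟨a, b, h⟩ := exists_MC hmc
  haveI := h.normal
  have hc := h.comm_le
  have hn' : orderOf ⁅a, b⁆ = p ^ n := h.order_comm hG hGn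
  obtain ⟨K, hK⟩ := IsPGroup.iff_card.mp hG
  have hset : {g : G | (Subgroup.centralizer ({g} : Set G)).index = p ^ i} =
      (cls a (p ^ i) : Set G) \ (cls a (p ^ (i - 1)) : Set G) := by
    ext g
    simp only [Set.mem_ofPred_eq, Set.mem_sdiff, SetLike.mem_coe]
    rw [mem_cls_iff_index hp hG hc, mem_cls_iff_index hp hG hc]
    have hd : (Subgroup.centralizer ({g} : Set G)).index ∣ p ^ K := by
      rw [← hK]; exact Subgroup.index_dvd_card _
    obtain ⟨e, -, he⟩ := (Nat.dvd_prime_pow hpp).mp hd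
    rw [he, Nat.pow_le_pow_iff_right hpp.one_lt, Nat.pow_le_pow_iff_right hpp.one_lt,
      (Nat.pow_right_injective hpp.two_le).eq_iff]
    omega
  have hsub : (cls a (p ^ (i - 1)) : Set G) ⊆ cls a (p ^ i) := by
    intro g hg
    rw [SetLike.mem_coe, mem_cls_iff_index hp hG hc] at hg ⊢
    exact hg.trans (Nat.pow_le_pow_right hpp.pos (by omega))
  have hc1 := h.card_cls hp hG hn' (i - 1) (by omega)
  have h5 : 2 * (i - 1) = 2 * i - 2 := by omega
  rw [h5] at hc1
  show Nat.card ↥{g : G | (Subgroup.centralizer ({g} : Set G)).index = p ^ i} = _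
  rw [Nat.card_coe_set_eq, hset, Set.ncard_sdiff hsub, ← Nat.card_coe_set_eq,
    ← Nat.card_coe_set_eq, SetLike.coe_sort_coe, SetLike.coe_sort_coe,
    h.card_cls hp hG hn' i hin, hc1, mul_tsub]

end Cfsg.Agent.S3881
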