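import Cfsg.Statements.S3883
import Mathlib
import Cfsg.Agent.Helper8.Metacyclic
import Cfsg.Agent.Helper8.Metacyclic2
import Cfsg.Agent.Helper8.Metacyclic3
import Cfsg.Agent.Helper8.Metacyclic4
import Cfsg.Agent.Helper14.Frattini

set_option autoImplicit false
open Cfsg

namespace Cfsg.Agent.S3883
open scoped commutatorElement
open Cfsg.Agent.Helper8.Meta


/-- Let p be an odd prime and G a finite metacyclic p-group (G has a cyclic normal subgroup with cyclic quotient). Suppose G is non-abelian. Then an element g of G lies outside the Frattini subgroup if and only if its centralizer C_G(g) is abelian. -/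
theorem result {G : Type*} [Group G] [Finite G] {p : ℕ} [Fact p.Prime] (hp : p ≠ 2) (hG : IsPGroup p G) (hmc : Cfsg.IsMetacyclic G) (hna : ¬ IsMulCommutative G) (g : G) :
    g ∉ frattini G ↔ IsMulCommutative ↥(Subgroup.centralizer ({g} : Set G)) := by
  have hpp : p.Prime := Fact.out
  obtain ⟨a, b, h⟩ := exists_MC hmc
  haveI := h.normal
  have hc := h.comm_le
  obtain ⟨n, hn⟩ : ∃ n, orderOf ⁅a, b⁆ = p ^ n := by
    obtain ⟨k, hk⟩ := hG ⁅a, b⁆
    obtain ⟨m, -, hm⟩ := (Nat.dvd_prime_pow hpp).mp (orderOf_dvd_of_pow_eq_one hk)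
    exact ⟨m, hm⟩
  have hcard : Nat.card (commutator G) = p ^ n := by
    rw [h.commutator_eq hG, Nat.card_zpowers, hn]
  have hn1 : 1 ≤ n := by
    by_contra hlt
    have hn0 : n = 0 := by omega
    apply hna
    rw [isMulComm_iff_card_comm, hcard, hn0, pow_zero]
  obtain ⟨K, hK⟩ := IsPGroup.iff_card.mp hG
  have key := h.comm_iff_card_le hp hG (Subgroup.centralizer ({g} : Set G))
  have e1 : IsMulCommutative ↥(Subgroup.centralizer ({g} : Set G)) ↔
      g ∉ cls a (p ^ (n - 1)) := by
    rw [key, mem_cls_iff_index hp hG hc]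
    have hA := Subgroup.card_mul_index (Subgroup.centralizer ({g} : Set G))
    have hB := Subgroup.card_mul_index (commutator G)
    rw [hcard] at hB
    have hd : (Subgroup.centralizer ({g} : Set G)).index ∣ p ^ K := by
      rw [← hK]; exact Subgroup.index_dvd_card _
    obtain ⟨e, -, he⟩ := (Nat.dvd_prime_pow hpp).mp hd
    rw [he] at hA ⊢
    rw [Nat.pow_le_pow_iff_right hpp.one_lt]
    have hidx : 0 < (commutator G).index := Nat.pos_of_ne_zero Subgroup.index_ne_zero_of_finite
    have hpe : 0 < p ^ e := pow_pos hpp.pos e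
    constructor
    · intro h1 h2
      have h3 : p ^ e < p ^ n := Nat.pow_lt_pow_right hpp.one_lt (by omega)
      have : Nat.card ↥(Subgroup.centralizer ({g} : Set G)) * p ^ e <
          p ^ n * (commutator G).index := by nlinarith
      omega
    · intro h2
      have h3 : p ^ n ≤ p ^ e := Nat.pow_le_pow_right hpp.pos (by omega)
      by_contra hlt
      rw [not_le] at hlt
      have : p ^ n * (commutator G).index <
          Nat.card ↥(Subgroup.centralizer ({g} : Set G)) * p ^ e := by nlinarith
      omega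
  rw [e1, not_iff_not]
  have hcl := h.closure_eq_cls hp hG hn 1 hn1
  constructor
  · intro hg
    have hab : ⁅a, b⁆ ∈ cls a (p ^ (n - 1)) := by
      rw [mem_cls]
      intro y
      refine ⟨hc (comm_mem_commutator _ _), ?_⟩
      obtain ⟨t, ht1, ht, hta⟩ := exists_t hG h.normal y
      have h1 : y * ⁅a, b⁆ * y⁻¹ = ⁅a, b⁆ ^ t :=
        conj_of_mem hta (hc (comm_mem_commutator a b))
      have h2 : ⁅y, ⁅a, b⁆⁆ = ⁅a, b⁆ ^ (t - 1) := by
        rw [commutatorElement_def y, h1]
        obtain ⟨s, rfl⟩ : ∃ s, t = s + 1 := ⟨t - 1, by omega⟩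
        rw [pow_succ, mul_inv_cancel_right]; simp
      rw [h2, ← pow_mul, ← orderOf_dvd_iff_pow_eq_one, hn]
      obtain ⟨q, hq⟩ := ht
      rw [hq]
      have h3 : p ^ n = p * p ^ (n - 1) := by rw [← pow_succ', Nat.sub_add_cancel hn1]
      rw [h3]
      exact ⟨q, by ring⟩
    have hcomm : ∀ x y : G, QuotientGroup.mk' (cls a (p ^ (n - 1))) x *
        QuotientGroup.mk' (cls a (p ^ (n - 1))) y =
        QuotientGroup.mk' (cls a (p ^ (n - 1))) y *
          QuotientGroup.mk' (cls a (p ^ (n - 1))) x := by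
      intro x y
      exact (comm_mem_iff _ x y).mp (all_comm_mem h _ hab x y)
    have hpow : ∀ x : G, QuotientGroup.mk' (cls a (p ^ (n - 1))) x ^ p = 1 := by
      intro x
      rw [← map_pow]
      apply map_eq_one_of_mem
      rw [← hcl]
      exact Subgroup.subset_closure ⟨x, by rw [pow_one]⟩
    have h4 := Cfsg.Agent.Helper14.frattini_le_ker_of_elementary
      (QuotientGroup.mk' (cls a (p ^ (n - 1)))) hcomm hpow hg
    rwa [QuotientGroup.ker_mk'] at h4
  · intro hg
    rw [← hcl] at hg
    refine (Subgroup.closure_le _).mpr ?_ hg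
    rintro x ⟨y, rfl⟩
    rw [pow_one]
    exact pow_mem_frattini hG y

end Cfsg.Agent.S3883
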