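import Cfsg.Statements.S3884
import Mathlib
import Cfsg.Agent.Helper8.Metacyclic
import Cfsg.Agent.Helper8.Metacyclic2
import Cfsg.Agent.Helper8.Metacyclic3
import Cfsg.Agent.Helper8.Metacyclic5

set_option autoImplicit false
open Cfsg

namespace Cfsg.Agent.S3884
open scoped commutatorElement
open Cfsg.Agent.Helper8.Meta


/-- Let p be an odd prime and G a finite metacyclic p-group (G has a cyclic normal subgroup with cyclic quotient). Then G is the product of two cyclic subgroups with trivial intersection: there are cyclic subgroups A and B with A ∩ B = 1 and |A| · |B| = |G|. -/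
theorem result {G : Type*} [Group G] [Finite G] {p : ℕ} [Fact p.Prime] (hp : p ≠ 2) (hG : IsPGroup p G) (hmc : Cfsg.IsMetacyclic G) : ∃ A B : Subgroup G, IsCyclic ↥A ∧ IsCyclic ↥B ∧ A ⊓ B = ⊥ ∧ Nat.card ↥A * Nat.card ↥B = Nat.card G := by
  have hpp : p.Prime := Fact.out
  obtain ⟨a, b, h⟩ := exists_MC hmc
  haveI := h.normal
  obtain ⟨u, v, i₁, d⟩ := exists_subData hG h (Subgroup.zpowers b)
  have hv : v = 0 := by
    have := d.minv 0 0 (by rw [pow_zero, one_mul, pow_zero, pow_one]; exact Subgroup.mem_zpowers b)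
    omega
  have hidx : (Subgroup.zpowers b).index = p ^ u := by
    rw [d.index hG h, hv, add_zero]
  obtain ⟨k, hk⟩ : ∃ k, orderOf (QuotientGroup.mk' (Subgroup.zpowers a) b) = p ^ k := by
    obtain ⟨m, hm⟩ := hG b
    have h1 : (QuotientGroup.mk' (Subgroup.zpowers a) b) ^ (p ^ m) = 1 := by
      rw [← map_pow, hm, map_one]
    obtain ⟨k, -, hk⟩ := (Nat.dvd_prime_pow hpp).mp (orderOf_dvd_of_pow_eq_one h1)
    exact ⟨k, hk⟩
  have hbk : b ^ (p ^ k) ∈ Subgroup.zpowers a := by
    apply mem_of_map_eq_one (Subgroup.zpowers a)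
    rw [map_pow, ← hk]; exact pow_orderOf_eq_one _
  have hbk' : b ^ (p ^ k) ∈ Subgroup.zpowers (a ^ (p ^ u)) :=
    d.inter _ (pow_mem (Subgroup.mem_zpowers b) _) hbk
  have hint : ∀ j : ℕ, b ^ j ∈ Subgroup.zpowers a → p ^ k ∣ j := by
    intro j hj
    rw [← hk]
    apply orderOf_dvd_of_pow_eq_one
    rw [← map_pow]; exact map_eq_one_of_mem _ hj
  by_cases hku : k ≤ u
  · -- case 1
    have hD : b ^ (p ^ k) ∈ Subgroup.zpowers (a ^ (p ^ k)) := by
      have h1 : a ^ (p ^ u) ∈ Subgroup.zpowers (a ^ (p ^ k)) := by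
        obtain ⟨e, rfl⟩ := Nat.exists_eq_add_of_le hku
        rw [pow_add, pow_mul]; exact Subgroup.npow_mem_zpowers _ _
      exact (Subgroup.zpowers_le.mpr h1) hbk'
    obtain ⟨x, hx⟩ := exists_pow_eq_one_case1 hp hG h.normal k hD
    have hφ : QuotientGroup.mk' (Subgroup.zpowers a) (a ^ x * b) =
        QuotientGroup.mk' (Subgroup.zpowers a) b := by
      rw [map_mul, map_pow, map_eq_one_of_mem _ (Subgroup.mem_zpowers a), one_pow, one_mul]
    refine ⟨Subgroup.zpowers a, Subgroup.zpowers (a ^ x * b), inferInstance, inferInstance, ?_, ?_⟩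
    · rw [eq_bot_iff]
      intro g hg
      obtain ⟨hga, hgb⟩ := Subgroup.mem_inf.mp hg
      obtain ⟨j, rfl⟩ := exists_pow_of_mem_zpowers hgb
      have h1 : (QuotientGroup.mk' (Subgroup.zpowers a) b) ^ j = 1 := by
        have h2 : QuotientGroup.mk' (Subgroup.zpowers a) ((a ^ x * b) ^ j) = 1 :=
          map_eq_one_of_mem _ hga
        rw [map_pow, hφ] at h2
        exact h2
      have h3 : p ^ k ∣ j := by rw [← hk]; exact orderOf_dvd_of_pow_eq_one h1
      obtain ⟨q, rfl⟩ := h3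
      rw [Subgroup.mem_bot, pow_mul, hx, one_pow]
    · rw [Nat.card_zpowers, Nat.card_zpowers, h.card_eq, mul_comm]
      congr 1
      apply Nat.dvd_antisymm
      · rw [hk]; exact orderOf_dvd_of_pow_eq_one hx
      · rw [← hφ]; exact orderOf_map_dvd _ _
  · -- case 2
    rw [not_le] at hku
    have hD : a ^ (p ^ u) ∈ Subgroup.zpowers (b ^ (p ^ (u + 1))) := by
      obtain ⟨j, hj⟩ := exists_pow_of_mem_zpowers d.ha
      have h1 : p ^ k ∣ j := hint j (by rw [hj]; exact pow_mem (Subgroup.mem_zpowers a) _)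
      have h2 : p ^ (u + 1) ∣ j := dvd_trans (pow_dvd_pow p (by omega)) h1
      obtain ⟨q, rfl⟩ := h2
      rw [← hj, pow_mul]; exact Subgroup.npow_mem_zpowers _ _
    obtain ⟨y, hy0, hy⟩ := exists_pow_eq_one_case2 hp hG h.normal u hD
    obtain ⟨t, ht1, ht, hta⟩ := exists_t hG h.normal b
    have hT1 : 1 < t ^ y := Nat.one_lt_pow hy0.ne' ht1
    have hT : p ∣ t ^ y - 1 := by
      have h1 := Nat.sub_dvd_pow_sub_pow t 1 y
      rw [one_pow] at h1
      exact dvd_trans ht h1
    have hF : ∀ N : ℕ, (a * b ^ y) ^ N =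
        a ^ (∑ i ∈ Finset.range N, (t ^ y) ^ i) * b ^ (y * N) := by
      intro N
      rw [pow_mul_formula a (b ^ y) (t ^ y) (conj_pow_iter hta y), ← pow_mul]
    have key : ∀ ν : ℕ, (a * b ^ y) ^ (p ^ ν) ∈ Subgroup.zpowers b → u ≤ ν := by
      intro ν hν
      obtain ⟨f, hnd, hS⟩ := gs_factor hp hT1 hT ν
      rw [hF, hS] at hν
      have h1 : a ^ (p ^ ν * f) ∈ Subgroup.zpowers b := by
        have h2 := mul_mem hν (inv_mem (pow_mem (Subgroup.mem_zpowers b) (y * p ^ ν)))
        rwa [mul_inv_cancel_right] at h2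
      rw [pow_mul] at h1
      exact d.minu ν (mem_of_pow_mem hG _ _ hnd h1)
    refine ⟨Subgroup.zpowers (a * b ^ y), Subgroup.zpowers b, inferInstance, inferInstance, ?_, ?_⟩
    · rw [eq_bot_iff]
      intro g hg
      obtain ⟨hg1, hg2⟩ := Subgroup.mem_inf.mp hg
      obtain ⟨j, rfl⟩ := exists_pow_of_mem_zpowers hg1
      rw [Subgroup.mem_bot]
      by_cases hj0 : j = 0
      · rw [hj0, pow_zero]
      obtain ⟨ν, j₀, hnd, rfl⟩ := Nat.exists_eq_pow_mul_and_not_dvd hj0 p hpp.ne_one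
      rw [pow_mul] at hg2
      have h1 := key ν (mem_of_pow_mem hG _ _ hnd hg2)
      obtain ⟨e, rfl⟩ := Nat.exists_eq_add_of_le h1
      rw [pow_add, mul_assoc, pow_mul, hy, one_pow]
    · rw [Nat.card_zpowers, Nat.card_zpowers]
      have hord : orderOf (a * b ^ y) = p ^ u := by
        obtain ⟨ν, hνle, hν⟩ := (Nat.dvd_prime_pow hpp).mp (orderOf_dvd_of_pow_eq_one hy)
        have h1 : u ≤ ν := key ν (by rw [← hν, pow_orderOf_eq_one]; exact one_mem _)
        rw [hν]; congr 1; omega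
      have h2 := Subgroup.card_mul_index (Subgroup.zpowers b)
      rw [Nat.card_zpowers, hidx] at h2
      rw [hord, mul_comm]; exact h2

end Cfsg.Agent.S3884
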