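import Cfsg.Statements.S3885
import Mathlib
import Cfsg.Agent.Helper8.Metacyclic
import Cfsg.Agent.Helper8.Metacyclic2
import Cfsg.Agent.Helper8.Metacyclic3
import Cfsg.Agent.Helper8.Metacyclic4

set_option autoImplicit false
open Cfsg

namespace Cfsg.Agent.S3885
open scoped commutatorElement
open Cfsg.Agent.Helper8.Meta


/-- Let p be an odd prime and G a finite metacyclic p-group (G has a cyclic normal subgroup with cyclic quotient). Then every abelian subgroup K of G containing the center of G is the center of its own centralizer: K = Z(C_G(K)). -/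
theorem result {G : Type*} [Group G] [Finite G] {p : ℕ} [Fact p.Prime] (hp : p ≠ 2) (hG : IsPGroup p G) (hmc : Cfsg.IsMetacyclic G) (K : Subgroup G) (hK : IsMulCommutative ↥K) (hZ : Subgroup.center G ≤ K) :
    K = Subgroup.centralizer (K : Set G) ⊓ Subgroup.centralizer (Subgroup.centralizer (K : Set G) : Set G) := by
  obtain ⟨a, b, h⟩ := exists_MC hmc
  have cd := h.cd hp hG
  have hKC : K ≤ Subgroup.centralizer (K : Set G) := by
    intro x hx
    rw [Subgroup.mem_centralizer_iff]
    intro y hy
    exact congrArg Subtype.val (hK.is_comm.comm ⟨y, hy⟩ ⟨x, hx⟩)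
  have hKCC : K ≤ Subgroup.centralizer (Subgroup.centralizer (K : Set G) : Set G) := by
    intro x hx
    rw [Subgroup.mem_centralizer_iff]
    intro y hy
    rw [SetLike.mem_coe, Subgroup.mem_centralizer_iff] at hy
    exact (hy x hx).symm
  have hKD : K ≤ Subgroup.centralizer (K : Set G) ⊓
      Subgroup.centralizer (Subgroup.centralizer (K : Set G) : Set G) := le_inf hKC hKCC
  obtain ⟨D, hD⟩ : ∃ D : Subgroup G, D = Subgroup.centralizer (K : Set G) ⊓
      Subgroup.centralizer (Subgroup.centralizer (K : Set G) : Set G) := ⟨_, rfl⟩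
  rw [← hD] at hKD ⊢
  have hCD : Subgroup.centralizer (D : Set G) = Subgroup.centralizer (K : Set G) := by
    apply le_antisymm
    · exact Subgroup.centralizer_le (SetLike.coe_subset_coe.mpr hKD)
    · intro c hc
      rw [Subgroup.mem_centralizer_iff]
      intro d hd
      have hd2 : d ∈ Subgroup.centralizer (Subgroup.centralizer (K : Set G) : Set G) := by
        have hd' : d ∈ D := hd
        rw [hD] at hd'
        exact hd'.2
      rw [Subgroup.mem_centralizer_iff] at hd2
      exact (hd2 c hc).symm
  have h1 := cd K hZ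
  have h2 := cd D (hZ.trans hKD)
  rw [hCD, ← h1] at h2
  have hpos : 0 < Nat.card ↥(Subgroup.centralizer (K : Set G)) := Nat.card_pos
  have h3 : Nat.card ↥D = Nat.card ↥K := Nat.eq_of_mul_eq_mul_right hpos h2
  exact Subgroup.eq_of_le_of_card_ge hKD h3.le

end Cfsg.Agent.S3885
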