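import Cfsg.Statements.S3886
import Mathlib
import Cfsg.Agent.Helper8.Metacyclic
import Cfsg.Agent.Helper8.Metacyclic2
import Cfsg.Agent.Helper8.Metacyclic3
import Cfsg.Agent.Helper8.Metacyclic4
import Cfsg.Agent.S3880

set_option autoImplicit false
open Cfsg

namespace Cfsg.Agent.S3886
open scoped commutatorElement
open Cfsg.Agent.Helper8.Meta


/-- Let p be an odd prime and G a finite metacyclic p-group (G has a cyclic normal subgroup with cyclic quotient). Then the largest value of |R| · |Z(R)| over subgroups R of G is |G : G'|², and the subgroups attaining it (the centrally large subgroups) are exactly the non-abelian subgroups together with the maximal abelian subgroups of G. -/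
theorem result {G : Type*} [Group G] [Finite G] {p : ℕ} [Fact p.Prime] (hp : p ≠ 2) (hG : IsPGroup p G) (hmc : Cfsg.IsMetacyclic G) : Cfsg.maxCentralProduct G = (commutator G).index ^ 2 ∧
    ∀ R : Subgroup G, Cfsg.IsCentrallyLarge R ↔ (¬ IsMulCommutative ↥R ∨ Maximal (fun K : Subgroup G => IsMulCommutative ↥K) R) := by
  have hpp : p.Prime := Fact.out
  obtain ⟨a, b, h⟩ := exists_MC hmc
  obtain ⟨n, hn⟩ : ∃ n, orderOf ⁅a, b⁆ = p ^ n := by
    obtain ⟨k, hk⟩ := hG ⁅a, b⁆
    obtain ⟨m, -, hm⟩ := (Nat.dvd_prime_pow hpp).mp (orderOf_dvd_of_pow_eq_one hk)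
    exact ⟨m, hm⟩
  have hcard : Nat.card (commutator G) = p ^ n := by
    rw [h.commutator_eq hG, Nat.card_zpowers, hn]
  have hB := Subgroup.card_mul_index (commutator G)
  rw [hcard] at hB
  have key := h.comm_iff_card_le hp hG
  have hmaxiff : ∀ R : Subgroup G,
      Maximal (fun K : Subgroup G => IsMulCommutative ↥K) R ↔
        Nat.card ↥R = (commutator G).index :=
    fun R => (Cfsg.Agent.S3880.result hp hG hmc R).2
  obtain ⟨I, hI⟩ : ∃ I, I = (commutator G).index := ⟨_, rfl⟩
  rw [← hI] at hB key hmaxiff ⊢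
  have hval_na : ∀ R : Subgroup G, ¬ IsMulCommutative ↥R →
      Nat.card ↥R * Nat.card ↥(Subgroup.center ↥R) = I ^ 2 := by
    intro R hR
    obtain ⟨w, hw1, hw2, hw3⟩ := h.lemmaM' hp hG hn R
    have hwn : w ≤ n := by
      by_contra hlt
      apply hR
      rw [isMulComm_iff_card_comm, hw2, Nat.sub_eq_zero_of_le (by omega), pow_zero]
    have hA := Subgroup.card_mul_index R
    rw [hw1] at hA
    have hC := Subgroup.card_mul_index (Subgroup.center ↥R)
    rw [hw3] at hC
    have h5 : p ^ (2 * n) = p ^ (2 * (n - w)) * p ^ w * p ^ w := by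
      rw [← pow_add, ← pow_add]; congr 1; omega
    have h6 : Nat.card ↥R * Nat.card ↥(Subgroup.center ↥R) * p ^ (2 * n) =
        I ^ 2 * p ^ (2 * n) := by
      calc Nat.card ↥R * Nat.card ↥(Subgroup.center ↥R) * p ^ (2 * n)
          = (Nat.card ↥R * p ^ w) *
              ((Nat.card ↥(Subgroup.center ↥R) * p ^ (2 * (n - w))) * p ^ w) := by
            rw [h5]; ring
        _ = Nat.card G * Nat.card G := by rw [hC, hA]
        _ = (p ^ n * I) * (p ^ n * I) := by rw [hB]
        _ = I ^ 2 * p ^ (2 * n) := by ring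
    exact Nat.eq_of_mul_eq_mul_right (pow_pos hpp.pos _) h6
  have hval_ab : ∀ R : Subgroup G, IsMulCommutative ↥R →
      Nat.card ↥R * Nat.card ↥(Subgroup.center ↥R) = Nat.card ↥R ^ 2 := by
    intro R hR
    have h1 : Subgroup.center ↥R = ⊤ := by
      rw [eq_top_iff]; intro x _
      rw [Subgroup.mem_center_iff]; intro g; exact hR.is_comm.comm g x
    rw [h1, Subgroup.card_top, sq]
  have hle : ∀ R : Subgroup G, Nat.card ↥R * Nat.card ↥(Subgroup.center ↥R) ≤ I ^ 2 := by
    intro R
    by_cases hR : IsMulCommutative ↥R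
    · rw [hval_ab R hR]; exact Nat.pow_le_pow_left ((key R).mp hR) 2
    · exact (hval_na R hR).le
  have hmax : Cfsg.maxCentralProduct G = I ^ 2 := by
    unfold Cfsg.maxCentralProduct
    apply IsGreatest.csSup_eq
    constructor
    · have hbot : IsMulCommutative ↥(⊥ : Subgroup G) :=
        ⟨⟨fun x y => by rw [Subsingleton.elim x y]⟩⟩
      obtain ⟨M, -, hM⟩ := Finite.exists_le_maximal
        (p := fun K : Subgroup G => IsMulCommutative ↥K) (a := ⊥) hbot
      refine ⟨M, ?_⟩
      rw [hval_ab M hM.prop, (hmaxiff M).mp hM]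
    · rintro k ⟨R, rfl⟩; exact hle R
  refine ⟨hmax, ?_⟩
  intro R
  unfold Cfsg.IsCentrallyLarge
  rw [hmax]
  constructor
  · intro heq
    by_cases hR : IsMulCommutative ↥R
    · right
      rw [hmaxiff R]
      rw [hval_ab R hR] at heq
      exact Nat.pow_left_injective (two_ne_zero) heq
    · left; exact hR
  · rintro (hR | hR)
    · exact hval_na R hR
    · rw [hval_ab R hR.prop, (hmaxiff R).mp hR]

end Cfsg.Agent.S3886
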