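import Cfsg.Statements.S3887
import Mathlib
import Cfsg.Agent.Helper8.Metacyclic
import Cfsg.Agent.Helper8.Metacyclic2
import Cfsg.Agent.Helper8.Metacyclic3
import Cfsg.Agent.Helper8.Metacyclic4

set_option autoImplicit false
open Cfsg

namespace Cfsg.Agent.S3887
open scoped commutatorElement
open Cfsg.Agent.Helper8.Meta


/-- Let p be an odd prime and G a finite metacyclic p-group (G has a cyclic normal subgroup with cyclic quotient). Then a subgroup R of G maximizes |R| · |C_G(R)| over all subgroups of G if and only if R contains the center of G. -/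
theorem result {G : Type*} [Group G] [Finite G] {p : ℕ} [Fact p.Prime] (hp : p ≠ 2) (hG : IsPGroup p G) (hmc : Cfsg.IsMetacyclic G) (R : Subgroup G) : Cfsg.IsCentralizerLarge R ↔ Subgroup.center G ≤ R := by
  have hpp : p.Prime := Fact.out
  obtain ⟨a, b, h⟩ := exists_MC hmc
  have cd := h.cd hp hG
  have hsup : ∀ R : Subgroup G,
      Subgroup.centralizer ((R ⊔ Subgroup.center G : Subgroup G) : Set G) =
        Subgroup.centralizer (R : Set G) := by
    intro R
    apply le_antisymm
    · exact Subgroup.centralizer_le
        (SetLike.coe_subset_coe.mpr (le_sup_left : R ≤ R ⊔ Subgroup.center G))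
    · intro z hz
      rw [Subgroup.mem_centralizer_iff] at hz ⊢
      intro x hx
      have h1 : R ⊔ Subgroup.center G ≤ Subgroup.centralizer {z} := by
        apply sup_le
        · intro r hr; rw [mem_cent_single]; exact (hz r hr).symm
        · intro c hc'; rw [mem_cent_single]; exact (Subgroup.mem_center_iff.mp hc' z)
      have h2 := h1 hx
      rw [mem_cent_single] at h2
      exact h2.symm
  have hle : ∀ R : Subgroup G,
      Nat.card ↥R * Nat.card ↥(Subgroup.centralizer (R : Set G)) ≤
        Nat.card G * Nat.card ↥(Subgroup.center G) := by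
    intro R
    rw [← cd (R ⊔ Subgroup.center G) le_sup_right, hsup R]
    exact Nat.mul_le_mul_right _ (Subgroup.card_le_of_le le_sup_left)
  have hmax : Cfsg.maxCentralizerProduct G = Nat.card G * Nat.card ↥(Subgroup.center G) := by
    unfold Cfsg.maxCentralizerProduct
    apply IsGreatest.csSup_eq
    constructor
    · exact ⟨⊤, cd ⊤ le_top⟩
    · rintro k ⟨R, rfl⟩; exact hle R
  unfold Cfsg.IsCentralizerLarge
  rw [hmax]
  constructor
  · intro heq
    have h1 := cd (R ⊔ Subgroup.center G) le_sup_right
    rw [hsup R, ← heq] at h1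
    have hpos : 0 < Nat.card ↥(Subgroup.centralizer (R : Set G)) := Nat.card_pos
    have h2 : Nat.card ↥(R ⊔ Subgroup.center G : Subgroup G) = Nat.card ↥R :=
      Nat.eq_of_mul_eq_mul_right hpos h1
    have h3 : R = R ⊔ Subgroup.center G := Subgroup.eq_of_le_of_card_ge le_sup_left h2.le
    rw [h3]; exact le_sup_right
  · intro hZ; exact cd R hZ

end Cfsg.Agent.S3887
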