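import Cfsg.Statements.S3903
import Cfsg.Agent.Lead.MaxCent

set_option autoImplicit false
open Cfsg

namespace Cfsg.Agent.S3903

universe u

open Subgroup Cfsg.Agent.Lead.MaxCent
open scoped Pointwise

/-- The quotient by a normal maximal subgroup is commutative. -/
theorem comm_of_normal_coatom {G : Type u} [Group G] (M : Subgroup G) [M.Normal]
    (hM : IsCoatom M) : ∀ a b : G ⧸ M, a * b = b * a := by
  obtain ⟨g, hg⟩ : ∃ g : G, g ∉ M := by
    by_contra hc
    exact hM.1 (eq_top_iff.2 fun g _ => by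
      by_contra hg
      exact hc ⟨g, hg⟩)
  have hsup : zpowers g ⊔ M = ⊤ := by
    rcases hM.le_iff.1 (le_sup_right : M ≤ zpowers g ⊔ M) with h1 | h1
    · exact h1
    · exfalso
      apply hg
      rw [← h1]
      exact Subgroup.mem_sup_left (Subgroup.mem_zpowers g)
  intro a b
  obtain ⟨a, rfl⟩ := QuotientGroup.mk_surjective a
  obtain ⟨b, rfl⟩ := QuotientGroup.mk_surjective b
  obtain ⟨a₁, ha₁, n₁, hn₁, rfl⟩ := (Cfsg.Agent.S0001.mem_sup_normal (zpowers g) M a).1
    (by rw [hsup]; exact mem_top a)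
  obtain ⟨b₁, hb₁, n₂, hn₂, rfl⟩ := (Cfsg.Agent.S0001.mem_sup_normal (zpowers g) M b).1
    (by rw [hsup]; exact mem_top b)
  obtain ⟨i, rfl⟩ := Subgroup.mem_zpowers_iff.1 ha₁
  obtain ⟨j, rfl⟩ := Subgroup.mem_zpowers_iff.1 hb₁
  have e1 : ((n₁ : G) : G ⧸ M) = 1 := (QuotientGroup.eq_one_iff n₁).2 hn₁
  have e2 : ((n₂ : G) : G ⧸ M) = 1 := (QuotientGroup.eq_one_iff n₂).2 hn₂
  simp only [QuotientGroup.mk_mul, QuotientGroup.mk_zpow, e1, e2, mul_one]
  exact (Commute.zpow_zpow_self _ i j).eq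

/-- A normal subgroup of order prime to `p` is solvable when some `p`-subgroup is maximal. -/
theorem fs_solvable {G : Type u} [Group G] [Finite G] {p : ℕ} [Fact p.Prime] (P K : Subgroup G)
    (hP : IsPGroup p P) (hPco : IsCoatom P) [hK : K.Normal] (hcop : (Nat.card K).Coprime p) :
    Group.IsSolvable ↥K := by
  have hp : p.Prime := Fact.out
  by_cases hK1 : Nat.card K = 1
  · haveI : Subsingleton ↥K := (Nat.card_eq_one_iff_unique.1 hK1).1
    infer_instance
  obtain ⟨q, hq, hqK⟩ := Nat.exists_prime_and_dvd hK1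
  haveI : Fact q.Prime := ⟨hq⟩
  letI : MulDistribMulAction ↥P ↥K :=
    MulDistribMulAction.compHom ↥K ((MulAut.conjNormal (H := K)).comp P.subtype)
  have hsmul : ∀ (u : ↥P) (k : ↥K), ((u • k : ↥K) : G) = (u : G) * k * (u : G)⁻¹ :=
    fun u k => MulAut.conjNormal_apply (u : G) k
  have hnd : ¬ p ∣ Nat.card (Sylow q ↥K) := by
    intro hdvd
    obtain ⟨Q⟩ : Nonempty (Sylow q ↥K) := inferInstance
    have h1 : Nat.card (Sylow q ↥K) ∣ Nat.card ↥K :=
      (Q.card_dvd_index).trans (Subgroup.index_dvd_card _)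
    exact (Nat.Prime.coprime_iff_not_dvd hp).1 hcop.symm (hdvd.trans h1)
  have hmod := hP.card_modEq_card_fixedPoints (Sylow q ↥K)
  obtain ⟨Q, hQ⟩ : ∃ Q : Sylow q ↥K, Q ∈ MulAction.fixedPoints ↥P (Sylow q ↥K) := by
    by_contra hc
    haveI : IsEmpty (MulAction.fixedPoints ↥P (Sylow q ↥K)) := ⟨fun Q => hc ⟨Q.1, Q.2⟩⟩
    have h0 : Nat.card (MulAction.fixedPoints ↥P (Sylow q ↥K)) = 0 := Nat.card_of_isEmpty
    rw [h0] at hmod
    exact hnd ((Nat.modEq_zero_iff_dvd).1 hmod)
  have hQfix : ∀ u : ↥P, u • Q = Q := fun u => hQ u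
  obtain ⟨Q₀, hQ₀⟩ : ∃ Q₀ : Subgroup G, Q₀ = (Q : Subgroup ↥K).map K.subtype := ⟨_, rfl⟩
  have hQ₀K : Q₀ ≤ K := by rw [hQ₀]; exact Subgroup.map_subtype_le _
  have hconj : ∀ u ∈ P, ∀ a ∈ Q₀, u * a * u⁻¹ ∈ Q₀ := by
    intro u hu a ha
    rw [hQ₀] at ha ⊢
    obtain ⟨k, hk, rfl⟩ := Subgroup.mem_map.1 ha
    have h1 : (⟨u, hu⟩ : ↥P) • k ∈ ((⟨u, hu⟩ : ↥P) • (Q : Subgroup ↥K)) :=
      Subgroup.smul_mem_pointwise_smul k _ _ hk
    have h2 : (((⟨u, hu⟩ : ↥P) • Q : Sylow q ↥K) : Subgroup ↥K) =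
        (⟨u, hu⟩ : ↥P) • (Q : Subgroup ↥K) := rfl
    rw [← h2, hQfix] at h1
    exact Subgroup.mem_map.2 ⟨_, h1, hsmul ⟨u, hu⟩ k⟩
  have hPle : P ≤ normalizer (Q₀ : Set G) := by
    intro u hu
    rw [Subgroup.mem_set_normalizer_iff]
    intro a
    constructor
    · exact hconj u hu a
    · intro ha
      have h0 := hconj u⁻¹ (inv_mem hu) _ ha
      have e : u⁻¹ * (u * a * u⁻¹) * u⁻¹⁻¹ = a := by group
      rw [e] at h0; exact h0
  have hKP : K ⊓ P = ⊥ := by
    obtain ⟨a, ha⟩ := IsPGroup.iff_card.1 hP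
    have hc : (Nat.card K).Coprime (Nat.card P) := by
      rw [ha]; exact Nat.Coprime.pow_right _ hcop
    exact (Subgroup.disjoint_of_coprime_natCard hc).eq_bot
  have hQne : Q₀ ≠ ⊥ := by
    intro e
    have hQb : (Q : Subgroup ↥K) ≠ ⊥ := Q.ne_bot_of_dvd_card hqK
    apply hQb
    rw [Subgroup.eq_bot_iff_forall]
    intro k hk
    have hmem : (k : G) ∈ Q₀ := by rw [hQ₀]; exact Subgroup.mem_map.2 ⟨k, hk, rfl⟩
    rw [e, Subgroup.mem_bot] at hmem
    exact Subtype.ext hmem
  have hsup : Q₀ ⊔ P = ⊤ := by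
    rcases hPco.le_iff.1 (le_sup_right : P ≤ Q₀ ⊔ P) with h1 | h1
    · exact h1
    · exfalso
      apply hQne
      have hle : Q₀ ≤ P := by rw [← h1]; exact le_sup_left
      rw [eq_bot_iff, ← hKP]
      exact le_inf hQ₀K hle
  have hQn : Q₀.Normal := by
    apply Subgroup.normalizer_eq_top_iff.1
    rw [eq_top_iff, ← hsup]
    exact sup_le Subgroup.le_normalizer hPle
  have hKle : K ≤ Q₀ := by
    intro k hk
    haveI := hQn
    obtain ⟨u, hu, a, ha, rfl⟩ := (Cfsg.Agent.S0001.mem_sup_normal P Q₀ k).1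
      (by rw [sup_comm, hsup]; exact mem_top k)
    have huK : u ∈ K := by
      have h0 := K.mul_mem hk (K.inv_mem (hQ₀K ha))
      simpa using h0
    have hu1 : u = 1 := by
      have h0 : u ∈ K ⊓ P := ⟨huK, hu⟩
      rw [hKP, Subgroup.mem_bot] at h0
      exact h0
    rw [hu1, one_mul]; exact ha
  have hKq : IsPGroup q ↥K := by
    intro k
    have hk : (k : G) ∈ Q₀ := hKle k.2
    rw [hQ₀] at hk
    obtain ⟨k', hk', hkk⟩ := Subgroup.mem_map.1 hk
    have e : k' = k := Subtype.ext hkk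
    rw [e] at hk'
    obtain ⟨j, hj⟩ := Q.isPGroup' ⟨k, hk'⟩
    exact ⟨j, by simpa using congrArg Subtype.val hj⟩
  haveI := hKq.isNilpotent
  infer_instance

/-- Burnside's transfer theorem inside `N`, followed by `fs_solvable`. -/
theorem burnside_step {G : Type u} [Group G] [Finite G] {p : ℕ} [Fact p.Prime] (P : Sylow p G)
    (N : Subgroup G) [hNn : N.Normal]
    (hPco : IsCoatom (P : Subgroup G)) (hPn : ¬ (P : Subgroup G).Normal)
    (hRc : N ⊓ (P : Subgroup G) ≤ centralizer ((P : Subgroup G) : Set G))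
    (hcard : Nat.card ↥N = (P : Subgroup G).index * Nat.card ↥(N ⊓ (P : Subgroup G))) :
    Group.IsSolvable ↥N := by
  have hp : p.Prime := Fact.out
  obtain ⟨R, hR⟩ : ∃ R : Subgroup G, R = N ⊓ (P : Subgroup G) := ⟨_, rfl⟩
  rw [← hR] at hRc hcard
  have hRN : R ≤ N := by rw [hR]; exact inf_le_left
  have hRP : R ≤ (P : Subgroup G) := by rw [hR]; exact inf_le_right
  have hR₀p : IsPGroup p ↥(R.subgroupOf N) := by
    intro r
    obtain ⟨j, hj⟩ := pg_pow P.isPGroup' (hRP (Subgroup.mem_subgroupOf.1 r.2))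
    exact ⟨j, Subtype.ext (Subtype.ext (by simpa using hj))⟩
  have hidx : (R.subgroupOf N).index = (P : Subgroup G).index := by
    have h1 := Subgroup.index_mul_card (R.subgroupOf N)
    have h2 : Nat.card ↥(R.subgroupOf N) = Nat.card ↥R :=
      Nat.card_congr (Subgroup.subgroupOfEquivOfLe hRN).toEquiv
    rw [h2, hcard] at h1
    exact Nat.eq_of_mul_eq_mul_right Nat.card_pos h1
  have hnd : ¬ p ∣ (R.subgroupOf N).index := by rw [hidx]; exact P.not_dvd_index
  obtain ⟨R', hR'⟩ : ∃ R' : Sylow p ↥N, (R' : Subgroup ↥N) = R.subgroupOf N :=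
    ⟨hR₀p.toSylow hnd, rfl⟩
  have hmemR' : ∀ r : ↥N, r ∈ (R' : Subgroup ↥N) ↔ (r : G) ∈ R := fun r => by
    rw [hR']; exact Subgroup.mem_subgroupOf
  have hPnorm : (P : Subgroup G) ≤ normalizer (R : Set G) := by
    have key : ∀ v ∈ (P : Subgroup G), ∀ b ∈ R, v * b * v⁻¹ ∈ R := by
      intro v hv b hb
      rw [hR] at hb ⊢
      exact ⟨hNn.conj_mem b hb.1 v,
        (P : Subgroup G).mul_mem ((P : Subgroup G).mul_mem hv hb.2) ((P : Subgroup G).inv_mem hv)⟩
    intro u hu
    rw [Subgroup.mem_set_normalizer_iff]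
    intro a
    constructor
    · exact key u hu a
    · intro ha
      have h0 := key u⁻¹ (inv_mem hu) _ ha
      have e : u⁻¹ * (u * a * u⁻¹) * u⁻¹⁻¹ = a := by group
      rw [e] at h0; exact h0
  have hNC : normalizer (R' : Set ↥N) ≤ centralizer (R' : Set ↥N) := by
    intro n hn
    rw [Subgroup.mem_set_normalizer_iff] at hn
    have hnG : (n : G) ∈ normalizer (R : Set G) := by
      rw [Subgroup.mem_set_normalizer_iff]
      intro a
      constructor
      · intro ha
        have h0 := (hn ⟨a, hRN ha⟩).1 ((hmemR' _).2 ha)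
        exact (hmemR' _).1 h0
      · intro ha
        have haN : a ∈ N := by
          have h0 := N.mul_mem (N.mul_mem (N.inv_mem n.2) (hRN ha)) n.2
          have e : (n : G)⁻¹ * ((n : G) * a * (n : G)⁻¹) * (n : G) = a := by group
          rw [e] at h0; exact h0
        have h0 := (hn ⟨a, haN⟩).2 ((hmemR' _).2 ha)
        exact (hmemR' _).1 h0
    have hcomm : ∀ a ∈ R, a * (n : G) = (n : G) * a := by
      rcases hPco.le_iff.1 hPnorm with h1 | h1
      · have hRn : R.Normal := Subgroup.normalizer_eq_top_iff.1 h1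
        haveI := hRn
        have hCn : (centralizer (R : Set G)).Normal := inferInstance
        have hPC : (P : Subgroup G) ≤ centralizer (R : Set G) := by
          intro u hu
          rw [Subgroup.mem_centralizer_iff]
          intro a ha
          exact (Subgroup.mem_centralizer_iff.1 (hRc ha) u hu).symm
        rcases hPco.le_iff.1 hPC with h2 | h2
        · intro a ha
          have hmem : (n : G) ∈ centralizer (R : Set G) := by rw [h2]; exact mem_top _
          exact Subgroup.mem_centralizer_iff.1 hmem a ha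
        · exfalso
          apply hPn
          rw [← h2]
          exact hCn
      · have hnP : (n : G) ∈ (P : Subgroup G) := by rw [← h1]; exact hnG
        have hnR : (n : G) ∈ R := by rw [hR]; exact ⟨n.2, hnP⟩
        intro a ha
        exact Subgroup.mem_centralizer_iff.1 (hRc hnR) a (hRP ha)
    rw [Subgroup.mem_centralizer_iff]
    intro r hr
    exact Subtype.ext (hcomm _ ((hmemR' r).1 hr))
  obtain ⟨K, hK⟩ : ∃ K : Subgroup ↥N, K = (MonoidHom.transferSylow R' hNC).ker := ⟨_, rfl⟩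
  have hc : IsComplement' K (R' : Subgroup ↥N) := by
    rw [hK]; exact MonoidHom.ker_transferSylow_isComplement' R' hNC
  have hKcop : ¬ p ∣ Nat.card ↥K := by
    rw [← hc.index_eq_card]
    exact R'.not_dvd_index
  have hKmem : ∀ n : ↥N, n ∈ K ↔ (orderOf n).Coprime p := by
    intro n
    constructor
    · intro hn
      have h1 : orderOf n ∣ Nat.card ↥K := by
        have h0 := orderOf_dvd_natCard (⟨n, hn⟩ : ↥K)
        rwa [Subgroup.orderOf_mk] at h0
      exact Nat.Coprime.coprime_dvd_left h1 ((Nat.Prime.coprime_iff_not_dvd hp).2 hKcop).symm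
    · intro hn
      rw [hK, MonoidHom.mem_ker]
      obtain ⟨j, hj⟩ := (IsPGroup.iff_orderOf.1 R'.isPGroup') (MonoidHom.transferSylow R' hNC n)
      have h1 : p ^ j ∣ orderOf n := by
        have h0 := orderOf_map_dvd (MonoidHom.transferSylow R' hNC) n
        rw [← hj]; exact h0
      have h2 : (p ^ j).Coprime p := Nat.Coprime.coprime_dvd_left h1 hn
      have hj0 : j = 0 := by
        by_contra hj0
        have h3 : p ∣ p ^ j := dvd_pow_self p hj0
        have h4 := Nat.Coprime.eq_one_of_dvd (Nat.Coprime.coprime_dvd_left h3 h2) dvd_rfl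
        exact hp.one_lt.ne' h4
      rw [hj0, pow_zero] at hj
      exact orderOf_eq_one_iff.1 hj
  obtain ⟨K₀, hK₀⟩ : ∃ K₀ : Subgroup G, K₀ = K.map N.subtype := ⟨_, rfl⟩
  have hK₀n : K₀.Normal := by
    constructor
    intro a ha g
    rw [hK₀] at ha ⊢
    obtain ⟨k, hk, rfl⟩ := Subgroup.mem_map.1 ha
    have hmemN : g * (k : G) * g⁻¹ ∈ N := hNn.conj_mem _ k.2 g
    refine Subgroup.mem_map.2 ⟨⟨g * (k : G) * g⁻¹, hmemN⟩, ?_, rfl⟩
    rw [hKmem]
    have e : orderOf (⟨g * (k : G) * g⁻¹, hmemN⟩ : ↥N) = orderOf k := by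
      rw [Subgroup.orderOf_mk, ← Subgroup.orderOf_coe k]
      exact orderOf_injective (MulAut.conj g).toMonoidHom (MulAut.conj g).injective (k : G)
    rw [e]
    exact (hKmem k).1 hk
  have hK₀card : (Nat.card ↥K₀).Coprime p := by
    rw [hK₀, Subgroup.card_map_of_injective N.subtype_injective]
    exact ((Nat.Prime.coprime_iff_not_dvd hp).2 hKcop).symm
  haveI := hK₀n
  have hK₀s : Group.IsSolvable ↥K₀ :=
    fs_solvable (P : Subgroup G) K₀ P.isPGroup' hPco hK₀card
  haveI hKs : Group.IsSolvable ↥K := by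
    have e : ↥K ≃* ↥(K.map N.subtype) :=
      Subgroup.equivMapOfInjective K N.subtype N.subtype_injective
    rw [hK₀] at hK₀s
    haveI := hK₀s
    exact Group.isSolvable_of_isSolvable_injective (f := e.toMonoidHom) e.injective
  haveI : Group.IsSolvable ↥R' := by
    haveI := R'.isPGroup'.isNilpotent
    exact (inferInstance : Group.IsSolvable ↥(R' : Subgroup ↥N))
  exact Group.isSolvable_of_ker_le_range K.subtype (MonoidHom.transferSylow R' hNC)
    (by rw [Subgroup.range_subtype]; exact hK.ge)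

/-- For `y ∉ N` of `p`-power order the centralizer is a Sylow `p`-subgroup. -/
theorem sylow_of_not_mem {G : Type u} [Group G] [Finite G] (N : Subgroup G) [N.Normal]
    (h : ∀ x : G, x ∉ N → IsPrimePow (orderOf x) ∧ IsCoatom (centralizer ({x} : Set G)))
    (hns : ¬ Group.IsSolvable ↥N) {y : G} (hy : y ∉ N) {p : ℕ} (hp : p.Prime) {k : ℕ}
    (hyo : orderOf y = p ^ k) :
    ∃ S : Sylow p G, (S : Subgroup G) = centralizer ({y} : Set G) := by
  haveI : Fact p.Prime := ⟨hp⟩
  have hy1 : y ≠ 1 := by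
    rintro rfl
    exact hy (one_mem N)
  have hk0 : k ≠ 0 := by
    rintro rfl
    rw [pow_zero] at hyo
    exact hy1 (orderOf_eq_one_iff.1 hyo)
  have hM : IsPGroup p ↥(centralizer ({y} : Set G)) := by
    by_contra hP
    have hex : ∃ g ∈ centralizer ({y} : Set G), ∃ r : ℕ, r.Prime ∧ r ≠ p ∧ r ∣ orderOf g := by
      by_contra hcon
      apply hP
      intro g
      have hall : ∀ {d : ℕ}, d.Prime → d ∣ orderOf (g : G) → d = p := by
        intro d hd hdg
        by_contra hne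
        exact hcon ⟨g, g.2, d, hd, hne, hdg⟩
      have hpow := Nat.eq_prime_pow_of_unique_prime_dvd (orderOf_pos (g : G)).ne' hall
      refine ⟨(orderOf (g : G)).primeFactorsList.length, ?_⟩
      have e : (g : G) ^ (p ^ (orderOf (g : G)).primeFactorsList.length) = 1 := by
        rw [← hpow]; exact pow_orderOf_eq_one _
      exact Subtype.ext (by rw [Subgroup.coe_pow]; exact e)
    obtain ⟨g, hg, r, hr, hrp, hrg⟩ := hex
    obtain ⟨m, hm⟩ : ∃ m : G, m = g ^ (orderOf g / r) := ⟨_, rfl⟩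
    have hmo : orderOf m = r := by
      rw [hm]; exact orderOf_pow_orderOf_div (orderOf_pos g).ne' hrg
    have hmM : m ∈ centralizer ({y} : Set G) := by rw [hm]; exact pow_mem hg _
    have hcomm : Commute y m := (memC.1 hmM).symm
    have hcop : (orderOf y).Coprime (orderOf m) := by
      rw [hyo, hmo]; exact Nat.Coprime.pow_left _ ((Nat.coprime_primes hp hr).2 (Ne.symm hrp))
    have hord : orderOf (y * m) = p ^ k * r := by
      rw [hcomm.orderOf_mul_eq_mul_orderOf_of_coprime hcop, hyo, hmo]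
    by_cases hym : y * m ∈ N
    · apply hy
      have h1 : (y * m) ^ orderOf m ∈ N := pow_mem hym _
      rw [hcomm.mul_pow, pow_orderOf_eq_one, mul_one] at h1
      have h1lt : 1 < orderOf y := by
        have h0 := orderOf_pos y
        have h00 : orderOf y ≠ 1 := fun e => hy1 (orderOf_eq_one_iff.1 e)
        omega
      obtain ⟨u, -, hu⟩ := Nat.exists_mul_mod_eq_one_of_coprime hcop.symm h1lt
      have h2 : (y ^ orderOf m) ^ u ∈ N := pow_mem h1 u
      rw [← pow_mul, ← pow_mod_orderOf, hu, pow_one] at h2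
      exact h2
    · obtain ⟨t, j, ht, hj, htj⟩ := (isPrimePow_nat_iff _).1 (h _ hym).1
      rw [hord] at htj
      have h1 : p ∣ t ^ j := by rw [htj]; exact Dvd.dvd.mul_right (dvd_pow_self p hk0) r
      have h2 : r ∣ t ^ j := by rw [htj]; exact Dvd.intro_left _ rfl
      have e1 : p = t := (Nat.prime_dvd_prime_iff_eq hp ht).1 (hp.dvd_of_dvd_pow h1)
      have e2 : r = t := (Nat.prime_dvd_prime_iff_eq hr ht).1 (hr.dvd_of_dvd_pow h2)
      exact hrp (e2.trans e1.symm)
  obtain ⟨S, hS⟩ := hM.exists_le_sylow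
  rcases (h y hy).2.le_iff.1 hS with h1 | h1
  · exfalso
    apply hns
    have hNp : IsPGroup p ↥N := by
      intro n
      obtain ⟨j, hj⟩ := pg_pow S.isPGroup' (by rw [h1]; exact mem_top (n : G))
      exact ⟨j, Subtype.ext (by simpa using hj)⟩
    haveI := hNp.isNilpotent
    infer_instance
  · exact ⟨S, h1⟩

/-- Let N be a proper normal subgroup of the finite group G such that every element x of G outside N has prime power order and has centralizer C_G(x) a maximal subgroup of G. Then N is solvable. -/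
theorem result {G : Type*} [Group G] [Finite G] (N : Subgroup G) [N.Normal] (hN : N ≠ ⊤)
    (h : ∀ x : G, x ∉ N → IsPrimePow (orderOf x) ∧ IsCoatom (Subgroup.centralizer ({x} : Set G))) : Group.IsSolvable ↥N := by
  by_contra hns
  have hNn : N.Normal := inferInstance
  obtain ⟨x, hx⟩ : ∃ x : G, x ∉ N := by
    by_contra hc
    exact hN (eq_top_iff.2 fun g _ => by
      by_contra hg
      exact hc ⟨g, hg⟩)
  obtain ⟨p, k, hp, hk, hpk⟩ := (isPrimePow_nat_iff _).1 (h x hx).1
  haveI : Fact p.Prime := ⟨hp⟩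
  obtain ⟨P, hPx⟩ := sylow_of_not_mem N h hns hx hp hpk.symm
  have hPco : IsCoatom (P : Subgroup G) := by rw [hPx]; exact (h x hx).2
  have hxP : x ∈ (P : Subgroup G) := by rw [hPx]; exact memC.2 rfl
  have hPcomm : ∀ u ∈ (P : Subgroup G), u * x = x * u :=
    fun u hu => memC.1 (by rw [← hPx]; exact hu)
  have hNP : ¬ N ≤ (P : Subgroup G) := by
    intro hle
    apply hns
    have hNp : IsPGroup p ↥N := by
      intro n
      obtain ⟨j, hj⟩ := pg_pow P.isPGroup' (hle n.2)
      exact ⟨j, Subtype.ext (by simpa using hj)⟩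
    haveI := hNp.isNilpotent
    infer_instance
  have hsup : (P : Subgroup G) ⊔ N = ⊤ := by
    rcases hPco.le_iff.1 (le_sup_left : (P : Subgroup G) ≤ (P : Subgroup G) ⊔ N) with h1 | h1
    · exact h1
    · exfalso
      apply hNP
      rw [← h1]
      exact le_sup_right
  have hPn : ¬ (P : Subgroup G).Normal := by
    intro hn
    apply hns
    haveI := hn
    haveI : Group.IsSolvable ↥(P : Subgroup G) := by
      haveI := P.isPGroup'.isNilpotent
      infer_instance
    haveI : Group.IsSolvable (G ⧸ (P : Subgroup G)) :=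
      Group.isSolvable_of_comm (comm_of_normal_coatom _ hPco)
    haveI : Group.IsSolvable G :=
      Group.isSolvable_of_ker_le_range (P : Subgroup G).subtype
        (QuotientGroup.mk' (P : Subgroup G)) (by simp)
    infer_instance
  have hT : ∀ g : G, x⁻¹ * g * x * g⁻¹ ∈ N := by
    intro g
    obtain ⟨u, hu, n₀, hn₀, rfl⟩ := (Cfsg.Agent.S0001.mem_sup_normal (P : Subgroup G) N g).1
      (by rw [hsup]; exact mem_top g)
    rw [← QuotientGroup.eq_one_iff]
    have e0 : ((n₀ : G) : G ⧸ N) = 1 := (QuotientGroup.eq_one_iff n₀).2 hn₀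
    have hc : ((u : G) : G ⧸ N) * (x : G ⧸ N) = (x : G ⧸ N) * (u : G ⧸ N) := by
      rw [← QuotientGroup.mk_mul, ← QuotientGroup.mk_mul, hPcomm u hu]
    simp only [QuotientGroup.mk_mul, QuotientGroup.mk_inv, e0, mul_one]
    calc ((x : G ⧸ N))⁻¹ * (u : G ⧸ N) * (x : G ⧸ N) * ((u : G ⧸ N))⁻¹
        = ((x : G ⧸ N))⁻¹ * ((u : G ⧸ N) * (x : G ⧸ N)) * ((u : G ⧸ N))⁻¹ := by group
      _ = ((x : G ⧸ N))⁻¹ * ((x : G ⧸ N) * (u : G ⧸ N)) * ((u : G ⧸ N))⁻¹ := by rw [hc]
      _ = 1 := by group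
  have hmkx : (x : G ⧸ N) ≠ 1 := fun e => hx ((QuotientGroup.eq_one_iff x).1 e)
  have hmkxp : (x : G ⧸ N) ^ p ^ k = 1 := by
    rw [← QuotientGroup.mk_pow, hpk, pow_orderOf_eq_one]; rfl
  have hex : ∀ n : ↥N, ∃ g : G, ∀ u : G, u ∈ (P : Subgroup G) ↔
      u * (g * (x * (n : G)) * g⁻¹) = (g * (x * (n : G)) * g⁻¹) * u := by
    intro n
    have hw : x * (n : G) ∉ N := fun hmem => hx (by
      have h0 := N.mul_mem hmem (N.inv_mem n.2)
      simpa using h0)
    obtain ⟨r, j, hr, hj, hrj⟩ := (isPrimePow_nat_iff _).1 (h _ hw).1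
    have hrp : p = r := by
      have h1 : (x : G ⧸ N) ^ r ^ j = 1 := by
        have e : ((x * (n : G) : G) : G ⧸ N) = (x : G ⧸ N) := by
          rw [QuotientGroup.mk_mul, (QuotientGroup.eq_one_iff (n : G)).2 n.2, mul_one]
        rw [← e, ← QuotientGroup.mk_pow, hrj, pow_orderOf_eq_one]; rfl
      exact prime_eq hp hr hmkx hmkxp h1
    subst hrp
    obtain ⟨S, hS⟩ := sylow_of_not_mem N h hns hw hp hrj.symm
    obtain ⟨g, hg⟩ := MulAction.exists_smul_eq G S P
    refine ⟨g, fun u => ?_⟩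
    have e1 : u ∈ (P : Subgroup G) ↔ g⁻¹ * u * g ∈ (S : Subgroup G) := by
      rw [← hg, Sylow.coe_subgroup_smul, Cfsg.Agent.Helper1.mem_conj_smul_iff]
    rw [e1, hS, memC]
    constructor
    · intro hc
      calc u * (g * (x * (n : G)) * g⁻¹) = g * ((g⁻¹ * u * g) * (x * (n : G))) * g⁻¹ := by group
        _ = g * ((x * (n : G)) * (g⁻¹ * u * g)) * g⁻¹ := by rw [hc]
        _ = g * (x * (n : G)) * g⁻¹ * u := by group
    · intro hc
      calc g⁻¹ * u * g * (x * (n : G)) = g⁻¹ * (u * (g * (x * (n : G)) * g⁻¹)) * g := by group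
        _ = g⁻¹ * ((g * (x * (n : G)) * g⁻¹) * u) * g := by rw [hc]
        _ = x * (n : G) * (g⁻¹ * u * g) := by group
  choose gf hgf using hex
  obtain ⟨Zp, hZp⟩ : ∃ Zp : Subgroup G,
      Zp = ((P : Subgroup G) ⊓ centralizer ((P : Subgroup G) : Set G)) ⊓ N := ⟨_, rfl⟩
  have hmemZ : ∀ n : ↥N, x⁻¹ * (gf n * (x * (n : G)) * (gf n)⁻¹) ∈ Zp := by
    intro n
    have hyP : gf n * (x * (n : G)) * (gf n)⁻¹ ∈ (P : Subgroup G) := (hgf n _).2 rfl
    rw [hZp]
    refine ⟨⟨(P : Subgroup G).mul_mem ((P : Subgroup G).inv_mem hxP) hyP, ?_⟩, ?_⟩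
    · refine Subgroup.mem_centralizer_iff.2 ?_
      intro u hu
      have c1 : Commute u x := hPcomm u hu
      have c2 : Commute u (gf n * (x * (n : G)) * (gf n)⁻¹) := (hgf n u).1 hu
      exact (c1.inv_right.mul_right c2).eq
    · have e : x⁻¹ * (gf n * (x * (n : G)) * (gf n)⁻¹) =
          (x⁻¹ * gf n * x * (gf n)⁻¹) * (gf n * (n : G) * (gf n)⁻¹) := by group
      rw [e]
      exact N.mul_mem (hT (gf n)) (hNn.conj_mem _ n.2 _)
  obtain ⟨f, hf1, hf2⟩ : ∃ f : ↥N → (G ⧸ (P : Subgroup G)) × ↥Zp,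
      (∀ n, (f n).1 = (QuotientGroup.mk (gf n)⁻¹ : G ⧸ (P : Subgroup G))) ∧
      (∀ n, ((f n).2 : G) = x⁻¹ * (gf n * (x * (n : G)) * (gf n)⁻¹)) :=
    ⟨fun n => (QuotientGroup.mk (gf n)⁻¹, ⟨_, hmemZ n⟩), fun n => rfl, fun n => rfl⟩
  have hinj : Function.Injective f := by
    intro n n' hnn
    have h1 : (QuotientGroup.mk (gf n)⁻¹ : G ⧸ (P : Subgroup G)) = QuotientGroup.mk (gf n')⁻¹ := by
      rw [← hf1 n, ← hf1 n', hnn]
    have h2 : x⁻¹ * (gf n * (x * (n : G)) * (gf n)⁻¹) =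
        x⁻¹ * (gf n' * (x * (n' : G)) * (gf n')⁻¹) := by
      rw [← hf2 n, ← hf2 n', hnn]
    have hz : gf n * (x * (n : G)) * (gf n)⁻¹ = gf n' * (x * (n' : G)) * (gf n')⁻¹ :=
      mul_left_cancel h2
    have hu : gf n * (gf n')⁻¹ ∈ (P : Subgroup G) := by
      have h0 := QuotientGroup.eq.1 h1
      simpa using h0
    have hcomm := (hgf n _).1 hu
    have e1 : (gf n')⁻¹ * (gf n * (x * (n : G)) * (gf n)⁻¹) * gf n' = x * (n : G) := by
      calc (gf n')⁻¹ * (gf n * (x * (n : G)) * (gf n)⁻¹) * gf n'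
          = (gf n)⁻¹ * ((gf n * (gf n')⁻¹) * (gf n * (x * (n : G)) * (gf n)⁻¹)) * gf n' := by
            group
        _ = (gf n)⁻¹ * ((gf n * (x * (n : G)) * (gf n)⁻¹) * (gf n * (gf n')⁻¹)) * gf n' := by
            rw [hcomm]
        _ = x * (n : G) := by group
    have e2 : (gf n')⁻¹ * (gf n * (x * (n : G)) * (gf n)⁻¹) * gf n' = x * (n' : G) := by
      rw [hz]; group
    have e3 : x * (n : G) = x * (n' : G) := e1.symm.trans e2
    exact Subtype.ext (mul_left_cancel e3)
  have hle1 : Nat.card ↥N ≤ (P : Subgroup G).index * Nat.card ↥Zp := by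
    have h0 := Nat.card_le_card_of_injective f hinj
    rw [Nat.card_prod, ← Subgroup.index_eq_card] at h0
    exact h0
  have hc3 : Nat.card ↥(N ⊓ (P : Subgroup G)) * N.index = Nat.card ↥(P : Subgroup G) := by
    have h1 := Subgroup.relIndex_mul_relIndex (⊥ : Subgroup G) (N ⊓ (P : Subgroup G))
      (P : Subgroup G) bot_le inf_le_right
    rw [Subgroup.relIndex_bot_left, Subgroup.relIndex_bot_left, Subgroup.inf_relIndex_right,
      ← Subgroup.relIndex_sup_right, hsup, Subgroup.relIndex_top_right] at h1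
    exact h1
  have hc4 := Subgroup.card_mul_index N
  have hc5 := Subgroup.index_mul_card (P : Subgroup G)
  have hNi : 0 < N.index := Nat.pos_of_ne_zero Subgroup.index_ne_zero_of_finite
  have hPi : 0 < (P : Subgroup G).index := Nat.pos_of_ne_zero Subgroup.index_ne_zero_of_finite
  have hkey : (P : Subgroup G).index * (Nat.card ↥(N ⊓ (P : Subgroup G)) * N.index) =
      Nat.card ↥N * N.index := by rw [hc3, hc5, hc4]
  have hZle : Zp ≤ N ⊓ (P : Subgroup G) := by
    rw [hZp]
    intro z hz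
    exact ⟨hz.2, hz.1.1⟩
  have hcard : Nat.card ↥(N ⊓ (P : Subgroup G)) ≤ Nat.card ↥Zp := by
    have h2 : Nat.card ↥N * N.index ≤ (P : Subgroup G).index * Nat.card ↥Zp * N.index :=
      Nat.mul_le_mul_right _ hle1
    have h3 : (P : Subgroup G).index * N.index * Nat.card ↥(N ⊓ (P : Subgroup G)) ≤
        (P : Subgroup G).index * N.index * Nat.card ↥Zp := by
      calc (P : Subgroup G).index * N.index * Nat.card ↥(N ⊓ (P : Subgroup G))
          = (P : Subgroup G).index * (Nat.card ↥(N ⊓ (P : Subgroup G)) * N.index) := by ring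
        _ = Nat.card ↥N * N.index := hkey
        _ ≤ (P : Subgroup G).index * Nat.card ↥Zp * N.index := h2
        _ = (P : Subgroup G).index * N.index * Nat.card ↥Zp := by ring
    exact Nat.le_of_mul_le_mul_left h3 (Nat.mul_pos hPi hNi)
  have hZeq : Zp = N ⊓ (P : Subgroup G) := Subgroup.eq_of_le_of_card_ge hZle hcard
  have hRc : N ⊓ (P : Subgroup G) ≤ centralizer ((P : Subgroup G) : Set G) := by
    rw [← hZeq, hZp]
    intro z hz
    exact hz.1.2
  have hcardN : Nat.card ↥N = (P : Subgroup G).index * Nat.card ↥(N ⊓ (P : Subgroup G)) := by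
    apply Nat.eq_of_mul_eq_mul_right hNi
    rw [← hkey]; ring
  exact hns (burnside_step P N hPco hPn hRc hcardN)

end Cfsg.Agent.S3903
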