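import Cfsg.Statements.S3904
import Cfsg.Agent.Lead.MaxCent

set_option autoImplicit false
open Cfsg

namespace Cfsg.Agent.S3904

universe u

open Subgroup Cfsg.Agent.Lead.MaxCent

/-- A normal maximal subgroup has prime "exponent index". -/
theorem coatom_pow {H : Type u} [Group H] [Finite H] (M : Subgroup H) [M.Normal]
    (hM : IsCoatom M) : ∃ p : ℕ, p.Prime ∧ ∀ g : H, g ^ p ∈ M := by
  obtain ⟨g, hg⟩ : ∃ g : H, g ∉ M := by
    by_contra hc
    exact hM.1 (eq_top_iff.2 fun g _ => by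
      by_contra hg
      exact hc ⟨g, hg⟩)
  have hg1 : (g : H ⧸ M) ≠ 1 := fun e => hg ((QuotientGroup.eq_one_iff g).1 e)
  have hn1 : orderOf (g : H ⧸ M) ≠ 1 := fun e => hg1 (orderOf_eq_one_iff.1 e)
  obtain ⟨p, hp, hpn⟩ := Nat.exists_prime_and_dvd hn1
  obtain ⟨g', hg'⟩ : ∃ g' : H, g' = g ^ (orderOf (g : H ⧸ M) / p) := ⟨_, rfl⟩
  have ho : orderOf (g' : H ⧸ M) = p := by
    rw [hg', QuotientGroup.mk_pow]
    exact orderOf_pow_orderOf_div (orderOf_pos _).ne' hpn
  have hg'M : g' ∉ M := by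
    intro hmem
    have e : (g' : H ⧸ M) = 1 := (QuotientGroup.eq_one_iff g').2 hmem
    rw [e, orderOf_one] at ho
    exact hp.one_lt.ne ho
  have hsup : zpowers g' ⊔ M = ⊤ := by
    rcases hM.le_iff.1 (le_sup_right : M ≤ zpowers g' ⊔ M) with h1 | h1
    · exact h1
    · exfalso
      apply hg'M
      rw [← h1]
      exact Subgroup.mem_sup_left (Subgroup.mem_zpowers g')
  refine ⟨p, hp, fun a => ?_⟩
  obtain ⟨a₁, ha₁, m, hm, rfl⟩ := (Cfsg.Agent.S0001.mem_sup_normal (zpowers g') M a).1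
    (by rw [hsup]; exact mem_top a)
  obtain ⟨i, rfl⟩ := Subgroup.mem_zpowers_iff.1 ha₁
  have e0 : ((g' : H ⧸ M)) ^ p = 1 := by rw [← ho]; exact pow_orderOf_eq_one _
  rw [← QuotientGroup.eq_one_iff, QuotientGroup.mk_pow, QuotientGroup.mk_mul,
    (QuotientGroup.eq_one_iff m).2 hm, mul_one, QuotientGroup.mk_zpow, ← zpow_natCast,
    ← zpow_mul, mul_comm, zpow_mul, zpow_natCast, e0, one_zpow]

/-- The case where the central quotient has a nontrivial centre. -/
theorem case_central {G : Type u} [Group G] [Finite G]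
    (h : ∀ x : G, x ∉ center G → IsCoatom (centralizer ({x} : Set G)))
    (hZ : center (G ⧸ center G) ≠ ⊥) :
    ∃ p : ℕ, p.Prime ∧ (∀ a b : G ⧸ center G, a * b = b * a) ∧
      ∀ a : G ⧸ center G, a ^ p = 1 := by
  have K1 : ∀ y : G, (y : G ⧸ center G) ∈ center (G ⧸ center G) →
      ∀ g : G, g * y * g⁻¹ * y⁻¹ ∈ center G := by
    intro y hy g
    rw [← QuotientGroup.eq_one_iff]
    have e := Subgroup.mem_center_iff.1 hy (g : G ⧸ center G)
    simp only [QuotientGroup.mk_mul, QuotientGroup.mk_inv]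
    rw [e]; group
  obtain ⟨q₀, hq₀, hq₀1⟩ : ∃ q ∈ center (G ⧸ center G), q ≠ 1 := by
    by_contra hc
    apply hZ
    rw [Subgroup.eq_bot_iff_forall]
    intro q hq
    by_contra hq1
    exact hc ⟨q, hq, hq1⟩
  obtain ⟨x, rfl⟩ := QuotientGroup.mk_surjective q₀
  have hxZ : x ∉ center G := fun hx => hq₀1 ((QuotientGroup.eq_one_iff x).2 hx)
  have step1 : ∀ g : G, g ∉ centralizer ({x} : Set G) →
      (g : G ⧸ center G) ∈ center (G ⧸ center G) := by
    intro g hg
    have hgZ : g ∉ center G := by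
      intro hgz
      apply hg
      rw [memC]
      exact (Subgroup.mem_center_iff.1 hgz x).symm
    have hK := h g hgZ
    have hxK : x ∉ centralizer ({g} : Set G) := by
      intro hxg
      apply hg
      rw [memC] at hxg ⊢
      exact hxg.symm
    obtain ⟨c, hc, hcz⟩ : ∃ c, c ∈ center G ∧ x⁻¹ * g * x = c * g := by
      refine ⟨x⁻¹ * g * x * g⁻¹, ?_, by group⟩
      have h0 := K1 x hq₀ (x⁻¹ * g)
      have e : x⁻¹ * g * x * (x⁻¹ * g)⁻¹ * x⁻¹ = x⁻¹ * g * x * g⁻¹ := by group
      rw [e] at h0; exact h0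
    have hnorm : x ∈ normalizer ((centralizer ({g} : Set G) : Subgroup G) : Set G) := by
      rw [Subgroup.mem_set_normalizer_iff]
      intro k
      show k ∈ centralizer ({g} : Set G) ↔ x * k * x⁻¹ ∈ centralizer ({g} : Set G)
      rw [memC, memC]
      have ec : k * c = c * k := Subgroup.mem_center_iff.1 hc k
      constructor
      · intro hk
        calc x * k * x⁻¹ * g = x * (k * (x⁻¹ * g * x)) * x⁻¹ := by group
          _ = x * (k * (c * g)) * x⁻¹ := by rw [hcz]
          _ = x * (c * (k * g)) * x⁻¹ := by rw [← mul_assoc k c g, ec, mul_assoc c k g]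
          _ = x * (c * (g * k)) * x⁻¹ := by rw [hk]
          _ = x * ((c * g) * k) * x⁻¹ := by rw [mul_assoc c g k]
          _ = x * ((x⁻¹ * g * x) * k) * x⁻¹ := by rw [hcz]
          _ = g * (x * k * x⁻¹) := by group
      · intro hk
        have h1 : k * (x⁻¹ * g * x) = (x⁻¹ * g * x) * k := by
          calc k * (x⁻¹ * g * x) = x⁻¹ * (x * k * x⁻¹ * g) * x := by group
            _ = x⁻¹ * (g * (x * k * x⁻¹)) * x := by rw [hk]
            _ = (x⁻¹ * g * x) * k := by group
        rw [hcz] at h1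
        have h2 : c * (k * g) = c * (g * k) := by
          rw [← mul_assoc c k g, ← ec, mul_assoc k c g, h1, mul_assoc c g k]
        exact mul_left_cancel h2
    have hKn : (centralizer ({g} : Set G)).Normal := by
      rcases hK.le_iff.1 Subgroup.le_normalizer with h1 | h1
      · exact Subgroup.normalizer_eq_top_iff.1 h1
      · exfalso
        apply hxK
        rw [← h1]
        exact hnorm
    have hsup : zpowers x ⊔ centralizer ({g} : Set G) = ⊤ := by
      rcases hK.le_iff.1 (le_sup_right : centralizer ({g} : Set G) ≤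
        zpowers x ⊔ centralizer ({g} : Set G)) with h1 | h1
      · exact h1
      · exfalso
        apply hxK
        rw [← h1]
        exact Subgroup.mem_sup_left (Subgroup.mem_zpowers x)
    rw [Subgroup.mem_center_iff]
    intro q
    obtain ⟨a, rfl⟩ := QuotientGroup.mk_surjective q
    haveI := hKn
    obtain ⟨a₁, ha₁, k, hk, rfl⟩ :=
      (Cfsg.Agent.S0001.mem_sup_normal (zpowers x) (centralizer ({g} : Set G)) a).1
        (by rw [hsup]; exact mem_top a)
    obtain ⟨i, rfl⟩ := Subgroup.mem_zpowers_iff.1 ha₁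
    have c1 : Commute ((x ^ i : G) : G ⧸ center G) (g : G ⧸ center G) := by
      rw [QuotientGroup.mk_zpow]
      exact ((show Commute (g : G ⧸ center G) (x : G ⧸ center G) from
        (Subgroup.mem_center_iff.1 hq₀ _)).zpow_right i).symm
    have e2 : k * g = g * k := memC.1 hk
    have c2 : Commute ((k : G) : G ⧸ center G) (g : G ⧸ center G) := by
      show ((k : G) : G ⧸ center G) * (g : G ⧸ center G) = (g : G ⧸ center G) * (k : G ⧸ center G)
      rw [← QuotientGroup.mk_mul, ← QuotientGroup.mk_mul, e2]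
    rw [QuotientGroup.mk_mul]
    exact (c1.mul_left c2).eq
  have hQab : ∀ a b : G ⧸ center G, a * b = b * a := by
    obtain ⟨g₀, hg₀⟩ : ∃ g : G, g ∉ centralizer ({x} : Set G) := by
      by_contra hc
      exact (h x hxZ).1 (eq_top_iff.2 fun g _ => by
        by_contra hg
        exact hc ⟨g, hg⟩)
    have hall : ∀ m : G, (m : G ⧸ center G) ∈ center (G ⧸ center G) := by
      intro m
      by_cases hm : m ∈ centralizer ({x} : Set G)
      · have h1 : g₀ * m ∉ centralizer ({x} : Set G) := by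
          intro hmem
          apply hg₀
          have h0 := mul_mem hmem (inv_mem hm)
          simpa using h0
        have h2 := step1 _ h1
        have h3 := step1 _ hg₀
        have e : (m : G ⧸ center G) =
            (g₀ : G ⧸ center G)⁻¹ * ((g₀ * m : G) : G ⧸ center G) := by
          rw [QuotientGroup.mk_mul]; group
        rw [e]
        exact mul_mem (inv_mem h3) h2
      · exact step1 m hm
    intro a b
    obtain ⟨a, rfl⟩ := QuotientGroup.mk_surjective a
    exact (Subgroup.mem_center_iff.1 (hall a) b).symm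
  have step3 : ∀ y : G, y ∉ center G → ∃ p : ℕ, p.Prime ∧ (y : G ⧸ center G) ^ p = 1 := by
    intro y hy
    have hcen : ∀ g c : G, g * c * g⁻¹ * c⁻¹ ∈ center G := fun g c => by
      rw [← QuotientGroup.eq_one_iff]
      simp only [QuotientGroup.mk_mul, QuotientGroup.mk_inv]
      rw [hQab (g : G ⧸ center G) (c : G ⧸ center G)]; group
    haveI hCn : (centralizer ({y} : Set G)).Normal := by
      constructor
      intro c hc g
      have e : g * c * g⁻¹ = (g * c * g⁻¹ * c⁻¹) * c := by group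
      rw [e]
      exact mul_mem (Subgroup.center_le_centralizer _ (hcen g c)) hc
    obtain ⟨p, hp, hpow⟩ := coatom_pow (centralizer ({y} : Set G)) (h y hy)
    refine ⟨p, hp, ?_⟩
    rw [← QuotientGroup.mk_pow, QuotientGroup.eq_one_iff, Subgroup.mem_center_iff]
    intro g
    obtain ⟨z, hz, hgz⟩ : ∃ z, z ∈ center G ∧ g * y * g⁻¹ = z * y :=
      ⟨g * y * g⁻¹ * y⁻¹, hcen g y, by group⟩
    have hk : ∀ k : ℕ, g ^ k * y * (g ^ k)⁻¹ = z ^ k * y := by
      intro k
      induction k with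
      | zero => simp
      | succ k ih =>
        have hzk : z ^ k ∈ center G := pow_mem hz k
        have hcomm := Subgroup.mem_center_iff.1 hzk g
        calc g ^ (k + 1) * y * (g ^ (k + 1))⁻¹ = g * (g ^ k * y * (g ^ k)⁻¹) * g⁻¹ := by group
          _ = g * (z ^ k * y) * g⁻¹ := by rw [ih]
          _ = z ^ k * (g * y * g⁻¹) := by
              rw [← mul_assoc g (z ^ k) y, hcomm]; group
          _ = z ^ (k + 1) * y := by rw [hgz, ← mul_assoc, ← pow_succ]
    have hzp : z ^ p = 1 := by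
      have h1 := hk p
      have h2 : g ^ p * y = y * g ^ p := memC.1 (hpow g)
      have h3 : g ^ p * y * (g ^ p)⁻¹ = y := by rw [h2]; group
      rw [h3] at h1
      have h4 : z ^ p * y = 1 * y := by rw [one_mul]; exact h1.symm
      exact mul_right_cancel h4
    have h4 : g * y ^ p * g⁻¹ = y ^ p := by
      rw [← conj_pow, hgz,
        (show Commute z y from (Subgroup.mem_center_iff.1 hz y).symm).mul_pow, hzp, one_mul]
    calc g * y ^ p = (g * y ^ p * g⁻¹) * g := by group
      _ = y ^ p * g := by rw [h4]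
  have hu₀ : x ∉ center G := hxZ
  obtain ⟨p, hp, hup⟩ := step3 x hu₀
  refine ⟨p, hp, hQab, ?_⟩
  intro v
  by_cases hv : v = 1
  · rw [hv, one_pow]
  obtain ⟨v₀, rfl⟩ := QuotientGroup.mk_surjective v
  have hv₀ : v₀ ∉ center G := fun hm => hv ((QuotientGroup.eq_one_iff v₀).2 hm)
  obtain ⟨r, hr, hvr⟩ := step3 v₀ hv₀
  by_cases hrp : r = p
  · rw [← hrp]; exact hvr
  exfalso
  haveI : Fact p.Prime := ⟨hp⟩
  haveI : Fact r.Prime := ⟨hr⟩
  have ho1 : orderOf (x : G ⧸ center G) = p := orderOf_eq_prime hup hq₀1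
  have ho2 : orderOf (v₀ : G ⧸ center G) = r := orderOf_eq_prime hvr hv
  have hcop : (orderOf (x : G ⧸ center G)).Coprime (orderOf (v₀ : G ⧸ center G)) := by
    rw [ho1, ho2]; exact (Nat.coprime_primes hp hr).2 (Ne.symm hrp)
  have ho3 := Commute.orderOf_mul_eq_mul_orderOf_of_coprime
    (hQab _ _ : Commute (x : G ⧸ center G) (v₀ : G ⧸ center G)) hcop
  rw [ho1, ho2] at ho3
  have h2p := hp.two_le
  have h2r := hr.two_le
  have hw : (x * v₀ : G) ∉ center G := by
    intro hm
    have e : ((x * v₀ : G) : G ⧸ center G) = 1 := (QuotientGroup.eq_one_iff _).2 hm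
    rw [QuotientGroup.mk_mul] at e
    rw [e, orderOf_one] at ho3
    nlinarith
  obtain ⟨s, hs, hws⟩ := step3 _ hw
  rw [QuotientGroup.mk_mul] at hws
  have hd : p * r ∣ s := by rw [← ho3]; exact orderOf_dvd_of_pow_eq_one hws
  rcases (Nat.dvd_prime hs).1 hd with h1 | h1
  · nlinarith
  · rw [← h1] at hs
    exact Nat.not_prime_mul hp.one_lt.ne' hr.one_lt.ne' hs

/-- The structure of a centerless group all of whose centralizers are maximal. -/
theorem case_frob {Q : Type u} [Group Q] [Finite Q] [Nontrivial Q]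
    (h : ∀ x : Q, x ≠ 1 → IsCoatom (centralizer ({x} : Set Q))) :
    ∃ (A N : Subgroup Q) (p q : ℕ), Cfsg.Agent.Lead.FrobData A N ∧ p.Prime ∧ q.Prime ∧ p ≠ q ∧
      Nat.card A = q ∧ IsCoatom A ∧ IsCoatom N ∧
      (∀ a ∈ A, ∀ b ∈ A, a * b = b * a) ∧
      (∀ a ∈ N, ∀ b ∈ N, a * b = b * a) ∧ (∀ a ∈ N, a ^ p = 1) ∧
      (∃ a : ℕ, Nat.card N = p ^ a) ∧
      (∀ M : Subgroup Q, M.Normal → M ≤ N → M ≠ ⊥ → N ≤ M) := by
  obtain ⟨x, hx, hab, hnn⟩ := exists_abelian h
  obtain ⟨N, d, hCk, hNab⟩ := abelian_case h hx hab hnn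
  have hxA0 : x ∈ centralizer ({x} : Set Q) := memC.2 rfl
  have hAco0 := h x hx
  obtain ⟨A, hA⟩ : ∃ A : Subgroup Q, A = centralizer ({x} : Set Q) := ⟨_, rfl⟩
  rw [← hA] at d hab hnn hxA0 hAco0
  have hNn : N.Normal := d.2.2.1
  have hAN : A ⊓ N = ⊥ := by rw [inf_comm]; exact d.2.2.2.disjoint.eq_bot
  have hNbot : N ≠ ⊥ := d.ne_bot
  obtain ⟨k₀, hk₀N, hk₀1⟩ : ∃ k ∈ N, k ≠ 1 := by
    by_contra hc
    apply hNbot
    rw [Subgroup.eq_bot_iff_forall]
    intro k hk
    by_contra hk1
    exact hc ⟨k, hk, hk1⟩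
  have hNco : IsCoatom N := by rw [← hCk k₀ hk₀N hk₀1]; exact h k₀ hk₀1
  have hmin : ∀ M : Subgroup Q, M.Normal → M ≤ N → M ≠ ⊥ → N ≤ M := by
    intro M hMn hMN hMbot
    haveI := hMn
    have hsup : A ⊔ M = ⊤ := by
      rcases hAco0.le_iff.1 (le_sup_left : A ≤ A ⊔ M) with h1 | h1
      · exact h1
      · exfalso
        apply hMbot
        have hMA : M ≤ A := by rw [← h1]; exact le_sup_right
        rw [eq_bot_iff, ← hAN]
        exact le_inf hMA hMN
    intro k hk
    obtain ⟨a, ha, m, hm, rfl⟩ := (Cfsg.Agent.S0001.mem_sup_normal A M k).1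
      (by rw [hsup]; exact mem_top k)
    have haN : a ∈ N := by
      have h0 := mul_mem hk (inv_mem (hMN hm))
      simpa using h0
    have ha1 : a = 1 := by
      have h0 : a ∈ A ⊓ N := ⟨ha, haN⟩
      rw [hAN, Subgroup.mem_bot] at h0
      exact h0
    rw [ha1, one_mul]; exact hm
  have hox : orderOf x ≠ 1 := fun e => hx (orderOf_eq_one_iff.1 e)
  obtain ⟨q, hq, hqx⟩ := Nat.exists_prime_and_dvd hox
  obtain ⟨a, ha⟩ : ∃ a : Q, a = x ^ (orderOf x / q) := ⟨_, rfl⟩
  have hao : orderOf a = q := by rw [ha]; exact orderOf_pow_orderOf_div (orderOf_pos x).ne' hqx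
  have haA : a ∈ A := by rw [ha]; exact pow_mem hxA0 _
  have ha1 : a ≠ 1 := by
    intro e; rw [e, orderOf_one] at hao; exact hq.one_lt.ne hao
  have haN : a ∉ N := by
    intro haN
    have h0 : a ∈ A ⊓ N := ⟨haA, haN⟩
    rw [hAN, Subgroup.mem_bot] at h0
    exact ha1 h0
  have hsupa : zpowers a ⊔ N = ⊤ := by
    rcases hNco.le_iff.1 (le_sup_right : N ≤ zpowers a ⊔ N) with h1 | h1
    · exact h1
    · exfalso
      apply haN
      rw [← h1]
      exact Subgroup.mem_sup_left (Subgroup.mem_zpowers a)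
  have hAz : A = zpowers a := by
    apply le_antisymm
    · intro b hb
      obtain ⟨b₁, hb₁, n, hn, rfl⟩ := (Cfsg.Agent.S0001.mem_sup_normal (zpowers a) N b).1
        (by rw [hsupa]; exact mem_top b)
      have hb₁A : b₁ ∈ A := by
        obtain ⟨i, rfl⟩ := Subgroup.mem_zpowers_iff.1 hb₁
        exact zpow_mem haA i
      have hnA : n ∈ A := by
        have h0 := mul_mem (inv_mem hb₁A) hb
        simpa using h0
      have hn1 : n = 1 := by
        have h0 : n ∈ A ⊓ N := ⟨hnA, hn⟩
        rw [hAN, Subgroup.mem_bot] at h0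
        exact h0
      rw [hn1, mul_one]; exact hb₁
    · rw [Subgroup.zpowers_le]; exact haA
  have hAcard : Nat.card A = q := by rw [hAz, Nat.card_zpowers, hao]
  have hNcard1 : Nat.card N ≠ 1 := fun e => hNbot (Subgroup.card_eq_one.1 e)
  obtain ⟨p, hp, hpN⟩ := Nat.exists_prime_and_dvd hNcard1
  haveI : Fact p.Prime := ⟨hp⟩
  obtain ⟨k₁, hk₁⟩ := exists_prime_orderOf_dvd_card' p hpN
  obtain ⟨Np, hNp_mem⟩ : ∃ Np : Subgroup Q, ∀ k, k ∈ Np ↔ k ∈ N ∧ k ^ p = 1 :=
    ⟨{ carrier := {k | k ∈ N ∧ k ^ p = 1}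
       mul_mem' := by
         rintro a b ⟨ha, ha'⟩ ⟨hb, hb'⟩
         exact ⟨mul_mem ha hb, by
           rw [(show Commute a b from hNab a ha b hb).mul_pow, ha', hb', one_mul]⟩
       one_mem' := ⟨one_mem _, one_pow _⟩
       inv_mem' := by
         rintro a ⟨ha, ha'⟩
         exact ⟨inv_mem ha, by rw [inv_pow, ha', inv_one]⟩ }, fun k => Iff.rfl⟩
  have hNpn : Np.Normal := by
    constructor
    intro k hk g
    rw [hNp_mem] at hk ⊢
    exact ⟨hNn.conj_mem k hk.1 g, by rw [conj_pow, hk.2]; group⟩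
  have hNpN : Np ≤ N := fun k hk => ((hNp_mem k).1 hk).1
  have hNpbot : Np ≠ ⊥ := by
    intro e
    have e1 : k₁ ^ p = 1 := by rw [← hk₁]; exact pow_orderOf_eq_one k₁
    have hmem : (k₁ : Q) ∈ Np := (hNp_mem _).2 ⟨k₁.2, by
      have h0 := congrArg Subtype.val e1
      simpa using h0⟩
    rw [e, Subgroup.mem_bot] at hmem
    have h1 : k₁ = 1 := Subtype.ext hmem
    rw [h1, orderOf_one] at hk₁
    exact hp.one_lt.ne hk₁
  have hNexp : ∀ k ∈ N, k ^ p = 1 :=
    fun k hk => ((hNp_mem k).1 (hmin Np hNpn hNpN hNpbot hk)).2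
  have hNpg : IsPGroup p N := by
    intro k
    refine ⟨1, ?_⟩
    apply Subtype.ext
    rw [pow_one, Subgroup.coe_pow]
    exact hNexp k k.2
  obtain ⟨a', ha'⟩ := IsPGroup.iff_card.1 hNpg
  have hcop := d.coprime
  have hpq : p ≠ q := by
    intro e
    rw [hAcard, ← e] at hcop
    exact hp.one_lt.ne' (Nat.Coprime.eq_one_of_dvd hcop hpN)
  exact ⟨A, N, p, q, d, hp, hq, hpq, hAcard, hAco0, hNco, hab, hNab, hNexp, ⟨a', ha'⟩, hmin⟩

/-- Let G be a non-abelian finite group in which the centralizer of every non-central element is a maximal subgroup. Then G/Z(G) is either an elementary abelian p-group for some prime p, or a minimal non-abelian group (non-abelian with all proper subgroups abelian) of order p^a · q for distinct primes p, q with a normal Sylow p-subgroup. -/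
theorem result {G : Type*} [Group G] [Finite G] (hna : ¬ IsMulCommutative G)
    (h : ∀ x : G, x ∉ Subgroup.center G → IsCoatom (Subgroup.centralizer ({x} : Set G))) :
    (∃ p : ℕ, p.Prime ∧ Cfsg.IsElementaryAbelian p (⊤ : Subgroup (G ⧸ Subgroup.center G))) ∨
    (¬ IsMulCommutative (G ⧸ Subgroup.center G) ∧ (∀ H : Subgroup (G ⧸ Subgroup.center G), H ≠ ⊤ → IsMulCommutative ↥H) ∧
      ∃ p q a : ℕ, p.Prime ∧ q.Prime ∧ p ≠ q ∧ Nat.card (G ⧸ Subgroup.center G) = p ^ a * q ∧
        ∀ P : Subgroup (G ⧸ Subgroup.center G), Nat.card ↥P = p ^ a → P.Normal) := by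
  by_cases hZ : center (G ⧸ center G) = ⊥
  · right
    have hQ := quot_hyp (center G) h
    have h' : ∀ x : G ⧸ center G, x ≠ 1 →
        IsCoatom (centralizer ({x} : Set (G ⧸ center G))) := by
      intro x hx
      apply hQ
      rw [hZ, Subgroup.mem_bot]
      exact hx
    haveI : Nontrivial (G ⧸ center G) := by
      by_contra hnt
      rw [not_nontrivial_iff_subsingleton] at hnt
      apply hna
      refine ⟨⟨fun a b => ?_⟩⟩
      have ha : a ∈ center G := by
        rw [← QuotientGroup.eq_one_iff]; exact Subsingleton.elim _ _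
      exact (Subgroup.mem_center_iff.1 ha b).symm
    obtain ⟨A, N, p, q, d, hp, hq, hpq, hAcard, hAco, hNco, hab, hNab, hNexp, ⟨a', ha'⟩, hmin⟩ :=
      case_frob h'
    have hNn : N.Normal := d.2.2.1
    have hAN : A ⊓ N = ⊥ := by rw [inf_comm]; exact d.2.2.2.disjoint.eq_bot
    have hsupAN : A ⊔ N = ⊤ := by rw [sup_comm]; exact d.2.2.2.sup_eq_top
    have hquot_comm : ∀ a b : G ⧸ center G, a * b * a⁻¹ * b⁻¹ ∈ N := by
      intro a b
      obtain ⟨a₁, ha₁, n₁, hn₁, rfl⟩ := (Cfsg.Agent.S0001.mem_sup_normal A N a).1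
        (by rw [hsupAN]; exact mem_top a)
      obtain ⟨b₁, hb₁, n₂, hn₂, rfl⟩ := (Cfsg.Agent.S0001.mem_sup_normal A N b).1
        (by rw [hsupAN]; exact mem_top b)
      rw [← QuotientGroup.eq_one_iff]
      have e1 : ((n₁ : G ⧸ center G) : (G ⧸ center G) ⧸ N) = 1 :=
        (QuotientGroup.eq_one_iff n₁).2 hn₁
      have e2 : ((n₂ : G ⧸ center G) : (G ⧸ center G) ⧸ N) = 1 :=
        (QuotientGroup.eq_one_iff n₂).2 hn₂
      simp only [QuotientGroup.mk_mul, QuotientGroup.mk_inv, e1, e2, mul_one]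
      have hc : ((a₁ : G ⧸ center G) : (G ⧸ center G) ⧸ N) * (b₁ : (G ⧸ center G) ⧸ N) =
          (b₁ : (G ⧸ center G) ⧸ N) * (a₁ : (G ⧸ center G) ⧸ N) := by
        rw [← QuotientGroup.mk_mul, ← QuotientGroup.mk_mul, hab a₁ ha₁ b₁ hb₁]
      rw [hc]; group
    refine ⟨?_, ?_, ?_⟩
    · intro hc
      obtain ⟨u, hu⟩ := exists_ne (1 : G ⧸ center G)
      have hmem : u ∈ center (G ⧸ center G) := by
        rw [Subgroup.mem_center_iff]
        intro g
        exact hc.is_comm.comm g u
      rw [hZ, Subgroup.mem_bot] at hmem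
      exact hu hmem
    · intro H hH
      by_cases hHN : H ≤ N
      · exact ⟨⟨fun a b => Subtype.ext (hNab a (hHN a.2) b (hHN b.2))⟩⟩
      obtain ⟨u, huH, huN⟩ := SetLike.not_le_iff_exists.1 hHN
      have hsupu : zpowers u ⊔ N = ⊤ := by
        rcases hNco.le_iff.1 (le_sup_right : N ≤ zpowers u ⊔ N) with h1 | h1
        · exact h1
        · exfalso
          apply huN
          rw [← h1]
          exact Subgroup.mem_sup_left (Subgroup.mem_zpowers u)
      have hMn : (N ⊓ H).Normal := by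
        constructor
        intro k hk g
        obtain ⟨g₁, hg₁, n, hn, rfl⟩ := (Cfsg.Agent.S0001.mem_sup_normal (zpowers u) N g).1
          (by rw [hsupu]; exact mem_top g)
        have hg₁H : g₁ ∈ H := by
          obtain ⟨i, rfl⟩ := Subgroup.mem_zpowers_iff.1 hg₁
          exact zpow_mem huH i
        have e : g₁ * n * k * (g₁ * n)⁻¹ = g₁ * k * g₁⁻¹ := by
          have hnk : n * k = k * n := hNab n hn k hk.1
          calc g₁ * n * k * (g₁ * n)⁻¹ = g₁ * (n * k) * n⁻¹ * g₁⁻¹ := by group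
            _ = g₁ * (k * n) * n⁻¹ * g₁⁻¹ := by rw [hnk]
            _ = g₁ * k * g₁⁻¹ := by group
        rw [e]
        exact ⟨hNn.conj_mem k hk.1 g₁, H.mul_mem (H.mul_mem hg₁H hk.2) (H.inv_mem hg₁H)⟩
      have hMbot : N ⊓ H = ⊥ := by
        by_contra hne
        have hle := hmin (N ⊓ H) hMn inf_le_left hne
        have hNH : N ≤ H := hle.trans inf_le_right
        rcases hNco.le_iff.1 hNH with h1 | h1
        · exact hH h1
        · exact huN (by rw [← h1]; exact huH)
      refine ⟨⟨fun a b => Subtype.ext ?_⟩⟩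
      have hm : (a : G ⧸ center G) * b * (a : G ⧸ center G)⁻¹ * (b : G ⧸ center G)⁻¹ ∈ N ⊓ H :=
        ⟨hquot_comm a b, H.mul_mem (H.mul_mem (H.mul_mem a.2 b.2) (H.inv_mem a.2)) (H.inv_mem b.2)⟩
      rw [hMbot, Subgroup.mem_bot] at hm
      show (a : G ⧸ center G) * (b : G ⧸ center G) = (b : G ⧸ center G) * (a : G ⧸ center G)
      calc (a : G ⧸ center G) * b
          = ((a : G ⧸ center G) * b * (a : G ⧸ center G)⁻¹ * (b : G ⧸ center G)⁻¹) * (b * a) := by
            group
        _ = b * a := by rw [hm, one_mul]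
    · refine ⟨p, q, a', hp, hq, hpq, ?_, ?_⟩
      · rw [← ha', ← hAcard]; exact (d.2.2.2.card_mul_card).symm
      · intro P hP
        have hPN : P ≤ N := by
          intro u hu
          rw [← QuotientGroup.eq_one_iff]
          have h1 : ((u : G ⧸ center G) : (G ⧸ center G) ⧸ N) ^ q = 1 := by
            have hcardq : Nat.card ((G ⧸ center G) ⧸ N) = q := by
              rw [← Subgroup.index_eq_card, d.index_eq, hAcard]
            rw [← hcardq]; exact pow_card_eq_one'
          have h2 : ((u : G ⧸ center G) : (G ⧸ center G) ⧸ N) ^ (p ^ a') = 1 := by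
            rw [← QuotientGroup.mk_pow]
            have h0 : u ^ (p ^ a') = 1 := by
              have h00 := pow_card_eq_one' (G := P) (x := ⟨u, hu⟩)
              rw [hP] at h00
              have h01 := congrArg Subtype.val h00
              simpa using h01
            rw [h0]; rfl
          have hd1 : orderOf ((u : G ⧸ center G) : (G ⧸ center G) ⧸ N) ∣ q :=
            orderOf_dvd_of_pow_eq_one h1
          have hd2 : orderOf ((u : G ⧸ center G) : (G ⧸ center G) ⧸ N) ∣ p ^ a' :=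
            orderOf_dvd_of_pow_eq_one h2
          have hcop' : Nat.Coprime q (p ^ a') :=
            Nat.Coprime.pow_right _ ((Nat.coprime_primes hq hp).2 (Ne.symm hpq))
          exact orderOf_eq_one_iff.1 (Nat.eq_one_of_dvd_coprimes hcop' hd1 hd2)
        have hPeq : P = N := Subgroup.eq_of_le_of_card_ge hPN (by rw [hP, ha'])
        rw [hPeq]; exact hNn
  · left
    obtain ⟨p, hp, hab, hexp⟩ := case_central h hZ
    exact ⟨p, hp, ⟨⟨fun a b => Subtype.ext (hab a b)⟩⟩, fun a _ => hexp a⟩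

end Cfsg.Agent.S3904
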