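import Mathlib
import Cfsg.Statements.S3909

set_option autoImplicit false
open Cfsg

namespace Cfsg.Agent.S3909

variable {G : Type*} [Group G]

theorem mem_map_conj (K : Subgroup G) (g y : G) :
    y ∈ K.map (MulAut.conj g).toMonoidHom ↔ g⁻¹ * y * g ∈ K := by
  constructor
  · rintro ⟨k, hk, rfl⟩
    simpa [MulAut.conj_apply, mul_assoc] using hk
  · intro h
    exact ⟨g⁻¹ * y * g, h, by simp [MulAut.conj_apply, mul_assoc]⟩

/-- Let G be a finite group in which any two abelian subgroups of the same order are conjugate. Let M be a normal subgroup of G. If M contains an element of the same order as a ∈ G, then a ∈ M; and if M is elementary abelian of order p^t with p prime and t ≥ 2, then M is the unique Sylow p-subgroup of G. -/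
theorem result {G : Type*} [Group G] [Finite G] (hB : ∀ A B : Subgroup G, IsMulCommutative ↥A → IsMulCommutative ↥B → Nat.card ↥A = Nat.card ↥B → ∃ g : G, B = A.map (MulAut.conj g).toMonoidHom) (M : Subgroup G) [M.Normal] :
    (∀ a : G, (∃ m ∈ M, orderOf m = orderOf a) → a ∈ M) ∧
    ∀ (p t : ℕ) [Fact p.Prime], 2 ≤ t → Nat.card ↥M = p ^ t → Cfsg.IsElementaryAbelian p M → ∀ P : Sylow p G, (P : Subgroup G) = M := by
  have part1 : ∀ a : G, (∃ m ∈ M, orderOf m = orderOf a) → a ∈ M := by
    rintro a ⟨m, hm, hord⟩
    have hcard : Nat.card (Subgroup.zpowers m) = Nat.card (Subgroup.zpowers a) := by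
      rw [Nat.card_zpowers, Nat.card_zpowers, hord]
    obtain ⟨g, hg⟩ := hB (Subgroup.zpowers m) (Subgroup.zpowers a) inferInstance inferInstance hcard
    have ha : a ∈ (Subgroup.zpowers m).map (MulAut.conj g).toMonoidHom := by
      rw [← hg]; exact Subgroup.mem_zpowers a
    rw [mem_map_conj] at ha
    have hle : Subgroup.zpowers m ≤ M := (Subgroup.zpowers_le).mpr hm
    have h1 := hle ha
    have h2 := Subgroup.Normal.conj_mem (inferInstance : M.Normal) _ h1 g
    have e : g * (g⁻¹ * a * g) * g⁻¹ = a := by group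
    rwa [e] at h2
  refine ⟨part1, ?_⟩
  intro p t hp ht hcard hM P
  have hp' := hp.out
  have hMp : IsPGroup p M := IsPGroup.of_card hcard
  apply le_antisymm
  · -- P ≤ M
    intro x hx
    obtain ⟨k, hk⟩ := (IsPGroup.iff_orderOf.mp P.isPGroup') ⟨x, hx⟩
    rw [Subgroup.orderOf_mk] at hk
    -- M contains an element of order p
    have hpdvd : p ∣ Nat.card M := by
      rw [hcard]; exact dvd_pow_self p (by omega)
    obtain ⟨m, hm⟩ := exists_prime_orderOf_dvd_card' p hpdvd
    have hm' : orderOf (m : G) = p := by rw [Subgroup.orderOf_coe]; exact hm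
    rcases k with _ | k
    · rw [pow_zero, orderOf_eq_one_iff] at hk
      rw [hk]; exact M.one_mem
    rcases k with _ | k
    · rw [zero_add, pow_one] at hk
      exact part1 x ⟨m, m.2, by rw [hm', hk]⟩
    · exfalso
      -- y = x^(p^k) has order p^2
      have hy : orderOf (x ^ (p ^ k)) = p ^ 2 := by
        rw [orderOf_pow_of_dvd (pow_ne_zero k hp'.ne_zero) (by rw [hk]; exact pow_dvd_pow p (by omega)), hk]
        rw [show k + 1 + 1 = 2 + k by omega, pow_add]
        exact Nat.mul_div_cancel _ (pow_pos hp'.pos k)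
      -- subgroup of M of order p^2
      have hdvd2 : p ^ 2 ∣ Nat.card M := by
        rw [hcard]; exact pow_dvd_pow p ht
      obtain ⟨K, hK⟩ := Sylow.exists_subgroup_card_pow_prime p hdvd2
      haveI : IsMulCommutative M := hM.1
      have hKB : Nat.card (K.map M.subtype) = p ^ 2 := by
        rw [Subgroup.card_map_of_injective M.subtype_injective, hK]
      have hcard2 : Nat.card (K.map M.subtype) = Nat.card (Subgroup.zpowers (x ^ (p ^ k))) := by
        rw [hKB, Nat.card_zpowers, hy]
      obtain ⟨g, hg⟩ := hB (K.map M.subtype) (Subgroup.zpowers (x ^ (p ^ k))) inferInstance inferInstance hcard2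
      have hmem : x ^ (p ^ k) ∈ (K.map M.subtype).map (MulAut.conj g).toMonoidHom := by
        rw [← hg]; exact Subgroup.mem_zpowers _
      rw [mem_map_conj] at hmem
      have hinM : g⁻¹ * x ^ (p ^ k) * g ∈ M := Subgroup.map_subtype_le K hmem
      have hpow := hM.2 _ hinM
      have hpow' : (x ^ (p ^ k)) ^ p = 1 := by
        have e : g⁻¹ * x ^ (p ^ k) * g = MulAut.conj g⁻¹ (x ^ (p ^ k)) := by
          simp [MulAut.conj_apply]
        rw [e, ← map_pow] at hpow
        exact (MulEquiv.map_eq_one_iff _).mp hpow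
      have := orderOf_dvd_of_pow_eq_one hpow'
      rw [hy] at this
      have h2 : p ^ 2 ≤ p := Nat.le_of_dvd hp'.pos this
      have h3 : p < p ^ 2 := by
        have := hp'.one_lt
        nlinarith
      omega
  · exact hMp.le_sylow_of_normal P

end Cfsg.Agent.S3909
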