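import Mathlib
import Cfsg.Statements.S3910
import Cfsg.Agent.Helper19.Basic
import Cfsg.Agent.Helper19.Nilpotent

set_option autoImplicit false
open Cfsg

namespace Cfsg.Agent.S3910

open Cfsg.Agent.Helper19
open scoped IsMulCommutative

/-- A finite nilpotent group in which any two abelian subgroups of the same order are conjugate is cyclic. -/
theorem result {G : Type*} [Group G] [Finite G] (hB : ∀ A B : Subgroup G, IsMulCommutative ↥A → IsMulCommutative ↥B → Nat.card ↥A = Nat.card ↥B → ∃ g : G, B = A.map (MulAut.conj g).toMonoidHom) (hnil : Group.IsNilpotent G) : IsCyclic G := by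
  have hSyl : ∀ (p : ℕ) [Fact p.Prime] (P : Sylow p G), IsMulCommutative (P : Subgroup G) := by
    intro p _ P
    have hp : p.Prime := Fact.out
    obtain ⟨A, hAP, hAn, hAc, hAcent⟩ := exists_normal_abelian_self_centralizing (P : Subgroup G)
    obtain ⟨a, ha⟩ := IsPGroup.iff_card.mp (P.isPGroup'.to_le hAP)
    have hb : ∀ (B : Subgroup G) (i : ℕ), IsMulCommutative B → Nat.card B = p ^ i → i ≤ a →
        B ≤ A := by
      intro B i hBc hBcard hia
      obtain ⟨K, hK⟩ := Sylow.exists_subgroup_card_pow_prime p (G := A) (n := i)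
        (by rw [ha]; exact pow_dvd_pow p hia)
      have hK' : Nat.card (K.map A.subtype) = p ^ i := by
        rw [Subgroup.card_map_of_injective A.subtype_injective]; exact hK
      have hKA : K.map A.subtype ≤ A := Subgroup.map_subtype_le K
      have hKc : IsMulCommutative (K.map A.subtype) :=
        ⟨⟨fun u v => Subtype.ext (setLike_mul_comm (hKA u.2) (hKA v.2))⟩⟩
      obtain ⟨g, hg⟩ := hB (K.map A.subtype) B hKc hBc (by rw [hK', hBcard])
      rw [hg]
      rintro _ ⟨y, hy, rfl⟩
      exact hAn.conj_mem y (hKA hy) g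
    have hPA : (P : Subgroup G) ≤ A := by
      intro x hx
      obtain ⟨j, hj⟩ := (IsPGroup.iff_orderOf.mp P.isPGroup') ⟨x, hx⟩
      rw [Subgroup.orderOf_mk] at hj
      by_cases hja : j ≤ a
      · have h1 : Subgroup.zpowers x ≤ A :=
          hb (Subgroup.zpowers x) j inferInstance (by rw [Nat.card_zpowers, hj]) hja
        exact h1 (Subgroup.mem_zpowers x)
      · have hja' : a < j := not_le.mp hja
        have hord : orderOf (x ^ (p ^ (j - a))) = p ^ a := by
          rw [orderOf_pow_of_dvd (pow_ne_zero _ hp.ne_zero)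
            (by rw [hj]; exact pow_dvd_pow p (Nat.sub_le j a)), hj,
            Nat.pow_div (Nat.sub_le j a) hp.pos]
          congr 1; omega
        have h1 : Subgroup.zpowers (x ^ (p ^ (j - a))) ≤ A :=
          hb _ a inferInstance (by rw [Nat.card_zpowers, hord]) le_rfl
        have h2 : Subgroup.zpowers (x ^ (p ^ (j - a))) = A :=
          Subgroup.eq_of_le_of_card_ge h1 (by rw [Nat.card_zpowers, hord, ha])
        apply hAcent
        refine ⟨hx, ?_⟩
        show x ∈ Subgroup.centralizer (A : Set G)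
        rw [Subgroup.mem_centralizer_iff]
        intro y hy
        rw [SetLike.mem_coe, ← h2] at hy
        obtain ⟨k, rfl⟩ := Subgroup.mem_zpowers_iff.mp hy
        exact (((Commute.refl x).pow_left (p ^ (j - a))).zpow_left k).eq
    exact ⟨⟨fun u v => Subtype.ext (setLike_mul_comm (hPA u.2) (hPA v.2))⟩⟩
  have hcomm := mul_comm_of_nilpotent_of_sylow_comm hSyl
  have huniq : ∀ A B : Subgroup G, Nat.card A = Nat.card B → B = A := by
    intro A B hcard
    have hAc : IsMulCommutative A := ⟨⟨fun u v => Subtype.ext (hcomm _ _)⟩⟩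
    have hBc : IsMulCommutative B := ⟨⟨fun u v => Subtype.ext (hcomm _ _)⟩⟩
    obtain ⟨g, hg⟩ := hB A B hAc hBc hcard
    rw [hg]
    ext y
    rw [mem_map_conj]
    have : g⁻¹ * y * g = y := by rw [hcomm g⁻¹ y, mul_assoc, inv_mul_cancel, mul_one]
    rw [this]
  have hcenter : Subgroup.center G = ⊤ := by
    rw [eq_top_iff]; intro x _; rw [Subgroup.mem_center_iff]; intro g; exact hcomm g x
  obtain ⟨z, hz⟩ := Monoid.exists_orderOf_eq_exponent (G := Subgroup.center G)
    Monoid.ExponentExists.of_finite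
  rw [isCyclic_iff_exists_zpowers_eq_top]
  refine ⟨(z : G), ?_⟩
  rw [eq_top_iff]
  intro x _
  have hx : x ∈ Subgroup.center G := by rw [hcenter]; exact Subgroup.mem_top x
  have h1 : orderOf (⟨x, hx⟩ : Subgroup.center G) ∣ Monoid.exponent (Subgroup.center G) :=
    Monoid.order_dvd_exponent _
  rw [← hz, Subgroup.orderOf_mk, ← Subgroup.orderOf_coe] at h1
  have hm : orderOf (z : G) ≠ 0 := (orderOf_pos _).ne'
  have hd : orderOf x ≠ 0 := (orderOf_pos _).ne'
  have hdiv : orderOf (z : G) / orderOf x ≠ 0 := by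
    obtain ⟨c, hc⟩ := h1
    rw [hc, Nat.mul_div_cancel_left _ (Nat.pos_of_ne_zero hd)]
    rintro rfl
    rw [mul_zero] at hc
    exact hm hc
  have hord : orderOf ((z : G) ^ (orderOf (z : G) / orderOf x)) = orderOf x := by
    rw [orderOf_pow_of_dvd hdiv (Nat.div_dvd_of_dvd h1), Nat.div_div_self h1 hm]
  have heq := huniq (Subgroup.zpowers ((z : G) ^ (orderOf (z : G) / orderOf x)))
    (Subgroup.zpowers x) (by rw [Nat.card_zpowers, Nat.card_zpowers, hord])
  have hxm : x ∈ Subgroup.zpowers ((z : G) ^ (orderOf (z : G) / orderOf x)) := by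
    rw [← heq]; exact Subgroup.mem_zpowers x
  have hle : Subgroup.zpowers ((z : G) ^ (orderOf (z : G) / orderOf x)) ≤
      Subgroup.zpowers (z : G) := by
    rw [Subgroup.zpowers_le]
    exact Subgroup.pow_mem _ (Subgroup.mem_zpowers _) _
  exact hle hxm

end Cfsg.Agent.S3910
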