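import Mathlib
import Cfsg.Statements.S3917

set_option autoImplicit false
open Cfsg

namespace Cfsg.Agent.S3917

theorem result {G : Type*} [CommGroup G] [Finite G] (hX : (∀ H : Subgroup G, ¬ IsCyclic ↥H → Subgroup.centralizer (H : Set G) ≤ H)) :
    IsCyclic G ∨ ∃ p : ℕ, p.Prime ∧ Nat.card G = p ^ 2 ∧ Monoid.exponent G = p := by
  have hX' : ∀ H : Subgroup G, ¬ IsCyclic ↥H → H = ⊤ := by
    intro H hH
    rw [eq_top_iff]
    intro x _
    apply hX H hH
    rw [Subgroup.mem_centralizer_iff]
    intro h _
    exact mul_comm h x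
  by_cases hc : IsCyclic G
  · exact Or.inl hc
  right
  have he_ne : Monoid.exponent G ≠ Nat.card G := fun h => hc (IsCyclic.iff_exponent_eq_card.mpr h)
  have he_dvd : Monoid.exponent G ∣ Nat.card G := Group.exponent_dvd_nat_card
  have he_lt : Monoid.exponent G < Nat.card G :=
    lt_of_le_of_ne (Nat.le_of_dvd Nat.card_pos he_dvd) he_ne
  have he_one : Monoid.exponent G ≠ 1 := by
    intro h
    rw [Monoid.exp_eq_one_iff] at h
    exact hc inferInstance
  have hpowe : ∀ a : G, a ^ Monoid.exponent G = 1 := Monoid.pow_exponent_eq_one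
  have hmin : ∀ n : ℕ, (∀ a : G, a ^ n = 1) → Monoid.exponent G ∣ n :=
    fun n h => Monoid.exponent_dvd_of_forall_pow_eq_one h
  generalize Monoid.exponent G = e at *
  obtain ⟨d, hd⟩ : e.minFac ∣ e := Nat.minFac_dvd e
  have hp : (e.minFac).Prime := Nat.minFac_prime he_one
  generalize e.minFac = p at *
  have hd_pos : 0 < d := by
    rcases Nat.eq_zero_or_pos d with h | h
    · rw [h, mul_zero] at hd
      rw [hd] at he_dvd
      exact absurd (Nat.eq_zero_of_zero_dvd he_dvd) (Nat.card_pos (α := G)).ne'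
    · exact h
  have hd_lt : d < e := by
    have := hp.two_le
    nlinarith
  have bound : ∀ (H : Subgroup G) (n : ℕ), 0 < n → IsCyclic H → (∀ a ∈ H, a ^ n = 1) →
      Nat.card H ≤ n := by
    intro H n hn hH h
    have h1 : Monoid.exponent H = Nat.card H := IsCyclic.exponent_eq_card
    have h2 : Monoid.exponent H ∣ n := Monoid.exponent_dvd_of_forall_pow_eq_one (fun a => by
      apply Subtype.ext; simpa using h a a.2)
    rw [← h1]; exact Nat.le_of_dvd hn h2
  have hKd : (powMonoidHom d : G →* G).ker ≠ ⊤ := by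
    intro h
    have : e ∣ d := hmin d (fun a => by
      have : a ∈ (powMonoidHom d : G →* G).ker := h ▸ Subgroup.mem_top a
      simpa [MonoidHom.mem_ker] using this)
    exact absurd (Nat.le_of_dvd hd_pos this) (not_le.mpr hd_lt)
  have hKd_cyc : IsCyclic (powMonoidHom d : G →* G).ker := by
    by_contra h; exact hKd (hX' _ h)
  have hKd_card : Nat.card (powMonoidHom d : G →* G).ker ≤ d :=
    bound _ d hd_pos hKd_cyc (fun a ha => by simpa [MonoidHom.mem_ker] using ha)
  have hrange : (powMonoidHom d : G →* G).range ≤ (powMonoidHom p : G →* G).ker := by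
    rintro _ ⟨a, rfl⟩
    rw [MonoidHom.mem_ker]
    show (a ^ d) ^ p = 1
    rw [← pow_mul, mul_comm, ← hd]
    exact hpowe a
  have hcard : Nat.card G = Nat.card (powMonoidHom d : G →* G).ker *
      Nat.card (powMonoidHom d : G →* G).range := by
    rw [← Subgroup.index_ker, Subgroup.card_mul_index]
  have hKp : (powMonoidHom p : G →* G).ker = ⊤ := by
    by_contra h
    have hcyc : IsCyclic (powMonoidHom p : G →* G).ker := by
      by_contra h'; exact h (hX' _ h')
    have h1 : Nat.card (powMonoidHom p : G →* G).ker ≤ p :=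
      bound _ p hp.pos hcyc (fun a ha => by simpa [MonoidHom.mem_ker] using ha)
    have h2 : Nat.card (powMonoidHom d : G →* G).range ≤ p :=
      le_trans (Subgroup.card_le_of_le hrange) h1
    have : Nat.card G ≤ d * p := by
      rw [hcard]; exact Nat.mul_le_mul hKd_card h2
    rw [mul_comm, ← hd] at this
    omega
  have hpow : ∀ a : G, a ^ p = 1 := by
    intro a
    have : a ∈ (powMonoidHom p : G →* G).ker := hKp ▸ Subgroup.mem_top a
    simpa [MonoidHom.mem_ker] using this
  have hep : e = p := by
    have : e ∣ p := hmin p hpow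
    rcases (Nat.dvd_prime hp).mp this with h | h
    · exact absurd h he_one
    · exact h
  have : Fact p.Prime := ⟨hp⟩
  have hPG : IsPGroup p G := fun g => ⟨1, by simpa using hpow g⟩
  obtain ⟨n, hn⟩ := IsPGroup.iff_card.mp hPG
  have hn2 : 2 ≤ n := by
    by_contra h
    have hn1 : n ≤ 1 := by omega
    have : p ^ n ≤ p ^ 1 := Nat.pow_le_pow_right hp.pos hn1
    rw [pow_one, ← hn] at this
    omega
  obtain ⟨K, hK⟩ := Sylow.exists_subgroup_card_pow_prime p (n := 2)
    (by rw [hn]; exact pow_dvd_pow p hn2)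
  have hKtop : K = ⊤ := by
    apply hX'
    intro hcyc
    have := bound K p hp.pos hcyc (fun a _ => hpow a)
    rw [hK] at this
    have := hp.two_le
    nlinarith
  refine ⟨p, hp, ?_, hep⟩
  rw [← hK, hKtop, Subgroup.card_top]

end Cfsg.Agent.S3917
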