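import Mathlib
import Cfsg.Statements.S3920

set_option autoImplicit false
open Cfsg

namespace Cfsg.Agent.S3920

open DihedralGroup

theorem two_tors_odd {n : ℕ} [NeZero n] (hn : Odd n) (i : ZMod n) (h : i + i = 0) : i = 0 := by
  have h1 : ((2 * i.val : ℕ) : ZMod n) = 0 := by
    push_cast
    rw [ZMod.natCast_zmod_val, two_mul]
    exact h
  have h2 : n ∣ 2 * i.val := (ZMod.natCast_eq_zero_iff _ _).1 h1
  have h3 : n ∣ i.val := Nat.Coprime.dvd_of_dvd_mul_left (Nat.coprime_two_left.2 hn).symm h2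
  have h4 : i.val = 0 := Nat.eq_zero_of_dvd_of_lt h3 (ZMod.val_lt i)
  exact (ZMod.val_eq_zero i).1 h4

theorem two_tors_pow (k : ℕ) (i : ZMod (2 ^ (k + 1))) (h : i + i = 0) :
    i = 0 ∨ i = ((2 ^ k : ℕ) : ZMod (2 ^ (k + 1))) := by
  have h1 : ((2 * i.val : ℕ) : ZMod (2 ^ (k + 1))) = 0 := by
    push_cast
    rw [ZMod.natCast_zmod_val, two_mul]
    exact h
  have h2 : 2 ^ (k + 1) ∣ 2 * i.val := (ZMod.natCast_eq_zero_iff _ _).1 h1
  have h3 : 2 ^ k ∣ i.val := by
    have h2' : 2 * 2 ^ k ∣ 2 * i.val := by rw [← pow_succ']; exact h2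
    exact (Nat.mul_dvd_mul_iff_left (by norm_num)).1 h2'
  obtain ⟨t, ht⟩ := h3
  have hlt : i.val < 2 ^ (k + 1) := ZMod.val_lt i
  have ht2 : t < 2 := by
    by_contra hc
    push_neg at hc
    have : 2 ^ k * 2 ≤ 2 ^ k * t := Nat.mul_le_mul_left _ hc
    have hlt' : i.val < 2 ^ k * 2 := by rw [← pow_succ]; exact hlt
    omega
  have hi : i = ((i.val : ℕ) : ZMod (2 ^ (k + 1))) := (ZMod.natCast_zmod_val i).symm
  interval_cases t
  · left
    exact (ZMod.val_eq_zero i).1 (by rw [ht, mul_zero])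
  · right
    rw [mul_one] at ht
    rw [hi, ht]

theorem pow_r_exists {n : ℕ} (i : ZMod n) (m : ℕ) : ∃ l : ZMod n, (r i) ^ m = r l := by
  induction m with
  | zero => exact ⟨0, by rw [pow_zero]; rfl⟩
  | succ m ih =>
    obtain ⟨l, hl⟩ := ih
    exact ⟨l + i, by rw [pow_succ, hl]; rfl⟩

theorem cyclic_of_rot {n : ℕ} [NeZero n] (H : Subgroup (DihedralGroup n))
    (h : ∀ g ∈ H, ∃ i, g = r i) : IsCyclic ↥H := by
  have hle : H ≤ Subgroup.zpowers (r (1 : ZMod n)) := by
    intro g hg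
    obtain ⟨i, rfl⟩ := h g hg
    rw [Subgroup.mem_zpowers_iff]
    refine ⟨(i.val : ℤ), ?_⟩
    rw [zpow_natCast, r_one_pow, ZMod.natCast_zmod_val]
  exact Subgroup.isCyclic_of_le hle

theorem suff {n : ℕ} (hn : 3 ≤ n) (hcase : Odd n ∨ ∃ k : ℕ, n = 2 ^ k)
    (H : Subgroup (DihedralGroup n)) (hH : ¬ IsCyclic ↥H) :
    Subgroup.centralizer (H : Set (DihedralGroup n)) ≤ H := by
  haveI : NeZero n := ⟨by omega⟩
  have hrefl : ∃ j, sr j ∈ H := by
    by_contra hno
    push_neg at hno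
    apply hH
    apply cyclic_of_rot H
    intro g hg
    rcases g with i | i
    · exact ⟨i, rfl⟩
    · exact absurd hg (hno i)
  obtain ⟨j, hj⟩ := hrefl
  intro g hg
  have hcomm : sr j * g = g * sr j := Subgroup.mem_centralizer_iff.1 hg (sr j) hj
  rcases hcase with hodd | ⟨k, rfl⟩
  · rcases g with i | i
    · have h1 : j + i = j - i := sr.inj (show sr (j + i) = sr (j - i) from hcomm)
      have h2 : i + i = 0 := by linear_combination h1
      have h3 := two_tors_odd hodd i h2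
      rw [h3]
      exact H.one_mem
    · have h1 : i - j = j - i := r.inj (show r (i - j) = r (j - i) from hcomm)
      have h2 : (i - j) + (i - j) = 0 := by linear_combination h1
      have h3 := two_tors_odd hodd (i - j) h2
      have h4 : i = j := sub_eq_zero.1 h3
      rw [h4]; exact hj
  · have hk0 : k ≠ 0 := by
      rintro rfl
      norm_num at hn
    obtain ⟨k', rfl⟩ : ∃ k', k = k' + 1 := ⟨k - 1, by omega⟩
    have hzH : r ((2 ^ k' : ℕ) : ZMod (2 ^ (k' + 1))) ∈ H := by
      have hrot : ∃ i : ZMod (2 ^ (k' + 1)), i ≠ 0 ∧ r i ∈ H := by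
        by_contra hno
        push_neg at hno
        apply hH
        have hle : H ≤ Subgroup.zpowers (sr j) := by
          intro h hh
          rcases h with i | i
          · by_cases hi : i = 0
            · rw [hi]; exact Subgroup.one_mem _
            · exact absurd hh (hno i hi)
          · by_cases hi : i = j
            · rw [hi]; exact Subgroup.mem_zpowers _
            · exfalso
              have : sr j * sr i ∈ H := H.mul_mem hj hh
              exact hno (i - j) (sub_ne_zero.2 hi) this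
        exact Subgroup.isCyclic_of_le hle
      obtain ⟨i, hi0, hiH⟩ := hrot
      have hdvd : orderOf (r i) ∣ 2 ^ (k' + 2) := by
        have := orderOf_dvd_natCard (r i)
        rw [DihedralGroup.nat_card] at this
        rwa [show 2 ^ (k' + 2) = 2 * 2 ^ (k' + 1) by ring]
      obtain ⟨s, -, hs⟩ := (Nat.dvd_prime_pow Nat.prime_two).1 hdvd
      have hs0 : s ≠ 0 := by
        rintro rfl
        rw [pow_zero, orderOf_eq_one_iff] at hs
        exact hi0 (r.inj (show r i = r 0 from hs))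
      obtain ⟨s', rfl⟩ : ∃ s', s = s' + 1 := ⟨s - 1, by omega⟩
      obtain ⟨l, hl⟩ := pow_r_exists i (2 ^ s')
      have hw1 : (r i) ^ (2 ^ s') ≠ 1 := by
        intro h1
        have := orderOf_dvd_of_pow_eq_one h1
        rw [hs] at this
        have h2 := Nat.le_of_dvd (pow_pos (by norm_num) _) this
        have h3 : 2 ^ s' < 2 ^ (s' + 1) := Nat.pow_lt_pow_right (by norm_num) (by omega)
        omega
      have hw2 : (r i) ^ (2 ^ s') * (r i) ^ (2 ^ s') = 1 := by
        rw [← pow_add, ← two_mul, ← pow_succ', ← hs]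
        exact pow_orderOf_eq_one _
      rw [hl] at hw1 hw2
      have hl0 : l ≠ 0 := fun h => hw1 (by rw [h]; rfl)
      have hll : l + l = 0 := r.inj (show r (l + l) = r 0 from hw2)
      rcases two_tors_pow k' l hll with h | h
      · exact absurd h hl0
      · have : r l ∈ H := by rw [← hl]; exact H.pow_mem hiH _
        rw [← h]; exact this
    rcases g with i | i
    · have h1 : j + i = j - i := sr.inj (show sr (j + i) = sr (j - i) from hcomm)
      have h2 : i + i = 0 := by linear_combination h1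
      rcases two_tors_pow k' i h2 with h | h
      · rw [h]; exact H.one_mem
      · rw [h]; exact hzH
    · have h1 : i - j = j - i := r.inj (show r (i - j) = r (j - i) from hcomm)
      have h2 : (i - j) + (i - j) = 0 := by linear_combination h1
      rcases two_tors_pow k' (i - j) h2 with h | h
      · rw [sub_eq_zero.1 h]; exact hj
      · have : sr i = sr j * r ((2 ^ k' : ℕ) : ZMod (2 ^ (k' + 1))) := by
          show sr i = sr (j + _)
          rw [← h]
          congr 1
          ring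
        rw [this]; exact H.mul_mem hj hzH

/-- The index of an element of the dihedral group. -/
def idx {n : ℕ} : DihedralGroup n → ZMod n
  | r i => i
  | sr i => i

theorem idx_mul {n : ℕ} (g h : DihedralGroup n) :
    idx (g * h) = idx g + idx h ∨ idx (g * h) = idx h - idx g := by
  rcases g with i | i <;> rcases h with j | j
  · left; rfl
  · right; rfl
  · left; rfl
  · right; rfl

theorem idx_inv {n : ℕ} (g : DihedralGroup n) : idx g⁻¹ = - idx g ∨ idx g⁻¹ = idx g := by
  rcases g with i | i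
  · left; rfl
  · right; rfl

/-- The subgroup of elements whose index is killed by `φ`. -/
def kerSub {n : ℕ} {R : Type*} [Ring R] (φ : ZMod n →+* R) : Subgroup (DihedralGroup n) where
  carrier := {g | φ (idx g) = 0}
  mul_mem' := by
    intro g h hg hh
    simp only [Set.mem_setOf_eq] at hg hh ⊢
    rcases idx_mul g h with e | e
    · rw [e, map_add, hg, hh, add_zero]
    · rw [e, map_sub, hg, hh, sub_zero]
  one_mem' := by
    show φ (idx (1 : DihedralGroup n)) = 0
    exact map_zero φ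
  inv_mem' := by
    intro g hg
    simp only [Set.mem_setOf_eq] at hg ⊢
    rcases idx_inv g with e | e
    · rw [e, map_neg, hg, neg_zero]
    · rw [e, hg]

theorem nec {n : ℕ} (hn : 3 ≤ n)
    (hall : ∀ H : Subgroup (DihedralGroup n), ¬ IsCyclic ↥H →
      Subgroup.centralizer (H : Set (DihedralGroup n)) ≤ H) :
    Odd n ∨ ∃ k : ℕ, n = 2 ^ k := by
  by_contra hcon
  push_neg at hcon
  obtain ⟨hnodd, hnpow⟩ := hcon
  haveI : NeZero n := ⟨by omega⟩
  obtain ⟨e, m, hm, hnem⟩ := Nat.exists_eq_two_pow_mul_odd (show n ≠ 0 by omega)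
  have he : e ≠ 0 := by
    rintro rfl
    apply hnodd
    rw [hnem]; simpa using hm
  obtain ⟨e', rfl⟩ : ∃ e', e = e' + 1 := ⟨e - 1, by omega⟩
  have hdvd : 2 ^ (e' + 1) ∣ n := ⟨m, hnem⟩
  obtain ⟨φ, hφ⟩ : ∃ φ : ZMod n →+* ZMod (2 ^ (e' + 1)), φ = ZMod.castHom hdvd (ZMod (2 ^ (e' + 1))) :=
    ⟨_, rfl⟩
  obtain ⟨H, hHdef⟩ : ∃ H : Subgroup (DihedralGroup n), H = kerSub φ := ⟨_, rfl⟩
  have hmemH : ∀ g, g ∈ H ↔ φ (idx g) = 0 := fun g => by rw [hHdef]; exact Iff.rfl
  have hs0 : sr (0 : ZMod n) ∈ H := (hmemH _).2 (map_zero φ)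
  have hr : r ((2 ^ (e' + 1) : ℕ) : ZMod n) ∈ H := by
    rw [hmemH]
    show φ ((2 ^ (e' + 1) : ℕ) : ZMod n) = 0
    rw [map_natCast]
    exact ZMod.natCast_self (2 ^ (e' + 1))
  have hHnc : ¬ IsCyclic ↥H := by
    intro hcyc
    obtain ⟨g, hg⟩ := IsCyclic.exists_generator (α := ↥H)
    obtain ⟨a, ha⟩ := Subgroup.mem_zpowers_iff.1 (hg ⟨sr 0, hs0⟩)
    obtain ⟨b, hb⟩ := Subgroup.mem_zpowers_iff.1 (hg ⟨r _, hr⟩)
    have h1 : (⟨sr 0, hs0⟩ : ↥H) * ⟨r _, hr⟩ = ⟨r _, hr⟩ * ⟨sr 0, hs0⟩ := by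
      rw [← ha, ← hb]
      exact ((Commute.refl g).zpow_zpow a b).eq
    have hcomm : sr (0 : ZMod n) * r ((2 ^ (e' + 1) : ℕ) : ZMod n)
        = r ((2 ^ (e' + 1) : ℕ) : ZMod n) * sr 0 := congrArg Subtype.val h1
    have h2 : (0 : ZMod n) + ((2 ^ (e' + 1) : ℕ) : ZMod n) = 0 - ((2 ^ (e' + 1) : ℕ) : ZMod n) :=
      sr.inj (show sr _ = sr _ from hcomm)
    have h3 : ((2 ^ (e' + 1 + 1) : ℕ) : ZMod n) = 0 := by
      rw [pow_succ, Nat.cast_mul]
      push_cast at h2 ⊢
      linear_combination h2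
    have h4 : n ∣ 2 ^ (e' + 1 + 1) := (ZMod.natCast_eq_zero_iff _ _).1 h3
    obtain ⟨t, -, ht⟩ := (Nat.dvd_prime_pow Nat.prime_two).1 h4
    exact hnpow t ht
  have hzc : r ((2 ^ e' * m : ℕ) : ZMod n) ∈ Subgroup.centralizer (H : Set (DihedralGroup n)) := by
    rw [Subgroup.mem_centralizer_iff]
    have hh : ((2 ^ e' * m : ℕ) : ZMod n) + ((2 ^ e' * m : ℕ) : ZMod n) = 0 := by
      rw [← Nat.cast_add, show 2 ^ e' * m + 2 ^ e' * m = n by rw [hnem]; ring]
      exact ZMod.natCast_self n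
    intro g _
    rcases g with j | j
    · show r (j + _) = r (_ + j)
      rw [add_comm]
    · show sr (j + _) = sr (j - _)
      congr 1
      linear_combination hh
  have hz := hall H hHnc hzc
  rw [hmemH] at hz
  have hz' : ((2 ^ e' * m : ℕ) : ZMod (2 ^ (e' + 1))) = 0 := by
    have : φ ((2 ^ e' * m : ℕ) : ZMod n) = ((2 ^ e' * m : ℕ) : ZMod (2 ^ (e' + 1))) :=
      map_natCast φ _
    rw [← this]; exact hz
  have h4 : 2 ^ (e' + 1) ∣ 2 ^ e' * m := (ZMod.natCast_eq_zero_iff _ _).1 hz'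
  have h5 : 2 ∣ m := by
    rw [pow_succ] at h4
    exact (Nat.mul_dvd_mul_iff_left (pow_pos (by norm_num) e')).1 h4
  exact (Nat.not_even_iff_odd.2 hm) (even_iff_two_dvd.2 h5)

/-- Say that a group has self-centralizing non-cyclic subgroups when every non-cyclic subgroup H satisfies C_G(H) ≤ H. For n ≥ 3, the dihedral group of order 2n has self-centralizing non-cyclic subgroups if and only if n is odd or a power of 2. -/
theorem result (n : ℕ) (hn : 3 ≤ n) : (∀ H : Subgroup (DihedralGroup n), ¬ IsCyclic ↥H → Subgroup.centralizer (H : Set (DihedralGroup n)) ≤ H) ↔ (Odd n ∨ ∃ k : ℕ, n = 2 ^ k) :=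
  ⟨nec hn, fun h H hH => suff hn h H hH⟩

end Cfsg.Agent.S3920
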