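import Cfsg.Statements.S3937
import Cfsg.Agent.Helper1.Fitting
import Cfsg.Agent.Helper14.Conj
import Cfsg.Agent.Helper14.PElem

set_option autoImplicit false
open Cfsg

namespace Cfsg.Agent.S3937

open Cfsg.Agent.Helper14

universe u

/-- The Engel map `a ↦ [a, g]`. -/
def eng {G : Type*} [Group G] (g : G) (a : G) : G := a * g * a⁻¹ * g⁻¹

theorem foldl_eq {G : Type*} [Group G] (g : G) (n : ℕ) (x : G) :
    (List.replicate n g).foldl (fun a b => a * b * a⁻¹ * b⁻¹) x = (eng g)^[n] x := by
  induction n generalizing x with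
  | zero => rfl
  | succ n ih =>
    rw [List.replicate_succ, List.foldl_cons, ih, Function.iterate_succ_apply]
    rfl

theorem eng_coe {G : Type*} [Group G] (L : Subgroup G) (g x : ↥L) (n : ℕ) :
    (((eng g)^[n] x : ↥L) : G) = (eng (g : G))^[n] (x : G) := by
  induction n generalizing x with
  | zero => rfl
  | succ n ih =>
    rw [Function.iterate_succ_apply, Function.iterate_succ_apply, ih]
    rfl

theorem nilpotent_map {G H : Type*} [Group G] [Group H] (f : G →* H)
    (hf : Function.Injective f) (N : Subgroup G) (hN : Group.IsNilpotent ↥N) :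
    Group.IsNilpotent ↥(N.map f) :=
  Group.nilpotent_of_mulEquiv (N.equivMapOfInjective f hf)

/-- `S` lies in a nilpotent subgroup of `L` normalized by `L`. -/
def InF {G : Type*} [Group G] (S L : Subgroup G) : Prop :=
  ∃ N : Subgroup G, S ≤ N ∧ N ≤ L ∧ L ≤ Subgroup.normalizer (N : Set G) ∧ Group.IsNilpotent ↥N

theorem inF_iff {G : Type*} [Group G] [Finite G] (S L : Subgroup G) :
    InF S L ↔ S ≤ (Cfsg.fittingSubgroup ↥L).map L.subtype := by
  constructor
  · rintro ⟨N, hSN, hNL, hLN, hnil⟩
    have hnorm : (N.subgroupOf L).Normal :=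
      (Subgroup.normal_subgroupOf_iff_le_normalizer hNL).mpr hLN
    have hnil' : Group.IsNilpotent ↥(N.subgroupOf L) :=
      Group.nilpotent_of_mulEquiv (Subgroup.subgroupOfEquivOfLe hNL).symm
    have hle := Cfsg.Agent.Helper1.le_fitting hnorm hnil'
    intro s hs
    have hsL : s ∈ L := hNL (hSN hs)
    exact Subgroup.mem_map.mpr
      ⟨⟨s, hsL⟩, hle (Subgroup.mem_subgroupOf.mpr (hSN hs)), rfl⟩
  · intro h
    refine ⟨(Cfsg.fittingSubgroup ↥L).map L.subtype, h, Subgroup.map_subtype_le _, ?_, ?_⟩
    · have hFn : (Cfsg.fittingSubgroup ↥L).Normal := Cfsg.Agent.Helper1.fitting_normal ↥L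
      have key : ∀ l ∈ L, ∀ y ∈ (Cfsg.fittingSubgroup ↥L).map L.subtype,
          l * y * l⁻¹ ∈ (Cfsg.fittingSubgroup ↥L).map L.subtype := by
        intro l hl y hy
        obtain ⟨f, hf, rfl⟩ := Subgroup.mem_map.mp hy
        exact Subgroup.mem_map.mpr
          ⟨(⟨l, hl⟩ : ↥L) * f * (⟨l, hl⟩ : ↥L)⁻¹, hFn.conj_mem f hf ⟨l, hl⟩, rfl⟩
      intro l hl
      apply mem_normalizer_of_forall _ l (key l hl)
      intro y hy
      have := key l⁻¹ (L.inv_mem hl) y hy
      rwa [inv_inv] at this
    · exact nilpotent_map L.subtype L.subtype_injective _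
        Cfsg.Agent.Helper1.fitting_isNilpotent

theorem inF_conj {G : Type*} [Group G] (S L : Subgroup G) (x : G) (h : InF S L) :
    InF (S.map (MulAut.conj x).toMonoidHom) (L.map (MulAut.conj x).toMonoidHom) := by
  obtain ⟨N, hSN, hNL, hLN, hnil⟩ := h
  refine ⟨N.map (MulAut.conj x).toMonoidHom, Subgroup.map_mono hSN, Subgroup.map_mono hNL,
    ?_, ?_⟩
  · rw [normalizer_map_conj]
    exact Subgroup.map_mono hLN
  · exact nilpotent_map _ (MulAut.conj x).injective N hnil

theorem mem_normalizer_of_map_conj_eq {G : Type*} [Group G] (S : Subgroup G) (k : G)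
    (h : S.map (MulAut.conj k).toMonoidHom = S) : k ∈ Subgroup.normalizer (S : Set G) := by
  rw [Subgroup.mem_normalizer_iff]
  intro y
  constructor
  · intro hy
    rw [← h]
    exact conj_mem_map_conj S k hy
  · intro hy
    rw [← h, mem_map_conj] at hy
    have e : k⁻¹ * (k * y * k⁻¹) * k = y := by group
    rwa [e] at hy

theorem nilp_normalizer {G : Type*} [Group G] (U N : Subgroup G) (hUN : U ≤ N) (hne : U ≠ N)
    (hnil : Group.IsNilpotent ↥N) :
    ∃ n ∈ N, n ∉ U ∧ n ∈ Subgroup.normalizer (U : Set G) := by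
  have hlt : U.subgroupOf N < ⊤ := by
    rw [lt_top_iff_ne_top]
    intro h
    exact hne (le_antisymm hUN (Subgroup.subgroupOf_eq_top.mp h))
  have h1 := Group.normalizerCondition_of_isNilpotent (G := ↥N) (U.subgroupOf N) hlt
  obtain ⟨n, hn1, hn2⟩ := SetLike.exists_of_lt h1
  refine ⟨(n : G), n.2, ?_, ?_⟩
  · intro h; exact hn2 (Subgroup.mem_subgroupOf.mpr h)
  · have key : ∀ m : ↥N,
        m ∈ Subgroup.normalizer ((U.subgroupOf N : Subgroup ↥N) : Set ↥N) →
        ∀ u ∈ U, (m : G) * u * (m : G)⁻¹ ∈ U := by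
      intro m hm u hu
      have h2 := (Subgroup.mem_normalizer_iff.mp hm ⟨u, hUN hu⟩).mp
        (Subgroup.mem_subgroupOf.mpr hu)
      exact Subgroup.mem_subgroupOf.mp h2
    apply mem_normalizer_of_forall U (n : G) (key n hn1)
    intro u hu
    have := key n⁻¹ (Subgroup.inv_mem _ hn1) u hu
    simpa using this

theorem fitting_char (A : Type*) [Group A] : (Cfsg.fittingSubgroup A).Characteristic := by
  rw [Subgroup.characteristic_iff_map_le]
  intro φ
  unfold Cfsg.fittingSubgroup
  rw [(Subgroup.gc_map_comap φ.toMonoidHom).l_sSup]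
  apply iSup₂_le
  rintro N ⟨hN, hnil⟩
  apply le_sSup
  exact ⟨hN.map φ.toMonoidHom φ.surjective, nilpotent_map φ.toMonoidHom φ.injective N hnil⟩

theorem conj_le_of_le {G : Type*} [Group G] (S K : Subgroup G) (k : G) (hk : k ∈ K)
    (hSK : S ≤ K) : S.map (MulAut.conj k).toMonoidHom ≤ K := by
  intro y hy
  rw [mem_map_conj] at hy
  have h1 : k⁻¹ * y * k ∈ K := hSK hy
  have e : y = k * (k⁻¹ * y * k) * k⁻¹ := by group
  rw [e]; exact K.mul_mem (K.mul_mem hk h1) (K.inv_mem hk)

/-- Wielandt's zipper lemma, in Fitting form. -/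
theorem zipper {G : Type*} [Group G] [Finite G] :
    ∀ (d : ℕ) (S : Subgroup G), Nat.card G - Nat.card S = d →
      (∀ L : Subgroup G, L ≠ ⊤ → S ≤ L → InF S L) → ¬ InF S ⊤ →
      ∀ M K : Subgroup G, IsCoatom M → IsCoatom K → S ≤ M → S ≤ K → M = K := by
  intro d
  induction d using Nat.strong_induction_on with
  | _ d ih =>
    intro S hd hprop hnot M K hM hK hSM hSK
    have hSne : S ≠ ⊤ := by
      rintro rfl
      exact hM.1 (top_le_iff.mp hSM)
    have hSnil : Group.IsNilpotent ↥S := by
      obtain ⟨N, hSN, hNS, -, hnil⟩ := hprop S hSne le_rfl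
      obtain rfl : N = S := le_antisymm hNS hSN
      exact hnil
    have hnorm_ne : Subgroup.normalizer (S : Set G) ≠ ⊤ := by
      intro h
      exact hnot ⟨S, le_rfl, le_top, by rw [h], hSnil⟩
    obtain ⟨M₀, hM₀, hNM₀⟩ : ∃ M₀ : Subgroup G, IsCoatom M₀ ∧
        Subgroup.normalizer (S : Set G) ≤ M₀ := by
      rcases eq_top_or_exists_le_coatom (Subgroup.normalizer (S : Set G)) with h | h
      · exact absurd h hnorm_ne
      · exact h
    have key : ∀ K : Subgroup G, IsCoatom K → S ≤ K → K = M₀ := by
      intro K hK hSK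
      by_cases hKn : K ≤ Subgroup.normalizer (S : Set G)
      · exact ((hK.le_iff_eq hM₀.1).mp (hKn.trans hNM₀)).symm
      · obtain ⟨N, hSN, hNK, hKN, hnil⟩ := hprop K hK.1 hSK
        have hconjN : ∀ k ∈ K, S.map (MulAut.conj k).toMonoidHom ≤ N := by
          intro k hk y hy
          rw [mem_map_conj] at hy
          have h1 : k⁻¹ * y * k ∈ N := hSN hy
          have h2 := (Subgroup.mem_normalizer_iff.mp (hKN hk) (k⁻¹ * y * k)).mp h1
          have e : k * (k⁻¹ * y * k) * k⁻¹ = y := by group
          rwa [e] at h2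
        have hcard : ∀ k : G, Nat.card ↥(S.map (MulAut.conj k).toMonoidHom) = Nat.card ↥S :=
          fun k => Subgroup.card_map_of_injective (MulAut.conj k).injective
        have heq_of_le : ∀ k : G, S.map (MulAut.conj k).toMonoidHom ≤ S →
            S.map (MulAut.conj k).toMonoidHom = S := by
          intro k hle
          exact Subgroup.eq_of_le_of_card_ge hle (hcard k).ge
        obtain ⟨k₀, hk₀K, hk₀⟩ : ∃ k ∈ K, S.map (MulAut.conj k).toMonoidHom ≠ S := by
          by_contra hcon
          apply hKn
          intro k hk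
          have h1 : S.map (MulAut.conj k).toMonoidHom = S := by
            by_contra h2; exact hcon ⟨k, hk, h2⟩
          exact mem_normalizer_of_map_conj_eq S k h1
        obtain ⟨U, ⟨hSU, hUN, hUprop⟩, hUmax⟩ := Set.exists_max_image
          {U : Subgroup G | S ≤ U ∧ U ≤ N ∧ ∀ k ∈ K, S.map (MulAut.conj k).toMonoidHom ≤ U →
            S.map (MulAut.conj k).toMonoidHom = S}
          (fun U => Nat.card ↥U) (Set.toFinite _) ⟨S, le_rfl, hSN, fun k _ hle => heq_of_le k hle⟩
        have hUneN : U ≠ N := by
          rintro rfl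
          exact hk₀ (hUprop k₀ hk₀K (hconjN k₀ hk₀K))
        obtain ⟨n, hnN, hnU, hnorm⟩ := nilp_normalizer U N hUN hUneN hnil
        obtain ⟨k, hkK, hkle, hkne⟩ : ∃ k ∈ K,
            S.map (MulAut.conj k).toMonoidHom ≤ Subgroup.normalizer (U : Set G) ⊓ N ∧
            S.map (MulAut.conj k).toMonoidHom ≠ S := by
          by_contra hcon
          have hall : ∀ k ∈ K,
              S.map (MulAut.conj k).toMonoidHom ≤ Subgroup.normalizer (U : Set G) ⊓ N →
              S.map (MulAut.conj k).toMonoidHom = S := by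
            intro k hk hle
            by_contra hne
            exact hcon ⟨k, hk, hle, hne⟩
          have hle' : U ≤ Subgroup.normalizer (U : Set G) ⊓ N := le_inf Subgroup.le_normalizer hUN
          have h1 := hUmax (Subgroup.normalizer (U : Set G) ⊓ N)
            ⟨le_inf (hSU.trans Subgroup.le_normalizer) hSN, inf_le_right, hall⟩
          have h2 : U = Subgroup.normalizer (U : Set G) ⊓ N :=
            Subgroup.eq_of_le_of_card_ge hle' h1
          apply hnU
          rw [h2]
          exact Subgroup.mem_inf.mpr ⟨hnorm, hnN⟩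
        have hS'norm : S.map (MulAut.conj k).toMonoidHom ≤ Subgroup.normalizer (S : Set G) := by
          intro s' hs'
          have hs'U : s' ∈ Subgroup.normalizer (U : Set G) := (Subgroup.mem_inf.mp (hkle hs')).1
          have hs'K : s' ∈ K := conj_le_of_le S K k hkK hSK hs'
          have h2 : S.map (MulAut.conj s').toMonoidHom ≤ U := by
            intro y hy
            rw [mem_map_conj] at hy
            have h3 : s'⁻¹ * y * s' ∈ U := hSU hy
            have h4 := (Subgroup.mem_normalizer_iff.mp hs'U (s'⁻¹ * y * s')).mp h3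
            have e : s' * (s'⁻¹ * y * s') * s'⁻¹ = y := by group
            rwa [e] at h4
          exact mem_normalizer_of_map_conj_eq S s' (hUprop s' hs'K h2)
        obtain ⟨S', hS'⟩ : ∃ S' : Subgroup G, S' = S.map (MulAut.conj k).toMonoidHom := ⟨_, rfl⟩
        rw [← hS'] at hkle hkne hS'norm
        have hS'K : S' ≤ K := by rw [hS']; exact conj_le_of_le S K k hkK hSK
        have hTM₀ : S ⊔ S' ≤ M₀ :=
          sup_le (Subgroup.le_normalizer.trans hNM₀) (hS'norm.trans hNM₀)
        have hTK : S ⊔ S' ≤ K := sup_le hSK hS'K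
        have hST : S < S ⊔ S' := by
          refine lt_of_le_of_ne le_sup_left ?_
          intro h
          apply hkne
          rw [hS']
          apply heq_of_le k
          rw [← hS']
          calc S' ≤ S ⊔ S' := le_sup_right
            _ = S := h.symm
        have hTprop : ∀ L : Subgroup G, L ≠ ⊤ → S ⊔ S' ≤ L → InF (S ⊔ S') L := by
          intro L hL hTL
          have h1 : InF S L := hprop L hL (le_sup_left.trans hTL)
          have h2 : InF S' L := by
            have hL' : L.map (MulAut.conj k⁻¹).toMonoidHom ≠ ⊤ := by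
              intro h
              apply hL
              rw [eq_top_iff]
              intro y _
              have hz : k⁻¹ * y * k ∈ L.map (MulAut.conj k⁻¹).toMonoidHom := by
                rw [h]; exact Subgroup.mem_top _
              rw [mem_map_conj, inv_inv] at hz
              have e : k * (k⁻¹ * y * k) * k⁻¹ = y := by group
              rwa [e] at hz
            have hSL' : S ≤ L.map (MulAut.conj k⁻¹).toMonoidHom := by
              intro s hs
              rw [mem_map_conj, inv_inv]
              apply hTL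
              apply Subgroup.mem_sup_right
              rw [hS']
              exact conj_mem_map_conj S k hs
            have h3 := inF_conj S _ k (hprop _ hL' hSL')
            rw [map_conj_map_conj_inv] at h3
            rw [hS']; exact h3
          rw [inF_iff] at h1 h2 ⊢
          exact sup_le h1 h2
        have hTnot : ¬ InF (S ⊔ S') ⊤ := by
          rintro ⟨N', hTN', hN'top, hnN', hnil'⟩
          exact hnot ⟨N', le_sup_left.trans hTN', hN'top, hnN', hnil'⟩
        have hlt : Nat.card G - Nat.card ↥(S ⊔ S') < d := by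
          have h1 : Nat.card ↥S < Nat.card ↥(S ⊔ S') := by
            by_contra hcon
            exact hST.ne (Subgroup.eq_of_le_of_card_ge hST.le (not_lt.mp hcon))
          have h2 : Nat.card ↥(S ⊔ S') ≤ Nat.card G := Subgroup.card_le_card_group _
          omega
        exact ih _ hlt (S ⊔ S') rfl hTprop hTnot K M₀ hK hM₀ hTK hTM₀
    rw [key M hM hSM, key K hK hSK]

theorem baer_aux : ∀ (n : ℕ) (G : Type u) [Group G] [Finite G], Nat.card G = n →
    ∀ g : G, (∀ x : G, ∃ m : ℕ, (eng g)^[m] x = 1) → g ∈ Cfsg.fittingSubgroup G := by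
  intro n
  induction n using Nat.strong_induction_on with
  | _ n ih =>
    intro G _ _ hn g hE
    by_contra hgF
    obtain ⟨S, hSdef⟩ : ∃ S : Subgroup G, S = Subgroup.zpowers g := ⟨_, rfl⟩
    have hgS : g ∈ S := by rw [hSdef]; exact Subgroup.mem_zpowers g
    have hSle : ∀ L : Subgroup G, g ∈ L → S ≤ L := by
      intro L hL; rw [hSdef]; exact Subgroup.zpowers_le.mpr hL
    have hprop : ∀ L : Subgroup G, L ≠ ⊤ → S ≤ L → InF S L := by
      intro L hL hSL
      have hgL : g ∈ L := hSL hgS
      have hcard : Nat.card ↥L < n := by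
        rw [← hn]
        by_contra hcon
        exact hL (Subgroup.eq_top_of_le_card L (not_lt.mp hcon))
      have hEL : ∀ x : ↥L, ∃ m : ℕ, (eng (⟨g, hgL⟩ : ↥L))^[m] x = 1 := by
        intro x
        obtain ⟨m, hm⟩ := hE (x : G)
        refine ⟨m, Subtype.ext ?_⟩
        rw [eng_coe]
        exact hm
      have h1 := ih _ hcard ↥L rfl ⟨g, hgL⟩ hEL
      rw [inF_iff]
      apply hSle
      exact Subgroup.mem_map.mpr ⟨⟨g, hgL⟩, h1, rfl⟩
    have hnot : ¬ InF S ⊤ := by
      rintro ⟨N, hSN, -, hN, hnil⟩
      have hNn : N.Normal := Subgroup.normalizer_eq_top_iff.mp (top_le_iff.mp hN)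
      exact hgF (Cfsg.Agent.Helper1.le_fitting hNn hnil (hSN hgS))
    have huniq := zipper _ S rfl hprop hnot
    rcases eq_top_or_exists_le_coatom S with hStop | ⟨M, hM, hSM⟩
    · apply hgF
      have hcen : g ∈ Subgroup.center G := by
        rw [Subgroup.mem_center_iff]
        intro y
        have hy : y ∈ Subgroup.zpowers g := by rw [← hSdef, hStop]; exact Subgroup.mem_top y
        obtain ⟨i, rfl⟩ := Subgroup.mem_zpowers_iff.mp hy
        exact (Commute.zpow_self g i).eq
      have hcnil : Group.IsNilpotent ↥(Subgroup.center G) := ⟨⟨1, by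
        rw [Subgroup.upperCentralSeries_one, eq_top_iff]
        intro z _
        rw [Subgroup.mem_center_iff]
        intro w
        exact Subtype.ext (Subgroup.mem_center_iff.mp z.2 w)⟩⟩
      exact Cfsg.Agent.Helper1.le_fitting inferInstance hcnil hcen
    · have hgM : g ∈ M := hSM hgS
      have hMnn : ¬ M.Normal := by
        intro hMn
        have h1 := (inF_iff S M).mp (hprop M hM.1 hSM)
        have hch : (Cfsg.fittingSubgroup ↥M).Characteristic := fitting_char ↥M
        have hFn : ((Cfsg.fittingSubgroup ↥M).map M.subtype).Normal :=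
          ConjAct.normal_of_characteristic_of_normal
        have hnil := nilpotent_map M.subtype M.subtype_injective _
          (Cfsg.Agent.Helper1.fitting_isNilpotent (G := ↥M))
        exact hgF (Cfsg.Agent.Helper1.le_fitting hFn hnil (h1 hgS))
      obtain ⟨x, hxM⟩ : ∃ x : G, x ∉ M := by
        by_contra hcon
        apply hM.1
        rw [eq_top_iff]
        intro y _
        by_contra hy
        exact hcon ⟨y, hy⟩
      obtain ⟨m, hm⟩ := hE x
      have hex : ∃ j : ℕ, (eng g)^[j] x ∈ M := ⟨m, by rw [hm]; exact M.one_mem⟩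
      classical
      obtain ⟨j, hj, hjmin⟩ : ∃ j : ℕ, (eng g)^[j] x ∈ M ∧ ∀ i < j, (eng g)^[i] x ∉ M :=
        ⟨Nat.find hex, Nat.find_spec hex, fun i hi => Nat.find_min hex hi⟩
      have hj0 : j ≠ 0 := by
        rintro rfl
        exact hxM hj
      obtain ⟨i, rfl⟩ : ∃ i, j = i + 1 := Nat.exists_eq_succ_of_ne_zero hj0
      obtain ⟨y, hy⟩ : ∃ y : G, y = (eng g)^[i] x := ⟨_, rfl⟩
      have hyM : y ∉ M := by rw [hy]; exact hjmin i (Nat.lt_succ_self i)
      have hyg : y * g * y⁻¹ ∈ M := by
        have h1 : eng g y ∈ M := by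
          rw [hy, ← Function.iterate_succ_apply' (eng g) i x]; exact hj
        have e : y * g * y⁻¹ = eng g y * g := by unfold eng; group
        rw [e]; exact M.mul_mem h1 hgM
      have hM' : IsCoatom (M.map (MulAut.conj y⁻¹).toMonoidHom) :=
        ((MulEquiv.mapSubgroup (MulAut.conj y⁻¹)).isCoatom_iff M).mpr hM
      have hSM' : S ≤ M.map (MulAut.conj y⁻¹).toMonoidHom := by
        apply hSle
        rw [mem_map_conj, inv_inv]
        exact hyg
      have heq := huniq _ M hM' hM hSM' hSM
      have hyn : y⁻¹ ∈ Subgroup.normalizer (M : Set G) :=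
        mem_normalizer_of_map_conj_eq M y⁻¹ heq
      have hyn' : y ∈ Subgroup.normalizer (M : Set G) := by
        have := Subgroup.inv_mem _ hyn
        rwa [inv_inv] at this
      have hNtop : Subgroup.normalizer (M : Set G) = ⊤ := by
        rcases hM.le_iff.mp (Subgroup.le_normalizer (H := M)) with h | h
        · exact h
        · exfalso
          apply hyM
          rw [← h]
          exact hyn'
      exact hMnn (Subgroup.normalizer_eq_top_iff.mp hNtop)


/-- Baer's characterization of the Fitting subgroup: in a finite group G, an element g lies in the Fitting subgroup if and only if g is a left Engel element, that is, for every x there is n with [x, g, g, …, g] = 1 (n entries g, [a, b] = aba⁻¹b⁻¹). -/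
theorem result {G : Type*} [Group G] [Finite G] (g : G) :
    g ∈ Cfsg.fittingSubgroup G ↔ ∀ x : G, ∃ n : ℕ, (List.replicate n g).foldl (fun a b => a * b * a⁻¹ * b⁻¹) x = 1 := by
  constructor
  · intro hg x
    obtain ⟨F, hF⟩ : ∃ F : Subgroup G, F = Cfsg.fittingSubgroup G := ⟨_, rfl⟩
    have hFn : F.Normal := by rw [hF]; exact Cfsg.Agent.Helper1.fitting_normal G
    have hFnil : Group.IsNilpotent ↥F := by
      rw [hF]; exact Cfsg.Agent.Helper1.fitting_isNilpotent
    rw [← hF] at hg
    obtain ⟨c, hc⟩ := Subgroup.nilpotent_iff_lowerCentralSeries.mp hFnil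
    have key : ∀ (m k : ℕ) (a : ↥F), a ∈ Subgroup.lowerCentralSeries (⊤ : Subgroup ↥F) k →
        (eng (⟨g, hg⟩ : ↥F))^[m] a ∈ Subgroup.lowerCentralSeries (⊤ : Subgroup ↥F) (k + m) := by
      intro m
      induction m with
      | zero => intro k a ha; exact ha
      | succ m ih =>
        intro k a ha
        rw [Function.iterate_succ_apply]
        have h1 : eng (⟨g, hg⟩ : ↥F) a ∈ Subgroup.lowerCentralSeries (⊤ : Subgroup ↥F) (k + 1) := by
          rw [Subgroup.lowerCentralSeries_succ]
          have h2 := Subgroup.commutator_mem_commutator ha (Subgroup.mem_top (⟨g, hg⟩ : ↥F))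
          rw [commutatorElement_def] at h2
          exact h2
        have h3 := ih (k + 1) _ h1
        have e : k + 1 + m = k + (m + 1) := by omega
        rw [e] at h3
        exact h3
    have hEx : eng g x ∈ F := by
      unfold eng
      have h1 : x * g * x⁻¹ ∈ F := hFn.conj_mem g hg x
      exact F.mul_mem h1 (F.inv_mem hg)
    have h4 := key c 0 ⟨eng g x, hEx⟩ (by
      rw [Subgroup.lowerCentralSeries_zero]; exact Subgroup.mem_top _)
    rw [zero_add, hc, Subgroup.mem_bot] at h4
    refine ⟨c + 1, ?_⟩
    rw [foldl_eq, Function.iterate_succ_apply]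
    have h5 := congrArg Subtype.val h4
    rw [eng_coe] at h5
    exact h5
  · intro h
    apply baer_aux _ G rfl g
    intro x
    obtain ⟨m, hm⟩ := h x
    exact ⟨m, by rw [← foldl_eq]; exact hm⟩

end Cfsg.Agent.S3937
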