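import Cfsg.Statements.S3941
import Cfsg.Agent.Helper20.Basic
import Mathlib

set_option autoImplicit false
open Cfsg

namespace Cfsg.Agent.S3941

open Cfsg.Agent.Helper20
open Equiv

theorem sign_viaEmbeddingHom {α β : Type*} [Fintype α] [DecidableEq α] [Fintype β] [DecidableEq β]
    (e : Perm α) (ι : α ↪ β) : Perm.sign (Perm.viaEmbeddingHom ι e) = Perm.sign e := by
  classical
  have h := Perm.sign_extendDomain e (Equiv.ofInjective ι.1 ι.2)
  rw [Perm.viaEmbeddingHom_apply]
  unfold Perm.viaEmbedding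
  convert h

/-- the natural embedding of `A_m` into `A_{m+1}` -/
noncomputable def emb (m : ℕ) : ↥(alternatingGroup (Fin m)) →* ↥(alternatingGroup (Fin (m + 1))) :=
  ((Perm.viaEmbeddingHom (Fin.castSuccEmb (n := m))).comp (alternatingGroup (Fin m)).subtype).codRestrict
    (alternatingGroup (Fin (m + 1))) (fun x => by
      rw [Perm.mem_alternatingGroup]
      show Perm.sign (Perm.viaEmbeddingHom (Fin.castSuccEmb (n := m)) (x : Perm (Fin m))) = 1
      rw [sign_viaEmbeddingHom]
      exact Perm.mem_alternatingGroup.mp x.2)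

theorem emb_injective (m : ℕ) : Function.Injective (emb m) := by
  intro x y h
  have h2 := congrArg Subtype.val h
  exact Subtype.ext (Perm.viaEmbeddingHom_injective _ h2)

theorem a4_not_closed (P : Sylow 3 ↥(emb 4).range) (hPn : (P : Subgroup ↥(emb 4).range).Normal) :
    False := by
  haveI : Fact (Nat.Prime 3) := ⟨Nat.prime_three⟩
  have ha : (swap (0 : Fin 4) 1 * swap 1 2) ∈ alternatingGroup (Fin 4) := by
    rw [Perm.mem_alternatingGroup, Perm.sign_mul, Perm.sign_swap (by decide),
      Perm.sign_swap (by decide)]; rfl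
  have hb : (swap (0 : Fin 4) 1 * swap 1 3) ∈ alternatingGroup (Fin 4) := by
    rw [Perm.mem_alternatingGroup, Perm.sign_mul, Perm.sign_swap (by decide),
      Perm.sign_swap (by decide)]; rfl
  have h1 : (⟨_, ha⟩ : ↥(alternatingGroup (Fin 4))) ^ 3 = 1 :=
    Subtype.ext (show (swap (0 : Fin 4) 1 * swap 1 2) ^ 3 = 1 by decide)
  have h2 : (⟨_, hb⟩ : ↥(alternatingGroup (Fin 4))) ^ 3 = 1 :=
    Subtype.ext (show (swap (0 : Fin 4) 1 * swap 1 3) ^ 3 = 1 by decide)
  have h3 : ((⟨_, ha⟩ : ↥(alternatingGroup (Fin 4))) * ⟨_, hb⟩) ^ 2 = 1 :=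
    Subtype.ext (show ((swap (0 : Fin 4) 1 * swap 1 2) * (swap (0 : Fin 4) 1 * swap 1 3)) ^ 2 = 1 by decide)
  have h4 : ((⟨_, ha⟩ : ↥(alternatingGroup (Fin 4))) * ⟨_, hb⟩) ≠ 1 := by
    intro h
    have h5 : (swap (0 : Fin 4) 1 * swap 1 2) * (swap (0 : Fin 4) 1 * swap 1 3) = 1 :=
      congrArg Subtype.val h
    revert h5
    decide
  have hN : Subgroup.normalizer ((P : Subgroup ↥(emb 4).range) : Set ↥(emb 4).range) = ⊤ :=
    Subgroup.normalizer_eq_top_iff.mpr hPn
  have hαP : (MonoidHom.ofInjective (emb_injective 4)) ⟨_, ha⟩ ∈ (P : Subgroup ↥(emb 4).range) := by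
    apply mem_sylow_of_mem_normalizer 3 P _ 1
    · rw [pow_one, ← map_pow, h1, map_one]
    · rw [hN]; exact Subgroup.mem_top _
  have hβP : (MonoidHom.ofInjective (emb_injective 4)) ⟨_, hb⟩ ∈ (P : Subgroup ↥(emb 4).range) := by
    apply mem_sylow_of_mem_normalizer 3 P _ 1
    · rw [pow_one, ← map_pow, h2, map_one]
    · rw [hN]; exact Subgroup.mem_top _
  have hprod := Subgroup.mul_mem _ hαP hβP
  rw [← map_mul] at hprod
  obtain ⟨j, hj⟩ := orderOf_eq_pow_of_mem_sylow 3 P _ hprod
  have hd2 : orderOf ((MonoidHom.ofInjective (emb_injective 4))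
      ((⟨_, ha⟩ : ↥(alternatingGroup (Fin 4))) * ⟨_, hb⟩)) ∣ 2 := by
    apply orderOf_dvd_of_pow_eq_one
    rw [← map_pow, h3, map_one]
  rw [hj] at hd2
  have hj0 : j = 0 := by
    rcases Nat.eq_zero_or_pos j with h0 | h0
    · exact h0
    · exfalso
      have h3dvd : 3 ∣ 2 := (dvd_pow_self 3 h0.ne').trans hd2
      omega
  rw [hj0, pow_zero, orderOf_eq_one_iff] at hj
  apply h4
  apply (MonoidHom.ofInjective (emb_injective 4)).injective
  rw [hj, map_one]

/-- Let n ≥ 5 and p an odd prime with p ≤ n, and suppose that every proper subgroup of the alternating group of degree n whose order is divisible by p has a normal Sylow p-subgroup. Then n = p. -/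
theorem result (n p : ℕ) (hn : 5 ≤ n) [Fact p.Prime] (hp : p ≠ 2) (hpn : p ≤ n)
    (h : ∀ H : Subgroup ↥(alternatingGroup (Fin n)), H ≠ ⊤ → p ∣ Nat.card ↥H → Cfsg.IsPClosed p ↥H) : n = p := by
  have hpp : p.Prime := Fact.out
  by_contra hne
  have hlt : p < n := lt_of_le_of_ne hpn (Ne.symm hne)
  obtain ⟨m, rfl⟩ : ∃ m, n = m + 1 := ⟨n - 1, by omega⟩
  have hm4 : 4 ≤ m := by omega
  have hpm : p ≤ m := by omega
  haveI : Nontrivial (Fin m) := Fin.nontrivial_iff_two_le.mpr (by omega)
  haveI : Nontrivial (Fin (m + 1)) := Fin.nontrivial_iff_two_le.mpr (by omega)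
  have hcardA : 2 * Nat.card ↥(alternatingGroup (Fin m)) = m.factorial := by
    rw [two_mul_nat_card_alternatingGroup, Nat.card_perm, Nat.card_fin]
  have hcardA' : 2 * Nat.card ↥(alternatingGroup (Fin (m + 1))) = (m + 1).factorial := by
    rw [two_mul_nat_card_alternatingGroup, Nat.card_perm, Nat.card_fin]
  have hcardK : Nat.card ↥(emb m).range = Nat.card ↥(alternatingGroup (Fin m)) :=
    (Nat.card_congr (MonoidHom.ofInjective (emb_injective m)).toEquiv).symm
  have hKtop : (emb m).range ≠ ⊤ := by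
    intro htop
    have h1 : Nat.card ↥(emb m).range = Nat.card ↥(alternatingGroup (Fin (m + 1))) := by
      rw [htop, Subgroup.card_top]
    rw [hcardK] at h1
    have h2 : m.factorial = (m + 1).factorial := by rw [← hcardA, ← hcardA', h1]
    rw [Nat.factorial_succ] at h2
    have hpos := Nat.factorial_pos m
    nlinarith
  have hpK : p ∣ Nat.card ↥(emb m).range := by
    rw [hcardK]
    have h1 : p ∣ 2 * Nat.card ↥(alternatingGroup (Fin m)) := by
      rw [hcardA]; exact (Nat.Prime.dvd_factorial hpp).mpr hpm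
    rcases (Nat.Prime.dvd_mul hpp).mp h1 with h2 | h2
    · exact absurd ((Nat.prime_dvd_prime_iff_eq hpp Nat.prime_two).mp h2) hp
    · exact h2
  have hclosed := h _ hKtop hpK
  rcases Nat.lt_or_ge m 5 with hm | hm
  · have hm4' : m = 4 := by omega
    subst hm4'
    have hp3 : p = 3 := by
      have h2 : 2 ≤ p := hpp.two_le
      have h5 : p = 2 ∨ p = 3 ∨ p = 4 := by omega
      rcases h5 with h5 | h5 | h5
      · exact absurd h5 hp
      · exact h5
      · rw [h5] at hpp; exact absurd hpp (by decide)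
    subst hp3
    obtain ⟨P⟩ := (Sylow.nonempty : Nonempty (Sylow 3 ↥(emb 4).range))
    exact a4_not_closed P (hclosed P)
  · obtain ⟨P⟩ := (Sylow.nonempty : Nonempty (Sylow p ↥(emb m).range))
    have hPn := hclosed P
    haveI : IsSimpleGroup ↥(alternatingGroup (Fin m)) :=
      alternatingGroup.isSimpleGroup (by rw [Nat.card_fin]; exact hm)
    haveI : Nontrivial ↥(emb m).range :=
      Finite.one_lt_card_iff_nontrivial.mp
        (lt_of_lt_of_le hpp.one_lt (Nat.le_of_dvd Nat.card_pos hpK))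
    haveI : IsSimpleGroup ↥(emb m).range :=
      IsSimpleGroup.isSimpleGroup_of_surjective (emb m).rangeRestrict (emb m).rangeRestrict_surjective
    rcases hPn.eq_bot_or_eq_top with hb | ht
    · exact P.ne_bot_of_dvd_card hpK hb
    · obtain ⟨j, hj⟩ := IsPGroup.iff_card.mp P.isPGroup'
      have hcardP : Nat.card ↥(P : Subgroup ↥(emb m).range) = Nat.card ↥(emb m).range := by
        rw [ht, Subgroup.card_top]
      rw [hcardP, hcardK] at hj
      have h2 : 2 ∣ Nat.card ↥(alternatingGroup (Fin m)) := by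
        have h4 : 4 ∣ m.factorial := Nat.dvd_factorial (by norm_num) hm4
        rw [← hcardA] at h4
        obtain ⟨c, hc⟩ := h4
        exact ⟨c, by omega⟩
      rw [hj] at h2
      have h3 := (Nat.prime_dvd_prime_iff_eq Nat.prime_two hpp).mp (Nat.prime_two.dvd_of_dvd_pow h2)
      exact hp h3.symm

end Cfsg.Agent.S3941
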