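import Mathlib
import Cfsg.Statements.S3949

set_option autoImplicit false
open Cfsg

namespace Cfsg.Agent.S3949

theorem iter_of_inverted {G : Type*} [Group G] (α : MulAut G) (k : ℕ) :
    ∀ t : G, α t = t⁻¹ → (fun c : G => c * (α c)⁻¹)^[k] t = t ^ (2 ^ k) := by
  induction k with
  | zero => intro t _; simp
  | succ k ih =>
    intro t ht
    rw [Function.iterate_succ_apply]
    have h1 : t * (α t)⁻¹ = t ^ 2 := by rw [ht, inv_inv, pow_two]
    have h2 : α (t ^ 2) = (t ^ 2)⁻¹ := by rw [map_pow, ht, inv_pow]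
    show (fun c : G => c * (α c)⁻¹)^[k] (t * (α t)⁻¹) = _
    rw [h1, ih _ h2, ← pow_mul, pow_succ']

/-- Let G be a finite group and α an automorphism of G of order 2 such that the elements g·α(g)⁻¹ generate G. Let j be a positive integer such that 2^j divides the order of no element inverted by α. Then the set of values of the j-th iterate of the map c ↦ c·α(c)⁻¹ is exactly the set of elements of odd order inverted by α. -/
theorem result {G : Type*} [Group G] [Finite G] (α : MulAut G) (hα : orderOf α = 2) (hG : Subgroup.closure (Set.range (fun c : G => c * (α c)⁻¹)) = ⊤)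
    (j : ℕ) (hj : ∀ g : G, α g = g⁻¹ → ¬ 2 ^ j ∣ orderOf g) :
    Set.range ((fun c : G => c * (α c)⁻¹)^[j]) = {g : G | Odd (orderOf g) ∧ α g = g⁻¹} := by
  have hα2 : ∀ x : G, α (α x) = x := by
    intro x
    have h : α ^ 2 = 1 := by rw [← hα]; exact pow_orderOf_eq_one α
    have h' := congrArg (fun f : MulAut G => f x) h
    simpa [pow_two] using h'
  have hj0 : j ≠ 0 := by
    intro h0
    subst h0
    exact hj 1 (by simp) (by simp)
  obtain ⟨i, rfl⟩ := Nat.exists_eq_succ_of_ne_zero hj0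
  have hinv : ∀ c : G, α (c * (α c)⁻¹) = (c * (α c)⁻¹)⁻¹ := by
    intro c
    rw [map_mul, map_inv, hα2, mul_inv_rev, inv_inv]
  ext g
  constructor
  · rintro ⟨c, rfl⟩
    rw [Function.iterate_succ_apply]
    show Odd (orderOf ((fun c : G => c * (α c)⁻¹)^[i] (c * (α c)⁻¹))) ∧
      α ((fun c : G => c * (α c)⁻¹)^[i] (c * (α c)⁻¹)) = ((fun c : G => c * (α c)⁻¹)^[i] (c * (α c)⁻¹))⁻¹
    set t := c * (α c)⁻¹ with ht
    rw [iter_of_inverted α i t (hinv c)]
    refine ⟨?_, by rw [map_pow, hinv c, inv_pow]⟩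
    have hto : orderOf t ≠ 0 := (orderOf_pos t).ne'
    obtain ⟨a, m, hm, hom⟩ := Nat.exists_eq_two_pow_mul_odd hto
    have ha : a ≤ i := by
      by_contra hcon
      rw [not_le] at hcon
      apply hj t (hinv c)
      rw [hom]
      exact Dvd.dvd.mul_right (pow_dvd_pow 2 hcon) m
    have hdvd : orderOf (t ^ 2 ^ i) ∣ m := by
      apply orderOf_dvd_of_pow_eq_one
      rw [← pow_mul]
      have : 2 ^ i * m = orderOf t * 2 ^ (i - a) := by
        rw [hom]
        have : 2 ^ i = 2 ^ a * 2 ^ (i - a) := by rw [← pow_add]; congr 1; omega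
        rw [this]; ring
      rw [this, pow_mul, pow_orderOf_eq_one, one_pow]
    exact Odd.of_dvd_nat hm hdvd
  · rintro ⟨hodd, hg⟩
    have hcop : (2 ^ (i + 1)).Coprime (orderOf g) := by
      apply Nat.Coprime.pow_left
      exact (Nat.Prime.coprime_iff_not_dvd Nat.prime_two).mpr (by
        intro h2
        exact (Nat.not_even_iff_odd.mpr hodd) (even_iff_two_dvd.mpr h2))
    obtain ⟨m, hm⟩ := exists_pow_eq_self_of_coprime hcop
    refine ⟨g ^ m, ?_⟩
    have hgm : α (g ^ m) = (g ^ m)⁻¹ := by rw [map_pow, hg, inv_pow]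
    rw [iter_of_inverted α (i + 1) (g ^ m) hgm, ← pow_mul, mul_comm, pow_mul, hm]

end Cfsg.Agent.S3949
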