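import Cfsg.Statements.S3983
import Cfsg.Agent.Helper20.TI
import Mathlib

set_option autoImplicit false
open Cfsg
open scoped Pointwise

namespace Cfsg.Agent.S3983

open Cfsg.Agent.Helper20 in
/-- Let P be a Sylow p-subgroup of the finite group G that meets each conjugate g P g⁻¹ with g outside N_G(P) trivially, and let U be a subgroup of G of order divisible by p. Then a Sylow p-subgroup Q of U has the same property inside U: Q meets each conjugate u Q u⁻¹ with u ∈ U outside N_U(Q) trivially. -/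
theorem result {G : Type*} [Group G] [Finite G] (p : ℕ) [Fact p.Prime] (P : Sylow p G) (hTI : ∀ g : G, g ∉ Subgroup.normalizer ((P : Subgroup G) : Set G) → (P : Subgroup G) ⊓ (MulAut.conj g • (P : Subgroup G)) = ⊥) (U : Subgroup G) (hU : p ∣ Nat.card ↥U) (Q : Sylow p ↥U) : ∀ u : ↥U, u ∉ Subgroup.normalizer ((Q : Subgroup ↥U) : Set ↥U) → (Q : Subgroup ↥U) ⊓ (MulAut.conj u • (Q : Subgroup ↥U)) = ⊥ := by
  intro u hu
  by_contra hne
  obtain ⟨x, hx, hx1⟩ := exists_ne_one_of_ne_bot _ hne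
  obtain ⟨hxQ, hxQ2⟩ := Subgroup.mem_inf.mp hx
  obtain ⟨P', hP'⟩ := (Q.isPGroup'.map U.subtype).exists_le_sylow
  obtain ⟨a, ha⟩ := MulAction.exists_smul_eq G P P'
  have hR : (P' : Subgroup G) = MulAut.conj a • (P : Subgroup G) := by rw [← ha]; rfl
  have hQR : ∀ y : ↥U, y ∈ (Q : Subgroup ↥U) → (y : G) ∈ MulAut.conj a • (P : Subgroup G) := by
    intro y hy
    rw [← hR]
    exact hP' (Subgroup.mem_map_of_mem U.subtype hy)
  have hRp : IsPGroup p ↥(MulAut.conj a • (P : Subgroup G)) := by rw [← hR]; exact P'.isPGroup'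
  have hQeq : (MulAut.conj a • (P : Subgroup G)).subgroupOf U = (Q : Subgroup ↥U) := by
    apply Q.is_maximal' (hRp.comap_subtype)
    intro y hy
    exact Subgroup.mem_subgroupOf.mpr (hQR y hy)
  have hxR : (x : G) ∈ MulAut.conj a • (P : Subgroup G) := hQR x hxQ
  have hx2 : u⁻¹ * x * u ∈ (Q : Subgroup ↥U) := (mem_conj_smul _ _ _).mp hxQ2
  have hx2R := hQR _ hx2
  have hxR2 : (x : G) ∈ MulAut.conj ((u : G) * a) • (P : Subgroup G) := by
    rw [mem_conj_smul]
    rw [mem_conj_smul] at hx2R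
    have e : ((u : G) * a)⁻¹ * (x : G) * ((u : G) * a) = a⁻¹ * ((u⁻¹ * x * u : ↥U) : G) * a := by
      push_cast; group
    rw [e]; exact hx2R
  have hx1' : (x : G) ≠ 1 := fun h => hx1 (Subtype.ext h)
  have hReq := ti_elt (P : Subgroup G) hTI a ((u : G) * a) (x : G) hx1' hxR hxR2
  apply hu
  rw [Subgroup.mem_normalizer_iff]
  intro h
  have e : ((u : G) * a)⁻¹ * ((u * h * u⁻¹ : ↥U) : G) * ((u : G) * a) = a⁻¹ * (h : G) * a := by
    push_cast; group
  have key : (h : G) ∈ MulAut.conj a • (P : Subgroup G) ↔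
      ((u * h * u⁻¹ : ↥U) : G) ∈ MulAut.conj a • (P : Subgroup G) := by
    constructor
    · intro hh
      rw [hReq, mem_conj_smul, e]
      rw [mem_conj_smul] at hh
      exact hh
    · intro hh
      rw [hReq, mem_conj_smul, e] at hh
      rw [mem_conj_smul]
      exact hh
  have m1 : ∀ y : ↥U, y ∈ (Q : Subgroup ↥U) ↔ (y : G) ∈ MulAut.conj a • (P : Subgroup G) := by
    intro y
    rw [← hQeq, Subgroup.mem_subgroupOf]
  show h ∈ (Q : Subgroup ↥U) ↔ u * h * u⁻¹ ∈ (Q : Subgroup ↥U)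
  rw [m1, m1]
  exact key

end Cfsg.Agent.S3983
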