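import Cfsg.Statements.S3985
import Cfsg.Agent.Helper20.TI
import Mathlib

set_option autoImplicit false
open Cfsg
open scoped Pointwise

namespace Cfsg.Agent.S3985

open Cfsg.Agent.Helper20

theorem conj_pow_iter {G : Type*} [Group G] (g c : G) (k : ℤ) (h : g * c * g⁻¹ = c ^ k) (m : ℕ) :
    g ^ m * c * (g ^ m)⁻¹ = c ^ (k ^ m) := by
  induction m with
  | zero => simp
  | succ m ih =>
    have e : g ^ (m + 1) * c * (g ^ (m + 1))⁻¹ = g * (g ^ m * c * (g ^ m)⁻¹) * g⁻¹ := by
      rw [pow_succ']; group
    rw [e, ih, ← conj_zpow, h, ← zpow_mul, pow_succ']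

/-- Let P be a cyclic Sylow p-subgroup of the finite group G. Then P meets each conjugate g P g⁻¹ with g outside N_G(P) trivially if and only if P is weakly self-centralizing: C_G(x) = C_G(P) for every non-identity x ∈ P. -/
theorem result {G : Type*} [Group G] [Finite G] (p : ℕ) [Fact p.Prime] (P : Sylow p G) (hcyc : IsCyclic ↥(P : Subgroup G)) : (∀ g : G, g ∉ Subgroup.normalizer ((P : Subgroup G) : Set G) → (P : Subgroup G) ⊓ (MulAut.conj g • (P : Subgroup G)) = ⊥) ↔ ∀ x : G, x ∈ (P : Subgroup G) → x ≠ 1 → Subgroup.centralizer ({x} : Set G) = Subgroup.centralizer ((P : Subgroup G) : Set G) := by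
  have hp : p.Prime := Fact.out
  obtain ⟨c, hc⟩ := hcyc.exists_generator
  have hA : ∀ x : G, x ∈ (P : Subgroup G) → ∃ k : ℤ, x = (c : G) ^ k := by
    intro x hx
    obtain ⟨k, hk⟩ := Subgroup.mem_zpowers_iff.mp (hc ⟨x, hx⟩)
    refine ⟨k, ?_⟩
    have := congrArg Subtype.val hk
    rw [Subgroup.coe_zpow] at this
    exact this.symm
  have hB : ∀ x y : G, x ∈ (P : Subgroup G) → y ∈ (P : Subgroup G) → x * y = y * x := by
    intro x y hx hy
    obtain ⟨k, rfl⟩ := hA x hx
    obtain ⟨l, rfl⟩ := hA y hy
    rw [← zpow_add, ← zpow_add, add_comm]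
  have hCc : ∀ g : G, g * (c : G) = (c : G) * g → g ∈ Subgroup.centralizer ((P : Subgroup G) : Set G) := by
    intro g hg
    rw [Subgroup.mem_centralizer_iff]
    intro y hy
    obtain ⟨k, rfl⟩ := hA y hy
    have h1 : Commute g (c : G) := hg
    exact (h1.zpow_right k).eq.symm
  constructor
  · intro hTI x hx hx1
    apply le_antisymm
    · intro g hg
      rw [Subgroup.mem_centralizer_iff] at hg
      have hgx : x * g = g * x := hg x (Set.mem_singleton x)
      apply hCc
      -- g normalizes P
      have hgN : g ∈ Subgroup.normalizer ((P : Subgroup G) : Set G) := by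
        by_contra hn
        have h := hTI g hn
        have h2 : x ∈ (P : Subgroup G) ⊓ (MulAut.conj g • (P : Subgroup G)) := by
          refine Subgroup.mem_inf.mpr ⟨hx, ?_⟩
          rw [mem_conj_smul]
          have e : g⁻¹ * x * g = x := by rw [mul_assoc, hgx, inv_mul_cancel_left]
          rw [e]; exact hx
        rw [h, Subgroup.mem_bot] at h2
        exact hx1 h2
      have hgc : g * (c : G) * g⁻¹ ∈ (P : Subgroup G) :=
        (Subgroup.mem_normalizer_iff.mp hgN (c : G)).mp c.2
      obtain ⟨k, hk⟩ := hA _ hgc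
      obtain ⟨j, hj⟩ := hA x hx
      -- order of c is a power of p
      obtain ⟨e, he⟩ : ∃ e : ℕ, orderOf (c : G) = p ^ e := by
        obtain ⟨e0, he0⟩ := P.isPGroup' c
        have h1 : (c : G) ^ (p ^ e0) = 1 := by
          have := congrArg Subtype.val he0
          rw [Subgroup.coe_pow] at this
          exact this
        have h2 := orderOf_dvd_of_pow_eq_one h1
        obtain ⟨e, _, he⟩ := (Nat.dvd_prime_pow hp).mp h2
        exact ⟨e, he⟩
      have hj1 : ¬ ((p : ℤ) ^ e ∣ j) := by
        intro hdv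
        apply hx1
        rw [hj]
        apply orderOf_dvd_iff_zpow_eq_one.mp
        rw [he]; push_cast; exact hdv
      have hkj : ((p : ℤ) ^ e) ∣ (k - 1) * j := by
        have h1 : g * x * g⁻¹ = x := by rw [← hgx]; group
        rw [hj, ← conj_zpow, hk, ← zpow_mul] at h1
        have h2 : (c : G) ^ (k * j - j) = 1 := by
          rw [zpow_sub, h1, mul_inv_cancel]
        have h3 := orderOf_dvd_iff_zpow_eq_one.mpr h2
        rw [he] at h3
        push_cast at h3
        have e2 : (k - 1) * j = k * j - j := by ring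
        rw [e2]; exact h3
      have hpk : (p : ℤ) ∣ k - 1 := by
        by_contra hnd
        have hpi : Prime (p : ℤ) := Nat.prime_iff_prime_int.mp hp
        have hcop : IsCoprime (p : ℤ) (k - 1) := (hpi.irreducible.coprime_iff_not_dvd).mpr hnd
        have hcop2 : IsCoprime ((p : ℤ) ^ e) (k - 1) := hcop.pow_left
        exact hj1 (hcop2.dvd_of_dvd_mul_left hkj)
      have he1 : 1 ≤ e := by
        rcases Nat.eq_zero_or_pos e with h0 | h0
        · exfalso
          apply hj1
          rw [h0, pow_zero]; exact one_dvd _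
        · exact h0
      -- g^(p^(e-1)) commutes with c
      have hd := dvd_sub_pow_of_dvd_sub (R := ℤ) (p := p) (a := k) (b := 1) hpk (e - 1)
      rw [Nat.sub_add_cancel he1, one_pow] at hd
      have hiter := conj_pow_iter g (c : G) k hk (p ^ (e - 1))
      have hc1 : (c : G) ^ (k ^ (p ^ (e - 1))) = (c : G) := by
        have h1 : (c : G) ^ (k ^ (p ^ (e - 1)) - 1) = 1 := by
          apply orderOf_dvd_iff_zpow_eq_one.mp
          rw [he]; push_cast; exact hd
        rw [zpow_sub, zpow_one, mul_inv_eq_one] at h1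
        exact h1
      rw [hc1] at hiter
      have hcomm1 : Commute (g ^ (p ^ (e - 1))) (c : G) := by
        have : g ^ (p ^ (e - 1)) * (c : G) = (c : G) * g ^ (p ^ (e - 1)) := by
          have h2 := congrArg (fun z => z * g ^ (p ^ (e - 1))) hiter
          simp only [inv_mul_cancel_right] at h2
          exact h2
        exact this
      -- the p'-part
      obtain ⟨A, r, hr, hAr⟩ := Nat.exists_eq_pow_mul_and_not_dvd (Nat.card_pos (α := G)).ne' p hp.ne_one
      have hgr : (g ^ r) ^ (p ^ A) = 1 := by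
        rw [← pow_mul, mul_comm, ← hAr]; exact pow_card_eq_one'
      have hzp : IsPGroup p ↥(Subgroup.zpowers (g ^ r)) := by
        rintro ⟨y, hy⟩
        obtain ⟨i, rfl⟩ := Subgroup.mem_zpowers_iff.mp hy
        refine ⟨A, Subtype.ext ?_⟩
        show ((g ^ r) ^ i) ^ (p ^ A) = 1
        rw [← zpow_natCast, ← zpow_mul, mul_comm, zpow_mul, zpow_natCast, hgr, one_zpow]
      have hgrN : g ^ r ∈ Subgroup.normalizer ((P : Subgroup G) : Set G) := Subgroup.pow_mem _ hgN r
      have hgrP : g ^ r ∈ (P : Subgroup G) := by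
        have h1 : g ^ r ∈ Subgroup.zpowers (g ^ r) ⊓ Subgroup.normalizer ((P : Subgroup G) : Set G) :=
          Subgroup.mem_inf.mpr ⟨Subgroup.mem_zpowers _, hgrN⟩
        have h3 : g ^ r ∈ Subgroup.zpowers (g ^ r) ⊓ (P : Subgroup G) := by
          rw [← hzp.inf_normalizer_sylow P]; exact h1
        exact (Subgroup.mem_inf.mp h3).2
      have hcomm2 : Commute (g ^ r) (c : G) := hB _ _ hgrP c.2
      have hcop : Nat.Coprime (p ^ (e - 1)) r :=
        Nat.Coprime.pow_left _ ((Nat.Prime.coprime_iff_not_dvd hp).mpr hr)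
      have hbez := Nat.gcd_eq_gcd_ab (p ^ (e - 1)) r
      rw [hcop.gcd_eq_one] at hbez
      have hg : g = (g ^ (p ^ (e - 1))) ^ (Nat.gcdA (p ^ (e - 1)) r) * (g ^ r) ^ (Nat.gcdB (p ^ (e - 1)) r) := by
        rw [← zpow_natCast, ← zpow_natCast, ← zpow_mul, ← zpow_mul, ← zpow_add, ← hbez]
        simp
      have hfin : Commute g (c : G) := by
        rw [hg]
        exact (hcomm1.zpow_left _).mul_left (hcomm2.zpow_left _)
      exact hfin.eq
    · exact Subgroup.centralizer_le (Set.singleton_subset_iff.mpr hx)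
  · intro hC g hg
    by_contra hne
    obtain ⟨x, hx, hx1⟩ := exists_ne_one_of_ne_bot _ hne
    obtain ⟨hxP, hxP2⟩ := Subgroup.mem_inf.mp hx
    rw [mem_conj_smul] at hxP2
    apply hg
    apply mem_normalizer_of_conj_smul_eq
    have hle : MulAut.conj g • (P : Subgroup G) ≤ (P : Subgroup G) := by
      intro y hy
      have hyp : IsPGroup p ↥(Subgroup.zpowers y) := by
        have h1 : Subgroup.zpowers y ≤ ((g • P : Sylow p G) : Subgroup G) := by
          rw [Subgroup.zpowers_le]; exact hy
        exact (g • P : Sylow p G).isPGroup'.to_le h1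
      rw [mem_conj_smul] at hy
      have hcomm := hB _ _ hy hxP2
      have hyx : x * y = y * x := by
        have e1 : x * y = g * ((g⁻¹ * x * g) * (g⁻¹ * y * g)) * g⁻¹ := by group
        have e2 : y * x = g * ((g⁻¹ * y * g) * (g⁻¹ * x * g)) * g⁻¹ := by group
        rw [e1, e2, hcomm]
      have hyC : y ∈ Subgroup.centralizer ({x} : Set G) := by
        rw [Subgroup.mem_centralizer_iff]
        intro h hh
        rw [Set.mem_singleton_iff] at hh
        rw [hh]; exact hyx
      rw [hC x hxP hx1] at hyC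
      have hyN := Subgroup.centralizer_le_normalizer _ hyC
      have h1 : y ∈ Subgroup.zpowers y ⊓ Subgroup.normalizer ((P : Subgroup G) : Set G) :=
        Subgroup.mem_inf.mpr ⟨Subgroup.mem_zpowers _, hyN⟩
      have h3 : y ∈ Subgroup.zpowers y ⊓ (P : Subgroup G) := by
        rw [← hyp.inf_normalizer_sylow P]; exact h1
      exact (Subgroup.mem_inf.mp h3).2
    exact ((g • P : Sylow p G).is_maximal' P.isPGroup' hle).symm

end Cfsg.Agent.S3985
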