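import Cfsg.Statements.S3987
import Mathlib
import Cfsg.Agent.Helper20.Basic
import Cfsg.Agent.Helper20.Union
import Cfsg.Agent.S3986

set_option autoImplicit false
open Cfsg

namespace Cfsg.Agent.S3987

/-- Let p be a prime and G a finite group. Then some Sylow p-subgroup of G is a direct factor of G (normal with a normal complement) if and only if for every element x of p-power order and every element y whose order is a power of a prime other than p, the conjugacy class of x y has as many elements as the product of the sizes of the classes of x and of y. -/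
theorem result {G : Type*} [Group G] [Finite G] (p : ℕ) [Fact p.Prime] : (∃ (P : Sylow p G) (K : Subgroup G), (P : Subgroup G).Normal ∧ K.Normal ∧ (P : Subgroup G) ⊓ K = ⊥ ∧ (P : Subgroup G) ⊔ K = ⊤) ↔ ∀ x y : G, (∃ a : ℕ, orderOf x = p ^ a) → (∃ q b : ℕ, q.Prime ∧ q ≠ p ∧ orderOf y = q ^ b) → (Subgroup.centralizer ({x * y} : Set G)).index = (Subgroup.centralizer ({x} : Set G)).index * (Subgroup.centralizer ({y} : Set G)).index := by
  have hp : p.Prime := Fact.out
  constructor
  · rintro ⟨P, K, hPn, hKn, hinf, hsup⟩ x y hx hy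
    have hcomm := (Cfsg.Agent.S3986.result p).mp ⟨P, K, hPn, hKn, hinf, hsup⟩
    have hxy : x * y = y * x := hcomm x y hx hy
    obtain ⟨a, ha⟩ := hx
    obtain ⟨q, b, hq, hqp, hb⟩ := hy
    have hcop : (orderOf x).Coprime (orderOf y) := by
      rw [ha, hb]; exact Nat.Coprime.pow _ _ ((Nat.coprime_primes hp hq).mpr (Ne.symm hqp))
    have hC : Subgroup.centralizer ({x * y} : Set G) =
        Subgroup.centralizer ({x} : Set G) ⊓ Subgroup.centralizer ({y} : Set G) := by
      ext g
      simp only [Subgroup.mem_inf, Subgroup.mem_centralizer_iff, Set.mem_singleton_iff, forall_eq]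
      constructor
      · intro h
        obtain ⟨k, hk1, hk0⟩ := Nat.chineseRemainder hcop 1 0
        obtain ⟨k', hk'0, hk'1⟩ := Nat.chineseRemainder hcop 0 1
        have hpow : ∀ n : ℕ, (x * y) ^ n * g = g * (x * y) ^ n := by
          intro n
          exact ((Commute.pow_left (show Commute (x * y) g from h) n)).eq
        have e1 : (x * y) ^ k = x := by
          rw [(show Commute x y from hxy).mul_pow]
          have h1 : x ^ k = x ^ 1 := by rw [pow_eq_pow_iff_modEq]; exact hk1
          have h2 : y ^ k = 1 := by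
            rw [← orderOf_dvd_iff_pow_eq_one]; exact (Nat.modEq_zero_iff_dvd).mp hk0
          rw [h1, h2, pow_one, mul_one]
        have e2 : (x * y) ^ k' = y := by
          rw [(show Commute x y from hxy).mul_pow]
          have h1 : y ^ k' = y ^ 1 := by rw [pow_eq_pow_iff_modEq]; exact hk'1
          have h2 : x ^ k' = 1 := by
            rw [← orderOf_dvd_iff_pow_eq_one]; exact (Nat.modEq_zero_iff_dvd).mp hk'0
          rw [h1, h2, pow_one, one_mul]
        have h3 := hpow k
        rw [e1] at h3
        have h4 := hpow k'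
        rw [e2] at h4
        exact ⟨h3, h4⟩
      · rintro ⟨h1, h2⟩
        rw [mul_assoc, h2, ← mul_assoc, h1, mul_assoc]
    rw [hC]
    have hxP : x ∈ (P : Subgroup G) := by
      apply Cfsg.Agent.Helper20.mem_sylow_of_mem_normalizer p P x a
      · rw [← ha]; exact pow_orderOf_eq_one x
      · rw [Subgroup.normalizer_eq_top_iff.mpr hPn]; exact Subgroup.mem_top _
    have hKx : K ≤ Subgroup.centralizer ({x} : Set G) := by
      intro k hk
      rw [Subgroup.mem_centralizer_iff]
      intro h hh
      rw [Set.mem_singleton_iff] at hh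
      rw [hh]
      exact (Subgroup.commute_of_normal_of_disjoint _ _ hPn hKn (disjoint_iff.mpr hinf) x k
        hxP hk).eq
    have hPy : (P : Subgroup G) ≤ Subgroup.centralizer ({y} : Set G) := by
      intro z hz
      rw [Subgroup.mem_centralizer_iff]
      intro h hh
      rw [Set.mem_singleton_iff] at hh
      rw [hh]
      exact (hcomm z y (Cfsg.Agent.Helper20.orderOf_eq_pow_of_mem_sylow p P z hz)
        ⟨q, b, hq, hqp, hb⟩).symm
    have h1 : (Subgroup.centralizer ({x} : Set G)).index ∣ K.index := Subgroup.index_dvd_of_le hKx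
    have h2 : (Subgroup.centralizer ({y} : Set G)).index ∣ (P : Subgroup G).index :=
      Subgroup.index_dvd_of_le hPy
    have hcompl : Subgroup.IsComplement' (P : Subgroup G) K := by
      apply Subgroup.isComplement'_of_disjoint_and_mul_eq_univ (disjoint_iff.mpr hinf)
      haveI := hKn
      rw [← Subgroup.mul_normal, hsup]; rfl
    have hKidx : K.index = Nat.card (P : Subgroup G) := hcompl.index_eq_card
    rw [hKidx] at h1
    have hcopidx : ((Subgroup.centralizer ({x} : Set G)).index).Coprime
        ((Subgroup.centralizer ({y} : Set G)).index) :=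
      Nat.Coprime.coprime_dvd_left h1 (Nat.Coprime.coprime_dvd_right h2 P.card_coprime_index)
    apply le_antisymm Subgroup.index_inf_le
    apply Nat.le_of_dvd (Nat.pos_of_ne_zero Subgroup.index_ne_zero_of_finite)
    exact Nat.Coprime.mul_dvd_of_dvd_of_dvd hcopidx (Subgroup.index_dvd_of_le inf_le_left)
      (Subgroup.index_dvd_of_le inf_le_right)
  · intro h
    apply (Cfsg.Agent.S3986.result p).mpr
    intro x y hx hy
    have hidx := h x y hx hy
    have hsub : (ConjClasses.mk (x * y)).carrier ⊆ (fun ab : G × G => ab.1 * ab.2) ''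
        ((ConjClasses.mk x).carrier ×ˢ (ConjClasses.mk y).carrier) := by
      intro z hz
      rw [ConjClasses.mem_carrier_iff_mk_eq, ConjClasses.mk_eq_mk_iff_isConj, isConj_iff] at hz
      obtain ⟨c, hc⟩ := hz
      refine ⟨(c⁻¹ * x * c, c⁻¹ * y * c), ⟨?_, ?_⟩, ?_⟩
      · show c⁻¹ * x * c ∈ (ConjClasses.mk x).carrier
        rw [ConjClasses.mem_carrier_iff_mk_eq, ConjClasses.mk_eq_mk_iff_isConj, isConj_iff]
        exact ⟨c, by group⟩
      · show c⁻¹ * y * c ∈ (ConjClasses.mk y).carrier
        rw [ConjClasses.mem_carrier_iff_mk_eq, ConjClasses.mk_eq_mk_iff_isConj, isConj_iff]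
        exact ⟨c, by group⟩
      · show c⁻¹ * x * c * (c⁻¹ * y * c) = z
        have e : c⁻¹ * x * c * (c⁻¹ * y * c) = c⁻¹ * (x * y) * c := by group
        rw [e, ← hc]; group
    have hfin : ((ConjClasses.mk x).carrier ×ˢ (ConjClasses.mk y).carrier).Finite :=
      Set.toFinite _
    have hle1 : (ConjClasses.mk (x * y)).carrier.ncard ≤ ((fun ab : G × G => ab.1 * ab.2) ''
        ((ConjClasses.mk x).carrier ×ˢ (ConjClasses.mk y).carrier)).ncard :=
      Set.ncard_le_ncard hsub (Set.toFinite _)
    have hle2 : ((fun ab : G × G => ab.1 * ab.2) ''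
        ((ConjClasses.mk x).carrier ×ˢ (ConjClasses.mk y).carrier)).ncard ≤
        ((ConjClasses.mk x).carrier ×ˢ (ConjClasses.mk y).carrier).ncard :=
      Set.ncard_image_le hfin
    have hprod : ((ConjClasses.mk x).carrier ×ˢ (ConjClasses.mk y).carrier).ncard =
        (ConjClasses.mk x).carrier.ncard * (ConjClasses.mk y).carrier.ncard := Set.ncard_prod
    rw [Cfsg.Agent.Helper20.ncard_carrier_eq] at hle1
    rw [Cfsg.Agent.Helper20.ncard_carrier_eq, Cfsg.Agent.Helper20.ncard_carrier_eq] at hprod
    have heq : ((fun ab : G × G => ab.1 * ab.2) ''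
        ((ConjClasses.mk x).carrier ×ˢ (ConjClasses.mk y).carrier)).ncard =
        ((ConjClasses.mk x).carrier ×ˢ (ConjClasses.mk y).carrier).ncard := by
      apply le_antisymm hle2
      rw [hprod, ← hidx]; exact hle1
    have hinj := Set.injOn_of_ncard_image_eq heq hfin
    have hm1 : (x, y) ∈ (ConjClasses.mk x).carrier ×ˢ (ConjClasses.mk y).carrier :=
      ⟨ConjClasses.mem_carrier_mk, ConjClasses.mem_carrier_mk⟩
    have hm2 : ((x * y) * x * (x * y)⁻¹, (x * y) * y * (x * y)⁻¹) ∈
        (ConjClasses.mk x).carrier ×ˢ (ConjClasses.mk y).carrier := by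
      refine ⟨?_, ?_⟩
      · show (x * y) * x * (x * y)⁻¹ ∈ (ConjClasses.mk x).carrier
        rw [ConjClasses.mem_carrier_iff_mk_eq, ConjClasses.mk_eq_mk_iff_isConj, isConj_iff]
        exact ⟨(x * y)⁻¹, by group⟩
      · show (x * y) * y * (x * y)⁻¹ ∈ (ConjClasses.mk y).carrier
        rw [ConjClasses.mem_carrier_iff_mk_eq, ConjClasses.mk_eq_mk_iff_isConj, isConj_iff]
        exact ⟨(x * y)⁻¹, by group⟩
    have h3 := hinj hm1 hm2 (by
      show x * y = (x * y) * x * (x * y)⁻¹ * ((x * y) * y * (x * y)⁻¹)
      group)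
    have h4 : x = (x * y) * x * (x * y)⁻¹ := congrArg Prod.fst h3
    have h5 : x * (x * y) = (x * y) * x := by
      calc x * (x * y) = (x * y) * x * (x * y)⁻¹ * (x * y) := by rw [← h4]
        _ = (x * y) * x := by group
    have h6 : x * (x * y) = x * (y * x) := by rw [h5]; group
    exact mul_left_cancel h6

end Cfsg.Agent.S3987
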