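import Mathlib
import Cfsg.Statements.S4013

set_option autoImplicit false
open Cfsg

namespace Cfsg.Agent.S4013

/-- Let G be a finite p-group (p prime) and N < M normal subgroups of G such that for some g ∈ M ∖ N the conjugacy class of g is exactly M ∖ N. Then p = 2 and N has index 2 in M. -/
theorem result {G : Type*} [Group G] [Finite G] (p : ℕ) [Fact p.Prime] (hG : IsPGroup p G) (N M : Subgroup G) [N.Normal] [M.Normal] (hNM : N < M) (g : G) (hgM : g ∈ M) (hgN : g ∉ N) (hcl : {h : G | IsConj g h} = (M : Set G) \ (N : Set G)) : p = 2 ∧ N.relIndex M = 2 := by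
  have hp : p.Prime := Fact.out
  obtain ⟨n, hn⟩ := IsPGroup.iff_card.mp hG
  -- the class size is a power of p
  have horb : MulAction.orbit (ConjAct G) g = {h : G | IsConj g h} := by
    ext h
    rw [ConjAct.mem_orbit_conjAct, Set.mem_setOf_eq, isConj_comm]
  have hdvd : ({h : G | IsConj g h} : Set G).ncard ∣ p ^ n := by
    rw [← horb, ← MulAction.index_stabilizer, ← hn]
    exact Subgroup.index_dvd_card (MulAction.stabilizer (ConjAct G) g)
  obtain ⟨j, _, hj⟩ := (Nat.dvd_prime_pow hp).mp hdvd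
  -- the cardinality of M \ N
  have hcard : ((M : Set G) \ (N : Set G)).ncard = Nat.card M - Nat.card N := by
    rw [Set.ncard_diff (by exact_mod_cast hNM.le) (Set.toFinite _)]
    rfl
  have hrel : Nat.card N * N.relIndex M = Nat.card M := by
    have h1 := (N.subgroupOf M).card_mul_index
    rw [Nat.card_congr (Subgroup.subgroupOfEquivOfLe hNM.le).toEquiv] at h1
    exact h1
  have hr1 : N.relIndex M ≠ 1 := by
    intro h
    rw [Subgroup.relIndex_eq_one] at h
    exact (lt_irrefl _ (lt_of_lt_of_le hNM h))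
  have hrdvd : N.relIndex M ∣ p ^ n := by
    rw [← hn]
    exact (Subgroup.relIndex_dvd_card N M).trans (Subgroup.card_subgroup_dvd_card M)
  obtain ⟨k, _, hk⟩ := (Nat.dvd_prime_pow hp).mp hrdvd
  have hk0 : k ≠ 0 := by
    rintro rfl
    exact hr1 (by rw [hk, pow_zero])
  -- |N| (r - 1) = p ^ j
  have hNpos : 0 < Nat.card N := Nat.card_pos
  have heq : Nat.card N * (N.relIndex M - 1) = p ^ j := by
    rw [← hj, hcl, hcard, ← hrel, Nat.mul_sub, mul_one]
  have hr1dvd : N.relIndex M - 1 ∣ p ^ j := Dvd.intro_left _ heq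
  obtain ⟨i, _, hi⟩ := (Nat.dvd_prime_pow hp).mp hr1dvd
  have hpr : p ∣ N.relIndex M := by
    rw [hk]; exact dvd_pow_self p hk0
  have hrpos : 0 < N.relIndex M := Nat.pos_of_ne_zero (by
    intro h0; rw [h0] at hrel; rw [mul_zero] at hrel
    exact (Nat.card_pos (α := M)).ne' hrel.symm)
  have hi0 : i = 0 := by
    by_contra hi0
    have hp1 : p ∣ N.relIndex M - 1 := by rw [hi]; exact dvd_pow_self p hi0
    have : p ∣ 1 := by
      have h3 := Nat.dvd_sub hpr hp1
      have h4 : N.relIndex M - (N.relIndex M - 1) = 1 := by omega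
      rwa [h4] at h3
    exact hp.one_lt.ne' (Nat.dvd_one.mp this)
  rw [hi0, pow_zero] at hi
  have hr2 : N.relIndex M = 2 := by omega
  refine ⟨?_, hr2⟩
  rw [hr2] at hpr
  exact (Nat.prime_dvd_prime_iff_eq hp Nat.prime_two).mp hpr

end Cfsg.Agent.S4013
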