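import Cfsg.Statements.S4027
import Cfsg.Agent.Lead.RealOdd
import Mathlib

set_option autoImplicit false
open Cfsg

namespace Cfsg.Agent.S4027

/-- Let G be a finite group in which every element x of odd order satisfies N_G(⟨x⟩) = C_G(x). Then the Sylow 2-subgroups of G are normal. -/
theorem result {G : Type*} [Group G] [Finite G]
    (hirr : ∀ x : G, (∀ r : ℕ, r.Prime → r ∣ orderOf x → r ≠ 2) →
      Subgroup.normalizer ((Subgroup.zpowers x : Subgroup G) : Set G) ≤ Subgroup.centralizer {x}) (P : Sylow 2 G) :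
    (P : Subgroup G).Normal := by
  by_contra hP
  obtain ⟨x, y, hx1, hxodd, hyx⟩ := Cfsg.Agent.Lead.exists_real_odd P hP
  have hodd : ∀ r : ℕ, r.Prime → r ∣ orderOf x → r ≠ 2 := by
    rintro r _ hr rfl
    exact (Nat.not_even_iff_odd.mpr hxodd) (even_iff_two_dvd.mpr hr)
  have hyN : y ∈ Subgroup.normalizer ((Subgroup.zpowers x : Subgroup G) : Set G) :=
    Cfsg.Agent.Lead.mem_normalizer_zpowers_of_inv hyx
  have hyC := hirr x hodd hyN
  rw [Subgroup.mem_centralizer_iff] at hyC
  have hc : x * y = y * x := hyC x (Set.mem_singleton x)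
  exact Cfsg.Agent.Lead.odd_inv_contra hx1 hxodd hyx hc

end Cfsg.Agent.S4027
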