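import Cfsg.Statements.S4028
import Cfsg.Agent.Helper20.Basic
import Mathlib

set_option autoImplicit false
open Cfsg

namespace Cfsg.Agent.S4028

open Cfsg.Agent.Helper20

theorem conj_zpow' {G : Type*} [Group G] (a x : G) (k : ℤ) :
    (a⁻¹ * x * a) ^ k = a⁻¹ * x ^ k * a := by
  have := conj_zpow (i := k) (a := a⁻¹) (b := x)
  rw [inv_inv] at this; exact this

/-- Let G be a finite group with Sylow 2-subgroup P. Then N_G(⟨x⟩) = C_G(x) holds for every 2-element x of G if and only if N_P(⟨y⟩) = C_P(y) holds for every y ∈ P (computed inside P). -/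
theorem result {G : Type*} [Group G] [Finite G] (P : Sylow 2 G) :
    (∀ x : G, (∀ r : ℕ, r.Prime → r ∣ orderOf x → r = 2) →
      Subgroup.normalizer ((Subgroup.zpowers x : Subgroup G) : Set G) ≤ Subgroup.centralizer {x}) ↔
    (∀ y : ↥(P : Subgroup G), Subgroup.normalizer ((Subgroup.zpowers y : Subgroup ↥(P : Subgroup G)) : Set ↥(P : Subgroup G)) ≤
        Subgroup.centralizer {y}) := by
  haveI : Fact (Nat.Prime 2) := ⟨Nat.prime_two⟩
  constructor
  · intro h y g hg
    have h2 : ∀ r : ℕ, r.Prime → r ∣ orderOf (y : G) → r = 2 := by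
      intro r hr hdvd
      obtain ⟨b, hb⟩ := orderOf_eq_pow_of_mem_sylow 2 P (y : G) y.2
      rw [hb] at hdvd
      exact (Nat.prime_dvd_prime_iff_eq hr Nat.prime_two).mp (hr.dvd_of_dvd_pow hdvd)
    have hgN : (g : G) ∈ Subgroup.normalizer ((Subgroup.zpowers (y : G) : Subgroup G) : Set G) := by
      rw [mem_normalizer_zpowers_iff] at hg ⊢
      obtain ⟨h1, h2'⟩ := hg
      constructor
      · obtain ⟨k, hk⟩ := Subgroup.mem_zpowers_iff.mp h1
        refine Subgroup.mem_zpowers_iff.mpr ⟨k, ?_⟩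
        have := congrArg Subtype.val hk
        simpa using this
      · obtain ⟨k, hk⟩ := Subgroup.mem_zpowers_iff.mp h2'
        refine Subgroup.mem_zpowers_iff.mpr ⟨k, ?_⟩
        have := congrArg Subtype.val hk
        simpa using this
    have hc := h (y : G) h2 hgN
    rw [Subgroup.mem_centralizer_iff] at hc ⊢
    intro z hz
    rw [Set.mem_singleton_iff] at hz
    rw [hz]
    apply Subtype.ext
    have := hc (y : G) (Set.mem_singleton _)
    simpa using this
  · intro h x hx g hg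
    rw [Subgroup.mem_centralizer_iff]
    intro z hz
    rw [Set.mem_singleton_iff] at hz
    rw [hz]
    have hgx := (mem_normalizer_zpowers_iff g x).mp hg
    obtain ⟨k, hk⟩ := Subgroup.mem_zpowers_iff.mp hgx.1
    have hox : orderOf x ≠ 0 := (orderOf_pos x).ne'
    obtain ⟨n, hn⟩ : ∃ n : ℕ, orderOf x = 2 ^ n :=
      ⟨_, Nat.eq_prime_pow_of_unique_prime_dvd hox (fun {d} hd hdvd => hx d hd hdvd)⟩
    rcases Nat.eq_zero_or_pos n with h0 | hpos
    · rw [h0, pow_zero, orderOf_eq_one_iff] at hn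
      rw [hn]; simp
    have hkodd : (2 : ℤ) ∣ k - 1 := by
      by_contra hnd
      have hkeven : (2 : ℤ) ∣ k := by omega
      obtain ⟨m, rfl⟩ := hkeven
      have h1 : (g * x * g⁻¹) ^ (2 ^ (n - 1)) = 1 := by
        rw [← hk, ← zpow_natCast, ← zpow_mul]
        have e : (2 * m) * ((2 ^ (n - 1) : ℕ) : ℤ) = ((2 ^ n : ℕ) : ℤ) * m := by
          push_cast
          have e2 : (2 : ℤ) ^ n = 2 ^ (n - 1) * 2 := by rw [← pow_succ, Nat.sub_add_cancel hpos]
          rw [e2]; ring
        rw [e, zpow_mul, zpow_natCast, ← hn, pow_orderOf_eq_one, one_zpow]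
      have h2 : x ^ (2 ^ (n - 1)) = 1 := by
        rw [conj_pow] at h1
        have := congrArg (fun z => g⁻¹ * z * g) h1
        simpa [mul_assoc] using this
      have h3 := orderOf_dvd_of_pow_eq_one h2
      rw [hn] at h3
      have h4 := (Nat.pow_dvd_pow_iff_le_right (by norm_num : 1 < 2)).mp h3
      omega
    have hd := dvd_sub_pow_of_dvd_sub (R := ℤ) (p := 2) (a := k) (b := 1) (by exact_mod_cast hkodd) (n - 1)
    rw [Nat.sub_add_cancel hpos, one_pow] at hd
    have hiter := conj_pow_iter g x k hk.symm (2 ^ (n - 1))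
    have hc1 : x ^ (k ^ (2 ^ (n - 1))) = x := by
      have h1 : x ^ (k ^ (2 ^ (n - 1)) - 1) = 1 := by
        apply orderOf_dvd_iff_zpow_eq_one.mp
        rw [hn]; push_cast; exact_mod_cast hd
      rw [zpow_sub, zpow_one, mul_inv_eq_one] at h1
      exact h1
    rw [hc1] at hiter
    have hcomm1 : g ^ (2 ^ (n - 1)) ∈ Subgroup.centralizer {x} := by
      rw [Subgroup.mem_centralizer_iff]
      intro z hz; rw [Set.mem_singleton_iff] at hz; rw [hz]
      have h2 := congrArg (fun w => w * g ^ (2 ^ (n - 1))) hiter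
      simp only [inv_mul_cancel_right] at h2
      exact h2.symm
    obtain ⟨A, r, hr, hAr, hpow⟩ := exists_card_eq_pow_mul G 2 Nat.prime_two
    have htN : g ^ r ∈ Subgroup.normalizer ((Subgroup.zpowers x : Subgroup G) : Set G) :=
      Subgroup.pow_mem _ hg r
    have hD : IsPGroup 2 ↥(Subgroup.zpowers (g ^ r) ⊔ Subgroup.zpowers x) := by
      apply IsPGroup.to_sup_of_normal_right' (isPGroup_zpowers_of_pow_eq_one 2 (g ^ r) A (hpow g)) ?_ ?_
      · exact isPGroup_zpowers_of_pow_eq_one 2 x n (by rw [← hn]; exact pow_orderOf_eq_one x)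
      · rw [Subgroup.zpowers_le]; exact htN
    obtain ⟨a, ha⟩ := exists_conj_mem_sylow 2 P _ hD
    have hx' := ha x (Subgroup.mem_sup_right (Subgroup.mem_zpowers x))
    have ht' := ha (g ^ r) (Subgroup.mem_sup_left (Subgroup.mem_zpowers (g ^ r)))
    have hτN : (⟨a⁻¹ * g ^ r * a, ht'⟩ : ↥(P : Subgroup G)) ∈ Subgroup.normalizer
        ((Subgroup.zpowers (⟨a⁻¹ * x * a, hx'⟩ : ↥(P : Subgroup G)) : Subgroup ↥(P : Subgroup G)) :
          Set ↥(P : Subgroup G)) := by
      rw [mem_normalizer_zpowers_iff]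
      obtain ⟨h1, h2⟩ := (mem_normalizer_zpowers_iff (g ^ r) x).mp htN
      obtain ⟨k1, hk1⟩ := Subgroup.mem_zpowers_iff.mp h1
      obtain ⟨k2, hk2⟩ := Subgroup.mem_zpowers_iff.mp h2
      constructor
      · refine Subgroup.mem_zpowers_iff.mpr ⟨k1, Subtype.ext ?_⟩
        rw [Subgroup.coe_zpow]
        show (a⁻¹ * x * a) ^ k1 = (a⁻¹ * g ^ r * a) * (a⁻¹ * x * a) * (a⁻¹ * g ^ r * a)⁻¹
        rw [conj_zpow', hk1]; group
      · refine Subgroup.mem_zpowers_iff.mpr ⟨k2, Subtype.ext ?_⟩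
        rw [Subgroup.coe_zpow]
        show (a⁻¹ * x * a) ^ k2 = (a⁻¹ * g ^ r * a)⁻¹ * (a⁻¹ * x * a) * (a⁻¹ * g ^ r * a)
        rw [conj_zpow', hk2]; group
    have hτC := h _ hτN
    rw [Subgroup.mem_centralizer_iff] at hτC
    have h5 := congrArg Subtype.val (hτC _ (Set.mem_singleton _))
    have h5' : (a⁻¹ * x * a) * (a⁻¹ * g ^ r * a) = (a⁻¹ * g ^ r * a) * (a⁻¹ * x * a) := h5
    have h6 : x * g ^ r = g ^ r * x := by
      have e1 : x * g ^ r = a * ((a⁻¹ * x * a) * (a⁻¹ * g ^ r * a)) * a⁻¹ := by group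
      have e2 : g ^ r * x = a * ((a⁻¹ * g ^ r * a) * (a⁻¹ * x * a)) * a⁻¹ := by group
      rw [e1, e2, h5']
    have hcomm2 : g ^ r ∈ Subgroup.centralizer {x} := by
      rw [Subgroup.mem_centralizer_iff]
      intro z hz; rw [Set.mem_singleton_iff] at hz; rw [hz]
      exact h6
    have hcop : Nat.Coprime (2 ^ (n - 1)) r :=
      Nat.Coprime.pow_left _ ((Nat.Prime.coprime_iff_not_dvd Nat.prime_two).mpr hr)
    have hfin := mem_of_pow_mem_of_pow_mem_of_coprime _ g _ _ hcomm1 hcomm2 hcop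
    rw [Subgroup.mem_centralizer_iff] at hfin
    exact hfin x (Set.mem_singleton x)

end Cfsg.Agent.S4028
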