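-- Statement S4029: Cfsg.fg5_irrational_two_group_generator_bound
import Cfsg.Statements.S4029
import Mathlib
import Cfsg.Agent.Helper20.Basic
import Cfsg.Agent.Helper20.Union
import Cfsg.Agent.S4208

set_option autoImplicit false
open Cfsg

namespace Cfsg.Agent.S4029

theorem count_key {P : Type*} [Group P] [Fintype P] [DecidableEq P]
    (Φ : Subgroup P) [DecidablePred (· ∈ Φ)]
    (hsq : ∀ x : P, x ^ 2 ∈ Φ) (B : ℕ)
    (hB : ∑ x : P, (Finset.univ.filter (fun g : P => g * x * g⁻¹ = x⁻¹)).card
      ≤ Fintype.card P * B) :
    Fintype.card P ≤ (Finset.univ.filter (fun z : P => z ∈ Φ)).card * B := by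
  have hswap : ∑ x : P, (Finset.univ.filter (fun g : P => g * x * g⁻¹ = x⁻¹)).card
      = ∑ g : P, (Finset.univ.filter (fun x : P => g * x * g⁻¹ = x⁻¹)).card := by
    simp only [Finset.card_filter]
    exact Finset.sum_comm
  have hcard : ∀ g : P, (Finset.univ.filter (fun x : P => g * x * g⁻¹ = x⁻¹)).card
      = (Finset.univ.filter (fun y : P => y ^ 2 = g ^ 2)).card := by
    intro g
    apply Finset.card_equiv (Equiv.mulRight g)
    intro x
    simp only [Finset.mem_filter, Finset.mem_univ, true_and, Equiv.coe_mulRight]
    constructor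
    · intro h
      have h1 : g * x = x⁻¹ * g := by rw [← h]; group
      calc (x * g) ^ 2 = x * (g * x) * g := by rw [pow_two]; group
        _ = x * (x⁻¹ * g) * g := by rw [h1]
        _ = g ^ 2 := by rw [pow_two]; group
    · intro h
      have h2 : x * (g * x) * g = g * g := by
        rw [pow_two, pow_two] at h
        rw [← h]; group
      have h3 : x * (g * x) = g := mul_right_cancel h2
      calc g * x * g⁻¹ = x⁻¹ * (x * (g * x)) * g⁻¹ := by group
        _ = x⁻¹ * g * g⁻¹ := by rw [h3]
        _ = x⁻¹ := by group
  have hT : ∑ x : P, (Finset.univ.filter (fun g : P => g * x * g⁻¹ = x⁻¹)).card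
      = ∑ z : P, (Finset.univ.filter (fun y : P => y ^ 2 = z)).card *
          (Finset.univ.filter (fun y : P => y ^ 2 = z)).card := by
    rw [hswap, Finset.sum_congr rfl (fun g _ => hcard g)]
    rw [← Finset.sum_fiberwise Finset.univ (fun g : P => g ^ 2)
      (fun g => (Finset.univ.filter (fun y : P => y ^ 2 = g ^ 2)).card)]
    apply Finset.sum_congr rfl
    intro z _
    have hz : ∀ g ∈ Finset.univ.filter (fun g : P => g ^ 2 = z),
        (Finset.univ.filter (fun y : P => y ^ 2 = g ^ 2)).card
          = (Finset.univ.filter (fun y : P => y ^ 2 = z)).card := by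
      intro g hg
      rw [(Finset.mem_filter.mp hg).2]
    rw [Finset.sum_congr rfl hz, Finset.sum_const, smul_eq_mul]
  have hsupp : ∀ z : P, (Finset.univ.filter (fun y : P => y ^ 2 = z)).card ≠ 0 → z ∈ Φ := by
    intro z hz
    obtain ⟨y, hy⟩ := Finset.card_pos.mp (Nat.pos_of_ne_zero hz)
    rw [← (Finset.mem_filter.mp hy).2]
    exact hsq y
  have hsum1 : ∑ z : P, (Finset.univ.filter (fun y : P => y ^ 2 = z)).card = Fintype.card P := by
    have h := Finset.sum_fiberwise (Finset.univ : Finset P) (fun g : P => g ^ 2)
      (fun _ => (1 : ℕ))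
    simp only [Finset.sum_const, smul_eq_mul, mul_one, Finset.card_univ] at h
    exact h
  have hsumF : ∑ z ∈ Finset.univ.filter (fun z : P => z ∈ Φ),
      (Finset.univ.filter (fun y : P => y ^ 2 = z)).card = Fintype.card P := by
    rw [Finset.sum_filter_of_ne (fun z _ hz => hsupp z hz), hsum1]
  have hcs := sq_sum_le_card_mul_sum_sq (s := Finset.univ.filter (fun z : P => z ∈ Φ))
    (f := fun z : P => (Finset.univ.filter (fun y : P => y ^ 2 = z)).card)
  rw [hsumF] at hcs
  simp only [Nat.cast_id] at hcs
  have hle : ∑ z ∈ Finset.univ.filter (fun z : P => z ∈ Φ),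
      (Finset.univ.filter (fun y : P => y ^ 2 = z)).card ^ 2
      ≤ ∑ z : P, (Finset.univ.filter (fun y : P => y ^ 2 = z)).card *
          (Finset.univ.filter (fun y : P => y ^ 2 = z)).card := by
    calc ∑ z ∈ Finset.univ.filter (fun z : P => z ∈ Φ),
          (Finset.univ.filter (fun y : P => y ^ 2 = z)).card ^ 2
        ≤ ∑ z : P, (Finset.univ.filter (fun y : P => y ^ 2 = z)).card ^ 2 :=
          Finset.sum_le_sum_of_subset (Finset.filter_subset _ _)
      _ = _ := by
          apply Finset.sum_congr rfl
          intro z _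
          rw [pow_two]
  have hfin : Fintype.card P * Fintype.card P
      ≤ Fintype.card P * ((Finset.univ.filter (fun z : P => z ∈ Φ)).card * B) := by
    calc Fintype.card P * Fintype.card P = Fintype.card P ^ 2 := (pow_two _).symm
      _ ≤ (Finset.univ.filter (fun z : P => z ∈ Φ)).card *
            ∑ z ∈ Finset.univ.filter (fun z : P => z ∈ Φ),
              (Finset.univ.filter (fun y : P => y ^ 2 = z)).card ^ 2 := hcs
      _ ≤ (Finset.univ.filter (fun z : P => z ∈ Φ)).card *
            ∑ z : P, (Finset.univ.filter (fun y : P => y ^ 2 = z)).card *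
              (Finset.univ.filter (fun y : P => y ^ 2 = z)).card := Nat.mul_le_mul_left _ hle
      _ = (Finset.univ.filter (fun z : P => z ∈ Φ)).card *
            ∑ x : P, (Finset.univ.filter (fun g : P => g * x * g⁻¹ = x⁻¹)).card := by rw [hT]
      _ ≤ (Finset.univ.filter (fun z : P => z ∈ Φ)).card * (Fintype.card P * B) :=
          Nat.mul_le_mul_left _ hB
      _ = _ := by ring
  exact Nat.le_of_mul_le_mul_left hfin Fintype.card_pos

theorem card_inv_filter {P : Type*} [Group P] [Fintype P] [DecidableEq P] (x : P)
    (hx : orderOf x = 2) :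
    (Finset.univ.filter (fun g : P => g * x * g⁻¹ = x⁻¹)).card *
      (ConjClasses.mk x).carrier.ncard = Fintype.card P := by
  have hxx : x⁻¹ = x := by
    have h2 : x ^ 2 = 1 := by rw [← hx]; exact pow_orderOf_eq_one x
    exact inv_eq_of_mul_eq_one_right (by rw [← pow_two]; exact h2)
  have h1 : (Finset.univ.filter (fun g : P => g * x * g⁻¹ = x⁻¹)).card
      = Nat.card (Subgroup.centralizer ({x} : Set P)) := by
    rw [← Nat.card_eq_finsetCard]
    apply Nat.card_congr
    apply Equiv.subtypeEquivRight
    intro g
    rw [Finset.mem_filter, Subgroup.mem_centralizer_iff, hxx]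
    constructor
    · rintro ⟨-, h⟩ y hy
      rw [Set.mem_singleton_iff.mp hy]
      calc x * g = (g * x * g⁻¹) * g := by rw [h]
        _ = g * x := by group
    · intro h
      refine ⟨Finset.mem_univ _, ?_⟩
      have h' := h x (Set.mem_singleton x)
      rw [← h']; group
  rw [h1, Helper20.ncard_carrier_eq, Subgroup.card_mul_index, Nat.card_eq_fintype_card]

theorem sum_bound {P : Type*} [Group P] [Fintype P] [DecidableEq P]
    (hreal : ∀ g x : P, g * x * g⁻¹ = x⁻¹ → x ^ 2 = 1) :
    ∑ x : P, (Finset.univ.filter (fun g : P => g * x * g⁻¹ = x⁻¹)).card ≤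
      Fintype.card P *
        (Nat.card {c : ConjClasses P // ∃ y : P, ConjClasses.mk y = c ∧ orderOf y = 2} + 1) := by
  classical
  have hpt : ∀ x : P, (Finset.univ.filter (fun g : P => g * x * g⁻¹ = x⁻¹)).card ≤
      (if x = 1 then Fintype.card P else 0) +
      (if orderOf x = 2 then (Finset.univ.filter (fun g : P => g * x * g⁻¹ = x⁻¹)).card
        else 0) := by
    intro x
    by_cases h1 : x = 1
    · rw [if_pos h1]
      exact le_trans (Finset.card_le_univ _) (Nat.le_add_right _ _)
    · by_cases h2 : orderOf x = 2
      · rw [if_pos h2]; exact Nat.le_add_left _ _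
      · have hemp : Finset.univ.filter (fun g : P => g * x * g⁻¹ = x⁻¹) = ∅ := by
          rw [Finset.filter_eq_empty_iff]
          intro g _ hg
          have hx2 := hreal g x hg
          have hd : orderOf x ∣ 2 := orderOf_dvd_of_pow_eq_one hx2
          rcases (Nat.dvd_prime Nat.prime_two).mp hd with h | h
          · exact h1 (orderOf_eq_one_iff.mp h)
          · exact h2 h
        rw [hemp]; simp
  have hstep1 : ∑ x : P, (Finset.univ.filter (fun g : P => g * x * g⁻¹ = x⁻¹)).card ≤
      Fintype.card P + ∑ x : P, (if orderOf x = 2 then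
        (Finset.univ.filter (fun g : P => g * x * g⁻¹ = x⁻¹)).card else 0) := by
    calc ∑ x : P, (Finset.univ.filter (fun g : P => g * x * g⁻¹ = x⁻¹)).card
        ≤ ∑ x : P, ((if x = 1 then Fintype.card P else 0) +
          (if orderOf x = 2 then (Finset.univ.filter (fun g : P => g * x * g⁻¹ = x⁻¹)).card
            else 0)) := Finset.sum_le_sum (fun x _ => hpt x)
      _ = _ := by
        rw [Finset.sum_add_distrib]
        congr 1
        simp
  have hfib : ∑ x : P, (if orderOf x = 2 then
        (Finset.univ.filter (fun g : P => g * x * g⁻¹ = x⁻¹)).card else 0)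
      = ∑ c : ConjClasses P, ∑ x ∈ Finset.univ.filter (fun x : P => ConjClasses.mk x = c),
          (if orderOf x = 2 then
            (Finset.univ.filter (fun g : P => g * x * g⁻¹ = x⁻¹)).card else 0) :=
    (Finset.sum_fiberwise Finset.univ (fun x : P => ConjClasses.mk x) _).symm
  have hc : ∀ c : ConjClasses P,
      ∑ x ∈ Finset.univ.filter (fun x : P => ConjClasses.mk x = c),
          (if orderOf x = 2 then
            (Finset.univ.filter (fun g : P => g * x * g⁻¹ = x⁻¹)).card else 0)
      ≤ if (∃ y : P, ConjClasses.mk y = c ∧ orderOf y = 2) then Fintype.card P else 0 := by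
    intro c
    by_cases hI : ∃ y : P, ConjClasses.mk y = c ∧ orderOf y = 2
    · rw [if_pos hI]
      have hN : (Finset.univ.filter (fun x : P => ConjClasses.mk x = c)).card
          = c.carrier.ncard := by
        rw [← Nat.card_eq_finsetCard, ← Nat.card_coe_set_eq]
        apply Nat.card_congr
        apply Equiv.subtypeEquivRight
        intro x
        rw [Finset.mem_filter, ConjClasses.mem_carrier_iff_mk_eq]
        simp
      have hNpos : 0 < c.carrier.ncard := by
        rw [← hN]
        obtain ⟨y, hy, _⟩ := hI
        exact Finset.card_pos.mpr ⟨y, Finset.mem_filter.mpr ⟨Finset.mem_univ _, hy⟩⟩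
      have hmul : (∑ x ∈ Finset.univ.filter (fun x : P => ConjClasses.mk x = c),
          (if orderOf x = 2 then
            (Finset.univ.filter (fun g : P => g * x * g⁻¹ = x⁻¹)).card else 0)) *
            c.carrier.ncard ≤ c.carrier.ncard * Fintype.card P := by
        rw [Finset.sum_mul]
        calc ∑ x ∈ Finset.univ.filter (fun x : P => ConjClasses.mk x = c),
              (if orderOf x = 2 then
                (Finset.univ.filter (fun g : P => g * x * g⁻¹ = x⁻¹)).card else 0) *
                c.carrier.ncard
            ≤ ∑ x ∈ Finset.univ.filter (fun x : P => ConjClasses.mk x = c),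
                Fintype.card P := by
              apply Finset.sum_le_sum
              intro x hx
              have hxc := (Finset.mem_filter.mp hx).2
              by_cases h2 : orderOf x = 2
              · rw [if_pos h2, ← hxc]
                exact le_of_eq (card_inv_filter x h2)
              · rw [if_neg h2, zero_mul]; exact Nat.zero_le _
          _ = _ := by rw [Finset.sum_const, smul_eq_mul, hN]
      rw [mul_comm] at hmul
      exact Nat.le_of_mul_le_mul_left hmul hNpos
    · rw [if_neg hI]
      apply Nat.le_of_eq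
      apply Finset.sum_eq_zero
      intro x hx
      have hxc := (Finset.mem_filter.mp hx).2
      rw [if_neg]
      intro h2
      exact hI ⟨x, hxc, h2⟩
  have hsumc : ∑ c : ConjClasses P,
      (if (∃ y : P, ConjClasses.mk y = c ∧ orderOf y = 2) then Fintype.card P else 0)
      = Fintype.card P *
        Nat.card {c : ConjClasses P // ∃ y : P, ConjClasses.mk y = c ∧ orderOf y = 2} := by
    have e : Nat.card {c : ConjClasses P // ∃ y : P, ConjClasses.mk y = c ∧ orderOf y = 2}
        = (Finset.univ.filter
            (fun c : ConjClasses P => ∃ y : P, ConjClasses.mk y = c ∧ orderOf y = 2)).card := by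
      rw [← Nat.card_eq_finsetCard]
      apply Nat.card_congr
      apply Equiv.subtypeEquivRight
      intro c
      simp
    rw [e, ← Finset.sum_filter, Finset.sum_const, smul_eq_mul]
    exact mul_comm _ _
  calc ∑ x : P, (Finset.univ.filter (fun g : P => g * x * g⁻¹ = x⁻¹)).card
      ≤ Fintype.card P + ∑ x : P, (if orderOf x = 2 then
        (Finset.univ.filter (fun g : P => g * x * g⁻¹ = x⁻¹)).card else 0) := hstep1
    _ = Fintype.card P + ∑ c : ConjClasses P,
          ∑ x ∈ Finset.univ.filter (fun x : P => ConjClasses.mk x = c),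
          (if orderOf x = 2 then
            (Finset.univ.filter (fun g : P => g * x * g⁻¹ = x⁻¹)).card else 0) := by rw [hfib]
    _ ≤ Fintype.card P + ∑ c : ConjClasses P,
          (if (∃ y : P, ConjClasses.mk y = c ∧ orderOf y = 2) then Fintype.card P else 0) :=
        Nat.add_le_add_left (Finset.sum_le_sum (fun c _ => hc c)) _
    _ = Fintype.card P + Fintype.card P *
        Nat.card {c : ConjClasses P // ∃ y : P, ConjClasses.mk y = c ∧ orderOf y = 2} := by
        rw [hsumc]
    _ = _ := by ring

/-- Let P be a finite 2-group in which N_P(⟨y⟩) = C_P(y) for every y ∈ P. If s is the number of conjugacy classes of involutions of P, then #(P/Φ(P)) ≤ s + 1; in particular the subgroup generated by the involutions of P has order at least #(P/Φ(P)). -/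
theorem result {P : Type*} [Group P] [Finite P] (hP : IsPGroup 2 P)
    (hirr : ∀ y : P, Subgroup.normalizer ((Subgroup.zpowers y : Subgroup P) : Set P) ≤ Subgroup.centralizer {y}) :
    Nat.card (P ⧸ frattini P) ≤ Nat.card {c : ConjClasses P // ∃ y : P, ConjClasses.mk y = c ∧ orderOf y = 2} + 1 ∧
    Nat.card (P ⧸ frattini P) ≤ Nat.card (Subgroup.closure {y : P | orderOf y = 2}) := by
  classical
  haveI : Fintype P := Fintype.ofFinite P
  have hreal : ∀ g x : P, g * x * g⁻¹ = x⁻¹ → x ^ 2 = 1 := by
    intro g x h
    have hg : g ∈ Subgroup.normalizer ((Subgroup.zpowers x : Subgroup P) : Set P) := by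
      rw [Helper20.mem_normalizer_zpowers_iff]
      refine ⟨?_, ?_⟩
      · rw [h]; exact Subgroup.inv_mem _ (Subgroup.mem_zpowers x)
      · have h2 : g⁻¹ * x⁻¹ * g = x := by rw [← h]; group
        have h3 : g⁻¹ * x * g = (g⁻¹ * x⁻¹ * g)⁻¹ := by group
        rw [h3, h2]; exact Subgroup.inv_mem _ (Subgroup.mem_zpowers x)
    have hc := Subgroup.mem_centralizer_iff.mp (hirr x hg) x (Set.mem_singleton x)
    have h4 : g * x * g⁻¹ = x := by rw [← hc]; group
    rw [h4] at h
    have h5 : x * x = x * x⁻¹ := by rw [← h]
    rw [pow_two, h5, mul_inv_cancel]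
  obtain ⟨n, hn⟩ := IsPGroup.iff_card.mp hP
  have hsq : ∀ x : P, x ^ 2 ∈ frattini P := (Cfsg.Agent.S4208.frattini_quot 2 hn).2
  have hkey := count_key (frattini P) hsq _ (sum_bound hreal)
  have hF : (Finset.univ.filter (fun z : P => z ∈ frattini P)).card
      = Nat.card (frattini P) := by
    rw [← Nat.card_eq_finsetCard]
    apply Nat.card_congr
    apply Equiv.subtypeEquivRight
    intro x
    simp
  have hPcard : Fintype.card P = Nat.card (P ⧸ frattini P) * Nat.card (frattini P) := by
    rw [← Nat.card_eq_fintype_card]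
    exact Subgroup.card_eq_card_quotient_mul_card_subgroup (frattini P)
  have hΦpos : 0 < Nat.card (frattini P) := Nat.card_pos
  have h1 : Nat.card (P ⧸ frattini P) ≤
      Nat.card {c : ConjClasses P // ∃ y : P, ConjClasses.mk y = c ∧ orderOf y = 2} + 1 := by
    rw [hF, hPcard, mul_comm (Nat.card (P ⧸ frattini P))] at hkey
    exact Nat.le_of_mul_le_mul_left hkey hΦpos
  refine ⟨h1, le_trans h1 ?_⟩
  rw [← Finite.card_option]
  apply Nat.card_le_card_of_injective
    (fun o : Option {c : ConjClasses P // ∃ y : P, ConjClasses.mk y = c ∧ orderOf y = 2} =>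
      (o.elim (1 : Subgroup.closure {y : P | orderOf y = 2})
        (fun c => ⟨c.2.choose, Subgroup.subset_closure c.2.choose_spec.2⟩)))
  intro a b hab
  rcases a with _ | a <;> rcases b with _ | b
  · rfl
  · exfalso
    have h : (1 : P) = b.2.choose := congrArg Subtype.val hab
    have hb := b.2.choose_spec.2
    rw [← h, orderOf_one] at hb
    exact absurd hb (by norm_num)
  · exfalso
    have h : a.2.choose = (1 : P) := congrArg Subtype.val hab
    have ha := a.2.choose_spec.2
    rw [h, orderOf_one] at ha
    exact absurd ha (by norm_num)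
  · have h : a.2.choose = b.2.choose := congrArg Subtype.val hab
    have ha := a.2.choose_spec.1
    have hb := b.2.choose_spec.1
    congr 1
    apply Subtype.ext
    calc a.1 = ConjClasses.mk a.2.choose := ha.symm
      _ = ConjClasses.mk b.2.choose := by rw [h]
      _ = b.1 := hb

end Cfsg.Agent.S4029
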