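import Cfsg.Statements.S4032
import Cfsg.Agent.Helper20.Basic
import Cfsg.Agent.S0001
import Mathlib

set_option autoImplicit false
open Cfsg
open scoped Pointwise

namespace Cfsg.Agent.S4032

open Cfsg.Agent.Helper20

theorem isComplement_zpowers {G : Type*} [Group G] [Finite G] (N : Subgroup G) [N.Normal]
    (ybar : G ⧸ N) (y' : G)
    (hy'T : y' ∈ (Subgroup.zpowers ybar).comap (QuotientGroup.mk' N))
    (hgen : ybar ∈ Subgroup.zpowers ((QuotientGroup.mk' N) y'))
    (hcop : (orderOf y').Coprime (Nat.card N)) :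
    Subgroup.IsComplement' (N.subgroupOf ((Subgroup.zpowers ybar).comap (QuotientGroup.mk' N)))
      (Subgroup.zpowers (⟨y', hy'T⟩ : ↥((Subgroup.zpowers ybar).comap (QuotientGroup.mk' N)))) := by
  apply Cfsg.Agent.S0001.isComplement'_of_sup
  · rw [eq_top_iff]
    rintro t -
    have ht : (QuotientGroup.mk' N) (t : G) ∈ Subgroup.zpowers ybar := t.2
    have ht2 : (QuotientGroup.mk' N) (t : G) ∈ Subgroup.zpowers ((QuotientGroup.mk' N) y') :=
      (Subgroup.zpowers_le.mpr hgen) ht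
    obtain ⟨i, hi⟩ := Subgroup.mem_zpowers_iff.mp ht2
    have e : t = (⟨y', hy'T⟩ : ↥((Subgroup.zpowers ybar).comap (QuotientGroup.mk' N))) ^ i *
        ((⟨y', hy'T⟩ : ↥((Subgroup.zpowers ybar).comap (QuotientGroup.mk' N))) ^ (-i) * t) := by group
    rw [e]
    apply Subgroup.mul_mem_sup (Subgroup.zpow_mem _ (Subgroup.mem_zpowers _) i)
    rw [Subgroup.mem_subgroupOf]
    have h1 : ((QuotientGroup.mk' N) (y' ^ (-i) * (t : G))) = 1 := by
      rw [map_mul, map_zpow, ← hi, zpow_neg]; group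
    rw [QuotientGroup.mk'_apply, QuotientGroup.eq_one_iff] at h1
    simpa using h1
  · rw [Nat.card_zpowers, Subgroup.orderOf_mk]
    exact Nat.Coprime.coprime_dvd_right (Cfsg.Agent.S0001.card_subgroupOf_dvd N _) hcop

/-- Let π be a set of primes and G a finite group in which N_G(⟨x⟩) = C_G(x) for every π-element x. If N is a normal subgroup of G whose order is divisible by no prime of π, then G/N has the same property: N_{G/N}(⟨y⟩) = C_{G/N}(y) for every π-element y of G/N. -/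
theorem result {G : Type*} [Group G] [Finite G] (π : Set ℕ)
    (hirr : ∀ x : G, (∀ r : ℕ, r.Prime → r ∣ orderOf x → r ∈ π) →
      Subgroup.normalizer ((Subgroup.zpowers x : Subgroup G) : Set G) ≤ Subgroup.centralizer {x})
    (N : Subgroup G) [N.Normal] (hN : ∀ r : ℕ, r.Prime → r ∣ Nat.card N → r ∉ π) :
    ∀ y : G ⧸ N, (∀ r : ℕ, r.Prime → r ∣ orderOf y → r ∈ π) →
      Subgroup.normalizer ((Subgroup.zpowers y : Subgroup (G ⧸ N)) : Set (G ⧸ N)) ≤ Subgroup.centralizer {y} := by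
  intro ybar hybar gbar hgbar
  have hcopmν : Nat.Coprime (orderOf ybar) (Nat.card N) := by
    by_contra hnc
    obtain ⟨r, hr, hr1, hr2⟩ := Nat.Prime.not_coprime_iff_dvd.mp hnc
    exact hN r hr hr2 (hybar r hr hr1)
  obtain ⟨y₀, hy₀⟩ := QuotientGroup.mk'_surjective N ybar
  obtain ⟨g, hg⟩ := QuotientGroup.mk'_surjective N gbar
  have hbez := Nat.gcd_eq_gcd_ab (orderOf ybar) (Nat.card N)
  rw [hcopmν.gcd_eq_one] at hbez
  obtain ⟨y, hydef⟩ : ∃ y : G, y = y₀ ^ ((Nat.card N : ℤ) * Nat.gcdB (orderOf ybar) (Nat.card N)) :=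
    ⟨_, rfl⟩
  have hmky : (QuotientGroup.mk' N) y = ybar := by
    rw [hydef, map_zpow, hy₀]
    have e : (Nat.card N : ℤ) * Nat.gcdB (orderOf ybar) (Nat.card N)
        = 1 - (orderOf ybar : ℤ) * Nat.gcdA (orderOf ybar) (Nat.card N) := by
      have h1 := hbez; push_cast at h1; linarith
    rw [e, zpow_sub, zpow_one, zpow_mul, zpow_natCast, pow_orderOf_eq_one, one_zpow, inv_one, mul_one]
  have hym : y ^ (orderOf ybar) = 1 := by
    have h1 : y₀ ^ (orderOf ybar) ∈ N := by
      rw [← QuotientGroup.eq_one_iff, ← QuotientGroup.mk'_apply, map_pow, hy₀, pow_orderOf_eq_one]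
    have h2 : (y₀ ^ (orderOf ybar)) ^ (Nat.card N) = 1 := by
      have h3 := pow_card_eq_one' (G := ↥N) (x := ⟨_, h1⟩)
      have h4 := congrArg Subtype.val h3
      rw [Subgroup.coe_pow] at h4
      exact h4
    rw [hydef, ← zpow_natCast, ← zpow_mul]
    have e : (Nat.card N : ℤ) * Nat.gcdB (orderOf ybar) (Nat.card N) * (orderOf ybar : ℤ)
        = ((orderOf ybar * Nat.card N : ℕ) : ℤ) * Nat.gcdB (orderOf ybar) (Nat.card N) := by
      push_cast; ring
    rw [e, zpow_mul, zpow_natCast, pow_mul, h2, one_zpow]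
  have hyord : orderOf y ∣ orderOf ybar := orderOf_dvd_of_pow_eq_one hym
  have hypi : ∀ r : ℕ, r.Prime → r ∣ orderOf y → r ∈ π := fun r hr hd => hybar r hr (hd.trans hyord)
  have hycop : (orderOf y).Coprime (Nat.card N) := Nat.Coprime.coprime_dvd_left hyord hcopmν
  obtain ⟨hg1, hg2⟩ := (mem_normalizer_zpowers_iff gbar ybar).mp hgbar
  have hy'mk : (QuotientGroup.mk' N) (g * y * g⁻¹) = gbar * ybar * gbar⁻¹ := by
    rw [map_mul, map_mul, map_inv, hg, hmky]
  have hyT : y ∈ (Subgroup.zpowers ybar).comap (QuotientGroup.mk' N) := by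
    rw [Subgroup.mem_comap, hmky]; exact Subgroup.mem_zpowers _
  have hygen : ybar ∈ Subgroup.zpowers ((QuotientGroup.mk' N) y) := by
    rw [hmky]; exact Subgroup.mem_zpowers _
  have hy'T : g * y * g⁻¹ ∈ (Subgroup.zpowers ybar).comap (QuotientGroup.mk' N) := by
    rw [Subgroup.mem_comap, hy'mk]; exact hg1
  have hy'gen : ybar ∈ Subgroup.zpowers ((QuotientGroup.mk' N) (g * y * g⁻¹)) := by
    rw [hy'mk]
    obtain ⟨j, hj⟩ := Subgroup.mem_zpowers_iff.mp hg2
    refine Subgroup.mem_zpowers_iff.mpr ⟨j, ?_⟩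
    rw [conj_zpow, hj]; group
  have hy'ord : orderOf (g * y * g⁻¹) = orderOf y := by
    have h1 := MulEquiv.orderOf_eq (MulAut.conj g) y
    rwa [MulAut.conj_apply] at h1
  have hH := isComplement_zpowers N ybar y hyT hygen hycop
  have hK := isComplement_zpowers N ybar (g * y * g⁻¹) hy'T hy'gen (by rw [hy'ord]; exact hycop)
  have hNcop : (Nat.card (N.subgroupOf ((Subgroup.zpowers ybar).comap (QuotientGroup.mk' N)))).Coprime
      (N.subgroupOf ((Subgroup.zpowers ybar).comap (QuotientGroup.mk' N))).index := by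
    rw [hH.symm.index_eq_card, Nat.card_zpowers, Subgroup.orderOf_mk]
    exact (Nat.Coprime.coprime_dvd_right (Cfsg.Agent.S0001.card_subgroupOf_dvd N _) hycop).symm
  have hsolv : Group.IsSolvable (↥((Subgroup.zpowers ybar).comap (QuotientGroup.mk' N)) ⧸
      N.subgroupOf ((Subgroup.zpowers ybar).comap (QuotientGroup.mk' N))) := by
    apply Group.isSolvable_of_comm
    intro a b
    induction a using QuotientGroup.induction_on with | _ a =>
    induction b using QuotientGroup.induction_on with | _ b =>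
    rw [← QuotientGroup.mk_mul, ← QuotientGroup.mk_mul, QuotientGroup.eq, Subgroup.mem_subgroupOf]
    rw [← QuotientGroup.eq_one_iff, ← QuotientGroup.mk'_apply]
    push_cast
    rw [map_mul, map_inv, map_mul, map_mul]
    obtain ⟨i, hi⟩ := Subgroup.mem_zpowers_iff.mp a.2
    obtain ⟨j, hj⟩ := Subgroup.mem_zpowers_iff.mp b.2
    rw [← hi, ← hj, ← zpow_add, ← zpow_add, add_comm, inv_mul_cancel]
  obtain ⟨t, ht⟩ := Cfsg.Agent.S0001.result _ hNcop (Or.inr hsolv) _ _ hH hK
  have hconj := Cfsg.Agent.S0001.conjTo_of_smul ht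
  have h1 := (hconj ⟨g * y * g⁻¹, hy'T⟩).mp (Subgroup.mem_zpowers _)
  have h2 := (hconj (t * ⟨y, hyT⟩ * t⁻¹)).mpr (by
    have e : t⁻¹ * (t * ⟨y, hyT⟩ * t⁻¹) * t = ⟨y, hyT⟩ := by group
    rw [e]; exact Subgroup.mem_zpowers _)
  obtain ⟨i, hi⟩ := Subgroup.mem_zpowers_iff.mp h1
  obtain ⟨j, hj⟩ := Subgroup.mem_zpowers_iff.mp h2
  have hi' : y ^ i = (t : G)⁻¹ * (g * y * g⁻¹) * (t : G) := by
    have h3 := congrArg Subtype.val hi
    simpa using h3
  have hj' : (g * y * g⁻¹) ^ j = (t : G) * y * (t : G)⁻¹ := by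
    have h3 := congrArg Subtype.val hj
    simpa using h3
  have huN : (t : G)⁻¹ * g ∈ Subgroup.normalizer ((Subgroup.zpowers y : Subgroup G) : Set G) := by
    rw [mem_normalizer_zpowers_iff]
    constructor
    · refine Subgroup.mem_zpowers_iff.mpr ⟨i, ?_⟩
      rw [hi']; group
    · refine Subgroup.mem_zpowers_iff.mpr ⟨j, ?_⟩
      have e : ((t : G)⁻¹ * g)⁻¹ * y * ((t : G)⁻¹ * g) = g⁻¹ * ((t : G) * y * (t : G)⁻¹) * g := by group
      rw [e, ← hj', conj_zpow]; group
  have huC := hirr y hypi huN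
  rw [Subgroup.mem_centralizer_iff] at huC
  have hcomm : y * ((t : G)⁻¹ * g) = ((t : G)⁻¹ * g) * y := huC y (Set.mem_singleton y)
  have htmem : (QuotientGroup.mk' N) (t : G) ∈ Subgroup.zpowers ybar := t.2
  generalize (t : G) = tG at hcomm htmem
  obtain ⟨l, hl⟩ := Subgroup.mem_zpowers_iff.mp htmem
  have hcomm2 : ybar * (QuotientGroup.mk' N) (tG⁻¹ * g)
      = (QuotientGroup.mk' N) (tG⁻¹ * g) * ybar := by
    have h5 := congrArg (QuotientGroup.mk' N) hcomm
    rw [map_mul (QuotientGroup.mk' N) y, map_mul (QuotientGroup.mk' N) _ y, hmky] at h5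
    exact h5
  have hgdec : gbar = ybar ^ l * (QuotientGroup.mk' N) (tG⁻¹ * g) := by
    rw [hl, ← map_mul, ← hg]; congr 1; group
  rw [Subgroup.mem_centralizer_iff]
  intro z hz
  rw [Set.mem_singleton_iff] at hz
  rw [hz, hgdec, ← mul_assoc, ← zpow_one_add, mul_assoc, ← hcomm2, ← mul_assoc, ← zpow_add_one,
    add_comm]

end Cfsg.Agent.S4032
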