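import Cfsg.Statements.S4036
import Cfsg.Agent.Helper20.TI
import Mathlib

set_option autoImplicit false
open Cfsg

namespace Cfsg.Agent.S4036

open Cfsg.Agent.Helper20

/-- Let P be a finite abelian p-group and K a group of automorphisms of P (a subgroup of Aut P) whose order is divisible by p. If all non-identity elements of K have the same fixed-point subgroup on P, then K has no non-trivial normal subgroup of order prime to p. -/
theorem result {P : Type*} [CommGroup P] [Finite P] {p : ℕ}
    [Fact p.Prime] (hP : IsPGroup p P) (K : Subgroup (MulAut P)) (hK : p ∣ Nat.card K)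
    (hfix : ∀ x y : MulAut P, x ∈ K → y ∈ K → x ≠ 1 → y ≠ 1 → ∀ v : P, x v = v ↔ y v = v) :
    ∀ N : Subgroup ↥K, N.Normal → ¬ p ∣ Nat.card N → N = ⊥ := by
  intro N hNn hNp
  by_contra hne
  classical
  have hp : p.Prime := Fact.out
  obtain ⟨n₀, hn₀N, hn₀1⟩ := exists_ne_one_of_ne_bot N hne
  obtain ⟨x, hx⟩ := exists_prime_orderOf_dvd_card' p hK
  have hx1 : (x : MulAut P) ≠ 1 := by
    intro h
    have : x = 1 := Subtype.ext h
    rw [this, orderOf_one] at hx
    exact hp.one_lt.ne hx
  haveI : Fintype ↥N := Fintype.ofFinite _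
  let θ : P → P := fun v => ∏ n : ↥N, ((n : ↥K) : MulAut P) v
  have hθmul : ∀ v w, θ (v * w) = θ v * θ w := by
    intro v w
    simp only [θ, map_mul]
    exact Finset.prod_mul_distrib
  have hθfix : ∀ (m : ↥N) (v : P), ((m : ↥K) : MulAut P) (θ v) = θ v := by
    intro m v
    simp only [θ]
    rw [map_prod]
    exact Equiv.prod_comp (Equiv.mulLeft m) (fun n : ↥N => ((n : ↥K) : MulAut P) v)
  have hθK : ∀ (k : ↥K) (v : P), θ ((k : MulAut P) v) = (k : MulAut P) (θ v) := by
    intro k v
    simp only [θ]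
    rw [map_prod]
    haveI := hNn
    rw [← (MulAut.conjNormal (H := N) k).toEquiv.prod_comp
      (fun n : ↥N => ((n : ↥K) : MulAut P) ((k : MulAut P) v))]
    apply Finset.prod_congr rfl
    intro n _
    show (((MulAut.conjNormal (H := N) k n : ↥N) : ↥K) : MulAut P) ((k : MulAut P) v)
      = (k : MulAut P) (((n : ↥K) : MulAut P) v)
    rw [MulAut.conjNormal_apply]
    simp
  let θh : P →* P := MonoidHom.mk' θ hθmul
  have hθh : ∀ v, θh v = θ v := fun v => rfl
  have hXp : IsPGroup p ↥(Subgroup.zpowers x) :=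
    IsPGroup.of_card (n := 1) (by rw [Nat.card_zpowers, hx, pow_one])
  letI act : MulAction ↥(Subgroup.zpowers x) ↥θh.ker :=
    { smul := fun g w => ⟨((g : ↥K) : MulAut P) w.1, by
        rw [MonoidHom.mem_ker, hθh, hθK]
        have := w.2
        rw [MonoidHom.mem_ker, hθh] at this
        rw [this, map_one]⟩
      one_smul := fun w => Subtype.ext rfl
      mul_smul := fun g h w => Subtype.ext rfl }
  have hW : θh.ker = ⊥ := by
    by_contra hWne
    have hdvd : p ∣ Nat.card ↥θh.ker := by
      have hWp : IsPGroup p ↥θh.ker := hP.to_subgroup _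
      obtain ⟨j, hj⟩ := IsPGroup.iff_card.mp hWp
      rcases Nat.eq_zero_or_pos j with h0 | h0
      · exfalso; apply hWne
        rw [h0, pow_zero] at hj
        exact (Subgroup.card_eq_one).mp hj
      · rw [hj]; exact dvd_pow_self p h0.ne'
    have h1fix : (1 : ↥θh.ker) ∈ MulAction.fixedPoints ↥(Subgroup.zpowers x) ↥θh.ker := by
      intro g
      apply Subtype.ext
      show ((g : ↥K) : MulAut P) ((1 : ↥θh.ker) : P) = ((1 : ↥θh.ker) : P)
      simp
    obtain ⟨b, hbfix, hb1⟩ := hXp.exists_fixed_point_of_prime_dvd_card_of_fixed_point _ hdvd h1fix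
    apply hb1
    have hxb : (x : MulAut P) (b : P) = (b : P) := by
      have := hbfix ⟨x, Subgroup.mem_zpowers x⟩
      exact congrArg Subtype.val this
    have hnb : ∀ n : ↥N, ((n : ↥K) : MulAut P) (b : P) = (b : P) := by
      intro n
      by_cases hn1 : ((n : ↥K) : MulAut P) = 1
      · rw [hn1]; rfl
      · exact (hfix (x : MulAut P) ((n : ↥K) : MulAut P) x.2 (n : ↥K).2 hx1 hn1 (b : P)).mp hxb
    have hθb : θ (b : P) = (b : P) ^ (Fintype.card ↥N) := by
      simp only [θ]
      rw [Finset.prod_congr rfl (fun n _ => hnb n), Finset.prod_const, Finset.card_univ]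
    have hb0 : θ (b : P) = 1 := by
      have := b.2
      rw [MonoidHom.mem_ker, hθh] at this
      exact this
    rw [hθb] at hb0
    obtain ⟨j, hj⟩ := hP (b : P)
    have hd1 : orderOf (b : P) ∣ Fintype.card ↥N := orderOf_dvd_of_pow_eq_one hb0
    have hd2 : orderOf (b : P) ∣ p ^ j := orderOf_dvd_of_pow_eq_one hj
    have hcop : Nat.Coprime (Fintype.card ↥N) (p ^ j) := by
      apply Nat.Coprime.pow_right
      rw [Nat.coprime_comm, Nat.Prime.coprime_iff_not_dvd hp, ← Nat.card_eq_fintype_card]
      exact hNp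
    have := Nat.dvd_gcd hd1 hd2
    rw [hcop.gcd_eq_one] at this
    have hb_one : (b : P) = 1 := orderOf_eq_one_iff.mp (Nat.dvd_one.mp this)
    exact (Subtype.ext hb_one).symm
  have hinj : Function.Injective θh := (MonoidHom.ker_eq_bot_iff θh).mp hW
  have hsurj : Function.Surjective θh := Finite.injective_iff_surjective.mp hinj
  apply hn₀1
  apply Subtype.ext
  apply MulEquiv.ext
  intro v
  obtain ⟨u, rfl⟩ := hsurj v
  exact hθfix ⟨n₀, hn₀N⟩ u

end Cfsg.Agent.S4036
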