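-- Statement S4043
import Cfsg.Statements.S4043
import Mathlib
import Cfsg.Agent.Helper20.Basic
import Cfsg.Agent.S0001

set_option autoImplicit false
open Cfsg

namespace Cfsg.Agent.S4043

/-- the normal `p`-complement and a Sylow `p`-subgroup of `A`, as subgroups of `G` -/
theorem data_of_hasNormalPComplement {G : Type*} [Group G] [Finite G] {p : ℕ} [Fact p.Prime]
    (A : Subgroup G) (hAp : Cfsg.HasNormalPComplement p A) :
    ∃ K' S' : Subgroup G, K' ≤ A ∧ S' ≤ A ∧ (∀ a ∈ A, ∀ k ∈ K', a * k * a⁻¹ ∈ K') ∧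
      (∀ a ∈ A, ∃ s ∈ S', ∃ k ∈ K', a = s * k) ∧ IsPGroup p S' ∧ ¬ p ∣ Nat.card K' := by
  obtain ⟨S, K, hKn, hKS⟩ := hAp
  refine ⟨K.map A.subtype, (S : Subgroup A).map A.subtype, ?_, ?_, ?_, ?_,
    S.isPGroup'.map A.subtype, ?_⟩
  · rintro _ ⟨k, -, rfl⟩; exact k.2
  · rintro _ ⟨s, -, rfl⟩; exact s.2
  · rintro a ha _ ⟨k, hk, rfl⟩
    exact ⟨⟨a, ha⟩ * k * ⟨a, ha⟩⁻¹, hKn.conj_mem k hk ⟨a, ha⟩, rfl⟩
  · intro a ha
    have hsup : (S : Subgroup A) ⊔ K = ⊤ := by rw [sup_comm]; exact hKS.sup_eq_top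
    have hmem : (⟨a, ha⟩ : A) ∈ (S : Subgroup A) ⊔ K := by rw [hsup]; trivial
    haveI := hKn
    obtain ⟨s, hs, k, hk, e⟩ :=
      (Cfsg.Agent.S0001.mem_sup_normal (S : Subgroup A) K ⟨a, ha⟩).mp hmem
    refine ⟨s, ⟨s, hs, rfl⟩, k, ⟨k, hk, rfl⟩, ?_⟩
    have := congrArg Subtype.val e
    simpa using this
  · rw [Subgroup.card_map_of_injective A.subtype_injective, ← hKS.index_eq_card]
    exact S.not_dvd_index

theorem mem_sup_of_pow {G : Type*} [Group G] [Finite G] {p : ℕ} [Fact p.Prime]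
    (N : Subgroup G) [N.Normal] (A : Subgroup G) (hAN : A ⊔ N = ⊤)
    (K S : Subgroup G) (hKn : ∀ a ∈ A, ∀ k ∈ K, a * k * a⁻¹ ∈ K)
    (hdec : ∀ a ∈ A, ∃ s ∈ S, ∃ k ∈ K, a = s * k) (hSp : IsPGroup p S)
    (x : G) (m : ℕ) (hxm : x ^ m = 1) (hm : ¬ p ∣ m) : x ∈ K ⊔ N := by
  have hconjA : ∀ a ∈ A, ∀ y ∈ K ⊔ N, a * y * a⁻¹ ∈ K ⊔ N := by
    intro a ha y hy
    obtain ⟨k, hk, n, hn, rfl⟩ := (Cfsg.Agent.S0001.mem_sup_normal K N y).mp hy
    have e : a * (k * n) * a⁻¹ = (a * k * a⁻¹) * (a * n * a⁻¹) := by group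
    rw [e]
    exact Subgroup.mul_mem _ (Subgroup.mem_sup_left (hKn a ha k hk))
      (Subgroup.mem_sup_right (Subgroup.Normal.conj_mem inferInstance n hn a))
  haveI hLn : (K ⊔ N).Normal := by
    constructor
    intro y hy g
    have hg : g ∈ A ⊔ N := by rw [hAN]; trivial
    obtain ⟨a, ha, n, hn, rfl⟩ := (Cfsg.Agent.S0001.mem_sup_normal A N g).mp hg
    have e : a * n * y * (a * n)⁻¹ = a * (n * y * n⁻¹) * a⁻¹ := by group
    rw [e]
    apply hconjA a ha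
    exact Subgroup.mul_mem _ (Subgroup.mul_mem _ (Subgroup.mem_sup_right hn) hy)
      (Subgroup.inv_mem _ (Subgroup.mem_sup_right hn))
  have hx : x ∈ A ⊔ N := by rw [hAN]; trivial
  obtain ⟨a, ha, n, hn, rfl⟩ := (Cfsg.Agent.S0001.mem_sup_normal A N x).mp hx
  obtain ⟨s, hs, k, hk, rfl⟩ := hdec a ha
  obtain ⟨j, hj⟩ := hSp ⟨s, hs⟩
  have hj' : s ^ (p ^ j) = 1 := by
    have := congrArg Subtype.val hj
    simpa using this
  have hq : (QuotientGroup.mk (s * k * n) : G ⧸ (K ⊔ N)) = QuotientGroup.mk s := by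
    rw [QuotientGroup.eq]
    have e : (s * k * n)⁻¹ * s = n⁻¹ * k⁻¹ := by group
    rw [e]
    exact Subgroup.mul_mem _ (Subgroup.mem_sup_right (N.inv_mem hn))
      (Subgroup.mem_sup_left (K.inv_mem hk))
  have hpow : (s * k * n) ^ (p ^ j) ∈ K ⊔ N := by
    rw [← QuotientGroup.eq_one_iff, QuotientGroup.mk_pow, hq, ← QuotientGroup.mk_pow, hj',
      QuotientGroup.mk_one]
  have hpow2 : (s * k * n) ^ m ∈ K ⊔ N := by rw [hxm]; exact Subgroup.one_mem _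
  exact Helper20.mem_of_pow_mem_of_pow_mem_of_coprime (K ⊔ N) _ (p ^ j) m hpow hpow2
    (Nat.Coprime.pow_left j ((Nat.Prime.coprime_iff_not_dvd Fact.out).mpr hm))

theorem coprime_card_of_not_dvd {G : Type*} [Group G] [Finite G] {p : ℕ} [Fact p.Prime]
    (N : Subgroup G) (hN : IsPGroup p N) (K : Subgroup G) (hKp : ¬ p ∣ Nat.card K) :
    (Nat.card K).Coprime (Nat.card N) := by
  obtain ⟨e, he⟩ := IsPGroup.iff_card.mp hN
  rw [he]
  exact Nat.Coprime.pow_right e ((Nat.Prime.coprime_iff_not_dvd Fact.out).mpr hKp).symm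

theorem conj_step {G : Type*} [Group G] [Finite G] {p : ℕ} [Fact p.Prime]
    (N : Subgroup G) [N.Normal] (hN : IsPGroup p N) (K K₁ : Subgroup G)
    (hKp : ¬ p ∣ Nat.card K) (hKp₁ : ¬ p ∣ Nat.card K₁) (hL : K₁ ⊔ N = K ⊔ N) :
    ∃ m ∈ N, ∀ x, x ∈ K₁ ↔ m⁻¹ * x * m ∈ K := by
  have hK : K ≤ K ⊔ N := le_sup_left
  have hK₁ : K₁ ≤ K ⊔ N := by rw [← hL]; exact le_sup_left
  have hNL : N ≤ K ⊔ N := le_sup_right
  have hpL : IsPGroup p (N.subgroupOf (K ⊔ N)) := hN.comap_subtype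
  haveI := hpL.isNilpotent
  have hsolv : Group.IsSolvable (N.subgroupOf (K ⊔ N)) := inferInstance
  have hcop : ∀ H : Subgroup G, ¬ p ∣ Nat.card H →
      (Nat.card (H.subgroupOf (K ⊔ N))).Coprime (Nat.card (N.subgroupOf (K ⊔ N))) := by
    intro H hH
    exact Nat.Coprime.coprime_dvd_left (Cfsg.Agent.S0001.card_subgroupOf_dvd H (K ⊔ N))
      (Nat.Coprime.coprime_dvd_right (Cfsg.Agent.S0001.card_subgroupOf_dvd N (K ⊔ N))
        (coprime_card_of_not_dvd N hN H hH))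
  obtain ⟨l, hl⟩ := Cfsg.Agent.S0001.auxA _ (↥(K ⊔ N)) rfl (N.subgroupOf (K ⊔ N))
    (K.subgroupOf (K ⊔ N)) (K₁.subgroupOf (K ⊔ N)) inferInstance hsolv
    (Cfsg.Agent.S0001.sup_subgroupOf_top K N (K ⊔ N) hK hNL rfl)
    (Cfsg.Agent.S0001.sup_subgroupOf_top K₁ N (K ⊔ N) hK₁ hNL hL) (hcop K hKp) (hcop K₁ hKp₁)
  obtain ⟨g, hgL, hg⟩ := Cfsg.Agent.S0001.conjTo_of_subgroup (K ⊔ N) K K₁ hK hK₁ ⟨l, hl⟩
  obtain ⟨k, hk, n, hn, e⟩ :=
    (Cfsg.Agent.S0001.mem_sup_normal K N g⁻¹).mp ((K ⊔ N).inv_mem hgL)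
  have hg' : g = n⁻¹ * k⁻¹ := by
    have := congrArg Inv.inv e
    simpa using this
  refine ⟨n⁻¹, N.inv_mem hn, fun x => ?_⟩
  rw [hg x, e, hg', inv_inv]
  constructor
  · intro h
    have h2 := K.mul_mem (K.mul_mem (K.inv_mem hk) h) hk
    have e2 : k⁻¹ * (k * n * x * (n⁻¹ * k⁻¹)) * k = n * x * n⁻¹ := by group
    rw [e2] at h2
    exact h2
  · intro h
    have h2 := K.mul_mem (K.mul_mem hk h) (K.inv_mem hk)
    have e2 : k * (n * x * n⁻¹) * k⁻¹ = k * n * x * (n⁻¹ * k⁻¹) := by group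
    rw [e2] at h2
    exact h2

theorem exists_fixed_of_pgroup {G : Type*} [Group G] [Finite G] {p : ℕ} [Fact p.Prime]
    (C S : Subgroup G) (hC : IsPGroup p C) (hS : IsPGroup p S)
    (hnorm : ∀ s ∈ S, ∀ c ∈ C, s * c * s⁻¹ ∈ C) (hne : C ≠ ⊥) :
    ∃ c ∈ C, c ≠ 1 ∧ ∀ s ∈ S, s * c * s⁻¹ = c := by
  letI : MulAction S C :=
    { smul := fun s c => ⟨(s : G) * (c : G) * (s : G)⁻¹, hnorm s s.2 c c.2⟩
      one_smul := fun c => Subtype.ext
        (show ((1 : S) : G) * (c : G) * ((1 : S) : G)⁻¹ = (c : G) by simp)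
      mul_smul := fun s t c => Subtype.ext
        (show ((s * t : S) : G) * (c : G) * ((s * t : S) : G)⁻¹
          = (s : G) * ((t : G) * (c : G) * (t : G)⁻¹) * (s : G)⁻¹ by simp [mul_assoc]) }
  have hdvd : p ∣ Nat.card C := by
    obtain ⟨n, hn⟩ := IsPGroup.iff_card.mp hC
    rcases Nat.eq_zero_or_pos n with h0 | hpos
    · exfalso; apply hne
      rw [h0, pow_zero] at hn
      exact (Subgroup.eq_bot_iff_card _).mpr hn
    · rw [hn]; exact dvd_pow_self p (Nat.pos_iff_ne_zero.mp hpos)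
  have h1 : (1 : C) ∈ MulAction.fixedPoints S C := by
    rw [MulAction.mem_fixedPoints]
    intro s
    exact Subtype.ext (show (s : G) * ((1 : C) : G) * (s : G)⁻¹ = ((1 : C) : G) by simp)
  obtain ⟨b, hb, hb1⟩ := hS.exists_fixed_point_of_prime_dvd_card_of_fixed_point (α := C) hdvd h1
  rw [MulAction.mem_fixedPoints] at hb
  refine ⟨b, b.2, ?_, fun s hs => ?_⟩
  · intro h; apply hb1; exact Subtype.ext h.symm
  · exact congrArg Subtype.val (hb ⟨s, hs⟩)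

/-- Let G be a finite group that is the semidirect product of a normal p-subgroup N by a subgroup A, and also of N by a subgroup A₁, where p is a prime and A and A₁ both have normal p-complements. If C_N(A) = C_N(A₁) = 1, then A₁ is conjugate to A by an element of N. -/
theorem result {G : Type*} [Group G] [Finite G] {p : ℕ}
    [Fact p.Prime] (N : Subgroup G) [N.Normal] (hN : IsPGroup p N) (A A₁ : Subgroup G)
    (hA : A.IsComplement' N) (hA₁ : A₁.IsComplement' N)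
    (hAp : Cfsg.HasNormalPComplement p A) (hA₁p : Cfsg.HasNormalPComplement p A₁)
    (hC : ∀ n : G, n ∈ N → (∀ a : G, a ∈ A → a * n * a⁻¹ = n) → n = 1)
    (hC₁ : ∀ n : G, n ∈ N → (∀ a : G, a ∈ A₁ → a * n * a⁻¹ = n) → n = 1) :
    ∃ n : G, n ∈ N ∧ A₁ = A.map (MulAut.conj n).toMonoidHom := by
  obtain ⟨K, S, hKA, hSA, hKn, hdec, hSp, hKp⟩ := data_of_hasNormalPComplement A hAp
  obtain ⟨K₁, S₁, hKA₁, hSA₁, hKn₁, hdec₁, hSp₁, hKp₁⟩ := data_of_hasNormalPComplement A₁ hA₁p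
  have hAN : A ⊔ N = ⊤ := hA.sup_eq_top
  have hA₁N : A₁ ⊔ N = ⊤ := hA₁.sup_eq_top
  have h1 : K₁ ≤ K ⊔ N := fun x hx =>
    mem_sup_of_pow N A hAN K S hKn hdec hSp x (Nat.card K₁)
      (orderOf_dvd_iff_pow_eq_one.mp (Subgroup.orderOf_dvd_natCard K₁ hx)) hKp₁
  have h2 : K ≤ K₁ ⊔ N := fun x hx =>
    mem_sup_of_pow N A₁ hA₁N K₁ S₁ hKn₁ hdec₁ hSp₁ x (Nat.card K)
      (orderOf_dvd_iff_pow_eq_one.mp (Subgroup.orderOf_dvd_natCard K hx)) hKp
  have hL : K₁ ⊔ N = K ⊔ N := le_antisymm (sup_le h1 le_sup_right) (sup_le h2 le_sup_right)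
  obtain ⟨m, hmN, hm⟩ := conj_step N hN K K₁ hKp hKp₁ hL
  have hKN : K ⊓ N = ⊥ :=
    disjoint_iff.mp (Subgroup.disjoint_of_coprime_natCard (coprime_card_of_not_dvd N hN K hKp))
  have hCtriv : ∀ n ∈ N, (∀ k ∈ K, n * k * n⁻¹ ∈ K) → n = 1 := by
    intro n hn hnK
    have hcent : ∀ k ∈ K, k * n = n * k := by
      intro k hk
      have h1 : n * k * n⁻¹ * k⁻¹ ∈ K := K.mul_mem (hnK k hk) (K.inv_mem hk)
      have h2 : n * k * n⁻¹ * k⁻¹ ∈ N := by
        have e : n * k * n⁻¹ * k⁻¹ = n * (k * n⁻¹ * k⁻¹) := by group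
        rw [e]
        exact N.mul_mem hn (Subgroup.Normal.conj_mem inferInstance _ (N.inv_mem hn) k)
      have h3 : n * k * n⁻¹ * k⁻¹ = 1 := by
        have h4 : n * k * n⁻¹ * k⁻¹ ∈ K ⊓ N := ⟨h1, h2⟩
        rw [hKN] at h4
        exact Subgroup.mem_bot.mp h4
      calc k * n = (n * k * n⁻¹ * k⁻¹)⁻¹ * (n * k) := by group
        _ = n * k := by rw [h3]; group
    by_contra hne
    have hCne : N ⊓ Subgroup.centralizer (K : Set G) ≠ ⊥ := by
      intro hbot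
      have h5 : n ∈ N ⊓ Subgroup.centralizer (K : Set G) :=
        ⟨hn, Subgroup.mem_centralizer_iff.mpr hcent⟩
      rw [hbot] at h5
      exact hne (Subgroup.mem_bot.mp h5)
    have hnormC : ∀ s ∈ S, ∀ c ∈ N ⊓ Subgroup.centralizer (K : Set G),
        s * c * s⁻¹ ∈ N ⊓ Subgroup.centralizer (K : Set G) := by
      intro s hs c hc
      rw [Subgroup.mem_inf] at hc ⊢
      refine ⟨Subgroup.Normal.conj_mem inferInstance c hc.1 s, ?_⟩
      rw [Subgroup.mem_centralizer_iff]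
      intro k hk
      have hk' : s⁻¹ * k * s ∈ K := by
        have := hKn s⁻¹ (A.inv_mem (hSA hs)) k hk
        simpa using this
      have hck := Subgroup.mem_centralizer_iff.mp hc.2 _ hk'
      calc k * (s * c * s⁻¹) = s * (s⁻¹ * k * s * c) * s⁻¹ := by group
        _ = s * (c * (s⁻¹ * k * s)) * s⁻¹ := by rw [hck]
        _ = s * c * s⁻¹ * k := by group
    obtain ⟨c, hc, hc1, hfix⟩ := exists_fixed_of_pgroup
      (N ⊓ Subgroup.centralizer (K : Set G)) S (hN.to_le inf_le_left) hSp hnormC hCne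
    rw [Subgroup.mem_inf] at hc
    apply hc1
    apply hC c hc.1
    intro a ha
    obtain ⟨s, hs, k, hk, rfl⟩ := hdec a ha
    have hck : k * c = c * k := Subgroup.mem_centralizer_iff.mp hc.2 k hk
    calc s * k * c * (s * k)⁻¹ = s * (k * c) * k⁻¹ * s⁻¹ := by group
      _ = s * (c * k) * k⁻¹ * s⁻¹ := by rw [hck]
      _ = s * c * s⁻¹ := by group
      _ = c := hfix s hs
  refine ⟨m, hmN, ?_⟩
  have hle : A₁ ≤ A.map (MulAut.conj m).toMonoidHom := by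
    intro a₁ ha₁
    rw [Subgroup.mem_map]
    have hyK : ∀ k ∈ K, (m⁻¹ * a₁ * m) * k * (m⁻¹ * a₁ * m)⁻¹ ∈ K := by
      intro k hk
      have h1 : m * k * m⁻¹ ∈ K₁ := by
        have e : m⁻¹ * (m * k * m⁻¹) * m = k := by group
        rw [hm, e]; exact hk
      have h2 : a₁ * (m * k * m⁻¹) * a₁⁻¹ ∈ K₁ := hKn₁ a₁ ha₁ _ h1
      have h3 := (hm _).mp h2
      have e : m⁻¹ * (a₁ * (m * k * m⁻¹) * a₁⁻¹) * m
          = (m⁻¹ * a₁ * m) * k * (m⁻¹ * a₁ * m)⁻¹ := by group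
      rw [e] at h3
      exact h3
    have hyG : m⁻¹ * a₁ * m ∈ A ⊔ N := by rw [hAN]; trivial
    obtain ⟨a, ha, n, hn, hyan⟩ := (Cfsg.Agent.S0001.mem_sup_normal A N _).mp hyG
    have hn1 : n = 1 := by
      apply hCtriv n hn
      intro k hk
      have h4 := hKn a⁻¹ (A.inv_mem ha) _ (hyK k hk)
      have e : a⁻¹ * ((m⁻¹ * a₁ * m) * k * (m⁻¹ * a₁ * m)⁻¹) * a⁻¹⁻¹ = n * k * n⁻¹ := by
        rw [hyan]; group
      rw [e] at h4
      exact h4
    refine ⟨a, ha, ?_⟩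
    rw [hn1, mul_one] at hyan
    rw [MulEquiv.coe_toMonoidHom, MulAut.conj_apply, ← hyan]; group
  apply Subgroup.eq_of_le_of_card_ge hle
  rw [Subgroup.card_map_of_injective (MulAut.conj m).injective]
  have e1 := hA.card_mul_card
  have e2 := hA₁.card_mul_card
  have hNpos : 0 < Nat.card N := Nat.card_pos
  have e3 : Nat.card A * Nat.card N = Nat.card A₁ * Nat.card N := by rw [e1, e2]
  exact le_of_eq (Nat.eq_of_mul_eq_mul_right hNpos e3)

end Cfsg.Agent.S4043
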