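import Cfsg.Statements.S4049
import Cfsg.Agent.Lead.RealOdd
import Mathlib

set_option autoImplicit false
open Cfsg

namespace Cfsg.Agent.S4049

/-- Let G be a finite group such that N_G(H)/C_G(H) has odd order for every nontrivial subgroup H of odd order. Then the Sylow 2-subgroups of G are normal. -/
theorem result {G : Type*} [Group G] [Finite G]
    (hhom : ∀ H : Subgroup G, H ≠ ⊥ → ¬ 2 ∣ Nat.card ↥H →
        ¬ 2 ∣ (Subgroup.centralizer (H : Set G)).relIndex (Subgroup.normalizer (H : Set G))) (P : Sylow 2 G) :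
    (P : Subgroup G).Normal := by
  haveI : Fact (Nat.Prime 2) := ⟨Nat.prime_two⟩
  by_contra hP
  obtain ⟨x, y, hx1, hxodd, hyx⟩ := Cfsg.Agent.Lead.exists_real_odd P hP
  have hne : Subgroup.zpowers x ≠ ⊥ := by
    rw [Ne, Subgroup.zpowers_eq_bot]; exact hx1
  have hcard : ¬ 2 ∣ Nat.card (Subgroup.zpowers x) := by
    rw [Nat.card_zpowers]; intro h
    exact (Nat.not_even_iff_odd.mpr hxodd) (even_iff_two_dvd.mpr h)
  apply hhom _ hne hcard
  have hyN : y ∈ Subgroup.normalizer ((Subgroup.zpowers x : Subgroup G) : Set G) :=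
    Cfsg.Agent.Lead.mem_normalizer_zpowers_of_inv hyx
  rw [Subgroup.relIndex, ← Subgroup.normalizerMonoidHom_ker, Subgroup.index_ker]
  have h1 : (Subgroup.zpowers x).normalizerMonoidHom ⟨y, hyN⟩ ≠ 1 := by
    intro h
    have hker : (⟨y, hyN⟩ : Subgroup.normalizer ((Subgroup.zpowers x : Subgroup G) : Set G)) ∈
        (Subgroup.zpowers x).normalizerMonoidHom.ker := MonoidHom.mem_ker.mpr h
    rw [Subgroup.normalizerMonoidHom_ker, Subgroup.mem_subgroupOf,
      Subgroup.mem_centralizer_iff] at hker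
    have hc : x * y = y * x := hker x (Subgroup.mem_zpowers x)
    exact Cfsg.Agent.Lead.odd_inv_contra hx1 hxodd hyx hc
  have h2 : ((Subgroup.zpowers x).normalizerMonoidHom ⟨y, hyN⟩) ^ 2 = 1 := by
    rw [← map_pow, ← MonoidHom.mem_ker, Subgroup.normalizerMonoidHom_ker, Subgroup.mem_subgroupOf,
      Subgroup.mem_centralizer_iff]
    intro h hh
    obtain ⟨k, rfl⟩ := Subgroup.mem_zpowers_iff.mp hh
    have hc := (Cfsg.Agent.Lead.commute_sq_of_inv hyx).zpow_right k
    have e : ((⟨y, hyN⟩ ^ 2 : Subgroup.normalizer ((Subgroup.zpowers x : Subgroup G) : Set G)) : G)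
        = y * y := by simp [pow_two]
    rw [e]
    exact hc.eq.symm
  have hord : orderOf ((Subgroup.zpowers x).normalizerMonoidHom ⟨y, hyN⟩) = 2 :=
    orderOf_eq_prime h2 h1
  have hmem : (Subgroup.zpowers x).normalizerMonoidHom ⟨y, hyN⟩ ∈
      (Subgroup.zpowers x).normalizerMonoidHom.range := ⟨_, rfl⟩
  have hdvd := Subgroup.orderOf_dvd_natCard _ hmem
  rwa [hord] at hdvd

end Cfsg.Agent.S4049
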