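import Cfsg.Statements.S4058
import Cfsg.Agent.Helper22.InvCount

set_option autoImplicit false
open Cfsg
open Cfsg.Agent.Helper24 Cfsg.Agent.Helper5 Cfsg.Agent.Helper22

namespace Cfsg.Agent.S4058

/-- Let G be a finite 2-group with #(G/Φ(G)) ≥ 2^(2k+1). Then the number of elements x of G with x² = 1 is divisible by 2^(k+1). -/
theorem result {G : Type*} [Group G] [Finite G] (hG : IsPGroup 2 G) (k : ℕ)
    (hgen : 2 ^ (2 * k + 1) ≤ Nat.card (G ⧸ frattini G)) :
    2 ^ (k + 1) ∣ Nat.card {x : G // x ^ 2 = 1} := by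
  classical
  haveI := Fintype.ofFinite G
  haveI : Fact (Nat.Prime 2) := ⟨Nat.prime_two⟩
  have hcount : (Nat.card {x : G // x ^ 2 = 1} : ℤ) =
      ∑ χ : IrrCharacter G, fsInt χ * (charDegree (χ : G → ℂ) : ℤ) := by
    rw [sum_fsInt_mul_deg]
    have h1 : Nat.card {x : G // x ^ 2 = 1} = 1 + Nat.card {x : G // orderOf x = 2} := by
      rw [← card_filter_sq_eq_one]
      exact Nat.subtype_card _ (fun x => by rw [Finset.mem_filter, sq]; simp)
    rw [h1]; push_cast; ring
  suffices hdvd : ((2 ^ (k + 1) : ℕ) : ℤ) ∣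
      ∑ χ : IrrCharacter G, fsInt χ * (charDegree (χ : G → ℂ) : ℤ) by
    rw [← hcount] at hdvd
    exact Int.natCast_dvd_natCast.mp hdvd
  letI act : MulAction ((G ⧸ frattini G) →* ℂˣ) (IrrCharacter G) := frattTwistAction G
  have hL : Nat.card ((G ⧸ frattini G) →* ℂˣ) = Nat.card (G ⧸ frattini G) :=
    card_hom_quot_frattini hG
  obtain ⟨d, hd⟩ := IsPGroup.iff_card.mp (hG.to_quotient (frattini G))
  obtain ⟨n, hn⟩ := IsPGroup.iff_card.mp hG
  have hkd : 2 * k + 1 ≤ d := by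
    rw [hd] at hgen
    exact (Nat.pow_le_pow_iff_right one_lt_two).mp hgen
  refine dvd_sum_of_orbit (L := (G ⧸ frattini G) →* ℂˣ) (X := IrrCharacter G)
    (fun χ : IrrCharacter G => fsInt χ * (charDegree (χ : G → ℂ) : ℤ)) _ ?_ ?_
  · intro lam χ
    show fsInt (frattTwist lam χ) * (charDegree ((frattTwist lam χ : IrrCharacter G) : G → ℂ) : ℤ)
      = fsInt χ * (charDegree (χ : G → ℂ) : ℤ)
    rw [fsInt_frattTwist hG, charDegree_frattTwist]
  · intro χ
    haveI : Fintype ((G ⧸ frattini G) →* ℂˣ) := Fintype.ofFinite _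
    haveI : Fintype (MulAction.orbit ((G ⧸ frattini G) →* ℂˣ) χ) := Fintype.ofFinite _
    haveI : Fintype (MulAction.stabilizer ((G ⧸ frattini G) →* ℂˣ) χ) := Fintype.ofFinite _
    have hos := MulAction.card_orbit_mul_card_stabilizer_eq_card_group
      ((G ⧸ frattini G) →* ℂˣ) χ
    rw [← Nat.card_eq_fintype_card, ← Nat.card_eq_fintype_card, ← Nat.card_eq_fintype_card,
      hL, hd] at hos
    obtain ⟨s, hsd, hs⟩ := (Nat.dvd_prime_pow Nat.prime_two).mp (Dvd.intro_left _ hos)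
    -- degree is a power of 2
    obtain ⟨m, hm1, hmdvd⟩ := irr_degree_dvd_card χ
    have hdegm : charDegree (χ : G → ℂ) = m := by
      have h1 := (charDegree_irr χ).1
      rw [hm1] at h1
      exact_mod_cast h1
    rw [hn] at hmdvd
    obtain ⟨j, -, hj⟩ := (Nat.dvd_prime_pow Nat.prime_two).mp hmdvd
    have hdeg : charDegree (χ : G → ℂ) = 2 ^ j := hdegm.trans hj
    -- stabilizer bound
    have hbound : Nat.card (MulAction.stabilizer ((G ⧸ frattini G) →* ℂˣ) χ) ≤
        charDegree (χ : G → ℂ) ^ 2 := by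
      rw [Nat.subtype_card (Finset.univ.filter
        (fun lam : (G ⧸ frattini G) →* ℂˣ => lam • χ = χ))
        (fun lam => by
          rw [Finset.mem_filter, MulAction.mem_stabilizer_iff]; simp)]
      exact card_fixing_le χ _ (fun lam hlam => (Finset.mem_filter.mp hlam).2)
    rw [hs, hdeg, ← pow_mul] at hbound
    have hs2j : s ≤ j * 2 := (Nat.pow_le_pow_iff_right one_lt_two).mp hbound
    have horb : Nat.card (MulAction.orbit ((G ⧸ frattini G) →* ℂˣ) χ) = 2 ^ (d - s) := by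
      rw [hs] at hos
      have h2 : (2 : ℕ) ^ d = 2 ^ (d - s) * 2 ^ s := by
        rw [← pow_add, Nat.sub_add_cancel hsd]
      rw [h2] at hos
      exact Nat.eq_of_mul_eq_mul_right (pow_pos two_pos s) hos
    have hnat : 2 ^ (k + 1) ∣
        Nat.card (MulAction.orbit ((G ⧸ frattini G) →* ℂˣ) χ) * charDegree (χ : G → ℂ) := by
      rw [horb, hdeg, ← pow_add]
      exact pow_dvd_pow 2 (by omega)
    have hrw : (Nat.card (MulAction.orbit ((G ⧸ frattini G) →* ℂˣ) χ) : ℤ) *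
        (fsInt χ * (charDegree (χ : G → ℂ) : ℤ)) =
        fsInt χ * ((Nat.card (MulAction.orbit ((G ⧸ frattini G) →* ℂˣ) χ) *
          charDegree (χ : G → ℂ) : ℕ) : ℤ) := by
      push_cast; ring
    show ((2 ^ (k + 1) : ℕ) : ℤ) ∣
      (Nat.card (MulAction.orbit ((G ⧸ frattini G) →* ℂˣ) χ) : ℤ) *
        (fsInt χ * (charDegree (χ : G → ℂ) : ℤ))
    rw [hrw]
    exact Dvd.dvd.mul_left (Int.natCast_dvd_natCast.mpr hnat) _

end Cfsg.Agent.S4058
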