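import Cfsg.Statements.S4065
import Cfsg.Agent.Helper12.SL2Commutant

set_option autoImplicit false
open Cfsg

namespace Cfsg.Agent.S4065

open Cfsg.Agent.Helper12

/-- In a group where commuting non-identity elements have equal centralizers, element centralizers
are TI-subsets. -/
theorem ti_of_comm_trans {G : Type*} [Group G]
    (hT : ∀ a b : G, a ≠ 1 → b ≠ 1 → a * b = b * a → ∀ h : G, h * a = a * h ↔ h * b = b * h) (x : G) :
    Cfsg.IsTISubset (Subgroup.centralizer ({x} : Set G) : Set G) := by
  intro g hg y hy hgy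
  by_contra hy1
  apply hg
  by_cases hx : x = 1
  · subst hx
    rw [Subgroup.mem_set_normalizer_iff]
    intro h
    simp [Subgroup.mem_centralizer_singleton_iff]
  · have hy' : y * x = x * y := Subgroup.mem_centralizer_singleton_iff.mp hy
    have hgy' : (g * y * g⁻¹) * x = x * (g * y * g⁻¹) := Subgroup.mem_centralizer_singleton_iff.mp hgy
    have hgy1 : g * y * g⁻¹ ≠ 1 := by
      intro h
      apply hy1
      have e : y = g⁻¹ * (g * y * g⁻¹) * g := by group
      rw [e, h]
      group
    have e1 := hT x y hx hy1 hy'.symm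
    have e2 := hT x (g * y * g⁻¹) hx hgy1 hgy'.symm
    rw [Subgroup.mem_set_normalizer_iff]
    intro h
    rw [SetLike.mem_coe, SetLike.mem_coe, Subgroup.mem_centralizer_singleton_iff,
      Subgroup.mem_centralizer_singleton_iff, e1 h, e2 (g * h * g⁻¹)]
    constructor
    · intro hh
      calc g * h * g⁻¹ * (g * y * g⁻¹) = g * (h * y) * g⁻¹ := by group
        _ = g * (y * h) * g⁻¹ := by rw [hh]
        _ = g * y * g⁻¹ * (g * h * g⁻¹) := by group
    · intro hh
      have hh' : g⁻¹ * (g * h * g⁻¹ * (g * y * g⁻¹)) * g = g⁻¹ * (g * y * g⁻¹ * (g * h * g⁻¹)) * g := by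
        rw [hh]
      calc h * y = g⁻¹ * (g * h * g⁻¹ * (g * y * g⁻¹)) * g := by group
        _ = g⁻¹ * (g * y * g⁻¹ * (g * h * g⁻¹)) * g := hh'
        _ = y * h := by group

/-- Let F be a finite field with 2ⁿ elements, n ≥ 2. In PSL₂(F) the centralizer of every element meets each of its conjugates by elements outside its normalizer trivially. -/
theorem result (n : ℕ) (hn : 2 ≤ n)
    (x : Matrix.ProjectiveSpecialLinearGroup (Fin 2) (GaloisField 2 n)) :
    Cfsg.IsTISubset (Subgroup.centralizer ({x} : Set (Matrix.ProjectiveSpecialLinearGroup (Fin 2) (GaloisField 2 n))) :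
      Set (Matrix.ProjectiveSpecialLinearGroup (Fin 2) (GaloisField 2 n))) := by
  have h2 : (2 : GaloisField 2 n) = 0 := by
    have h := CharP.cast_eq_zero (GaloisField 2 n) 2
    exact_mod_cast h
  exact ti_of_comm_trans (psl2_char2_comm_trans h2) x

end Cfsg.Agent.S4065
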