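import Cfsg.Statements.S4066
import Cfsg.Agent.Helper20.Basic
import Cfsg.Agent.Helper20.TI
import Mathlib

set_option autoImplicit false
open Cfsg
open scoped Pointwise

namespace Cfsg.Agent.S4066

open Cfsg.Agent.Helper20

/-- the closure of a set of pairwise commuting `p`-elements is a `p`-group -/
theorem isPGroup_closure_of_comm {G : Type*} [Group G] (p : ℕ) (k : Set G)
    (hcomm : ∀ x ∈ k, ∀ y ∈ k, x * y = y * x) (hk : ∀ x ∈ k, ∃ n : ℕ, x ^ (p ^ n) = 1) :
    IsPGroup p ↥(Subgroup.closure k) := by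
  letI := Subgroup.closureCommGroupOfComm hcomm
  have hc : ∀ a b : G, a ∈ Subgroup.closure k → b ∈ Subgroup.closure k → Commute a b := by
    intro a b ha hb
    exact congrArg Subtype.val (mul_comm (⟨a, ha⟩ : ↥(Subgroup.closure k)) ⟨b, hb⟩)
  rintro ⟨a, ha⟩
  have : ∃ n : ℕ, a ^ (p ^ n) = 1 := by
    induction ha using Subgroup.closure_induction with
    | mem z hz => exact hk z hz
    | one => exact ⟨0, one_pow _⟩
    | mul a b ha hb iha ihb =>
      obtain ⟨n, hn⟩ := iha
      obtain ⟨m, hm⟩ := ihb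
      refine ⟨n + m, ?_⟩
      have h1 : a ^ (p ^ (n + m)) = 1 := by rw [pow_add, pow_mul, hn, one_pow]
      have h2 : b ^ (p ^ (n + m)) = 1 := by rw [pow_add, mul_comm, pow_mul, hm, one_pow]
      rw [(hc a b ha hb).mul_pow, h1, h2, one_mul]
    | inv a ha iha =>
      obtain ⟨n, hn⟩ := iha
      exact ⟨n, by rw [inv_pow, hn, inv_one]⟩
  obtain ⟨n, hn⟩ := this
  exact ⟨n, Subtype.ext (by simpa using hn)⟩

/-- Let G be a finite group in which the centralizer of every element meets each of its conjugates by elements outside its normalizer trivially. Then any two distinct Sylow p-subgroups of G, for any prime p, intersect trivially. -/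
theorem result {G : Type*} [Group G] [Finite G] (hTI : ∀ x : G, Cfsg.IsTISubset (Subgroup.centralizer ({x} : Set G) : Set G))
    {p : ℕ} [Fact p.Prime] (P Q : Sylow p G) (hPQ : P ≠ Q) : (P : Subgroup G) ⊓ (Q : Subgroup G) = ⊥ := by
  by_contra hne
  obtain ⟨w, hw, hw1⟩ := exists_ne_one_of_ne_bot _ hne
  obtain ⟨hwP, hwQ⟩ := Subgroup.mem_inf.mp hw
  haveI : Nontrivial ↥(P : Subgroup G) := ⟨⟨⟨w, hwP⟩, 1, fun h => hw1 (congrArg Subtype.val h)⟩⟩
  haveI := P.isPGroup'.center_nontrivial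
  obtain ⟨z₀, hz₀⟩ := exists_ne (1 : ↥(Subgroup.center ↥(P : Subgroup G)))
  have hz1 : ((z₀ : ↥(P : Subgroup G)) : G) ≠ 1 := by
    intro h
    apply hz₀
    apply Subtype.ext; apply Subtype.ext; exact h
  have hPC : ∀ u ∈ (P : Subgroup G), u * ((z₀ : ↥(P : Subgroup G)) : G) = ((z₀ : ↥(P : Subgroup G)) : G) * u := by
    intro u hu
    have := Subgroup.mem_center_iff.mp z₀.2 ⟨u, hu⟩
    exact congrArg Subtype.val this
  generalize ((z₀ : ↥(P : Subgroup G)) : G) = z at hz1 hPC
  have hmemH : ∀ u : G, u ∈ Subgroup.centralizer ({z} : Set G) ↔ z * u = u * z := by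
    intro u
    rw [Subgroup.mem_centralizer_iff]
    constructor
    · intro h; exact h z (Set.mem_singleton z)
    · intro h v hv; rw [Set.mem_singleton_iff] at hv; rw [hv]; exact h
  obtain ⟨g, hg⟩ := MulAction.exists_smul_eq G P Q
  have hQmem : ∀ q : G, q ∈ (Q : Subgroup G) ↔ g⁻¹ * q * g ∈ (P : Subgroup G) := by
    intro q
    rw [← hg, Sylow.coe_subgroup_smul, mem_conj_smul]
  have hgN : g⁻¹ ∈ Subgroup.normalizer ((Subgroup.centralizer ({z} : Set G) : Subgroup G) : Set G) := by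
    by_contra hn
    apply hw1
    apply hTI z g⁻¹ hn w
    · exact (hmemH w).mpr (hPC w hwP).symm
    · rw [inv_inv]
      exact (hmemH _).mpr (hPC _ ((hQmem w).mp hwQ)).symm
  have hQH : ∀ q ∈ (Q : Subgroup G), z * q = q * z := by
    intro q hq
    have h1 : g⁻¹ * q * g ∈ Subgroup.centralizer ({z} : Set G) :=
      (hmemH _).mpr (hPC _ ((hQmem q).mp hq)).symm
    have h2 := (Subgroup.mem_normalizer_iff.mp hgN q).mpr (by rw [inv_inv]; exact h1)
    exact (hmemH q).mp h2
  have hcommconj : ∀ y h : G, z * y = y * z → z * h = h * z → Commute (h * y * h⁻¹) y := by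
    intro y h hy hh
    have hN : h ∈ Subgroup.normalizer ((Subgroup.centralizer ({y} : Set G) : Subgroup G) : Set G) := by
      by_contra hn
      apply hz1
      apply hTI y h hn z
      · rw [SetLike.mem_coe, Subgroup.mem_centralizer_iff]
        intro v hv; rw [Set.mem_singleton_iff] at hv; rw [hv]; exact hy.symm
      · have e : h * z * h⁻¹ = z := by rw [← hh]; group
        rw [e, SetLike.mem_coe, Subgroup.mem_centralizer_iff]
        intro v hv; rw [Set.mem_singleton_iff] at hv; rw [hv]; exact hy.symm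
    have hyC : y ∈ Subgroup.centralizer ({y} : Set G) := by
      rw [Subgroup.mem_centralizer_iff]
      intro v hv; rw [Set.mem_singleton_iff] at hv; rw [hv]
    have h3 := (Subgroup.mem_normalizer_iff.mp hN y).mp hyC
    rw [Subgroup.mem_centralizer_iff] at h3
    exact (h3 y (Set.mem_singleton y)).symm
  have hle : (Q : Subgroup G) ≤ (P : Subgroup G) := by
    intro y hyQ
    have hyH : z * y = y * z := hQH y hyQ
    have hkcomm : ∀ a ∈ {a : G | ∃ h : G, z * h = h * z ∧ a = h * y * h⁻¹},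
        ∀ b ∈ {a : G | ∃ h : G, z * h = h * z ∧ a = h * y * h⁻¹}, a * b = b * a := by
      rintro a ⟨h₁, hh₁, rfl⟩ b ⟨h₂, hh₂, rfl⟩
      have hh : z * (h₁⁻¹ * h₂) = (h₁⁻¹ * h₂) * z := by
        have e1 : z * h₁⁻¹ = h₁⁻¹ * z := by
          have e0 : z * h₁⁻¹ = h₁⁻¹ * (h₁ * z) * h₁⁻¹ := by group
          rw [e0, ← hh₁]; group
        rw [← mul_assoc, e1, mul_assoc, hh₂, mul_assoc]
      have hc := hcommconj y (h₁⁻¹ * h₂) hyH hh
      have e2 : h₁ * y * h₁⁻¹ * (h₂ * y * h₂⁻¹)
          = h₁ * (y * ((h₁⁻¹ * h₂) * y * (h₁⁻¹ * h₂)⁻¹)) * h₁⁻¹ := by group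
      have e3 : h₂ * y * h₂⁻¹ * (h₁ * y * h₁⁻¹)
          = h₁ * (((h₁⁻¹ * h₂) * y * (h₁⁻¹ * h₂)⁻¹) * y) * h₁⁻¹ := by group
      rw [e2, e3, hc.eq]
    obtain ⟨b, hb⟩ := orderOf_eq_pow_of_mem_sylow p Q y hyQ
    have hkp : ∀ a ∈ {a : G | ∃ h : G, z * h = h * z ∧ a = h * y * h⁻¹},
        ∃ n : ℕ, a ^ (p ^ n) = 1 := by
      rintro a ⟨h, hh, rfl⟩
      refine ⟨b, ?_⟩
      rw [conj_pow, ← hb, pow_orderOf_eq_one]; group
    have hA := isPGroup_closure_of_comm p _ hkcomm hkp
    have hconjA : ∀ u : G, z * u = u * z →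
        ∀ a ∈ Subgroup.closure {a : G | ∃ h : G, z * h = h * z ∧ a = h * y * h⁻¹},
        u * a * u⁻¹ ∈ Subgroup.closure {a : G | ∃ h : G, z * h = h * z ∧ a = h * y * h⁻¹} := by
      intro u hu a ha
      induction ha using Subgroup.closure_induction with
      | mem c hc =>
        obtain ⟨h, hh, rfl⟩ := hc
        apply Subgroup.subset_closure
        refine ⟨u * h, ?_, by group⟩
        rw [← mul_assoc, hu, mul_assoc, hh, mul_assoc]
      | one => simp
      | mul a b ha hb iha ihb =>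
        have e : u * (a * b) * u⁻¹ = (u * a * u⁻¹) * (u * b * u⁻¹) := by group
        rw [e]; exact Subgroup.mul_mem _ iha ihb
      | inv a ha iha =>
        have e : u * a⁻¹ * u⁻¹ = (u * a * u⁻¹)⁻¹ := by group
        rw [e]; exact Subgroup.inv_mem _ iha
    have hPN : (P : Subgroup G) ≤ Subgroup.normalizer
        ((Subgroup.closure {a : G | ∃ h : G, z * h = h * z ∧ a = h * y * h⁻¹} : Subgroup G) : Set G) := by
      intro u hu
      have hu1 : z * u = u * z := (hPC u hu).symm
      have hu2 : z * u⁻¹ = u⁻¹ * z := by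
        have e0 : z * u⁻¹ = u⁻¹ * (u * z) * u⁻¹ := by group
        rw [e0, ← hu1]; group
      rw [Subgroup.mem_normalizer_iff]
      intro a
      constructor
      · exact hconjA u hu1 a
      · intro ha
        have := hconjA u⁻¹ hu2 _ ha
        have e : u⁻¹ * (u * a * u⁻¹) * u⁻¹⁻¹ = a := by group
        rw [e] at this; exact this
    have hsup := IsPGroup.to_sup_of_normal_right' P.isPGroup' hA hPN
    have heq := P.is_maximal' hsup le_sup_left
    have hyA : y ∈ Subgroup.closure {a : G | ∃ h : G, z * h = h * z ∧ a = h * y * h⁻¹} :=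
      Subgroup.subset_closure ⟨1, by simp, by simp⟩
    have hy2 : y ∈ (P : Subgroup G) ⊔ Subgroup.closure {a : G | ∃ h : G, z * h = h * z ∧ a = h * y * h⁻¹} :=
      Subgroup.mem_sup_right hyA
    rw [heq] at hy2
    exact hy2
  exact hPQ (Sylow.ext (Q.is_maximal' P.isPGroup' hle))

end Cfsg.Agent.S4066
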