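-- Statement S4071: solvable non-nilpotent groups whose non-abelian subgroups are self-normalizing
import Cfsg.Statements.S4071
import Mathlib
import Cfsg.Agent.S4072

set_option autoImplicit false
open Cfsg

namespace Cfsg.Agent.S4071

open Cfsg.Agent.S4072 (commSub mem_commSub pow_orderOf_aux eq_one_of_pow_coprime)

/-- A nontrivial finite solvable group has a normal subgroup of prime index. -/
theorem exists_normal_prime_index {G : Type*} [Group G] [Finite G] [Group.IsSolvable G]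
    [Nontrivial G] : ∃ (M : Subgroup G) (p : ℕ), p.Prime ∧ M.Normal ∧ M.index = p := by
  have hlt := Group.IsSolvable.commutator_lt_top_of_nontrivial (G := G)
  obtain ⟨M, ⟨hDM, hMtop⟩, hmax⟩ :=
    Set.exists_max_image {M : Subgroup G | commutator G ≤ M ∧ M ≠ ⊤}
      (fun M => Nat.card M) (Set.toFinite _) ⟨commutator G, le_rfl, hlt.ne⟩
  have hMn : M.Normal := by
    constructor
    intro m hm g
    have h1 : g * m * g⁻¹ * m⁻¹ ∈ commutator G := by
      rw [commutator_def]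
      exact Subgroup.commutator_mem_commutator (Subgroup.mem_top g) (Subgroup.mem_top m)
    have h2 := M.mul_mem (hDM h1) hm
    rwa [inv_mul_cancel_right] at h2
  haveI := hMn
  have hmax' : ∀ L : Subgroup G, M ≤ L → L = M ∨ L = ⊤ := by
    intro L hML
    by_cases hL : L = ⊤
    · right; exact hL
    · left
      have h1 : Nat.card L ≤ Nat.card M := hmax L ⟨hDM.trans hML, hL⟩
      exact (Subgroup.eq_of_le_of_card_ge hML h1).symm
  have hQsub : ∀ L : Subgroup (G ⧸ M), L = ⊥ ∨ L = ⊤ := by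
    intro L
    have hML : M ≤ L.comap (QuotientGroup.mk' M) := by
      intro m hm
      rw [Subgroup.mem_comap]
      have e : (QuotientGroup.mk' M) m = 1 := (QuotientGroup.eq_one_iff m).mpr hm
      rw [e]; exact L.one_mem
    rcases hmax' _ hML with h | h
    · left
      rw [eq_bot_iff]
      intro y hy
      obtain ⟨g, rfl⟩ := QuotientGroup.mk'_surjective M y
      have hg : g ∈ L.comap (QuotientGroup.mk' M) := hy
      rw [h] at hg
      rw [Subgroup.mem_bot]; exact (QuotientGroup.eq_one_iff g).mpr hg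
    · right
      rw [eq_top_iff]
      intro y _
      obtain ⟨g, rfl⟩ := QuotientGroup.mk'_surjective M y
      have hg : g ∈ L.comap (QuotientGroup.mk' M) := by rw [h]; trivial
      exact hg
  obtain ⟨g₀, hg₀⟩ : ∃ g : G, g ∉ M := by
    by_contra hcon
    push Not at hcon
    exact hMtop (eq_top_iff.mpr (fun g _ => hcon g))
  obtain ⟨y, hy⟩ : ∃ y : G ⧸ M, y = (g₀ : G ⧸ M) := ⟨_, rfl⟩
  have hne : y ≠ 1 := by
    rw [hy]; exact fun h => hg₀ ((QuotientGroup.eq_one_iff g₀).mp h)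
  have hz : Subgroup.zpowers y = ⊤ := by
    rcases hQsub (Subgroup.zpowers y) with h | h
    · exact absurd (Subgroup.zpowers_eq_bot.mp h) hne
    · exact h
  have hcard : Nat.card (G ⧸ M) = orderOf y := by
    rw [← Nat.card_zpowers, hz, Subgroup.card_top]
  have hn1 : orderOf y ≠ 1 := fun h => hne (orderOf_eq_one_iff.mp h)
  obtain ⟨q, hq, hqd⟩ := Nat.exists_prime_and_dvd hn1
  have hyq : y ^ q = 1 := by
    rcases hQsub (Subgroup.zpowers (y ^ q)) with h | h
    · exact Subgroup.zpowers_eq_bot.mp h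
    · exfalso
      have hc : Nat.card (Subgroup.zpowers (y ^ q)) = Nat.card (G ⧸ M) := by
        rw [h, Subgroup.card_top]
      rw [Nat.card_zpowers, hcard, orderOf_pow_of_dvd hq.ne_zero hqd] at hc
      have h3 := Nat.div_lt_self (orderOf_pos y) hq.one_lt
      omega
  have hoq : orderOf y = q := by
    rcases (Nat.dvd_prime hq).mp (orderOf_dvd_of_pow_eq_one hyq) with h | h
    · exact absurd h hn1
    · exact h
  exact ⟨M, q, hq, hMn, by rw [Subgroup.index_eq_card, hcard, hoq]⟩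

/-- the `p'`-part of an abelian subgroup -/
def primePart {G : Type*} [Group G] (M : Subgroup G) (p : ℕ)
    (hcomm : ∀ x ∈ M, ∀ y ∈ M, x * y = y * x) : Subgroup G where
  carrier := {m | m ∈ M ∧ (orderOf m).Coprime p}
  one_mem' := ⟨M.one_mem, by rw [orderOf_one]; exact Nat.coprime_one_left p⟩
  mul_mem' := by
    rintro a b ⟨ha, hao⟩ ⟨hb, hbo⟩
    refine ⟨M.mul_mem ha hb, ?_⟩
    have h1 : orderOf (a * b) ∣ Nat.lcm (orderOf a) (orderOf b) :=
      (show Commute a b from hcomm a ha b hb).orderOf_mul_dvd_lcm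
    have h2 : orderOf (a * b) ∣ orderOf a * orderOf b := h1.trans (Nat.lcm_dvd_mul _ _)
    exact Nat.Coprime.coprime_dvd_left h2 (Nat.Coprime.mul_left hao hbo)
  inv_mem' := by
    rintro a ⟨ha, hao⟩
    exact ⟨M.inv_mem ha, by rw [orderOf_inv]; exact hao⟩

theorem mem_primePart {G : Type*} [Group G] (M : Subgroup G) (p : ℕ)
    (hcomm : ∀ x ∈ M, ∀ y ∈ M, x * y = y * x) (a : G) :
    a ∈ primePart M p hcomm ↔ a ∈ M ∧ (orderOf a).Coprime p := Iff.rfl

/-- fixed-point-freeness from the self-normalizing hypothesis -/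
theorem fpf_aux {G : Type*} [Group G] [Finite G]
    (hS : ∀ H : Subgroup G, ¬ IsMulCommutative H → Subgroup.normalizer (H : Set G) = H)
    (A : Subgroup G) [hAn : A.Normal] (hcommA : ∀ x ∈ A, ∀ y ∈ A, x * y = y * x) (x : G)
    (hcop : (Nat.card A).Coprime (orderOf x)) (hx : ∃ a ∈ A, x * a ≠ a * x)
    (c : G) (hc : c ∈ A) (hfix : x * c * x⁻¹ = c) : c = 1 := by
  obtain ⟨a, haA, hne⟩ := hx
  have hconj : ∀ y ∈ A, x * y * x⁻¹ ∈ A := fun y hy => hAn.conj_mem y hy x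
  have hApow : ∀ a ∈ A, a ^ Nat.card A = 1 := by
    intro a ha
    have h1 := orderOf_dvd_natCard (⟨a, ha⟩ : ↥A)
    rw [Subgroup.orderOf_mk] at h1
    exact orderOf_dvd_iff_pow_eq_one.mp h1
  obtain ⟨K, hK⟩ : ∃ K : Subgroup G, K = commSub A x hcommA hconj := ⟨_, rfl⟩
  have hKmem : ∀ c, c ∈ K ↔ ∃ a ∈ A, c = x * a * x⁻¹ * a⁻¹ := by
    intro c; rw [hK]; exact mem_commSub A x hcommA hconj c
  have hKA : K ≤ A := by
    intro c hc
    obtain ⟨b, hb, rfl⟩ := (hKmem c).mp hc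
    exact A.mul_mem (hconj b hb) (A.inv_mem hb)
  have hxK : x ∈ Subgroup.normalizer (K : Set G) := by
    apply Cfsg.Agent.Helper5.mem_normalizer_of_conj_mem
    intro c hc
    obtain ⟨b, hb, rfl⟩ := (hKmem c).mp hc
    exact (hKmem _).mpr ⟨x * b * x⁻¹, hconj b hb, by group⟩
  have hzn : Subgroup.zpowers x ≤ Subgroup.normalizer (K : Set G) := by
    rw [Subgroup.zpowers_le]; exact hxK
  obtain ⟨H₀, hH₀⟩ : ∃ H₀ : Subgroup G, H₀ = K ⊔ Subgroup.zpowers x := ⟨_, rfl⟩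
  have hH₀mem : ∀ y ∈ H₀, ∃ k ∈ K, ∃ i : ℤ, y = k * x ^ i := by
    intro y hy
    rw [hH₀] at hy
    have hy' : y ∈ ((K ⊔ Subgroup.zpowers x : Subgroup G) : Set G) := hy
    rw [Subgroup.coe_mul_of_right_le_normalizer_left K _ hzn, Set.mem_mul] at hy'
    obtain ⟨k, hk, z, hz, rfl⟩ := hy'
    obtain ⟨i, rfl⟩ := Subgroup.mem_zpowers_iff.mp hz
    exact ⟨k, hk, i, rfl⟩
  have hcK : x * a * x⁻¹ * a⁻¹ ∈ K := (hKmem _).mpr ⟨a, haA, rfl⟩
  have hH₀nc : ¬ IsMulCommutative ↥H₀ := by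
    intro hcm
    apply hne
    have hcH : x * a * x⁻¹ * a⁻¹ ∈ H₀ := by
      rw [hH₀]; exact (le_sup_left : K ≤ K ⊔ Subgroup.zpowers x) hcK
    have hxH : x ∈ H₀ := by
      rw [hH₀]
      exact (le_sup_right : Subgroup.zpowers x ≤ K ⊔ Subgroup.zpowers x)
        (Subgroup.mem_zpowers x)
    have hcomm2 : x * (x * a * x⁻¹ * a⁻¹) = (x * a * x⁻¹ * a⁻¹) * x :=
      congrArg Subtype.val (hcm.is_comm.comm (⟨x, hxH⟩ : ↥H₀) ⟨_, hcH⟩)
    have hca : x * a * x⁻¹ = (x * a * x⁻¹ * a⁻¹) * a := by group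
    have hcn := pow_orderOf_aux x a _ hca hcomm2
    have hc1 : x * a * x⁻¹ * a⁻¹ = 1 :=
      eq_one_of_pow_coprime _ (Nat.card A) (orderOf x) (hApow _ (hKA hcK)) hcn hcop
    calc x * a = (x * a * x⁻¹ * a⁻¹) * (a * x) := by group
      _ = a * x := by rw [hc1, one_mul]
  have hnorm := hS H₀ hH₀nc
  have hxc : x * c = c * x := by
    calc x * c = (x * c * x⁻¹) * x := by group
      _ = c * x := by rw [hfix]
  have hcN : c ∈ Subgroup.normalizer (H₀ : Set G) := by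
    apply Cfsg.Agent.Helper5.mem_normalizer_of_conj_mem
    intro y hy
    obtain ⟨k, hk, i, rfl⟩ := hH₀mem y hy
    have h1 : c * k = k * c := hcommA c hc k (hKA hk)
    have h2 : c * x ^ i = x ^ i * c :=
      ((show Commute x c from hxc).zpow_left i).eq.symm
    have e : c * (k * x ^ i) * c⁻¹ = k * x ^ i := by
      calc c * (k * x ^ i) * c⁻¹ = (c * k) * x ^ i * c⁻¹ := by group
        _ = (k * c) * x ^ i * c⁻¹ := by rw [h1]
        _ = k * (c * x ^ i) * c⁻¹ := by group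
        _ = k * (x ^ i * c) * c⁻¹ := by rw [h2]
        _ = k * x ^ i := by group
    rw [e]; exact hy
  rw [hnorm] at hcN
  obtain ⟨k, hk, i, hck⟩ := hH₀mem c hcN
  have hxi : x ^ i = 1 := by
    have h1 : x ^ i = k⁻¹ * c := by rw [hck]; group
    have h2 : x ^ i ∈ A := by rw [h1]; exact A.mul_mem (A.inv_mem (hKA hk)) hc
    have h3 : (x ^ i) ^ (orderOf x) = 1 := by
      rw [← zpow_natCast, ← zpow_mul, mul_comm, zpow_mul, zpow_natCast, pow_orderOf_eq_one,
        one_zpow]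
    exact eq_one_of_pow_coprime _ (Nat.card A) (orderOf x) (hApow _ h2) h3 hcop
  rw [hxi, mul_one] at hck
  obtain ⟨b, hb, hkb⟩ := (hKmem k).mp hk
  have hzb : x * b * x⁻¹ = c * b := by rw [hck, hkb]; group
  have hcn := pow_orderOf_aux x b c hzb hxc
  exact eq_one_of_pow_coprime c (Nat.card A) (orderOf x) (hApow c hc) hcn hcop

theorem forward {G : Type*} [Group G] [Finite G] [Group.IsSolvable G]
    (hnn : ¬ Group.IsNilpotent G)
    (hS : ∀ H : Subgroup G, ¬ IsMulCommutative H → Subgroup.normalizer (H : Set G) = H) :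
    ∃ (x : G) (A : Subgroup G) (p : ℕ), p.Prime ∧ A.Normal ∧ IsMulCommutative A ∧
      (∃ k : ℕ, orderOf x = p ^ k) ∧ ¬ p ∣ Nat.card A ∧ (Subgroup.zpowers x).IsComplement' A ∧
      x ^ p ∈ Subgroup.center G ∧ ∀ a : G, a ∈ A → a ≠ 1 → x * a * x⁻¹ ≠ a := by
  haveI : Nontrivial G := by
    by_contra hnt
    rw [not_nontrivial_iff_subsingleton] at hnt
    exact hnn inferInstance
  obtain ⟨M, p, hp, hMn, hMidx⟩ := exists_normal_prime_index (G := G)
  haveI := hMn
  haveI : Fact p.Prime := ⟨hp⟩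
  have hMtop : M ≠ ⊤ := by
    intro h; rw [h, Subgroup.index_top] at hMidx; exact hp.ne_one hMidx.symm
  have hMc : IsMulCommutative ↥M := by
    by_contra hc
    have h2 := hS M hc
    rw [Subgroup.normalizer_eq_top] at h2
    exact hMtop h2.symm
  have hcommM : ∀ x ∈ M, ∀ y ∈ M, x * y = y * x := fun x hx y hy =>
    congrArg Subtype.val (hMc.is_comm.comm (⟨x, hx⟩ : ↥M) ⟨y, hy⟩)
  obtain ⟨A, hA⟩ : ∃ A : Subgroup G, A = primePart M p hcommM := ⟨_, rfl⟩
  have hAmem : ∀ a, a ∈ A ↔ a ∈ M ∧ (orderOf a).Coprime p := by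
    intro a; rw [hA]; exact mem_primePart M p hcommM a
  have hAM : A ≤ M := fun a ha => ((hAmem a).mp ha).1
  have hAn : A.Normal := by
    constructor
    intro a ha g
    obtain ⟨h1, h2⟩ := (hAmem a).mp ha
    refine (hAmem _).mpr ⟨hMn.conj_mem a h1 g, ?_⟩
    have e : g * a * g⁻¹ = MulAut.conj g a := by simp [MulAut.conj_apply]
    rw [e, (MulAut.conj g).orderOf_eq a]
    exact h2
  haveI := hAn
  have hcommA : ∀ x ∈ A, ∀ y ∈ A, x * y = y * x :=
    fun x hx y hy => hcommM x (hAM hx) y (hAM hy)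
  have hAc : IsMulCommutative ↥A := ⟨⟨fun a b => Subtype.ext (hcommA a a.2 b b.2)⟩⟩
  have hpA : ¬ p ∣ Nat.card A := by
    intro hd
    obtain ⟨⟨a, ha⟩, hao⟩ := exists_prime_orderOf_dvd_card' p hd
    rw [Subgroup.orderOf_mk] at hao
    have h2 := ((hAmem a).mp ha).2
    rw [hao] at h2
    exact (Nat.Prime.coprime_iff_not_dvd hp).mp h2 (dvd_refl p)
  have hpowM : ∀ g : G, g ^ p ∈ M := by
    intro g
    rw [← hMidx]; exact Subgroup.pow_index_mem M g
  have hpowA : ∀ g : G, ∃ k : ℕ, g ^ (p ^ k) ∈ A := by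
    intro g
    obtain ⟨k, r, hr, hkr⟩ :=
      Nat.exists_eq_pow_mul_and_not_dvd (orderOf_pos (g ^ p)).ne' p hp.ne_one
    refine ⟨k + 1, ?_⟩
    have e : g ^ (p ^ (k + 1)) = (g ^ p) ^ (p ^ k) := by rw [pow_succ', pow_mul]
    rw [e, hAmem]
    refine ⟨M.pow_mem (hpowM g) _, ?_⟩
    have h1 : orderOf ((g ^ p) ^ (p ^ k)) ∣ r := by
      apply orderOf_dvd_of_pow_eq_one
      rw [← pow_mul, ← hkr, pow_orderOf_eq_one]
    exact Nat.Coprime.coprime_dvd_left h1 ((Nat.Prime.coprime_iff_not_dvd hp).mpr hr).symm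
  have hGA : IsPGroup p (G ⧸ A) := by
    intro y
    obtain ⟨g, rfl⟩ := QuotientGroup.mk_surjective y
    obtain ⟨k, hk⟩ := hpowA g
    exact ⟨k, by rw [← QuotientGroup.mk_pow]; exact (QuotientGroup.eq_one_iff _).mpr hk⟩
  obtain ⟨n, hn⟩ := IsPGroup.iff_card.mp hGA
  have hAidx : A.index = p ^ n := by rw [Subgroup.index_eq_card]; exact hn
  have hcopA : (Nat.card A).Coprime p := ((Nat.Prime.coprime_iff_not_dvd hp).mpr hpA).symm
  have hcop : (Nat.card A).Coprime A.index := by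
    rw [hAidx]; exact Nat.Coprime.pow_right n hcopA
  obtain ⟨P, hP⟩ := Subgroup.exists_left_complement'_of_coprime hcop
  have hPcard : Nat.card P = p ^ n := by rw [← hAidx]; exact hP.index_eq_card.symm
  have hPA : P ⊓ A = ⊥ := disjoint_iff.mp hP.disjoint
  have hPAtop : P ⊔ A = ⊤ := hP.sup_eq_top
  obtain ⟨x, hxP, hxM⟩ : ∃ x ∈ P, x ∉ M := by
    by_contra hcon
    push Not at hcon
    apply hMtop
    rw [eq_top_iff, ← hPAtop]
    exact sup_le hcon hAM
  have hqcard : Nat.card (G ⧸ M) = p := by rw [← Subgroup.index_eq_card]; exact hMidx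
  have hxne : (x : G ⧸ M) ≠ 1 := fun h => hxM ((QuotientGroup.eq_one_iff x).mp h)
  have hgen : ∀ g : G, ∃ i : ℤ, ∃ m ∈ M, g = x ^ i * m := by
    intro g
    have h1 : (g : G ⧸ M) ∈ Subgroup.zpowers (x : G ⧸ M) := by
      rw [zpowers_eq_top_of_prime_card hqcard hxne]; trivial
    obtain ⟨i, hi⟩ := Subgroup.mem_zpowers_iff.mp h1
    rw [← QuotientGroup.mk_zpow] at hi
    exact ⟨i, (x ^ i)⁻¹ * g, QuotientGroup.eq.mp hi, by group⟩
  have hxA : ∃ a ∈ A, x * a ≠ a * x := by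
    by_contra hcon
    push Not at hcon
    apply hnn
    have hAZ : A ≤ Subgroup.center G := by
      intro a ha
      rw [Subgroup.mem_center_iff]
      intro g
      obtain ⟨i, m, hm, rfl⟩ := hgen g
      have h1 : x ^ i * a = a * x ^ i :=
        ((show Commute x a from hcon a ha).zpow_left i).eq
      have h2 : m * a = a * m := hcommM m hm a (hAM ha)
      calc x ^ i * m * a = x ^ i * (m * a) := mul_assoc _ _ _
        _ = x ^ i * (a * m) := by rw [h2]
        _ = (x ^ i * a) * m := (mul_assoc _ _ _).symm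
        _ = (a * x ^ i) * m := by rw [h1]
        _ = a * (x ^ i * m) := mul_assoc _ _ _
    have hQZ : IsPGroup p (G ⧸ Subgroup.center G) := by
      intro y
      obtain ⟨g, rfl⟩ := QuotientGroup.mk_surjective y
      obtain ⟨k, hk⟩ := hpowA g
      exact ⟨k, by rw [← QuotientGroup.mk_pow]; exact (QuotientGroup.eq_one_iff _).mpr (hAZ hk)⟩
    exact Group.of_quotient_center_nilpotent hQZ.isNilpotent
  obtain ⟨a₀, ha₀, hxa₀⟩ := hxA
  obtain ⟨H, hH⟩ : ∃ H : Subgroup G, H = Subgroup.zpowers x ⊔ A := ⟨_, rfl⟩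
  have hHmem : ∀ g, g ∈ H ↔ ∃ h ∈ Subgroup.zpowers x, ∃ a ∈ A, g = h * a := by
    intro g; rw [hH]; exact Cfsg.Agent.S0001.mem_sup_normal _ A g
  have hHnc : ¬ IsMulCommutative ↥H := by
    intro hc
    apply hxa₀
    have hxH : x ∈ H := by
      rw [hH]
      exact (le_sup_left : Subgroup.zpowers x ≤ Subgroup.zpowers x ⊔ A) (Subgroup.mem_zpowers x)
    have haH : a₀ ∈ H := by
      rw [hH]; exact (le_sup_right : A ≤ Subgroup.zpowers x ⊔ A) ha₀
    exact congrArg Subtype.val (hc.is_comm.comm (⟨x, hxH⟩ : ↥H) ⟨a₀, haH⟩)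
  have hHnorm := hS H hHnc
  have hzP : Subgroup.zpowers x ≤ P := by rw [Subgroup.zpowers_le]; exact hxP
  have hPz : P ≤ Subgroup.zpowers x := by
    by_contra hcon
    have hlt : (Subgroup.zpowers x).subgroupOf P < ⊤ := by
      rw [lt_top_iff_ne_top, Ne, Subgroup.subgroupOf_eq_top]; exact hcon
    have hPp : IsPGroup p ↥P := IsPGroup.of_card hPcard
    haveI := hPp.isNilpotent
    have hnc := Group.normalizerCondition_of_isNilpotent (G := ↥P) _ hlt
    obtain ⟨y', hy'n, hy'⟩ := SetLike.exists_of_lt hnc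
    obtain ⟨y, hyP⟩ := y'
    have hyz : y ∉ Subgroup.zpowers x := fun h => hy' (Subgroup.mem_subgroupOf.mpr h)
    have hyn : y ∈ Subgroup.normalizer ((Subgroup.zpowers x : Subgroup G) : Set G) := by
      apply Cfsg.Agent.Helper5.mem_normalizer_of_conj_mem
      intro q hq
      have h1 := (Subgroup.mem_normalizer_iff.mp hy'n ⟨q, hzP hq⟩).mp
        (Subgroup.mem_subgroupOf.mpr hq)
      exact Subgroup.mem_subgroupOf.mp h1
    obtain ⟨i, d, hdM, hyd⟩ := hgen y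
    have hdeq : d = (x ^ i)⁻¹ * y := by rw [hyd]; group
    have hdP : d ∈ P := by
      rw [hdeq]; exact P.mul_mem (P.inv_mem (P.zpow_mem hxP i)) hyP
    have hdz : d ∉ Subgroup.zpowers x := by
      intro h
      apply hyz
      rw [hyd]
      exact Subgroup.mul_mem _ (Subgroup.zpow_mem_zpowers x i) h
    have hdn : d ∈ Subgroup.normalizer ((Subgroup.zpowers x : Subgroup G) : Set G) := by
      rw [hdeq]
      exact Subgroup.mul_mem _ (Subgroup.inv_mem _
        (Subgroup.le_normalizer (Subgroup.zpow_mem_zpowers x i))) hyn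
    have hdH : d ∈ Subgroup.normalizer (H : Set G) := by
      apply Cfsg.Agent.Helper5.mem_normalizer_of_conj_mem
      intro q hq
      obtain ⟨h, hh, a, ha, rfl⟩ := (hHmem q).mp hq
      exact (hHmem _).mpr ⟨d * h * d⁻¹, (Subgroup.mem_normalizer_iff.mp hdn h).mp hh,
        d * a * d⁻¹, hAn.conj_mem a ha d, by group⟩
    rw [hHnorm] at hdH
    obtain ⟨h, hh, a, ha, hda⟩ := (hHmem d).mp hdH
    have ha1 : a = 1 := by
      have h1 : a ∈ P ⊓ A := by
        refine Subgroup.mem_inf.mpr ⟨?_, ha⟩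
        have e : a = h⁻¹ * d := by rw [hda]; group
        rw [e]; exact P.mul_mem (P.inv_mem (hzP hh)) hdP
      rw [hPA, Subgroup.mem_bot] at h1; exact h1
    rw [ha1, mul_one] at hda
    exact hdz (hda ▸ hh)
  have hPeq : Subgroup.zpowers x = P := le_antisymm hzP hPz
  have hxo : orderOf x = p ^ n := by
    rw [← Nat.card_zpowers, hPeq]; exact hPcard
  refine ⟨x, A, p, hp, hAn, hAc, ⟨n, hxo⟩, hpA, ?_, ?_, ?_⟩
  · rw [hPeq]; exact hP
  · rw [Subgroup.mem_center_iff]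
    intro g
    have hgH : g ∈ Subgroup.zpowers x ⊔ A := by rw [hPeq, hPAtop]; trivial
    obtain ⟨h, hh, a, ha, rfl⟩ := (Cfsg.Agent.S0001.mem_sup_normal _ A g).mp hgH
    obtain ⟨j, rfl⟩ := Subgroup.mem_zpowers_iff.mp hh
    have h1 : a * x ^ p = x ^ p * a := hcommM a (hAM ha) _ (hpowM x)
    have h2 : x ^ j * x ^ p = x ^ p * x ^ j :=
      (((Commute.refl x).zpow_left j).pow_right p).eq
    calc x ^ j * a * x ^ p = x ^ j * (a * x ^ p) := mul_assoc _ _ _
      _ = x ^ j * (x ^ p * a) := by rw [h1]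
      _ = (x ^ j * x ^ p) * a := (mul_assoc _ _ _).symm
      _ = (x ^ p * x ^ j) * a := by rw [h2]
      _ = x ^ p * (x ^ j * a) := mul_assoc _ _ _
  · intro c hc hc1 hfix
    apply hc1
    have hcop2 : (Nat.card A).Coprime (orderOf x) := by
      rw [hxo]; exact Nat.Coprime.pow_right n hcopA
    exact fpf_aux hS A hcommA x hcop2 ⟨a₀, ha₀, hxa₀⟩ c hc hfix

theorem backward {G : Type*} [Group G] [Finite G]
    (x : G) (A : Subgroup G) (p : ℕ) (hp : p.Prime) (hAn : A.Normal) (hAc : IsMulCommutative ↥A)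
    (hxo : ∃ k : ℕ, orderOf x = p ^ k)
    (hcompl : (Subgroup.zpowers x).IsComplement' A) (hxp : x ^ p ∈ Subgroup.center G)
    (hfpf : ∀ a : G, a ∈ A → a ≠ 1 → x * a * x⁻¹ ≠ a) :
    ∀ H : Subgroup G, ¬ IsMulCommutative H → Subgroup.normalizer (H : Set G) = H := by
  haveI := hAn
  obtain ⟨k, hk⟩ := hxo
  have hcommA : ∀ x ∈ A, ∀ y ∈ A, x * y = y * x := fun x hx y hy =>
    congrArg Subtype.val (hAc.is_comm.comm (⟨x, hx⟩ : ↥A) ⟨y, hy⟩)
  have htop : Subgroup.zpowers x ⊔ A = ⊤ := hcompl.sup_eq_top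
  have hdecomp : ∀ g : G, ∃ i : ℕ, ∃ a ∈ A, g = x ^ i * a := by
    intro g
    have hg : g ∈ Subgroup.zpowers x ⊔ A := by rw [htop]; trivial
    obtain ⟨h, hh, a, ha, rfl⟩ := (Cfsg.Agent.S0001.mem_sup_normal _ A g).mp hg
    have hh' : h ∈ Submonoid.powers x := mem_powers_iff_mem_zpowers.mpr hh
    obtain ⟨i, rfl⟩ := (Submonoid.mem_powers_iff _ _).mp hh'
    exact ⟨i, a, ha, rfl⟩
  intro H hHnc
  have hpair : ∃ h₁ ∈ H, ∃ h₂ ∈ H, h₁ * h₂ ≠ h₂ * h₁ := by
    by_contra hcon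
    push Not at hcon
    exact hHnc ⟨⟨fun a b => Subtype.ext (hcon a a.2 b b.2)⟩⟩
  obtain ⟨h₁, hh₁, h₂, hh₂, hne⟩ := hpair
  have hex : ∃ h ∈ H, ∃ i : ℕ, ∃ a ∈ A, h = x ^ i * a ∧ ¬ p ∣ i := by
    obtain ⟨i, a, ha, e1⟩ := hdecomp h₁
    obtain ⟨j, b, hb, e2⟩ := hdecomp h₂
    by_cases hi : p ∣ i
    · by_cases hj : p ∣ j
      · exfalso
        apply hne
        obtain ⟨i', rfl⟩ := hi
        obtain ⟨j', rfl⟩ := hj
        have hcz : ∀ (m : ℕ) (g : G), g * x ^ (p * m) = x ^ (p * m) * g := by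
          intro m g
          rw [pow_mul]
          exact ((show Commute g (x ^ p) from Subgroup.mem_center_iff.mp hxp g).pow_right m).eq
        have c1 : a * x ^ (p * j') = x ^ (p * j') * a := hcz j' a
        have c2 : x ^ (p * i') * x ^ (p * j') = x ^ (p * j') * x ^ (p * i') := hcz j' _
        have c3 : x ^ (p * i') * b = b * x ^ (p * i') := (hcz i' b).symm
        rw [e1, e2]
        calc x ^ (p * i') * a * (x ^ (p * j') * b)
            = x ^ (p * i') * (a * x ^ (p * j')) * b := by simp only [mul_assoc]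
          _ = x ^ (p * i') * (x ^ (p * j') * a) * b := by rw [c1]
          _ = (x ^ (p * i') * x ^ (p * j')) * (a * b) := by simp only [mul_assoc]
          _ = (x ^ (p * j') * x ^ (p * i')) * (b * a) := by rw [c2, hcommA a ha b hb]
          _ = x ^ (p * j') * (x ^ (p * i') * b) * a := by simp only [mul_assoc]
          _ = x ^ (p * j') * (b * x ^ (p * i')) * a := by rw [c3]
          _ = x ^ (p * j') * b * (x ^ (p * i') * a) := by simp only [mul_assoc]
      · exact ⟨h₂, hh₂, j, b, hb, e2, hj⟩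
    · exact ⟨h₁, hh₁, i, a, ha, e1, hi⟩
  obtain ⟨h, hhH, i, a, ha, hdef, hpi⟩ := hex
  have hu : ∃ u : ℕ, x ^ (i * u) = x := by
    by_cases hk0 : orderOf x = 1
    · refine ⟨0, ?_⟩
      rw [orderOf_eq_one_iff] at hk0
      rw [hk0, one_pow]
    · have hcop : Nat.Coprime i (orderOf x) := by
        rw [hk]
        exact Nat.Coprime.pow_right k ((Nat.Prime.coprime_iff_not_dvd hp).mpr hpi).symm
      have h1lt : 1 < orderOf x := by
        have := orderOf_pos x; omega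
      obtain ⟨u, -, hu⟩ := Nat.exists_mul_mod_eq_one_of_coprime hcop h1lt
      refine ⟨u, ?_⟩
      rw [← pow_mod_orderOf, hu, pow_one]
  obtain ⟨u, hu⟩ := hu
  have hfp : ∀ e ∈ A, h * e * h⁻¹ = e → e = 1 := by
    intro e he hfix
    by_contra he1
    apply hfpf e he he1
    have h1 : x ^ i * e = e * x ^ i := by
      have h2 : a * e * a⁻¹ = e := by
        rw [hcommA a ha e he, mul_inv_cancel_right]
      have h3 : h * e * h⁻¹ = x ^ i * (a * e * a⁻¹) * (x ^ i)⁻¹ := by rw [hdef]; group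
      rw [h3, h2] at hfix
      calc x ^ i * e = (x ^ i * e * (x ^ i)⁻¹) * x ^ i := by group
        _ = e * x ^ i := by rw [hfix]
    have h4 : x * e = e * x := by
      have h5 := ((show Commute (x ^ i) e from h1).pow_left u).eq
      rwa [← pow_mul, hu] at h5
    rw [h4, mul_inv_cancel_right]
  have hinj : ∀ a₁ ∈ A, ∀ a₂ ∈ A,
      h * a₁ * h⁻¹ * a₁⁻¹ = h * a₂ * h⁻¹ * a₂⁻¹ → a₁ = a₂ := by
    intro a₁ ha₁ a₂ ha₂ heq
    have he : a₂⁻¹ * a₁ ∈ A := A.mul_mem (A.inv_mem ha₂) ha₁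
    have hfix : h * (a₂⁻¹ * a₁) * h⁻¹ = a₂⁻¹ * a₁ := by
      calc h * (a₂⁻¹ * a₁) * h⁻¹ = (h * a₂ * h⁻¹)⁻¹ * ((h * a₁ * h⁻¹ * a₁⁻¹) * a₁) := by group
        _ = (h * a₂ * h⁻¹)⁻¹ * ((h * a₂ * h⁻¹ * a₂⁻¹) * a₁) := by rw [heq]
        _ = a₂⁻¹ * a₁ := by group
    exact (inv_mul_eq_one.mp (hfp _ he hfix)).symm
  apply le_antisymm _ Subgroup.le_normalizer
  intro n hn
  obtain ⟨j, a₁, ha₁, hnd⟩ := hdecomp n
  have hb : (h ^ (u * j))⁻¹ * n ∈ A := by
    rw [← QuotientGroup.eq]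
    have e1 : ((h : G) : G ⧸ A) = ((x ^ i : G) : G ⧸ A) := by
      rw [hdef, QuotientGroup.mk_mul, (QuotientGroup.eq_one_iff a).mpr ha, mul_one]
    have e2 : ((n : G) : G ⧸ A) = ((x ^ j : G) : G ⧸ A) := by
      rw [hnd, QuotientGroup.mk_mul, (QuotientGroup.eq_one_iff a₁).mpr ha₁, mul_one]
    have e3 : (x ^ i) ^ (u * j) = x ^ j := by
      rw [← pow_mul, ← mul_assoc, pow_mul, hu]
    rw [QuotientGroup.mk_pow, e1, e2, ← QuotientGroup.mk_pow, e3]
  have hbN : (h ^ (u * j))⁻¹ * n ∈ Subgroup.normalizer (H : Set G) :=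
    Subgroup.mul_mem _ (Subgroup.inv_mem _ (Subgroup.le_normalizer (H.pow_mem hhH _))) hn
  obtain ⟨b, hbdef⟩ : ∃ b, b = (h ^ (u * j))⁻¹ * n := ⟨_, rfl⟩
  rw [← hbdef] at hb hbN
  have hcA : h * b * h⁻¹ * b⁻¹ ∈ A := A.mul_mem (hAn.conj_mem b hb h) (A.inv_mem hb)
  have hcH : h * b * h⁻¹ * b⁻¹ ∈ H := by
    have h1 : b * h⁻¹ * b⁻¹ ∈ H := (Subgroup.mem_normalizer_iff.mp hbN h⁻¹).mp (H.inv_mem hhH)
    have h2 := H.mul_mem hhH h1
    have e : h * (b * h⁻¹ * b⁻¹) = h * b * h⁻¹ * b⁻¹ := by group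
    rwa [e] at h2
  let ψ : ↥(H ⊓ A) → ↥(H ⊓ A) := fun b₀ => ⟨h * (b₀ : G) * h⁻¹ * (b₀ : G)⁻¹, by
    have hb₀ := Subgroup.mem_inf.mp b₀.2
    refine Subgroup.mem_inf.mpr ⟨?_, A.mul_mem (hAn.conj_mem _ hb₀.2 h) (A.inv_mem hb₀.2)⟩
    exact H.mul_mem (H.mul_mem (H.mul_mem hhH hb₀.1) (H.inv_mem hhH)) (H.inv_mem hb₀.1)⟩
  have hψinj : Function.Injective ψ := by
    intro b₁ b₂ hb12
    have h1 : h * (b₁ : G) * h⁻¹ * (b₁ : G)⁻¹ = h * (b₂ : G) * h⁻¹ * (b₂ : G)⁻¹ :=
      congrArg Subtype.val hb12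
    exact Subtype.ext (hinj _ (Subgroup.mem_inf.mp b₁.2).2 _ (Subgroup.mem_inf.mp b₂.2).2 h1)
  have hψsurj : Function.Surjective ψ := Finite.injective_iff_surjective.mp hψinj
  obtain ⟨b₀, hb₀⟩ := hψsurj ⟨h * b * h⁻¹ * b⁻¹, Subgroup.mem_inf.mpr ⟨hcH, hcA⟩⟩
  have h1 : h * (b₀ : G) * h⁻¹ * (b₀ : G)⁻¹ = h * b * h⁻¹ * b⁻¹ := congrArg Subtype.val hb₀
  have hbb : (b₀ : G) = b := hinj _ (Subgroup.mem_inf.mp b₀.2).2 _ hb h1
  have hbH : b ∈ H := by rw [← hbb]; exact (Subgroup.mem_inf.mp b₀.2).1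
  have hn2 : n = h ^ (u * j) * b := by rw [hbdef, mul_inv_cancel_left]
  rw [hn2]; exact H.mul_mem (H.pow_mem hhH _) hbH

/-- Let G be a finite solvable non-nilpotent group. Every non-abelian subgroup of G is self-normalizing if and only if G is a semidirect product ⟨x⟩ ⋉ A in which ⟨x⟩ is a p-group for some prime p, A is a normal abelian subgroup of order prime to p, x^p is central in G, and x acts fixed-point-freely on A (no non-identity element of A commutes with x). -/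
theorem result {G : Type*} [Group G] [Finite G]
    [Group.IsSolvable G] (hnn : ¬ Group.IsNilpotent G) :
    (∀ H : Subgroup G, ¬ IsMulCommutative H → Subgroup.normalizer (H : Set G) = H) ↔
    ∃ (x : G) (A : Subgroup G) (p : ℕ), p.Prime ∧ A.Normal ∧ IsMulCommutative A ∧ (∃ k : ℕ, orderOf x = p ^ k) ∧
      ¬ p ∣ Nat.card A ∧ (Subgroup.zpowers x).IsComplement' A ∧ x ^ p ∈ Subgroup.center G ∧
      ∀ a : G, a ∈ A → a ≠ 1 → x * a * x⁻¹ ≠ a := by
  constructor
  · exact forward hnn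
  · rintro ⟨x, A, p, hp, hAn, hAc, hxo, -, hcompl, hxp, hfpf⟩
    exact backward x A p hp hAn hAc hxo hcompl hxp hfpf

end Cfsg.Agent.S4071
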