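import Mathlib
import Cfsg.Statements.S4074

set_option autoImplicit false
open Cfsg

namespace Cfsg.Agent.S4074

open DihedralGroup

/-- the subgroup of "even" elements of a dihedral group -/
def evenSub (n : ℕ) : Subgroup (DihedralGroup n) where
  carrier := {x | ∃ i : ZMod n, x = r (2 * i) ∨ x = sr (2 * i)}
  mul_mem' := by
    rintro x y ⟨i, rfl | rfl⟩ ⟨j, rfl | rfl⟩
    · exact ⟨i + j, Or.inl (by rw [r_mul_r]; congr 1; ring)⟩
    · exact ⟨j - i, Or.inr (by rw [r_mul_sr]; congr 1; ring)⟩
    · exact ⟨i + j, Or.inr (by rw [sr_mul_r]; congr 1; ring)⟩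
    · exact ⟨j - i, Or.inl (by rw [sr_mul_sr]; congr 1; ring)⟩
  one_mem' := ⟨0, Or.inl (by rw [mul_zero]; rfl)⟩
  inv_mem' := by
    rintro x ⟨i, rfl | rfl⟩
    · exact ⟨-i, Or.inl (by rw [inv_r]; congr 1; ring)⟩
    · exact ⟨i, Or.inr (by rw [inv_sr])⟩

theorem mem_evenSub (n : ℕ) (x : DihedralGroup n) :
    x ∈ evenSub n ↔ ∃ i : ZMod n, x = r (2 * i) ∨ x = sr (2 * i) := Iff.rfl

theorem rot_case (n : ℕ) (m : ℕ) (hm : n = 2 * m + 1) (H : Subgroup (DihedralGroup n)) (i k : ZMod n)
    (hi : sr i ∈ H) (hk : r k ∈ Subgroup.normalizer (H : Set (DihedralGroup n))) : r k ∈ H := by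
  have h1 := (Subgroup.mem_normalizer_iff.mp hk (sr i)).mp hi
  rw [inv_r, r_mul_sr, sr_mul_r] at h1
  have h2 := H.mul_mem hi h1
  rw [sr_mul_sr] at h2
  have h3 := H.pow_mem h2 m
  rw [r_pow] at h3
  have hn0 : ((2 * m + 1 : ℕ) : ZMod n) = 0 := by rw [← hm]; exact ZMod.natCast_self n
  push_cast at hn0
  have : (i - k + -k - i) * (m : ZMod n) = k := by linear_combination (-k) * hn0
  rwa [this] at h3

/-- For n > 2, every non-abelian subgroup of the dihedral group of order 2n is self-normalizing if and only if n = 4 or n is odd. -/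
theorem result (n : ℕ) (hn : 2 < n) :
    (∀ H : Subgroup (DihedralGroup n), ¬ IsMulCommutative H → Subgroup.normalizer (H : Set (DihedralGroup n)) = H) ↔
    (n = 4 ∨ Odd n) := by
  have hne : NeZero n := ⟨by omega⟩
  constructor
  · intro h
    by_contra hcon
    rw [not_or, Nat.not_odd_iff_even] at hcon
    obtain ⟨hn4, m, hm⟩ := hcon
    -- the even subgroup is nonabelian and not self-normalizing
    have hnc : ¬ IsMulCommutative (evenSub n) := by
      intro hc
      have h1 : (r (2 * 1) : DihedralGroup n) ∈ evenSub n := ⟨1, Or.inl rfl⟩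
      have h2 : (sr (2 * 0) : DihedralGroup n) ∈ evenSub n := ⟨0, Or.inr rfl⟩
      have h3 := hc.is_comm.comm (⟨_, h1⟩ : evenSub n) ⟨_, h2⟩
      have h4 := congrArg Subtype.val h3
      simp only [Subgroup.coe_mul, r_mul_sr, sr_mul_r, sr.injEq] at h4
      have h5 : ((4 : ℕ) : ZMod n) = 0 := by
        push_cast
        linear_combination -h4
      rw [ZMod.natCast_eq_zero_iff] at h5
      have := Nat.le_of_dvd (by norm_num) h5
      omega
    have hnorm := h (evenSub n) hnc
    have hr1 : (r 1 : DihedralGroup n) ∈ Subgroup.normalizer ((evenSub n : Subgroup (DihedralGroup n)) : Set (DihedralGroup n)) := by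
      rw [Subgroup.mem_normalizer_iff]
      intro x
      cases x with
      | r j =>
        rw [inv_r, r_mul_r, r_mul_r]
        have : (1 : ZMod n) + j + -1 = j := by ring
        rw [this]
      | sr j =>
        rw [inv_r, r_mul_sr, sr_mul_r, mem_evenSub, mem_evenSub]
        constructor
        · rintro ⟨i, hi | hi⟩
          · cases hi
          · rw [sr.injEq] at hi
            exact ⟨i - 1, Or.inr (by rw [hi]; congr 1; ring)⟩
        · rintro ⟨i, hi | hi⟩
          · cases hi
          · rw [sr.injEq] at hi
            exact ⟨i + 1, Or.inr (by congr 1; linear_combination hi)⟩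
    rw [hnorm, mem_evenSub] at hr1
    obtain ⟨i, hi | hi⟩ := hr1
    · rw [r.injEq] at hi
      have h2n : (2 : ℕ) ∣ n := ⟨m, by omega⟩
      have := congrArg (ZMod.castHom h2n (ZMod 2)) hi
      rw [map_one, map_mul] at this
      have h20 : (ZMod.castHom h2n (ZMod 2)) 2 = 0 := by
        rw [map_ofNat]; rfl
      rw [h20, zero_mul] at this
      exact one_ne_zero this
    · cases hi
  · rintro (h4 | hodd) H hH
    · subst h4
      have hcardG : Nat.card (DihedralGroup 4) = 8 := by rw [DihedralGroup.nat_card]
      have hdvd : Nat.card H ∣ 2 ^ 3 := by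
        have := Subgroup.card_subgroup_dvd_card H
        rwa [hcardG] at this
      obtain ⟨k, hk, hkc⟩ := (Nat.dvd_prime_pow Nat.prime_two).mp hdvd
      have htop : H = ⊤ := by
        interval_cases k
        · exfalso
          apply hH
          rw [pow_zero] at hkc
          have : Subsingleton H := (Nat.card_eq_one_iff_unique.mp hkc).1
          exact ⟨⟨fun a b => Subsingleton.elim _ _⟩⟩
        · exfalso
          apply hH
          rw [pow_one] at hkc
          have : IsCyclic H := isCyclic_of_prime_card (p := 2) hkc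
          exact ⟨⟨fun a b => (IsCyclic.commGroup (α := H)).mul_comm a b⟩⟩
        · exfalso
          apply hH
          exact IsPGroup.isMulCommutative_of_card_eq_prime_sq (p := 2) hkc
        · apply Subgroup.eq_top_of_card_eq
          rw [hkc, hcardG]; norm_num
      subst htop
      ext x
      refine ⟨fun _ => Subgroup.mem_top x, fun _ => ?_⟩
      rw [Subgroup.mem_normalizer_iff]
      intro y
      simp
    · obtain ⟨m, hm⟩ := hodd
      apply le_antisymm _ Subgroup.le_normalizer
      -- H contains a reflection
      have hrefl : ∃ i : ZMod n, sr i ∈ H := by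
        by_contra hno
        rw [not_exists] at hno
        apply hH
        refine ⟨⟨fun a b => ?_⟩⟩
        obtain ⟨a, ha⟩ := a
        obtain ⟨b, hb⟩ := b
        apply Subtype.ext
        cases a with
        | r i =>
          cases b with
          | r j => simp [add_comm]
          | sr j => exact absurd hb (hno j)
        | sr i => exact absurd ha (hno i)
      obtain ⟨i, hi⟩ := hrefl
      intro g hg
      cases g with
      | r k => exact rot_case n m hm H i k hi hg
      | sr k =>
        have h1 : (sr k : DihedralGroup n) * sr i ∈ Subgroup.normalizer (H : Set (DihedralGroup n)) :=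
          Subgroup.mul_mem _ hg (Subgroup.le_normalizer hi)
        rw [sr_mul_sr] at h1
        have h2 := rot_case n m hm H i (i - k) hi h1
        have h3 := H.mul_mem h2 hi
        rw [r_mul_sr] at h3
        have : i - (i - k) = k := by ring
        rwa [this] at h3

end Cfsg.Agent.S4074
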