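import Mathlib
import Cfsg.Statements.S4075

set_option autoImplicit false
open Cfsg

namespace Cfsg.Agent.S4075

/-- Let G be a finite nilpotent group. Every non-abelian subgroup of G is self-normalizing if and only if G is abelian or G is a minimal non-abelian p-group for some prime p (non-abelian of prime-power order with every proper subgroup abelian). -/
theorem result {G : Type*} [Group G] [Finite G]
    [Group.IsNilpotent G] :
    (∀ H : Subgroup G, ¬ IsMulCommutative H → Subgroup.normalizer (H : Set G) = H) ↔
    (IsMulCommutative G ∨ (IsPrimePow (Nat.card G) ∧ ¬ IsMulCommutative G ∧ ∀ H : Subgroup G, H ≠ ⊤ → IsMulCommutative H)) := by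
  constructor
  · intro h
    by_cases hG : IsMulCommutative G
    · left; exact hG
    · right
      have hnc := (normalizerCondition_iff_only_full_group_self_normalizing (G := G)).mp
        Group.normalizerCondition_of_isNilpotent
      have hprop : ∀ H : Subgroup G, H ≠ ⊤ → IsMulCommutative H := by
        intro H hH
        by_contra hcon
        exact hH (hnc H (h H hcon))
      refine ⟨?_, hG, hprop⟩
      by_contra hpp
      apply hG
      have hSyl : ∀ (p : ℕ) [Fact p.Prime] (P : Sylow p G), IsMulCommutative (P : Subgroup G) := by
        intro p _ P
        apply hprop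
        intro htop
        have hcard : Nat.card G = Nat.card (P : Subgroup G) := by
          rw [htop, Subgroup.card_top]
        obtain ⟨k, hk⟩ := IsPGroup.iff_card.mp P.isPGroup'
        rw [hk] at hcard
        by_cases hk0 : k = 0
        · subst hk0
          rw [pow_zero] at hcard
          have : Subsingleton G := (Nat.card_eq_one_iff_unique.mp hcard).1
          exact hG ⟨⟨fun a b => Subsingleton.elim _ _⟩⟩
        · apply hpp
          rw [hcard]
          exact (isPrimePow_def _).mpr ⟨p, k, Nat.prime_iff.mp Fact.out, Nat.pos_of_ne_zero hk0, rfl⟩
      obtain ⟨e⟩ := (Group.isNilpotent_of_finite_tfae (G := G)).out 0 4 |>.mp ‹Group.IsNilpotent G›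
      refine ⟨⟨fun a b => ?_⟩⟩
      have hab : e.symm a * e.symm b = e.symm b * e.symm a := by
        funext p
        funext P
        haveI : Fact (p : ℕ).Prime := ⟨Nat.prime_of_mem_primeFactors p.2⟩
        exact (hSyl p P).is_comm.comm _ _
      have := congrArg e hab
      simpa using this
  · rintro (hG | ⟨_, _, hprop⟩) H hH
    · exact absurd ⟨⟨fun a b => Subtype.ext (hG.is_comm.comm a b)⟩⟩ hH
    · have htop : H = ⊤ := by
        by_contra hne
        exact hH (hprop H hne)
      subst htop
      ext x
      refine ⟨fun _ => Subgroup.mem_top x, fun _ => ?_⟩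
      rw [Subgroup.mem_normalizer_iff]
      intro n
      simp

end Cfsg.Agent.S4075
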