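import Mathlib
import Cfsg.Statements.S4080
import Cfsg.Agent.Helper26.Homocyclic
-- import your own Cfsg.Agent.* helpers here

set_option autoImplicit false
open Cfsg

namespace Cfsg.Agent.S4080


theorem aux {p : ℕ} [Fact p.Prime] (hp5 : 5 ≤ p) {G : Type*} [CommGroup G] [Finite G]
    (hcard : Nat.card G = p ^ 2 * p ^ 2) (hexp : ∀ y : G, y ^ (p ^ 2) = 1)
    (hpow : ∀ z : G, z ^ p = 1 → ∃ w, z = w ^ p) (a : MulAut G) (ha : a ^ p = 1) (x : G)
    (hx : x ^ p = 1) : a x = x := by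
  have hpow' : ∀ z : G, z ^ p = 1 → ∃ w, z = w ^ (p ^ (2 - 1)) := fun z hz => by
    obtain ⟨w, hw⟩ := hpow z hz
    exact ⟨w, by rw [hw]; norm_num⟩
  have h1 : Nat.card (Cfsg.Agent.Helper26.hcKer G p) * Nat.card (powMonoidHom p : G →* G).range
      = Nat.card G := by
    rw [← Subgroup.index_ker]; exact Subgroup.card_mul_index _
  have h2 : (powMonoidHom p : G →* G).range = Cfsg.Agent.Helper26.hcKer G p := by
    apply le_antisymm
    · rintro _ ⟨w, rfl⟩
      rw [Cfsg.Agent.Helper26.mem_hcKer, powMonoidHom_apply, ← pow_mul, ← pow_two]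
      exact hexp w
    · intro z hz
      obtain ⟨w, hw⟩ := hpow z (Cfsg.Agent.Helper26.mem_hcKer.mp hz)
      exact ⟨w, by rw [hw, powMonoidHom_apply]⟩
  rw [h2, hcard] at h1
  have hK : Nat.card (Cfsg.Agent.Helper26.hcKer G p) = p ^ 2 := Nat.mul_self_inj.mp h1
  exact Cfsg.Agent.Helper26.hc_fix_of_order_p hp5 2 le_rfl hexp hpow' hK a ha x hx

/-- Let p > 3 be a prime and L the direct product of two cyclic groups of order p². Every automorphism of L of order p fixes every element of order p of L. -/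
theorem result {p : ℕ} [Fact p.Prime] (hp : 3 < p)
    (a : MulAut (Multiplicative (ZMod (p ^ 2) × ZMod (p ^ 2)))) (ha : orderOf a = p)
    (x : Multiplicative (ZMod (p ^ 2) × ZMod (p ^ 2))) (hx : orderOf x = p) : a x = x := by
  have hpp : p.Prime := Fact.out
  haveI : NeZero (p ^ 2) := ⟨pow_ne_zero 2 hpp.ne_zero⟩
  have hp5 : 5 ≤ p := by
    have h4 : p ≠ 4 := fun h => by rw [h] at hpp; exact absurd hpp (by norm_num)
    omega
  have hdiv : ∀ c : ZMod (p ^ 2), p • c = 0 → ∃ c' : ZMod (p ^ 2), c = p • c' := by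
    intro c h
    have h1 : ((p * c.val : ℕ) : ZMod (p ^ 2)) = 0 := by
      rw [Nat.cast_mul, ZMod.natCast_zmod_val, ← nsmul_eq_mul]; exact h
    rw [ZMod.natCast_eq_zero_iff] at h1
    have h1' : p * p ∣ p * c.val := by rw [← pow_two]; exact h1
    obtain ⟨k, hk⟩ := Nat.dvd_of_mul_dvd_mul_left hpp.pos h1'
    refine ⟨(k : ZMod (p ^ 2)), ?_⟩
    rw [nsmul_eq_mul, ← Nat.cast_mul, ← hk, ZMod.natCast_zmod_val]
  refine aux hp5 ?_ ?_ ?_ a (orderOf_dvd_iff_pow_eq_one.mp (dvd_of_eq ha)) x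
    (orderOf_dvd_iff_pow_eq_one.mp (dvd_of_eq hx))
  · rw [Nat.card_congr Multiplicative.toAdd, Nat.card_prod, Nat.card_zmod]
  · intro y
    apply Multiplicative.toAdd.injective
    rw [toAdd_pow, toAdd_one]
    refine Prod.ext ?_ ?_
    · show (p ^ 2) • (Multiplicative.toAdd y).1 = 0
      rw [nsmul_eq_mul, ZMod.natCast_self, zero_mul]
    · show (p ^ 2) • (Multiplicative.toAdd y).2 = 0
      rw [nsmul_eq_mul, ZMod.natCast_self, zero_mul]
  · intro z hz
    have hz' : p • Multiplicative.toAdd z = 0 := by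
      rw [← toAdd_pow, hz, toAdd_one]
    obtain ⟨a', ha'⟩ := hdiv (Multiplicative.toAdd z).1 (congrArg Prod.fst hz')
    obtain ⟨b', hb'⟩ := hdiv (Multiplicative.toAdd z).2 (congrArg Prod.snd hz')
    refine ⟨Multiplicative.ofAdd (a', b'), ?_⟩
    apply Multiplicative.toAdd.injective
    rw [toAdd_pow]
    refine Prod.ext ?_ ?_
    · show (Multiplicative.toAdd z).1 = p • a'
      exact ha'
    · show (Multiplicative.toAdd z).2 = p • b'
      exact hb'

end Cfsg.Agent.S4080
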