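import Cfsg.Statements.S4081
import Mathlib
import Cfsg.Agent.Helper24.CharBurnside
-- import your own Cfsg.Agent.* helpers here

set_option autoImplicit false
open Cfsg

namespace Cfsg.Agent.S4081

section


open Polynomial
open scoped commutatorElement



/-- type synonym used to twist a module structure -/
def Tw (V : Type*) := V

instance Tw.instAddCommGroup (V : Type*) [AddCommGroup V] : AddCommGroup (Tw V) :=
  inferInstanceAs (AddCommGroup V)
instance Tw.instFinite (V : Type*) [Finite V] : Finite (Tw V) := inferInstanceAs (Finite V)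

theorem exists_semilinear {K V : Type*} [Field K] [Finite K] [AddCommGroup V] [Module K V]
    [Finite V] (τ : K →+* K) : ∃ ψ : V ≃+ V, ∀ (k : K) (v : V), ψ (k • v) = τ k • ψ v := by
  letI inst2 : Module K (Tw V) := Module.compHom V τ
  have h1 : Nat.card V = Nat.card K ^ Module.finrank K V := Module.natCard_eq_pow_finrank
  have h2 : Nat.card (Tw V) = Nat.card K ^ Module.finrank K (Tw V) :=
    Module.natCard_eq_pow_finrank
  have hK : 2 ≤ Nat.card K := Finite.one_lt_card
  have hfr : Module.finrank K V = Module.finrank K (Tw V) := by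
    apply Nat.pow_right_injective hK
    show Nat.card K ^ _ = Nat.card K ^ _
    rw [← h1, ← h2]; rfl
  let e : V ≃ₗ[K] Tw V := LinearEquiv.ofFinrankEq V (Tw V) hfr
  exact ⟨e.toAddEquiv, fun k v => e.map_smul k v⟩

theorem back_lin' {V : Type*} [AddCommGroup V] [Finite V] {p q : ℕ} [hp : Fact p.Prime]
    [hq : Fact q.Prime] [Module (ZMod p) V] (hpq : p ≠ q) (s : V →+ V)
    (hs : ∀ v, (s^[q]) v = v) (hfpf : ∀ v, s v = v → v = 0)
    (hord : orderOf (p : ZMod q) = q - 1) :
    (∀ v w : V, v ≠ 0 → w ≠ 0 → ∃ ψ : V ≃+ V, ψ v = w ∧ ∀ u, ψ (s u) = s (ψ u)) ∧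
    (∀ i : ℕ, ¬ q ∣ i → ∃ ψ : V ≃+ V, ∀ u, ψ (s u) = (s^[i]) (ψ u)) := by
  let S : Module.End (ZMod p) V := s.toZModLinearMap p
  have hSpow : ∀ (n : ℕ) (v : V), (S ^ n) v = (s^[n]) v := by
    intro n v; rw [Module.End.pow_apply]; rfl
  set Φ : (ZMod p)[X] := cyclotomic q (ZMod p) with hΦdef
  have hpn : ¬ p ∣ q := fun h => hpq ((Nat.prime_dvd_prime_iff_eq hp.out hq.out).mp h)
  have hΦ : Irreducible Φ := by
    apply ZMod.irreducible_of_dvd_cyclotomic_of_natDegree hpn dvd_rfl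
    rw [natDegree_cyclotomic, Nat.totient_prime hq.out, ← hord, ← orderOf_units,
      ZMod.coe_unitOfCoprime]
  haveI : Fact (Irreducible Φ) := ⟨hΦ⟩
  have haeval : aeval S Φ = 0 := by
    rw [hΦdef, cyclotomic_prime]
    ext v
    simp only [map_sum, map_pow, aeval_X, LinearMap.sum_apply, LinearMap.zero_apply]
    apply hfpf
    have e1 : s (∑ i ∈ Finset.range q, (S ^ i) v) = ∑ i ∈ Finset.range q, (S ^ (i+1)) v := by
      rw [map_sum]; refine Finset.sum_congr rfl fun i _ => ?_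
      rw [pow_succ', Module.End.mul_apply]; rfl
    have e2 := Finset.sum_range_succ (fun i => (S ^ i) v) q
    have e3 := Finset.sum_range_succ' (fun i => (S ^ i) v) q
    rw [e1]
    have e4 : (S ^ q) v = v := by rw [hSpow]; exact hs v
    have e5 : (S ^ 0) v = v := by simp
    have := e2.symm.trans e3
    simp only [e4, e5] at this
    exact (add_right_cancel this).symm
  let K := AdjoinRoot Φ
  haveI : Finite K := by
    haveI : Module.Finite (ZMod p) K := (AdjoinRoot.powerBasis hΦ.ne_zero).finite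
    exact Module.finite_of_finite (ZMod p)
  let f : K →+* Module.End (ZMod p) V :=
    Ideal.Quotient.lift (Ideal.span {Φ}) (aeval S : (ZMod p)[X] →ₐ[ZMod p] _).toRingHom
      (fun g hg => by
        rcases Ideal.mem_span_singleton.1 hg with ⟨y, rfl⟩
        simp [haeval])
  have hfroot : f (AdjoinRoot.root Φ) = S := by
    exact (Ideal.Quotient.lift_mk (Ideal.span {Φ}) _ _).trans (aeval_X S)
  letI mK : Module K V := Module.compHom V f
  have hroot : ∀ v : V, (AdjoinRoot.root Φ : K) • v = s v := by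
    intro v
    show (f (AdjoinRoot.root Φ)) v = s v
    rw [hfroot]; rfl
  have hrootpow : ∀ (n : ℕ) (v : V), ((AdjoinRoot.root Φ : K) ^ n) • v = (s^[n]) v := by
    intro n
    induction n with
    | zero => intro v; simp
    | succ n ih =>
      intro v
      rw [pow_succ', mul_smul, ih, hroot, Function.iterate_succ_apply']
  refine ⟨?_, ?_⟩
  · intro v w hv hw
    let f0 : (Submodule.span K {v}) ≃ₗ[K] (Submodule.span K {w}) :=
      (LinearEquiv.toSpanNonzeroSingleton K V v hv).symm ≪≫ₗ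
        (LinearEquiv.toSpanNonzeroSingleton K V w hw)
    obtain ⟨g, hg⟩ := Submodule.exists_linearEquiv_restrict_eq f0
    refine ⟨g.toAddEquiv, ?_, ?_⟩
    · have h1 := hg ⟨v, Submodule.mem_span_singleton_self v⟩
      have h2 : f0 ⟨v, Submodule.mem_span_singleton_self v⟩
          = ⟨w, Submodule.mem_span_singleton_self w⟩ := by
        show (LinearEquiv.toSpanNonzeroSingleton K V w hw)
          ((LinearEquiv.toSpanNonzeroSingleton K V v hv).symm _) = _
        have h3 : (LinearEquiv.toSpanNonzeroSingleton K V v hv).symm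
            ⟨v, Submodule.mem_span_singleton_self v⟩ = 1 := by
          rw [LinearEquiv.symm_apply_eq]
          exact (LinearEquiv.toSpanNonzeroSingleton_one K V v hv).symm
        rw [h3]
        exact LinearEquiv.toSpanNonzeroSingleton_one K V w hw
      rw [h2] at h1
      exact h1.symm
    · intro u
      show g (s u) = s (g u)
      rw [← hroot, ← hroot]; exact g.map_smul _ u
  · intro i hi
    have hqK : ((q : ℕ) : K) ≠ 0 := by
      have h1 : ((q : ℕ) : K) = algebraMap (ZMod p) K ((q : ℕ) : ZMod p) := by simp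
      rw [h1]
      intro h0
      have h2 : ((q : ℕ) : ZMod p) = 0 := by
        apply (algebraMap (ZMod p) K).injective
        rw [h0, map_zero]
      exact hpn ((ZMod.natCast_eq_zero_iff q p).mp h2)
    haveI : NeZero ((q : ℕ) : K) := ⟨hqK⟩
    have hζroot : IsRoot (cyclotomic q K) (AdjoinRoot.root Φ) := by
      rw [← map_cyclotomic q (AdjoinRoot.of Φ)]
      exact AdjoinRoot.isRoot_root Φ
    have hζ : IsPrimitiveRoot (AdjoinRoot.root Φ : K) q := isRoot_cyclotomic_iff.mp hζroot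
    have hcop : Nat.Coprime i q :=
      ((Nat.Prime.coprime_iff_not_dvd hq.out).mpr hi).symm
    have hζi : IsPrimitiveRoot ((AdjoinRoot.root Φ : K) ^ i) q := hζ.pow_of_coprime i hcop
    have hζiroot : IsRoot (cyclotomic q K) ((AdjoinRoot.root Φ : K) ^ i) :=
      isRoot_cyclotomic_iff.mpr hζi
    let τ : K →+* K := AdjoinRoot.lift (AdjoinRoot.of Φ) ((AdjoinRoot.root Φ) ^ i) (by
      rw [← map_cyclotomic q (AdjoinRoot.of Φ), IsRoot.def, eval_map] at hζiroot
      exact hζiroot)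
    obtain ⟨ψ, hψ⟩ := exists_semilinear (V := V) τ
    refine ⟨ψ, fun u => ?_⟩
    rw [← hroot, hψ, ← hrootpow]
    congr 1
    exact AdjoinRoot.lift_root _

theorem back_lin {V : Type*} [AddCommGroup V] [Finite V] {p q : ℕ} [hp : Fact p.Prime]
    [hq : Fact q.Prime] (hpq : p ≠ q) (hV : ∀ v : V, p • v = 0) (s : V →+ V)
    (hs : ∀ v, (s^[q]) v = v) (hfpf : ∀ v, s v = v → v = 0)
    (hord : orderOf (p : ZMod q) = q - 1) :
    (∀ v w : V, v ≠ 0 → w ≠ 0 → ∃ ψ : V ≃+ V, ψ v = w ∧ ∀ u, ψ (s u) = s (ψ u)) ∧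
    (∀ i : ℕ, ¬ q ∣ i → ∃ ψ : V ≃+ V, ∀ u, ψ (s u) = (s^[i]) (ψ u)) := by
  letI : Module (ZMod p) V := AddCommGroup.zmodModule hV
  exact back_lin' hpq s hs hfpf hord




theorem closure_comm {R : Type*} [Ring R] (S : R) :
    ∀ a ∈ Subring.closure ({S} : Set R), ∀ b ∈ Subring.closure ({S} : Set R), a * b = b * a := by
  have hc := Subring.isMulCommutative_closure (s := ({S} : Set R)) (by
    intro x hx y hy; rw [Set.mem_singleton_iff] at hx hy; rw [hx, hy])
  intro a ha b hb
  exact congrArg Subtype.val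
    (hc.is_comm.comm (⟨a, ha⟩ : Subring.closure ({S} : Set R)) ⟨b, hb⟩)

theorem conj_mem_closure {R : Type*} [Ring R] (S u u' : R) (h1 : u * u' = 1) (h2 : u' * u = 1)
    (i : ℕ) (h : u * S = S ^ i * u) :
    ∀ a ∈ Subring.closure ({S} : Set R), u * a * u' ∈ Subring.closure ({S} : Set R) := by
  intro a ha
  induction ha using Subring.closure_induction with
  | mem x hx =>
    have hx' : x = S := hx
    have h3 : u * x * u' = S ^ i := by rw [hx', h, mul_assoc, h1, mul_one]
    rw [h3]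
    exact pow_mem (Subring.subset_closure (Set.mem_singleton S)) i
  | zero => simp
  | one => rw [mul_one, h1]; exact one_mem _
  | add x y hx hy ihx ihy => rw [mul_add, add_mul]; exact add_mem ihx ihy
  | neg x hx ihx => rw [mul_neg, neg_mul]; exact neg_mem ihx
  | mul x y hx hy ihx ihy =>
    have : u * (x * y) * u' = (u * x * u') * (u * y * u') := by
      simp only [mul_assoc]; rw [← mul_assoc u' u, h2, one_mul]
    rw [this]; exact mul_mem ihx ihy

theorem count_lemma {R : Type*} [CommRing R] [IsDomain R] [Finite R] {p q : ℕ}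
    [hp : Fact p.Prime] [hq : Fact q.Prime] (hpq : p ≠ q) (hp0 : (p : R) = 0) (σ : R)
    (hσq : σ ^ q = 1) (hσ1 : σ ≠ 1) (hgen : ∀ B : Subring R, σ ∈ B → B = ⊤)
    (haut : ∀ i : ℕ, 0 < i → i < q → ∃ c : R →+* R, c σ = σ ^ i) :
    q - 1 ≤ orderOf (p : ZMod q) := by
  classical
  haveI : CharP R p := (CharP.charP_iff_prime_eq_zero hp.out).mpr hp0
  letI : Fintype R := Fintype.ofFinite R
  set e := orderOf (p : ZMod q) with he
  have hpq0 : (p : ZMod q) ≠ 0 := by
    intro h
    rw [ZMod.natCast_eq_zero_iff] at h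
    exact hpq ((Nat.prime_dvd_prime_iff_eq hq.out hp.out).mp h).symm
  have he1 : (p : ZMod q) ^ (q - 1) = 1 := ZMod.pow_card_sub_one_eq_one hpq0
  have hepos : 0 < e := orderOf_pos_iff.mpr
    (isOfFinOrder_iff_pow_eq_one.mpr ⟨q - 1, by have := hq.out.two_le; omega, he1⟩)
  have hpe : p ^ e % q = 1 := by
    have h1 : ((p ^ e : ℕ) : ZMod q) = ((1 : ℕ) : ZMod q) := by
      rw [Nat.cast_pow, he, pow_orderOf_eq_one, Nat.cast_one]
    have h2 := (ZMod.natCast_eq_natCast_iff _ _ _).mp h1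
    have h3 : p ^ e % q = 1 % q := h2
    rw [h3]; exact Nat.mod_eq_of_lt hq.out.one_lt
  have hσpe : σ ^ p ^ e = σ := by
    conv_lhs => rw [← Nat.div_add_mod (p ^ e) q, hpe, pow_add, pow_mul, hσq, one_pow, one_mul,
      pow_one]
  have hfrob : ∀ a : R, a ^ p ^ e = a := by
    intro a
    have hB := hgen (RingHom.eqLocus (iterateFrobenius R p e) (RingHom.id R)) (by
      show iterateFrobenius R p e σ = RingHom.id R σ
      rw [iterateFrobenius_def]; exact hσpe)
    have ha : a ∈ RingHom.eqLocus (iterateFrobenius R p e) (RingHom.id R) :=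
      hB ▸ Subring.mem_top a
    have ha' : iterateFrobenius R p e a = RingHom.id R a := ha
    rw [iterateFrobenius_def] at ha'
    exact ha'
  have hcard : Fintype.card R ≤ p ^ e := by
    have hN : 1 < p ^ e := Nat.one_lt_pow hepos.ne' hp.out.one_lt
    have hdeg : (X ^ p ^ e - X : R[X]).natDegree = p ^ e := by
      rw [natDegree_sub_eq_left_of_natDegree_lt
        (by rw [natDegree_X_pow, natDegree_X]; exact hN), natDegree_X_pow]
    have hne : (X ^ p ^ e - X : R[X]) ≠ 0 :=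
      ne_zero_of_natDegree_gt (n := 0) (by rw [hdeg]; omega)
    have hsub : (Finset.univ : Finset R).val ⊆ (X ^ p ^ e - X : R[X]).roots := by
      intro a _
      rw [Polynomial.mem_roots hne, IsRoot.def, eval_sub, eval_pow, eval_X, hfrob a, sub_self]
    have := Polynomial.card_le_degree_of_subset_roots hsub
    rwa [hdeg, Finset.card_univ] at this
  letI : Algebra (ZMod p) R := ZMod.algebra R p
  have hfin : Module.finrank (ZMod p) R ≤ e := by
    have h1 : Nat.card R = Nat.card (ZMod p) ^ Module.finrank (ZMod p) R :=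
      Module.natCard_eq_pow_finrank
    rw [Nat.card_zmod, Nat.card_eq_fintype_card] at h1
    rw [h1] at hcard
    exact (Nat.pow_le_pow_iff_right hp.out.one_lt).mp hcard
  set m := minpoly (ZMod p) σ with hm
  have hint : IsIntegral (ZMod p) σ := IsIntegral.of_finite (ZMod p) σ
  have hmdeg : m.natDegree ≤ e := (minpoly.natDegree_le σ).trans hfin
  set mR := m.map (algebraMap (ZMod p) R) with hmR
  have hmR0 : mR ≠ 0 := ((minpoly.monic hint).map _).ne_zero
  have hmRdeg : mR.natDegree ≤ e := by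
    rw [hmR, (minpoly.monic hint).natDegree_map]; exact hmdeg
  have hroot : ∀ i : ℕ, 0 < i → i < q → σ ^ i ∈ mR.roots := by
    intro i hi hiq
    obtain ⟨c, hc⟩ := haut i hi hiq
    rw [Polynomial.mem_roots hmR0, IsRoot.def, ← hc, hmR, eval_map]
    have h0 : m.eval₂ (algebraMap (ZMod p) R) σ = 0 := by
      have := minpoly.aeval (ZMod p) σ
      rwa [aeval_def] at this
    have h1 := hom_eval₂ m (algebraMap (ZMod p) R) c σ
    rw [h0, map_zero] at h1
    have h2 : c.comp (algebraMap (ZMod p) R) = algebraMap (ZMod p) R := Subsingleton.elim _ _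
    rw [h2] at h1
    exact h1.symm
  let u : Rˣ := Units.ofPowEqOne σ q hσq hq.out.ne_zero
  have hu : (u : R) = σ := rfl
  have hordu : orderOf u = q := by
    apply orderOf_eq_prime
    · apply Units.ext; rw [Units.val_pow_eq_pow_val, hu, hσq]; rfl
    · intro h; apply hσ1; rw [← hu, h]; rfl
  let Z : Finset R := (Finset.Ioo 0 q).image (fun i => σ ^ i)
  have hZcard : Z.card = q - 1 := by
    rw [Finset.card_image_of_injOn, Nat.card_Ioo]
    · omega
    intro i hi j hj hij
    simp only [Finset.coe_Ioo, Set.mem_Ioo] at hi hj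
    have hij' : u ^ i = u ^ j := by
      apply Units.ext; rw [Units.val_pow_eq_pow_val, Units.val_pow_eq_pow_val, hu]; exact hij
    exact pow_injOn_Iio_orderOf (by rw [hordu]; exact hi.2) (by rw [hordu]; exact hj.2) hij'
  have hZsub : Z.val ⊆ mR.roots := by
    intro a ha
    rw [Finset.mem_val, Finset.mem_image] at ha
    obtain ⟨i, hi, rfl⟩ := ha
    rw [Finset.mem_Ioo] at hi
    exact hroot i hi.1 hi.2
  have := Polynomial.card_le_degree_of_subset_roots hZsub
  omega

theorem count_sub {E : Type*} [Ring E] [Finite E] {p q : ℕ} [hp : Fact p.Prime]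
    [hq : Fact q.Prime] (hpq : p ≠ q) (S : E) (A : Subring E) (hA : A = Subring.closure {S})
    (hp0 : (p : E) = 0) (hSq : S ^ q = 1) (hS1 : S ≠ 1)
    (hnzd : ∀ a ∈ A, ∀ b ∈ A, a * b = 0 → a = 0 ∨ b = 0)
    (haut : ∀ i : ℕ, 0 < i → i < q →
      ∃ u u' : E, u * u' = 1 ∧ u' * u = 1 ∧ u * S = S ^ i * u) :
    q - 1 ≤ orderOf (p : ZMod q) := by
  have hSA : S ∈ A := hA ▸ Subring.subset_closure rfl
  have hcomm : ∀ a ∈ A, ∀ b ∈ A, a * b = b * a := by subst hA; exact closure_comm S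
  letI : CommRing A :=
    { (inferInstance : Ring A) with
      mul_comm := fun a b => Subtype.ext (hcomm a a.2 b b.2) }
  haveI : Nontrivial A := ⟨⟨⟨S, hSA⟩, 1, fun h => hS1 (congrArg Subtype.val h)⟩⟩
  haveI : NoZeroDivisors A := ⟨fun {a b} hab => by
      rcases hnzd a a.2 b b.2 (congrArg Subtype.val hab) with h | h
      · exact Or.inl (Subtype.ext h)
      · exact Or.inr (Subtype.ext h)⟩
  haveI : IsDomain A := NoZeroDivisors.to_isDomain A
  refine count_lemma (R := A) hpq (Subtype.ext (by simpa using hp0)) ⟨S, hSA⟩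
    (Subtype.ext (by simpa using hSq)) (fun h => hS1 (congrArg Subtype.val h)) ?_ ?_
  · intro B hB
    rw [eq_top_iff]
    intro a _
    have h1 : Subring.closure ({S} : Set E) ≤ B.map A.subtype := by
      rw [Subring.closure_le]
      intro x hx
      rw [Set.mem_singleton_iff] at hx
      exact ⟨⟨S, hSA⟩, hB, hx.symm⟩
    have h2 : (a : E) ∈ B.map A.subtype := h1 (hA ▸ a.2)
    obtain ⟨b, hb, hba⟩ := h2
    have : b = a := Subtype.ext hba
    exact this ▸ hb
  · intro i hi hiq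
    obtain ⟨u, u', h1, h2, h3⟩ := haut i hi hiq
    have hmem : ∀ a ∈ A, u * a * u' ∈ A := by
      subst hA; exact conj_mem_closure S u u' h1 h2 i h3
    refine ⟨{ toFun := fun a => ⟨u * a.1 * u', hmem a.1 a.2⟩, map_one' := ?_, map_mul' := ?_,
              map_zero' := ?_, map_add' := ?_ }, ?_⟩
    · exact Subtype.ext (by show u * 1 * u' = 1; rw [mul_one, h1])
    · intro a b
      exact Subtype.ext (by
        show u * (a.1 * b.1) * u' = (u * a.1 * u') * (u * b.1 * u')
        simp only [mul_assoc]; rw [← mul_assoc u' u, h2, one_mul])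
    · exact Subtype.ext (by show u * 0 * u' = 0; simp)
    · intro a b
      exact Subtype.ext (by
        show u * (a.1 + b.1) * u' = u * a.1 * u' + u * b.1 * u'
        rw [mul_add, add_mul])
    · exact Subtype.ext (by show u * S * u' = S ^ i; rw [h3, mul_assoc, h1, mul_one])


theorem fwd_lin {V : Type*} [AddCommGroup V] [Finite V] {p q : ℕ} [hp : Fact p.Prime]
    [hq : Fact q.Prime] (hpq : p ≠ q) (hV : ∀ v : V, p • v = 0) (s : V ≃+ V)
    (hs : ∀ v, (s^[q]) v = v) (hs1 : ∃ v, s v ≠ v)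
    (htrans : ∀ v w : V, v ≠ 0 → w ≠ 0 →
      ∃ (ψ : V ≃+ V) (i : ℕ), ψ v = w ∧ ∀ u, ψ (s u) = (s^[i]) (ψ u))
    (hall : ∀ i : ℕ, 0 < i → i < q → ∃ ψ : V ≃+ V, ∀ u, ψ (s u) = (s^[i]) (ψ u)) :
    q - 1 ≤ orderOf (p : ZMod q) := by
  classical
  haveI : Finite (AddMonoid.End V) :=
    Finite.of_injective (fun f : AddMonoid.End V => (f : V → V)) DFunLike.coe_injective
  let S : AddMonoid.End V := s.toAddMonoidHom
  have hSpow : ∀ (n : ℕ) (v : V), (S ^ n) v = (s^[n]) v := by
    intro n v; rw [AddMonoid.End.coe_pow]; rfl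
  have hunit : ∀ (ψ : V ≃+ V) (i : ℕ), (∀ u, ψ (s u) = (s^[i]) (ψ u)) →
      ∃ u u' : AddMonoid.End V, u * u' = 1 ∧ u' * u = 1 ∧ u * S = S ^ i * u ∧
        (∀ v, u v = ψ v) ∧ (∀ v, u' v = ψ.symm v) := by
    intro ψ i hψ
    refine ⟨ψ.toAddMonoidHom, ψ.symm.toAddMonoidHom, ?_, ?_, ?_, fun v => rfl, fun v => rfl⟩
    · ext v; show ψ (ψ.symm v) = v; simp
    · ext v; show ψ.symm (ψ v) = v; simp
    · ext v; show ψ (s v) = (S ^ i) (ψ v); rw [hSpow]; exact hψ v
  set A : Subring (AddMonoid.End V) := Subring.closure {S} with hA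
  have hSA : S ∈ A := Subring.subset_closure (Set.mem_singleton S)
  have hcommA : ∀ a ∈ A, ∀ b ∈ A, a * b = b * a := closure_comm S
  let Ann : V → Set (AddMonoid.End V) := fun v => {a | a ∈ A ∧ a v = 0}
  have hN : ∀ v w : V, v ≠ 0 → w ≠ 0 → (Ann v).ncard ≤ (Ann w).ncard := by
    intro v w hv hw
    obtain ⟨ψ, i, hψvw, hψ⟩ := htrans v w hv hw
    obtain ⟨u, u', h1, h2, h3, h4, h5⟩ := hunit ψ i hψ
    have hmem := conj_mem_closure S u u' h1 h2 i h3
    apply Set.ncard_le_ncard_of_injOn (fun a => u * a * u') ?_ ?_ (Set.toFinite _)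
    · rintro a ⟨haA, hav⟩
      refine ⟨hmem a haA, ?_⟩
      show u (a (u' w)) = 0
      rw [h5, ← hψvw, AddEquiv.symm_apply_apply, hav, map_zero]
    · rintro a _ b _ hab
      have hab' : u * a * u' = u * b * u' := hab
      have key : ∀ c : AddMonoid.End V, u' * (u * c * u') * u = c := by
        intro c
        calc u' * (u * c * u') * u = (u' * u) * c * (u' * u) := by simp only [mul_assoc]
          _ = c := by rw [h2, one_mul, mul_one]
      rw [← key a, ← key b, hab']
  have hE2 : ∀ v w : V, v ≠ 0 → w ≠ 0 → Ann v ⊆ Ann w → Ann v = Ann w := by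
    intro v w hv hw hsub
    exact Set.eq_of_subset_of_ncard_le hsub (hN w v hw hv) (Set.toFinite _)
  have hE1 : ∀ v : V, v ≠ 0 → ∀ a ∈ A, a v ≠ 0 → Ann v = Ann (a v) := by
    intro v hv a ha hav
    apply hE2 v (a v) hv hav
    rintro b ⟨hbA, hbv⟩
    refine ⟨hbA, ?_⟩
    have h1 : (b * a) v = (a * b) v := by rw [hcommA b hbA a ha]
    calc b (a v) = (b * a) v := rfl
      _ = (a * b) v := h1
      _ = a (b v) := rfl
      _ = 0 := by rw [hbv, map_zero]
  have hF : ∀ a ∈ A, ∀ v : V, v ≠ 0 → a v = 0 → ∀ w : V, w ≠ 0 → a w = 0 := by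
    intro a ha v hv hav w hw
    by_contra haw
    have hu : a (v + w) = a w := by rw [map_add, hav, zero_add]
    have hu0 : v + w ≠ 0 := by
      intro h0; rw [h0, map_zero] at hu; exact haw hu.symm
    have h1 : Ann (v + w) = Ann (a (v + w)) := hE1 (v + w) hu0 a ha (by rw [hu]; exact haw)
    have h2 : Ann w = Ann (a w) := hE1 w hw a ha haw
    have h3 : Ann (v + w) = Ann w := by rw [h1, h2, hu]
    have h4 : Ann w ⊆ Ann v := by
      rintro b ⟨hbA, hbw⟩
      have hb' : b ∈ Ann (v + w) := h3 ▸ (⟨hbA, hbw⟩ : b ∈ Ann w)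
      refine ⟨hbA, ?_⟩
      have h5 : b (v + w) = 0 := hb'.2
      rw [map_add, hbw, add_zero] at h5
      exact h5
    have h5 : Ann w = Ann v := hE2 w v hw hv h4
    have h6 : a ∈ Ann w := h5 ▸ (⟨ha, hav⟩ : a ∈ Ann v)
    exact haw h6.2
  have hF' : ∀ a ∈ A, a ≠ 0 → ∀ v : V, v ≠ 0 → a v ≠ 0 := by
    intro a ha ha0 v hv hav
    apply ha0
    ext w
    by_cases hw : w = 0
    · rw [hw, map_zero, map_zero]
    · rw [hF a ha v hv hav w hw]; rfl
  obtain ⟨v0, hv0⟩ := hs1
  have hv00 : v0 ≠ 0 := by rintro rfl; exact hv0 (map_zero s)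
  apply count_sub hpq S A hA
  · ext v
    rw [AddMonoid.End.natCast_apply, hV v]; rfl
  · ext v; rw [hSpow]; exact hs v
  · intro h; apply hv0
    have := congrArg (fun a : AddMonoid.End V => a v0) h
    exact this
  · intro a ha b hb hab
    by_contra hcon
    push Not at hcon
    have h1 := hF' b hb hcon.2 v0 hv00
    have h2 := hF' a ha hcon.1 _ h1
    apply h2
    have := congrArg (fun c : AddMonoid.End V => c v0) hab
    exact this
  · intro i hi hiq
    obtain ⟨ψ, hψ⟩ := hall i hi hiq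
    obtain ⟨u, u', h1, h2, h3, -, -⟩ := hunit ψ i hψ
    exact ⟨u, u', h1, h2, h3⟩

theorem back_mul {N : Type*} [CommGroup N] [Finite N] {p q : ℕ} [hp : Fact p.Prime]
    [hq : Fact q.Prime] (hpq : p ≠ q) (hN : ∀ y : N, y ^ p = 1) (s : N ≃* N)
    (hs : ∀ y, (s^[q]) y = y) (hfpf : ∀ y, s y = y → y = 1)
    (hord : orderOf (p : ZMod q) = q - 1) :
    (∀ v w : N, v ≠ 1 → w ≠ 1 → ∃ ψ : N ≃* N, ψ v = w ∧ ∀ u, ψ (s u) = s (ψ u)) ∧
    (∀ i : ℕ, ¬ q ∣ i → ∃ ψ : N ≃* N, ∀ u, ψ (s u) = (s^[i]) (ψ u)) := by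
  have hiter : ∀ (k : ℕ) (v : Additive N),
      ((MonoidHom.toAdditive s.toMonoidHom)^[k]) v = Additive.ofMul ((s^[k]) v.toMul) := by
    intro k
    induction k with
    | zero => intro v; rfl
    | succ k ih =>
      intro v
      rw [Function.iterate_succ_apply', Function.iterate_succ_apply', ih]; rfl
  obtain ⟨h1, h2⟩ := back_lin (V := Additive N) hpq (fun v => by
      show Additive.ofMul (v.toMul ^ p) = 0
      rw [hN]; rfl) (MonoidHom.toAdditive s.toMonoidHom)
    (fun v => by rw [hiter, hs]; rfl)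
    (fun v hv => by
      have h3 : s v.toMul = v.toMul := hv
      have h4 := hfpf _ h3
      exact Additive.toMul.injective h4)
    hord
  refine ⟨?_, ?_⟩
  · intro v w hv hw
    obtain ⟨ψ, hψ1, hψ2⟩ := h1 (Additive.ofMul v) (Additive.ofMul w) hv hw
    exact ⟨MulEquiv.toAdditive.symm ψ, hψ1, fun u => hψ2 (Additive.ofMul u)⟩
  · intro i hi
    obtain ⟨ψ, hψ⟩ := h2 i hi
    refine ⟨MulEquiv.toAdditive.symm ψ, fun u => ?_⟩
    have h3 := hψ (Additive.ofMul u)
    rw [hiter] at h3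
    exact h3

theorem fwd_mul {N : Type*} [CommGroup N] [Finite N] {p q : ℕ} [hp : Fact p.Prime]
    [hq : Fact q.Prime] (hpq : p ≠ q) (hN : ∀ y : N, y ^ p = 1) (s : N ≃* N)
    (hs : ∀ y, (s^[q]) y = y) (hs1 : ∃ y, s y ≠ y)
    (htrans : ∀ v w : N, v ≠ 1 → w ≠ 1 →
      ∃ (ψ : N ≃* N) (i : ℕ), ψ v = w ∧ ∀ u, ψ (s u) = (s^[i]) (ψ u))
    (hall : ∀ i : ℕ, 0 < i → i < q → ∃ ψ : N ≃* N, ∀ u, ψ (s u) = (s^[i]) (ψ u)) :
    q - 1 ≤ orderOf (p : ZMod q) := by
  have hiter : ∀ (k : ℕ) (v : Additive N),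
      ((MulEquiv.toAdditive s)^[k]) v = Additive.ofMul ((s^[k]) v.toMul) := by
    intro k
    induction k with
    | zero => intro v; rfl
    | succ k ih =>
      intro v
      rw [Function.iterate_succ_apply', Function.iterate_succ_apply', ih]; rfl
  apply fwd_lin (V := Additive N) hpq (fun v => by
      show Additive.ofMul (v.toMul ^ p) = 0
      rw [hN]; rfl) (MulEquiv.toAdditive s)
  · intro v; rw [hiter, hs]; rfl
  · obtain ⟨y, hy⟩ := hs1
    exact ⟨Additive.ofMul y, hy⟩
  · intro v w hv hw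
    obtain ⟨ψ, i, hψ1, hψ2⟩ := htrans v.toMul w.toMul hv hw
    refine ⟨MulEquiv.toAdditive ψ, i, hψ1, fun u => ?_⟩
    rw [hiter]
    exact hψ2 u.toMul
  · intro i hi hiq
    obtain ⟨ψ, hψ⟩ := hall i hi hiq
    refine ⟨MulEquiv.toAdditive ψ, fun u => ?_⟩
    rw [hiter]
    exact hψ u.toMul


theorem exists_aut {G : Type*} [Group G] [Finite G] (P : Subgroup G) [P.Normal] (x : G)
    {p q n : ℕ} [hp : Fact p.Prime] [hq : Fact q.Prime] (hpq : p ≠ q)
    (hPcard : Nat.card P = p ^ n) (hG : Nat.card G = p ^ n * q) (hx : orderOf x = q)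
    (ψ : P ≃* P) (i : ℕ) (hi : ¬ q ∣ i)
    (hψ : ∀ u : P, ψ (MulAut.conjNormal x u) = MulAut.conjNormal (x ^ i) (ψ u)) :
    ∃ φ : MulAut G, (∀ u : P, φ u = ψ u) ∧ φ x = x ^ i := by
  have hKcard : Nat.card (Subgroup.zpowers x) = q := by rw [Nat.card_zpowers, hx]
  have hc : P.IsComplement' (Subgroup.zpowers x) :=
    Subgroup.isComplement'_of_coprime (by rw [hPcard, hKcard, hG])
      (by rw [hPcard, hKcard]
          exact Nat.Coprime.pow_left n ((Nat.coprime_primes hp.out hq.out).mpr hpq))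
  let e := SemidirectProduct.mulEquivSubgroup hc
  letI : CommGroup (Subgroup.zpowers x) := IsCyclic.commGroup
  have hcop : (Nat.card (Subgroup.zpowers x)).Coprime i := by
    rw [hKcard]; exact (Nat.Prime.coprime_iff_not_dvd hq.out).mpr hi
  let fgK : Subgroup.zpowers x ≃* Subgroup.zpowers x :=
    MulEquiv.ofBijective (powMonoidHom i) (powCoprime hcop).bijective
  have hsemi : SemiconjBy (ψ : MulAut P) (MulAut.conjNormal x) (MulAut.conjNormal (x ^ i)) := by
    ext u
    exact congrArg Subtype.val (hψ u)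
  have hcompat : ∀ g : Subgroup.zpowers x, ∀ u : P,
      ψ (MulAut.conjNormal (g : G) u) = MulAut.conjNormal ((g : G) ^ i) (ψ u) := by
    rintro ⟨g, m, rfl⟩ u
    have h1 := hsemi.zpow_right m
    rw [← map_zpow, ← map_zpow] at h1
    have h2 := congrArg (fun f : MulAut P => f u) h1.eq
    simp only [MulAut.mul_apply] at h2
    rw [h2]
    congr 2
    show (x ^ i) ^ m = (x ^ m) ^ i
    rw [← zpow_natCast, ← zpow_natCast, ← zpow_mul, ← zpow_mul, mul_comm]
  let φ₀ : Subgroup.zpowers x →* MulAut P :=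
    P.normalizerMonoidHom.comp (Subgroup.inclusion (P.normalizer_eq_top ▸ le_top))
  have hφ₀ : ∀ (g : Subgroup.zpowers x), φ₀ g = MulAut.conjNormal (g : G) := by
    intro g; ext u; simp [φ₀]
  let c : P ⋊[φ₀] Subgroup.zpowers x ≃* P ⋊[φ₀] Subgroup.zpowers x :=
    SemidirectProduct.congr (φ₁ := φ₀) (φ₂ := φ₀) ψ fgK (by
    intro g
    ext u
    show ((ψ (φ₀ g u) : P) : G) = ((φ₀ (fgK g)) (ψ u) : P)
    rw [hφ₀, hφ₀, hcompat g u]
    rfl)
  let e' : P ⋊[φ₀] Subgroup.zpowers x ≃* G := e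
  have he' : ∀ (a : P) (k : Subgroup.zpowers x), e' ⟨a, k⟩ = (a : G) * (k : G) := by
    intro a k; rfl
  have hφ : ∀ (a : P) (k : Subgroup.zpowers x),
      (e'.symm.trans (c.trans e')) ((a : G) * (k : G)) = (ψ a : G) * (k : G) ^ i := by
    intro a k
    rw [← he' a k]
    simp only [MulEquiv.trans_apply, MulEquiv.symm_apply_apply]
    rfl
  refine ⟨e'.symm.trans (c.trans e'), ?_, ?_⟩
  · intro u
    have := hφ u 1
    simpa using this
  · have := hφ 1 ⟨x, Subgroup.mem_zpowers x⟩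
    simpa using this


theorem iter_conj {G : Type*} [Group G] (P : Subgroup G) [P.Normal] (x : G) (k : ℕ) (y : P) :
    ((((MulAut.conjNormal x : MulAut P) : P → P)^[k] y : P) : G) = x ^ k * y * (x ^ k)⁻¹ := by
  induction k with
  | zero => simp
  | succ k ih =>
    rw [Function.iterate_succ_apply', MulAut.conjNormal_apply, ih, pow_succ']
    group

theorem conj_pow_of_not_mem {G : Type*} [Group G] [Finite G] (P : Subgroup G) [hPn : P.Normal]
    {p q : ℕ} [hq : Fact q.Prime] (hidx : P.index = q)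
    (hPord : ∀ g ∈ P, g ≠ 1 → orderOf g = p)
    (hfpf : ∀ x y : G, orderOf x = q → orderOf y = p → x * y * x⁻¹ ≠ y)
    (x : G) (hxP : x ∉ P) (hxq : orderOf x = q) (g : G) (hg : g ∉ P) :
    ∃ (i : ℕ) (u : P), ¬ q ∣ i ∧ (u : G) * x ^ i * (u : G)⁻¹ = g := by
  obtain ⟨i, hi⟩ : ∃ i : ℕ, g * (x ^ i)⁻¹ ∈ P := by
    have hcardQ : Nat.card (G ⧸ P) = q := by rw [← Subgroup.index_eq_card]; exact hidx
    have hx1 : (QuotientGroup.mk x : G ⧸ P) ≠ 1 := by
      rw [Ne, QuotientGroup.eq_one_iff]; exact hxP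
    have htop := zpowers_eq_top_of_prime_card hcardQ hx1
    have hmem : (QuotientGroup.mk g : G ⧸ P) ∈
        Subgroup.zpowers (QuotientGroup.mk x : G ⧸ P) := htop ▸ Subgroup.mem_top _
    rw [← mem_powers_iff_mem_zpowers] at hmem
    obtain ⟨i, hi⟩ := hmem
    refine ⟨i, ?_⟩
    rw [← QuotientGroup.eq_one_iff, QuotientGroup.mk_mul, QuotientGroup.mk_inv,
      QuotientGroup.mk_pow]
    rw [show (QuotientGroup.mk x : G ⧸ P) ^ i = QuotientGroup.mk g from hi, mul_inv_cancel]
  have hqi : ¬ q ∣ i := by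
    intro hdvd
    apply hg
    have : x ^ i = 1 := by rw [← hxq] at hdvd; exact orderOf_dvd_iff_pow_eq_one.mp hdvd
    rw [this, inv_one, mul_one] at hi; exact hi
  have hcq : orderOf (x ^ i) = q := by
    rw [Nat.Coprime.orderOf_pow
      (by rw [hxq]; exact (Nat.Prime.coprime_iff_not_dvd hq.out).mpr hqi), hxq]
  have hκmem : ∀ u : P, (u : G) * x ^ i * (u : G)⁻¹ * (x ^ i)⁻¹ ∈ P := by
    intro u
    have := P.mul_mem u.2 (hPn.conj_mem _ (P.inv_mem u.2) (x ^ i))
    simpa [mul_assoc] using this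
  let κ : P → P := fun u => ⟨(u : G) * x ^ i * (u : G)⁻¹ * (x ^ i)⁻¹, hκmem u⟩
  have hκinj : Function.Injective κ := by
    intro u u' huu
    have h1 : (u : G) * x ^ i * (u : G)⁻¹ = (u' : G) * x ^ i * (u' : G)⁻¹ :=
      mul_right_cancel (congrArg Subtype.val huu)
    by_contra hne
    have hw1 : (u' : G)⁻¹ * (u : G) ≠ 1 := by
      intro h; apply hne; apply Subtype.ext; exact (inv_mul_eq_one.mp h).symm
    have hwP : (u' : G)⁻¹ * (u : G) ∈ P := P.mul_mem (P.inv_mem u'.2) u.2
    have hwo := hPord _ hwP hw1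
    apply hfpf (x ^ i) ((u' : G)⁻¹ * (u : G)) hcq hwo
    have h2 : ((u' : G)⁻¹ * (u : G)) * x ^ i * ((u' : G)⁻¹ * (u : G))⁻¹ = x ^ i := by
      have : ((u' : G)⁻¹ * (u : G)) * x ^ i * ((u' : G)⁻¹ * (u : G))⁻¹
          = (u' : G)⁻¹ * ((u : G) * x ^ i * (u : G)⁻¹) * (u' : G) := by group
      rw [this, h1]; group
    rw [mul_inv_eq_iff_eq_mul]
    exact (mul_inv_eq_iff_eq_mul.mp h2).symm
  obtain ⟨u, hu⟩ := Finite.surjective_of_injective hκinj ⟨g * (x ^ i)⁻¹, hi⟩
  exact ⟨i, u, hqi, mul_right_cancel (congrArg Subtype.val hu)⟩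

theorem back_main {G : Type*} [Group G] [Finite G] (p q n : ℕ) [hp : Fact p.Prime]
    [hq : Fact q.Prime] (hpq : p ≠ q) (hn : 1 ≤ n) (hG : Nat.card G = p ^ n * q)
    (hP : ∀ P : Sylow p G, (P : Subgroup G).Normal ∧
      Cfsg.IsElementaryAbelian p (P : Subgroup G))
    (hord : orderOf (p : ZMod q) = q - 1)
    (hfpf : ∀ x y : G, orderOf x = q → orderOf y = p → x * y * x⁻¹ ≠ y) :
    Nat.card (MulAction.orbitRel.Quotient (MulAut G) G) = 3 := by
  classical
  obtain ⟨P0⟩ : Nonempty (Sylow p G) := inferInstance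
  obtain ⟨hPn, hPc, hPexp⟩ := hP P0
  have hPcard : Nat.card (P0 : Subgroup G) = p ^ n := by
    rw [Sylow.card_eq_multiplicity, hG]
    congr 1
    rw [Nat.factorization_mul (pow_ne_zero n hp.out.ne_zero) hq.out.ne_zero,
      Nat.factorization_pow]
    simp [Nat.Prime.factorization hp.out, Nat.Prime.factorization hq.out, hpq.symm]
  generalize (P0 : Subgroup G) = P at hPn hPc hPexp hPcard
  haveI : P.Normal := hPn
  have hidx : P.index = q := by
    have := P.card_mul_index; rw [hPcard, hG] at this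
    exact Nat.eq_of_mul_eq_mul_left (pow_pos hp.out.pos n) this
  have hPord : ∀ g : G, g ∈ P → g ≠ 1 → orderOf g = p :=
    fun g hg hg1 => orderOf_eq_prime (hPexp g hg) hg1
  have hpowq : ∀ g : G, g ^ q ∈ P := fun g => hidx ▸ P.pow_index_mem g
  have hnotP : ∀ g : G, g ∉ P → orderOf g = q := by
    intro g hg
    have hg1 : g ≠ 1 := by rintro rfl; exact hg P.one_mem
    by_cases hgq : g ^ q = 1
    · exact orderOf_eq_prime hgq hg1
    · exfalso
      have h1 : orderOf (g ^ q) = p := hPord _ (hpowq g) hgq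
      have h2 : g ^ p ≠ 1 := by
        intro h
        apply hg
        have hcop : Nat.gcd p q = 1 := (Nat.coprime_primes hp.out hq.out).mpr hpq
        have hbez := Nat.gcd_eq_gcd_ab p q
        rw [hcop] at hbez
        have h3 : g = (g ^ p) ^ (Nat.gcdA p q) * (g ^ q) ^ (Nat.gcdB p q) := by
          rw [← zpow_natCast g p, ← zpow_natCast g q, ← zpow_mul, ← zpow_mul, ← zpow_add,
            ← hbez]
          simp
        rw [h3, h, one_zpow, one_mul]; exact P.zpow_mem (hpowq g) _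
      have h3 : orderOf (g ^ p) = q := by
        apply orderOf_eq_prime _ h2
        rw [← pow_mul, mul_comm, pow_mul]
        exact hPexp _ (hpowq g)
      exact hfpf (g ^ p) (g ^ q) h3 h1
        (mul_inv_eq_iff_eq_mul.mpr ((Commute.refl g).pow_pow p q).eq)
  obtain ⟨x, hxP⟩ : ∃ x : G, x ∉ P := by
    by_contra h; push Not at h
    have : P = ⊤ := eq_top_iff.mpr fun g _ => h g
    rw [this, Subgroup.index_top] at hidx
    exact hq.out.one_lt.ne hidx
  have hxq : orderOf x = q := hnotP x hxP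
  letI : CommGroup P :=
    { (inferInstance : Group P) with mul_comm := fun a b => hPc.is_comm.comm a b }
  have hs : ∀ y : P, ((MulAut.conjNormal x : P ≃* P)^[q]) y = y := by
    intro y; apply Subtype.ext; rw [iter_conj, ← hxq, pow_orderOf_eq_one]; simp
  have hsfpf : ∀ y : P, (MulAut.conjNormal x : P ≃* P) y = y → y = 1 := by
    intro y hy
    by_contra hy1
    have h1 : orderOf (y : G) = p := hPord y y.2 (fun h => hy1 (Subtype.ext h))
    exact hfpf x y hxq h1 (by
      have := congrArg Subtype.val hy; rwa [MulAut.conjNormal_apply] at this)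
  obtain ⟨hb, ha⟩ := back_mul (N := P) hpq (fun y => Subtype.ext (hPexp y y.2))
    (MulAut.conjNormal x : P ≃* P) hs hsfpf hord
  have hT1 : ∀ y y' : G, y ∈ P → y ≠ 1 → y' ∈ P → y' ≠ 1 → ∃ φ : MulAut G, φ y = y' := by
    intro y y' hy hy1 hy' hy1'
    obtain ⟨ψ, hψ1, hψ2⟩ := hb ⟨y, hy⟩ ⟨y', hy'⟩ (fun h => hy1 (congrArg Subtype.val h))
      (fun h => hy1' (congrArg Subtype.val h))
    obtain ⟨φ, hφ1, -⟩ := exists_aut P x hpq hPcard hG hxq ψ 1
      (fun h => hq.out.one_lt.ne' (Nat.dvd_one.mp h)) (by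
        intro u; rw [pow_one]; exact hψ2 u)
    exact ⟨φ, by rw [hφ1 ⟨y, hy⟩, hψ1]⟩
  have hT2 : ∀ g : G, g ∉ P → ∃ φ : MulAut G, φ x = g := by
    intro g hg
    obtain ⟨i, u, hqi, hu⟩ := conj_pow_of_not_mem P hidx hPord hfpf x hxP hxq g hg
    obtain ⟨ψ, hψ⟩ := ha i hqi
    obtain ⟨φ, -, hφx⟩ := exists_aut P x hpq hPcard hG hxq ψ i hqi (by
      intro v; rw [hψ v]; apply Subtype.ext; rw [iter_conj, MulAut.conjNormal_apply])
    refine ⟨MulAut.conj (u : G) * φ, ?_⟩
    rw [MulAut.mul_apply, hφx, MulAut.conj_apply]; exact hu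
  have hPiff : ∀ g : G, g ∈ P ↔ orderOf g ≠ q := by
    intro g; constructor
    · intro hgP hgq
      by_cases hg1 : g = 1
      · rw [hg1, orderOf_one] at hgq; exact hq.out.one_lt.ne hgq
      · rw [hPord g hgP hg1] at hgq; exact hpq hgq
    · intro hgq; by_contra hgP; exact hgq (hnotP g hgP)
  have hPaut : ∀ (φ : MulAut G) (g : G), φ g ∈ P ↔ g ∈ P := by
    intro φ g; rw [hPiff, hPiff, MulEquiv.orderOf_eq]
  obtain ⟨y0, hy0P, hy01⟩ : ∃ y0 : G, y0 ∈ P ∧ y0 ≠ 1 := by
    have h1 : 1 < Nat.card P := by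
      rw [hPcard]; exact Nat.one_lt_pow (by omega) hp.out.one_lt
    haveI : Nontrivial P := Finite.one_lt_card_iff_nontrivial.mp h1
    obtain ⟨y, hy⟩ := exists_ne (1 : P)
    exact ⟨y, y.2, fun h => hy (Subtype.ext h)⟩
  have hx1 : x ≠ 1 := by rintro rfl; exact hxP P.one_mem
  let col : G → Fin 3 := fun g => if g = 1 then 0 else if g ∈ P then 1 else 2
  let rep : Fin 3 → G := ![1, y0, x]
  have hcolaut : ∀ (φ : MulAut G) (g : G), col (φ g) = col g := by
    intro φ g
    simp only [col, hPaut φ g, EmbeddingLike.map_eq_one_iff]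
  have hrep : ∀ g : G, ∃ φ : MulAut G, φ (rep (col g)) = g := by
    intro g
    by_cases hg1 : g = 1
    · refine ⟨1, ?_⟩; simp [col, rep, hg1]
    · by_cases hgP : g ∈ P
      · obtain ⟨φ, hφ⟩ := hT1 y0 g hy0P hy01 hgP hg1
        refine ⟨φ, ?_⟩
        have : rep (col g) = y0 := by simp [col, rep, hg1, hgP]
        rw [this, hφ]
      · obtain ⟨φ, hφ⟩ := hT2 g hgP
        refine ⟨φ, ?_⟩
        have : rep (col g) = x := by simp [col, rep, hg1, hgP]
        rw [this, hφ]
  have hcolrep : ∀ k : Fin 3, col (rep k) = k := by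
    intro k
    fin_cases k
    · simp [col, rep]
    · simp [col, rep, hy01, hy0P]
    · simp [col, rep, hx1, hxP]
  let F : MulAction.orbitRel.Quotient (MulAut G) G → Fin 3 :=
    Quotient.lift col (by
      intro a b hab
      obtain ⟨φ, hφ⟩ := MulAction.mem_orbit_iff.mp (MulAction.orbitRel_apply.mp hab)
      rw [← hφ]; exact hcolaut φ b)
  have hF1 : ∀ c, (Quotient.mk'' (rep (F c)) : MulAction.orbitRel.Quotient (MulAut G) G) = c := by
    intro c
    induction c using Quotient.inductionOn' with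
    | h g =>
      obtain ⟨φ, hφ⟩ := hrep g
      apply Quotient.sound'
      refine MulAction.orbitRel_apply.mpr (MulAction.mem_orbit_iff.mpr ⟨φ⁻¹, ?_⟩)
      show φ⁻¹ g = rep (col g)
      conv_lhs => rw [← hφ]
      simp
  have hF2 : ∀ k : Fin 3, F (Quotient.mk'' (rep k)) = k := fun k => hcolrep k
  rw [Nat.card_congr (Equiv.mk F (fun k => Quotient.mk'' (rep k)) hF1 hF2)]
  simp

theorem norm_lemma {E : Type*} [Ring E] (q : ℕ) (hq0 : 0 < q) (σ σ' : E)
    (hcomm : σ * σ' = σ' * σ)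
    (H1 : ∀ j, j < q → ∑ k ∈ Finset.range q, (σ * σ' ^ j) ^ k = 0)
    (H2 : ∀ k, 0 < k → k < q → ∑ j ∈ Finset.range q, (σ' ^ k) ^ j = 0) : (q : E) = 0 := by
  have hc : Commute σ σ' := hcomm
  have h1 : ∑ j ∈ Finset.range q, ∑ k ∈ Finset.range q, (σ * σ' ^ j) ^ k = 0 :=
    Finset.sum_eq_zero fun j hj => H1 j (Finset.mem_range.mp hj)
  have h2 : ∑ j ∈ Finset.range q, ∑ k ∈ Finset.range q, (σ * σ' ^ j) ^ k
      = ∑ k ∈ Finset.range q, σ ^ k * ∑ j ∈ Finset.range q, (σ' ^ k) ^ j := by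
    rw [Finset.sum_comm]
    refine Finset.sum_congr rfl fun k _ => ?_
    rw [Finset.mul_sum]
    refine Finset.sum_congr rfl fun j _ => ?_
    rw [(hc.pow_right j).mul_pow, ← pow_mul, ← pow_mul, mul_comm j k]
  have h3 : ∑ k ∈ Finset.range q, σ ^ k * ∑ j ∈ Finset.range q, (σ' ^ k) ^ j = (q : E) := by
    rw [Finset.sum_eq_single 0]
    · simp
    · intro k hk hk0
      rw [H2 k (Nat.pos_of_ne_zero hk0) (Finset.mem_range.mp hk), mul_zero]
    · intro h; exact absurd (Finset.mem_range.mpr hq0) h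
  rw [← h3, ← h2, h1]

theorem index_eq_q {G : Type*} [Group G] [Finite G] (D : Subgroup G) [hDn : D.Normal]
    {p q : ℕ} [hp : Fact p.Prime] [hq : Fact q.Prime] (hpq : p ≠ q)
    (hDc : ∀ a b : D, a * b = b * a) (hDexp : ∀ g ∈ D, g ^ p = 1) (hD1 : D ≠ ⊥)
    (hcomm : commutator G ≤ D) (hqo : ∀ g : G, g ∉ D → orderOf g = q)
    (hfpf : ∀ x y : G, orderOf x = q → orderOf y = p → x * y * x⁻¹ ≠ y) (hDtop : D ≠ ⊤) :
    D.index = q := by
  classical
  letI : CommGroup D := { (inferInstance : Group D) with mul_comm := hDc }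
  let ρ : G →* AddMonoid.End (Additive D) :=
    { toFun := fun g => MonoidHom.toAdditive (MulAut.conjNormal g : D ≃* D).toMonoidHom
      map_one' := by
        refine AddMonoidHom.ext fun v => ?_
        show Additive.ofMul ((MulAut.conjNormal (1 : G) : D ≃* D) v.toMul) = v
        rw [map_one]; rfl
      map_mul' := fun g h => by
        refine AddMonoidHom.ext fun v => ?_
        show Additive.ofMul ((MulAut.conjNormal (g * h) : D ≃* D) v.toMul)
          = Additive.ofMul ((MulAut.conjNormal g : D ≃* D)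
              ((MulAut.conjNormal h : D ≃* D) v.toMul))
        rw [map_mul]; rfl }
  have hρapp : ∀ (g : G) (v : Additive D),
      ((((ρ g) v).toMul : D) : G) = g * ((v.toMul : D) : G) * g⁻¹ := fun g v => rfl
  have hρD : ∀ d ∈ D, ρ d = 1 := by
    intro d hd
    refine AddMonoidHom.ext fun v => ?_
    have h1 : d * ((v.toMul : D) : G) = ((v.toMul : D) : G) * d :=
      congrArg Subtype.val (hDc ⟨d, hd⟩ v.toMul)
    have h2 : ((((ρ d) v).toMul : D) : G) = ((v.toMul : D) : G) := by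
      rw [hρapp, mul_inv_eq_iff_eq_mul]; exact h1
    exact Additive.toMul.injective (Subtype.ext h2)
  have hρcomm : ∀ x x' : G, ρ x * ρ x' = ρ x' * ρ x := by
    intro x x'
    have h1 : x * x' = ⁅x, x'⁆ * (x' * x) := by rw [commutatorElement_def]; group
    have h2 : ⁅x, x'⁆ ∈ D := hcomm (by
      rw [commutator_def]
      exact Subgroup.commutator_mem_commutator (Subgroup.mem_top x) (Subgroup.mem_top x'))
    rw [← map_mul, h1, map_mul, hρD _ h2, one_mul, map_mul]
  have hnorm : ∀ g : G, g ∉ D → ∑ k ∈ Finset.range q, ρ g ^ k = 0 := by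
    intro g hg
    have hgq := hqo g hg
    have h1 : ρ g ^ q = 1 := by rw [← map_pow, ← hgq, pow_orderOf_eq_one, map_one]
    have h2 : ρ g * (∑ k ∈ Finset.range q, ρ g ^ k) = ∑ k ∈ Finset.range q, ρ g ^ k := by
      have := mul_geom_sum (ρ g) q
      rw [h1, sub_self, sub_mul, one_mul, sub_eq_zero] at this
      exact this
    refine AddMonoidHom.ext fun v => ?_
    have h3 : ρ g ((∑ k ∈ Finset.range q, ρ g ^ k) v) = (∑ k ∈ Finset.range q, ρ g ^ k) v :=
      congrArg (fun f : AddMonoid.End (Additive D) => f v) h2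
    by_contra hN0
    have hN1 : ((((∑ k ∈ Finset.range q, ρ g ^ k) v).toMul : D) : G) ≠ 1 := by
      intro h
      apply hN0
      exact Additive.toMul.injective (Subtype.ext h)
    have hNp := orderOf_eq_prime
      (hDexp _ (((∑ k ∈ Finset.range q, ρ g ^ k) v).toMul).2) hN1
    refine hfpf g _ hgq hNp ?_
    rw [← hρapp, h3]
  obtain ⟨x', hx'⟩ : ∃ x' : G, x' ∉ D := by
    by_contra h; push Not at h
    exact hDtop (eq_top_iff.mpr fun g _ => h g)
  have hx'q := hqo x' hx'
  have hmk1 : (QuotientGroup.mk x' : G ⧸ D) ≠ 1 := by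
    rw [Ne, QuotientGroup.eq_one_iff]; exact hx'
  have hmkq : (QuotientGroup.mk x' : G ⧸ D) ^ q = 1 := by
    rw [← QuotientGroup.mk_pow, ← hx'q, pow_orderOf_eq_one]; rfl
  have hordmk : orderOf (QuotientGroup.mk x' : G ⧸ D) = q := orderOf_eq_prime hmkq hmk1
  by_cases htop : Subgroup.zpowers (QuotientGroup.mk x' : G ⧸ D) = ⊤
  · rw [Subgroup.index_eq_card, ← Subgroup.card_top (G := G ⧸ D), ← htop, Nat.card_zpowers,
      hordmk]
  · exfalso
    obtain ⟨xb, hxb⟩ : ∃ xb : G ⧸ D, xb ∉ Subgroup.zpowers (QuotientGroup.mk x' : G ⧸ D) := by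
      by_contra h; push Not at h
      exact htop (eq_top_iff.mpr fun g _ => h g)
    obtain ⟨x, rfl⟩ := QuotientGroup.mk_surjective xb
    have hH1 : ∀ j, j < q → ∑ k ∈ Finset.range q, (ρ x * ρ x' ^ j) ^ k = 0 := by
      intro j _
      rw [← map_pow, ← map_mul]
      apply hnorm
      intro hmem
      apply hxb
      have h1 : (QuotientGroup.mk x : G ⧸ D) * (QuotientGroup.mk x' : G ⧸ D) ^ j = 1 := by
        rw [← QuotientGroup.mk_pow, ← QuotientGroup.mk_mul]
        exact (QuotientGroup.eq_one_iff _).mpr hmem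
      rw [eq_inv_of_mul_eq_one_left h1]
      exact Subgroup.inv_mem _ (Subgroup.pow_mem _ (Subgroup.mem_zpowers _) j)
    have hH2 : ∀ k, 0 < k → k < q → ∑ j ∈ Finset.range q, (ρ x' ^ k) ^ j = 0 := by
      intro k hk hkq
      rw [← map_pow]
      apply hnorm
      intro hmem
      have h1 : (QuotientGroup.mk x' : G ⧸ D) ^ k = 1 := by
        rw [← QuotientGroup.mk_pow]; exact (QuotientGroup.eq_one_iff _).mpr hmem
      have h2 := orderOf_dvd_of_pow_eq_one h1
      rw [hordmk] at h2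
      exact absurd (Nat.le_of_dvd hk h2) (by omega)
    have hq0 := norm_lemma q hq.out.pos (ρ x) (ρ x') (hρcomm x x') hH1 hH2
    obtain ⟨d, hd⟩ := (Subgroup.ne_bot_iff_exists_ne_one).mp hD1
    have h1 : ((q : AddMonoid.End (Additive D)) (Additive.ofMul d)) = 0 := by rw [hq0]; rfl
    rw [AddMonoid.End.natCast_apply] at h1
    have h2 : d ^ q = 1 := h1
    have h3 : d ^ p = 1 := Subtype.ext (hDexp d d.2)
    have h4 : orderOf d ∣ Nat.gcd p q :=
      Nat.dvd_gcd (orderOf_dvd_of_pow_eq_one h3) (orderOf_dvd_of_pow_eq_one h2)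
    rw [(Nat.coprime_primes hp.out hq.out).mpr hpq, Nat.dvd_one, orderOf_eq_one_iff] at h4
    exact hd h4

theorem fwd_core {G : Type*} [Group G] [Finite G] (p q : ℕ) [hp : Fact p.Prime]
    [hq : Fact q.Prime] (hpq : p ≠ q) (a b : G) (ha : orderOf a = p) (hb : orderOf b = q)
    (hall : ∀ g : G, g = 1 ∨ (∃ φ : MulAut G, φ a = g) ∨ (∃ φ : MulAut G, φ b = g))
    (hDtop : commutator G ≠ ⊤)
    (hD : ∃ g ∈ commutator G, g ≠ 1 ∧ orderOf g = p) :
    ∃ n : ℕ, 1 ≤ n ∧ Nat.card G = p ^ n * q ∧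
      (∀ P : Sylow p G, (P : Subgroup G).Normal ∧
        Cfsg.IsElementaryAbelian p (P : Subgroup G)) ∧
      orderOf (p : ZMod q) = q - 1 ∧
      ∀ x y : G, orderOf x = q → orderOf y = p → x * y * x⁻¹ ≠ y := by
  classical
  have hord : ∀ g : G, g = 1 ∨ orderOf g = p ∨ orderOf g = q := by
    intro g
    rcases hall g with h | ⟨φ, h⟩ | ⟨φ, h⟩
    · exact Or.inl h
    · right; left; rw [← h, MulEquiv.orderOf_eq]; exact ha
    · right; right; rw [← h, MulEquiv.orderOf_eq]; exact hb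
  have keyp : ∀ g : G, orderOf g = p → ∃ φ : MulAut G, φ a = g := by
    intro g hg
    rcases hall g with h | h | ⟨φ, h⟩
    · rw [h, orderOf_one] at hg; exact absurd hg hp.out.one_lt.ne
    · exact h
    · rw [← h, MulEquiv.orderOf_eq, hb] at hg; exact absurd hg.symm hpq
  have keyq : ∀ g : G, orderOf g = q → ∃ φ : MulAut G, φ b = g := by
    intro g hg
    rcases hall g with h | ⟨φ, h⟩ | h
    · rw [h, orderOf_one] at hg; exact absurd hg hq.out.one_lt.ne
    · rw [← h, MulEquiv.orderOf_eq, ha] at hg; exact absurd hg hpq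
    · exact h
  have hTp : ∀ g g' : G, orderOf g = p → orderOf g' = p → ∃ φ : MulAut G, φ g = g' := by
    intro g g' hg hg'
    obtain ⟨φ1, h1⟩ := keyp g hg
    obtain ⟨φ2, h2⟩ := keyp g' hg'
    exact ⟨φ2 * φ1⁻¹, by rw [MulAut.mul_apply, ← h1, MulAut.inv_apply_self, h2]⟩
  have hTq : ∀ g g' : G, orderOf g = q → orderOf g' = q → ∃ φ : MulAut G, φ g = g' := by
    intro g g' hg hg'
    obtain ⟨φ1, h1⟩ := keyq g hg
    obtain ⟨φ2, h2⟩ := keyq g' hg'
    exact ⟨φ2 * φ1⁻¹, by rw [MulAut.mul_apply, ← h1, MulAut.inv_apply_self, h2]⟩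
  have hfpf : ∀ x y : G, orderOf x = q → orderOf y = p → x * y * x⁻¹ ≠ y := by
    intro x y hx hy hxy
    have hc : Commute x y := mul_inv_eq_iff_eq_mul.mp hxy
    have ho := hc.orderOf_mul_eq_mul_orderOf_of_coprime
      (by rw [hx, hy]; exact (Nat.coprime_primes hq.out hp.out).mpr hpq.symm)
    rw [hx, hy] at ho
    have hp2 := hp.out.two_le
    have hq2 := hq.out.two_le
    rcases hord (x * y) with h | h | h
    · rw [h, orderOf_one] at ho; nlinarith
    · rw [h] at ho; nlinarith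
    · rw [h] at ho; nlinarith
  obtain ⟨D, hDdef⟩ : ∃ D : Subgroup G, D = commutator G := ⟨_, rfl⟩
  haveI hDn : D.Normal := by rw [hDdef]; infer_instance
  have hDchar : ∀ (φ : MulAut G) (g : G), g ∈ D → φ g ∈ D := by
    intro φ g hg
    rw [hDdef] at hg ⊢
    have hfix := (inferInstance : (commutator G).Characteristic).fixed φ⁻¹
    rw [← hfix, Subgroup.mem_comap]
    simpa using hg
  rw [← hDdef] at hDtop hD
  obtain ⟨g0, hg0D, hg01, hg0p⟩ := hD
  have hDp : ∀ g : G, orderOf g = p → g ∈ D := by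
    intro g hg; obtain ⟨φ, hφ⟩ := hTp g0 g hg0p hg; rw [← hφ]; exact hDchar φ g0 hg0D
  have hDq : ∀ g : G, orderOf g = q → g ∉ D := by
    intro g hg hgD
    apply hDtop
    rw [eq_top_iff]
    intro g' _
    rcases hord g' with h | h | h
    · rw [h]; exact D.one_mem
    · exact hDp g' h
    · obtain ⟨φ, hφ⟩ := hTq g g' hg h; rw [← hφ]; exact hDchar φ g hgD
  have hnotD : ∀ g : G, g ∉ D → orderOf g = q := by
    intro g hg
    rcases hord g with h | h | h
    · exact absurd (h ▸ D.one_mem) hg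
    · exact absurd (hDp g h) hg
    · exact h
  have hDord : ∀ g ∈ D, g ≠ 1 → orderOf g = p := by
    intro g hg hg1
    rcases hord g with h | h | h
    · exact absurd h hg1
    · exact h
    · exact absurd hg (hDq g h)
  have hDexp : ∀ g ∈ D, g ^ p = 1 := by
    intro g hg
    by_cases hg1 : g = 1
    · rw [hg1, one_pow]
    · rw [← hDord g hg hg1]; exact pow_orderOf_eq_one g
  have hDpg : IsPGroup p D := by
    rintro ⟨g, hg⟩
    exact ⟨1, Subtype.ext (by simpa using hDexp g hg)⟩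
  have hSyl : ∀ P : Sylow p G, (P : Subgroup G) = D := by
    intro P
    have h1 : (P : Subgroup G) ≤ D := by
      intro g hg
      by_contra hgD
      have hgq := hnotD g hgD
      obtain ⟨k, hk⟩ := P.isPGroup' ⟨g, hg⟩
      have hk' : g ^ p ^ k = 1 := by simpa using congrArg Subtype.val hk
      have h2 := orderOf_dvd_of_pow_eq_one hk'
      rw [hgq] at h2
      exact hpq ((Nat.prime_dvd_prime_iff_eq hq.out hp.out).mp
        (hq.out.dvd_of_dvd_pow h2)).symm
    exact (P.is_maximal' hDpg h1).symm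
  have hDcent : ∀ g ∈ D, g ∈ Subgroup.centralizer (D : Set G) := by
    haveI : Nontrivial D := ⟨⟨⟨g0, hg0D⟩, 1, fun h => hg01 (congrArg Subtype.val h)⟩⟩
    haveI := hDpg.center_nontrivial
    obtain ⟨z, hz⟩ := exists_ne (1 : Subgroup.center D)
    have hzD : ((z : D) : G) ∈ D := (z : D).2
    have hz1 : ((z : D) : G) ≠ 1 := fun h => hz (Subtype.ext (Subtype.ext h))
    have hzc : ((z : D) : G) ∈ Subgroup.centralizer (D : Set G) := by
      rw [Subgroup.mem_centralizer_iff]
      intro h hh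
      have := Subgroup.mem_center_iff.mp z.2 ⟨h, hh⟩
      exact congrArg Subtype.val this
    have hzp := hDord _ hzD hz1
    intro g hg
    by_cases hg1 : g = 1
    · rw [hg1]; exact Subgroup.one_mem _
    · obtain ⟨φ, hφ⟩ := hTp _ g hzp (hDord g hg hg1)
      rw [← hφ, Subgroup.mem_centralizer_iff]
      intro h hh
      have h1 := hDchar φ⁻¹ h hh
      have h2 := (Subgroup.mem_centralizer_iff.mp hzc) _ h1
      have h3 := congrArg φ h2
      simpa using h3
  have hDcomm : ∀ a ∈ D, ∀ b ∈ D, a * b = b * a := fun a ha b hb =>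
    (Subgroup.mem_centralizer_iff.mp (hDcent b hb)) a ha
  have hDc : ∀ a b : D, a * b = b * a := fun a b => Subtype.ext (hDcomm a a.2 b b.2)
  have hD1 : D ≠ ⊥ := fun h => hg01 ((Subgroup.mem_bot).mp (h ▸ hg0D))
  have hidx : D.index = q :=
    index_eq_q D hpq hDc hDexp hD1 (le_of_eq hDdef.symm) hnotD hfpf hDtop
  obtain ⟨n, hn⟩ : ∃ n, Nat.card D = p ^ n := hDpg.exists_card_eq
  have hn1 : 1 ≤ n := by
    by_contra h
    have h0 : n = 0 := by omega
    rw [h0, pow_zero] at hn
    exact hD1 ((Subgroup.card_eq_one).mp hn)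
  have hcard : Nat.card G = p ^ n * q := by rw [← hn, ← hidx]; exact (D.card_mul_index).symm
  refine ⟨n, hn1, hcard, ?_, ?_, hfpf⟩
  · intro P
    rw [hSyl P]
    exact ⟨hDn, ⟨⟨fun a b => hDc a b⟩⟩, hDexp⟩
  · have hbD : b ∉ D := hDq b hb
    have hres : ∀ φ : MulAut G, ∃ ψ : D ≃* D, ∀ d : D, (ψ d : G) = φ d := by
      intro φ
      refine ⟨{ toFun := fun d => ⟨φ d, hDchar φ d d.2⟩
                invFun := fun d => ⟨φ⁻¹ d, hDchar φ⁻¹ d d.2⟩
                left_inv := fun d => Subtype.ext (by simp)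
                right_inv := fun d => Subtype.ext (by simp)
                map_mul' := fun a b => Subtype.ext (map_mul φ _ _) }, fun d => rfl⟩
    letI : CommGroup D := { (inferInstance : Group D) with mul_comm := hDc }
    have h_s : ∀ y : D, ((MulAut.conjNormal b : D ≃* D)^[q]) y = y := by
      intro y; apply Subtype.ext; rw [iter_conj, ← hb, pow_orderOf_eq_one]; simp
    have h_s1 : ∃ y : D, (MulAut.conjNormal b : D ≃* D) y ≠ y := by
      refine ⟨⟨g0, hg0D⟩, fun h => hfpf b g0 hb hg0p ?_⟩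
      have := congrArg Subtype.val h
      rwa [MulAut.conjNormal_apply] at this
    have h_trans : ∀ v w : D, v ≠ 1 → w ≠ 1 →
        ∃ (ψ : D ≃* D) (i : ℕ), ψ v = w ∧
          ∀ u, ψ ((MulAut.conjNormal b : D ≃* D) u)
            = ((MulAut.conjNormal b : D ≃* D)^[i]) (ψ u) := by
      intro v w hv hw
      have hvp := hDord v v.2 (fun h => hv (Subtype.ext h))
      have hwp := hDord w w.2 (fun h => hw (Subtype.ext h))
      obtain ⟨φ, hφ⟩ := hTp v w hvp hwp
      have hφb : φ b ∉ D := by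
        intro h; apply hbD
        have := hDchar φ⁻¹ _ h; simpa using this
      obtain ⟨i, u, hqi, hu⟩ := conj_pow_of_not_mem D hidx hDord hfpf b hbD hb (φ b) hφb
      obtain ⟨ψ, hψ⟩ := hres φ
      refine ⟨ψ, i, Subtype.ext (by rw [hψ]; exact hφ), fun y => ?_⟩
      apply Subtype.ext
      rw [iter_conj, hψ, hψ, MulAut.conjNormal_apply, map_mul, map_mul, map_inv, ← hu]
      have ht : φ y ∈ D := hDchar φ y y.2
      have e1 : (u : G)⁻¹ * φ y * (u : G) = φ y := by
        rw [mul_assoc, hDcomm _ ht _ u.2, ← mul_assoc, inv_mul_cancel, one_mul]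
      have hct : b ^ i * φ y * (b ^ i)⁻¹ ∈ D := hDn.conj_mem _ ht _
      have e2 : (u : G) * (b ^ i * φ y * (b ^ i)⁻¹) * (u : G)⁻¹ = b ^ i * φ y * (b ^ i)⁻¹ := by
        rw [hDcomm _ u.2 _ hct, mul_assoc, mul_inv_cancel, mul_one]
      have e3 : (u : G) * b ^ i * (u : G)⁻¹ * φ y * ((u : G) * b ^ i * (u : G)⁻¹)⁻¹
          = (u : G) * (b ^ i * ((u : G)⁻¹ * φ y * (u : G)) * (b ^ i)⁻¹) * (u : G)⁻¹ := by
        group
      rw [e3, e1, e2]
    have h_all : ∀ i : ℕ, 0 < i → i < q →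
        ∃ ψ : D ≃* D, ∀ u, ψ ((MulAut.conjNormal b : D ≃* D) u)
            = ((MulAut.conjNormal b : D ≃* D)^[i]) (ψ u) := by
      intro i hi hiq
      have hqi : ¬ q ∣ i := fun h => absurd (Nat.le_of_dvd hi h) (by omega)
      have hbi : orderOf (b ^ i) = q := by
        rw [Nat.Coprime.orderOf_pow
          (by rw [hb]; exact (Nat.Prime.coprime_iff_not_dvd hq.out).mpr hqi), hb]
      obtain ⟨φ, hφ⟩ := hTq b (b ^ i) hb hbi
      obtain ⟨ψ, hψ⟩ := hres φ
      refine ⟨ψ, fun y => ?_⟩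
      apply Subtype.ext
      rw [iter_conj, hψ, hψ, MulAut.conjNormal_apply, map_mul, map_mul, map_inv, hφ]
    have hle := fwd_mul (N := D) hpq (fun y => Subtype.ext (hDexp y y.2))
      (MulAut.conjNormal b : D ≃* D) h_s h_s1 h_trans h_all
    have hpq0 : (p : ZMod q) ≠ 0 := by
      intro h
      rw [ZMod.natCast_eq_zero_iff] at h
      exact hpq ((Nat.prime_dvd_prime_iff_eq hq.out hp.out).mp h).symm
    have hdvd : orderOf (p : ZMod q) ∣ q - 1 :=
      orderOf_dvd_of_pow_eq_one (ZMod.pow_card_sub_one_eq_one hpq0)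
    have hq1 : 0 < q - 1 := by have := hq.out.two_le; omega
    exact le_antisymm (Nat.le_of_dvd hq1 hdvd) hle

theorem fwd_main {G : Type*} [Group G] [Finite G] (hnpp : ¬ IsPrimePow (Nat.card G))
    (hnt : Nat.card G ≠ 1)
    (h3 : Nat.card (MulAction.orbitRel.Quotient (MulAut G) G) = 3) :
    ∃ (p q n : ℕ) (_ : Fact p.Prime) (_ : Fact q.Prime), p ≠ q ∧ 1 ≤ n ∧
      Nat.card G = p ^ n * q ∧
      (∀ P : Sylow p G, (P : Subgroup G).Normal ∧
        Cfsg.IsElementaryAbelian p (P : Subgroup G)) ∧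
      orderOf (p : ZMod q) = q - 1 ∧
      ∀ x y : G, orderOf x = q → orderOf y = p → x * y * x⁻¹ ≠ y := by
  classical
  have hG0 : Nat.card G ≠ 0 := Nat.card_pos.ne'
  obtain ⟨p, hp, hpd⟩ := Nat.exists_prime_and_dvd hnt
  have hex : ∃ q, q.Prime ∧ q ∣ Nat.card G ∧ q ≠ p := by
    by_contra hcon
    push Not at hcon
    apply hnpp
    rw [isPrimePow_iff_unique_prime_dvd]
    exact ⟨p, ⟨hp, hpd⟩, fun r hr => hcon r hr.1 hr.2⟩
  obtain ⟨q, hq, hqd, hqp⟩ := hex
  haveI : Fact p.Prime := ⟨hp⟩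
  haveI : Fact q.Prime := ⟨hq⟩
  obtain ⟨a, ha⟩ := exists_prime_orderOf_dvd_card' p hpd
  obtain ⟨b, hb⟩ := exists_prime_orderOf_dvd_card' q hqd
  have hmk : ∀ g h : G, (Quotient.mk'' g : MulAction.orbitRel.Quotient (MulAut G) G)
      = Quotient.mk'' h ↔ ∃ φ : MulAut G, φ h = g := by
    intro g h
    rw [Quotient.eq'']
    exact MulAction.mem_orbit_iff
  letI : Fintype (MulAction.orbitRel.Quotient (MulAut G) G) := Fintype.ofFinite _
  have hcard : Fintype.card (MulAction.orbitRel.Quotient (MulAut G) G) = 3 := by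
    rw [← Nat.card_eq_fintype_card]; exact h3
  have h1a : (Quotient.mk'' (1 : G) : MulAction.orbitRel.Quotient (MulAut G) G)
      ≠ Quotient.mk'' a := by
    rw [Ne, hmk]; rintro ⟨φ, hφ⟩
    have : orderOf (φ a) = p := by rw [MulEquiv.orderOf_eq]; exact ha
    rw [hφ, orderOf_one] at this; exact hp.one_lt.ne this
  have h1b : (Quotient.mk'' (1 : G) : MulAction.orbitRel.Quotient (MulAut G) G)
      ≠ Quotient.mk'' b := by
    rw [Ne, hmk]; rintro ⟨φ, hφ⟩
    have : orderOf (φ b) = q := by rw [MulEquiv.orderOf_eq]; exact hb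
    rw [hφ, orderOf_one] at this; exact hq.one_lt.ne this
  have hab : (Quotient.mk'' a : MulAction.orbitRel.Quotient (MulAut G) G)
      ≠ Quotient.mk'' b := by
    rw [Ne, hmk]; rintro ⟨φ, hφ⟩
    have : orderOf (φ b) = q := by rw [MulEquiv.orderOf_eq]; exact hb
    rw [hφ, ha] at this; exact hqp this.symm
  have huniv : ({Quotient.mk'' (1 : G), Quotient.mk'' a, Quotient.mk'' b} :
      Finset (MulAction.orbitRel.Quotient (MulAut G) G)) = Finset.univ := by
    apply Finset.eq_univ_of_card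
    rw [hcard, Finset.card_insert_of_notMem, Finset.card_insert_of_notMem,
      Finset.card_singleton]
    · simpa using hab
    · simp only [Finset.mem_insert, Finset.mem_singleton, not_or]; exact ⟨h1a, h1b⟩
  have hall : ∀ g : G, g = 1 ∨ (∃ φ : MulAut G, φ a = g) ∨ (∃ φ : MulAut G, φ b = g) := by
    intro g
    have hg : (Quotient.mk'' g : MulAction.orbitRel.Quotient (MulAut G) G) ∈
        ({Quotient.mk'' (1 : G), Quotient.mk'' a, Quotient.mk'' b} : Finset _) :=
      huniv ▸ Finset.mem_univ _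
    simp only [Finset.mem_insert, Finset.mem_singleton] at hg
    rcases hg with h | h | h
    · left; obtain ⟨φ, hφ⟩ := (hmk _ _).mp h; rw [← hφ, map_one]
    · right; left; exact (hmk _ _).mp h
    · right; right; exact (hmk _ _).mp h
  have hord : ∀ g : G, g = 1 ∨ orderOf g = p ∨ orderOf g = q := by
    intro g
    rcases hall g with h | ⟨φ, h⟩ | ⟨φ, h⟩
    · exact Or.inl h
    · right; left; rw [← h, MulEquiv.orderOf_eq]; exact ha
    · right; right; rw [← h, MulEquiv.orderOf_eq]; exact hb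
  obtain ⟨α, m, hm, hGm⟩ := Nat.exists_eq_pow_mul_and_not_dvd hG0 p hp.ne_one
  have hm0 : m ≠ 0 := by rintro rfl; rw [mul_zero] at hGm; exact hG0 hGm
  obtain ⟨β, m', hm', hmm'⟩ := Nat.exists_eq_pow_mul_and_not_dvd hm0 q hq.ne_one
  have hm'1 : m' = 1 := by
    by_contra hne
    obtain ⟨r, hr, hrd⟩ := Nat.exists_prime_and_dvd hne
    have hrG : r ∣ Nat.card G := by
      rw [hGm, hmm']
      exact Dvd.dvd.mul_left (Dvd.dvd.mul_left hrd _) _
    haveI : Fact r.Prime := ⟨hr⟩
    obtain ⟨c, hc⟩ := exists_prime_orderOf_dvd_card' r hrG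
    rcases hord c with h | h | h
    · rw [h, orderOf_one] at hc; exact hr.one_lt.ne hc
    · rw [h] at hc; apply hm; rw [hmm', hc]; exact Dvd.dvd.mul_left hrd _
    · rw [h] at hc; exact hm' (hc ▸ hrd)
  have hGcard : Nat.card G = p ^ α * q ^ β := by rw [hGm, hmm', hm'1, mul_one]
  haveI : Group.IsSolvable G :=
    Cfsg.Agent.Helper24.isSolvable_of_card_prime_pow_mul p q α β hp hq hGcard
  haveI : Nontrivial G :=
    ⟨⟨a, 1, fun h => by rw [h, orderOf_one] at ha; exact hp.one_lt.ne ha⟩⟩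
  have hDtop : commutator G ≠ ⊤ := (Group.IsSolvable.commutator_lt_top_of_nontrivial G).ne
  have hDbot : commutator G ≠ ⊥ := by
    intro hbot
    have h1 : ⁅a, b⁆ ∈ commutator G := by
      rw [commutator_def]
      exact Subgroup.commutator_mem_commutator (Subgroup.mem_top a) (Subgroup.mem_top b)
    rw [hbot, Subgroup.mem_bot, commutatorElement_eq_one_iff_commute] at h1
    have ho := h1.orderOf_mul_eq_mul_orderOf_of_coprime
      (by rw [ha, hb]; exact (Nat.coprime_primes hp hq).mpr hqp.symm)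
    rw [ha, hb] at ho
    have hp2 := hp.two_le
    have hq2 := hq.two_le
    rcases hord (a * b) with h | h | h
    · rw [h, orderOf_one] at ho; nlinarith
    · rw [h] at ho; nlinarith
    · rw [h] at ho; nlinarith
  obtain ⟨g0, hg0⟩ := (Subgroup.ne_bot_iff_exists_ne_one).mp hDbot
  have hg01 : (g0 : G) ≠ 1 := fun h => hg0 (Subtype.ext h)
  rcases hord g0 with h | h | h
  · exact absurd h hg01
  · obtain ⟨n, hn1, hcard', hSyl, hprim, hfpf⟩ :=
      fwd_core p q hqp.symm a b ha hb hall hDtop ⟨g0, g0.2, hg01, h⟩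
    exact ⟨p, q, n, ⟨hp⟩, ⟨hq⟩, hqp.symm, hn1, hcard', hSyl, hprim, hfpf⟩
  · obtain ⟨n, hn1, hcard', hSyl, hprim, hfpf⟩ :=
      fwd_core q p hqp b a hb ha (fun g => by
        rcases hall g with h | h | h
        exacts [Or.inl h, Or.inr (Or.inr h), Or.inr (Or.inl h)]) hDtop ⟨g0, g0.2, hg01, h⟩
    exact ⟨q, p, n, ⟨hq⟩, ⟨hp⟩, hqp, hn1, hcard', hSyl, hprim, hfpf⟩

end


/-- Let G be a finite group whose order is not a prime power. Then the automorphism group of G has exactly three orbits on G if and only if there are distinct primes p, q with #G = pⁿ·q (n ≥ 1) such that G has a normal elementary abelian Sylow p-subgroup P, p is a primitive root modulo q (the multiplicative order of p mod q is q − 1), and every element of order q of G acts on P without non-identity fixed points. -/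
theorem result {G : Type*} [Group G] [Finite G] (hnpp : ¬ IsPrimePow (Nat.card G)) (hnt : Nat.card G ≠ 1) :
    Nat.card (MulAction.orbitRel.Quotient (MulAut G) G) = 3 ↔
    ∃ (p q n : ℕ) (_ : Fact p.Prime) (_ : Fact q.Prime), p ≠ q ∧ 1 ≤ n ∧ Nat.card G = p ^ n * q ∧
      (∀ P : Sylow p G, (P : Subgroup G).Normal ∧ Cfsg.IsElementaryAbelian p (P : Subgroup G)) ∧
      orderOf (p : ZMod q) = q - 1 ∧
      ∀ x y : G, orderOf x = q → orderOf y = p → x * y * x⁻¹ ≠ y := by
  constructor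
  · exact fwd_main hnpp hnt
  · rintro ⟨p, q, n, hp, hq, hpq, hn, hG, hP, hord, hfpf⟩
    exact back_main p q n hpq hn hG hP hord hfpf

end Cfsg.Agent.S4081
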