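import Cfsg.Statements.S4082
import Mathlib
import Cfsg.Agent.S0206
import Cfsg.Agent.Helper15.Subn

set_option autoImplicit false
set_option linter.style.haveILetI false
open Cfsg

namespace Cfsg.Agent.S4082

open Cfsg.Agent.Helper15

theorem mem_of_cop {G : Type*} [Group G] {M : Subgroup G} {a : G} {s r : ℕ} (hco : Nat.Coprime s r)
    (h1 : a ^ s ∈ M) (h2 : a ^ r ∈ M) : a ∈ M := by
  have h3 : a ^ (1 : ℤ) = a ^ ((s : ℤ) * Nat.gcdA s r + (r : ℤ) * Nat.gcdB s r) := by
    rw [← Nat.gcd_eq_gcd_ab, Nat.Coprime.gcd_eq_one hco]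
    simp
  rw [zpow_one, zpow_add, zpow_mul, zpow_mul, zpow_natCast, zpow_natCast] at h3
  rw [h3]
  exact M.mul_mem (M.zpow_mem h1 _) (M.zpow_mem h2 _)

theorem pow_ne_two {p : ℕ} (hp : p.Prime) (hp2 : p ≠ 2) (k : ℕ) : p ^ k ≠ 2 := by
  intro h
  cases k with
  | zero => simp at h
  | succ k =>
    have h1 : p ∣ p ^ (k + 1) := dvd_pow_self p (Nat.succ_ne_zero k)
    rw [h] at h1
    exact hp2 ((Nat.prime_dvd_prime_iff_eq hp Nat.prime_two).mp h1)

theorem eq_one_of_sq {G : Type*} [Group G] {p : ℕ} (hp : p.Prime) (hp2 : p ≠ 2) {g : G} {j : ℕ}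
    (h1 : g ^ (p ^ j) = 1) (h2 : g * g = 1) : g = 1 := by
  have hco : Nat.Coprime (p ^ j) 2 :=
    Nat.Coprime.pow_left j ((Nat.coprime_primes hp Nat.prime_two).mpr hp2)
  have h3 : g ∈ (⊥ : Subgroup G) :=
    mem_of_cop hco (by rw [h1]; exact Subgroup.one_mem _)
      (by rw [pow_two, h2]; exact Subgroup.one_mem _)
  exact Subgroup.mem_bot.mp h3

theorem pel_of_mem {G : Type*} [Group G] {p : ℕ} {R : Subgroup G} (hR : IsPGroup p R) {g : G}
    (hg : g ∈ R) : ∃ k : ℕ, g ^ (p ^ k) = 1 := by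
  obtain ⟨k, hk⟩ := hR ⟨g, hg⟩
  refine ⟨k, ?_⟩
  have h1 := congrArg Subtype.val hk
  rw [Subgroup.coe_pow, Subgroup.coe_one] at h1
  exact h1

theorem pgroup_zpowers {G : Type*} [Group G] [Finite G] {p : ℕ} [Fact p.Prime] (u : G) (e : ℕ)
    (h : u ^ (p ^ e) = 1) : IsPGroup p (Subgroup.zpowers u) := by
  obtain ⟨j, -, hj⟩ := (Nat.dvd_prime_pow Fact.out).mp (orderOf_dvd_of_pow_eq_one h)
  exact IsPGroup.of_card (n := j) (by rw [Nat.card_zpowers, hj])

theorem comm_of_zpowers {G : Type*} [Group G] (g : G) {a b : G} (ha : a ∈ Subgroup.zpowers g)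
    (hb : b ∈ Subgroup.zpowers g) : a * b = b * a := by
  obtain ⟨i, rfl⟩ := Subgroup.mem_zpowers_iff.mp ha
  obtain ⟨j, rfl⟩ := Subgroup.mem_zpowers_iff.mp hb
  exact (Commute.zpow_zpow_self g i j).eq

theorem decomp {G : Type*} [Group G] [Finite G] {p : ℕ} (hpp : p.Prime) (x : G) :
    ∃ e m : ℕ, ¬ p ∣ m ∧ Nat.Coprime (p ^ e) m ∧ (x ^ m) ^ (p ^ e) = 1 ∧ (x ^ (p ^ e)) ^ m = 1 ∧
      ¬ p ∣ orderOf (x ^ (p ^ e)) := by
  obtain ⟨e, m, hm, ho⟩ := Nat.exists_eq_pow_mul_and_not_dvd (orderOf_pos x).ne' p hpp.ne_one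
  have h1 : (x ^ (p ^ e)) ^ m = 1 := by rw [← pow_mul, ← ho, pow_orderOf_eq_one]
  refine ⟨e, m, hm, Nat.Coprime.pow_left e ((Nat.Prime.coprime_iff_not_dvd hpp).mpr hm), ?_, h1, ?_⟩
  · rw [← pow_mul, mul_comm, ← ho, pow_orderOf_eq_one]
  · exact fun h => hm (h.trans (orderOf_dvd_of_pow_eq_one h1))

/-- Sylow facts for `R ⋊ ⟨y⟩` -/
theorem sylow_facts {G : Type*} [Group G] [Finite G] {p : ℕ} [Fact p.Prime]
    (R : Subgroup G) (hR : IsPGroup p R) (y : G) (hy : y ∈ Subgroup.normalizer (R : Set G))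
    (hpy : ¬ p ∣ orderOf y) (H : Subgroup G) (hH : H = R ⊔ Subgroup.zpowers y) :
    (∀ S : Sylow p ↥H, (S : Subgroup ↥H).Normal) ∧
    (∀ (S : Sylow p ↥H) [(S : Subgroup ↥H).Normal], IsCyclic (↥H ⧸ (S : Subgroup ↥H))) := by
  have hRH : R ≤ H := by rw [hH]; exact le_sup_left
  have hZH : Subgroup.zpowers y ≤ H := by rw [hH]; exact le_sup_right
  have hHN : H ≤ Subgroup.normalizer (R : Set G) := by
    rw [hH]; exact sup_le Subgroup.le_normalizer (Subgroup.zpowers_le.mpr hy)
  haveI hRn : (R.subgroupOf H).Normal :=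
    (Subgroup.normal_subgroupOf_iff_le_normalizer hRH).mpr hHN
  have hRp : IsPGroup p ↥(R.subgroupOf H) := hR.comap_subtype
  have hsup : R.subgroupOf H ⊔ (Subgroup.zpowers y).subgroupOf H = ⊤ := by
    rw [← Subgroup.subgroupOf_sup hRH hZH, ← hH, Subgroup.subgroupOf_self]
  have hmap : ((Subgroup.zpowers y).subgroupOf H).map (QuotientGroup.mk' (R.subgroupOf H)) = ⊤ := by
    have h1 : (R.subgroupOf H ⊔ (Subgroup.zpowers y).subgroupOf H).map
        (QuotientGroup.mk' (R.subgroupOf H)) = ⊤ := by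
      rw [hsup, ← MonoidHom.range_eq_map, MonoidHom.range_eq_top]
      exact QuotientGroup.mk'_surjective _
    have hb : (R.subgroupOf H).map (QuotientGroup.mk' (R.subgroupOf H)) = ⊥ :=
      (Subgroup.map_eq_bot_iff _).mpr (le_of_eq (QuotientGroup.ker_mk' _).symm)
    rwa [Subgroup.map_sup, hb, bot_sup_eq] at h1
  have hsurj : Function.Surjective
      ((QuotientGroup.mk' (R.subgroupOf H)).comp ((Subgroup.zpowers y).subgroupOf H).subtype) := by
    intro q
    have hq : q ∈ ((Subgroup.zpowers y).subgroupOf H).map (QuotientGroup.mk' (R.subgroupOf H)) := by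
      rw [hmap]; exact Subgroup.mem_top q
    obtain ⟨z, hz, hzq⟩ := Subgroup.mem_map.mp hq
    exact ⟨⟨z, hz⟩, hzq⟩
  haveI hZc : IsCyclic ↥((Subgroup.zpowers y).subgroupOf H) :=
    isCyclic_of_surjective (Subgroup.subgroupOfEquivOfLe hZH).symm
      (Subgroup.subgroupOfEquivOfLe hZH).symm.surjective
  have hQc : IsCyclic (↥H ⧸ R.subgroupOf H) := isCyclic_of_surjective _ hsurj
  have hcard : Nat.card (↥H ⧸ R.subgroupOf H) ∣ orderOf y := by
    have h1 := Subgroup.card_dvd_of_surjective _ hsurj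
    rwa [Nat.card_congr (Subgroup.subgroupOfEquivOfLe hZH).toEquiv, Nat.card_zpowers] at h1
  have hidx : ¬ p ∣ (R.subgroupOf H).index := by
    rw [Subgroup.index_eq_card]
    exact fun h => hpy (h.trans hcard)
  haveI hP0n : ((hRp.toSylow hidx : Sylow p ↥H) : Subgroup ↥H).Normal := hRn
  have huniq : ∀ S : Sylow p ↥H, S = hRp.toSylow hidx := by
    intro S
    obtain ⟨g, hg⟩ := MulAction.exists_smul_eq ↥H (hRp.toSylow hidx) S
    rw [← hg]
    exact Sylow.smul_eq_of_normal
  refine ⟨fun S => by rw [huniq S]; exact hP0n, ?_⟩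
  intro S hSn
  obtain rfl := huniq S
  exact hQc

theorem hyp_apply {G : Type*} [Group G] [Finite G] {p : ℕ} [Fact p.Prime] (hp : p ≠ 2)
    (hyp : ∀ H : Subgroup G, (∀ S : Sylow p ↥H, (S : Subgroup ↥H).Normal) →
        (∀ (S : Sylow p ↥H) [(S : Subgroup ↥H).Normal], IsCyclic (↥H ⧸ (S : Subgroup ↥H))) →
        IsCyclic H ∨ (∃ n : ℕ, Nonempty (H ≃* DihedralGroup (p ^ n))))
    (R : Subgroup G) (hR : IsPGroup p R) (y : G) (hy : y ∈ Subgroup.normalizer (R : Set G))
    (hpy : ¬ p ∣ orderOf y) :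
    (∀ c ∈ R, y * c = c * y) ∨ (orderOf y = 2 ∧ ∀ c ∈ R, y * c * y⁻¹ = c⁻¹) := by
  have hpp : p.Prime := Fact.out
  obtain ⟨h1, h2⟩ := sylow_facts R hR y hy hpy (R ⊔ Subgroup.zpowers y) rfl
  have hyH : y ∈ R ⊔ Subgroup.zpowers y :=
    (le_sup_right : Subgroup.zpowers y ≤ R ⊔ Subgroup.zpowers y) (Subgroup.mem_zpowers y)
  have hRH : R ≤ R ⊔ Subgroup.zpowers y := le_sup_left
  obtain ⟨yH, hyv⟩ : ∃ yH : ↥(R ⊔ Subgroup.zpowers y), (yH : G) = y := ⟨⟨y, hyH⟩, rfl⟩
  have hlift : ∀ c ∈ R, ∃ cH : ↥(R ⊔ Subgroup.zpowers y), (cH : G) = c :=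
    fun c hc' => ⟨⟨c, hRH hc'⟩, rfl⟩
  rcases hyp _ h1 h2 with hc | ⟨n, ⟨e⟩⟩
  · left
    intro c hc'
    obtain ⟨cH, hcv⟩ := hlift c hc'
    obtain ⟨g, hg⟩ := IsCyclic.exists_generator (α := ↥(R ⊔ Subgroup.zpowers y))
    have h3 := comm_of_zpowers g (hg yH) (hg cH)
    have h4 := congrArg Subtype.val h3
    rw [Subgroup.coe_mul, Subgroup.coe_mul, hyv, hcv] at h4
    exact h4
  · have hrot : ∀ cH : ↥(R ⊔ Subgroup.zpowers y), (cH : G) ∈ R →
        ∃ i, e cH = DihedralGroup.r i := by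
      intro cH hc'
      cases hcase : e cH with
      | r i => exact ⟨i, rfl⟩
      | sr i =>
        exfalso
        have h3 : orderOf (e cH) = 2 := by rw [hcase]; exact DihedralGroup.orderOf_sr i
        rw [MulEquiv.orderOf_eq, ← Subgroup.orderOf_coe] at h3
        obtain ⟨k, hk⟩ := pel_of_mem hR hc'
        obtain ⟨j, -, hj⟩ := (Nat.dvd_prime_pow hpp).mp (orderOf_dvd_of_pow_eq_one hk)
        rw [hj] at h3
        exact pow_ne_two hpp hp j h3
    cases hcy : e yH with
    | r j =>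
      left
      intro c hc'
      obtain ⟨cH, hcv⟩ := hlift c hc'
      obtain ⟨i, hi⟩ := hrot cH (by rw [hcv]; exact hc')
      have h4 : e (yH * cH) = e (cH * yH) := by
        rw [map_mul, map_mul, hcy, hi, DihedralGroup.r_mul_r, DihedralGroup.r_mul_r, add_comm]
      have h5 := congrArg Subtype.val (e.injective h4)
      rw [Subgroup.coe_mul, Subgroup.coe_mul, hyv, hcv] at h5
      exact h5
    | sr j =>
      right
      refine ⟨?_, ?_⟩
      · have h3 : orderOf (e yH) = 2 := by rw [hcy]; exact DihedralGroup.orderOf_sr j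
        rw [MulEquiv.orderOf_eq, ← Subgroup.orderOf_coe, hyv] at h3
        exact h3
      · intro c hc'
        obtain ⟨cH, hcv⟩ := hlift c hc'
        obtain ⟨i, hi⟩ := hrot cH (by rw [hcv]; exact hc')
        have h4 : e (yH * cH * yH⁻¹) = e (cH⁻¹) := by
          rw [map_mul, map_mul, map_inv, map_inv, hcy, hi, DihedralGroup.inv_sr,
            DihedralGroup.sr_mul_r, DihedralGroup.sr_mul_sr, DihedralGroup.inv_r]
          congr 1
          ring
        have h5 := congrArg Subtype.val (e.injective h4)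
        rw [Subgroup.coe_mul, Subgroup.coe_mul, Subgroup.coe_inv, Subgroup.coe_inv, hyv, hcv] at h5
        exact h5

theorem P_cyclic {G : Type*} [Group G] [Finite G] {p : ℕ} [Fact p.Prime] (hp : p ≠ 2)
    (hyp : ∀ H : Subgroup G, (∀ S : Sylow p ↥H, (S : Subgroup ↥H).Normal) →
        (∀ (S : Sylow p ↥H) [(S : Subgroup ↥H).Normal], IsCyclic (↥H ⧸ (S : Subgroup ↥H))) →
        IsCyclic H ∨ (∃ n : ℕ, Nonempty (H ≃* DihedralGroup (p ^ n))))
    (P : Sylow p G) : IsCyclic ↥(P : Subgroup G) := by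
  have hpp : p.Prime := Fact.out
  have h1 : ¬ p ∣ orderOf (1 : G) := by
    rw [orderOf_one]
    exact fun h => hpp.one_lt.ne' (Nat.dvd_one.mp h)
  obtain ⟨h2, h3⟩ := sylow_facts (P : Subgroup G) P.isPGroup' 1 (Subgroup.one_mem _) h1
    (P : Subgroup G) (by rw [Subgroup.zpowers_one_eq_bot, sup_bot_eq])
  rcases hyp _ h2 h3 with hc | ⟨n, ⟨e⟩⟩
  · exact hc
  · exfalso
    obtain ⟨k, hk⟩ := IsPGroup.iff_card.mp P.isPGroup'
    have h4 : Nat.card ↥(P : Subgroup G) = 2 * p ^ n := by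
      rw [Nat.card_congr e.toEquiv, DihedralGroup.nat_card]
    rw [hk] at h4
    have h5 : 2 ∣ p ^ k := ⟨p ^ n, h4⟩
    have h6 : 2 ∣ p := Nat.Prime.dvd_of_dvd_pow Nat.prime_two h5
    exact hp ((Nat.prime_dvd_prime_iff_eq Nat.prime_two hpp).mp h6).symm

theorem pgroup_cyclic {G : Type*} [Group G] [Finite G] {p : ℕ} [Fact p.Prime] (P : Sylow p G)
    (g₀ : G) (hPz : (P : Subgroup G) = Subgroup.zpowers g₀) (T : Subgroup G) (hT : IsPGroup p T) :
    ∃ a : G, Subgroup.zpowers a = T := by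
  obtain ⟨P', hP'⟩ := hT.exists_le_sylow
  obtain ⟨g, hg⟩ := MulAction.exists_smul_eq G P P'
  have h1 : (P' : Subgroup G) = Subgroup.zpowers ((MulAut.conj g).toMonoidHom g₀) := by
    rw [← hg, Sylow.coe_subgroup_smul, Subn.smul_eq_cj, hPz, Subn.cj, MonoidHom.map_zpowers]
  rw [h1] at hP'
  exact (Subgroup.isCyclic_iff_exists_zpowers_eq_top T).mp (Subgroup.isCyclic_of_le hP')

theorem pgroup_comm {G : Type*} [Group G] [Finite G] {p : ℕ} [Fact p.Prime] (P : Sylow p G)
    (g₀ : G) (hPz : (P : Subgroup G) = Subgroup.zpowers g₀) (T : Subgroup G) (hT : IsPGroup p T)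
    {a b : G} (ha : a ∈ T) (hb : b ∈ T) : a * b = b * a := by
  obtain ⟨c, hc⟩ := pgroup_cyclic P g₀ hPz T hT
  rw [← hc] at ha hb
  exact comm_of_zpowers c ha hb

theorem pel_in_sylow {G : Type*} [Group G] [Finite G] {p : ℕ} [Fact p.Prime] (P : Sylow p G)
    (u : G) (e : ℕ) (h : u ^ (p ^ e) = 1)
    (hu : u ∈ Subgroup.normalizer ((P : Subgroup G) : Set G)) : u ∈ (P : Subgroup G) := by
  have h1 : IsPGroup p ↥(Subgroup.zpowers u ⊔ (P : Subgroup G)) :=
    IsPGroup.to_sup_of_normal_right' (pgroup_zpowers u e h) P.isPGroup'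
      (Subgroup.zpowers_le.mpr hu)
  have h2 := P.is_maximal' h1 le_sup_right
  have h3 : u ∈ Subgroup.zpowers u ⊔ (P : Subgroup G) :=
    (le_sup_left : Subgroup.zpowers u ≤ Subgroup.zpowers u ⊔ (P : Subgroup G))
      (Subgroup.mem_zpowers u)
  rwa [h2] at h3

/-- Claim A: elements of `N(P)` outside `C(P)` invert `P`. -/
theorem claimA {G : Type*} [Group G] [Finite G] {p : ℕ} [Fact p.Prime] (hp : p ≠ 2)
    (hyp : ∀ H : Subgroup G, (∀ S : Sylow p ↥H, (S : Subgroup ↥H).Normal) →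
        (∀ (S : Sylow p ↥H) [(S : Subgroup ↥H).Normal], IsCyclic (↥H ⧸ (S : Subgroup ↥H))) →
        IsCyclic H ∨ (∃ n : ℕ, Nonempty (H ≃* DihedralGroup (p ^ n))))
    (P : Sylow p G) (g₀ : G) (hPz : (P : Subgroup G) = Subgroup.zpowers g₀)
    (x : G) (hxN : x ∈ Subgroup.normalizer ((P : Subgroup G) : Set G))
    (hxC : x ∉ Subgroup.centralizer ((P : Subgroup G) : Set G)) :
    ∀ g ∈ (P : Subgroup G), x * g * x⁻¹ = g⁻¹ := by
  have hpp : p.Prime := Fact.out
  have hPC : (P : Subgroup G) ≤ Subgroup.centralizer ((P : Subgroup G) : Set G) := by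
    intro a ha
    rw [Subgroup.mem_centralizer_iff]
    intro h hh
    exact pgroup_comm P g₀ hPz P P.isPGroup' hh ha
  obtain ⟨e, m, hm, hco, hu, hs, hsord⟩ := decomp hpp x
  have huP : x ^ m ∈ (P : Subgroup G) :=
    pel_in_sylow P (x ^ m) e hu (Subgroup.pow_mem _ hxN m)
  obtain ⟨s, hsd⟩ : ∃ s, s = x ^ (p ^ e) := ⟨_, rfl⟩
  rw [← hsd] at hs hsord
  have hsN : s ∈ Subgroup.normalizer ((P : Subgroup G) : Set G) := by
    rw [hsd]; exact Subgroup.pow_mem _ hxN _
  rcases hyp_apply hp hyp (P : Subgroup G) P.isPGroup' s hsN hsord with h1 | ⟨h1, h2⟩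
  · exfalso
    apply hxC
    refine mem_of_cop hco ?_ (hPC huP)
    rw [← hsd, Subgroup.mem_centralizer_iff]
    intro h hh
    exact (h1 h hh).symm
  · intro g hg
    obtain ⟨k, hk⟩ : ∃ k, p ^ e = 2 * k + 1 :=
      (Odd.pow (hpp.eq_two_or_odd'.resolve_left hp) : Odd (p ^ e))
    have hs2 : s * s = 1 := by rw [← pow_two, ← h1, pow_orderOf_eq_one]
    have hx2 : x ^ 2 ∈ Subgroup.centralizer ((P : Subgroup G) : Set G) := by
      refine mem_of_cop hco ?_ ?_
      · rw [← pow_mul, mul_comm, pow_mul, ← hsd, pow_two, hs2]; exact Subgroup.one_mem _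
      · rw [← pow_mul, mul_comm, pow_mul]; exact Subgroup.pow_mem _ (hPC huP) 2
    obtain ⟨c, hcd⟩ : ∃ c, c = (x ^ 2) ^ k := ⟨_, rfl⟩
    have hc : c ∈ Subgroup.centralizer ((P : Subgroup G) : Set G) := by
      rw [hcd]; exact Subgroup.pow_mem _ hx2 k
    have hsx : s = c * x := by rw [hsd, hcd, hk, pow_succ x (2 * k), pow_mul x 2 k]
    have hxs : x = c⁻¹ * s := by rw [hsx, inv_mul_cancel_left]
    have hcg : g⁻¹ * c = c * g⁻¹ :=
      (Subgroup.mem_centralizer_iff.mp hc) g⁻¹ (Subgroup.inv_mem _ hg)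
    have key : c⁻¹ * s * g * (c⁻¹ * s)⁻¹ = g⁻¹ := by
      have e1 : c⁻¹ * s * g * (c⁻¹ * s)⁻¹ = c⁻¹ * (s * g * s⁻¹) * c := by group
      rw [e1, h2 g hg, mul_assoc, hcg, inv_mul_cancel_left]
    rw [← hxs] at key
    exact key

theorem key_P {G : Type*} [Group G] [Finite G] {p : ℕ} [Fact p.Prime]
    (P : Sylow p G) (g₀ : G) (hPz : (P : Subgroup G) = Subgroup.zpowers g₀)
    (hcase : Subgroup.normalizer ((P : Subgroup G) : Set G) = Subgroup.centralizer ((P : Subgroup G) : Set G) ∨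
       ((Subgroup.centralizer ((P : Subgroup G) : Set G)).relIndex (Subgroup.normalizer ((P : Subgroup G) : Set G)) = 2 ∧
        ∀ Q : Subgroup G, Q ≤ P → Nat.card Q = p →
          IsMulCommutative ↥(Subgroup.centralizer (Q : Set G)) ∧
          ∀ x : G, x ∈ Subgroup.normalizer (Q : Set G) → x ∉ Subgroup.centralizer (Q : Set G) →
            orderOf x = 2 ∧ ∀ c : G, c ∈ Subgroup.centralizer (Q : Set G) → x * c * x⁻¹ = c⁻¹))
    (a : G) (ha : a ∈ (P : Subgroup G)) (y : G) (hya : y * a * y⁻¹ ∈ Subgroup.zpowers a) :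
    y * a = a * y ∨ (orderOf y = 2 ∧ y * a * y⁻¹ = a⁻¹) := by
  have hpp : p.Prime := Fact.out
  have hPab : ∀ a ∈ (P : Subgroup G), ∀ b ∈ (P : Subgroup G), a * b = b * a := by
    intro a ha b hb
    rw [hPz] at ha hb
    exact comm_of_zpowers g₀ ha hb
  rcases hcase with hNC | ⟨-, hQ⟩
  · left
    haveI : IsMulCommutative P := ⟨⟨fun a b => Subtype.ext (hPab a.1 a.2 b.1 b.2)⟩⟩
    have hyP : y⁻¹⁻¹ * a * y⁻¹ ∈ P := by
      rw [inv_inv]
      exact (Subgroup.zpowers_le.mpr ha) hya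
    obtain ⟨n, hn, hne⟩ := P.conj_eq_normalizer_conj_of_mem a y⁻¹ ha hyP
    rw [inv_inv] at hne
    have hnC : n ∈ Subgroup.centralizer ((P : Subgroup G) : Set G) := by
      rw [← hNC]; exact hn
    have h3 : a * n = n * a := (Subgroup.mem_centralizer_iff.mp hnC) a ha
    have h4 : n⁻¹ * a * n = a := by rw [mul_assoc, h3, inv_mul_cancel_left]
    rw [h4] at hne
    exact mul_inv_eq_iff_eq_mul.mp hne
  · by_cases ha1 : a = 1
    · left; rw [ha1, mul_one, one_mul]
    · obtain ⟨k, hk⟩ := pel_of_mem P.isPGroup' ha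
      obtain ⟨j, -, hj⟩ := (Nat.dvd_prime_pow hpp).mp (orderOf_dvd_of_pow_eq_one hk)
      have hj0 : j ≠ 0 := by
        intro h0
        rw [h0, pow_zero, orderOf_eq_one_iff] at hj
        exact ha1 hj
      obtain ⟨i, rfl⟩ : ∃ i, j = i + 1 := ⟨j - 1, by omega⟩
      obtain ⟨w, hwd⟩ : ∃ w, w = a ^ (p ^ i) := ⟨_, rfl⟩
      have hw1 : w ≠ 1 := by
        intro h
        rw [hwd] at h
        have h3 := orderOf_dvd_of_pow_eq_one h
        rw [hj] at h3
        have h4 := Nat.le_of_dvd (pow_pos hpp.pos i) h3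
        have h5 : p ^ i < p ^ (i + 1) := Nat.pow_lt_pow_right hpp.one_lt (Nat.lt_succ_self i)
        exact absurd h4 (not_le.mpr h5)
      have hwp : w ^ p = 1 := by
        rw [hwd, ← pow_mul, ← pow_succ, ← hj, pow_orderOf_eq_one]
      have hword : orderOf w = p := orderOf_eq_prime hwp hw1
      have hwP : w ∈ (P : Subgroup G) := by rw [hwd]; exact Subgroup.pow_mem _ ha _
      have hQP : Subgroup.zpowers w ≤ (P : Subgroup G) := Subgroup.zpowers_le.mpr hwP
      have hQcard : Nat.card ↥(Subgroup.zpowers w) = p := by rw [Nat.card_zpowers, hword]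
      obtain ⟨hcomm, hinv⟩ := hQ (Subgroup.zpowers w) hQP hQcard
      have hyw : y * w * y⁻¹ ∈ Subgroup.zpowers w := by
        obtain ⟨t, ht⟩ := Subgroup.mem_zpowers_iff.mp hya
        refine Subgroup.mem_zpowers_iff.mpr ⟨t, ?_⟩
        rw [hwd, ← conj_pow, ← ht, ← zpow_natCast, ← zpow_natCast, ← zpow_mul, ← zpow_mul,
          mul_comm]
      have hyN : y ∈ Subgroup.normalizer ((Subgroup.zpowers w : Subgroup G) : Set G) :=
        Subgroup.mem_normalizer_fintype (fun n hn => by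
          obtain ⟨t, rfl⟩ := Subgroup.mem_zpowers_iff.mp (SetLike.mem_coe.mp hn)
          rw [← conj_zpow]
          exact Subgroup.zpow_mem _ hyw t)
      have haC : a ∈ Subgroup.centralizer ((Subgroup.zpowers w : Subgroup G) : Set G) := by
        rw [Subgroup.mem_centralizer_iff]
        intro h hh
        obtain ⟨t, rfl⟩ := Subgroup.mem_zpowers_iff.mp (SetLike.mem_coe.mp hh)
        rw [hwd]
        exact (((Commute.refl a).pow_left (p ^ i)).zpow_left t).eq
      by_cases hyC : y ∈ Subgroup.centralizer ((Subgroup.zpowers w : Subgroup G) : Set G)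
      · left
        have h3 := (isMulCommutative_iff.mp hcomm) ⟨y, hyC⟩ ⟨a, haC⟩
        exact congrArg Subtype.val h3
      · right
        obtain ⟨h3, h4⟩ := hinv y hyN hyC
        exact ⟨h3, h4 a haC⟩

theorem key_all {G : Type*} [Group G] [Finite G] {p : ℕ} [Fact p.Prime]
    (P : Sylow p G) (g₀ : G) (hPz : (P : Subgroup G) = Subgroup.zpowers g₀)
    (hcase : Subgroup.normalizer ((P : Subgroup G) : Set G) = Subgroup.centralizer ((P : Subgroup G) : Set G) ∨
       ((Subgroup.centralizer ((P : Subgroup G) : Set G)).relIndex (Subgroup.normalizer ((P : Subgroup G) : Set G)) = 2 ∧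
        ∀ Q : Subgroup G, Q ≤ P → Nat.card Q = p →
          IsMulCommutative ↥(Subgroup.centralizer (Q : Set G)) ∧
          ∀ x : G, x ∈ Subgroup.normalizer (Q : Set G) → x ∉ Subgroup.centralizer (Q : Set G) →
            orderOf x = 2 ∧ ∀ c : G, c ∈ Subgroup.centralizer (Q : Set G) → x * c * x⁻¹ = c⁻¹)) :
    ∀ a y : G, (∃ k : ℕ, a ^ (p ^ k) = 1) → y * a * y⁻¹ ∈ Subgroup.zpowers a →
      y * a = a * y ∨ (orderOf y = 2 ∧ y * a * y⁻¹ = a⁻¹) := by
  intro a y ⟨k, hk⟩ hya
  obtain ⟨P', hP'⟩ := (pgroup_zpowers a k hk).exists_le_sylow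
  obtain ⟨g, hg⟩ := MulAction.exists_smul_eq G P' P
  have haP : g * a * g⁻¹ ∈ (P : Subgroup G) := by
    rw [← hg, Sylow.coe_subgroup_smul, Subn.smul_eq_cj, Subn.mem_cj]
    have e : g⁻¹ * (g * a * g⁻¹) * g = a := by group
    rw [e]; exact hP' (Subgroup.mem_zpowers a)
  obtain ⟨t, ht⟩ := Subgroup.mem_zpowers_iff.mp hya
  have hconj : (g * y * g⁻¹) * (g * a * g⁻¹) * (g * y * g⁻¹)⁻¹ ∈
      Subgroup.zpowers (g * a * g⁻¹) := by
    refine Subgroup.mem_zpowers_iff.mpr ⟨t, ?_⟩
    rw [conj_zpow, ht]; group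
  rcases key_P P g₀ hPz hcase (g * a * g⁻¹) haP (g * y * g⁻¹) hconj with h | ⟨h1, h2⟩
  · left
    have e1 : y * a = g⁻¹ * ((g * y * g⁻¹) * (g * a * g⁻¹)) * g := by group
    have e2 : a * y = g⁻¹ * ((g * a * g⁻¹) * (g * y * g⁻¹)) * g := by group
    rw [e1, e2, h]
  · right
    refine ⟨?_, ?_⟩
    · have e3 : orderOf (MulAut.conj g y) = orderOf y := MulEquiv.orderOf_eq (MulAut.conj g) y
      rw [← e3]; exact h1
    · have e1 : y * a * y⁻¹ =
          g⁻¹ * ((g * y * g⁻¹) * (g * a * g⁻¹) * (g * y * g⁻¹)⁻¹) * g := by group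
      rw [e1, h2]; group

theorem final {G : Type*} [Group G] [Finite G] {p : ℕ} [Fact p.Prime] (hp : p ≠ 2)
    (P : Sylow p G) (g₀ : G) (hPz : (P : Subgroup G) = Subgroup.zpowers g₀)
    (hK : ∀ a y : G, (∃ k : ℕ, a ^ (p ^ k) = 1) → y * a * y⁻¹ ∈ Subgroup.zpowers a →
      y * a = a * y ∨ (orderOf y = 2 ∧ y * a * y⁻¹ = a⁻¹))
    (H : Subgroup G) (h1 : ∀ S : Sylow p ↥H, (S : Subgroup ↥H).Normal)
    (h2 : ∀ (S : Sylow p ↥H) [(S : Subgroup ↥H).Normal], IsCyclic (↥H ⧸ (S : Subgroup ↥H))) :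
    IsCyclic H ∨ (∃ n : ℕ, Nonempty (H ≃* DihedralGroup (p ^ n))) := by
  have hpp : p.Prime := Fact.out
  obtain ⟨S₀⟩ : Nonempty (Sylow p ↥H) := inferInstance
  haveI hS0n : (S₀ : Subgroup ↥H).Normal := h1 S₀
  have hquot : IsCyclic (↥H ⧸ (S₀ : Subgroup ↥H)) := h2 S₀
  have hSp : IsPGroup p ↥((S₀ : Subgroup ↥H).map H.subtype) := S₀.isPGroup'.map _
  obtain ⟨a, ha⟩ := pgroup_cyclic P g₀ hPz _ hSp
  have haS : a ∈ (S₀ : Subgroup ↥H).map H.subtype := by rw [← ha]; exact Subgroup.mem_zpowers a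
  obtain ⟨a', ha', haa⟩ := Subgroup.mem_map.mp haS
  have haa' : (a' : G) = a := haa
  subst haa'
  have hS0z : (S₀ : Subgroup ↥H) = Subgroup.zpowers a' := by
    apply le_antisymm
    · intro s hs
      have h3 : (s : G) ∈ Subgroup.zpowers (a' : G) := by
        rw [ha]; exact Subgroup.mem_map_of_mem H.subtype hs
      obtain ⟨t, ht⟩ := Subgroup.mem_zpowers_iff.mp h3
      refine Subgroup.mem_zpowers_iff.mpr ⟨t, Subtype.ext ?_⟩
      rw [Subgroup.coe_zpow]; exact ht
    · exact Subgroup.zpowers_le.mpr ha'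
  obtain ⟨n, hn⟩ := IsPGroup.iff_card.mp S₀.isPGroup'
  have hord_a : orderOf a' = p ^ n := by rw [← hn, hS0z, Nat.card_zpowers]
  obtain ⟨q, hq⟩ := IsCyclic.exists_generator (α := ↥H ⧸ (S₀ : Subgroup ↥H))
  obtain ⟨y₀, rfl⟩ := QuotientGroup.mk_surjective q
  have hk_ord : orderOf (y₀ : ↥H ⧸ (S₀ : Subgroup ↥H)) = (S₀ : Subgroup ↥H).index := by
    rw [orderOf_eq_card_of_forall_mem_zpowers hq, Subgroup.index_eq_card]
  have hkp : ¬ p ∣ (S₀ : Subgroup ↥H).index := S₀.not_dvd_index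
  have hcardH : Nat.card ↥H = p ^ n * (S₀ : Subgroup ↥H).index := by
    rw [← hn, Subgroup.card_mul_index]
  obtain ⟨e, m, hm, hco, hu, hs, hsord⟩ := decomp hpp y₀
  obtain ⟨y₁, hy₁⟩ : ∃ y₁, y₁ = y₀ ^ (p ^ e) := ⟨_, rfl⟩
  rw [← hy₁] at hs hsord
  have hcop0 : (orderOf (y₀ : ↥H ⧸ (S₀ : Subgroup ↥H))).Coprime (p ^ e) := by
    rw [hk_ord]
    exact (Nat.Coprime.pow_left e ((Nat.Prime.coprime_iff_not_dvd hpp).mpr hkp)).symm
  have hmk : orderOf ((y₁ : ↥H) : ↥H ⧸ (S₀ : Subgroup ↥H)) = (S₀ : Subgroup ↥H).index := by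
    rw [hy₁, QuotientGroup.mk_pow, Nat.Coprime.orderOf_pow hcop0, hk_ord]
  have hy1k : orderOf y₁ = (S₀ : Subgroup ↥H).index := by
    apply Nat.dvd_antisymm
    · apply orderOf_dvd_of_pow_eq_one
      have h3 : y₁ ^ (S₀ : Subgroup ↥H).index ∈ (S₀ : Subgroup ↥H) := by
        rw [← QuotientGroup.eq_one_iff, QuotientGroup.mk_pow, ← hmk, pow_orderOf_eq_one]
      obtain ⟨j, hj⟩ := pel_of_mem S₀.isPGroup' h3
      have hco2 : Nat.Coprime m (p ^ j) :=
        (Nat.Coprime.pow_left j ((Nat.Prime.coprime_iff_not_dvd hpp).mpr hm)).symm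
      have h4 : y₁ ^ (S₀ : Subgroup ↥H).index ∈ (⊥ : Subgroup ↥H) := by
        refine mem_of_cop hco2 ?_ ?_
        · rw [← pow_mul, mul_comm, pow_mul, hs, one_pow]; exact Subgroup.one_mem _
        · rw [hj]; exact Subgroup.one_mem _
      exact Subgroup.mem_bot.mp h4
    · rw [← hmk]
      exact orderOf_map_dvd (QuotientGroup.mk' (S₀ : Subgroup ↥H)) y₁
  have hnorm : (y₁ : G) * (a' : G) * (y₁ : G)⁻¹ ∈ Subgroup.zpowers (a' : G) := by
    rw [ha]
    exact Subgroup.mem_map_of_mem H.subtype (hS0n.conj_mem a' ha' y₁)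
  have hpel : ∃ k : ℕ, (a' : G) ^ (p ^ k) = 1 := by
    obtain ⟨k, hk⟩ := pel_of_mem S₀.isPGroup' ha'
    exact ⟨k, by rw [← Subgroup.coe_pow, hk, Subgroup.coe_one]⟩
  by_cases hcomm : (y₁ : G) * (a' : G) = (a' : G) * (y₁ : G)
  · left
    have hc : Commute a' y₁ := by
      show a' * y₁ = y₁ * a'
      exact (Subtype.ext hcomm).symm
    have hcop : (orderOf a').Coprime (orderOf y₁) := by
      rw [hord_a, hy1k]
      exact Nat.Coprime.pow_left n ((Nat.Prime.coprime_iff_not_dvd hpp).mpr hkp)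
    apply isCyclic_of_orderOf_eq_card (a' * y₁)
    rw [hc.orderOf_mul_eq_mul_orderOf_of_coprime hcop, hord_a, hy1k, hcardH]
  · right
    rcases hK (a' : G) (y₁ : G) hpel hnorm with h3 | ⟨h3, h4⟩
    · exact absurd h3 hcomm
    · have hy2 : orderOf y₁ = 2 := by rw [← Subgroup.orderOf_coe]; exact h3
      have hinv : y₁ * a' * y₁⁻¹ = a'⁻¹ := Subtype.ext h4
      have hy1sq : y₁ * y₁ = 1 := by rw [← pow_two, ← hy2, pow_orderOf_eq_one]
      have ha1 : a' ≠ 1 := by
        intro h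
        apply hcomm
        rw [h, Subgroup.coe_one, mul_one, one_mul]
      have e1 : y₁ * a' = a'⁻¹ * y₁ := by rw [← hinv]; group
      have hsq : (y₁ * a') * (y₁ * a') = 1 := by
        calc (y₁ * a') * (y₁ * a') = (a'⁻¹ * y₁) * (y₁ * a') := by rw [← e1]
          _ = a'⁻¹ * (y₁ * y₁) * a' := by group
          _ = 1 := by rw [hy1sq, mul_one, inv_mul_cancel]
      have hne1 : y₁ * a' ≠ 1 := by
        intro h
        have h5 : y₁ = a'⁻¹ := eq_inv_of_mul_eq_one_left h
        have h6 : y₁ ∈ (S₀ : Subgroup ↥H) := by rw [h5]; exact Subgroup.inv_mem _ ha'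
        obtain ⟨j, hj⟩ := pel_of_mem S₀.isPGroup' h6
        have h7 : y₁ = 1 := eq_one_of_sq hpp hp hj hy1sq
        rw [h7, orderOf_one] at hy2
        exact absurd hy2 (by norm_num)
      have hxy : y₁ ≠ y₁ * a' := by
        intro h
        apply ha1
        have h5 : y₁ * 1 = y₁ * a' := by rw [mul_one]; exact h
        exact (mul_left_cancel h5).symm
      have hord2 : orderOf (y₁ * a') = 2 := orderOf_eq_prime (by rw [pow_two]; exact hsq) hne1
      obtain ⟨ε⟩ := Cfsg.Agent.S0206.result y₁ (y₁ * a') hy2 hord2 hxy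
      have hprod : y₁ * (y₁ * a') = a' := by rw [← mul_assoc, hy1sq, one_mul]
      rw [hprod, hord_a] at ε
      have hcl : Subgroup.closure ({y₁, y₁ * a'} : Set ↥H) = ⊤ := by
        apply Subgroup.eq_top_of_card_eq
        rw [Nat.card_congr ε.toEquiv, DihedralGroup.nat_card, hcardH, ← hy1k, hy2, mul_comm]
      exact ⟨n, ⟨(Subgroup.topEquiv.symm.trans (MulEquiv.subgroupCongr hcl.symm)).trans ε⟩⟩

/-- Let p be an odd prime and G a finite group with Sylow p-subgroup P. Say that G has restricted p-by-cyclic subgroups when every subgroup H of G whose Sylow p-subgroup is normal in H with cyclic quotient is itself cyclic or dihedral of order 2pⁿ for some n. Then G has restricted p-by-cyclic subgroups if and only if P is cyclic and one of the following holds: (1) N_G(P) = C_G(P); or (2) N_G(P)/C_G(P) has order 2 and, for the subgroup Q of order p of P, the centralizer C_G(Q) is abelian and every element of N_G(Q) outside C_G(Q) is an involution inverting every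 element of C_G(Q). -/
theorem result {G : Type*} [Group G] [Finite G] {p : ℕ}
    [Fact p.Prime] (hp : p ≠ 2) (P : Sylow p G) :
    (∀ H : Subgroup G, (∀ S : Sylow p ↥H, (S : Subgroup ↥H).Normal) →
        (∀ (S : Sylow p ↥H) [(S : Subgroup ↥H).Normal], IsCyclic (↥H ⧸ (S : Subgroup ↥H))) →
        IsCyclic H ∨ (∃ n : ℕ, Nonempty (H ≃* DihedralGroup (p ^ n)))) ↔
    (IsCyclic P ∧
      (Subgroup.normalizer ((P : Subgroup G) : Set G) = Subgroup.centralizer ((P : Subgroup G) : Set G) ∨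
       ((Subgroup.centralizer ((P : Subgroup G) : Set G)).relIndex (Subgroup.normalizer ((P : Subgroup G) : Set G)) = 2 ∧
        ∀ Q : Subgroup G, Q ≤ P → Nat.card Q = p →
          IsMulCommutative ↥(Subgroup.centralizer (Q : Set G)) ∧
          ∀ x : G, x ∈ Subgroup.normalizer (Q : Set G) → x ∉ Subgroup.centralizer (Q : Set G) →
            orderOf x = 2 ∧ ∀ c : G, c ∈ Subgroup.centralizer (Q : Set G) → x * c * x⁻¹ = c⁻¹))) := by
  have hpp : p.Prime := Fact.out
  constructor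
  · intro hyp
    have hcyc : IsCyclic ↥(P : Subgroup G) := P_cyclic hp hyp P
    obtain ⟨g₀, hg₀⟩ := (Subgroup.isCyclic_iff_exists_zpowers_eq_top _).mp hcyc
    have hPz : (P : Subgroup G) = Subgroup.zpowers g₀ := hg₀.symm
    refine ⟨hcyc, ?_⟩
    by_cases hNC : Subgroup.normalizer ((P : Subgroup G) : Set G) =
        Subgroup.centralizer ((P : Subgroup G) : Set G)
    · exact Or.inl hNC
    · right
      have hex : ∃ x₀, x₀ ∈ Subgroup.normalizer ((P : Subgroup G) : Set G) ∧
          x₀ ∉ Subgroup.centralizer ((P : Subgroup G) : Set G) := by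
        by_contra hcon
        push Not at hcon
        exact hNC (le_antisymm hcon (Subgroup.centralizer_le_normalizer _))
      obtain ⟨x₀, hx₀N, hx₀C⟩ := hex
      have hA := claimA hp hyp P g₀ hPz
      have hinv₀ := hA x₀ hx₀N hx₀C
      refine ⟨?_, ?_⟩
      · rw [Subgroup.relIndex_eq_two_iff]
        refine ⟨x₀, hx₀N, fun b hb => ?_⟩
        by_cases hbC : b ∈ Subgroup.centralizer ((P : Subgroup G) : Set G)
        · refine Or.inr ⟨hbC, fun h => hx₀C ?_⟩
          have h3 := Subgroup.mul_mem _ (Subgroup.inv_mem _ hbC) h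
          rwa [inv_mul_cancel_left] at h3
        · refine Or.inl ⟨?_, hbC⟩
          rw [Subgroup.mem_centralizer_iff]
          intro h hh
          have h3 := hA b hb hbC
          have h4 : b * x₀ * h * (b * x₀)⁻¹ = h := by
            have e1 : b * x₀ * h * (b * x₀)⁻¹ = b * (x₀ * h * x₀⁻¹) * b⁻¹ := by group
            rw [e1, hinv₀ h hh, h3 h⁻¹ (Subgroup.inv_mem _ hh), inv_inv]
          exact (mul_inv_eq_iff_eq_mul.mp h4).symm
      · intro Q hQP hQcard
        have hQp : IsPGroup p ↥Q := IsPGroup.of_card (n := 1) (by rw [hQcard, pow_one])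
        obtain ⟨q, hqQ, hq1⟩ : ∃ q ∈ Q, q ≠ 1 := by
          by_contra hcon
          push Not at hcon
          have hbot : Q = ⊥ := (Subgroup.eq_bot_iff_forall Q).mpr hcon
          rw [hbot, Subgroup.card_bot] at hQcard
          exact hpp.one_lt.ne hQcard
        have hodd : ∀ g ∈ (P : Subgroup G), g * g = 1 → g = 1 := by
          intro g hg hgg
          obtain ⟨j, hj⟩ := pel_of_mem P.isPGroup' hg
          exact eq_one_of_sq hpp hp hj hgg
        have hx₀NQ : x₀ ∈ Subgroup.normalizer (Q : Set G) :=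
          Subgroup.mem_normalizer_fintype (fun n hn => by
            rw [hinv₀ n (hQP hn)]; exact Subgroup.inv_mem _ hn)
        have hx₀CQ : x₀ ∉ Subgroup.centralizer (Q : Set G) := by
          intro h
          have h3 := (Subgroup.mem_centralizer_iff.mp h) q hqQ
          have h4 := hinv₀ q (hQP hqQ)
          rw [← h3, mul_inv_cancel_right] at h4
          apply hq1
          apply hodd q (hQP hqQ)
          have h5 : q * q = q * q⁻¹ := by rw [← h4]
          rw [h5, mul_inv_cancel]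
        have hB : ∀ x, x ∈ Subgroup.normalizer (Q : Set G) →
            x ∉ Subgroup.centralizer (Q : Set G) → orderOf x = 2 := by
          intro x hxN hxC
          obtain ⟨e, m, hm, hco, hu, hs, hsord⟩ := decomp hpp x
          obtain ⟨s, hsd⟩ : ∃ s, s = x ^ (p ^ e) := ⟨_, rfl⟩
          obtain ⟨u, hud⟩ : ∃ u, u = x ^ m := ⟨_, rfl⟩
          rw [← hsd] at hs hsord
          rw [← hud] at hu
          have hsN : s ∈ Subgroup.normalizer (Q : Set G) := by
            rw [hsd]; exact Subgroup.pow_mem _ hxN _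
          have huN : u ∈ Subgroup.normalizer (Q : Set G) := by
            rw [hud]; exact Subgroup.pow_mem _ hxN _
          have hsu : s * u = u * s := by
            rw [hsd, hud, ← pow_add, ← pow_add, add_comm]
          have hTp : IsPGroup p ↥(Subgroup.zpowers u ⊔ Q) :=
            IsPGroup.to_sup_of_normal_right' (pgroup_zpowers u e hu) hQp
              (Subgroup.zpowers_le.mpr huN)
          have huT : u ∈ Subgroup.zpowers u ⊔ Q :=
            (le_sup_left : Subgroup.zpowers u ≤ Subgroup.zpowers u ⊔ Q) (Subgroup.mem_zpowers u)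
          have hQT : Q ≤ Subgroup.zpowers u ⊔ Q := le_sup_right
          have huC : u ∈ Subgroup.centralizer (Q : Set G) := by
            rw [Subgroup.mem_centralizer_iff]
            intro h hh
            exact pgroup_comm P g₀ hPz _ hTp (hQT hh) huT
          have hsC : s ∉ Subgroup.centralizer (Q : Set G) := by
            intro h
            apply hxC
            refine mem_of_cop hco ?_ ?_
            · rw [← hsd]; exact h
            · rw [← hud]; exact huC
          rcases hyp_apply hp hyp Q hQp s hsN hsord with h1 | ⟨h1, h2⟩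
          · exfalso
            apply hsC
            rw [Subgroup.mem_centralizer_iff]
            intro h hh
            exact (h1 h hh).symm
          · have hsT : s ∈ Subgroup.normalizer ((Subgroup.zpowers u ⊔ Q : Subgroup G) : Set G) := by
              rw [← Subn.cj_eq_iff]
              unfold Subn.cj
              rw [Subgroup.map_sup]
              have e1 : (Subgroup.zpowers u).map (MulAut.conj s).toMonoidHom =
                  Subgroup.zpowers u := by
                rw [MonoidHom.map_zpowers]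
                congr 1
                show s * u * s⁻¹ = u
                rw [hsu, mul_inv_cancel_right]
              have e2 : Q.map (MulAut.conj s).toMonoidHom = Q := Subn.cj_eq_iff.mpr hsN
              rw [e1, e2]
            rcases hyp_apply hp hyp _ hTp s hsT hsord with h3 | ⟨h3, h4⟩
            · exfalso
              have h5 := h3 q (hQT hqQ)
              have h6 := h2 q hqQ
              rw [h5, mul_inv_cancel_right] at h6
              apply hq1
              apply hodd q (hQP hqQ)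
              have h7 : q * q = q * q⁻¹ := by rw [← h6]
              rw [h7, mul_inv_cancel]
            · have h5 := h4 u huT
              rw [hsu, mul_inv_cancel_right] at h5
              have h6 : u * u = 1 := by
                have h7 : u * u = u * u⁻¹ := by rw [← h5]
                rw [h7, mul_inv_cancel]
              have hu1 : u = 1 := eq_one_of_sq hpp hp hu h6
              have hxord : ¬ p ∣ orderOf x := by
                intro h
                apply hm
                exact h.trans (orderOf_dvd_of_pow_eq_one (by rw [← hud]; exact hu1))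
              rcases hyp_apply hp hyp Q hQp x hxN hxord with h8 | ⟨h8, -⟩
              · exfalso
                apply hxC
                rw [Subgroup.mem_centralizer_iff]
                intro h hh
                exact (h8 h hh).symm
              · exact h8
        have hC : ∀ x, x ∈ Subgroup.normalizer (Q : Set G) →
            x ∉ Subgroup.centralizer (Q : Set G) →
            ∀ c ∈ Subgroup.centralizer (Q : Set G), x * c * x⁻¹ = c⁻¹ := by
          intro x hxN hxC c hc
          have hxcN : x * c ∈ Subgroup.normalizer (Q : Set G) :=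
            Subgroup.mul_mem _ hxN (Subgroup.centralizer_le_normalizer _ hc)
          have hxcC : x * c ∉ Subgroup.centralizer (Q : Set G) := by
            intro h
            apply hxC
            have h3 := Subgroup.mul_mem _ h (Subgroup.inv_mem _ hc)
            rwa [mul_inv_cancel_right] at h3
          have h1 : x * x = 1 := by rw [← pow_two, ← hB x hxN hxC, pow_orderOf_eq_one]
          have h2 : x * c * (x * c) = 1 := by
            rw [← pow_two, ← hB (x * c) hxcN hxcC, pow_orderOf_eq_one]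
          have h3 : x⁻¹ = x := inv_eq_of_mul_eq_one_right h1
          rw [h3]
          apply eq_inv_of_mul_eq_one_left
          rw [mul_assoc (x * c) x c]
          exact h2
        refine ⟨?_, ?_⟩
        · rw [isMulCommutative_iff]
          intro a b
          have ha := hC x₀ hx₀NQ hx₀CQ a.1 a.2
          have hb := hC x₀ hx₀NQ hx₀CQ b.1 b.2
          have hab := hC x₀ hx₀NQ hx₀CQ (a.1 * b.1) (Subgroup.mul_mem _ a.2 b.2)
          have e1 : x₀ * (a.1 * b.1) * x₀⁻¹ = (x₀ * a.1 * x₀⁻¹) * (x₀ * b.1 * x₀⁻¹) := by group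
          rw [hab, ha, hb, mul_inv_rev] at e1
          have e2 := congrArg Inv.inv e1
          rw [mul_inv_rev, mul_inv_rev, inv_inv, inv_inv] at e2
          exact Subtype.ext e2
        · intro x hxN hxC
          exact ⟨hB x hxN hxC, hC x hxN hxC⟩
  · rintro ⟨hcyc, hcase⟩
    have hcyc' : IsCyclic ↥(P : Subgroup G) := hcyc
    obtain ⟨g₀, hg₀⟩ := (Subgroup.isCyclic_iff_exists_zpowers_eq_top _).mp hcyc'
    have hPz : (P : Subgroup G) = Subgroup.zpowers g₀ := hg₀.symm
    have hK := key_all P g₀ hPz hcase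
    intro H h1 h2
    exact final hp P g₀ hPz hK H h1 h2

end Cfsg.Agent.S4082
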