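import Cfsg.Statements.S4083
import Mathlib
import Cfsg.Agent.S4082
import Cfsg.Agent.Helper9.Dihedral
import Cfsg.Agent.Helper12.A4

set_option autoImplicit false
set_option linter.style.haveILetI false
open Cfsg

namespace Cfsg.Agent.S4083

open Cfsg.Agent.Helper15
open Cfsg.Agent.S4082 (mem_of_cop pel_of_mem comm_of_zpowers decomp sylow_facts pgroup_cyclic)

theorem eq_one_of_two_odd {G : Type*} [Group G] {g : G} {i k : ℕ} (h1 : g ^ (2 ^ i) = 1)
    (h2 : g ^ k = 1) (hk : ¬ 2 ∣ k) : g = 1 := by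
  have hco : Nat.Coprime (2 ^ i) k :=
    Nat.Coprime.pow_left i ((Nat.Prime.coprime_iff_not_dvd Nat.prime_two).mpr hk)
  have h3 : g ∈ (⊥ : Subgroup G) :=
    mem_of_cop hco (by rw [h1]; exact Subgroup.one_mem _) (by rw [h2]; exact Subgroup.one_mem _)
  exact Subgroup.mem_bot.mp h3

theorem zmod_two_unique (N : ℕ) [NeZero N] (j j' : ZMod N) (h1 : j + j = 0) (h2 : j ≠ 0)
    (h3 : j' + j' = 0) (h4 : j' ≠ 0) : j = j' := by
  have key : ∀ i : ZMod N, i + i = 0 → i ≠ 0 → 2 * i.val = N := by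
    intro i hi hi0
    have h5 : ((2 * i.val : ℕ) : ZMod N) = 0 := by
      rw [Nat.cast_mul, ZMod.natCast_zmod_val, Nat.cast_ofNat, two_mul]; exact hi
    have h6 : N ∣ 2 * i.val := (ZMod.natCast_eq_zero_iff _ _).mp h5
    have h7 : i.val < N := ZMod.val_lt i
    have h8 : i.val ≠ 0 := fun h => hi0 ((ZMod.val_eq_zero i).mp h)
    obtain ⟨t, ht⟩ := h6
    rcases t with _ | _ | t
    · omega
    · omega
    · exfalso
      have h9 : N * 2 ≤ N * (t + 1 + 1) := Nat.mul_le_mul_left N (by omega)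
      omega
  have e1 := key j h1 h2
  have e2 := key j' h3 h4
  exact ZMod.val_injective N (by omega)

theorem a4_noncomm : ∃ s t : alternatingGroup (Fin 4), s * t ≠ t * s := by
  refine ⟨⟨Equiv.swap 0 1 * Equiv.swap 1 2, ?_⟩, ⟨Equiv.swap 0 1 * Equiv.swap 2 3, ?_⟩, ?_⟩
  · rw [Equiv.Perm.mem_alternatingGroup, Equiv.Perm.sign_mul,
      Equiv.Perm.sign_swap (by decide), Equiv.Perm.sign_swap (by decide)]
    decide
  · rw [Equiv.Perm.mem_alternatingGroup, Equiv.Perm.sign_mul,
      Equiv.Perm.sign_swap (by decide), Equiv.Perm.sign_swap (by decide)]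
    decide
  · intro h
    have h2 : (Equiv.swap (0 : Fin 4) 1 * Equiv.swap 1 2) * (Equiv.swap 0 1 * Equiv.swap 2 3) =
        (Equiv.swap 0 1 * Equiv.swap 2 3) * (Equiv.swap (0 : Fin 4) 1 * Equiv.swap 1 2) :=
      congrArg Subtype.val h
    exact absurd h2 (by decide)

theorem a4_card : Nat.card (alternatingGroup (Fin 4)) = 12 := by
  rw [nat_card_alternatingGroup, Nat.card_fin]
  rfl

theorem comm_of_sq {G : Type*} [Group G] {a b : G} (ha : a * a = 1) (hb : b * b = 1)
    (hab : (a * b) * (a * b) = 1) : a * b = b * a := by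
  have h1 : a⁻¹ = a := inv_eq_of_mul_eq_one_right ha
  have h2 : b⁻¹ = b := inv_eq_of_mul_eq_one_right hb
  have h3 : (a * b)⁻¹ = a * b := inv_eq_of_mul_eq_one_right hab
  rw [mul_inv_rev, h1, h2] at h3
  exact h3.symm

theorem four_not_le_zpowers {G : Type*} [Group G] [Finite G] (K : Subgroup G)
    (hK4 : Nat.card K = 4) (hexp : ∀ k ∈ K, k ^ 2 = 1) (g : G) (h : K ≤ Subgroup.zpowers g) :
    False := by
  obtain ⟨b, hb⟩ := Helper9.exists_zpowers_eq_of_le K g h
  have hbK : b ∈ K := by rw [hb]; exact Subgroup.mem_zpowers b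
  have h2 : orderOf b ∣ 2 := orderOf_dvd_of_pow_eq_one (hexp b hbK)
  have h1 : orderOf b = 4 := by rw [← Nat.card_zpowers, ← hb, hK4]
  rw [h1] at h2
  exact absurd (Nat.le_of_dvd (by norm_num) h2) (by norm_num)

/-- The centraliser condition, from the hypothesis on subgroups. -/
theorem cent_eq {G : Type*} [Group G] [Finite G]
    (hyp : ∀ H : Subgroup G, (∀ S : Sylow 2 ↥H, (S : Subgroup ↥H).Normal) →
        (∀ (S : Sylow 2 ↥H) [(S : Subgroup ↥H).Normal], IsCyclic (↥H ⧸ (S : Subgroup ↥H))) →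
        IsCyclic H ∨ (∃ n : ℕ, Nonempty (H ≃* DihedralGroup (2 ^ n))) ∨
          Nonempty (H ≃* alternatingGroup (Fin 4)))
    (K : Subgroup G) (hK4 : Nat.card K = 4) (hexp : ∀ k ∈ K, k ^ 2 = 1) :
    Subgroup.centralizer (K : Set G) = K := by
  have hKab : ∀ a ∈ K, ∀ b ∈ K, a * b = b * a := by
    intro a ha b hb
    apply comm_of_sq
    · rw [← pow_two]; exact hexp a ha
    · rw [← pow_two]; exact hexp b hb
    · rw [← pow_two]; exact hexp _ (K.mul_mem ha hb)
  have hKC : K ≤ Subgroup.centralizer (K : Set G) := by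
    intro a ha
    rw [Subgroup.mem_centralizer_iff]
    intro h hh
    exact hKab h hh a ha
  have hK2 : IsPGroup 2 ↥K := IsPGroup.of_card (n := 2) (by rw [hK4]; norm_num)
  have hodd : ∀ c ∈ Subgroup.centralizer (K : Set G), ¬ 2 ∣ orderOf c → c = 1 := by
    intro c hc hco
    have hcN : c ∈ Subgroup.normalizer (K : Set G) := Subgroup.centralizer_le_normalizer _ hc
    obtain ⟨h1, h2⟩ := sylow_facts (p := 2) K hK2 c hcN hco (K ⊔ Subgroup.zpowers c) rfl
    have hKH : K ≤ K ⊔ Subgroup.zpowers c := le_sup_left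
    have hcH : c ∈ K ⊔ Subgroup.zpowers c :=
      (le_sup_right : Subgroup.zpowers c ≤ K ⊔ Subgroup.zpowers c) (Subgroup.mem_zpowers c)
    have hcC : Subgroup.zpowers c ≤ Subgroup.centralizer (K : Set G) := Subgroup.zpowers_le.mpr hc
    have hab : ∀ a ∈ K ⊔ Subgroup.zpowers c, ∀ b ∈ K ⊔ Subgroup.zpowers c, a * b = b * a := by
      have e1 : K ≤ Subgroup.centralizer ((K ⊔ Subgroup.zpowers c : Subgroup G) : Set G) :=
        Subgroup.le_centralizer_iff.mp (sup_le hKC hcC)
      have e2 : Subgroup.zpowers c ≤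
          Subgroup.centralizer ((Subgroup.zpowers c : Subgroup G) : Set G) := by
        intro u hu
        rw [Subgroup.mem_centralizer_iff]
        intro v hv
        exact comm_of_zpowers c (SetLike.mem_coe.mp hv) hu
      have e3 : Subgroup.zpowers c ≤
          Subgroup.centralizer ((K ⊔ Subgroup.zpowers c : Subgroup G) : Set G) :=
        Subgroup.le_centralizer_iff.mp (sup_le (Subgroup.le_centralizer_iff.mp hcC) e2)
      intro a ha b hb
      exact (Subgroup.mem_centralizer_iff.mp ((sup_le e1 e3) hb)) a ha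
    rcases hyp _ h1 h2 with hcyc | ⟨n, ⟨e⟩⟩ | ⟨⟨e⟩⟩
    · exfalso
      obtain ⟨g, hg⟩ := (Subgroup.isCyclic_iff_exists_zpowers_eq_top _).mp hcyc
      exact four_not_le_zpowers K hK4 hexp g (by rw [hg]; exact hKH)
    · have hcard : Nat.card ↥(K ⊔ Subgroup.zpowers c) = 2 ^ (n + 1) := by
        rw [Nat.card_congr e.toEquiv, DihedralGroup.nat_card, pow_succ, mul_comm]
      have h3 : orderOf c ∣ 2 ^ (n + 1) := by
        rw [← hcard]; exact Subgroup.orderOf_dvd_natCard _ hcH
      obtain ⟨j, -, hj⟩ := (Nat.dvd_prime_pow Nat.prime_two).mp h3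
      cases j with
      | zero => rw [pow_zero] at hj; exact orderOf_eq_one_iff.mp hj
      | succ j =>
        exact absurd (by rw [hj]; exact dvd_pow_self 2 (Nat.succ_ne_zero j)) hco
    · exfalso
      obtain ⟨s, t, hst⟩ := a4_noncomm
      apply hst
      have h3 : e.symm s * e.symm t = e.symm t * e.symm s :=
        Subtype.ext (hab _ (e.symm s).2 _ (e.symm t).2)
      have h4 := congrArg e h3
      rw [map_mul, map_mul, e.apply_symm_apply, e.apply_symm_apply] at h4
      exact h4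
  have hC2 : IsPGroup 2 ↥(Subgroup.centralizer (K : Set G)) := by
    intro ⟨c, hc⟩
    obtain ⟨e, m, hm, hco, hu, hs, hsord⟩ := decomp Nat.prime_two c
    have h1 : c ^ (2 ^ e) = 1 := hodd _ (Subgroup.pow_mem _ hc _) hsord
    exact ⟨e, Subtype.ext (by rw [Subgroup.coe_pow, Subgroup.coe_one]; exact h1)⟩
  have h1' : ¬ 2 ∣ orderOf (1 : G) := by rw [orderOf_one]; norm_num
  obtain ⟨h2, h3⟩ := sylow_facts (p := 2) (Subgroup.centralizer (K : Set G)) hC2 1
    (Subgroup.one_mem _) h1' (Subgroup.centralizer (K : Set G))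
    (by rw [Subgroup.zpowers_one_eq_bot, sup_bot_eq])
  rcases hyp _ h2 h3 with hcyc | ⟨n, ⟨e⟩⟩ | ⟨⟨e⟩⟩
  · exfalso
    obtain ⟨g, hg⟩ := (Subgroup.isCyclic_iff_exists_zpowers_eq_top _).mp hcyc
    exact four_not_le_zpowers K hK4 hexp g (by rw [hg]; exact hKC)
  · obtain ⟨k₁, hk₁K, hk₁1⟩ : ∃ k₁ ∈ K, k₁ ≠ 1 := by
      by_contra hcon
      push Not at hcon
      have hbot : K = ⊥ := (Subgroup.eq_bot_iff_forall K).mpr hcon
      rw [hbot, Subgroup.card_bot] at hK4
      omega
    obtain ⟨k₂, hk₂K, hk₂1, hk₂k⟩ : ∃ k₂ ∈ K, k₂ ≠ 1 ∧ k₂ ≠ k₁ := by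
      by_contra hcon
      push Not at hcon
      apply four_not_le_zpowers K hK4 hexp k₁
      intro k hk
      by_cases h : k = 1
      · rw [h]; exact Subgroup.one_mem _
      · rw [hcon k hk h]; exact Subgroup.mem_zpowers k₁
    have hcen : ∀ (k : G) (hk : k ∈ K) (d : DihedralGroup (2 ^ n)),
        e ⟨k, hKC hk⟩ * d = d * e ⟨k, hKC hk⟩ := by
      intro k hk d
      have h4 : k * (e.symm d : G) = (e.symm d : G) * k :=
        (Subgroup.mem_centralizer_iff.mp (e.symm d).2) k hk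
      have h5 : (⟨k, hKC hk⟩ : ↥(Subgroup.centralizer (K : Set G))) * e.symm d =
          e.symm d * ⟨k, hKC hk⟩ := Subtype.ext h4
      have h6 := congrArg e h5
      rw [map_mul, map_mul, e.apply_symm_apply] at h6
      exact h6
    have hsq : ∀ (k : G) (hk : k ∈ K), e ⟨k, hKC hk⟩ * e ⟨k, hKC hk⟩ = 1 := by
      intro k hk
      have h4 : (⟨k, hKC hk⟩ : ↥(Subgroup.centralizer (K : Set G))) * ⟨k, hKC hk⟩ = 1 :=
        Subtype.ext (by rw [Subgroup.coe_mul, Subgroup.coe_one, ← pow_two]; exact hexp k hk)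
      rw [← map_mul, h4, map_one]
    have hinj : ∀ (k k' : G) (hk : k ∈ K) (hk' : k' ∈ K),
        e ⟨k, hKC hk⟩ = e ⟨k', hKC hk'⟩ → k = k' := by
      intro k k' hk hk' h
      exact congrArg Subtype.val (e.injective h)
    have hone : ∀ (k : G) (hk : k ∈ K), e ⟨k, hKC hk⟩ = 1 → k = 1 := by
      intro k hk h
      have h4 := e.injective (h.trans (map_one e).symm)
      exact congrArg Subtype.val h4
    have htwo : (1 : ZMod (2 ^ n)) + 1 = 0 := by
      have hrefl : ∀ (k : G) (hk : k ∈ K) (i : ZMod (2 ^ n)),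
          e ⟨k, hKC hk⟩ = DihedralGroup.sr i → (1 : ZMod (2 ^ n)) + 1 = 0 := by
        intro k hk i hi
        have h4 := hcen k hk (DihedralGroup.r 1)
        rw [hi, DihedralGroup.sr_mul_r, DihedralGroup.r_mul_sr] at h4
        have h5 : i + 1 = i - 1 := DihedralGroup.sr.inj h4
        have h6 : (1 : ZMod (2 ^ n)) + 1 = (i + 1) - (i - 1) := by ring
        rw [h6, h5, sub_self]
      cases h₁ : e ⟨k₁, hKC hk₁K⟩ with
      | sr i => exact hrefl k₁ hk₁K i h₁
      | r j₁ =>
        cases h₂ : e ⟨k₂, hKC hk₂K⟩ with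
        | sr i => exact hrefl k₂ hk₂K i h₂
        | r j₂ =>
          exfalso
          have hj₁ : j₁ + j₁ = 0 := by
            have h4 := hsq k₁ hk₁K
            rw [h₁, DihedralGroup.r_mul_r, DihedralGroup.one_def] at h4
            exact DihedralGroup.r.inj h4
          have hj₂ : j₂ + j₂ = 0 := by
            have h4 := hsq k₂ hk₂K
            rw [h₂, DihedralGroup.r_mul_r, DihedralGroup.one_def] at h4
            exact DihedralGroup.r.inj h4
          have hj₁0 : j₁ ≠ 0 := by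
            intro h0
            apply hk₁1
            apply hone k₁ hk₁K
            rw [h₁, h0, DihedralGroup.one_def]
          have hj₂0 : j₂ ≠ 0 := by
            intro h0
            apply hk₂1
            apply hone k₂ hk₂K
            rw [h₂, h0, DihedralGroup.one_def]
          have h5 := zmod_two_unique (2 ^ n) j₁ j₂ hj₁ hj₁0 hj₂ hj₂0
          apply hk₂k
          apply hinj k₂ k₁ hk₂K hk₁K
          rw [h₁, h₂, h5]
    have hdvd : 2 ^ n ∣ 2 := by
      apply (ZMod.natCast_eq_zero_iff 2 (2 ^ n)).mp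
      have h2' : (2 : ZMod (2 ^ n)) = 0 :=
        (one_add_one_eq_two (R := ZMod (2 ^ n))).symm.trans htwo
      exact_mod_cast h2'
    have hle : 2 ^ n ≤ 2 := Nat.le_of_dvd (by norm_num) hdvd
    have hcardC : Nat.card ↥(Subgroup.centralizer (K : Set G)) ≤ 4 := by
      rw [Nat.card_congr e.toEquiv, DihedralGroup.nat_card]; omega
    exact (Subgroup.eq_of_le_of_card_ge hKC (by rw [hK4]; exact hcardC)).symm
  · exfalso
    obtain ⟨k, hk⟩ := IsPGroup.iff_card.mp hC2
    rw [Nat.card_congr e.toEquiv, a4_card] at hk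
    have h4 : 3 ∣ 2 ^ k := ⟨4, by rw [← hk]⟩
    exact absurd (Nat.le_of_dvd (by norm_num) (Nat.Prime.dvd_of_dvd_pow Nat.prime_three h4))
      (by norm_num)

/-- Transfer of the dihedral structure and centraliser condition to any `2`-subgroup. -/
theorem transfer {G : Type*} [Group G] [Finite G] (P : Sylow 2 G) (n : ℕ)
    (e : ↥(P : Subgroup G) ≃* DihedralGroup (2 ^ n))
    (hcent : ∀ K : Subgroup G, K ≤ P → Nat.card K = 4 → (∀ k ∈ K, k ^ 2 = 1) →
      Subgroup.centralizer (K : Set G) = K)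
    (S : Subgroup G) (hS : IsPGroup 2 S) :
    ∃ a₁ : G, (∀ s ∈ S, s ∉ Subgroup.zpowers a₁ → s * s = 1) ∧
      (∀ s ∈ S, ∀ t ∈ S, s ∉ Subgroup.zpowers a₁ → t ∉ Subgroup.zpowers a₁ →
        s * t ∈ Subgroup.zpowers a₁) ∧
      (∀ K : Subgroup G, K ≤ S → Nat.card K = 4 → (∀ k ∈ K, k ^ 2 = 1) →
        Subgroup.centralizer (K : Set G) = K) := by
  obtain ⟨a, haP, hinv, hmul⟩ :=
    Helper9.dihlike_of_equiv (P : Subgroup G) (2 ^ n) (by positivity) e
  obtain ⟨P', hP'⟩ := hS.exists_le_sylow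
  obtain ⟨g, hg⟩ := MulAction.exists_smul_eq G P P'
  have hconj : ∀ s ∈ S, g⁻¹ * s * g ∈ (P : Subgroup G) := by
    intro s hs
    have h1 : s ∈ (P' : Subgroup G) := hP' hs
    rw [← hg, Sylow.coe_subgroup_smul, Subn.smul_eq_cj, Subn.mem_cj] at h1
    exact h1
  have hz : ∀ s : G, g⁻¹ * s * g ∈ Subgroup.zpowers a → s ∈ Subgroup.zpowers (g * a * g⁻¹) := by
    intro s hs
    obtain ⟨t, ht⟩ := Subgroup.mem_zpowers_iff.mp hs
    refine Subgroup.mem_zpowers_iff.mpr ⟨t, ?_⟩
    rw [conj_zpow, ht]; group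
  refine ⟨g * a * g⁻¹, ?_, ?_, ?_⟩
  · intro s hs hsa
    have h1 : g⁻¹ * s * g ∉ Subgroup.zpowers a := fun h => hsa (hz s h)
    have h2 := hinv _ (hconj s hs) h1
    have e1 : s * s = g * ((g⁻¹ * s * g) * (g⁻¹ * s * g)) * g⁻¹ := by group
    rw [e1, h2, mul_one, mul_inv_cancel]
  · intro s hs t ht hsa hta
    have h1 : g⁻¹ * s * g ∉ Subgroup.zpowers a := fun h => hsa (hz s h)
    have h2 : g⁻¹ * t * g ∉ Subgroup.zpowers a := fun h => hta (hz t h)
    have h3 := hmul _ (hconj s hs) _ (hconj t ht) h1 h2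
    apply hz
    have e1 : g⁻¹ * (s * t) * g = (g⁻¹ * s * g) * (g⁻¹ * t * g) := by group
    rw [e1]; exact h3
  · intro K hKS hK4 hexp
    have hK0P : Subn.cj g⁻¹ K ≤ (P : Subgroup G) := by
      intro k hk
      rw [Subn.mem_cj, inv_inv] at hk
      have h1 := hconj _ (hKS hk)
      have e1 : g⁻¹ * (g * k * g⁻¹) * g = k := by group
      rwa [e1] at h1
    have hK0card : Nat.card ↥(Subn.cj g⁻¹ K) = 4 := by
      rw [Subn.cj, Subgroup.card_map_of_injective (MulAut.conj g⁻¹).injective, hK4]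
    have hK0exp : ∀ k ∈ Subn.cj g⁻¹ K, k ^ 2 = 1 := by
      intro k hk
      rw [Subn.mem_cj, inv_inv] at hk
      have h1 := hexp _ hk
      rw [conj_pow] at h1
      have e1 : k ^ 2 = g⁻¹ * (g * k ^ 2 * g⁻¹) * g := by group
      rw [e1, h1, mul_one, inv_mul_cancel]
    have h0 := hcent _ hK0P hK0card hK0exp
    apply le_antisymm
    · intro c hc
      have h1 : g⁻¹ * c * g ∈ Subgroup.centralizer ((Subn.cj g⁻¹ K : Subgroup G) : Set G) := by
        rw [Subgroup.mem_centralizer_iff]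
        intro k hk
        have hk' : g * k * g⁻¹ ∈ K := by
          have h5 := SetLike.mem_coe.mp hk
          rw [Subn.mem_cj, inv_inv] at h5
          exact h5
        have h2 := (Subgroup.mem_centralizer_iff.mp hc) _ hk'
        have e1 : k * (g⁻¹ * c * g) = g⁻¹ * ((g * k * g⁻¹) * c) * g := by group
        have e2 : g⁻¹ * c * g * k = g⁻¹ * (c * (g * k * g⁻¹)) * g := by group
        rw [e1, e2, h2]
      rw [h0, Subn.mem_cj, inv_inv] at h1
      have e3 : g * (g⁻¹ * c * g) * g⁻¹ = c := by group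
      rwa [e3] at h1
    · intro a' ha'
      rw [Subgroup.mem_centralizer_iff]
      intro h hh
      apply comm_of_sq
      · rw [← pow_two]; exact hexp h hh
      · rw [← pow_two]; exact hexp a' ha'
      · rw [← pow_two]; exact hexp _ (K.mul_mem hh ha')

theorem struct {G : Type*} [Group G] [Finite G] (S : Subgroup G) (a₁ : G)
    (hmul : ∀ s ∈ S, ∀ t ∈ S, s ∉ Subgroup.zpowers a₁ → t ∉ Subgroup.zpowers a₁ →
      s * t ∈ Subgroup.zpowers a₁) :
    (∃ c : G, Subgroup.zpowers c = S) ∨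
    (∃ s b : G, s ∈ S ∧ s ∉ Subgroup.zpowers a₁ ∧ b ≠ 1 ∧
      S ⊓ Subgroup.zpowers a₁ = Subgroup.zpowers b) := by
  by_cases hSa : S ≤ Subgroup.zpowers a₁
  · left
    obtain ⟨c, hc⟩ := Helper9.exists_zpowers_eq_of_le S a₁ hSa
    exact ⟨c, hc.symm⟩
  · obtain ⟨s, hsS, hsa⟩ := SetLike.not_le_iff_exists.mp hSa
    obtain ⟨b, hb⟩ := Helper9.exists_zpowers_eq_of_le (S ⊓ Subgroup.zpowers a₁) a₁ inf_le_right
    by_cases hb1 : b = 1
    · left
      refine ⟨s, le_antisymm (Subgroup.zpowers_le.mpr hsS) ?_⟩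
      have hbot : S ⊓ Subgroup.zpowers a₁ = ⊥ := by
        rw [hb, hb1, Subgroup.zpowers_one_eq_bot]
      intro t ht
      by_cases hta : t ∈ Subgroup.zpowers a₁
      · have h1 : t ∈ S ⊓ Subgroup.zpowers a₁ := Subgroup.mem_inf.mpr ⟨ht, hta⟩
        rw [hbot, Subgroup.mem_bot] at h1
        rw [h1]; exact Subgroup.one_mem _
      · have h1 : s * t ∈ S ⊓ Subgroup.zpowers a₁ :=
          Subgroup.mem_inf.mpr ⟨S.mul_mem hsS ht, hmul s hsS t ht hsa hta⟩
        rw [hbot, Subgroup.mem_bot] at h1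
        have h2 : t = s⁻¹ := (inv_eq_of_mul_eq_one_right h1).symm
        rw [h2]; exact Subgroup.inv_mem _ (Subgroup.mem_zpowers s)
    · right
      exact ⟨s, b, hsS, hsa, hb1, hb⟩

theorem dih_iso {G : Type*} [Group G] [Finite G] (S : Subgroup G) (hS2 : IsPGroup 2 S) (a₁ : G)
    (hinv : ∀ s ∈ S, s ∉ Subgroup.zpowers a₁ → s * s = 1)
    (hmul : ∀ s ∈ S, ∀ t ∈ S, s ∉ Subgroup.zpowers a₁ → t ∉ Subgroup.zpowers a₁ →
      s * t ∈ Subgroup.zpowers a₁)
    (s b : G) (hsS : s ∈ S) (hsa : s ∉ Subgroup.zpowers a₁) (hb1 : b ≠ 1)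
    (hb : S ⊓ Subgroup.zpowers a₁ = Subgroup.zpowers b) :
    ∃ j : ℕ, Nonempty (↥S ≃* DihedralGroup (2 ^ j)) := by
  have hbB : b ∈ S ⊓ Subgroup.zpowers a₁ := by rw [hb]; exact Subgroup.mem_zpowers b
  obtain ⟨hbS, hba⟩ := Subgroup.mem_inf.mp hbB
  have hss : s * s = 1 := hinv s hsS hsa
  have hs1 : s ≠ 1 := fun h => hsa (by rw [h]; exact Subgroup.one_mem _)
  have hsbS : s * b ∈ S := S.mul_mem hsS hbS
  have hsba : s * b ∉ Subgroup.zpowers a₁ := by
    intro h
    apply hsa
    have h1 := Subgroup.mul_mem _ h (Subgroup.inv_mem _ hba)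
    rwa [mul_inv_cancel_right] at h1
  have hsbsb : (s * b) * (s * b) = 1 := hinv _ hsbS hsba
  have hsb1 : s * b ≠ 1 := fun h => hsba (by rw [h]; exact Subgroup.one_mem _)
  have hne : s ≠ s * b := by
    intro h
    apply hb1
    have h5 : s * 1 = s * b := by rw [mul_one]; exact h
    exact (mul_left_cancel h5).symm
  have ho1 : orderOf s = 2 := orderOf_eq_prime (by rw [pow_two]; exact hss) hs1
  have ho2 : orderOf (s * b) = 2 := orderOf_eq_prime (by rw [pow_two]; exact hsbsb) hsb1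
  obtain ⟨ε⟩ := Cfsg.Agent.S0206.result s (s * b) ho1 ho2 hne
  have hprod : s * (s * b) = b := by rw [← mul_assoc, hss, one_mul]
  obtain ⟨j, hj⟩ := Helper9.exists_orderOf_eq_two_pow S hS2 b hbS
  rw [hprod, hj] at ε
  have hcl : Subgroup.closure ({s, s * b} : Set G) = S := by
    apply le_antisymm
    · rw [Subgroup.closure_le]
      intro x hx
      rcases hx with rfl | rfl
      · exact hsS
      · exact hsbS
    · have hs_mem : s ∈ Subgroup.closure ({s, s * b} : Set G) :=
        Subgroup.subset_closure (Set.mem_insert _ _)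
      have hsb_mem : s * b ∈ Subgroup.closure ({s, s * b} : Set G) :=
        Subgroup.subset_closure (Set.mem_insert_of_mem _ rfl)
      have hb_mem : b ∈ Subgroup.closure ({s, s * b} : Set G) := by
        have h1 := Subgroup.mul_mem _ hs_mem hsb_mem
        rwa [hprod] at h1
      have hB : Subgroup.zpowers b ≤ Subgroup.closure ({s, s * b} : Set G) :=
        Subgroup.zpowers_le.mpr hb_mem
      intro t ht
      by_cases hta : t ∈ Subgroup.zpowers a₁
      · exact hB (by rw [← hb]; exact Subgroup.mem_inf.mpr ⟨ht, hta⟩)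
      · have h1 : s * t ∈ Subgroup.zpowers b := by
          rw [← hb]; exact Subgroup.mem_inf.mpr ⟨S.mul_mem hsS ht, hmul s hsS t ht hsa hta⟩
        have h2 := Subgroup.mul_mem _ hs_mem (hB h1)
        rwa [← mul_assoc, hss, one_mul] at h2
  exact ⟨j, ⟨(MulEquiv.subgroupCongr hcl.symm).trans ε⟩⟩

theorem exists_invol {G : Type*} [Group G] [Finite G] (S : Subgroup G) (hS2 : IsPGroup 2 S)
    (a₁ : G) (hinv : ∀ s ∈ S, s ∉ Subgroup.zpowers a₁ → s * s = 1)
    (s b : G) (hsS : s ∈ S) (hsa : s ∉ Subgroup.zpowers a₁) (hb1 : b ≠ 1)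
    (hb : S ⊓ Subgroup.zpowers a₁ = Subgroup.zpowers b) :
    ∃ z : G, z ∈ S ∧ z ∈ Subgroup.zpowers a₁ ∧ z ≠ 1 ∧ z * z = 1 ∧ z * s = s * z := by
  have hbB : b ∈ S ⊓ Subgroup.zpowers a₁ := by rw [hb]; exact Subgroup.mem_zpowers b
  obtain ⟨hbS, hba⟩ := Subgroup.mem_inf.mp hbB
  obtain ⟨j, hj⟩ := Helper9.exists_orderOf_eq_two_pow S hS2 b hbS
  have hj0 : j ≠ 0 := by
    intro h0
    rw [h0, pow_zero, orderOf_eq_one_iff] at hj
    exact hb1 hj
  obtain ⟨i, rfl⟩ : ∃ i, j = i + 1 := ⟨j - 1, by omega⟩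
  have hzS : b ^ (2 ^ i) ∈ S := S.pow_mem hbS _
  have hza : b ^ (2 ^ i) ∈ Subgroup.zpowers a₁ := Subgroup.pow_mem _ hba _
  have hz1 : b ^ (2 ^ i) ≠ 1 := by
    intro h
    have h3 := orderOf_dvd_of_pow_eq_one h
    rw [hj] at h3
    have h4 := Nat.le_of_dvd (pow_pos (by norm_num) i) h3
    have h5 : 2 ^ i < 2 ^ (i + 1) := Nat.pow_lt_pow_right (by norm_num) (Nat.lt_succ_self i)
    exact absurd h4 (not_le.mpr h5)
  have hzz : b ^ (2 ^ i) * b ^ (2 ^ i) = 1 := by
    rw [← pow_add, ← two_mul, ← pow_succ', ← hj, pow_orderOf_eq_one]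
  have hss : s * s = 1 := hinv s hsS hsa
  have hsz : s * b ^ (2 ^ i) ∉ Subgroup.zpowers a₁ := by
    intro h
    apply hsa
    have h1 := Subgroup.mul_mem _ h (Subgroup.inv_mem _ hza)
    rwa [mul_inv_cancel_right] at h1
  have h6 := hinv _ (S.mul_mem hsS hzS) hsz
  exact ⟨b ^ (2 ^ i), hzS, hza, hz1, hzz, (comm_of_sq hss hzz h6).symm⟩

theorem split_data {G : Type*} [Group G] [Finite G] {p : ℕ} [Fact p.Prime] (H : Subgroup G)
    (S₀ : Sylow p ↥H) [hS0n : (S₀ : Subgroup ↥H).Normal]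
    (hquot : IsCyclic (↥H ⧸ (S₀ : Subgroup ↥H))) :
    ∃ y₁ : ↥H, orderOf y₁ = (S₀ : Subgroup ↥H).index ∧ ¬ p ∣ orderOf y₁ := by
  have hpp : p.Prime := Fact.out
  obtain ⟨q, hq⟩ := IsCyclic.exists_generator (α := ↥H ⧸ (S₀ : Subgroup ↥H))
  obtain ⟨y₀, rfl⟩ := QuotientGroup.mk_surjective q
  have hk_ord : orderOf (y₀ : ↥H ⧸ (S₀ : Subgroup ↥H)) = (S₀ : Subgroup ↥H).index := by
    rw [orderOf_eq_card_of_forall_mem_zpowers hq, Subgroup.index_eq_card]
  have hkp : ¬ p ∣ (S₀ : Subgroup ↥H).index := S₀.not_dvd_index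
  obtain ⟨e, m, hm, hco, hu, hs, hsord⟩ := decomp hpp y₀
  obtain ⟨y₁, hy₁⟩ : ∃ y₁, y₁ = y₀ ^ (p ^ e) := ⟨_, rfl⟩
  rw [← hy₁] at hs hsord
  have hcop0 : (orderOf (y₀ : ↥H ⧸ (S₀ : Subgroup ↥H))).Coprime (p ^ e) := by
    rw [hk_ord]
    exact (Nat.Coprime.pow_left e ((Nat.Prime.coprime_iff_not_dvd hpp).mpr hkp)).symm
  have hmk : orderOf ((y₁ : ↥H) : ↥H ⧸ (S₀ : Subgroup ↥H)) = (S₀ : Subgroup ↥H).index := by
    rw [hy₁, QuotientGroup.mk_pow, Nat.Coprime.orderOf_pow hcop0, hk_ord]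
  have hy1k : orderOf y₁ = (S₀ : Subgroup ↥H).index := by
    apply Nat.dvd_antisymm
    · apply orderOf_dvd_of_pow_eq_one
      have h3 : y₁ ^ (S₀ : Subgroup ↥H).index ∈ (S₀ : Subgroup ↥H) := by
        rw [← QuotientGroup.eq_one_iff, QuotientGroup.mk_pow, ← hmk, pow_orderOf_eq_one]
      obtain ⟨j, hj⟩ := pel_of_mem S₀.isPGroup' h3
      have hco2 : Nat.Coprime m (p ^ j) :=
        (Nat.Coprime.pow_left j ((Nat.Prime.coprime_iff_not_dvd hpp).mpr hm)).symm
      have h4 : y₁ ^ (S₀ : Subgroup ↥H).index ∈ (⊥ : Subgroup ↥H) := by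
        refine mem_of_cop hco2 ?_ ?_
        · rw [← pow_mul, mul_comm, pow_mul, hs, one_pow]; exact Subgroup.one_mem _
        · rw [hj]; exact Subgroup.one_mem _
      exact Subgroup.mem_bot.mp h4
    · rw [← hmk]
      exact orderOf_map_dvd (QuotientGroup.mk' (S₀ : Subgroup ↥H)) y₁
  exact ⟨y₁, hy1k, hsord⟩

theorem cyc_case {G : Type*} [Group G] [Finite G] (H : Subgroup G) (S₀ : Sylow 2 ↥H)
    [hS0n : (S₀ : Subgroup ↥H).Normal] (y₁ : ↥H)
    (hy1k : orderOf y₁ = (S₀ : Subgroup ↥H).index)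
    (c : G) (hc : Subgroup.zpowers c = (S₀ : Subgroup ↥H).map H.subtype) : IsCyclic ↥H := by
  have hcS : c ∈ (S₀ : Subgroup ↥H).map H.subtype := by rw [← hc]; exact Subgroup.mem_zpowers c
  obtain ⟨c', hc', hcc⟩ := Subgroup.mem_map.mp hcS
  have hcc' : (c' : G) = c := hcc
  subst hcc'
  have hS0z : (S₀ : Subgroup ↥H) = Subgroup.zpowers c' := by
    apply le_antisymm
    · intro s hs
      have h3 : (s : G) ∈ Subgroup.zpowers (c' : G) := by
        rw [hc]; exact Subgroup.mem_map_of_mem H.subtype hs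
      obtain ⟨t, ht⟩ := Subgroup.mem_zpowers_iff.mp h3
      refine Subgroup.mem_zpowers_iff.mpr ⟨t, Subtype.ext ?_⟩
      rw [Subgroup.coe_zpow]; exact ht
    · exact Subgroup.zpowers_le.mpr hc'
  obtain ⟨n, hn⟩ := IsPGroup.iff_card.mp S₀.isPGroup'
  have hord : orderOf c' = 2 ^ n := by rw [← hn, hS0z, Nat.card_zpowers]
  have hkp : ¬ 2 ∣ (S₀ : Subgroup ↥H).index := S₀.not_dvd_index
  have hnorm : (y₁ : G) * (c' : G) * (y₁ : G)⁻¹ ∈ Subgroup.zpowers (c' : G) := by
    rw [hc]
    exact Subgroup.mem_map_of_mem H.subtype (hS0n.conj_mem c' hc' y₁)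
  have hyodd : Odd (orderOf (y₁ : G)) := by
    rw [Subgroup.orderOf_coe, hy1k]
    exact Nat.not_even_iff_odd.mp (fun h => hkp (even_iff_two_dvd.mp h))
  have hcomm := Helper9.comm_of_conj_mem_zpowers (y₁ : G) (c' : G) n
    (by rw [Subgroup.orderOf_coe]; exact hord) hyodd hnorm
  have hc2 : Commute c' y₁ := by
    show c' * y₁ = y₁ * c'
    exact (Subtype.ext hcomm).symm
  have hcop : (orderOf c').Coprime (orderOf y₁) := by
    rw [hord, hy1k]
    exact Nat.Coprime.pow_left n ((Nat.Prime.coprime_iff_not_dvd Nat.prime_two).mpr hkp)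
  apply isCyclic_of_orderOf_eq_card (c' * y₁)
  rw [hc2.orderOf_mul_eq_mul_orderOf_of_coprime hcop, hord, hy1k, ← hn, Subgroup.card_mul_index]

theorem final2 {G : Type*} [Group G] [Finite G] (H : Subgroup G)
    (h1 : ∀ S : Sylow 2 ↥H, (S : Subgroup ↥H).Normal)
    (h2 : ∀ (S : Sylow 2 ↥H) [(S : Subgroup ↥H).Normal], IsCyclic (↥H ⧸ (S : Subgroup ↥H)))
    (hT : ∀ S : Subgroup G, IsPGroup 2 S → (∃ c : G, Subgroup.zpowers c = S) ∨
      ∃ a₁ : G, (∀ s ∈ S, s ∉ Subgroup.zpowers a₁ → s * s = 1) ∧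
      (∀ s ∈ S, ∀ t ∈ S, s ∉ Subgroup.zpowers a₁ → t ∉ Subgroup.zpowers a₁ →
        s * t ∈ Subgroup.zpowers a₁) ∧
      (∀ K : Subgroup G, K ≤ S → Nat.card K = 4 → (∀ k ∈ K, k ^ 2 = 1) →
        Subgroup.centralizer (K : Set G) = K)) :
    IsCyclic H ∨ (∃ n : ℕ, Nonempty (H ≃* DihedralGroup (2 ^ n))) ∨
      Nonempty (H ≃* alternatingGroup (Fin 4)) := by
  obtain ⟨S₀⟩ : Nonempty (Sylow 2 ↥H) := inferInstance
  haveI hS0n : (S₀ : Subgroup ↥H).Normal := h1 S₀
  have hquot : IsCyclic (↥H ⧸ (S₀ : Subgroup ↥H)) := h2 S₀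
  obtain ⟨y₁, hy1k, hy1odd⟩ := split_data H S₀ hquot
  obtain ⟨S, hSdef⟩ : ∃ S : Subgroup G, S = (S₀ : Subgroup ↥H).map H.subtype := ⟨_, rfl⟩
  have hS2 : IsPGroup 2 ↥S := by rw [hSdef]; exact S₀.isPGroup'.map _
  have hmemS : ∀ h : ↥H, (h : G) ∈ S ↔ h ∈ (S₀ : Subgroup ↥H) := by
    intro h
    rw [hSdef]
    constructor
    · intro hh
      obtain ⟨x, hx, hxe⟩ := Subgroup.mem_map.mp hh
      have h5 : x = h := Subtype.ext hxe
      rwa [← h5]
    · intro hh
      exact Subgroup.mem_map_of_mem H.subtype hh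
  have hSH : S ≤ H := by rw [hSdef]; exact Subgroup.map_subtype_le _
  have hynorm : ∀ q ∈ S, (y₁ : G) * q * (y₁ : G)⁻¹ ∈ S := by
    intro q hq
    have hqH : q ∈ H := hSH hq
    have h3 : (⟨q, hqH⟩ : ↥H) ∈ (S₀ : Subgroup ↥H) := (hmemS ⟨q, hqH⟩).mp hq
    have h4 := hS0n.conj_mem _ h3 y₁
    exact (hmemS _).mpr h4
  have hyodd : Odd (orderOf (y₁ : G)) := by
    rw [Subgroup.orderOf_coe]
    exact Nat.not_even_iff_odd.mp (fun h => hy1odd (even_iff_two_dvd.mp h))
  have hcardS : Nat.card ↥S = Nat.card ↥(S₀ : Subgroup ↥H) := by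
    rw [hSdef]; exact Subgroup.card_map_of_injective H.subtype_injective
  have hcardH : Nat.card ↥H = Nat.card ↥S * orderOf y₁ := by
    rw [hcardS, hy1k, Subgroup.card_mul_index]
  rcases hT S hS2 with ⟨c, hc⟩ | ⟨a₁, hinv, hmul, hcent⟩
  · left
    exact cyc_case H S₀ y₁ hy1k c (by rw [hc, hSdef])
  · rcases struct S a₁ hmul with ⟨c, hc⟩ | ⟨s, b, hsS, hsa, hb1, hb⟩
    · left
      exact cyc_case H S₀ y₁ hy1k c (by rw [hc, hSdef])
    · obtain ⟨j, ⟨εS⟩⟩ := dih_iso S hS2 a₁ hinv hmul s b hsS hsa hb1 hb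
      obtain ⟨z, hzS, hza, hz1, hzz, hzs⟩ := exists_invol S hS2 a₁ hinv s b hsS hsa hb1 hb
      have hss : s * s = 1 := hinv s hsS hsa
      have hs1 : s ≠ 1 := fun h => hsa (by rw [h]; exact Subgroup.one_mem _)
      have hzs_ne : z ≠ s := fun h => hsa (by rw [← h]; exact hza)
      have hK4 : Nat.card ↥(S0807.kv z s hzz hss hzs) = 4 :=
        (S0807.isKleinFour_kv z s hzz hss hzs hz1 hs1 hzs_ne).card_four
      have hKS : S0807.kv z s hzz hss hzs ≤ S := by
        intro x hx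
        rcases S0807.mem_kv.mp hx with h | h | h | h
        · rw [h]; exact Subgroup.one_mem _
        · rw [h]; exact hzS
        · rw [h]; exact hsS
        · rw [h]; exact S.mul_mem hzS hsS
      have hKexp : ∀ k ∈ S0807.kv z s hzz hss hzs, k ^ 2 = 1 := by
        intro k hk
        rw [pow_two]; exact S0807.kv_mul_self z s hzz hss hzs k hk
      have hKcent := hcent _ hKS hK4 hKexp
      by_cases hycent : ∀ q ∈ S, (y₁ : G) * q = q * (y₁ : G)
      · right; left
        have hyK : (y₁ : G) ∈ S0807.kv z s hzz hss hzs := by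
          rw [← hKcent, Subgroup.mem_centralizer_iff]
          intro h hh
          exact (hycent h (hKS hh)).symm
        obtain ⟨i, hi⟩ := pel_of_mem hS2 (hKS hyK)
        have hy1 : (y₁ : G) = 1 :=
          eq_one_of_two_odd hi (pow_orderOf_eq_one _) (by rw [Subgroup.orderOf_coe]; exact hy1odd)
        have hy1' : y₁ = 1 := Subtype.ext hy1
        have hidx : (S₀ : Subgroup ↥H).index = 1 := by rw [← hy1k, hy1', orderOf_one]
        have htop : (S₀ : Subgroup ↥H) = ⊤ := Subgroup.index_eq_one.mp hidx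
        have eHS : ↥H ≃* ↥S := by
          rw [hSdef]
          exact (Subgroup.topEquiv.symm.trans (MulEquiv.subgroupCongr htop.symm)).trans
            (Subgroup.equivMapOfInjective _ H.subtype H.subtype_injective)
        exact ⟨j, ⟨eHS.trans εS⟩⟩
      · right; right
        have hexpS : ∀ q ∈ S, q * q = 1 := by
          intro q hq
          by_contra hne
          exact hycent (Helper9.dih_centralizes S hS2 a₁ hinv hmul S le_rfl
            (Or.inr ⟨q, hq, hne⟩) (y₁ : G) hynorm hyodd)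
        have hle4 : Nat.card ↥S ≤ 4 := Helper9.dih_exp_two_card_le S a₁ hmul S le_rfl hexpS
        have hKeq : S0807.kv z s hzz hss hzs = S :=
          Subgroup.eq_of_le_of_card_ge hKS (by rw [hK4]; exact hle4)
        have hS4 : Nat.card ↥S = 4 := by rw [← hKeq]; exact hK4
        have hScent : Subgroup.centralizer (S : Set G) = S := by
          have h5 := hKcent
          rw [hKeq] at h5
          exact h5
        have hfix : ∀ t ∈ S, t ≠ 1 → (y₁ : G) * t ≠ t * (y₁ : G) := by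
          intro t ht ht1 hcomm
          exact hycent (Helper9.dih_centralizes_fix S hS2 a₁ hinv hmul S le_rfl (y₁ : G)
            hynorm hyodd t ht ht1 hcomm)
        have hSab : ∀ a ∈ S, ∀ b ∈ S, a * b = b * a := fun a ha b hb =>
          comm_of_sq (hexpS a ha) (hexpS b hb) (hexpS _ (S.mul_mem ha hb))
        have hSel : ∀ q ∈ S, q = 1 ∨ q = z ∨ q = s ∨ q = z * s := by
          intro q hq
          rw [← hKeq] at hq
          exact S0807.mem_kv.mp hq
        obtain ⟨Y, hY⟩ : ∃ Y : G, Y = (y₁ : G) := ⟨_, rfl⟩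
        rw [← hY] at hynorm hyodd hfix hycent
        have hsqfix : ∀ t : G, Y ^ 2 * t = t * Y ^ 2 → Y * t = t * Y := by
          intro t ht
          obtain ⟨i, hi⟩ := hyodd
          have e1 : (Y ^ 2) ^ (i + 1) = Y := by
            rw [← pow_mul, show 2 * (i + 1) = orderOf Y + 1 by omega, pow_succ,
              pow_orderOf_eq_one, one_mul]
          have h3 : Commute ((Y ^ 2) ^ (i + 1)) t :=
            (show Commute (Y ^ 2) t from ht).pow_left (i + 1)
          rw [e1] at h3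
          exact h3.eq
        obtain ⟨u, hu⟩ : ∃ u : G, u = Y * z * Y⁻¹ := ⟨_, rfl⟩
        have huS : u ∈ S := by rw [hu]; exact hynorm z hzS
        have h_u : Y * z = u * Y := by rw [hu]; group
        have hu1 : u ≠ 1 := by
          intro h
          apply hz1
          rw [h, one_mul] at h_u
          exact mul_left_cancel (h_u.trans (mul_one Y).symm)
        have huz : u ≠ z := by
          intro h
          rw [h] at h_u
          exact hfix z hzS hz1 h_u
        obtain ⟨v, hv⟩ : ∃ v : G, v = Y * u * Y⁻¹ := ⟨_, rfl⟩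
        have hvS : v ∈ S := by rw [hv]; exact hynorm u huS
        have h_v : Y * u = v * Y := by rw [hv]; group
        have hv1 : v ≠ 1 := by
          intro h
          apply hu1
          rw [h, one_mul] at h_v
          exact mul_left_cancel (h_v.trans (mul_one Y).symm)
        have hvu : v ≠ u := by
          intro h
          rw [h] at h_v
          exact hfix u huS hu1 h_v
        have hvz : v ≠ z := by
          intro h
          rw [h] at h_v
          apply hfix z hzS hz1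
          apply hsqfix
          calc Y ^ 2 * z = Y * (Y * z) := by rw [pow_two, mul_assoc]
            _ = Y * (u * Y) := by rw [h_u]
            _ = (Y * u) * Y := by rw [mul_assoc]
            _ = (z * Y) * Y := by rw [h_v]
            _ = z * Y ^ 2 := by rw [pow_two, mul_assoc]
        have hvzu : v = z * u := by
          rcases hSel u huS with h | h | h | h
          · exact absurd h hu1
          · exact absurd h huz
          · rcases hSel v hvS with h' | h' | h' | h'
            · exact absurd h' hv1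
            · exact absurd h' hvz
            · exact absurd (h'.trans h.symm) hvu
            · rw [h', h]
          · rcases hSel v hvS with h' | h' | h' | h'
            · exact absurd h' hv1
            · exact absurd h' hvz
            · rw [h', h, ← mul_assoc, hzz, one_mul]
            · exact absurd (h'.trans h.symm) hvu
        have h_w : Y * v = z * Y := by
          have e1 : u * (z * u) = z := by
            rw [← mul_assoc, hSab u huS z hzS, mul_assoc, hexpS u huS, mul_one]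
          calc Y * v = (Y * z) * u := by rw [hvzu]; group
            _ = (u * Y) * u := by rw [h_u]
            _ = u * (Y * u) := by group
            _ = u * (v * Y) := by rw [h_v]
            _ = (u * (z * u)) * Y := by rw [hvzu]; group
            _ = z * Y := by rw [e1]
        have h3z : Y ^ 3 * z = z * Y ^ 3 := by
          calc Y ^ 3 * z = Y * (Y * (Y * z)) := by rw [pow_three]; simp only [mul_assoc]
            _ = Y * (Y * (u * Y)) := by rw [h_u]
            _ = Y * ((Y * u) * Y) := by rw [mul_assoc]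
            _ = Y * ((v * Y) * Y) := by rw [h_v]
            _ = (Y * v) * (Y * Y) := by simp only [mul_assoc]
            _ = (z * Y) * (Y * Y) := by rw [h_w]
            _ = z * Y ^ 3 := by rw [pow_three]; simp only [mul_assoc]
        have hnorm3 : ∀ q ∈ S, Y ^ 3 * q * (Y ^ 3)⁻¹ ∈ S := by
          intro q hq
          have e1 : Y ^ 3 * q * (Y ^ 3)⁻¹ = Y * (Y * (Y * q * Y⁻¹) * Y⁻¹) * Y⁻¹ := by
            rw [pow_three]; group
          rw [e1]
          exact hynorm _ (hynorm _ (hynorm q hq))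
        have hodd3 : Odd (orderOf (Y ^ 3)) := Odd.of_dvd_nat hyodd (orderOf_pow_dvd 3)
        have hcent3 := Helper9.dih_centralizes_fix S hS2 a₁ hinv hmul S le_rfl (Y ^ 3) hnorm3
          hodd3 z hzS hz1 h3z
        have hY3S : Y ^ 3 ∈ S := by
          rw [← hScent, Subgroup.mem_centralizer_iff]
          intro h hh
          exact (hcent3 h hh).symm
        obtain ⟨i, hi⟩ := pel_of_mem hS2 hY3S
        have hodd2 : ¬ 2 ∣ orderOf Y := by
          intro h
          exact (Nat.not_even_iff_odd.mpr hyodd) (even_iff_two_dvd.mpr h)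
        have hY3 : Y ^ 3 = 1 := by
          refine eq_one_of_two_odd hi ?_ hodd2
          rw [← pow_mul, mul_comm, pow_mul, pow_orderOf_eq_one, one_pow]
        have hYne : Y ≠ 1 := by
          intro h
          apply hycent
          intro q _
          rw [h, one_mul, mul_one]
        have hordY : orderOf Y = 3 := by
          rcases (Nat.dvd_prime Nat.prime_three).mp (orderOf_dvd_of_pow_eq_one hY3) with h | h
          · exact absurd (orderOf_eq_one_iff.mp h) hYne
          · exact h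
        have hord1 : orderOf y₁ = 3 := by rw [← Subgroup.orderOf_coe, ← hY]; exact hordY
        have hcard12 : Nat.card ↥H = 12 := by rw [hcardH, hS4, hord1]
        have hK3 : Nat.card ↥(Subgroup.zpowers y₁) = 3 := by rw [Nat.card_zpowers, hord1]
        have hKn : ¬ (Subgroup.zpowers y₁).Normal := by
          intro hN
          obtain ⟨z', hz'⟩ : ∃ z' : ↥H, (z' : G) = z := ⟨⟨z, hSH hzS⟩, rfl⟩
          have hz'S : z' ∈ (S₀ : Subgroup ↥H) := (hmemS z').mp (by rw [hz']; exact hzS)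
          have hw1 : y₁ * z' * y₁⁻¹ * z'⁻¹ ∈ Subgroup.zpowers y₁ := by
            have h5 := hN.conj_mem y₁⁻¹ (Subgroup.inv_mem _ (Subgroup.mem_zpowers y₁)) z'
            have h6 := Subgroup.mul_mem _ (Subgroup.mem_zpowers y₁) h5
            have e1 : y₁ * z' * y₁⁻¹ * z'⁻¹ = y₁ * (z' * y₁⁻¹ * z'⁻¹) := by group
            rw [e1]; exact h6
          have hw2 : y₁ * z' * y₁⁻¹ * z'⁻¹ ∈ (S₀ : Subgroup ↥H) :=
            Subgroup.mul_mem _ (hS0n.conj_mem z' hz'S y₁) (Subgroup.inv_mem _ hz'S)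
          have hw3 : (y₁ * z' * y₁⁻¹ * z'⁻¹) ^ 3 = 1 := by
            have h5 := Subgroup.orderOf_dvd_natCard _ hw1
            rw [hK3] at h5
            exact orderOf_dvd_iff_pow_eq_one.mp h5
          obtain ⟨i', hi'⟩ := pel_of_mem S₀.isPGroup' hw2
          have hw : y₁ * z' * y₁⁻¹ * z'⁻¹ = 1 := eq_one_of_two_odd hi' hw3 (by norm_num)
          have h7 : y₁ * z' = z' * y₁ := by
            have e2 : y₁ * z' = (y₁ * z' * y₁⁻¹ * z'⁻¹) * (z' * y₁) := by group
            rw [e2, hw, one_mul]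
          apply hfix z hzS hz1
          have h8 := congrArg Subtype.val h7
          rw [Subgroup.coe_mul, Subgroup.coe_mul, hz', ← hY] at h8
          exact h8
        exact Helper12.a4_of_card hcard12 (Subgroup.zpowers y₁) hK3 hKn

/-- Let G be a finite group with Sylow 2-subgroup P. Every subgroup H of G whose Sylow 2-subgroup is normal in H with cyclic quotient is cyclic, dihedral of 2-power order, or isomorphic to the alternating group of degree 4, if and only if either P is cyclic, or P is dihedral (of order at least 4) and every elementary abelian subgroup K of order 4 of P satisfies C_G(K) = K. -/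
theorem result {G : Type*} [Group G] [Finite G] (P : Sylow 2 G) :
    (∀ H : Subgroup G, (∀ S : Sylow 2 ↥H, (S : Subgroup ↥H).Normal) →
        (∀ (S : Sylow 2 ↥H) [(S : Subgroup ↥H).Normal], IsCyclic (↥H ⧸ (S : Subgroup ↥H))) →
        IsCyclic H ∨ (∃ n : ℕ, Nonempty (H ≃* DihedralGroup (2 ^ n))) ∨ Nonempty (H ≃* alternatingGroup (Fin 4))) ↔
    (IsCyclic P ∨
      ((∃ n : ℕ, 1 ≤ n ∧ Nonempty ((P : Subgroup G) ≃* DihedralGroup (2 ^ n))) ∧
        ∀ K : Subgroup G, K ≤ P → Nat.card K = 4 → (∀ k ∈ K, k ^ 2 = 1) → Subgroup.centralizer (K : Set G) = K)) := by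
  constructor
  · intro hyp
    have h1 : ¬ 2 ∣ orderOf (1 : G) := by rw [orderOf_one]; norm_num
    obtain ⟨h2, h3⟩ := sylow_facts (p := 2) (P : Subgroup G) P.isPGroup' 1 (Subgroup.one_mem _) h1
      (P : Subgroup G) (by rw [Subgroup.zpowers_one_eq_bot, sup_bot_eq])
    rcases hyp _ h2 h3 with hc | ⟨n, ⟨e⟩⟩ | ⟨⟨e⟩⟩
    · exact Or.inl hc
    · cases n with
      | zero =>
        left
        have hcard : Nat.card ↥(P : Subgroup G) = 2 := by
          rw [Nat.card_congr e.toEquiv, DihedralGroup.nat_card]; norm_num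
        exact isCyclic_of_prime_card (p := 2) hcard
      | succ n =>
        right
        exact ⟨⟨n + 1, by omega, ⟨e⟩⟩, fun K _ hK4 hexp => cent_eq hyp K hK4 hexp⟩
    · exfalso
      obtain ⟨k, hk⟩ := IsPGroup.iff_card.mp P.isPGroup'
      rw [Nat.card_congr e.toEquiv, a4_card] at hk
      have h4 : 3 ∣ 2 ^ k := ⟨4, by rw [← hk]⟩
      exact absurd (Nat.le_of_dvd (by norm_num) (Nat.Prime.dvd_of_dvd_pow Nat.prime_three h4))
        (by norm_num)
  · intro hR H h1 h2
    apply final2 H h1 h2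
    intro S hS
    rcases hR with hcyc | ⟨⟨n, -, ⟨e⟩⟩, hcent⟩
    · left
      have hcyc' : IsCyclic ↥(P : Subgroup G) := hcyc
      obtain ⟨g₀, hg₀⟩ := (Subgroup.isCyclic_iff_exists_zpowers_eq_top _).mp hcyc'
      exact pgroup_cyclic P g₀ hg₀.symm S hS
    · right
      exact transfer P n e hcent S hS

end Cfsg.Agent.S4083
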