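import Mathlib
import Cfsg.Statements.S4084

set_option autoImplicit false
open Cfsg

namespace Cfsg.Agent.S4084

theorem one_dir {G H : Type*} [Group G] [Finite G] [Group H] [Finite H] (e : G ≃ H)
    (he : ∀ x y : G, Commute x y ↔ Commute (e x) (e y))
    {p q : ℕ} (hp : p.Prime) (hq : q.Prime) (hpq : p ≠ q) :
    (∃ g : G, orderOf g = p * q) → (∃ h : H, orderOf h = p * q) := by
  rintro ⟨g, hg⟩
  set A : Subgroup G := Subgroup.centralizer (Subgroup.centralizer {g} : Set G) with hA
  set B : Subgroup H := Subgroup.centralizer (Subgroup.centralizer {e g} : Set H) with hB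
  have hgA : g ∈ A := by
    rw [hA, Subgroup.mem_centralizer_iff]
    intro y hy
    exact (Subgroup.mem_centralizer_iff.mp hy g rfl).symm
  have hAiff : ∀ x : G, x ∈ A ↔ ∀ y : G, Commute g y → Commute y x := by
    intro x
    rw [hA, Subgroup.mem_centralizer_iff]
    constructor
    · intro h y hy
      exact h y (Subgroup.mem_centralizer_iff.mpr (by
        intro z hz; rw [Set.mem_singleton_iff] at hz; subst hz; exact hy))
    · intro h y hy
      exact h y (Subgroup.mem_centralizer_iff.mp hy g rfl)
  have hBiff : ∀ x : H, x ∈ B ↔ ∀ y : H, Commute (e g) y → Commute y x := by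
    intro x
    rw [hB, Subgroup.mem_centralizer_iff]
    constructor
    · intro h y hy
      exact h y (Subgroup.mem_centralizer_iff.mpr (by
        intro z hz; rw [Set.mem_singleton_iff] at hz; subst hz; exact hy))
    · intro h y hy
      exact h y (Subgroup.mem_centralizer_iff.mp hy (e g) rfl)
  have hAB : ∀ x : G, x ∈ A ↔ e x ∈ B := by
    intro x
    rw [hAiff, hBiff]
    constructor
    · intro h y hy
      have := h (e.symm y) ((he _ _).mpr (by simpa using hy))
      have h2 := (he _ _).mp this
      simpa using h2
    · intro h y hy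
      exact (he _ _).mpr (h (e y) ((he _ _).mp hy))
  have hcard : Nat.card A = Nat.card B := Nat.card_congr (e.subtypeEquiv hAB)
  have hdvd : p * q ∣ Nat.card B := by
    rw [← hcard, ← hg]
    exact Subgroup.orderOf_dvd_natCard A hgA
  have hBcomm : ∀ u v : B, Commute u v := by
    intro u v
    have hv : (v : H) ∈ Subgroup.centralizer ({e g} : Set H) := by
      rw [Subgroup.mem_centralizer_iff]
      intro z hz
      rw [Set.mem_singleton_iff] at hz
      subst hz
      exact (hBiff v).mp v.2 (e g) (Commute.refl _)
    have := Subgroup.mem_centralizer_iff.mp u.2 (v : H) hv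
    exact Subtype.ext this.symm
  haveI : Fact p.Prime := ⟨hp⟩
  haveI : Fact q.Prime := ⟨hq⟩
  obtain ⟨u, hu⟩ := exists_prime_orderOf_dvd_card' (G := B) p (Dvd.dvd.trans (Dvd.intro _ rfl) hdvd)
  obtain ⟨v, hv⟩ := exists_prime_orderOf_dvd_card' (G := B) q (Dvd.dvd.trans (Dvd.intro_left _ rfl) hdvd)
  refine ⟨((u * v : B) : H), ?_⟩
  rw [Subgroup.orderOf_coe, (hBcomm u v).orderOf_mul_eq_mul_orderOf_of_coprime, hu, hv]
  rw [hu, hv]
  exact (Nat.coprime_primes hp hq).mpr hpq

/-- Let G and H be finite groups whose commuting graphs are isomorphic: there is a bijection e : G → H with x, y commuting exactly when e(x), e(y) commute. Then G and H have the same prime graph: for distinct primes p, q, G has an element of order pq if and only if H does (and #G = #H, so the prime divisors agree). -/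
theorem result {G H : Type*} [Group G] [Finite G] [Group H] [Finite H] (e : G ≃ H)
    (he : ∀ x y : G, Commute x y ↔ Commute (e x) (e y))
    {p q : ℕ} (hp : p.Prime) (hq : q.Prime) (hpq : p ≠ q) :
    (∃ g : G, orderOf g = p * q) ↔ (∃ h : H, orderOf h = p * q) := by
  constructor
  · exact one_dir e he hp hq hpq
  · apply one_dir e.symm _ hp hq hpq
    intro x y
    rw [he (e.symm x) (e.symm y)]
    simp

end Cfsg.Agent.S4084
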