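import Mathlib
import Cfsg.Statements.S4086

set_option autoImplicit false
open Cfsg

namespace Cfsg.Agent.S4086

theorem pow_gcd_mem {G : Type*} [Group G] (g : G) (i : ℕ) :
    g ^ (Nat.gcd i (orderOf g)) ∈ Subgroup.zpowers (g ^ i) := by
  rw [Subgroup.mem_zpowers_iff]
  refine ⟨Nat.gcdA i (orderOf g), ?_⟩
  have h := Nat.gcd_eq_gcd_ab i (orderOf g)
  rw [← zpow_natCast g (Nat.gcd i (orderOf g)), h, zpow_add, zpow_mul, zpow_mul, zpow_natCast,
    zpow_natCast, pow_orderOf_eq_one, one_zpow, mul_one]

/-- For a finite group G the following are equivalent: every non-identity element has prime-power order; whenever two elements generate a cyclic subgroup, one of them is a power of the other (the enhanced power graph of G coincides with its power graph). -/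
theorem result {G : Type*} [Group G] [Finite G] :
    (∀ g : G, g ≠ 1 → IsPrimePow (orderOf g)) ↔
    (∀ x y : G, IsCyclic ↥(Subgroup.closure ({x, y} : Set G)) → (x ∈ Subgroup.zpowers y ∨ y ∈ Subgroup.zpowers x)) := by
  constructor
  · intro h x y hcyc
    obtain ⟨c, hc⟩ := hcyc.exists_generator
    set g : G := (c : G) with hg
    have hmem : ∀ z : G, z ∈ Subgroup.closure ({x, y} : Set G) → ∃ i : ℕ, g ^ i = z := by
      intro z hz
      have h1 := hc ⟨z, hz⟩
      rw [← mem_powers_iff_mem_zpowers] at h1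
      obtain ⟨i, hi⟩ := h1
      refine ⟨i, ?_⟩
      have := congrArg Subtype.val hi
      simpa using this
    obtain ⟨i, hi⟩ := hmem x (Subgroup.subset_closure (by simp))
    obtain ⟨j, hj⟩ := hmem y (Subgroup.subset_closure (by simp))
    by_cases hg1 : g = 1
    · left
      rw [← hi, hg1, one_pow]
      exact one_mem _
    · obtain ⟨p, k, hp, hk, hpk⟩ := (isPrimePow_def _).mp (h g hg1)
      have hp' : p.Prime := Nat.prime_iff.mpr hp
      obtain ⟨a, _, ha⟩ := (Nat.dvd_prime_pow hp').mp (hpk ▸ Nat.gcd_dvd_right i (orderOf g))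
      obtain ⟨b, _, hb⟩ := (Nat.dvd_prime_pow hp').mp (hpk ▸ Nat.gcd_dvd_right j (orderOf g))
      have hxi := pow_gcd_mem g i
      have hyj := pow_gcd_mem g j
      rw [hpk] at ha hb
      rw [ha, hi] at hxi
      rw [hb, hj] at hyj
      rcases le_total a b with hab | hab
      · -- y ∈ zpowers x
        right
        obtain ⟨t, ht⟩ : p ^ b ∣ j := hb ▸ Nat.gcd_dvd_left j (orderOf g)
        have : y = (g ^ p ^ a) ^ (p ^ (b - a) * t) := by
          rw [← hj, ← pow_mul, ← mul_assoc, ← pow_add, Nat.add_sub_cancel' hab, ← ht]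
        rw [this]
        exact Subgroup.pow_mem _ hxi _
      · left
        obtain ⟨t, ht⟩ : p ^ a ∣ i := ha ▸ Nat.gcd_dvd_left i (orderOf g)
        have : x = (g ^ p ^ b) ^ (p ^ (a - b) * t) := by
          rw [← hi, ← pow_mul, ← mul_assoc, ← pow_add, Nat.add_sub_cancel' hab, ← ht]
        rw [this]
        exact Subgroup.pow_mem _ hyj _
  · intro h g hg1
    by_contra hnpp
    have hn0 : orderOf g ≠ 0 := (orderOf_pos g).ne'
    have hn1 : orderOf g ≠ 1 := by rwa [Ne, orderOf_eq_one_iff]
    set p := (orderOf g).minFac with hpdef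
    have hp : p.Prime := Nat.minFac_prime hn1
    obtain ⟨a, m, hpm, hnam⟩ := Nat.exists_eq_pow_mul_and_not_dvd hn0 p hp.one_lt.ne'
    have ha0 : a ≠ 0 := by
      rintro rfl
      apply hpm
      have : p ∣ orderOf g := Nat.minFac_dvd _
      rwa [hnam, pow_zero, one_mul] at this
    have hm1 : m ≠ 1 := by
      rintro rfl
      apply hnpp
      rw [hnam, mul_one]
      exact (isPrimePow_def _).mpr ⟨p, a, Nat.prime_iff.mp hp, Nat.pos_of_ne_zero ha0, rfl⟩
    have hm0 : m ≠ 0 := by
      rintro rfl
      rw [mul_zero] at hnam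
      exact hn0 hnam
    have hpa0 : p ^ a ≠ 0 := pow_ne_zero _ hp.pos.ne'
    have hox : orderOf (g ^ p ^ a) = m := by
      rw [orderOf_pow_of_dvd hpa0 (by rw [hnam]; exact Dvd.intro _ rfl), hnam,
        Nat.mul_div_cancel_left _ (Nat.pos_of_ne_zero hpa0)]
    have hoy : orderOf (g ^ m) = p ^ a := by
      rw [orderOf_pow_of_dvd hm0 (by rw [hnam]; exact Dvd.intro_left _ rfl), hnam,
        Nat.mul_div_cancel _ (Nat.pos_of_ne_zero hm0)]
    have hcyc : IsCyclic ↥(Subgroup.closure ({g ^ p ^ a, g ^ m} : Set G)) := by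
      apply Subgroup.isCyclic_of_le (H' := Subgroup.zpowers g)
      rw [Subgroup.closure_le]
      intro z hz
      rcases hz with rfl | rfl
      · exact Subgroup.pow_mem _ (Subgroup.mem_zpowers g) _
      · exact Subgroup.pow_mem _ (Subgroup.mem_zpowers g) _
    have hcop : Nat.Coprime (p ^ a) m := Nat.Coprime.pow_left _ ((Nat.Prime.coprime_iff_not_dvd hp).mpr hpm)
    rcases h _ _ hcyc with hxy | hyx
    · have hd := orderOf_dvd_of_mem_zpowers hxy
      rw [hox, hoy] at hd
      exact hm1 (Nat.Coprime.eq_one_of_dvd hcop.symm hd)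
    · have hd := orderOf_dvd_of_mem_zpowers hyx
      rw [hox, hoy] at hd
      have := Nat.Coprime.eq_one_of_dvd hcop hd
      exact ha0 (by
        by_contra ha
        have h1 : 1 < p ^ a := Nat.one_lt_pow ha hp.one_lt
        omega)

end Cfsg.Agent.S4086
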