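import Cfsg.Statements.S4088
import Cfsg.Agent.Helper15.SubnMain

set_option autoImplicit false
open Cfsg

namespace Cfsg.Agent.S4088

open Cfsg.Agent.Helper15.Subn

/-- the subnormalizer of `H` has as many elements as there are `x` with `H ≤ x P x⁻¹` -/
theorem key {G : Type*} [Group G] [Finite G] (p : ℕ) [Fact p.Prime]
    (H : Subgroup G) (hH : IsPGroup p H) (P : Sylow p G) :
    Nat.card {g : G // ((H).subgroupOf (H ⊔ Subgroup.zpowers g)).IsSubnormal} =
      Nat.card {x : G // H ≤ cj x (P : Subgroup G)} := by
  classical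
  haveI : Fintype G := Fintype.ofFinite G
  have hsylP : IsSyl p ⊤ (P : Subgroup G) :=
    ⟨le_top, P.isPGroup', fun Q hQ _ hPQ => P.is_maximal' hQ hPQ⟩
  have hmain := main p (⊤ : Subgroup G) (P : Subgroup G) hsylP H le_top
  have e1 : Nat.card {g : G // ((H).subgroupOf (H ⊔ Subgroup.zpowers g)).IsSubnormal}
      = (Finset.univ.filter (fun g : G => g ∈ (⊤ : Subgroup G) ∧ Inv p ⊤ H g)).card := by
    rw [Nat.card_eq_fintype_card, Fintype.card_subtype]
    congr 1
    apply Finset.filter_congr
    intro g _
    rw [sub_iff hH g]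
    constructor
    · rintro ⟨M, hM, hHM, hg⟩; exact ⟨Subgroup.mem_top g, M, le_top, hM, hHM, hg⟩
    · rintro ⟨-, M, -, hM, hHM, hg⟩; exact ⟨M, hM, hHM, hg⟩
  have e2 : Nat.card {x : G // H ≤ cj x (P : Subgroup G)}
      = (Finset.univ.filter
          (fun x : G => x ∈ (⊤ : Subgroup G) ∧ H ≤ cj x (P : Subgroup G))).card := by
    rw [Nat.card_eq_fintype_card, Fintype.card_subtype]
    congr 1
    apply Finset.filter_congr
    intro x _
    simp
  rw [e1, e2]
  unfold sC tC at hmain
  exact_mod_cast hmain

/-- Let G be a finite group, p a prime dividing the order of G, H a p-subgroup of G and P a Sylow p-subgroup of G. Call the subnormalizer of H the set of elements g of G such that H is subnormal in the subgroup generated by H and g. Then the number of elements of the subnormalizer of H equals the number of Sylow p-subgroups of G containing H times the order of N_G(P), and also equals the number of conjugates of H contained in P times the order of N_G(H). -/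
theorem result {G : Type*} [Group G] [Finite G] (p : ℕ) [Fact p.Prime]
    (hp : p ∣ Nat.card G) (H : Subgroup G) (hH : IsPGroup p H) (P : Sylow p G) :
    Nat.card {g : G // ((H).subgroupOf (H ⊔ Subgroup.zpowers g)).IsSubnormal} =
        Nat.card {Q : Sylow p G // H ≤ (Q : Subgroup G)} * Nat.card (Subgroup.normalizer ((P : Subgroup G) : Set G)) ∧
    Nat.card {g : G // ((H).subgroupOf (H ⊔ Subgroup.zpowers g)).IsSubnormal} =
        Nat.card {K : Subgroup G // K ≤ (P : Subgroup G) ∧ ∃ g : G, K = H.map (MulAut.conj g).toMonoidHom} *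
          Nat.card (Subgroup.normalizer (H : Set G)) := by
  rw [key p H hH P]
  constructor
  · -- Sylow subgroups containing `H`
    have hc := count_lemma (G := G) cj cj_one (fun g h x => (cj_mul g h x).symm) (P : Subgroup G)
      {Q : Subgroup G | (∃ Q' : Sylow p G, (Q' : Subgroup G) = Q) ∧ H ≤ Q}
      (by
        rintro y ⟨⟨Q', rfl⟩, -⟩
        obtain ⟨g, hg⟩ := MulAction.exists_smul_eq G P Q'
        refine ⟨g, ?_⟩
        rw [← hg, Sylow.coe_subgroup_smul, smul_eq_cj])
      (Subgroup.normalizer ((P : Subgroup G) : Set G)) (fun g => cj_eq_iff.symm)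
    have e1 : Nat.card {x : G // H ≤ cj x (P : Subgroup G)}
        = Nat.card {x : G // cj x (P : Subgroup G) ∈
            {Q : Subgroup G | (∃ Q' : Sylow p G, (Q' : Subgroup G) = Q) ∧ H ≤ Q}} := by
      apply Nat.card_congr
      apply Equiv.subtypeEquivRight
      intro x
      constructor
      · intro h
        refine ⟨⟨x • P, ?_⟩, h⟩
        rw [Sylow.coe_subgroup_smul, smul_eq_cj]
      · exact fun h => h.2
    have e2 : Nat.card {Q : Sylow p G // H ≤ (Q : Subgroup G)}
        = Nat.card ({Q : Subgroup G | (∃ Q' : Sylow p G, (Q' : Subgroup G) = Q) ∧ H ≤ Q} :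
            Set (Subgroup G)) := by
      apply Nat.card_congr
      refine Equiv.ofBijective
        (fun Q => (⟨(Q.1 : Subgroup G), ⟨Q.1, rfl⟩, Q.2⟩ :
          ({Q : Subgroup G | (∃ Q' : Sylow p G, (Q' : Subgroup G) = Q) ∧ H ≤ Q} :
            Set (Subgroup G)))) ⟨?_, ?_⟩
      · intro Q Q' h
        apply Subtype.ext
        apply Sylow.ext
        exact congrArg Subtype.val h
      · rintro ⟨Q, ⟨Q', rfl⟩, hQ⟩
        exact ⟨⟨Q', hQ⟩, rfl⟩
    rw [e1, hc, e2]
  · -- conjugates of `H` inside `P`
    have hc := count_lemma (G := G) cj cj_one (fun g h x => (cj_mul g h x).symm) H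
      {K : Subgroup G | K ≤ (P : Subgroup G) ∧ ∃ g : G, K = H.map (MulAut.conj g).toMonoidHom}
      (by
        rintro y ⟨-, g, rfl⟩
        exact ⟨g, rfl⟩)
      (Subgroup.normalizer (H : Set G)) (fun g => cj_eq_iff.symm)
    have e1 : Nat.card {x : G // H ≤ cj x (P : Subgroup G)}
        = Nat.card {x : G // cj x H ∈
            {K : Subgroup G | K ≤ (P : Subgroup G) ∧
              ∃ g : G, K = H.map (MulAut.conj g).toMonoidHom}} := by
      apply Nat.card_congr
      refine (Equiv.inv G).subtypeEquiv ?_
      intro x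
      rw [le_cj_iff]
      constructor
      · intro h
        exact ⟨h, x⁻¹, rfl⟩
      · exact fun h => h.1
    rw [e1, hc]
    rfl

end Cfsg.Agent.S4088
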