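import Cfsg.Statements.S4089
import Mathlib
import Cfsg.Agent.Helper14.Subnormal
import Cfsg.Agent.Helper3.Zipper
import Cfsg.Agent.Helper5.Grp

set_option autoImplicit false

open Cfsg

namespace Cfsg.Agent.S4089

/-- if `H ≤ R`, `R` a `p`-group normalized by `g`, then `H` is subnormal in `⟨H, g⟩` -/
theorem sub_of {G : Type*} [Group G] [Finite G] (p : ℕ) [Fact p.Prime] (H R : Subgroup G)
    (hR : IsPGroup p R) (hHR : H ≤ R) (g : G) (hg : g ∈ Subgroup.normalizer (R : Set G)) :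
    (H.subgroupOf (H ⊔ Subgroup.zpowers g)).IsSubnormal := by
  obtain ⟨X, hX⟩ : ∃ X : Subgroup G, X = H ⊔ Subgroup.zpowers g := ⟨_, rfl⟩
  rw [← hX]
  have hHX : H ≤ X := by rw [hX]; exact le_sup_left
  have hXR : X ≤ Subgroup.normalizer (R : Set G) := by
    rw [hX]
    apply sup_le (hHR.trans Subgroup.le_normalizer)
    rw [Subgroup.zpowers_le]; exact hg
  have hDn : ((R ⊓ X).subgroupOf X).Normal := by
    constructor
    rintro ⟨d, hdX⟩ hd ⟨x, hxX⟩
    rw [Subgroup.mem_subgroupOf] at hd ⊢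
    exact ⟨Helper5.conj_mem_of_mem_normalizer (hXR hxX) hd.1,
      X.mul_mem (X.mul_mem hxX hdX) (X.inv_mem hxX)⟩
  have hDp : IsPGroup p ((R ⊓ X).subgroupOf X) := (hR.to_le inf_le_left).comap_subtype
  have h1 : ((H.subgroupOf X).subgroupOf ((R ⊓ X).subgroupOf X)).IsSubnormal :=
    Helper3.isSubnormal_of_isPGroup hDp _
  refine Subgroup.IsSubnormal.trans ?_ h1 hDn.isSubnormal
  rintro ⟨y, hyX⟩ hy
  rw [Subgroup.mem_subgroupOf] at hy ⊢
  exact ⟨hHR hy, hyX⟩

/-- the operator `R ↦ O_p(N_G(R))` -/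
def Phi {G : Type*} [Group G] (p : ℕ) (R : Subgroup G) : Subgroup G :=
  (Cfsg.pCore p (Subgroup.normalizer (R : Set G))).map (Subgroup.normalizer (R : Set G)).subtype

theorem phi_isPGroup {G : Type*} [Group G] (p : ℕ) (R : Subgroup G) : IsPGroup p (Phi p R) :=
  (Helper14.pCore_isPGroup p _).map _

theorem le_phi {G : Type*} [Group G] (p : ℕ) (R : Subgroup G) (hR : IsPGroup p R) :
    R ≤ Phi p R := by
  intro r hr
  have h1 : R.subgroupOf (Subgroup.normalizer (R : Set G)) ≤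
      Cfsg.pCore p (Subgroup.normalizer (R : Set G)) :=
    Helper14.le_pCore Subgroup.normal_in_normalizer hR.comap_subtype
  exact ⟨⟨r, Subgroup.le_normalizer hr⟩, h1 (Subgroup.mem_subgroupOf.mpr hr), rfl⟩

theorem normalizer_le_phi {G : Type*} [Group G] [Finite G] (p : ℕ) (R : Subgroup G) :
    Subgroup.normalizer (R : Set G) ≤ Subgroup.normalizer ((Phi p R : Subgroup G) : Set G) := by
  intro n hn
  apply Helper5.mem_normalizer_of_conj_mem
  rintro _ ⟨q, hq, rfl⟩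
  exact ⟨⟨n, hn⟩ * q * ⟨n, hn⟩⁻¹, (Helper14.pCore_normal p _).conj_mem q hq ⟨n, hn⟩, rfl⟩

/-- if `H` is a subnormal `p`-subgroup of `⟨H, g⟩`, some `R ⊇ H` with `R = O_p(N_G(R))` is
normalized by `g` -/
theorem exR {G : Type*} [Group G] [Finite G] (p : ℕ) [Fact p.Prime] (H : Subgroup G)
    (hH : IsPGroup p H) (g : G)
    (hsn : (H.subgroupOf (H ⊔ Subgroup.zpowers g)).IsSubnormal) :
    ∃ R : Subgroup G, H ≤ R ∧ Phi p R = R ∧ g ∈ Subgroup.normalizer (R : Set G) := by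
  obtain ⟨X, hX⟩ : ∃ X : Subgroup G, X = H ⊔ Subgroup.zpowers g := ⟨_, rfl⟩
  rw [← hX] at hsn
  have hHX : H ≤ X := by rw [hX]; exact le_sup_left
  have hgX : g ∈ X := by rw [hX]; exact Subgroup.mem_sup_right (Subgroup.mem_zpowers g)
  have h1 : H.subgroupOf X ≤ Cfsg.pCore p ↥X :=
    Helper14.subnormal_pgroup_le_pCore _ hsn hH.comap_subtype
  obtain ⟨R0, hR0⟩ : ∃ R0 : Subgroup G, R0 = (Cfsg.pCore p ↥X).map X.subtype := ⟨_, rfl⟩
  have hR0p : IsPGroup p R0 := by rw [hR0]; exact (Helper14.pCore_isPGroup p _).map _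
  have hHR0 : H ≤ R0 := by
    intro h hh
    rw [hR0]
    exact ⟨⟨h, hHX hh⟩, h1 (Subgroup.mem_subgroupOf.mpr hh), rfl⟩
  have hgR0 : g ∈ Subgroup.normalizer (R0 : Set G) := by
    apply Helper5.mem_normalizer_of_conj_mem
    rw [hR0]
    rintro _ ⟨q, hq, rfl⟩
    exact ⟨⟨g, hgX⟩ * q * ⟨g, hgX⟩⁻¹, (Helper14.pCore_normal p _).conj_mem q hq ⟨g, hgX⟩, rfl⟩
  obtain ⟨R, ⟨hRp, hHR, hgR⟩, hmax⟩ := Set.Finite.exists_maximalFor
    (fun R : Subgroup G => Nat.card R)
    {R : Subgroup G | IsPGroup p R ∧ H ≤ R ∧ g ∈ Subgroup.normalizer (R : Set G)}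
    (Set.toFinite _) ⟨R0, hR0p, hHR0, hgR0⟩
  refine ⟨R, hHR, ?_, hgR⟩
  have hle : R ≤ Phi p R := le_phi p R hRp
  have hmem : Phi p R ∈ {R : Subgroup G | IsPGroup p R ∧ H ≤ R ∧
      g ∈ Subgroup.normalizer (R : Set G)} :=
    ⟨phi_isPGroup p R, hHR.trans hle, normalizer_le_phi p R hgR⟩
  have hc : Nat.card (Phi p R) ≤ Nat.card R := hmax hmem (Subgroup.card_le_of_le hle)
  exact (Subgroup.eq_of_le_of_card_ge hle hc).symm

/-- the intersection of the Sylow `p`-subgroups containing `H` lies in every `R ⊇ H` with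
`R = O_p(N_G(R))` -/
theorem hat_le {G : Type*} [Group G] [Finite G] (p : ℕ) [Fact p.Prime] (H R : Subgroup G)
    (hHR : H ≤ R) (hR : Phi p R = R) :
    sInf {K : Subgroup G | ∃ Q : Sylow p G, H ≤ (Q : Subgroup G) ∧ K = (Q : Subgroup G)} ≤ R := by
  obtain ⟨Hh, hHh⟩ : ∃ Hh : Subgroup G, Hh = sInf {K : Subgroup G | ∃ Q : Sylow p G,
      H ≤ (Q : Subgroup G) ∧ K = (Q : Subgroup G)} := ⟨_, rfl⟩
  rw [← hHh]
  obtain ⟨N, hN⟩ : ∃ N : Subgroup G, N = Subgroup.normalizer (R : Set G) := ⟨_, rfl⟩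
  have hRp : IsPGroup p R := by rw [← hR]; exact phi_isPGroup p R
  -- for every Sylow `S` of `N`, an overgroup `Q` with `Q ⊓ N = S`
  have hS : ∀ S : Sylow p N, ∃ Q : Sylow p G, (S : Subgroup N).map N.subtype ≤ (Q : Subgroup G) ∧
      ∀ x ∈ (Q : Subgroup G), ∀ hx : x ∈ N, (⟨x, hx⟩ : N) ∈ (S : Subgroup N) := by
    intro S
    obtain ⟨Q, hQ⟩ := (S.2.map N.subtype).exists_le_sylow
    refine ⟨Q, hQ, fun x hxQ hxN => ?_⟩
    have hle : (S : Subgroup N) ≤ (Q : Subgroup G).subgroupOf N := by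
      intro s hs
      rw [Subgroup.mem_subgroupOf]
      exact hQ ⟨s, hs, rfl⟩
    have heq : (Q : Subgroup G).subgroupOf N = (S : Subgroup N) :=
      S.3 Q.2.comap_subtype hle
    rw [← heq, Subgroup.mem_subgroupOf]
    exact hxQ
  -- `R ≤ S` for every Sylow `S` of `N`
  have hRS : ∀ S : Sylow p N, R ≤ (S : Subgroup N).map N.subtype := by
    intro S
    have h1 : Cfsg.pCore p N ≤ (S : Subgroup N) := Helper14.pCore_le_sylow S
    intro r hr
    have h2 : r ∈ Phi p R := by rw [hR]; exact hr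
    have h3 : Phi p R = (Cfsg.pCore p N).map N.subtype := by rw [hN]; rfl
    rw [h3] at h2
    obtain ⟨q, hq, rfl⟩ := h2
    exact ⟨q, h1 hq, rfl⟩
  -- the intersection of the Sylow subgroups of `N` is `R`
  have hinter : ∀ x : N, (∀ S : Sylow p N, x ∈ (S : Subgroup N)) → (x : G) ∈ R := by
    intro x hx
    obtain ⟨K, hK⟩ : ∃ K : Subgroup N, K = ⨅ S : Sylow p N, (S : Subgroup N) := ⟨_, rfl⟩
    have hKn : K.Normal := by
      constructor
      intro k hk n
      rw [hK, Subgroup.mem_iInf] at hk ⊢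
      intro S
      have := hk (n⁻¹ • S)
      rw [Helper5.mem_sylow_smul] at this
      simpa using this
    have hKp : IsPGroup p K := by
      obtain ⟨S⟩ : Nonempty (Sylow p N) := inferInstance
      have : K ≤ (S : Subgroup N) := by rw [hK]; exact iInf_le _ S
      exact S.2.to_le this
    have hxK : x ∈ K := by rw [hK, Subgroup.mem_iInf]; exact hx
    have h1 := Helper14.le_pCore hKn hKp hxK
    have h2 : (x : G) ∈ Phi p R := by
      have h3 : Phi p R = (Cfsg.pCore p N).map N.subtype := by rw [hN]; rfl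
      rw [h3]
      exact ⟨x, h1, rfl⟩
    rw [hR] at h2; exact h2
  -- `D = Ĥ ⊔ R`
  obtain ⟨D, hD⟩ : ∃ D : Subgroup G, D = Hh ⊔ R := ⟨_, rfl⟩
  have hDQ : ∀ S : Sylow p N, ∀ Q : Sylow p G, (S : Subgroup N).map N.subtype ≤ (Q : Subgroup G) →
      D ≤ (Q : Subgroup G) := by
    intro S Q hQ
    have hRQ : R ≤ (Q : Subgroup G) := (hRS S).trans hQ
    rw [hD]
    apply sup_le _ hRQ
    rw [hHh]
    exact sInf_le ⟨Q, hHR.trans hRQ, rfl⟩
  have hDN : ∀ x ∈ D, x ∈ N → x ∈ R := by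
    intro x hxD hxN
    refine hinter ⟨x, hxN⟩ (fun S => ?_)
    obtain ⟨Q, hQ1, hQ2⟩ := hS S
    exact hQ2 x (hDQ S Q hQ1 hxD) hxN
  have hDp : IsPGroup p D := by
    obtain ⟨S⟩ : Nonempty (Sylow p N) := inferInstance
    obtain ⟨Q, hQ1, _⟩ := hS S
    exact Q.2.to_le (hDQ S Q hQ1)
  have hRD : R ≤ D := by rw [hD]; exact le_sup_right
  -- normalizers grow in the `p`-group `D`
  have htop : R.subgroupOf D = ⊤ := by
    by_contra hne
    haveI := hDp.isNilpotent
    have hlt := Group.normalizerCondition_of_isNilpotent (G := D) (R.subgroupOf D)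
      (lt_top_iff_ne_top.mpr hne)
    obtain ⟨⟨x, hxD⟩, hxn, hxR⟩ := SetLike.exists_of_lt hlt
    apply hxR
    rw [Subgroup.mem_subgroupOf]
    apply hDN x hxD
    rw [hN]
    apply Helper5.mem_normalizer_of_conj_mem
    intro r hr
    have h1 := Helper5.conj_mem_of_mem_normalizer hxn
      (show (⟨r, hRD hr⟩ : D) ∈ R.subgroupOf D from Subgroup.mem_subgroupOf.mpr hr)
    rw [Subgroup.mem_subgroupOf] at h1
    exact h1
  have hDR : D ≤ R := by
    intro x hx
    have : (⟨x, hx⟩ : D) ∈ R.subgroupOf D := by rw [htop]; trivial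
    exact Subgroup.mem_subgroupOf.mp this
  rw [hD] at hDR
  exact le_sup_left.trans hDR

/-- Let G be a finite group, p a prime and H a p-subgroup of G. Then the set of elements g of G such that H is subnormal in the subgroup generated by H and g is the union of the normalizers N_G(R) over the subgroups R of G containing H with R = O_p(N_G(R)); and this set does not change when H is replaced by the intersection of all Sylow p-subgroups of G containing H. -/
theorem result {G : Type*} [Group G] [Finite G] (p : ℕ) [Fact p.Prime]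
    (H : Subgroup G) (hH : IsPGroup p H) :
    {g : G | ((H).subgroupOf (H ⊔ Subgroup.zpowers g)).IsSubnormal} =
      {g : G | ∃ R : Subgroup G, H ≤ R ∧ (Cfsg.pCore p (Subgroup.normalizer (R : Set G))).map (Subgroup.normalizer (R : Set G)).subtype = R ∧ g ∈ Subgroup.normalizer (R : Set G)} ∧
    ∀ g : G, (((H).subgroupOf (H ⊔ Subgroup.zpowers g)).IsSubnormal ↔
      (((sInf {K : Subgroup G | ∃ Q : Sylow p G, H ≤ (Q : Subgroup G) ∧ K = (Q : Subgroup G)})).subgroupOf ((sInf {K : Subgroup G | ∃ Q : Sylow p G, H ≤ (Q : Subgroup G) ∧ K = (Q : Subgroup G)}) ⊔ Subgroup.zpowers g)).IsSubnormal) := by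
  have hback : ∀ (H' : Subgroup G) (g : G), (∃ R : Subgroup G, H' ≤ R ∧ Phi p R = R ∧
      g ∈ Subgroup.normalizer (R : Set G)) →
      (H'.subgroupOf (H' ⊔ Subgroup.zpowers g)).IsSubnormal := by
    rintro H' g ⟨R, hHR, hR, hg⟩
    exact sub_of p H' R (by rw [← hR]; exact phi_isPGroup p R) hHR g hg
  refine ⟨?_, ?_⟩
  · ext g
    constructor
    · intro hg
      exact exR p H hH g hg
    · intro hg
      exact hback H g hg
  · intro g
    obtain ⟨Q0, hQ0⟩ := hH.exists_le_sylow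
    have hle : H ≤ sInf {K : Subgroup G | ∃ Q : Sylow p G, H ≤ (Q : Subgroup G) ∧
        K = (Q : Subgroup G)} := by
      apply le_sInf
      rintro K ⟨Q, hQ, rfl⟩
      exact hQ
    have hhp : IsPGroup p (sInf {K : Subgroup G | ∃ Q : Sylow p G, H ≤ (Q : Subgroup G) ∧
        K = (Q : Subgroup G)} : Subgroup G) :=
      Q0.2.to_le (sInf_le ⟨Q0, hQ0, rfl⟩)
    constructor
    · intro hg
      obtain ⟨R, hHR, hR, hgR⟩ := exR p H hH g hg
      exact hback _ g ⟨R, hat_le p H R hHR hR, hR, hgR⟩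
    · intro hg
      obtain ⟨R, hHR, hR, hgR⟩ := exR p _ hhp g hg
      exact hback H g ⟨R, hle.trans hHR, hR, hgR⟩

end Cfsg.Agent.S4089
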