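import Cfsg.Statements.S4090
import Cfsg.Agent.S4088
import Cfsg.Agent.Helper15.SubnSolv

set_option autoImplicit false
open Cfsg

namespace Cfsg.Agent.S4090

open Cfsg.Agent.Helper15.Subn

/-- Let G be a finite p-solvable group, H a p-subgroup of G and P a Sylow p-subgroup, and fix a chain of normal subgroups 1 = M₀ ≤ M₁ ≤ ⋯ ≤ Mₙ = G of G each of whose factors is a p-group or a p'-group. Then the number of elements g of G such that H is subnormal in the subgroup generated by H and g equals the order of P times the product, over the factors Mᵢ₊₁/Mᵢ of order prime to p, of the order of the centralizer of H in Mᵢ₊₁/Mᵢ (counted as the number of u ∈ Mᵢ₊₁ with [h, u] ∈ Mᵢ for all h ∈ H, divided by the order of Mᵢ). -/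
theorem result {G : Type*} [Group G] [Finite G] (p : ℕ) [Fact p.Prime]
    (hG : Cfsg.IsPSolvable p G) (H : Subgroup G) (hH : IsPGroup p H) (P : Sylow p G)
    (n : ℕ) (M : Fin (n + 1) → Subgroup G) (h0 : M 0 = ⊥) (hn : M (Fin.last n) = ⊤) (hmono : Monotone M)
    (hnormal : ∀ i, (M i).Normal)
    (hfac : ∀ i : Fin n, (∃ m : ℕ, (M i.castSucc).relIndex (M i.succ) = p ^ m) ∨ ((M i.castSucc).relIndex (M i.succ)).Coprime p) :
    Nat.card {g : G // ((H).subgroupOf (H ⊔ Subgroup.zpowers g)).IsSubnormal} =
      Nat.card (P : Subgroup G) *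
        ∏ i : Fin n, (if ((M i.castSucc).relIndex (M i.succ)).Coprime p then
          Nat.card {u : G // u ∈ M i.succ ∧ ∀ h ∈ H, h * u * h⁻¹ * u⁻¹ ∈ M i.castSucc} / Nat.card (M i.castSucc)
          else 1) := by
  rw [Cfsg.Agent.S4088.key p H hH P]
  have hstep : ∀ i : Fin n,
      Nat.card {x : G // H ≤ cj x ((P : Subgroup G) ⊔ M i.castSucc)} *
          Nat.card ((P : Subgroup G) ⊔ M i.succ : Subgroup G)
        = Nat.card {x : G // H ≤ cj x ((P : Subgroup G) ⊔ M i.succ)} *
            Nat.card ((P : Subgroup G) ⊔ M i.castSucc : Subgroup G) *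
          (if ((M i.castSucc).relIndex (M i.succ)).Coprime p then
            Nat.card {u : G // u ∈ M i.succ ∧ ∀ h ∈ H, h * u * h⁻¹ * u⁻¹ ∈ M i.castSucc} /
              Nat.card (M i.castSucc)
           else 1) := by
    intro i
    haveI := hnormal i.castSucc
    haveI := hnormal i.succ
    have hle : M i.castSucc ≤ M i.succ := hmono (Fin.castSucc_lt_succ).le
    by_cases hco : ((M i.castSucc).relIndex (M i.succ)).Coprime p
    · rw [if_pos hco]
      obtain ⟨c, hc⟩ := cent_dvd (H := H) hle
      have hA := step_cA P hH hle hco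
      have hB := step_cB P hle hco
      have hcard := card_mul_relIndex' hle
      have hpos : 0 < Nat.card (M i.castSucc) := Nat.card_pos
      rw [hc, Nat.mul_div_cancel_left c hpos, hB]
      rw [hc, ← hcard] at hA
      have h1 : Nat.card {x : G // H ≤ cj x ((P : Subgroup G) ⊔ M i.castSucc)} *
            (M i.castSucc).relIndex (M i.succ)
          = Nat.card {x : G // H ≤ cj x ((P : Subgroup G) ⊔ M i.succ)} * c := by
        apply Nat.eq_of_mul_eq_mul_left hpos
        calc Nat.card (M i.castSucc) *
              (Nat.card {x : G // H ≤ cj x ((P : Subgroup G) ⊔ M i.castSucc)} *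
                (M i.castSucc).relIndex (M i.succ))
            = Nat.card {x : G // H ≤ cj x ((P : Subgroup G) ⊔ M i.castSucc)} *
                (Nat.card (M i.castSucc) * (M i.castSucc).relIndex (M i.succ)) := by ring
          _ = Nat.card {x : G // H ≤ cj x ((P : Subgroup G) ⊔ M i.succ)} *
                (Nat.card (M i.castSucc) * c) := hA
          _ = Nat.card (M i.castSucc) *
                (Nat.card {x : G // H ≤ cj x ((P : Subgroup G) ⊔ M i.succ)} * c) := by ring
      calc Nat.card {x : G // H ≤ cj x ((P : Subgroup G) ⊔ M i.castSucc)} *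
            (Nat.card ((P : Subgroup G) ⊔ M i.castSucc : Subgroup G) *
              (M i.castSucc).relIndex (M i.succ))
          = Nat.card ((P : Subgroup G) ⊔ M i.castSucc : Subgroup G) *
              (Nat.card {x : G // H ≤ cj x ((P : Subgroup G) ⊔ M i.castSucc)} *
                (M i.castSucc).relIndex (M i.succ)) := by ring
        _ = Nat.card ((P : Subgroup G) ⊔ M i.castSucc : Subgroup G) *
              (Nat.card {x : G // H ≤ cj x ((P : Subgroup G) ⊔ M i.succ)} * c) := by rw [h1]
        _ = Nat.card {x : G // H ≤ cj x ((P : Subgroup G) ⊔ M i.succ)} *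
              Nat.card ((P : Subgroup G) ⊔ M i.castSucc : Subgroup G) * c := by ring
    · rw [if_neg hco]
      rcases hfac i with ⟨m, hm⟩ | hco'
      · have hp := step_p P hle hm
        rw [hp, mul_one]
      · exact absurd hco' hco
  have hchain := chain_prod n
    (fun i => Nat.card {x : G // H ≤ cj x ((P : Subgroup G) ⊔ M i)})
    (fun i => Nat.card ((P : Subgroup G) ⊔ M i : Subgroup G))
    (fun i => if ((M i.castSucc).relIndex (M i.succ)).Coprime p then
            Nat.card {u : G // u ∈ M i.succ ∧ ∀ h ∈ H, h * u * h⁻¹ * u⁻¹ ∈ M i.castSucc} /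
              Nat.card (M i.castSucc)
           else 1)
    (fun i => Nat.card_pos) hstep
  simp only [h0, hn, sup_bot_eq, sup_top_eq] at hchain
  have e1 : Nat.card {x : G // H ≤ cj x (⊤ : Subgroup G)} = Nat.card G := by
    apply Nat.card_congr
    exact Equiv.subtypeUnivEquiv (fun x => by rw [cj_top]; exact le_top)
  have e2 : Nat.card (⊤ : Subgroup G) = Nat.card G := Subgroup.card_top
  rw [e1, e2] at hchain
  have hpos : 0 < Nat.card G := Nat.card_pos
  apply Nat.eq_of_mul_eq_mul_right hpos
  rw [hchain]; ring

end Cfsg.Agent.S4090
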