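import Cfsg.Statements.S4092
import Mathlib
import Cfsg.Agent.Helper20.Frob

set_option autoImplicit false
open Cfsg

namespace Cfsg.Agent.S4092

/-- Let G be a finite group, p a prime and P a Sylow p-subgroup of G that is not normal in G. Then G has at least p·#P elements of p-power order (the identity included). -/
theorem result {G : Type*} [Group G] [Finite G] (p : ℕ) [Fact p.Prime]
    (P : Sylow p G) (hP : ¬ (P : Subgroup G).Normal) :
    p * Nat.card (P : Subgroup G) ≤ Nat.card {g : G // ∃ k : ℕ, orderOf g = p ^ k} := by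
  classical
  have hp : p.Prime := Fact.out
  obtain ⟨a, ha⟩ : ∃ a, a = (Nat.card G).factorization p := ⟨_, rfl⟩
  have hq : Nat.card (P : Subgroup G) = p ^ a := by rw [ha]; exact P.card_eq_multiplicity
  have hPpow : ∀ x ∈ (P : Subgroup G), x ^ (p ^ a) = 1 := by
    intro x hx
    have h4 := pow_card_eq_one' (G := (P : Subgroup G)) (x := ⟨x, hx⟩)
    rw [hq] at h4
    have h5 := congrArg Subtype.val h4
    rw [Subgroup.coe_pow] at h5
    exact h5
  have e : Nat.card {g : G // ∃ k : ℕ, orderOf g = p ^ k} =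
      Nat.card {g : G // g ^ (p ^ a) = 1} := by
    apply Nat.card_congr
    exact Equiv.subtypeEquivRight (fun g => by
      constructor
      · rintro ⟨k, hk⟩
        have h1 : p ^ k ∣ Nat.card G := hk ▸ orderOf_dvd_natCard g
        have h2 : k ≤ a := by
          rw [ha]
          exact (hp.pow_dvd_iff_le_factorization (Nat.card_pos (α := G)).ne').mp h1
        exact orderOf_dvd_iff_pow_eq_one.mp (hk ▸ pow_dvd_pow p h2)
      · intro h
        obtain ⟨j, _, hj⟩ := (Nat.dvd_prime_pow hp).mp (orderOf_dvd_of_pow_eq_one h)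
        exact ⟨j, hj⟩)
  rw [e, hq]
  have hdvd : p ^ a ∣ Nat.card G := hq ▸ (P : Subgroup G).card_subgroup_dvd_card
  obtain ⟨c, hc⟩ := Cfsg.Agent.Helper20.frobenius G (p ^ a) hdvd
  rw [hc, mul_comm p]
  apply Nat.mul_le_mul_left
  have hpa : 0 < p ^ a := pow_pos hp.pos a
  have h1 : (p - 1) ∣ Nat.card {g : G // orderOf g ∣ p ^ a ∧ orderOf g ≠ 1} := by
    apply Cfsg.Agent.Helper20.dvd_card_of_orderOf G (fun d => d ∣ p ^ a ∧ d ≠ 1)
    rintro d ⟨hd1, hd2⟩
    obtain ⟨j, _, rfl⟩ := (Nat.dvd_prime_pow hp).mp hd1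
    obtain ⟨i, rfl⟩ : ∃ i, j = i + 1 := by
      cases j with
      | zero => exact absurd (pow_zero p) hd2
      | succ i => exact ⟨i, rfl⟩
    rw [Nat.totient_prime_pow_succ hp]; exact dvd_mul_left _ _
  have hsplit : Nat.card {g : G // g ^ (p ^ a) = 1} = Nat.card {g : G // g = 1} +
      Nat.card {g : G // g ^ (p ^ a) = 1 ∧ ¬ g = 1} :=
    Cfsg.Agent.Helper20.card_split _ _ (fun g hg => by rw [hg, one_pow])
  have hone : Nat.card {g : G // g = 1} = 1 := Nat.card_unique
  have e2 : Nat.card {g : G // g ^ (p ^ a) = 1 ∧ ¬ g = 1} =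
      Nat.card {g : G // orderOf g ∣ p ^ a ∧ orderOf g ≠ 1} := by
    apply Nat.card_congr
    exact Equiv.subtypeEquivRight (fun g => by
      rw [orderOf_dvd_iff_pow_eq_one, Ne, orderOf_eq_one_iff])
  rw [hone, e2, hc] at hsplit
  obtain ⟨t, ht⟩ := h1
  rw [ht] at hsplit
  have hc0 : c ≠ 0 := by
    rintro rfl
    rw [mul_zero] at hsplit
    omega
  have hc1 : c ≠ 1 := by
    rintro rfl
    rw [mul_one] at hc
    apply hP
    have hsurj : ∀ g : G, g ^ (p ^ a) = 1 → g ∈ (P : Subgroup G) := by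
      have hf : Function.Injective (fun x : (P : Subgroup G) =>
          (⟨x.1, hPpow x.1 x.2⟩ : {g : G // g ^ (p ^ a) = 1})) :=
        fun x y hxy => by
          have h : x.1 = y.1 := congrArg (fun w : {g : G // g ^ (p ^ a) = 1} => w.1) hxy
          exact Subtype.ext h
      have hbij := hf.bijective_of_nat_card_le (by rw [hc, hq])
      intro g hg
      obtain ⟨x, hx⟩ := hbij.2 ⟨g, hg⟩
      have hxg : x.1 = g := congrArg Subtype.val hx
      rw [← hxg]; exact x.2
    refine ⟨fun n hn g => hsurj _ ?_⟩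
    rw [conj_pow, hPpow n hn]
    group
  have h3 : (p - 1) ∣ p ^ a - 1 := by
    have h4 := Nat.sub_dvd_pow_sub_pow p 1 a
    rw [one_pow] at h4
    exact h4
  have h5 : (p - 1) ∣ c - 1 := by
    have h6 : (p - 1) ∣ (p ^ a - 1) * c := h3.trans (dvd_mul_right _ _)
    have h7 : (p - 1) ∣ p ^ a * c - 1 := ⟨t, by omega⟩
    have h8 : c - 1 = (p ^ a * c - 1) - (p ^ a - 1) * c := by
      rw [Nat.sub_one_mul]
      have h9 : c ≤ p ^ a * c := Nat.le_mul_of_pos_left c hpa
      omega
    rw [h8]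
    exact Nat.dvd_sub h7 h6
  have h10 : p - 1 ≤ c - 1 := Nat.le_of_dvd (by omega) h5
  have h11 := hp.two_le
  omega

end Cfsg.Agent.S4092
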