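import Cfsg.Statements.S4093
import Cfsg.Agent.Helper20.Basic
import Mathlib

set_option autoImplicit false
open Cfsg
open scoped BigOperators

namespace Cfsg.Agent.S4093

open Cfsg.Agent.Helper20

theorem orbit_card {G : Type*} [Group G] [Finite G] [DecidableEq G] (N : Subgroup G) [Fintype ↥N] (x : G) :
    Fintype.card ↥N = ((Finset.univ : Finset ↥N).image (fun n : ↥N => (n : G) * x * (n : G)⁻¹)).card
      * Nat.card ↥(N ⊓ Subgroup.centralizer ({x} : Set G)) := by
  haveI : Fintype ↥(N ⊓ Subgroup.centralizer ({x} : Set G)) := Fintype.ofFinite _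
  have hsum := Finset.card_eq_sum_card_fiberwise (f := fun n : ↥N => (n : G) * x * (n : G)⁻¹)
    (s := (Finset.univ : Finset ↥N))
    (t := (Finset.univ : Finset ↥N).image (fun n : ↥N => (n : G) * x * (n : G)⁻¹))
    (fun n _ => Finset.mem_image_of_mem _ (Finset.mem_univ n))
  rw [Finset.card_univ] at hsum
  rw [hsum]
  apply Finset.sum_const_nat
  intro g hg
  obtain ⟨n₀, _, rfl⟩ := Finset.mem_image.mp hg
  have hfib : (Finset.univ.filter (fun n : ↥N => (n : G) * x * (n : G)⁻¹ = (n₀ : G) * x * (n₀ : G)⁻¹))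
      = (Finset.univ : Finset ↥(N ⊓ Subgroup.centralizer ({x} : Set G))).image
        (fun c : ↥(N ⊓ Subgroup.centralizer ({x} : Set G)) =>
          (⟨(n₀ : G) * (c : G), N.mul_mem n₀.2 (Subgroup.mem_inf.mp c.2).1⟩ : ↥N)) := by
    ext n
    simp only [Finset.mem_filter, Finset.mem_univ, true_and, Finset.mem_image]
    constructor
    · intro h
      refine ⟨⟨(n₀ : G)⁻¹ * (n : G), Subgroup.mem_inf.mpr ⟨N.mul_mem (N.inv_mem n₀.2) n.2, ?_⟩⟩, ?_⟩
      · rw [Subgroup.mem_centralizer_iff]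
        intro v hv; rw [Set.mem_singleton_iff] at hv; rw [hv]
        calc x * ((n₀ : G)⁻¹ * (n : G))
            = (n₀ : G)⁻¹ * ((n₀ : G) * x * (n₀ : G)⁻¹) * (n : G) := by group
          _ = (n₀ : G)⁻¹ * ((n : G) * x * (n : G)⁻¹) * (n : G) := by rw [h]
          _ = (n₀ : G)⁻¹ * (n : G) * x := by group
      · apply Subtype.ext
        show (n₀ : G) * ((n₀ : G)⁻¹ * (n : G)) = (n : G)
        group
    · rintro ⟨c, rfl⟩
      have hc := (Subgroup.mem_inf.mp c.2).2
      rw [Subgroup.mem_centralizer_iff] at hc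
      have hcx := hc x (Set.mem_singleton x)
      show (n₀ : G) * (c : G) * x * ((n₀ : G) * (c : G))⁻¹ = (n₀ : G) * x * (n₀ : G)⁻¹
      have e : (n₀ : G) * (c : G) * x * ((n₀ : G) * (c : G))⁻¹
          = (n₀ : G) * ((c : G) * x) * (c : G)⁻¹ * (n₀ : G)⁻¹ := by group
      rw [e, ← hcx]; group
  rw [hfib, Finset.card_image_of_injective, Finset.card_univ, Nat.card_eq_fintype_card]
  intro c c' h
  have := congrArg Subtype.val h
  apply Subtype.ext
  exact mul_left_cancel this

/-- Let G be a finite group with a normal subgroup N complementing a Sylow p-subgroup P (a normal p-complement). Then the number of elements of G of p-power order equals the sum over x ∈ P of the index of C_N(x) in N. -/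
theorem result {G : Type*} [Group G] [Finite G] (p : ℕ) [Fact p.Prime]
    (P : Sylow p G) (N : Subgroup G) [N.Normal] (hNP : N.IsComplement' (P : Subgroup G)) :
    Nat.card {g : G // ∃ k : ℕ, orderOf g = p ^ k} =
      ∑ᶠ x : (P : Subgroup G), Nat.card N / Nat.card ↥(N ⊓ Subgroup.centralizer ({(x : G)} : Set G)) := by
  classical
  haveI : Fintype G := Fintype.ofFinite G
  haveI : Fintype ↥N := Fintype.ofFinite _
  haveI : Fintype ↥(P : Subgroup G) := Fintype.ofFinite _
  have hNn : N.Normal := inferInstance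
  have hdisj : ∀ x : G, x ∈ N → x ∈ (P : Subgroup G) → x = 1 := by
    intro x hxN hxP
    have h1 := hNP.disjoint
    rw [disjoint_iff] at h1
    have hx : x ∈ N ⊓ (P : Subgroup G) := Subgroup.mem_inf.mpr ⟨hxN, hxP⟩
    rw [h1] at hx
    exact Subgroup.mem_bot.mp hx
  have hdec : ∀ g : G, ∃ n ∈ N, ∃ u ∈ (P : Subgroup G), g = n * u := by
    intro g
    have h1 : g ∈ ((N ⊔ (P : Subgroup G) : Subgroup G) : Set G) := by
      rw [hNP.sup_eq_top]; exact Subgroup.mem_top g
    rw [Subgroup.normal_mul] at h1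
    obtain ⟨n, hn, u, hu, rfl⟩ := Set.mem_mul.mp h1
    exact ⟨n, hn, u, hu, rfl⟩
  have hO : ∀ x : ↥(P : Subgroup G), ∀ g : G,
      g ∈ (Finset.univ : Finset ↥N).image (fun n : ↥N => (n : G) * (x : G) * (n : G)⁻¹) ↔
        ∃ n ∈ N, g = n * (x : G) * n⁻¹ := by
    intro x g
    simp only [Finset.mem_image, Finset.mem_univ, true_and]
    constructor
    · rintro ⟨n, rfl⟩; exact ⟨n, n.2, rfl⟩
    · rintro ⟨n, hn, rfl⟩; exact ⟨⟨n, hn⟩, rfl⟩
  have hS : (Finset.univ.filter (fun g : G => ∃ k : ℕ, orderOf g = p ^ k)) =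
      (Finset.univ : Finset ↥(P : Subgroup G)).biUnion
        (fun x => (Finset.univ : Finset ↥N).image (fun n : ↥N => (n : G) * (x : G) * (n : G)⁻¹)) := by
    ext g
    simp only [Finset.mem_filter, Finset.mem_univ, true_and, Finset.mem_biUnion]
    constructor
    · rintro ⟨k, hk⟩
      have hzp : IsPGroup p ↥(Subgroup.zpowers g) := IsPGroup.of_card ((Nat.card_zpowers g).trans hk)
      obtain ⟨a, ha⟩ := exists_conj_mem_sylow p P _ hzp
      have hx' := ha g (Subgroup.mem_zpowers g)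
      obtain ⟨n, hn, u, hu, rfl⟩ := hdec a
      refine ⟨⟨u * ((n * u)⁻¹ * g * (n * u)) * u⁻¹,
        Subgroup.mul_mem _ (Subgroup.mul_mem _ hu hx') (Subgroup.inv_mem _ hu)⟩, ?_⟩
      rw [hO]
      exact ⟨n, hn, by group⟩
    · rintro ⟨x, hx⟩
      rw [hO] at hx
      obtain ⟨n, hn, rfl⟩ := hx
      obtain ⟨b, hb⟩ := orderOf_eq_pow_of_mem_sylow p P (x : G) x.2
      refine ⟨b, ?_⟩
      rw [← hb]
      have := MulEquiv.orderOf_eq (MulAut.conj n) (x : G)
      rwa [MulAut.conj_apply] at this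
  have hpd : ((Finset.univ : Finset ↥(P : Subgroup G)) : Set ↥(P : Subgroup G)).PairwiseDisjoint
      (fun x => (Finset.univ : Finset ↥N).image (fun n : ↥N => (n : G) * (x : G) * (n : G)⁻¹)) := by
    intro x _ x' _ hne
    show Disjoint ((Finset.univ : Finset ↥N).image (fun n : ↥N => (n : G) * (x : G) * (n : G)⁻¹))
      ((Finset.univ : Finset ↥N).image (fun n : ↥N => (n : G) * (x' : G) * (n : G)⁻¹))
    rw [Finset.disjoint_left]
    intro g hg hg'
    rw [hO] at hg hg'
    obtain ⟨n, hn, rfl⟩ := hg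
    obtain ⟨n', hn', h⟩ := hg'
    apply hne
    apply Subtype.ext
    have h1 : (x' : G) = (n'⁻¹ * n) * (x : G) * (n'⁻¹ * n)⁻¹ := by
      have e0 : (x' : G) = n'⁻¹ * (n' * (x' : G) * n'⁻¹) * n' := by group
      rw [e0, ← h]; group
    have h2 : (x' : G) * (x : G)⁻¹ = 1 := by
      apply hdisj
      · rw [h1]
        have e : (n'⁻¹ * n) * (x : G) * (n'⁻¹ * n)⁻¹ * (x : G)⁻¹
            = (n'⁻¹ * n) * ((x : G) * (n'⁻¹ * n)⁻¹ * (x : G)⁻¹) := by group
        rw [e]
        exact N.mul_mem (N.mul_mem (N.inv_mem hn') hn)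
          (hNn.conj_mem _ (N.inv_mem (N.mul_mem (N.inv_mem hn') hn)) _)
      · exact Subgroup.mul_mem _ x'.2 (Subgroup.inv_mem _ x.2)
    exact (mul_inv_eq_one.mp h2).symm
  rw [Nat.card_eq_fintype_card, Fintype.card_subtype, hS, Finset.card_biUnion hpd,
    finsum_eq_sum_of_fintype]
  apply Finset.sum_congr rfl
  intro x _
  have h := orbit_card N (x : G)
  have hpos : 0 < Nat.card ↥(N ⊓ Subgroup.centralizer ({(x : G)} : Set G)) := Nat.card_pos
  rw [Nat.card_eq_fintype_card (α := ↥N), h, Nat.mul_div_cancel _ hpos]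

end Cfsg.Agent.S4093
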