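import Cfsg.Statements.S4107
import Mathlib
import Cfsg.Agent.Helper1.Fitting

set_option autoImplicit false
open Cfsg

namespace Cfsg.Agent.S4107

/-- Let G be a finite group and N a proper non-trivial normal subgroup such that for every x outside N all elements of the coset xN have the same order as x. Then N ≤ F(G) or F(G) ≤ N, where F(G) is the Fitting subgroup; and if N is properly contained in F(G) then F(G) has prime-power order. -/
theorem result {G : Type*} [Group G] [Finite G] (N : Subgroup G) [N.Normal] (hN1 : N ≠ ⊥) (hN2 : N ≠ ⊤)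
    (heq : ∀ x : G, x ∉ N → ∀ n ∈ N, orderOf (x * n) = orderOf x) :
    (N ≤ Cfsg.fittingSubgroup G ∨ Cfsg.fittingSubgroup G ≤ N) ∧
    (N < Cfsg.fittingSubgroup G → IsPrimePow (Nat.card (Cfsg.fittingSubgroup G))) := by
  classical
  have key : ∀ p : ℕ, p.Prime → ¬ Cfsg.pCore p G ≤ N → IsPGroup p N := by
    intro p hp hnle
    haveI : Fact p.Prime := ⟨hp⟩
    obtain ⟨x, hxR, hxN⟩ := SetLike.not_le_iff_exists.mp hnle
    obtain ⟨k, hk⟩ := Cfsg.Agent.Helper1.pCore_isPGroup p G ⟨x, hxR⟩
    have hxk : x ^ (p ^ k) = 1 := by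
      have h := congrArg Subtype.val hk
      rw [Subgroup.coe_pow] at h
      exact h
    haveI := Cfsg.Agent.Helper1.pCore_normal p G
    rintro ⟨n, hn⟩
    have h1 : (x * n) ^ (p ^ k) = 1 := by
      rw [← orderOf_dvd_iff_pow_eq_one, heq x hxN n hn, orderOf_dvd_iff_pow_eq_one]
      exact hxk
    have h2 : n ^ (p ^ k) ∈ Cfsg.pCore p G := by
      rw [← QuotientGroup.eq_one_iff, QuotientGroup.mk_pow]
      have h3 : ((x * n : G) : G ⧸ Cfsg.pCore p G) = (n : G ⧸ Cfsg.pCore p G) := by
        rw [QuotientGroup.mk_mul, (QuotientGroup.eq_one_iff x).mpr hxR, one_mul]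
      rw [← h3, ← QuotientGroup.mk_pow, h1]
      rfl
    obtain ⟨j, hj⟩ := Cfsg.Agent.Helper1.pCore_isPGroup p G ⟨n ^ (p ^ k), h2⟩
    have hj' : (n ^ (p ^ k)) ^ (p ^ j) = 1 := by
      have h := congrArg Subtype.val hj
      rw [Subgroup.coe_pow] at h
      exact h
    refine ⟨k + j, Subtype.ext ?_⟩
    rw [Subgroup.coe_pow]
    show n ^ (p ^ (k + j)) = 1
    rw [pow_add, pow_mul]
    exact hj'
  have hF := Cfsg.Agent.Helper1.fitting_eq_iSup (G := G)
  constructor
  · by_cases h : ∀ p : (Nat.card G).primeFactors, Cfsg.pCore (p : ℕ) G ≤ N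
    · right
      rw [hF]
      exact iSup_le h
    · left
      rw [not_forall] at h
      obtain ⟨p, hp⟩ := h
      have hpp : (p : ℕ).Prime := Nat.prime_of_mem_primeFactors p.2
      haveI : Fact (p : ℕ).Prime := ⟨hpp⟩
      exact (Cfsg.Agent.Helper1.le_pCore inferInstance (key p hpp hp)).trans
        (Cfsg.Agent.Helper1.pCore_le_fitting (p : ℕ))
  · intro hlt
    have hnle : ¬ Cfsg.fittingSubgroup G ≤ N := not_le_of_gt hlt
    have h : ¬ ∀ p : (Nat.card G).primeFactors, Cfsg.pCore (p : ℕ) G ≤ N := by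
      intro h
      apply hnle
      rw [hF]
      exact iSup_le h
    rw [not_forall] at h
    obtain ⟨p, hp⟩ := h
    have hpp : (p : ℕ).Prime := Nat.prime_of_mem_primeFactors p.2
    haveI : Fact (p : ℕ).Prime := ⟨hpp⟩
    have hNp := key p hpp hp
    have hFp : Cfsg.fittingSubgroup G = Cfsg.pCore (p : ℕ) G := by
      apply le_antisymm _ (Cfsg.Agent.Helper1.pCore_le_fitting (p : ℕ))
      rw [hF]
      apply iSup_le
      intro q
      by_cases hqp : (q : ℕ) = (p : ℕ)
      · rw [hqp]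
      · have hqq : (q : ℕ).Prime := Nat.prime_of_mem_primeFactors q.2
        haveI : Fact (q : ℕ).Prime := ⟨hqq⟩
        have hqN : Cfsg.pCore (q : ℕ) G ≤ N := by
          by_contra hcon
          have hNq := key q hqq hcon
          have hd := IsPGroup.disjoint_of_ne (p : ℕ) (q : ℕ) (Ne.symm hqp) N N hNp hNq
          exact hN1 (disjoint_self.mp hd)
        have hd := IsPGroup.disjoint_of_ne (q : ℕ) (p : ℕ) hqp (Cfsg.pCore (q : ℕ) G) N
          (Cfsg.Agent.Helper1.pCore_isPGroup _ G) hNp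
        rw [hd.eq_bot_of_le hqN]
        exact bot_le
    rw [hFp]
    obtain ⟨k, hk⟩ := (Cfsg.Agent.Helper1.pCore_isPGroup (p : ℕ) G).exists_card_eq
    have hk0 : k ≠ 0 := by
      rintro rfl
      rw [pow_zero, Subgroup.card_eq_one] at hk
      rw [hFp, hk] at hlt
      exact not_lt_bot hlt
    rw [hk]
    exact ⟨p, k, hpp.prime, Nat.pos_of_ne_zero hk0, rfl⟩

end Cfsg.Agent.S4107
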