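import Cfsg.Statements.S4108
import Cfsg.Agent.Helper20.TI
import Mathlib

set_option autoImplicit false
open Cfsg
open scoped Pointwise

namespace Cfsg.Agent.S4108

open Cfsg.Agent.Helper20

/-- Let G be a finite group, p a prime and N a proper non-trivial normal p-subgroup such that for every x outside N all elements of the coset xN have the same order as x. Then every non-trivial subgroup H of G of order prime to p acts fixed-point-freely on N: NH is a Frobenius group with complement H and kernel N. -/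
theorem result {G : Type*} [Group G] [Finite G] (N : Subgroup G) [N.Normal] (hN1 : N ≠ ⊥) (hN2 : N ≠ ⊤)
    (heq : ∀ x : G, x ∉ N → ∀ n ∈ N, orderOf (x * n) = orderOf x)
    (p : ℕ) [Fact p.Prime] (hNp : IsPGroup p N) :
    ∀ H : Subgroup G, H ≠ ⊥ → (Nat.card H).Coprime p →
      Cfsg.IsFrobeniusComplement (H.subgroupOf (N ⊔ H)) ∧ Cfsg.frobeniusKernel (H.subgroupOf (N ⊔ H)) = (N.subgroupOf (N ⊔ H) : Set ↥(N ⊔ H)) := by
  intro H hH1 hHp
  have hp : p.Prime := Fact.out
  have hNn : N.Normal := inferInstance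
  have hordN : ∀ n ∈ N, ∃ k : ℕ, orderOf n ∣ p ^ k := by
    intro n hn
    obtain ⟨k, hk⟩ := hNp ⟨n, hn⟩
    refine ⟨k, orderOf_dvd_of_pow_eq_one ?_⟩
    have := congrArg Subtype.val hk
    simpa using this
  have hordH : ∀ h ∈ H, orderOf h ∣ Nat.card H := by
    intro h hh
    have := orderOf_dvd_natCard (⟨h, hh⟩ : ↥H)
    rwa [Subgroup.orderOf_mk] at this
  have hNH : ∀ x : G, x ∈ N → x ∈ H → x = 1 := by
    intro x hxN hxH
    have h1 := hordH x hxH
    obtain ⟨k, h2⟩ := hordN x hxN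
    have hcop : Nat.Coprime (Nat.card H) (p ^ k) := Nat.Coprime.pow_right _ hHp
    have := Nat.dvd_gcd h1 h2
    rw [hcop.gcd_eq_one] at this
    exact orderOf_eq_one_iff.mp (Nat.dvd_one.mp this)
  have hC : ∀ h ∈ H, h ≠ 1 → ∀ n ∈ N, h * n = n * h → n = 1 := by
    intro h hh hh1 n hn hcomm
    have hhN : h ∉ N := fun hN' => hh1 (hNH h hN' hh)
    have h1 := heq h hhN n hn
    have hcop : Nat.Coprime (orderOf h) (orderOf n) := by
      obtain ⟨k, h2⟩ := hordN n hn
      exact Nat.Coprime.coprime_dvd_left (hordH h hh)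
        (Nat.Coprime.coprime_dvd_right h2 (Nat.Coprime.pow_right _ hHp))
    have h4 := Commute.orderOf_mul_eq_mul_orderOf_of_coprime (show Commute h n from hcomm) hcop
    rw [h1] at h4
    have hpos : 0 < orderOf h := orderOf_pos h
    have h5 : orderOf n = 1 :=
      Nat.eq_of_mul_eq_mul_left hpos (show orderOf h * orderOf n = orderOf h * 1 by
        rw [mul_one]; exact h4.symm)
    exact orderOf_eq_one_iff.mp h5
  have hdec : ∀ g : G, g ∈ N ⊔ H → ∃ n ∈ N, ∃ h ∈ H, g = n * h := by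
    intro g hg
    have h1 : g ∈ ((N ⊔ H : Subgroup G) : Set G) := hg
    rw [Subgroup.normal_mul] at h1
    obtain ⟨n, hn, h, hh, rfl⟩ := Set.mem_mul.mp h1
    exact ⟨n, hn, h, hh, rfl⟩
  have hconj : ∀ h ∈ H, h ≠ 1 → ∀ n ∈ N, ∃ m ∈ N, n * h = m * h * m⁻¹ := by
    intro h hh hh1 n hn
    let φ : ↥N → ↥N := fun m => ⟨(m : G) * h * (m : G)⁻¹ * h⁻¹, by
      have e : (m : G) * h * (m : G)⁻¹ * h⁻¹ = (m : G) * (h * (m : G)⁻¹ * h⁻¹) := by group
      rw [e]
      exact N.mul_mem m.2 (hNn.conj_mem _ (N.inv_mem m.2) h)⟩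
    have hinj : Function.Injective φ := by
      intro m m' hmm
      have h1 : (m : G) * h * (m : G)⁻¹ * h⁻¹ = (m' : G) * h * (m' : G)⁻¹ * h⁻¹ :=
        congrArg Subtype.val hmm
      have h3 : (m : G) * h * (m : G)⁻¹ = (m' : G) * h * (m' : G)⁻¹ := mul_right_cancel h1
      have h2 : h * ((m : G)⁻¹ * (m' : G)) = ((m : G)⁻¹ * (m' : G)) * h := by
        calc h * ((m : G)⁻¹ * (m' : G))
            = (m : G)⁻¹ * ((m : G) * h * (m : G)⁻¹) * (m' : G) := by group
          _ = (m : G)⁻¹ * ((m' : G) * h * (m' : G)⁻¹) * (m' : G) := by rw [h3]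
          _ = ((m : G)⁻¹ * (m' : G)) * h := by group
      have h4 := hC h hh hh1 ((m : G)⁻¹ * (m' : G)) (N.mul_mem (N.inv_mem m.2) m'.2) h2
      apply Subtype.ext
      exact (inv_mul_eq_one.mp h4)
    have hsurj : Function.Surjective φ := Finite.injective_iff_surjective.mp hinj
    obtain ⟨m, hm⟩ := hsurj ⟨n, hn⟩
    refine ⟨m, m.2, ?_⟩
    have h1 : (m : G) * h * (m : G)⁻¹ * h⁻¹ = n := congrArg Subtype.val hm
    rw [← h1]; group
  constructor
  · refine ⟨?_, ?_, ?_⟩
    · intro hbot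
      apply hH1
      rw [eq_bot_iff]
      intro h hh
      have h1 : (⟨h, Subgroup.mem_sup_right hh⟩ : ↥(N ⊔ H)) ∈ H.subgroupOf (N ⊔ H) :=
        Subgroup.mem_subgroupOf.mpr hh
      rw [hbot, Subgroup.mem_bot] at h1
      exact Subgroup.mem_bot.mpr (congrArg Subtype.val h1)
    · intro htop
      obtain ⟨n, hn, hn1⟩ := exists_ne_one_of_ne_bot N hN1
      have h1 : (⟨n, Subgroup.mem_sup_left hn⟩ : ↥(N ⊔ H)) ∈ H.subgroupOf (N ⊔ H) := by
        rw [htop]; exact Subgroup.mem_top _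
      exact hn1 (hNH n hn (Subgroup.mem_subgroupOf.mp h1))
    · intro g hg
      rw [eq_bot_iff]
      intro x hx
      obtain ⟨hx1, hx2⟩ := Subgroup.mem_inf.mp hx
      rw [mem_conj_smul] at hx2
      rw [Subgroup.mem_subgroupOf] at hx1 hx2 hg
      rw [Subgroup.mem_bot]
      by_contra hxne
      obtain ⟨n, hn, h₀, hh₀, hgeq⟩ := hdec (g : G) g.2
      have hx2' : (g : G)⁻¹ * (x : G) * (g : G) ∈ H := by simpa using hx2
      have h5 : (n⁻¹ * (x : G) * n) ∈ H := by
        have e : n⁻¹ * (x : G) * n = h₀ * ((g : G)⁻¹ * (x : G) * (g : G)) * h₀⁻¹ := by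
          rw [hgeq]; group
        rw [e]
        exact H.mul_mem (H.mul_mem hh₀ hx2') (H.inv_mem hh₀)
      have h6 : (n⁻¹ * (x : G) * n) * (x : G)⁻¹ = 1 := by
        apply hNH
        · have e : (n⁻¹ * (x : G) * n) * (x : G)⁻¹ = n⁻¹ * ((x : G) * n * (x : G)⁻¹) := by group
          rw [e]
          exact N.mul_mem (N.inv_mem hn) (hNn.conj_mem _ hn _)
        · exact H.mul_mem h5 (H.inv_mem hx1)
      have h7 : (x : G) * n = n * (x : G) := by
        have h8 : n⁻¹ * (x : G) * n = (x : G) := by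
          rw [mul_inv_eq_one] at h6; exact h6
        calc (x : G) * n = n * (n⁻¹ * (x : G) * n) := by group
          _ = n * (x : G) := by rw [h8]
      have hx1' : (x : G) ≠ 1 := fun h => hxne (Subtype.ext h)
      have hn1 := hC (x : G) hx1 hx1' n hn h7
      apply hg
      rw [hgeq, hn1, one_mul]; exact hh₀
  · ext x
    show (x = 1 ∨ ∀ g : ↥(N ⊔ H), x ∉ MulAut.conj g • H.subgroupOf (N ⊔ H)) ↔ x ∈ N.subgroupOf (N ⊔ H)
    constructor
    · rintro (h1 | h2)
      · rw [h1]; exact Subgroup.one_mem _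
      · by_contra hxN
        have hxN' : (x : G) ∉ N := fun h => hxN (Subgroup.mem_subgroupOf.mpr h)
        obtain ⟨n, hn, h, hh, hxeq⟩ := hdec (x : G) x.2
        have hh1 : h ≠ 1 := by
          rintro rfl
          apply hxN'
          rw [hxeq, mul_one]; exact hn
        obtain ⟨m, hm, hmeq⟩ := hconj h hh hh1 n hn
        apply h2 ⟨m, Subgroup.mem_sup_left hm⟩
        rw [mem_conj_smul, Subgroup.mem_subgroupOf]
        have e : (((⟨m, Subgroup.mem_sup_left hm⟩ : ↥(N ⊔ H))⁻¹ * x * ⟨m, Subgroup.mem_sup_left hm⟩ :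
            ↥(N ⊔ H)) : G) = h := by
          push_cast
          rw [hxeq, hmeq]; group
        rw [e]; exact hh
    · intro hxN
      have hxN' : (x : G) ∈ N := Subgroup.mem_subgroupOf.mp hxN
      by_cases hx1 : x = 1
      · exact Or.inl hx1
      · right
        intro g hg
        rw [mem_conj_smul, Subgroup.mem_subgroupOf] at hg
        apply hx1
        have h1 : ((g⁻¹ * x * g : ↥(N ⊔ H)) : G) = 1 := by
          apply hNH _ _ hg
          push_cast
          have := hNn.conj_mem _ hxN' (g : G)⁻¹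
          rwa [inv_inv] at this
        have h2 : g⁻¹ * x * g = 1 := Subtype.ext h1
        have e : x = g * (g⁻¹ * x * g) * g⁻¹ := by group
        rw [e, h2]; group

end Cfsg.Agent.S4108
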