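import Cfsg.Statements.S4112

set_option autoImplicit false
open Cfsg

namespace Cfsg.Agent.S4112

theorem two_imp_one {G : Type*} [Group G] [Finite G] (N M : Subgroup G) [hNn : N.Normal]
    (hcam : ∀ g : G, g ∉ N → ∀ m ∈ M, ∃ x : G, x * g * x⁻¹ = g * m)
    (hcop : N.index.Coprime (Nat.card M)) :
    ∀ x ∈ M, x ≠ 1 → Subgroup.centralizer ({x} : Set G) ≤ N := by
  intro x hxM hx1 g hg
  by_contra hgN
  have hcomm : x * g = g * x := by
    rw [Subgroup.mem_centralizer_iff] at hg
    exact hg x (Set.mem_singleton x)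
  have hs1 : orderOf x ≠ 1 := fun h => hx1 (orderOf_eq_one_iff.mp h)
  obtain ⟨q, hq, hqs⟩ := Nat.exists_prime_and_dvd hs1
  haveI : Fact q.Prime := ⟨hq⟩
  have hs0 : orderOf x ≠ 0 := (orderOf_pos x).ne'
  obtain ⟨x', hx'def⟩ : ∃ x' : G, x' = x ^ (orderOf x / q) := ⟨_, rfl⟩
  have hx'o : orderOf x' = q := by rw [hx'def]; exact orderOf_pow_orderOf_div hs0 hqs
  have hx'M : x' ∈ M := by rw [hx'def]; exact M.pow_mem hxM _
  have hx'comm : Commute g x' := by
    rw [hx'def]; exact (Commute.pow_right (show Commute g x from hcomm.symm) _)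
  have hqM : q ∣ Nat.card M := by
    have h := Subgroup.card_dvd_of_le (Subgroup.zpowers_le.mpr hx'M)
    rwa [Nat.card_zpowers, hx'o] at h
  have hqN : ¬ q ∣ N.index :=
    (Nat.Prime.coprime_iff_not_dvd hq).mp (Nat.Coprime.coprime_dvd_right hqM hcop).symm
  have hgo : orderOf g ≠ 0 := (orderOf_pos g).ne'
  obtain ⟨t, o', ho', hoeq⟩ := Nat.exists_eq_pow_mul_and_not_dvd hgo q hq.ne_one
  obtain ⟨g', hg'def⟩ : ∃ g' : G, g' = g ^ (q ^ t) := ⟨_, rfl⟩
  have hg'N : g' ∉ N := by
    intro h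
    have h0 : g ^ (q ^ t) ∈ N := by rw [← hg'def]; exact h
    have h1 : (g : G ⧸ N) ^ (q ^ t) = 1 := by
      rw [← QuotientGroup.mk_pow]; exact (QuotientGroup.eq_one_iff _).mpr h0
    have h2 : (g : G ⧸ N) ^ N.index = 1 := pow_card_eq_one'
    have hc : Nat.Coprime (q ^ t) N.index :=
      Nat.Coprime.pow_left t ((Nat.Prime.coprime_iff_not_dvd hq).mpr hqN)
    have h3 : orderOf (g : G ⧸ N) ∣ Nat.gcd (q ^ t) N.index :=
      Nat.dvd_gcd (orderOf_dvd_of_pow_eq_one h1) (orderOf_dvd_of_pow_eq_one h2)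
    rw [Nat.Coprime.gcd_eq_one hc, Nat.dvd_one, orderOf_eq_one_iff, QuotientGroup.eq_one_iff] at h3
    exact hgN h3
  have hg'o : orderOf g' ∣ o' := by
    apply orderOf_dvd_of_pow_eq_one
    rw [hg'def, ← pow_mul, ← hoeq, pow_orderOf_eq_one]
  have hcop2 : Nat.Coprime (orderOf g') (orderOf x') := by
    rw [hx'o]
    exact Nat.Coprime.coprime_dvd_left hg'o ((Nat.Prime.coprime_iff_not_dvd hq).mpr ho').symm
  have hcomm2 : Commute g' x' := by rw [hg'def]; exact Commute.pow_left hx'comm _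
  obtain ⟨y, hy⟩ := hcam g' hg'N x' hx'M
  have h1 : orderOf (g' * x') = orderOf g' * q := by
    rw [hcomm2.orderOf_mul_eq_mul_orderOf_of_coprime hcop2, hx'o]
  have h2 : orderOf (g' * x') = orderOf g' := by
    rw [← hy]; exact (MulAut.conj y).orderOf_eq g'
  have h3 : orderOf g' * q = orderOf g' * 1 := by rw [← h1, h2, mul_one]
  have h4 := Nat.eq_of_mul_eq_mul_left (orderOf_pos g') h3
  exact hq.ne_one h4

theorem one_imp_two {G : Type*} [Group G] [Finite G] (N M : Subgroup G) [hNn : N.Normal]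
    [hMn : M.Normal]
    (h1 : ∀ x ∈ M, x ≠ 1 → Subgroup.centralizer ({x} : Set G) ≤ N) :
    N.index.Coprime (Nat.card M) := by
  by_contra hnc
  obtain ⟨p, hp, hpN, hpM⟩ := Nat.Prime.not_coprime_iff_dvd.mp hnc
  haveI : Fact p.Prime := ⟨hp⟩
  obtain ⟨P⟩ : Nonempty (Sylow p G) := inferInstance
  have hPN : ¬ (P : Subgroup G) ≤ N := by
    intro hle
    have h2 : N.index ∣ (P : Subgroup G).index := Subgroup.index_dvd_of_le hle
    exact P.not_dvd_index (hpN.trans h2)
  obtain ⟨g, hgP, hgN⟩ := SetLike.not_le_iff_exists.mp hPN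
  have hZ : IsPGroup p (Subgroup.zpowers g) :=
    IsPGroup.to_le P.isPGroup' (Subgroup.zpowers_le.mpr hgP)
  letI act : MulAction ↥(Subgroup.zpowers g) ↥M :=
    { smul := fun z m => ⟨(z : G) * (m : G) * (z : G)⁻¹, hMn.conj_mem _ m.2 _⟩
      one_smul := fun m => Subtype.ext (by
        show (1 : G) * (m : G) * (1 : G)⁻¹ = m
        group)
      mul_smul := fun z w m => Subtype.ext (by
        show ((z : G) * (w : G)) * (m : G) * ((z : G) * (w : G))⁻¹ =
          (z : G) * ((w : G) * (m : G) * (w : G)⁻¹) * (z : G)⁻¹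
        group) }
  have hfix : ∀ m : ↥M, m ∈ MulAction.fixedPoints ↥(Subgroup.zpowers g) ↥M → m = 1 := by
    intro m hm
    by_contra hm1
    have h2 : (⟨g, Subgroup.mem_zpowers g⟩ : ↥(Subgroup.zpowers g)) • m = m := hm _
    have h3 : g * (m : G) * g⁻¹ = m := congrArg Subtype.val h2
    have hmG : (m : G) ≠ 1 := fun h => hm1 (Subtype.ext h)
    have h4 : g ∈ Subgroup.centralizer ({(m : G)} : Set G) := by
      rw [Subgroup.mem_centralizer_iff]
      intro y hy
      rw [Set.mem_singleton_iff.mp hy]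
      have h5 : g * (m : G) = g * (m : G) * g⁻¹ * g := by group
      rw [h5, h3]
    exact hgN (h1 _ m.2 hmG h4)
  have hcard : Nat.card ↥(MulAction.fixedPoints ↥(Subgroup.zpowers g) ↥M) = 1 := by
    rw [Nat.card_eq_one_iff_unique]
    refine ⟨⟨fun a b => Subtype.ext ((hfix a.1 a.2).trans (hfix b.1 b.2).symm)⟩, ⟨⟨1, ?_⟩⟩⟩
    intro z
    exact Subtype.ext (by
      show (z : G) * ((1 : ↥M) : G) * (z : G)⁻¹ = ((1 : ↥M) : G)
      simp)
  have hmod := hZ.card_modEq_card_fixedPoints (α := ↥M)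
  rw [hcard] at hmod
  have h6 : Nat.card M % p = 0 := Nat.mod_eq_zero_of_dvd hpM
  unfold Nat.ModEq at hmod
  rw [h6, Nat.mod_eq_of_lt hp.one_lt] at hmod
  exact zero_ne_one hmod

theorem supplement {G : Type*} [Group G] [Finite G] (N M : Subgroup G) [hNn : N.Normal]
    (hcop : N.index.Coprime (Nat.card M)) : ∃ H : Subgroup G, H ⊔ N = ⊤ ∧ H ⊓ M = ⊥ := by
  classical
  have hex : ∃ n, ∃ H : Subgroup G, H ⊔ N = ⊤ ∧ Nat.card H = n := ⟨_, ⊤, top_sup_eq _, rfl⟩
  obtain ⟨H, hH, hcard⟩ := Nat.find_spec hex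
  have hmin : ∀ K : Subgroup G, K ⊔ N = ⊤ → Nat.card H ≤ Nat.card K := by
    intro K hK
    rw [hcard]
    exact Nat.find_min' hex ⟨K, hK, rfl⟩
  have key : ∀ q : ℕ, q.Prime → q ∣ Nat.card H → q ∣ N.index := by
    intro q hq hqH
    by_contra hqN
    haveI : Fact q.Prime := ⟨hq⟩
    obtain ⟨N', hN'def⟩ : ∃ N' : Subgroup ↥H, N' = N.subgroupOf H := ⟨_, rfl⟩
    haveI hN'n : N'.Normal := by rw [hN'def]; infer_instance
    have hidx : N'.index = N.index := by
      rw [hN'def]
      show N.relIndex H = N.index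
      rw [← Subgroup.relIndex_sup_right, hH, Subgroup.relIndex_top_right]
    have hN'map : N'.map H.subtype ≤ N := by
      rw [hN'def, Subgroup.subgroupOf_map_subtype]; exact inf_le_left
    have htop : (⊤ : Subgroup ↥H).map H.subtype = H := by
      rw [← MonoidHom.range_eq_map, Subgroup.range_subtype]
    obtain ⟨P⟩ : Nonempty (Sylow q ↥N') := inferInstance
    obtain ⟨P', hP'def⟩ : ∃ P' : Subgroup ↥H, P' = (P : Subgroup ↥N').map N'.subtype :=
      ⟨_, rfl⟩
    have hP'le : P' ≤ N' := by rw [hP'def]; exact Subgroup.map_subtype_le _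
    have hfrat : Subgroup.normalizer (P' : Set ↥H) ⊔ N' = ⊤ := by
      rw [hP'def]; exact Sylow.normalizer_sup_eq_top P
    have hK : (Subgroup.normalizer (P' : Set ↥H)).map H.subtype ⊔ N = ⊤ := by
      have h1 : (Subgroup.normalizer (P' : Set ↥H)).map H.subtype ⊔ N'.map H.subtype = H := by
        rw [← Subgroup.map_sup, hfrat, htop]
      have h2 : H ≤ (Subgroup.normalizer (P' : Set ↥H)).map H.subtype ⊔ N :=
        h1.ge.trans (sup_le_sup_left hN'map _)
      have h3 : H ⊔ N ≤ (Subgroup.normalizer (P' : Set ↥H)).map H.subtype ⊔ N :=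
        sup_le h2 le_sup_right
      rw [hH] at h3
      exact top_le_iff.mp h3
    have hnorm : Subgroup.normalizer (P' : Set ↥H) = ⊤ := by
      have h1 := hmin _ hK
      rw [Subgroup.card_subtype] at h1
      exact (Subgroup.card_eq_iff_eq_top _).mp (le_antisymm (Subgroup.card_le_card_group _) h1)
    haveI hP'n : P'.Normal := Subgroup.normalizer_eq_top_iff.mp hnorm
    have hPcard : Nat.card P' = Nat.card (P : Subgroup ↥N') := by
      rw [hP'def]; exact Subgroup.card_subtype N' _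
    have hqidx : ¬ q ∣ P'.index := by
      intro hdvd
      have e1 : Nat.card P' * P'.index = Nat.card ↥H := Subgroup.card_mul_index P'
      have e2 : Nat.card N' * N'.index = Nat.card ↥H := Subgroup.card_mul_index N'
      have e3 : Nat.card (P : Subgroup ↥N') * (P : Subgroup ↥N').index = Nat.card ↥N' :=
        Subgroup.card_mul_index _
      have e4 : P'.index = (P : Subgroup ↥N').index * N'.index := by
        have hpos : 0 < Nat.card P' := Nat.card_pos
        apply Nat.eq_of_mul_eq_mul_left hpos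
        rw [e1, ← e2, ← e3, hPcard]; ring
      rw [e4] at hdvd
      rcases (Nat.Prime.dvd_mul hq).mp hdvd with h | h
      · exact P.not_dvd_index h
      · rw [hidx] at h; exact hqN h
    obtain ⟨k, hk⟩ := (P.isPGroup').exists_card_eq
    have hcop' : Nat.Coprime (Nat.card P') P'.index := by
      rw [hPcard, hk]
      exact Nat.Coprime.pow_left k ((Nat.Prime.coprime_iff_not_dvd hq).mpr hqidx)
    obtain ⟨H₁, hcomp⟩ := Subgroup.exists_right_complement'_of_coprime hcop'
    have hc1 : Nat.card P' * Nat.card H₁ = Nat.card ↥H := hcomp.card_mul_card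
    have hsup : P' ⊔ H₁ = ⊤ := hcomp.sup_eq_top
    have hH₁ : H₁.map H.subtype ⊔ N = ⊤ := by
      have h1 : P'.map H.subtype ⊔ H₁.map H.subtype = H := by
        rw [← Subgroup.map_sup, hsup, htop]
      have h2 : P'.map H.subtype ≤ N := (Subgroup.map_mono hP'le).trans hN'map
      have h3 : H ≤ H₁.map H.subtype ⊔ N :=
        h1.ge.trans (sup_le (h2.trans le_sup_right) le_sup_left)
      have h4 : H ⊔ N ≤ H₁.map H.subtype ⊔ N := sup_le h3 le_sup_right
      rw [hH] at h4
      exact top_le_iff.mp h4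
    have h5 := hmin _ hH₁
    rw [Subgroup.card_subtype] at h5
    have hP1 : Nat.card P' = 1 := by
      have hpos : 0 < Nat.card H₁ := Nat.card_pos
      have h6 : Nat.card P' * Nat.card H₁ ≤ 1 * Nat.card H₁ := by rw [hc1, one_mul]; exact h5
      have h7 := Nat.le_of_mul_le_mul_right h6 hpos
      have h8 : 0 < Nat.card P' := Nat.card_pos
      omega
    have hqN' : q ∣ Nat.card ↥N' := by
      have e2 : Nat.card N' * N'.index = Nat.card ↥H := Subgroup.card_mul_index N'
      rw [← e2] at hqH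
      rcases (Nat.Prime.dvd_mul hq).mp hqH with h | h
      · exact h
      · rw [hidx] at h; exact absurd h hqN
    have hqP : q ∣ Nat.card (P : Subgroup ↥N') := P.dvd_card_of_dvd_card hqN'
    rw [← hPcard, hP1] at hqP
    exact hq.one_lt.ne' (Nat.dvd_one.mp hqP)
  refine ⟨H, hH, ?_⟩
  by_contra hne
  have h1 : Nat.card ↥(H ⊓ M) ≠ 1 := fun h => hne (Subgroup.eq_bot_of_card_eq _ h)
  obtain ⟨q, hq, hqd⟩ := Nat.exists_prime_and_dvd h1
  have hqH : q ∣ Nat.card H := hqd.trans (Subgroup.card_dvd_of_le inf_le_left)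
  have hqM : q ∣ Nat.card M := hqd.trans (Subgroup.card_dvd_of_le inf_le_right)
  exact Nat.Prime.not_coprime_iff_dvd.mpr ⟨q, hq, key q hq hqH, hqM⟩ hcop

/-- Let G be a finite group and M ≤ N non-trivial proper normal subgroups such that for every g outside N the conjugacy class of g is a union of cosets of M (equivalently gm is conjugate to g for every m ∈ M). Then (1) and (2) below are equivalent, and they imply (3): (1) every g outside N acts fixed-point-freely on M, that is C_G(x) ≤ N for every x ∈ M, x ≠ 1; (2) the index of N in G is coprime to the order of M; (3) there is a subgroup H of G with HN = G and H ∩ M = 1. -/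
theorem result {G : Type*} [Group G] [Finite G] (N M : Subgroup G) [N.Normal] [M.Normal] (hMN : M ≤ N) (hM1 : M ≠ ⊥) (hN2 : N ≠ ⊤)
    (hcam : ∀ g : G, g ∉ N → ∀ m ∈ M, ∃ x : G, x * g * x⁻¹ = g * m) :
    ((∀ x ∈ M, x ≠ 1 → Subgroup.centralizer ({x} : Set G) ≤ N) ↔ N.index.Coprime (Nat.card M)) ∧
    ((∀ x ∈ M, x ≠ 1 → Subgroup.centralizer ({x} : Set G) ≤ N) → ∃ H : Subgroup G, H ⊔ N = ⊤ ∧ H ⊓ M = ⊥) := by
  have h12 : (∀ x ∈ M, x ≠ 1 → Subgroup.centralizer ({x} : Set G) ≤ N) →
      N.index.Coprime (Nat.card M) := fun h => one_imp_two N M h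
  exact ⟨⟨h12, two_imp_one N M hcam⟩, fun h => supplement N M (h12 h)⟩

end Cfsg.Agent.S4112
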