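import Cfsg.Statements.S4116
import Cfsg.Agent.Lead.FrobConj
import Cfsg.Agent.Helper3.Carter
import Mathlib

set_option autoImplicit false
open Cfsg

namespace Cfsg.Agent.S4116

universe u

theorem mem_map_conj {G : Type u} [Group G] (H : Subgroup G) (g x : G) :
    x ∈ H.map (MulAut.conj g).toMonoidHom ↔ g⁻¹ * x * g ∈ H := by
  constructor
  · rintro ⟨y, hy, rfl⟩
    have e : g⁻¹ * ((MulAut.conj g).toMonoidHom y) * g = y := by
      show g⁻¹ * (g * y * g⁻¹) * g = y
      group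
    rw [e]; exact hy
  · intro h
    refine ⟨g⁻¹ * x * g, h, ?_⟩
    show g * (g⁻¹ * x * g) * g⁻¹ = x
    group

theorem ti_conj {G : Type u} [Group G] (H : Subgroup G) (hTI : Cfsg.IsTISubset (H : Set G))
    {x a b : G} (hx : x ≠ 1) (ha : a⁻¹ * x * a ∈ H) (hb : b⁻¹ * x * b ∈ H) :
    b⁻¹ * a ∈ Subgroup.normalizer (H : Set G) := by
  by_contra hnot
  have h1 := hTI (b⁻¹ * a) hnot (a⁻¹ * x * a) ha (by
    have e : b⁻¹ * a * (a⁻¹ * x * a) * (b⁻¹ * a)⁻¹ = b⁻¹ * x * b := by group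
    rw [e]; exact hb)
  apply hx
  have e2 : x = a * (a⁻¹ * x * a) * a⁻¹ := by group
  rw [e2, h1]; group

theorem pi_mem {G : Type u} [Group G] [Finite G] (H : Subgroup G)
    (hHall : (Nat.card H).Coprime H.index) {z : G}
    (hz : z ∈ Subgroup.normalizer (H : Set G))
    (hpi : ∀ q : ℕ, q.Prime → q ∣ orderOf z → q ∣ Nat.card H) : z ∈ H := by
  have hHN : H ≤ Subgroup.normalizer (H : Set G) := Subgroup.le_normalizer
  have h1 : z ^ H.relIndex (Subgroup.normalizer (H : Set G)) ∈ H := by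
    have h2 := Subgroup.pow_index_mem (H.subgroupOf (Subgroup.normalizer (H : Set G)))
      (⟨z, hz⟩ : Subgroup.normalizer (H : Set G))
    exact h2
  have hdvd : H.relIndex (Subgroup.normalizer (H : Set G)) ∣ H.index :=
    Subgroup.relIndex_dvd_index_of_le hHN
  have hcop : (orderOf z).Coprime (H.relIndex (Subgroup.normalizer (H : Set G))) := by
    by_contra hne
    obtain ⟨q, hq, hqd⟩ := Nat.exists_prime_and_dvd hne
    have hq1 : q ∣ orderOf z := hqd.trans (Nat.gcd_dvd_left _ _)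
    have hq2 : q ∣ H.index := (hqd.trans (Nat.gcd_dvd_right _ _)).trans hdvd
    have h3 := Nat.eq_one_of_dvd_coprimes hHall (hpi q hq hq1) hq2
    exact hq.ne_one h3
  exact Cfsg.Agent.Helper3.mem_of_pow_mem_of_coprime H z (pow_orderOf_eq_one z) h1 hcop

theorem conj_into {G : Type u} [Group G] [Finite G] (H : Subgroup G) {q : ℕ} [Fact q.Prime]
    (R : Subgroup G) (hR : IsPGroup q R) (hq : ¬ q ∣ H.index) :
    ∃ g : G, ∀ r ∈ R, g⁻¹ * r * g ∈ H := by
  have hcard : ¬ q ∣ Nat.card (G ⧸ H) := by rwa [← Subgroup.index_eq_card]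
  obtain ⟨c, hc⟩ := hR.nonempty_fixed_point_of_prime_not_dvd_card (G ⧸ H) hcard
  obtain ⟨g, rfl⟩ := QuotientGroup.mk_surjective c
  refine ⟨g, fun r hr => ?_⟩
  have h1 : (⟨r, hr⟩ : R) • (g : G ⧸ H) = (g : G ⧸ H) := hc ⟨r, hr⟩
  have h2 : ((r * g : G) : G ⧸ H) = (g : G ⧸ H) := h1
  have h3 : (r * g)⁻¹ * g ∈ H := QuotientGroup.eq.mp h2
  have h4 : g⁻¹ * r * g = ((r * g)⁻¹ * g)⁻¹ := by group
  rw [h4]; exact H.inv_mem h3

theorem frob_of_ti {G : Type u} [Group G] [Finite G] (H : Subgroup G)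
    (hHall : (Nat.card H).Coprime H.index)
    (hTI : Cfsg.IsTISubset (H : Set G)) (K : Subgroup G)
    (hK : ∀ q : ℕ, q.Prime → q ∣ Nat.card K → q ∣ Nat.card H) (g : G)
    (hne : (H.map (MulAut.conj g).toMonoidHom).subgroupOf K ≠ ⊥)
    (hnt : ¬ K ≤ H.map (MulAut.conj g).toMonoidHom) :
    Cfsg.IsFrobeniusComplement ((H.map (MulAut.conj g).toMonoidHom).subgroupOf K) := by
  refine ⟨hne, fun h => hnt (Subgroup.subgroupOf_eq_top.mp h), ?_⟩
  intro k hk
  rw [eq_bot_iff]
  intro y hy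
  obtain ⟨hy1, hy2⟩ := Subgroup.mem_inf.mp hy
  rw [Subgroup.mem_bot]
  by_contra hy0
  rw [Cfsg.Agent.Helper1.mem_conj_smul_iff] at hy2
  rw [Subgroup.mem_subgroupOf, mem_map_conj] at hy1 hy2
  have hyG : (y : G) ≠ 1 := fun h => hy0 (Subtype.ext h)
  have hb : ((k : G) * g)⁻¹ * (y : G) * ((k : G) * g) ∈ H := by
    have e : ((k : G) * g)⁻¹ * (y : G) * ((k : G) * g)
        = g⁻¹ * ((k : G)⁻¹ * (y : G) * (k : G)) * g := by group
    rw [e]; exact hy2
  have hn := ti_conj H hTI hyG hy1 hb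
  have hn' : g⁻¹ * (k : G) * g ∈ Subgroup.normalizer (H : Set G) := by
    have e : g⁻¹ * (k : G) * g = (((k : G) * g)⁻¹ * g)⁻¹ := by group
    rw [e]; exact Subgroup.inv_mem _ hn
  have hord : orderOf (g⁻¹ * (k : G) * g) = orderOf (k : G) := by
    have h2 := MulEquiv.orderOf_eq (MulAut.conj g⁻¹) (k : G)
    rw [MulAut.conj_apply, inv_inv] at h2
    exact h2
  have hkH : g⁻¹ * (k : G) * g ∈ H := by
    apply pi_mem H hHall hn'
    intro q hq hqd
    rw [hord, Subgroup.orderOf_coe] at hqd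
    exact hK q hq (hqd.trans (orderOf_dvd_natCard k))
  apply hk
  rw [Subgroup.mem_subgroupOf, mem_map_conj]
  exact hkH

theorem stepF {G : Type u} [Group G] [Finite G] (H : Subgroup G)
    (hHall : (Nat.card H).Coprime H.index)
    (hTI : Cfsg.IsTISubset (H : Set G)) (K : Subgroup G)
    (hK : ∀ q : ℕ, q.Prime → q ∣ Nat.card K → q ∣ Nat.card H)
    (hcon : ∀ g : G, ¬ K ≤ H.map (MulAut.conj g).toMonoidHom)
    (q : ℕ) [Fact q.Prime] (hqK : q ∣ Nat.card K) :
    ∃ A : Subgroup K, Cfsg.IsFrobeniusComplement A ∧ ¬ q ∣ A.index := by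
  obtain ⟨Q⟩ : Nonempty (Sylow q K) := inferInstance
  have hqH : q ∣ Nat.card H := hK q Fact.out hqK
  have hqi : ¬ q ∣ H.index := by
    intro hd
    exact (Fact.out : q.Prime).ne_one (Nat.eq_one_of_dvd_coprimes hHall hqH hd)
  obtain ⟨g, hg⟩ := conj_into H ((Q : Subgroup K).map K.subtype) (Q.isPGroup'.map K.subtype) hqi
  have hQA : (Q : Subgroup K) ≤ (H.map (MulAut.conj g).toMonoidHom).subgroupOf K := by
    intro y hy
    rw [Subgroup.mem_subgroupOf, mem_map_conj]
    exact hg (y : G) ⟨y, hy, rfl⟩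
  refine ⟨(H.map (MulAut.conj g).toMonoidHom).subgroupOf K, ?_, ?_⟩
  · apply frob_of_ti H hHall hTI K hK g _ (hcon g)
    intro hbot
    rw [hbot] at hQA
    exact Q.ne_bot_of_dvd_card hqK (le_bot_iff.mp hQA)
  · intro hd
    exact Q.not_dvd_index (hd.trans (Subgroup.index_dvd_of_le hQA))

/-- Let G be a finite group with a subgroup H whose order is coprime to its index (a Hall subgroup) and which meets each of its conjugates by elements outside N_G(H) trivially. Then every subgroup of G whose order is divisible only by primes dividing the order of H lies in a conjugate of H. -/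
theorem result {G : Type*} [Group G] [Finite G] (H : Subgroup G)
    (hHall : (Nat.card H).Coprime H.index) (hTI : Cfsg.IsTISubset (H : Set G))
    (K : Subgroup G) (hK : ∀ q : ℕ, q.Prime → q ∣ Nat.card K → q ∣ Nat.card H) :
    ∃ g : G, K ≤ H.map (MulAut.conj g).toMonoidHom := by
  classical
  by_contra hcon
  rw [not_exists] at hcon
  have hKne : Nat.card K ≠ 1 := by
    intro h1
    have hbot : K = ⊥ := K.eq_bot_of_card_eq h1
    exact hcon 1 (by rw [hbot]; exact bot_le)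
  obtain ⟨q1, hq1, hq1K⟩ := Nat.exists_prime_and_dvd hKne
  haveI : Fact q1.Prime := ⟨hq1⟩
  obtain ⟨A, hA, -⟩ := stepF H hHall hTI K hK hcon q1 hq1K
  have hidx : A.index ≠ 1 := fun h1 => hA.2.1 (Subgroup.index_eq_one.mp h1)
  obtain ⟨q2, hq2, hq2d⟩ := Nat.exists_prime_and_dvd hidx
  haveI : Fact q2.Prime := ⟨hq2⟩
  have hq2K : q2 ∣ Nat.card K := hq2d.trans (Subgroup.index_dvd_card A)
  obtain ⟨B, hB, hBq⟩ := stepF H hHall hTI K hK hcon q2 hq2K
  obtain ⟨k, hk⟩ := Cfsg.Agent.Lead.frob_conj A B hA hB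
  have hcard : Nat.card A = Nat.card B := by
    rw [← hk]
    have h1 : Nat.card (B.map (MulAut.conj k).toMonoidHom) = Nat.card B :=
      Subgroup.card_map_of_injective (MulAut.conj k).injective
    exact h1
  have hi : A.index = B.index := by
    have h1 := Subgroup.card_mul_index A
    have h2 := Subgroup.card_mul_index B
    rw [hcard, ← h2] at h1
    exact Nat.eq_of_mul_eq_mul_left Nat.card_pos h1
  rw [hi] at hq2d
  exact hBq hq2d

end Cfsg.Agent.S4116
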