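import Cfsg.Statements.S4117
import Cfsg.Agent.Helper3.ActBridge
import Cfsg.Agent.S0025
import Cfsg.Agent.S0026
import Cfsg.Agent.S0027
import Cfsg.Agent.S0055

set_option autoImplicit false
open Cfsg

namespace Cfsg.Agent.S4117

open Cfsg.Agent.Helper3.ActBridge Cfsg.Agent.Lead

/-- `[G, A]` centralizes the (cyclic) derived subgroup of a Z-group `G`. -/
theorem comm_centralizes {G A : Type*} [Group G] [Finite G] [Group A] [MulDistribMulAction A G]
    [IsZGroup G] (k : G)
    (hk : k ∈ Subgroup.closure {y : G | ∃ (a : A) (g : G), y = g⁻¹ * a • g})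
    (d : G) (hd : d ∈ commutator G) : k * d = d * k := by
  haveI : IsCyclic (commutator G) := IsZGroup.isCyclic_commutator G
  obtain ⟨⟨d₀, hd₀D⟩, hgen⟩ := IsCyclic.exists_generator (α := commutator G)
  have hgen' : ∀ y ∈ commutator G, ∃ n : ℤ, d₀ ^ n = y := by
    intro y hy
    obtain ⟨n, hn⟩ := Subgroup.mem_zpowers_iff.1 (hgen ⟨y, hy⟩)
    exact ⟨n, by simpa using congrArg Subtype.val hn⟩
  have hS : ∀ s ∈ {y : G | ∃ (a : A) (g : G), y = g⁻¹ * a • g}, Commute s d₀ := by
    rintro s ⟨a, g, rfl⟩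
    have hu : g * d₀ * g⁻¹ ∈ commutator G :=
      (inferInstance : (commutator G).Normal).conj_mem d₀ hd₀D g
    obtain ⟨i, hi⟩ := hgen' _ hu
    have hv : a⁻¹ • d₀ ∈ commutator G := smul_mem_commutator a⁻¹ d₀ hd₀D
    obtain ⟨j, hj⟩ := hgen' _ hv
    have key : a • g * d₀ * (a • g)⁻¹ = g * d₀ * g⁻¹ := by
      have e1 : a • g * d₀ * (a • g)⁻¹ = a • (g * (a⁻¹ • d₀) * g⁻¹) := by
        rw [smul_mul', smul_mul', smul_inv', smul_inv_smul]
      have e2 : g * (a⁻¹ • d₀) * g⁻¹ = (a⁻¹ • d₀) ^ i := by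
        rw [← hj, ← conj_zpow, ← hi, ← zpow_mul, ← zpow_mul, mul_comm]
      rw [e1, e2, smul_zpow', smul_inv_smul, hi]
    show g⁻¹ * a • g * d₀ = d₀ * (g⁻¹ * a • g)
    calc g⁻¹ * a • g * d₀ = g⁻¹ * (a • g * d₀ * (a • g)⁻¹) * a • g := by group
      _ = g⁻¹ * (g * d₀ * g⁻¹) * a • g := by rw [key]
      _ = d₀ * (g⁻¹ * a • g) := by group
  have hk' : Commute k d₀ := by
    induction hk using Subgroup.closure_induction with
    | mem s hs => exact hS s hs
    | one => exact Commute.one_left d₀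
    | mul x y _ _ ihx ihy => exact ihx.mul_left ihy
    | inv x _ ihx => exact ihx.inv_left
  obtain ⟨n, rfl⟩ := hgen' d hd
  exact (hk'.zpow_right n).eq

/-- `[G, A]` is cyclic when `G` is a Z-group. -/
theorem comm_cyclic {G A : Type*} [Group G] [Finite G] [Group A] [MulDistribMulAction A G]
    [IsZGroup G] :
    IsCyclic (Subgroup.closure {y : G | ∃ (a : A) (g : G), y = g⁻¹ * a • g}) := by
  obtain ⟨K, hK⟩ : ∃ K : Subgroup G,
      K = Subgroup.closure {y : G | ∃ (a : A) (g : G), y = g⁻¹ * a • g} := ⟨_, rfl⟩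
  rw [← hK]
  have hcent : ∀ k ∈ K, ∀ d ∈ commutator G, k * d = d * k := by
    intro k hk d hd
    rw [hK] at hk
    exact comm_centralizes k hk d hd
  have hker : ((Abelianization.of).comp K.subtype : K →* Abelianization G).ker ≤
      Subgroup.center K := by
    intro x hx
    rw [Subgroup.mem_center_iff]
    intro y
    have hx' : (x : G) ∈ commutator G := by
      rw [← Abelianization.ker_of]; exact hx
    apply Subtype.ext
    exact hcent y y.2 x hx'
  haveI : IsMulCommutative K :=
    ((Abelianization.of).comp K.subtype :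
      K →* Abelianization G).isMulCommutative_of_isCyclic_of_ker_le_center hker
  let _ : CommGroup K := ⟨fun a b => IsMulCommutative.is_comm.comm a b⟩
  exact IsCyclic.of_exponent_eq_card (IsZGroup.exponent_eq_card K)

theorem hall_arith (n c : ℕ) (hn : n ≠ 0) (hc : c ∣ n)
    (h : ∀ p : ℕ, p.Prime → p ∣ c → p ^ (n.factorization p) ∣ c) : c.Coprime (n / c) := by
  apply Nat.coprime_of_dvd
  intro p hp hpc hpn
  have h1 := h p hp hpc
  have h2 : p ^ (n.factorization p) * p ∣ c * (n / c) := Nat.mul_dvd_mul h1 hpn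
  rw [Nat.mul_div_cancel' hc, ← pow_succ] at h2
  exact Nat.pow_succ_factorization_not_dvd hn hp h2

/-- Let A be a finite group acting on the finite group G by automorphisms with the orders of A and G coprime, and suppose every Sylow subgroup of G is cyclic. Then the fixed-point subgroup C_G(A) is a Hall subgroup of G (its order is coprime to its index), the subgroup [G, A] generated by the elements g⁻¹·a(g) is cyclic and normal with [G, A] ∩ C_G(A) = 1 and [G, A]·C_G(A) = G. -/
theorem result {G A : Type*} [Group G] [Finite G] [Group A] [Finite A]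
    [MulDistribMulAction A G] (hcop : (Nat.card A).Coprime (Nat.card G))
    (hcyc : ∀ (p : ℕ) [Fact p.Prime] (P : Sylow p G), IsCyclic (P : Subgroup G)) :
    (Nat.card (MulAction.fixedPoints A G : Set G)).Coprime (Nat.card G / Nat.card (MulAction.fixedPoints A G : Set G)) ∧
    IsCyclic (Subgroup.closure {y : G | ∃ (a : A) (g : G), y = g⁻¹ * a • g}) ∧
    (Subgroup.closure {y : G | ∃ (a : A) (g : G), y = g⁻¹ * a • g}).Normal ∧
    (Subgroup.closure {y : G | ∃ (a : A) (g : G), y = g⁻¹ * a • g} : Set G) ∩ MulAction.fixedPoints A G = {1} ∧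
    Subgroup.closure {y : G | ∃ (a : A) (g : G), y = g⁻¹ * a • g} ⊔ Subgroup.closure (MulAction.fixedPoints A G) = ⊤ := by
  classical
  haveI hZ : IsZGroup G := ⟨fun p hp P => by haveI : Fact p.Prime := ⟨hp⟩; exact hcyc p P⟩
  have h2 : IsCyclic (Subgroup.closure {y : G | ∃ (a : A) (g : G), y = g⁻¹ * a • g}) :=
    comm_cyclic
  have h3 : (Subgroup.closure {y : G | ∃ (a : A) (g : G), y = g⁻¹ * a • g}).Normal :=
    comm_normal
  obtain ⟨K, hK⟩ : ∃ K : Subgroup G,
      K = Subgroup.closure {y : G | ∃ (a : A) (g : G), y = g⁻¹ * a • g} := ⟨_, rfl⟩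
  rw [← hK] at h2 h3 ⊢
  haveI := h2
  haveI : Finite (Gam G A) := finite_gam
  have hAG := As_le_normalizer_Gs (G := G) (A := A)
  have hcop' := coprime_As_Gs hcop
  haveI : Group.IsSolvable (Gs G A) := isSolvable_Gs
  have hsolv' : Group.IsSolvable (As G A) ∨ Group.IsSolvable (Gs G A) := Or.inr inferInstance
  have hKc : ⁅Gs G A, As G A⁆ = K.map (iG G A) := by rw [hK]; exact commutator_Gs_As
  have hCc := Gs_inf_centralizer (G := G) (A := A)
  obtain ⟨C, hC⟩ : ∃ C : Subgroup G, C = FixedPoints.subgroup A G := ⟨_, rfl⟩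
  have hCmem : ∀ x : G, x ∈ C ↔ ∀ a : A, a • x = x := by
    intro x; rw [hC]; exact Iff.rfl
  have hcl : Subgroup.closure (MulAction.fixedPoints A G) = C := by
    rw [hC]; exact Subgroup.closure_eq (FixedPoints.subgroup A G)
  have hcardC : Nat.card (MulAction.fixedPoints A G : Set G) = Nat.card C := by
    rw [hC]; rfl
  -- (5)
  have h5 : K ⊔ C = ⊤ := by
    have h26 := Cfsg.Agent.S0026.result (As G A) (Gs G A) hAG hcop' hsolv'
    rw [hKc, hCc, ← hC, ← Subgroup.map_sup] at h26
    apply Subgroup.map_injective (iG_injective (G := G) (A := A))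
    rw [h26, ← Gs_eq_map_top]
  -- (4)
  have hKinv : ∀ a : A, ∀ x ∈ K, a • x ∈ K := by
    intro a x hx
    rw [hK] at hx ⊢
    exact comm_invariant a x hx
  obtain ⟨V, hV⟩ : ∃ V : Subgroup (Gam G A), V = K.map (iG G A) := ⟨_, rfl⟩
  have hVG : V ≤ Gs G A := by rw [hV]; exact map_iG_le_Gs K
  have hAV : As G A ≤ Subgroup.normalizer (V : Set (Gam G A)) := by
    rw [hV]; exact As_le_normalizer_map K hKinv
  haveI hVcyc : IsCyclic V := by
    rw [hV]
    exact isCyclic_of_surjective ((iG G A).subgroupMap K) ((iG G A).subgroupMap_surjective K)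
  have h27 := Cfsg.Agent.S0027.result (As G A) (Gs G A) hAG hcop' hsolv'
  rw [hKc, ← hV] at h27
  have h55 := (Cfsg.Agent.S0055.result (As G A) V hAV (coprime_of_le le_rfl hVG hcop')).1
  rw [h27] at h55
  have h4 : ∀ x ∈ K, (∀ a : A, a • x = x) → x = 1 := by
    intro x hx hfix
    have hxV : iG G A x ∈ V := by rw [hV]; exact Subgroup.mem_map_of_mem _ hx
    have h1 : iG G A x ∈ (V ⊓ Subgroup.centralizer (As G A : Set (Gam G A))) ⊓ V :=
      ⟨⟨hxV, (iG_mem_centralizer_iff x).2 hfix⟩, hxV⟩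
    rw [h55, Subgroup.mem_bot] at h1
    exact iG_injective (G := G) (A := A) (h1.trans (map_one _).symm)
  -- (1)
  have h1 : ∀ p : ℕ, p.Prime → p ∣ Nat.card C → p ^ (Nat.card G).factorization p ∣ Nat.card C := by
    intro p hp hpC
    haveI : Fact p.Prime := ⟨hp⟩
    obtain ⟨x, hx⟩ := exists_prime_orderOf_dvd_card' p hpC
    have hx1 : (x : G) ≠ 1 := by
      intro h
      have h0 : x = 1 := Subtype.ext h
      rw [h0, orderOf_one] at hx
      exact hp.one_lt.ne hx
    have hxfix : ∀ a : A, a • (x : G) = x := (hCmem _).1 x.2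
    obtain ⟨U, hU⟩ : ∃ U : Subgroup (Gam G A),
        U = (Subgroup.zpowers (x : G)).map (iG G A) := ⟨_, rfl⟩
    have hUG : U ≤ Gs G A := by rw [hU]; exact map_iG_le_Gs _
    have hUA : As G A ≤ Subgroup.normalizer (U : Set (Gam G A)) := by
      rw [hU]
      apply As_le_normalizer_map
      intro a y hy
      obtain ⟨n, rfl⟩ := Subgroup.mem_zpowers_iff.1 hy
      rw [smul_zpow', hxfix a]
      exact Subgroup.zpow_mem_zpowers _ n
    have hUcard : Nat.card U = p ^ 1 := by
      rw [hU, Subgroup.card_map_of_injective iG_injective, Nat.card_zpowers, pow_one, ← hx]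
      exact Subgroup.orderOf_coe x
    have hUp : IsPGroup p U := IsPGroup.of_card hUcard
    obtain ⟨P, hUP, hAP⟩ :=
      Cfsg.Agent.S0025.result (As G A) (Gs G A) hAG hcop' hsolv' p U hUG hUp hUA
    obtain ⟨Ps, hPs⟩ : ∃ Ps : Subgroup (Gam G A),
        Ps = (P : Subgroup (Gs G A)).map (Gs G A).subtype := ⟨_, rfl⟩
    rw [← hPs] at hUP hAP
    have hPsG : Ps ≤ Gs G A := by rw [hPs]; exact Subgroup.map_subtype_le _
    have hPscard : Nat.card Ps = p ^ (Nat.card G).factorization p := by
      rw [hPs, Subgroup.card_map_of_injective (Subgroup.subtype_injective _),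
        P.card_eq_multiplicity, card_Gs]
    obtain ⟨P₀, hP₀⟩ : ∃ P₀ : Subgroup G, P₀ = Ps.comap (iG G A) := ⟨_, rfl⟩
    have hP₀map : P₀.map (iG G A) = Ps := by
      rw [hP₀, Subgroup.map_comap_eq]
      exact inf_eq_right.2 hPsG
    have hP₀card : Nat.card P₀ = p ^ (Nat.card G).factorization p := by
      rw [← hPscard, ← hP₀map, Subgroup.card_map_of_injective iG_injective]
    haveI hP₀cyc : IsCyclic P₀ := hcyc p (Sylow.ofCard P₀ hP₀card)
    haveI hPscyc : IsCyclic Ps := by
      rw [← hP₀map]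
      exact isCyclic_of_surjective ((iG G A).subgroupMap P₀)
        ((iG G A).subgroupMap_surjective P₀)
    have hPsp : IsPGroup p Ps := by rw [hPs]; exact P.isPGroup'.map _
    have hcopPs : (Nat.card Ps).Coprime (Nat.card (As G A)) :=
      (coprime_of_le le_rfl hPsG hcop').symm
    rcases hPsp.commutator_eq_bot_or_commutator_eq_self hAP hcopPs with h | h
    · have h2' : Ps ≤ Subgroup.centralizer (As G A : Set (Gam G A)) :=
        Subgroup.le_centralizer_iff.1 (Subgroup.commutator_eq_bot_iff_le_centralizer.1 h)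
      have h3' : Ps ≤ C.map (iG G A) := by
        rw [hC, ← hCc]; exact le_inf hPsG h2'
      have h4' := Subgroup.card_dvd_of_le h3'
      rw [hPscard, Subgroup.card_map_of_injective iG_injective] at h4'
      exact h4'
    · exfalso
      have h55' := (Cfsg.Agent.S0055.result (As G A) Ps hAP hcopPs.symm).1
      rw [Subgroup.commutator_comm, h] at h55'
      have hxU : iG G A (x : G) ∈ U := by
        rw [hU]; exact Subgroup.mem_map_of_mem _ (Subgroup.mem_zpowers _)
      have h6 : iG G A (x : G) ∈ (Ps ⊓ Subgroup.centralizer (As G A : Set (Gam G A))) ⊓ Ps :=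
        ⟨⟨hUP hxU, (iG_mem_centralizer_iff _).2 hxfix⟩, hUP hxU⟩
      rw [h55', Subgroup.mem_bot] at h6
      exact hx1 (iG_injective (G := G) (A := A) (h6.trans (map_one _).symm))
  refine ⟨?_, h2, h3, ?_, ?_⟩
  · rw [hcardC]
    exact hall_arith (Nat.card G) (Nat.card C) Nat.card_pos.ne' (Subgroup.card_subgroup_dvd_card C) h1
  · ext x
    constructor
    · rintro ⟨hx, hfix⟩
      exact h4 x hx hfix
    · intro hx
      rw [Set.mem_singleton_iff] at hx
      rw [hx]
      exact ⟨K.one_mem, fun a => smul_one a⟩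
  · rw [hcl]; exact h5

end Cfsg.Agent.S4117
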