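import Mathlib
import Cfsg.Statements.S4139
import Cfsg.Agent.Helper26.CHM
-- import your own Cfsg.Agent.* helpers here

set_option autoImplicit false
open Cfsg

namespace Cfsg.Agent.S4139

/-- Let G and H be finite groups such that for every natural number k, G and H have the same number of conjugacy classes of size k. If H is nilpotent then G is nilpotent. -/
theorem result {G H : Type*} [Group G] [Finite G] [Group H] [Finite H]
    (hH : Group.IsNilpotent H)
    (h : ∀ k : ℕ, Nat.card {C : ConjClasses G // Nat.card C.carrier = k} = Nat.card {C : ConjClasses H // Nat.card C.carrier = k}) :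
    Group.IsNilpotent G := by
  obtain ⟨Θ, hΘ⟩ := Cfsg.Agent.Helper26.CHM.exists_equiv h
  have hcard : Nat.card G = Nat.card H := Nat.card_congr Θ
  have hcen : Nat.card (Subgroup.center G) = Nat.card (Subgroup.center H) := by
    have e1 : ↥(Subgroup.center G) ≃ {x : G // Cfsg.Agent.Helper26.CHM.cs x = 1} :=
      Equiv.subtypeEquivRight (fun x => (Cfsg.Agent.Helper26.CHM.cs_eq_one_iff x).symm)
    have e2 : ↥(Subgroup.center H) ≃ {x : H // Cfsg.Agent.Helper26.CHM.cs x = 1} :=
      Equiv.subtypeEquivRight (fun x => (Cfsg.Agent.Helper26.CHM.cs_eq_one_iff x).symm)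
    have e3 : {x : G // Cfsg.Agent.Helper26.CHM.cs x = 1} ≃
        {y : H // Cfsg.Agent.Helper26.CHM.cs y = 1} :=
      Θ.subtypeEquiv (fun x => by rw [hΘ])
    exact Nat.card_congr (e1.trans (e3.trans e2.symm))
  refine ((Group.isNilpotent_of_finite_tfae (G := G)).out 0 3).mpr ?_
  intro p hp P
  haveI := hp
  refine Cfsg.Agent.Helper26.CHM.sylow_normal_of_count ?_ P
  have hA := Cfsg.Agent.Helper26.CHM.count_of_nilpotent hH p
  have e4 : {x : G // ¬ p ∣ Cfsg.Agent.Helper26.CHM.cs x} ≃
      {y : H // ¬ p ∣ Cfsg.Agent.Helper26.CHM.cs y} :=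
    Θ.subtypeEquiv (fun x => by rw [hΘ])
  have h5 : Nat.card (Cfsg.Agent.Helper26.CHM.Eset G p) =
      Nat.card (Cfsg.Agent.Helper26.CHM.Eset H p) := Nat.card_congr e4
  rw [h5, hA, hcard, hcen]

end Cfsg.Agent.S4139
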