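import Cfsg.Statements.S4142
import Mathlib
-- import your own Cfsg.Agent.* helpers here

set_option autoImplicit false
open Cfsg

namespace Cfsg.Agent.S4142

theorem key {G : Type*} [Group G] [Finite G] (N : Subgroup G) [N.Normal] (g : G) :
    (∀ n ∈ N, ∃ x : G, x * g * x⁻¹ = g * n) ↔
      Nat.card (Subgroup.centralizer ({g} : Set G)) =
        Nat.card (Subgroup.centralizer ({(QuotientGroup.mk g : G ⧸ N)} : Set (G ⧸ N))) := by
  classical
  obtain ⟨C, hCdef⟩ : ∃ C : Subgroup G, C = Subgroup.centralizer ({g} : Set G) := ⟨_, rfl⟩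
  obtain ⟨Cb, hCbdef⟩ : ∃ Cb : Subgroup (G ⧸ N),
    Cb = Subgroup.centralizer ({(QuotientGroup.mk g : G ⧸ N)} : Set (G ⧸ N)) := ⟨_, rfl⟩
  obtain ⟨D, hDdef⟩ : ∃ D : Subgroup G, D = Cb.comap (QuotientGroup.mk' N) := ⟨_, rfl⟩
  rw [← hCdef, ← hCbdef]
  have hCmem : ∀ x, x ∈ C ↔ g * x = x * g := fun x => by
    rw [hCdef, Subgroup.mem_centralizer_iff]; simp
  have hDmem : ∀ x, x ∈ D ↔ g⁻¹ * (x * g * x⁻¹) ∈ N := by
    intro x
    rw [hDdef, Subgroup.mem_comap, hCbdef, Subgroup.mem_centralizer_iff]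
    simp only [Set.mem_singleton_iff, forall_eq, QuotientGroup.mk'_apply]
    rw [← QuotientGroup.eq]
    constructor
    · intro h
      rw [QuotientGroup.mk_mul, QuotientGroup.mk_mul, QuotientGroup.mk_inv, ← h,
        mul_inv_cancel_right]
    · intro h
      rw [QuotientGroup.mk_mul, QuotientGroup.mk_mul, QuotientGroup.mk_inv,
        eq_mul_inv_iff_mul_eq] at h
      exact h
  have hCD : C ≤ D := by
    intro x hx
    rw [hCmem] at hx
    rw [hDmem, ← hx]
    simp
  let f : D ⧸ C.subgroupOf D → N := fun q => Quotient.liftOn' q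
    (fun x : D => (⟨g⁻¹ * ((x : G) * g * (x : G)⁻¹), (hDmem x).mp x.2⟩ : N))
    (fun a b hab => by
      have hab' : a⁻¹ * b ∈ C.subgroupOf D := QuotientGroup.leftRel_apply.mp hab
      rw [Subgroup.mem_subgroupOf, hCmem] at hab'
      apply Subtype.ext
      show g⁻¹ * ((a : G) * g * (a : G)⁻¹) = g⁻¹ * ((b : G) * g * (b : G)⁻¹)
      congr 1
      simp only [Subgroup.coe_mul, Subgroup.coe_inv] at hab'
      calc (a : G) * g * (a : G)⁻¹ = (a : G) * (g * ((a : G)⁻¹ * b)) * (b : G)⁻¹ := by group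
        _ = (a : G) * ((a : G)⁻¹ * b * g) * (b : G)⁻¹ := by rw [hab']
        _ = (b : G) * g * (b : G)⁻¹ := by group)
  have hinj : Function.Injective f := by
    intro q1 q2
    obtain ⟨a, rfl⟩ := QuotientGroup.mk_surjective q1
    obtain ⟨b, rfl⟩ := QuotientGroup.mk_surjective q2
    intro hab
    have hab' : g⁻¹ * ((a : G) * g * (a : G)⁻¹) = g⁻¹ * ((b : G) * g * (b : G)⁻¹) :=
      congrArg Subtype.val hab
    have hab2 : (a : G) * g * (a : G)⁻¹ = (b : G) * g * (b : G)⁻¹ := mul_left_cancel hab'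
    rw [QuotientGroup.eq, Subgroup.mem_subgroupOf, hCmem]
    simp only [Subgroup.coe_mul, Subgroup.coe_inv]
    calc g * ((a : G)⁻¹ * b) = (a : G)⁻¹ * ((a : G) * g * (a : G)⁻¹) * b := by group
      _ = (a : G)⁻¹ * ((b : G) * g * (b : G)⁻¹) * b := by rw [hab2]
      _ = (a : G)⁻¹ * b * g := by group
  have hsurj : Function.Surjective f ↔ ∀ n ∈ N, ∃ x : G, x * g * x⁻¹ = g * n := by
    constructor
    · intro hs n hn
      obtain ⟨q, hq⟩ := hs ⟨n, hn⟩
      obtain ⟨a, rfl⟩ := QuotientGroup.mk_surjective q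
      have hq' : g⁻¹ * ((a : G) * g * (a : G)⁻¹) = n := congrArg Subtype.val hq
      exact ⟨a, by rw [← hq']; group⟩
    · intro h n
      obtain ⟨x, hx⟩ := h n n.2
      have hxD : x ∈ D := by rw [hDmem, hx]; simpa using n.2
      refine ⟨QuotientGroup.mk (⟨x, hxD⟩ : D), ?_⟩
      apply Subtype.ext
      show g⁻¹ * (x * g * x⁻¹) = n
      rw [hx]; group
  have hcard1 : Nat.card (D ⧸ C.subgroupOf D) * Nat.card C = Nat.card D := by
    have h1 := (C.subgroupOf D).card_mul_index
    have h2 : Nat.card (C.subgroupOf D) = Nat.card C :=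
      Nat.card_congr (Subgroup.subgroupOfEquivOfLe hCD).toEquiv
    rw [h2] at h1
    rw [mul_comm]; exact h1
  have hcard2 : Nat.card D = Nat.card Cb * Nat.card N := by
    have h1 : D.index = Cb.index := by
      rw [hDdef]; exact Subgroup.index_comap_of_surjective Cb (QuotientGroup.mk'_surjective N)
    have h2 := D.card_mul_index
    have h3 := Cb.card_mul_index
    have h4 := Subgroup.card_eq_card_quotient_mul_card_subgroup N
    have hpos : 0 < Cb.index := Nat.pos_of_ne_zero Subgroup.index_ne_zero_of_finite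
    rw [h1] at h2
    apply Nat.eq_of_mul_eq_mul_right hpos
    rw [h2, h4, ← h3]; ring
  rw [← hsurj]
  constructor
  · intro hs
    have hb : Function.Bijective f := ⟨hinj, hs⟩
    have h1 : Nat.card (D ⧸ C.subgroupOf D) = Nat.card N := Nat.card_congr (Equiv.ofBijective f hb)
    rw [h1, hcard2] at hcard1
    have hpos : 0 < Nat.card N := Nat.card_pos
    apply Nat.eq_of_mul_eq_mul_left hpos
    rw [hcard1, mul_comm]
  · intro he
    apply (hinj.bijective_of_nat_card_le _).2
    have hpos : 0 < Nat.card C := Nat.card_pos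
    apply Nat.le_of_mul_le_mul_right _ hpos
    rw [hcard1, hcard2, he, mul_comm]


/-- Let G be a finite group and N a normal subgroup. Then the conjugacy class of every element g outside N is a union of cosets of N (gn is conjugate to g for all n ∈ N) if and only if for every g outside N the centralizer of g in G has the same order as the centralizer of gN in G/N. -/
theorem result {G : Type*} [Group G] [Finite G] (N : Subgroup G) [N.Normal] :
    (∀ g : G, g ∉ N → ∀ n ∈ N, ∃ x : G, x * g * x⁻¹ = g * n) ↔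
      ∀ g : G, g ∉ N → Nat.card (Subgroup.centralizer ({g} : Set G)) =
        Nat.card (Subgroup.centralizer ({(QuotientGroup.mk g : G ⧸ N)} : Set (G ⧸ N))) := by
  constructor
  · intro h g hg; exact (key N g).mp (h g hg)
  · intro h g hg; exact (key N g).mpr (h g hg)

end Cfsg.Agent.S4142
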