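import Cfsg.Statements.S4145
import Cfsg.Agent.S0082
import Cfsg.Agent.S1242
import Cfsg.Agent.S0074
import Cfsg.Agent.S0075
import Cfsg.Agent.S0055
import Cfsg.Agent.S0001
import Cfsg.Agent.Helper10.Sec
import Cfsg.Agent.Helper3.Carter
import Cfsg.Agent.Lead.Coprime
import Mathlib

set_option autoImplicit false
open Cfsg

open scoped Pointwise
namespace Cfsg.Agent.S4145

universe u

/-- data from a normal complement to a Sylow subgroup of a subgroup -/
theorem npc_data {G : Type u} [Group G] [Finite G] {p : ℕ} [Fact p.Prime] (Y : Subgroup G)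
    (P0 : Sylow p ↥Y) (N0 : Subgroup ↥Y) [N0.Normal]
    (hc : N0.IsComplement' (P0 : Subgroup ↥Y)) :
    (Nat.card (N0.map Y.subtype)).Coprime p ∧ (∃ k : ℕ, (N0.map Y.subtype).relIndex Y = p ^ k) ∧
      (∀ x : G, x ∈ N0.map Y.subtype ↔ x ∈ Y ∧ (orderOf x).Coprime p) := by
  have hp : p.Prime := Fact.out
  have hcard : Nat.card (N0.map Y.subtype) = Nat.card N0 :=
    Subgroup.card_map_of_injective Y.subtype_injective
  have hN0 : Nat.card N0 = (P0 : Subgroup ↥Y).index := hc.index_eq_card.symm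
  have hcop : (Nat.card N0).Coprime p := by
    rw [hN0]
    exact ((Nat.Prime.coprime_iff_not_dvd hp).mpr P0.not_dvd_index).symm
  have hidx : N0.index = Nat.card (P0 : Subgroup ↥Y) := hc.symm.index_eq_card
  obtain ⟨k, hk⟩ := IsPGroup.iff_card.mp P0.isPGroup'
  have e : (N0.map Y.subtype).subgroupOf Y = N0 :=
    Subgroup.comap_map_eq_self_of_injective Y.subtype_injective N0
  refine ⟨by rw [hcard]; exact hcop, ⟨k, ?_⟩, ?_⟩
  · show ((N0.map Y.subtype).subgroupOf Y).index = p ^ k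
    rw [e, hidx]; exact hk
  · intro x
    constructor
    · rintro ⟨y, hy, rfl⟩
      refine ⟨y.2, ?_⟩
      have h1 : orderOf (Y.subtype y) = orderOf y := Subgroup.orderOf_coe y
      rw [h1]
      have h2 := orderOf_dvd_natCard (⟨y, hy⟩ : ↥N0)
      rw [Subgroup.orderOf_mk] at h2
      exact Nat.Coprime.coprime_dvd_left h2 hcop
    · rintro ⟨hx, hco⟩
      refine ⟨⟨x, hx⟩, ?_, rfl⟩
      apply Cfsg.Agent.Helper3.mem_of_pow_mem_of_coprime N0 ⟨x, hx⟩ (pow_orderOf_eq_one _)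
        (Subgroup.pow_index_mem N0 _)
      rw [hidx, hk, Subgroup.orderOf_mk]
      exact Nat.Coprime.pow_right k hco

theorem normal_of_char {G : Type u} [Group G] {p : ℕ} (Y M : Subgroup G) [hY : Y.Normal]
    (hM : ∀ x : G, x ∈ M ↔ x ∈ Y ∧ (orderOf x).Coprime p) : M.Normal := by
  refine ⟨fun x hx g => ?_⟩
  obtain ⟨h1, h2⟩ := (hM x).mp hx
  refine (hM _).mpr ⟨hY.conj_mem x h1 g, ?_⟩
  have h3 := MulEquiv.orderOf_eq (MulAut.conj g) x
  rw [MulAut.conj_apply] at h3
  rw [h3]; exact h2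

theorem npc_H {G : Type u} [Group G] [Finite G] (p : ℕ) [Fact p.Prime]
    (P : Sylow p G) (hP : IsCyclic (P : Subgroup G)) (H : Subgroup G) [H.Normal]
    (h2 : p ∣ H.index) : Cfsg.HasNormalPComplement p H := by
  have hp : p.Prime := Fact.out
  have hPY : (P : Subgroup G) ≤ H ⊔ (P : Subgroup G) := le_sup_right
  have hcyc : IsCyclic ↥((P : Subgroup G).subgroupOf (H ⊔ (P : Subgroup G))) :=
    (MulEquiv.isCyclic (Subgroup.subgroupOfEquivOfLe hPY)).mpr hP
  rcases Cfsg.Agent.S0082.result (P.subtype hPY) hcyc with hnpc | hres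
  · exact Cfsg.Agent.Helper10.npc_mono (le_sup_left : H ≤ H ⊔ (P : Subgroup G)) hnpc
  · exfalso
    have hsub : Cfsg.pResidual p ↥(H ⊔ (P : Subgroup G)) ≤
        H.subgroupOf (H ⊔ (P : Subgroup G)) := by
      unfold Cfsg.pResidual
      rw [Subgroup.closure_le]
      intro y hy
      have hco : (orderOf y).Coprime p := hy
      show (y : G) ∈ H
      have hmem : (QuotientGroup.mk' H) (y : G) ∈ (P : Subgroup G).map (QuotientGroup.mk' H) := by
        have h3 : (QuotientGroup.mk' H) (y : G) ∈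
            (H ⊔ (P : Subgroup G)).map (QuotientGroup.mk' H) :=
          Subgroup.mem_map_of_mem _ y.2
        rw [Subgroup.map_sup, QuotientGroup.map_mk'_self, bot_sup_eq] at h3
        exact h3
      obtain ⟨k, hk⟩ := (P.isPGroup'.map (QuotientGroup.mk' H)) ⟨_, hmem⟩
      have hk' : ((QuotientGroup.mk' H) (y : G)) ^ (p ^ k) = 1 := congrArg Subtype.val hk
      have hd1 : orderOf ((QuotientGroup.mk' H) (y : G)) ∣ p ^ k := orderOf_dvd_of_pow_eq_one hk'
      have hd2 : orderOf ((QuotientGroup.mk' H) (y : G)) ∣ orderOf y := by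
        rw [← Subgroup.orderOf_coe]
        exact orderOf_map_dvd _ _
      have h1 : orderOf ((QuotientGroup.mk' H) (y : G)) = 1 :=
        Nat.eq_one_of_dvd_coprimes (Nat.Coprime.pow_left k hco.symm) hd1 hd2
      exact (QuotientGroup.eq_one_iff (y : G)).mp (orderOf_eq_one_iff.mp h1)
    rw [hres, top_le_iff, Subgroup.subgroupOf_eq_top] at hsub
    have hPH : (P : Subgroup G) ≤ H := le_sup_right.trans hsub
    exact P.not_dvd_index (h2.trans (Subgroup.index_dvd_of_le hPH))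

theorem psolv {G : Type u} [Group G] [Finite G] (p : ℕ) [Fact p.Prime]
    (P : Sylow p G) (hP : IsCyclic (P : Subgroup G)) (H : Subgroup G) [hHn : H.Normal]
    (h1 : p ∣ Nat.card H) (hnpc : Cfsg.HasNormalPComplement p H) : Cfsg.IsPSolvable p G := by
  classical
  have hp : p.Prime := Fact.out
  obtain ⟨P0, N0, hN0n, hc0⟩ := hnpc
  haveI := hN0n
  obtain ⟨hKcop, -, hKmem⟩ := npc_data H P0 N0 hc0
  obtain ⟨KG, hKGdef⟩ : ∃ KG : Subgroup G, KG = N0.map H.subtype := ⟨_, rfl⟩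
  rw [← hKGdef] at hKcop hKmem
  haveI hKGn : KG.Normal := normal_of_char H KG hKmem
  obtain ⟨P1, hP01⟩ := (P0.isPGroup'.map H.subtype).exists_le_sylow
  have hP1cyc : IsCyclic (P1 : Subgroup G) := by
    obtain ⟨g, hg⟩ := MulAction.exists_smul_eq G P P1
    have e : (P1 : Subgroup G) = MulAut.conj g • (P : Subgroup G) := by
      rw [← hg, Sylow.coe_subgroup_smul]
    rw [e]
    exact (MulEquiv.isCyclic (Subgroup.equivSMul (MulAut.conj g) (P : Subgroup G))).mp hP
  haveI : IsCyclic (P1 : Subgroup G) := hP1cyc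
  have hP1c : IsMulCommutative (P1 : Subgroup G) := inferInstance
  have hP1c' : IsMulCommutative P1 := hP1c
  have hP1C := Cfsg.Agent.S0074.le_centralizer_of_comm P1 hP1c'
  have hPHne : (P0 : Subgroup ↥H).map H.subtype ≠ ⊥ := by
    intro hbot
    exact P0.ne_bot_of_dvd_card h1
      ((Subgroup.map_eq_bot_iff_of_injective _ H.subtype_injective).mp hbot)
  have hPHH : (P0 : Subgroup ↥H).map H.subtype ≤ H := Subgroup.map_subtype_le _
  have hP1K : (P1 : Subgroup G) ⊓ KG = ⊥ := by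
    apply Cfsg.Agent.Lead.inf_eq_bot_of_coprime'
    obtain ⟨k, hk⟩ := IsPGroup.iff_card.mp P1.isPGroup'
    have hk' : Nat.card (P1 : Subgroup G) = p ^ k := hk
    rw [hk']
    exact Nat.Coprime.pow_left k hKcop.symm
  obtain ⟨X, hX⟩ : ∃ X : Subgroup G, ∀ g, g ∈ X ↔ ∀ h ∈ H, g * h * g⁻¹ * h⁻¹ ∈ KG :=
    ⟨{ carrier := {g | ∀ h ∈ H, g * h * g⁻¹ * h⁻¹ ∈ KG}
       mul_mem' := by
         intro a b ha hb
         show ∀ h ∈ H, a * b * h * (a * b)⁻¹ * h⁻¹ ∈ KG
         intro h hh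
         have e : a * b * h * (a * b)⁻¹ * h⁻¹
             = (a * (b * h * b⁻¹ * h⁻¹) * a⁻¹) * (a * h * a⁻¹ * h⁻¹) := by group
         rw [e]
         exact KG.mul_mem (hKGn.conj_mem _ (hb h hh) a) (ha h hh)
       one_mem' := by
         show ∀ h ∈ H, (1 : G) * h * (1 : G)⁻¹ * h⁻¹ ∈ KG
         intro h hh
         have e : (1 : G) * h * (1 : G)⁻¹ * h⁻¹ = 1 := by group
         rw [e]; exact KG.one_mem
       inv_mem' := by
         intro a ha
         show ∀ h ∈ H, a⁻¹ * h * a⁻¹⁻¹ * h⁻¹ ∈ KG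
         intro h hh
         have e : a⁻¹ * h * a⁻¹⁻¹ * h⁻¹ = a⁻¹ * (a * h * a⁻¹ * h⁻¹)⁻¹ * a⁻¹⁻¹ := by group
         rw [e]
         exact hKGn.conj_mem _ (KG.inv_mem (ha h hh)) a⁻¹ }, fun g => Iff.rfl⟩
  haveI hXn : X.Normal := by
    refine ⟨fun g hg t => ?_⟩
    rw [hX] at hg ⊢
    intro h hh
    have hh' : t⁻¹ * h * t ∈ H := by
      have h3 := hHn.conj_mem h hh t⁻¹
      rwa [inv_inv] at h3
    have e : t * g * t⁻¹ * h * (t * g * t⁻¹)⁻¹ * h⁻¹
        = t * (g * (t⁻¹ * h * t) * g⁻¹ * (t⁻¹ * h * t)⁻¹) * t⁻¹ := by group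
    rw [e]
    exact hKGn.conj_mem _ (hg _ hh') t
  have hP1X : (P1 : Subgroup G) ≤ X := by
    intro u hu
    rw [hX]
    intro h hh
    have htop : (⟨h, hh⟩ : ↥H) ∈ (P0 : Subgroup ↥H) ⊔ N0 := by
      rw [sup_comm, hc0.sup_eq_top]; exact Subgroup.mem_top _
    obtain ⟨w, hw, k, hk, hwk⟩ :=
      (Cfsg.Agent.S0001.mem_sup_normal (P0 : Subgroup ↥H) N0 _).mp htop
    have hwk' : h = (w : G) * (k : G) := congrArg Subtype.val hwk
    have hwP1 : (w : G) ∈ (P1 : Subgroup G) := hP01 ⟨w, hw, rfl⟩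
    have hkK : (k : G) ∈ KG := by rw [hKGdef]; exact ⟨k, hk, rfl⟩
    have hcomm : u * (w : G) = (w : G) * u := Subgroup.mem_centralizer_iff.mp (hP1C hwP1) u hu
    have e : u * h * u⁻¹ * h⁻¹ = (w : G) * (u * (k : G) * u⁻¹ * (k : G)⁻¹) * (w : G)⁻¹ := by
      rw [hwk']
      calc u * ((w : G) * (k : G)) * u⁻¹ * ((w : G) * (k : G))⁻¹
          = (u * (w : G)) * (k : G) * u⁻¹ * (k : G)⁻¹ * (w : G)⁻¹ := by group
        _ = ((w : G) * u) * (k : G) * u⁻¹ * (k : G)⁻¹ * (w : G)⁻¹ := by rw [hcomm]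
        _ = (w : G) * (u * (k : G) * u⁻¹ * (k : G)⁻¹) * (w : G)⁻¹ := by group
    rw [e]
    exact hKGn.conj_mem _ (KG.mul_mem (hKGn.conj_mem _ hkK u) (KG.inv_mem hkK)) (w : G)
  have claimN : ∀ n : G, n ∈ X → n ∈ Subgroup.normalizer (P1 : Set G) →
      n ∈ Subgroup.centralizer (P1 : Set G) := by
    intro n hnX hnN
    obtain ⟨a, b, e, m, hm, hsplit, hpow⟩ := Cfsg.Agent.S1242.exists_parts p n
    obtain ⟨u, hu⟩ : ∃ u : G, u = (n ^ m) ^ a := ⟨_, rfl⟩
    obtain ⟨v, hv⟩ : ∃ v : G, v = (n ^ (p ^ e)) ^ b := ⟨_, rfl⟩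
    have hnuv : n = u * v := by rw [hu, hv]; exact hsplit
    have huN : u ∈ Subgroup.normalizer (P1 : Set G) := by
      rw [hu]; exact Subgroup.zpow_mem _ (Subgroup.pow_mem _ hnN m) a
    have hvN : v ∈ Subgroup.normalizer (P1 : Set G) := by
      rw [hv]; exact Subgroup.zpow_mem _ (Subgroup.pow_mem _ hnN (p ^ e)) b
    have hvX : v ∈ X := by
      rw [hv]; exact Subgroup.zpow_mem _ (Subgroup.pow_mem _ hnX (p ^ e)) b
    have hue : u ^ (p ^ e) = 1 := by
      rw [hu]
      exact Cfsg.Agent.S1242.zpow_pow_eq_one n m (p ^ e) a (by rw [mul_comm]; exact hpow)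
    have huP : u ∈ (P1 : Subgroup G) :=
      Cfsg.Agent.S0075.mem_sylow_of_normalizer_of_pow P1 u huN e hue
    have hvm : v ^ m = 1 := by
      rw [hv]; exact Cfsg.Agent.S1242.zpow_pow_eq_one n (p ^ e) m b hpow
    have hAV : Subgroup.zpowers v ≤ Subgroup.normalizer ((P1 : Subgroup G) : Set G) :=
      Subgroup.zpowers_le.mpr hvN
    have hcop : (Nat.card (Subgroup.zpowers v)).Coprime (Nat.card (P1 : Subgroup G)) := by
      rw [Nat.card_zpowers]
      obtain ⟨k, hk⟩ := IsPGroup.iff_card.mp P1.isPGroup'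
      have hk' : Nat.card (P1 : Subgroup G) = p ^ k := hk
      rw [hk']
      apply Nat.Coprime.pow_right
      exact Nat.Coprime.coprime_dvd_left (orderOf_dvd_of_pow_eq_one hvm) hm.symm
    obtain ⟨h1', h2'⟩ := Cfsg.Agent.S0055.result (Subgroup.zpowers v) (P1 : Subgroup G) hAV hcop
    have hcomm_le : ⁅(P1 : Subgroup G), Subgroup.zpowers v⁆ ≤ (P1 : Subgroup G) := by
      conv_rhs => rw [← h2']
      exact le_sup_right
    have hfixne : (P1 : Subgroup G) ⊓ Subgroup.centralizer (Subgroup.zpowers v : Set G) ≠ ⊥ := by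
      intro hbot
      apply hPHne
      rw [eq_bot_iff, ← hbot]
      intro w hw
      have hwP1 : w ∈ (P1 : Subgroup G) := hP01 hw
      have hwH : w ∈ H := hPHH hw
      refine Subgroup.mem_inf.mpr ⟨hwP1, ?_⟩
      have hc1 : v * w * v⁻¹ * w⁻¹ ∈ KG := (hX v).mp hvX w hwH
      have hc2 : v * w * v⁻¹ * w⁻¹ ∈ (P1 : Subgroup G) :=
        Subgroup.mul_mem _ ((Subgroup.mem_set_normalizer_iff.mp hvN w).mp hwP1)
          (Subgroup.inv_mem _ hwP1)
      have hc3 : v * w * v⁻¹ * w⁻¹ ∈ (P1 : Subgroup G) ⊓ KG := Subgroup.mem_inf.mpr ⟨hc2, hc1⟩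
      rw [hP1K, Subgroup.mem_bot] at hc3
      have hvw : v * w = w * v := by
        have e1 : v * w = (v * w * v⁻¹ * w⁻¹) * (w * v) := by group
        rw [e1, hc3, one_mul]
      rw [Subgroup.mem_centralizer_iff]
      intro z hz
      obtain ⟨i, rfl⟩ := Subgroup.mem_zpowers_iff.mp hz
      exact (Commute.zpow_left (show Commute v w from hvw) i).eq
    have hcomm_bot : ⁅(P1 : Subgroup G), Subgroup.zpowers v⁆ = ⊥ := by
      by_contra hne
      exact Cfsg.Agent.S0082.cyc_inf_ne_bot P1 hP1cyc _ _ inf_le_left hcomm_le hfixne hne h1'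
    rw [Subgroup.commutator_eq_bot_iff_le_centralizer] at hcomm_bot
    have hvC : v ∈ Subgroup.centralizer (P1 : Set G) := by
      rw [Subgroup.mem_centralizer_iff]
      intro x hx
      exact (Subgroup.mem_centralizer_iff.mp (hcomm_bot hx) v (Subgroup.mem_zpowers v)).symm
    rw [hnuv]
    exact Subgroup.mul_mem _ (hP1C huP) hvC
  have hNC : Subgroup.normalizer ((P1.subtype hP1X : Sylow p ↥X) : Set ↥X) ≤
      Subgroup.centralizer ((P1.subtype hP1X : Sylow p ↥X) : Set ↥X) := by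
    intro n hn
    have hn' : ∀ x : ↥X, x ∈ (P1 : Subgroup G).subgroupOf X ↔
        n * x * n⁻¹ ∈ (P1 : Subgroup G).subgroupOf X := Subgroup.mem_set_normalizer_iff.mp hn
    have hnG : (n : G) ∈ Subgroup.normalizer (P1 : Set G) := by
      refine Subgroup.mem_set_normalizer_iff.mpr fun u => ⟨fun hu => ?_, fun hu => ?_⟩
      · exact Subgroup.mem_subgroupOf.mp ((hn' ⟨u, hP1X hu⟩).mp (Subgroup.mem_subgroupOf.mpr hu))
      · have huX : u ∈ X := by
          have h2 : (n : G)⁻¹ * ((n : G) * u * (n : G)⁻¹) * (n : G) ∈ X :=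
            X.mul_mem (X.mul_mem (X.inv_mem n.2) (hP1X hu)) n.2
          have e : (n : G)⁻¹ * ((n : G) * u * (n : G)⁻¹) * (n : G) = u := by group
          rwa [e] at h2
        exact Subgroup.mem_subgroupOf.mp ((hn' ⟨u, huX⟩).mpr (Subgroup.mem_subgroupOf.mpr hu))
    have hnC := claimN (n : G) n.2 hnG
    rw [Subgroup.mem_centralizer_iff]
    intro y hy
    apply Subtype.ext
    have hy' : (y : G) ∈ (P1 : Subgroup G) := hy
    exact Subgroup.mem_centralizer_iff.mp hnC (y : G) hy'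
  obtain ⟨hMcop, ⟨k, hMk⟩, hMmem⟩ := npc_data X (P1.subtype hP1X)
    (MonoidHom.transferSylow (P1.subtype hP1X) hNC).ker
    (MonoidHom.ker_transferSylow_isComplement' (P1.subtype hP1X) hNC)
  obtain ⟨M, hMdef⟩ : ∃ M : Subgroup G,
      M = ((MonoidHom.transferSylow (P1.subtype hP1X) hNC).ker).map X.subtype := ⟨_, rfl⟩
  rw [← hMdef] at hMcop hMk hMmem
  haveI hMn : M.Normal := normal_of_char X M hMmem
  have hMX : M ≤ X := fun x hx => ((hMmem x).mp hx).1
  have hXidx : (X.index).Coprime p := by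
    have h3 : ¬ p ∣ X.index := fun hd =>
      P1.not_dvd_index (hd.trans (Subgroup.index_dvd_of_le hP1X))
    exact ((Nat.Prime.coprime_iff_not_dvd hp).mpr h3).symm
  refine ⟨3, ![⊥, M, X, ⊤], rfl, rfl, ?_, ?_, ?_⟩
  · rw [Fin.monotone_iff_le_succ]
    intro i
    fin_cases i
    · show (⊥ : Subgroup G) ≤ M
      exact bot_le
    · show M ≤ X
      exact hMX
    · show X ≤ (⊤ : Subgroup G)
      exact le_top
  · intro i
    fin_cases i
    · show (⊥ : Subgroup G).Normal
      infer_instance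
    · show M.Normal
      exact hMn
    · show X.Normal
      exact hXn
    · show (⊤ : Subgroup G).Normal
      infer_instance
  · intro i
    fin_cases i
    · right
      show ((⊥ : Subgroup G).relIndex M).Coprime p
      rw [Subgroup.relIndex_bot_left]
      exact hMcop
    · left
      show ∃ m : ℕ, M.relIndex X = p ^ m
      exact ⟨k, hMk⟩
    · right
      show (X.relIndex (⊤ : Subgroup G)).Coprime p
      rw [Subgroup.relIndex_top_right]
      exact hXidx

/-- Let G be a finite group with a cyclic Sylow p-subgroup and H a normal subgroup such that p divides both the order of H and the index of H. Then H has a normal p-complement and G is p-solvable. -/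
theorem result {G : Type*} [Group G] [Finite G] (p : ℕ) [Fact p.Prime]
    (P : Sylow p G) (hP : IsCyclic (P : Subgroup G)) (H : Subgroup G) [H.Normal] (h1 : p ∣ Nat.card H) (h2 : p ∣ H.index) :
    Cfsg.HasNormalPComplement p H ∧ Cfsg.IsPSolvable p G := by
  have hnpc := npc_H p P hP H h2
  exact ⟨hnpc, psolv p P hP H h1 hnpc⟩

end Cfsg.Agent.S4145
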