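import Cfsg.Statements.S4152
import Mathlib

set_option autoImplicit false
open Cfsg

namespace Cfsg.Agent.S4152

/-! ### `π`-numbers -/

def PiN (π : Set ℕ) (m : ℕ) : Prop := ∀ q : ℕ, q.Prime → q ∣ m → q ∈ π

def PiN' (π : Set ℕ) (m : ℕ) : Prop := ∀ q : ℕ, q.Prime → q ∣ m → q ∉ π

theorem PiN.of_dvd {π : Set ℕ} {m k : ℕ} (h : PiN π m) (hk : k ∣ m) : PiN π k :=
  fun q hq hqk => h q hq (hqk.trans hk)

theorem PiN'.of_dvd {π : Set ℕ} {m k : ℕ} (h : PiN' π m) (hk : k ∣ m) : PiN' π k :=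
  fun q hq hqk => h q hq (hqk.trans hk)

theorem PiN.mul {π : Set ℕ} {a b : ℕ} (ha : PiN π a) (hb : PiN π b) : PiN π (a * b) :=
  fun q hq hqd => ((Nat.Prime.dvd_mul hq).mp hqd).elim (ha q hq) (hb q hq)

theorem PiN'.mul {π : Set ℕ} {a b : ℕ} (ha : PiN' π a) (hb : PiN' π b) : PiN' π (a * b) :=
  fun q hq hqd => ((Nat.Prime.dvd_mul hq).mp hqd).elim (ha q hq) (hb q hq)

theorem coprime_of {π : Set ℕ} {a b : ℕ} (ha : PiN π a) (hb : PiN' π b) : Nat.Coprime a b := by
  by_contra h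
  have h' : Nat.gcd a b ≠ 1 := h
  obtain ⟨q, hq, hqd⟩ := Nat.exists_prime_and_dvd h'
  exact hb q hq (hqd.trans (Nat.gcd_dvd_right a b)) (ha q hq (hqd.trans (Nat.gcd_dvd_left a b)))

theorem split_nat (π : Set ℕ) : ∀ m : ℕ, m ≠ 0 → ∃ a b, m = a * b ∧ PiN π a ∧ PiN' π b := by
  intro m
  induction m using Nat.strong_induction_on with
  | _ m ih =>
    intro hm
    by_cases h1 : m = 1
    · refine ⟨1, 1, by omega, ?_, ?_⟩
      · intro q hq hq1; exact absurd (Nat.dvd_one.mp hq1) hq.ne_one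
      · intro q hq hq1; exact absurd (Nat.dvd_one.mp hq1) hq.ne_one
    · obtain ⟨p, hp, k, rfl⟩ := Nat.exists_prime_and_dvd h1
      have hk0 : k ≠ 0 := by rintro rfl; exact hm (mul_zero p)
      have hklt : k < p * k := lt_mul_of_one_lt_left (Nat.pos_of_ne_zero hk0) hp.one_lt
      obtain ⟨a, b, hab, ha, hb⟩ := ih k hklt hk0
      by_cases hpπ : p ∈ π
      · refine ⟨p * a, b, by rw [hab]; ring, ?_, hb⟩
        intro q hq hqd
        rcases (Nat.Prime.dvd_mul hq).mp hqd with h | h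
        · rw [(Nat.prime_dvd_prime_iff_eq hq hp).mp h]; exact hpπ
        · exact ha q hq h
      · refine ⟨a, p * b, by rw [hab]; ring, ha, ?_⟩
        intro q hq hqd
        rcases (Nat.Prime.dvd_mul hq).mp hqd with h | h
        · rw [(Nat.prime_dvd_prime_iff_eq hq hp).mp h]; exact hpπ
        · exact hb q hq h

/-! ### `π`-elements -/

section Elements

variable {G : Type*} [Group G]

abbrev IsPi (π : Set ℕ) (g : G) : Prop := PiN π (orderOf g)

abbrev IsPi' (π : Set ℕ) (g : G) : Prop := PiN' π (orderOf g)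

theorem orderOf_conj' (c g : G) : orderOf (c * g * c⁻¹) = orderOf g :=
  orderOf_injective (MulAut.conj c).toMonoidHom (MulAut.conj c).injective g

theorem zpow_pow_eq_one {x : G} {k : ℕ} (h : x ^ k = 1) (z : ℤ) : (x ^ z) ^ k = 1 := by
  rw [← zpow_natCast (x ^ z) k, ← zpow_mul, mul_comm, zpow_mul, zpow_natCast, h, one_zpow]

theorem exists_decomp [Finite G] (π : Set ℕ) (g : G) :
    ∃ u v : G, g = u * v ∧ u ∈ Subgroup.zpowers g ∧ v ∈ Subgroup.zpowers g ∧
      IsPi π u ∧ IsPi' π v := by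
  have hm : orderOf g ≠ 0 := (orderOf_pos g).ne'
  obtain ⟨a, b, hab, ha, hb⟩ := split_nat π (orderOf g) hm
  have hcop : Nat.Coprime a b := coprime_of ha hb
  have hbez : (b : ℤ) * Nat.gcdB a b + (a : ℤ) * Nat.gcdA a b = 1 := by
    have h := Nat.gcd_eq_gcd_ab a b
    rw [Nat.Coprime.gcd_eq_one hcop, Nat.cast_one] at h
    rw [add_comm]; exact h.symm
  have hgba : (g ^ b) ^ a = 1 := by rw [← pow_mul, mul_comm, ← hab, pow_orderOf_eq_one]
  have hgab : (g ^ a) ^ b = 1 := by rw [← pow_mul, ← hab, pow_orderOf_eq_one]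
  refine ⟨(g ^ b) ^ (Nat.gcdB a b), (g ^ a) ^ (Nat.gcdA a b), ?_, ?_, ?_, ?_, ?_⟩
  · rw [← zpow_natCast g b, ← zpow_natCast g a, ← zpow_mul, ← zpow_mul, ← zpow_add, hbez, zpow_one]
  · exact Subgroup.zpow_mem _ (Subgroup.pow_mem _ (Subgroup.mem_zpowers g) b) _
  · exact Subgroup.zpow_mem _ (Subgroup.pow_mem _ (Subgroup.mem_zpowers g) a) _
  · exact PiN.of_dvd ha (orderOf_dvd_of_pow_eq_one (zpow_pow_eq_one hgba _))
  · exact PiN'.of_dvd hb (orderOf_dvd_of_pow_eq_one (zpow_pow_eq_one hgab _))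

theorem comm_of_mem_zpowers {x n w : G} (h : x * n = n * x) (hw : w ∈ Subgroup.zpowers n) :
    x * w = w * x := by
  obtain ⟨k, rfl⟩ := Subgroup.mem_zpowers_iff.mp hw
  have hc : Commute x n := h
  exact (hc.zpow_right k).eq

theorem mem_zpowers_mul {π : Set ℕ} {x v : G} (hx : IsPi π x) (hv : IsPi' π v)
    (hc : x * v = v * x) :
    x ∈ Subgroup.zpowers (x * v) ∧ v ∈ Subgroup.zpowers (x * v) := by
  have hcop : Nat.Coprime (orderOf x) (orderOf v) := coprime_of hx hv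
  have hbez : ((orderOf x : ℕ) : ℤ) * Nat.gcdA (orderOf x) (orderOf v) +
      ((orderOf v : ℕ) : ℤ) * Nat.gcdB (orderOf x) (orderOf v) = 1 := by
    have h := Nat.gcd_eq_gcd_ab (orderOf x) (orderOf v)
    rw [Nat.Coprime.gcd_eq_one hcop, Nat.cast_one] at h
    exact h.symm
  have hpa : (x * v) ^ orderOf x = v ^ orderOf x := by
    rw [(show Commute x v from hc).mul_pow, pow_orderOf_eq_one, one_mul]
  have hpb : (x * v) ^ orderOf v = x ^ orderOf v := by
    rw [(show Commute x v from hc).mul_pow, pow_orderOf_eq_one, mul_one]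
  constructor
  · have e : x = ((x * v) ^ orderOf v) ^ Nat.gcdB (orderOf x) (orderOf v) := by
      rw [hpb]
      calc x = x ^ (1 : ℤ) := (zpow_one x).symm
        _ = x ^ (((orderOf x : ℕ) : ℤ) * Nat.gcdA (orderOf x) (orderOf v) +
              ((orderOf v : ℕ) : ℤ) * Nat.gcdB (orderOf x) (orderOf v)) := by rw [hbez]
        _ = (x ^ orderOf v) ^ Nat.gcdB (orderOf x) (orderOf v) := by
            rw [zpow_add, zpow_mul, zpow_mul, zpow_natCast, zpow_natCast, pow_orderOf_eq_one,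
              one_zpow, one_mul]
    have hm : ((x * v) ^ orderOf v) ^ Nat.gcdB (orderOf x) (orderOf v) ∈
        Subgroup.zpowers (x * v) :=
      Subgroup.zpow_mem _ (Subgroup.pow_mem _ (Subgroup.mem_zpowers _) _) _
    rwa [← e] at hm
  · have e : v = ((x * v) ^ orderOf x) ^ Nat.gcdA (orderOf x) (orderOf v) := by
      rw [hpa]
      calc v = v ^ (1 : ℤ) := (zpow_one v).symm
        _ = v ^ (((orderOf x : ℕ) : ℤ) * Nat.gcdA (orderOf x) (orderOf v) +
              ((orderOf v : ℕ) : ℤ) * Nat.gcdB (orderOf x) (orderOf v)) := by rw [hbez]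
        _ = (v ^ orderOf x) ^ Nat.gcdA (orderOf x) (orderOf v) := by
            rw [zpow_add, zpow_mul, zpow_mul, zpow_natCast, zpow_natCast, pow_orderOf_eq_one,
              one_zpow, mul_one]
    have hm : ((x * v) ^ orderOf x) ^ Nat.gcdA (orderOf x) (orderOf v) ∈
        Subgroup.zpowers (x * v) :=
      Subgroup.zpow_mem _ (Subgroup.pow_mem _ (Subgroup.mem_zpowers _) _) _
    rwa [← e] at hm

theorem pow_mul_eq_one {s t : G} (hst : s * t = t * s) {k l : ℕ} (hs : s ^ k = 1)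
    (ht : t ^ l = 1) : (s * t) ^ (k * l) = 1 := by
  rw [(show Commute s t from hst).mul_pow, pow_mul, hs, one_pow, mul_comm k l, pow_mul, ht,
    one_pow, one_mul]

theorem decomp_unique {π : Set ℕ} {x v x' v' : G} (hx : IsPi π x) (hv : IsPi' π v)
    (hx' : IsPi π x') (hv' : IsPi' π v') (hc : x * v = v * x) (hc' : x' * v' = v' * x')
    (h : x * v = x' * v') : x = x' ∧ v = v' := by
  obtain ⟨m1, m2⟩ := mem_zpowers_mul hx hv hc
  obtain ⟨m1', m2'⟩ := mem_zpowers_mul hx' hv' hc'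
  rw [← h] at m1' m2'
  have comm : ∀ {s t : G}, s ∈ Subgroup.zpowers (x * v) → t ∈ Subgroup.zpowers (x * v) →
      s * t = t * s := by
    intro s t hs ht
    obtain ⟨i, rfl⟩ := Subgroup.mem_zpowers_iff.mp hs
    obtain ⟨j, rfl⟩ := Subgroup.mem_zpowers_iff.mp ht
    exact zpow_mul_comm _ i j
  have hxx : x * x' = x' * x := comm m1 m1'
  have hvv : v * v' = v' * v := comm m2 m2'
  have hw : x⁻¹ * x' = v * v'⁻¹ := by
    have e : x' = x * v * v'⁻¹ := by rw [h]; group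
    rw [e]; group
  have h1 : (x⁻¹ * x') ^ (orderOf x * orderOf x') = 1 :=
    pow_mul_eq_one (Commute.inv_left (show Commute x x' from hxx)).eq
      (by rw [inv_pow, pow_orderOf_eq_one, inv_one]) (pow_orderOf_eq_one x')
  have h2 : (v * v'⁻¹) ^ (orderOf v * orderOf v') = 1 :=
    pow_mul_eq_one (Commute.inv_right (show Commute v v' from hvv)).eq
      (pow_orderOf_eq_one v) (by rw [inv_pow, pow_orderOf_eq_one, inv_one])
  rw [← hw] at h2
  have d1 : PiN π (orderOf (x⁻¹ * x')) :=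
    PiN.of_dvd (PiN.mul hx hx') (orderOf_dvd_of_pow_eq_one h1)
  have d2 : PiN' π (orderOf (x⁻¹ * x')) :=
    PiN'.of_dvd (PiN'.mul hv hv') (orderOf_dvd_of_pow_eq_one h2)
  have hone : orderOf (x⁻¹ * x') = 1 := (Nat.coprime_self _).mp (coprime_of d1 d2)
  have hxe : x = x' := inv_mul_eq_one.mp (orderOf_eq_one_iff.mp hone)
  refine ⟨hxe, ?_⟩
  rw [← hxe] at h
  exact mul_left_cancel h

theorem cls_iff (π : Set ℕ) (g : G) :
    (∀ q : ℕ, q.Prime → (∃ g' : G, ConjClasses.mk g' = ConjClasses.mk g ∧ q ∣ orderOf g') →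
      q ∈ π) ↔ IsPi π g := by
  constructor
  · intro h q hq hqd
    exact h q hq ⟨g, rfl, hqd⟩
  · rintro h q hq ⟨g', hg', hqd⟩
    obtain ⟨c, hc⟩ := isConj_iff.mp (ConjClasses.mk_eq_mk_iff_isConj.mp hg')
    have e : orderOf g = orderOf g' := by rw [← hc]; exact orderOf_conj' c g'
    rw [← e] at hqd
    exact h q hq hqd

noncomputable def pp [Finite G] (π : Set ℕ) (g : G) : G := (exists_decomp π g).choose

noncomputable def pq [Finite G] (π : Set ℕ) (g : G) : G :=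
  (exists_decomp π g).choose_spec.choose

theorem pp_spec [Finite G] (π : Set ℕ) (g : G) :
    g = pp π g * pq π g ∧ pp π g ∈ Subgroup.zpowers g ∧ pq π g ∈ Subgroup.zpowers g ∧
      IsPi π (pp π g) ∧ IsPi' π (pq π g) :=
  (exists_decomp π g).choose_spec.choose_spec

end Elements

/-! ### orbit pairs -/

section Count

variable {G : Type*} [Group G]

open Classical in
noncomputable def tf (N : Subgroup G) (x0 x : G) : N :=
  if h : ∃ k : N, x = (k : G) * x0 * (k : G)⁻¹ then h.choose else 1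

theorem tf_spec (N : Subgroup G) (x0 : G) {x : G}
    (h : ∃ k : N, x = (k : G) * x0 * (k : G)⁻¹) :
    x = (tf N x0 x : G) * x0 * (tf N x0 x : G)⁻¹ := by
  unfold tf
  rw [dif_pos h]
  exact h.choose_spec

theorem comm_aux (N : Subgroup G) (x0 : G) (k t : N)
    (h : (k : G) * x0 * (k : G)⁻¹ = (t : G) * x0 * (t : G)⁻¹) :
    ((k * t⁻¹ : N) : G) * ((k : G) * x0 * (k : G)⁻¹) =
      (k : G) * x0 * (k : G)⁻¹ * ((k * t⁻¹ : N) : G) := by
  rw [Subgroup.coe_mul, Subgroup.coe_inv]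
  have e : (t : G)⁻¹ * ((k : G) * x0 * (k : G)⁻¹) = x0 * (t : G)⁻¹ := by rw [h]; group
  calc (k : G) * (t : G)⁻¹ * ((k : G) * x0 * (k : G)⁻¹)
      = (k : G) * ((t : G)⁻¹ * ((k : G) * x0 * (k : G)⁻¹)) := mul_assoc _ _ _
    _ = (k : G) * (x0 * (t : G)⁻¹) := by rw [e]
    _ = (k : G) * x0 * (k : G)⁻¹ * ((k : G) * (t : G)⁻¹) := by group

/-- pairs `(m, x)`: `x` an `N`-conjugate of `x0`, `m ∈ C_N(x)` -/
abbrev OrbPairs (N : Subgroup G) (x0 : G) : Type _ :=
  {p : N × G // (∃ k : N, p.2 = (k : G) * x0 * (k : G)⁻¹) ∧ (p.1 : G) * p.2 = p.2 * (p.1 : G)}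

noncomputable def orbEquiv (N : Subgroup G) (x0 : G) : N ≃ OrbPairs N x0 where
  toFun k := ⟨(k * (tf N x0 ((k : G) * x0 * (k : G)⁻¹))⁻¹, (k : G) * x0 * (k : G)⁻¹), ⟨k, rfl⟩,
    comm_aux N x0 k _ (tf_spec N x0 (x := (k : G) * x0 * (k : G)⁻¹) ⟨k, rfl⟩)⟩
  invFun p := p.1.1 * tf N x0 p.1.2
  left_inv k := inv_mul_cancel_right k _
  right_inv := by
    rintro ⟨⟨m, x⟩, hk, hcomm⟩
    have hs := tf_spec N x0 hk
    have h2 : ((m * tf N x0 x : N) : G) * x0 * ((m * tf N x0 x : N) : G)⁻¹ = x := by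
      rw [Subgroup.coe_mul]
      calc (m : G) * (tf N x0 x : G) * x0 * ((m : G) * (tf N x0 x : G))⁻¹
          = (m : G) * ((tf N x0 x : G) * x0 * (tf N x0 x : G)⁻¹) * (m : G)⁻¹ := by group
        _ = (m : G) * x * (m : G)⁻¹ := by rw [← hs]
        _ = x := by rw [hcomm, mul_inv_cancel_right]
    apply Subtype.ext
    show ((m * tf N x0 x) * (tf N x0 (((m * tf N x0 x : N) : G) * x0 *
        ((m * tf N x0 x : N) : G)⁻¹))⁻¹,
      ((m * tf N x0 x : N) : G) * x0 * ((m * tf N x0 x : N) : G)⁻¹) = (m, x)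
    rw [h2, mul_inv_cancel_right]

abbrev PA (N : Subgroup G) [N.Normal] (π : Set ℕ) (g : G) : Type _ :=
  {p : N × G // QuotientGroup.mk' N p.2 = QuotientGroup.mk' N g ∧ IsPi π p.2 ∧
    (p.1 : G) * p.2 = p.2 * (p.1 : G)}

abbrev PB (N : Subgroup G) (π : Set ℕ) : Type _ :=
  {p : N × G // p.2 ∈ N ∧ IsPi π p.2 ∧ (p.1 : G) * p.2 = p.2 * (p.1 : G)}

abbrev Fib (N : Subgroup G) [N.Normal] (π : Set ℕ) (D : ConjClasses (G ⧸ N)) : Type _ :=
  {C : ConjClasses G // (∀ q : ℕ, q.Prime →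
      (∃ g : G, ConjClasses.mk g = C ∧ q ∣ orderOf g) → q ∈ π) ∧
    ConjClasses.map (QuotientGroup.mk' N) C = D}

abbrev KN (N : Subgroup G) (π : Set ℕ) : Type _ :=
  {C : ConjClasses N // ∀ q : ℕ, q.Prime →
    (∃ g : N, ConjClasses.mk g = C ∧ q ∣ orderOf g) → q ∈ π}

open Classical in
noncomputable def y0 (N : Subgroup G) [N.Normal] (g u : G) : G :=
  if h : ∃ z : G, QuotientGroup.mk' N z = QuotientGroup.mk' N g ∧ z * u = u * z
  then h.choose else 1

theorem y0_spec (N : Subgroup G) [N.Normal] (g u : G)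
    (h : ∃ z : G, QuotientGroup.mk' N z = QuotientGroup.mk' N g ∧ z * u = u * z) :
    QuotientGroup.mk' N (y0 N g u) = QuotientGroup.mk' N g ∧ y0 N g u * u = u * y0 N g u := by
  unfold y0
  rw [dif_pos h]
  exact h.choose_spec

theorem iota_aux [Finite G] (N : Subgroup G) [N.Normal] (π : Set ℕ) (g : G) (n : N) (x : G)
    (hx1 : QuotientGroup.mk' N x = QuotientGroup.mk' N g) (hx3 : (n : G) * x = x * (n : G)) :
    (y0 N g (pp π (n : G)))⁻¹ * (x * pq π (n : G)) ∈ N ∧ pp π (n : G) ∈ N ∧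
      (y0 N g (pp π (n : G)))⁻¹ * (x * pq π (n : G)) * pp π (n : G) =
        pp π (n : G) * ((y0 N g (pp π (n : G)))⁻¹ * (x * pq π (n : G))) := by
  obtain ⟨e1, e2, e3, e4, e5⟩ := pp_spec π (n : G)
  have hzN : Subgroup.zpowers (n : G) ≤ N := Subgroup.zpowers_le.mpr n.2
  have huN : pp π (n : G) ∈ N := hzN e2
  have hvN : pq π (n : G) ∈ N := hzN e3
  have hxu : x * pp π (n : G) = pp π (n : G) * x := comm_of_mem_zpowers hx3.symm e2
  have hvu : pq π (n : G) * pp π (n : G) = pp π (n : G) * pq π (n : G) := by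
    obtain ⟨i, hi⟩ := Subgroup.mem_zpowers_iff.mp e2
    obtain ⟨j, hj⟩ := Subgroup.mem_zpowers_iff.mp e3
    rw [← hi, ← hj]; exact zpow_mul_comm _ j i
  have hv1 : QuotientGroup.mk' N (pq π (n : G)) = 1 := (QuotientGroup.eq_one_iff _).mpr hvN
  have hyq : QuotientGroup.mk' N (x * pq π (n : G)) = QuotientGroup.mk' N g := by
    rw [map_mul, hx1, hv1, mul_one]
  have hyu : x * pq π (n : G) * pp π (n : G) = pp π (n : G) * (x * pq π (n : G)) :=
    ((show Commute x (pp π (n : G)) from hxu).mul_left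
      (show Commute (pq π (n : G)) (pp π (n : G)) from hvu)).eq
  obtain ⟨s1, s2⟩ := y0_spec N g (pp π (n : G)) ⟨x * pq π (n : G), hyq, hyu⟩
  refine ⟨?_, huN, ?_⟩
  · exact (QuotientGroup.eq (s := N)).mp
      (show ((y0 N g (pp π (n : G)) : G) : G ⧸ N) = ((x * pq π (n : G) : G) : G ⧸ N) from
        s1.trans hyq.symm)
  · exact ((Commute.inv_left (show Commute (y0 N g (pp π (n : G))) (pp π (n : G)) from s2)).mul_left
      (show Commute (x * pq π (n : G)) (pp π (n : G)) from hyu)).eq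

noncomputable def iota [Finite G] (N : Subgroup G) [N.Normal] (π : Set ℕ) (g : G)
    (a : PA N π g) : PB N π :=
  ⟨(⟨(y0 N g (pp π (a.1.1 : G)))⁻¹ * (a.1.2 * pq π (a.1.1 : G)),
      (iota_aux N π g a.1.1 a.1.2 a.2.1 a.2.2.2).1⟩, pp π (a.1.1 : G)),
    (iota_aux N π g a.1.1 a.1.2 a.2.1 a.2.2.2).2.1, (pp_spec π (a.1.1 : G)).2.2.2.1,
    (iota_aux N π g a.1.1 a.1.2 a.2.1 a.2.2.2).2.2⟩

theorem iota_injective [Finite G] (N : Subgroup G) [N.Normal] (π : Set ℕ) (g : G) :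
    Function.Injective (iota N π g) := by
  rintro ⟨⟨n, x⟩, hx1, hx2, hx3⟩ ⟨⟨n', x'⟩, hx1', hx2', hx3'⟩ h
  have hu : pp π (n : G) = pp π (n' : G) := congrArg (fun b : PB N π => b.1.2) h
  have hm : (y0 N g (pp π (n : G)))⁻¹ * (x * pq π (n : G)) =
      (y0 N g (pp π (n' : G)))⁻¹ * (x' * pq π (n' : G)) :=
    congrArg (fun b : PB N π => (b.1.1 : G)) h
  rw [← hu] at hm
  have hxv := mul_left_cancel hm
  obtain ⟨e1, e2, e3, e4, e5⟩ := pp_spec π (n : G)
  obtain ⟨e1', e2', e3', e4', e5'⟩ := pp_spec π (n' : G)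
  have hc : x * pq π (n : G) = pq π (n : G) * x := comm_of_mem_zpowers hx3.symm e3
  have hc' : x' * pq π (n' : G) = pq π (n' : G) * x' := comm_of_mem_zpowers hx3'.symm e3'
  obtain ⟨hxx, hvv⟩ := decomp_unique hx2 e5 hx2' e5' hc hc' hxv
  have hn : (n : G) = (n' : G) :=
    calc (n : G) = pp π (n : G) * pq π (n : G) := e1
      _ = pp π (n' : G) * pq π (n' : G) := by rw [hu, hvv]
      _ = (n' : G) := e1'.symm
  have hn' : n = n' := Subtype.ext hn
  subst hn'
  subst hxx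
  rfl

def clsOf (N : Subgroup G) (π : Set ℕ) (b : PB N π) : ConjClasses N :=
  ConjClasses.mk ⟨b.1.2, b.2.1⟩

noncomputable def repC (N : Subgroup G) (c : ConjClasses N) : G :=
  ((ConjClasses.exists_rep c).choose : N)

noncomputable def repOf (N : Subgroup G) (π : Set ℕ) (b : PB N π) : G :=
  repC N (clsOf N π b)

theorem rep_conj (N : Subgroup G) (π : Set ℕ) (b : PB N π) :
    ∃ k : N, b.1.2 = (k : G) * repOf N π b * (k : G)⁻¹ := by
  have h : ConjClasses.mk (ConjClasses.exists_rep (clsOf N π b)).choose =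
      ConjClasses.mk (⟨b.1.2, b.2.1⟩ : N) :=
    (ConjClasses.exists_rep (clsOf N π b)).choose_spec
  obtain ⟨c, hc⟩ := isConj_iff.mp (ConjClasses.mk_eq_mk_iff_isConj.mp h)
  refine ⟨c, ?_⟩
  have h2 := congrArg Subtype.val hc
  rw [Subgroup.coe_mul, Subgroup.coe_mul, Subgroup.coe_inv] at h2
  exact h2.symm

noncomputable def kOf (N : Subgroup G) (π : Set ℕ) (b : PB N π) : N :=
  (orbEquiv N (repOf N π b)).symm ⟨b.1, rep_conj N π b, b.2.2.2⟩

theorem kOf_spec (N : Subgroup G) (π : Set ℕ) (b : PB N π) :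
    (orbEquiv N (repOf N π b) (kOf N π b)).1 = b.1 := by
  unfold kOf
  rw [Equiv.apply_symm_apply]

theorem cls_pn (N : Subgroup G) (π : Set ℕ) (b : PB N π) :
    ∀ q : ℕ, q.Prime → (∃ g : N, ConjClasses.mk g = clsOf N π b ∧ q ∣ orderOf g) → q ∈ π := by
  refine (cls_iff π (⟨b.1.2, b.2.1⟩ : N)).mpr ?_
  show PiN π (orderOf (⟨b.1.2, b.2.1⟩ : N))
  rw [Subgroup.orderOf_mk]
  exact b.2.2.1

theorem exists_lift (N : Subgroup G) [N.Normal] (g : G) (C : ConjClasses G)
    (h : ConjClasses.map (QuotientGroup.mk' N) C = ConjClasses.mk (QuotientGroup.mk' N g)) :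
    ∃ x : G, ConjClasses.mk x = C ∧ QuotientGroup.mk' N x = QuotientGroup.mk' N g := by
  obtain ⟨y, rfl⟩ := ConjClasses.exists_rep C
  have h' : ConjClasses.mk (QuotientGroup.mk' N y) = ConjClasses.mk (QuotientGroup.mk' N g) := h
  obtain ⟨cb, hcb⟩ := isConj_iff.mp (ConjClasses.mk_eq_mk_iff_isConj.mp h')
  obtain ⟨c, rfl⟩ := QuotientGroup.mk'_surjective N cb
  refine ⟨c * y * c⁻¹, ?_, ?_⟩
  · exact ConjClasses.mk_eq_mk_iff_isConj.mpr (isConj_iff.mpr ⟨c⁻¹, by group⟩)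
  · rw [map_mul, map_mul, map_inv]; exact hcb

theorem orb_props (N : Subgroup G) [N.Normal] (π : Set ℕ) (g x0 : G)
    (h1 : QuotientGroup.mk' N x0 = QuotientGroup.mk' N g) (h2 : IsPi π x0) (p : OrbPairs N x0) :
    QuotientGroup.mk' N p.1.2 = QuotientGroup.mk' N g ∧ IsPi π p.1.2 := by
  obtain ⟨⟨k, hk⟩, -⟩ := p.2
  rw [hk]
  constructor
  · have hk1 : QuotientGroup.mk' N (k : G) = 1 := (QuotientGroup.eq_one_iff _).mpr k.2
    rw [map_mul, map_mul, map_inv, hk1, h1]; group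
  · show PiN π (orderOf ((k : G) * x0 * (k : G)⁻¹))
    rw [orderOf_conj']; exact h2

theorem map_prop (N : Subgroup G) [N.Normal] (π : Set ℕ) (C : ConjClasses G)
    (hC : ∀ q : ℕ, q.Prime → (∃ g : G, ConjClasses.mk g = C ∧ q ∣ orderOf g) → q ∈ π) :
    ∀ q : ℕ, q.Prime → (∃ g : G ⧸ N, ConjClasses.mk g =
      ConjClasses.map (QuotientGroup.mk' N) C ∧ q ∣ orderOf g) → q ∈ π := by
  obtain ⟨g, rfl⟩ := ConjClasses.exists_rep C
  have h1 : IsPi π g := (cls_iff π g).mp hC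
  exact (cls_iff π (QuotientGroup.mk' N g)).mpr
    (PiN.of_dvd h1 (orderOf_map_dvd (QuotientGroup.mk' N) g))

theorem fiber_le [Finite G] (N : Subgroup G) [N.Normal] (π : Set ℕ) (D : ConjClasses (G ⧸ N)) :
    Nat.card (Fib N π D) ≤ Nat.card (KN N π) := by
  classical
  obtain ⟨gb, rfl⟩ := ConjClasses.exists_rep D
  obtain ⟨g, rfl⟩ := QuotientGroup.mk'_surjective N gb
  have hrep : ∀ C : Fib N π (ConjClasses.mk (QuotientGroup.mk' N g)),
      ∃ x : G, ConjClasses.mk x = C.1 ∧ QuotientGroup.mk' N x = QuotientGroup.mk' N g :=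
    fun C => exists_lift N g C.1 C.2.2
  choose xc hxc1 hxc2 using hrep
  have hxpi : ∀ C, IsPi π (xc C) := fun C => (cls_iff π (xc C)).mp (by rw [hxc1 C]; exact C.2.1)
  let j1 : Fib N π (ConjClasses.mk (QuotientGroup.mk' N g)) × N → PA N π g := fun p =>
    ⟨(orbEquiv N (xc p.1) p.2).1,
      (orb_props N π g (xc p.1) (hxc2 p.1) (hxpi p.1) (orbEquiv N (xc p.1) p.2)).1,
      (orb_props N π g (xc p.1) (hxc2 p.1) (hxpi p.1) (orbEquiv N (xc p.1) p.2)).2,
      (orbEquiv N (xc p.1) p.2).2.2⟩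
  have hinj1 : Function.Injective j1 := by
    rintro ⟨C, k⟩ ⟨C', k'⟩ h
    have h1 : (orbEquiv N (xc C) k).1 = (orbEquiv N (xc C') k').1 := congrArg Subtype.val h
    have hC : C = C' := by
      apply Subtype.ext
      obtain ⟨⟨c, hc⟩, -⟩ := (orbEquiv N (xc C) k).2
      obtain ⟨⟨c', hc'⟩, -⟩ := (orbEquiv N (xc C') k').2
      have e : (c : G) * xc C * (c : G)⁻¹ = (c' : G) * xc C' * (c' : G)⁻¹ := by
        rw [← hc, ← hc', h1]
      rw [← hxc1 C, ← hxc1 C']
      refine ConjClasses.mk_eq_mk_iff_isConj.mpr (isConj_iff.mpr ⟨(c' : G)⁻¹ * (c : G), ?_⟩)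
      calc (c' : G)⁻¹ * (c : G) * xc C * ((c' : G)⁻¹ * (c : G))⁻¹
          = (c' : G)⁻¹ * ((c : G) * xc C * (c : G)⁻¹) * (c' : G) := by group
        _ = (c' : G)⁻¹ * ((c' : G) * xc C' * (c' : G)⁻¹) * (c' : G) := by rw [e]
        _ = xc C' := by group
    have hk : k = k' := by
      have h3 : orbEquiv N (xc C) k = orbEquiv N (xc C) k' := by
        apply Subtype.ext
        rw [h1, hC]
      exact (orbEquiv N (xc C)).injective h3
    exact Prod.ext hC hk
  let j3 : PB N π → KN N π × N := fun b => (⟨clsOf N π b, cls_pn N π b⟩, kOf N π b)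
  have hinj3 : Function.Injective j3 := by
    intro b b' h
    have h1 : clsOf N π b = clsOf N π b' := congrArg (fun z : KN N π × N => z.1.1) h
    have h2 : kOf N π b = kOf N π b' := congrArg Prod.snd h
    have hr : repOf N π b = repOf N π b' := congrArg (repC N) h1
    apply Subtype.ext
    calc b.1 = (orbEquiv N (repOf N π b) (kOf N π b)).1 := (kOf_spec N π b).symm
      _ = (orbEquiv N (repOf N π b') (kOf N π b')).1 := by rw [hr, h2]
      _ = b'.1 := kOf_spec N π b'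
  have hN : 0 < Nat.card N := Nat.card_pos
  have c1 := Nat.card_le_card_of_injective j1 hinj1
  have c2 := Nat.card_le_card_of_injective (iota N π g) (iota_injective N π g)
  have c3 := Nat.card_le_card_of_injective j3 hinj3
  rw [Nat.card_prod] at c1 c3
  exact Nat.le_of_mul_le_mul_right (c1.trans (c2.trans c3)) hN

end Count

/-- Let G be a finite group, N a normal subgroup and π a set of primes. Then the number of conjugacy classes of π-elements of G (elements whose order is divisible only by primes in π) is at most the number of conjugacy classes of π-elements of N (under conjugation by N) times the number of conjugacy classes of π-elements of G/N. -/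
theorem result {G : Type*} [Group G] [Finite G] (N : Subgroup G) [N.Normal] (π : Set ℕ) :
    Nat.card {C : ConjClasses G // ∀ q : ℕ, q.Prime → (∃ g : G, ConjClasses.mk g = C ∧ q ∣ orderOf g) → q ∈ π} ≤ Nat.card {C : ConjClasses N // ∀ q : ℕ, q.Prime → (∃ g : N, ConjClasses.mk g = C ∧ q ∣ orderOf g) → q ∈ π} * Nat.card {C : ConjClasses (G ⧸ N) // ∀ q : ℕ, q.Prime → (∃ g : (G ⧸ N), ConjClasses.mk g = C ∧ q ∣ orderOf g) → q ∈ π} := by
  classical
  let Φ : {C : ConjClasses G // ∀ q : ℕ, q.Prime →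
        (∃ g : G, ConjClasses.mk g = C ∧ q ∣ orderOf g) → q ∈ π} →
      {C : ConjClasses (G ⧸ N) // ∀ q : ℕ, q.Prime →
        (∃ g : (G ⧸ N), ConjClasses.mk g = C ∧ q ∣ orderOf g) → q ∈ π} :=
    fun C => ⟨ConjClasses.map (QuotientGroup.mk' N) C.1, map_prop N π C.1 C.2⟩
  haveI : Fintype {C : ConjClasses (G ⧸ N) // ∀ q : ℕ, q.Prime →
      (∃ g : (G ⧸ N), ConjClasses.mk g = C ∧ q ∣ orderOf g) → q ∈ π} := Fintype.ofFinite _
  have hfib : ∀ D, Nat.card {C // Φ C = D} ≤ Nat.card (KN N π) := by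
    intro D
    refine le_trans ?_ (fiber_le N π D.1)
    refine Nat.card_le_card_of_injective
      (fun C => (⟨C.1.1, C.1.2, congrArg Subtype.val C.2⟩ : Fib N π D.1)) ?_
    intro C C' h
    have h' : (C.1.1 : ConjClasses G) = C'.1.1 :=
      congrArg (fun z : Fib N π D.1 => (z.1 : ConjClasses G)) h
    exact Subtype.ext (Subtype.ext h')
  calc Nat.card _ = Nat.card (Σ D, {C // Φ C = D}) :=
        Nat.card_congr (Equiv.sigmaFiberEquiv Φ).symm
    _ = ∑ D, Nat.card {C // Φ C = D} := Nat.card_sigma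
    _ ≤ ∑ _D : {C : ConjClasses (G ⧸ N) // ∀ q : ℕ, q.Prime →
          (∃ g : (G ⧸ N), ConjClasses.mk g = C ∧ q ∣ orderOf g) → q ∈ π}, Nat.card (KN N π) :=
        Finset.sum_le_sum (fun D _ => hfib D)
    _ = Nat.card (KN N π) * Nat.card _ := by
        simp only [Finset.sum_const, Finset.card_univ, smul_eq_mul]
        rw [Fintype.card_eq_nat_card]
        exact mul_comm _ _

end Cfsg.Agent.S4152
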