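import Cfsg.Statements.S4153
import Mathlib
-- import your own Cfsg.Agent.* helpers here

set_option autoImplicit false
open Cfsg

namespace Cfsg.Agent.S4153

/-- Let G be a finite group, p a prime, N a normal subgroup, P a Sylow p-subgroup of G and P̄ a Sylow p-subgroup of G/N. Count the elements of p-power order, the identity included. Then (number of such elements of G/N)/#P̄ ≤ (number of such elements of G)/#P, stated as a cross-multiplied inequality, with equality when N is central. -/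
theorem result {G : Type*} [Group G] [Finite G] (p : ℕ) [Fact p.Prime] (N : Subgroup G) [N.Normal]
    (P : Sylow p G) (Pbar : Sylow p (G ⧸ N)) :
    Nat.card {g : (G ⧸ N) // ∃ k : ℕ, orderOf g = p ^ k} * Nat.card (P : Subgroup G) ≤ Nat.card {g : G // ∃ k : ℕ, orderOf g = p ^ k} * Nat.card (Pbar : Subgroup (G ⧸ N)) ∧
    (N ≤ Subgroup.center G → Nat.card {g : (G ⧸ N) // ∃ k : ℕ, orderOf g = p ^ k} * Nat.card (P : Subgroup G) = Nat.card {g : G // ∃ k : ℕ, orderOf g = p ^ k} * Nat.card (Pbar : Subgroup (G ⧸ N))) := by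
  classical
  have hp : p.Prime := Fact.out
  have hNn : N.Normal := inferInstance
  have hf : Function.Surjective (QuotientGroup.mk' N) := QuotientGroup.mk'_surjective N
  have hPbar : Nat.card ((P : Subgroup G).map (QuotientGroup.mk' N) : Subgroup (G ⧸ N)) =
      Nat.card (Pbar : Subgroup (G ⧸ N)) := by
    have h1 := Sylow.card_eq_multiplicity (P.mapSurjective hf)
    have h2 := Sylow.card_eq_multiplicity Pbar
    rw [Sylow.coe_mapSurjective] at h1
    rw [h1, h2]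
  have hPT : Nat.card (P : Subgroup G) =
      Nat.card ((P : Subgroup G) ⊓ N : Subgroup G) * Nat.card (Pbar : Subgroup (G ⧸ N)) := by
    have h1 := Subgroup.relIndex_mul_relIndex (⊥ : Subgroup G) ((P : Subgroup G) ⊓ N) P
      bot_le inf_le_left
    rw [Subgroup.relIndex_bot_left, Subgroup.relIndex_bot_left, Subgroup.inf_relIndex_left] at h1
    have h2 : N.relIndex (P : Subgroup G) =
        Nat.card ((P : Subgroup G).map (QuotientGroup.mk' N)) := by
      have h3 := Subgroup.relIndex_ker (K := (P : Subgroup G)) (QuotientGroup.mk' N)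
      rw [QuotientGroup.ker_mk'] at h3
      exact h3
    rw [h2, hPbar] at h1
    exact h1.symm
  have hL : ∀ v ∈ (P : Subgroup G), ∀ y : G, ∃ k : ℕ, orderOf (y * v * y⁻¹) = p ^ k := by
    intro v hv y
    obtain ⟨k, hk⟩ := (IsPGroup.iff_orderOf.mp P.isPGroup') ⟨v, hv⟩
    refine ⟨k, ?_⟩
    have h1 : orderOf (MulAut.conj y v) = orderOf v :=
      orderOf_injective (MulAut.conj y).toMonoidHom (MulAut.conj y).injective v
    rw [MulAut.conj_apply] at h1
    rw [h1, ← hk]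
    exact (Subgroup.orderOf_mk v hv).symm
  have hE : ∀ b : {q : G ⧸ N // ∃ k : ℕ, orderOf q = p ^ k}, ∃ (y u : G),
      u ∈ (P : Subgroup G) ∧ ((y * u * y⁻¹ : G) : G ⧸ N) = b.1 := by
    rintro ⟨q, k, hk⟩
    have hz : IsPGroup p (Subgroup.zpowers q) :=
      IsPGroup.of_card (n := k) (by rw [Nat.card_zpowers, hk])
    obtain ⟨Q, hQ⟩ := hz.exists_le_sylow
    obtain ⟨ybar, hy⟩ := MulAction.exists_smul_eq (G ⧸ N) (P.mapSurjective hf) Q
    have hq : q ∈ (Q : Subgroup (G ⧸ N)) := hQ (Subgroup.mem_zpowers q)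
    rw [← hy, Sylow.coe_subgroup_smul, Subgroup.mem_pointwise_smul_iff_inv_smul_mem,
      Sylow.coe_mapSurjective, Subgroup.mem_map] at hq
    obtain ⟨u, hu, hu'⟩ := hq
    obtain ⟨y, rfl⟩ := QuotientGroup.mk_surjective ybar
    refine ⟨y, u, hu, ?_⟩
    show ((y * u * y⁻¹ : G) : G ⧸ N) = q
    rw [QuotientGroup.mk_mul, QuotientGroup.mk_mul, QuotientGroup.mk_inv]
    have hu'' : (u : G ⧸ N) = (y : G ⧸ N)⁻¹ * q * (y : G ⧸ N) := by
      simpa [MulAut.smul_def, MulAut.conj_inv_apply] using hu'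
    rw [hu'']; group
  choose y u hu hyu using hE
  have hval : ∀ (b : {q : G ⧸ N // ∃ k : ℕ, orderOf q = p ^ k}) (t : G), t ∈ N →
      ((y b * (u b * t) * (y b)⁻¹ : G) : G ⧸ N) = b.1 := by
    intro b t ht
    have h1 : y b * (u b * t) * (y b)⁻¹ = (y b * u b * (y b)⁻¹) * (y b * t * (y b)⁻¹) := by group
    rw [h1, QuotientGroup.mk_mul, hyu b,
      (QuotientGroup.eq_one_iff _).mpr (hNn.conj_mem t ht (y b)), mul_one]
  let Φ : {q : G ⧸ N // ∃ k : ℕ, orderOf q = p ^ k} × ((P : Subgroup G) ⊓ N : Subgroup G) →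
      {g : G // ∃ k : ℕ, orderOf g = p ^ k} :=
    fun bt => ⟨y bt.1 * (u bt.1 * (bt.2 : G)) * (y bt.1)⁻¹,
      hL _ ((P : Subgroup G).mul_mem (hu bt.1) bt.2.2.1) _⟩
  have hinj : Function.Injective Φ := by
    rintro ⟨b, t⟩ ⟨b', t'⟩ h
    have h1 : y b * (u b * (t : G)) * (y b)⁻¹ = y b' * (u b' * (t' : G)) * (y b')⁻¹ :=
      congrArg Subtype.val h
    have hb : b = b' := by
      apply Subtype.ext
      rw [← hval b t t.2.2, ← hval b' t' t'.2.2, h1]
    subst hb
    have h2 : (t : G) = t' := mul_left_cancel (mul_left_cancel (mul_right_cancel h1))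
    exact Prod.ext rfl (Subtype.ext h2)
  have hle : Nat.card {q : G ⧸ N // ∃ k : ℕ, orderOf q = p ^ k} *
      Nat.card ((P : Subgroup G) ⊓ N : Subgroup G) ≤
      Nat.card {g : G // ∃ k : ℕ, orderOf g = p ^ k} := by
    have h1 := Nat.card_le_card_of_injective Φ hinj
    rwa [Nat.card_prod] at h1
  refine ⟨?_, ?_⟩
  · rw [hPT, ← mul_assoc]
    exact Nat.mul_le_mul_right _ hle
  · intro hcen
    have hsurj : Function.Surjective Φ := by
      rintro ⟨g, k2, hk2⟩
      have hb : ∃ k : ℕ, orderOf ((g : G ⧸ N)) = p ^ k := by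
        have hd : orderOf ((QuotientGroup.mk' N) g) ∣ orderOf g := orderOf_map_dvd _ g
        rw [hk2] at hd
        obtain ⟨j, _, hj⟩ := (Nat.dvd_prime_pow hp).mp hd
        exact ⟨j, hj⟩
      obtain ⟨b, hbdef⟩ : ∃ b : {q : G ⧸ N // ∃ k : ℕ, orderOf q = p ^ k},
        b = ⟨(g : G ⧸ N), hb⟩ := ⟨_, rfl⟩
      obtain ⟨g₀, hg₀⟩ : ∃ g₀, g₀ = y b * u b * (y b)⁻¹ := ⟨_, rfl⟩
      have hg₀b : (g₀ : G ⧸ N) = (g : G ⧸ N) := by rw [hg₀, hyu b, hbdef]
      have htN : g₀⁻¹ * g ∈ N := QuotientGroup.eq.mp hg₀b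
      have htc : ∀ z : G, z * (g₀⁻¹ * g) = (g₀⁻¹ * g) * z :=
        fun z => Subgroup.mem_center_iff.mp (hcen htN) z
      obtain ⟨k1, hk1⟩ := hL (u b) (hu b) (y b)
      rw [← hg₀] at hk1
      have h3 : g = g₀⁻¹ * g * g₀ := by
        have h4 := htc g₀
        rw [mul_inv_cancel_left] at h4
        exact h4
      have hcomm : Commute g₀⁻¹ g := by
        show g₀⁻¹ * g = g * g₀⁻¹
        calc g₀⁻¹ * g = (g₀⁻¹ * g * g₀) * g₀⁻¹ := by group
          _ = g * g₀⁻¹ := by rw [← h3]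
      have ht1 : (g₀⁻¹ * g) ^ (p ^ (k1 + k2)) = 1 := by
        have e1 : g₀ ^ (p ^ k1) = 1 := by rw [← hk1]; exact pow_orderOf_eq_one g₀
        have e2 : g ^ (p ^ k2) = 1 := by rw [← hk2]; exact pow_orderOf_eq_one g
        rw [hcomm.mul_pow, inv_pow, pow_add, pow_mul, e1, one_pow, inv_one, one_mul,
          mul_comm (p ^ k1) (p ^ k2), pow_mul, e2, one_pow]
      have htP : g₀⁻¹ * g ∈ (P : Subgroup G) := by
        have hd : orderOf (g₀⁻¹ * g) ∣ p ^ (k1 + k2) := orderOf_dvd_of_pow_eq_one ht1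
        obtain ⟨j, _, hj⟩ := (Nat.dvd_prime_pow hp).mp hd
        have hz : IsPGroup p (Subgroup.zpowers (g₀⁻¹ * g)) :=
          IsPGroup.of_card (n := j) (by rw [Nat.card_zpowers, hj])
        obtain ⟨Q, hQ⟩ := hz.exists_le_sylow
        obtain ⟨x, hx⟩ := MulAction.exists_smul_eq G P Q
        have hq : g₀⁻¹ * g ∈ (Q : Subgroup G) := hQ (Subgroup.mem_zpowers _)
        rw [← hx, Sylow.coe_subgroup_smul, Subgroup.mem_pointwise_smul_iff_inv_smul_mem] at hq
        have e : (MulAut.conj x)⁻¹ • (g₀⁻¹ * g) = g₀⁻¹ * g := by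
          rw [MulAut.smul_def, MulAut.conj_inv_apply, mul_assoc, ← htc x, inv_mul_cancel_left]
        rwa [e] at hq
      refine ⟨(b, ⟨g₀⁻¹ * g, htP, htN⟩), ?_⟩
      apply Subtype.ext
      show y b * (u b * (g₀⁻¹ * g)) * (y b)⁻¹ = g
      have h5 : y b * (u b * (g₀⁻¹ * g)) * (y b)⁻¹ = (y b * u b) * ((g₀⁻¹ * g) * (y b)⁻¹) := by
        group
      rw [h5, ← htc (y b)⁻¹, ← mul_assoc, ← hg₀, mul_inv_cancel_left]
    have heq : Nat.card {q : G ⧸ N // ∃ k : ℕ, orderOf q = p ^ k} *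
        Nat.card ((P : Subgroup G) ⊓ N : Subgroup G) =
        Nat.card {g : G // ∃ k : ℕ, orderOf g = p ^ k} := by
      have h1 := Nat.card_congr (Equiv.ofBijective Φ ⟨hinj, hsurj⟩)
      rwa [Nat.card_prod] at h1
    rw [hPT, ← mul_assoc, heq]

end Cfsg.Agent.S4153
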