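import Cfsg.Statements.S4154
import Mathlib
-- import your own Cfsg.Agent.* helpers here

set_option autoImplicit false
open Cfsg

namespace Cfsg.Agent.S4154

open scoped Pointwise


/-- Let G be a finite group and α an automorphism of G such that every element of G is the product of an element fixed by α and an element of the form g⁻¹α(g). If N is a normal α-invariant subgroup, then the automorphism ᾱ induced on G/N has the same property, and every coset fixed by ᾱ contains an element fixed by α (so the fixed points of ᾱ are the images of the fixed points of α). -/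
theorem result {G : Type*} [Group G] [Finite G] (α : MulAut G)
    (hccp : ∀ x : G, ∃ c g : G, α c = c ∧ x = c * (g⁻¹ * α g))
    (N : Subgroup G) [N.Normal] (hN : ∀ n ∈ N, α n ∈ N) :
    (∀ x : G, ∃ c g : G, c⁻¹ * α c ∈ N ∧ x⁻¹ * (c * (g⁻¹ * α g)) ∈ N) ∧
    (∀ x : G, x⁻¹ * α x ∈ N → ∃ c : G, α c = c ∧ c⁻¹ * x ∈ N) := by
  refine ⟨?_, ?_⟩
  · intro x
    obtain ⟨c, g, hc, hx⟩ := hccp x
    refine ⟨c, g, ?_, ?_⟩
    · rw [hc, inv_mul_cancel]; exact N.one_mem
    · rw [← hx, inv_mul_cancel]; exact N.one_mem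
  · classical
    obtain ⟨C, hCdef⟩ : ∃ C : Subgroup G, C = MonoidHom.eqLocus α.toMonoidHom (MonoidHom.id G) :=
      ⟨_, rfl⟩
    have hC : ∀ c, c ∈ C ↔ α c = c := fun c => by rw [hCdef]; exact Iff.rfl
    letI act : MulAction G (G ⧸ N) :=
      { smul := fun g q => (g : G ⧸ N) * q * ((α g : G) : G ⧸ N)⁻¹
        one_smul := fun q => by
          show ((1 : G) : G ⧸ N) * q * ((α 1 : G) : G ⧸ N)⁻¹ = q
          simp
        mul_smul := fun g h q => by
          show ((g * h : G) : G ⧸ N) * q * ((α (g * h) : G) : G ⧸ N)⁻¹ =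
            (g : G ⧸ N) * ((h : G ⧸ N) * q * ((α h : G) : G ⧸ N)⁻¹) * ((α g : G) : G ⧸ N)⁻¹
          simp [mul_assoc] }
    have hsmul : ∀ (g : G) (q : G ⧸ N), g • q = (g : G ⧸ N) * q * ((α g : G) : G ⧸ N)⁻¹ :=
      fun g q => rfl
    obtain ⟨D, hDdef⟩ : ∃ D : Subgroup G, D = MulAction.stabilizer G (1 : G ⧸ N) := ⟨_, rfl⟩
    have hD : ∀ x, x ∈ D ↔ x⁻¹ * α x ∈ N := by
      intro x
      rw [hDdef, MulAction.mem_stabilizer_iff, hsmul, mul_one, mul_inv_eq_one, QuotientGroup.eq]
    have hCD : C ⊔ N ≤ D := by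
      apply sup_le
      · intro c hc; rw [hD, (hC c).mp hc, inv_mul_cancel]; exact N.one_mem
      · intro n hn; rw [hD]; exact N.mul_mem (N.inv_mem hn) (hN n hn)
    obtain ⟨Cb, hCbdef⟩ : ∃ Cb : Subgroup (G ⧸ N), Cb = C.map (QuotientGroup.mk' N) := ⟨_, rfl⟩
    have hsurj : Function.Surjective
        (fun p : Cb × MulAction.orbit G (1 : G ⧸ N) => (p.1 : G ⧸ N) * (p.2 : G ⧸ N)) := by
      intro q
      obtain ⟨x, rfl⟩ := QuotientGroup.mk_surjective q
      obtain ⟨c, g, hc, hx⟩ := hccp x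
      refine ⟨(⟨(c : G ⧸ N), by rw [hCbdef]; exact Subgroup.mem_map_of_mem _ ((hC c).mpr hc)⟩,
        ⟨g⁻¹ • (1 : G ⧸ N), MulAction.mem_orbit _ _⟩), ?_⟩
      show (c : G ⧸ N) * (g⁻¹ • (1 : G ⧸ N)) = (x : G ⧸ N)
      rw [hsmul, hx]
      simp
    have hcard : N.index ≤ Nat.card Cb * D.index := by
      have h1 := Nat.card_le_card_of_surjective _ hsurj
      rw [Nat.card_prod, Nat.card_coe_set_eq, ← MulAction.index_stabilizer, ← hDdef] at h1
      exact h1
    have h2 : Nat.card Cb * Cb.index = N.index := Cb.card_mul_index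
    have h3 : Cb.index = (C ⊔ N).index := by
      rw [hCbdef, Subgroup.index_map, QuotientGroup.ker_mk',
        MonoidHom.range_eq_top_of_surjective _ (QuotientGroup.mk'_surjective N),
        Subgroup.index_top, mul_one]
    have h4 : (C ⊔ N).index ≤ D.index := by
      rw [← h2, h3] at hcard
      exact Nat.le_of_mul_le_mul_left hcard Nat.card_pos
    have h5 : (C ⊔ N).relIndex D * D.index = (C ⊔ N).index := Subgroup.relIndex_mul_index hCD
    have h6 : (C ⊔ N).relIndex D = 1 := by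
      have hDpos : 0 < D.index := Nat.pos_of_ne_zero Subgroup.index_ne_zero_of_finite
      have hrpos : 0 < (C ⊔ N).relIndex D :=
        Nat.pos_of_ne_zero (Subgroup.index_ne_zero_of_finite (H := (C ⊔ N).subgroupOf D))
      nlinarith
    have h7 : D ≤ C ⊔ N := Subgroup.relIndex_eq_one.mp h6
    intro x hx
    have hxD : x ∈ D := (hD x).mpr hx
    have hx' := h7 hxD
    have hx'' : x ∈ (C : Set G) * (N : Set G) := by rw [← Subgroup.mul_normal]; exact hx'
    obtain ⟨c, hc, n, hn, rfl⟩ := Set.mem_mul.mp hx''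
    exact ⟨c, (hC c).mp hc, by simpa using hn⟩

end Cfsg.Agent.S4154
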