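import Cfsg.Statements.S4156
import Mathlib
-- import your own Cfsg.Agent.* helpers here

set_option autoImplicit false
open Cfsg

namespace Cfsg.Agent.S4156

/-- extension by zero at the last coordinate -/
def ext0 {n : ℕ} {F : Type*} [Zero F] (y : Fin n → F) (j : Fin (n + 1)) : F :=
  if h : (j : ℕ) < n then y ⟨j, h⟩ else 0

theorem ext0_castSucc {n : ℕ} {F : Type*} [Zero F] (y : Fin n → F) (i : Fin n) :
    ext0 y i.castSucc = y i := by
  unfold ext0
  rw [dif_pos (by simp : ((i.castSucc : Fin (n + 1)) : ℕ) < n)]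
  rfl

theorem ext0_last {n : ℕ} {F : Type*} [Zero F] (y : Fin n → F) : ext0 y (Fin.last n) = 0 := by
  unfold ext0
  rw [dif_neg (by simp)]

theorem ext0_add {n : ℕ} {F : Type*} [Field F] (y z : Fin n → F) (j : Fin (n + 1)) :
    ext0 (y + z) j = ext0 y j + ext0 z j := by
  unfold ext0
  split_ifs <;> simp

theorem ext0_smul {n : ℕ} {F : Type*} [Field F] (c : F) (y : Fin n → F) (j : Fin (n + 1)) :
    ext0 (c • y) j = c * ext0 y j := by
  unfold ext0
  split_ifs <;> simp

/-- the deleted permutation representation -/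
def L (n : ℕ) (F : Type*) [Field F] (σ : Equiv.Perm (Fin (n + 1))) :
    (Fin n → F) →ₗ[F] (Fin n → F) where
  toFun y := fun i => ext0 y (σ⁻¹ i.castSucc) - ext0 y (σ⁻¹ (Fin.last n))
  map_add' y z := by
    funext i
    simp only [ext0_add, Pi.add_apply]
    ring
  map_smul' c y := by
    funext i
    simp only [ext0_smul, Pi.smul_apply, smul_eq_mul, RingHom.id_apply]
    ring

theorem L_apply (n : ℕ) (F : Type*) [Field F] (σ : Equiv.Perm (Fin (n + 1))) (y : Fin n → F)
    (i : Fin n) : L n F σ y i = ext0 y (σ⁻¹ i.castSucc) - ext0 y (σ⁻¹ (Fin.last n)) := rfl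

theorem ext0_L (n : ℕ) (F : Type*) [Field F] (σ : Equiv.Perm (Fin (n + 1))) (y : Fin n → F)
    (j : Fin (n + 1)) :
    ext0 (L n F σ y) j = ext0 y (σ⁻¹ j) - ext0 y (σ⁻¹ (Fin.last n)) := by
  by_cases h : (j : ℕ) < n
  · have hj : j = (⟨j, h⟩ : Fin n).castSucc := Fin.ext rfl
    rw [hj, ext0_castSucc, L_apply]
  · have hj : j = Fin.last n := Fin.ext (by have := j.2; simp only [Fin.val_last]; omega)
    rw [hj, ext0_last, sub_self]

theorem L_mul (n : ℕ) (F : Type*) [Field F] (σ τ : Equiv.Perm (Fin (n + 1))) :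
    L n F (σ * τ) = L n F σ * L n F τ := by
  apply LinearMap.ext
  intro y
  funext i
  show L n F (σ * τ) y i = L n F σ (L n F τ y) i
  rw [L_apply, L_apply, ext0_L, ext0_L, mul_inv_rev, Equiv.Perm.mul_apply, Equiv.Perm.mul_apply]
  ring

theorem L_one (n : ℕ) (F : Type*) [Field F] : L n F 1 = 1 := by
  apply LinearMap.ext
  intro y
  funext i
  show L n F 1 y i = y i
  rw [L_apply, inv_one, Equiv.Perm.one_apply, Equiv.Perm.one_apply, ext0_castSucc, ext0_last,
    sub_zero]

/-- the matrix representation -/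
noncomputable def mat (n : ℕ) (F : Type*) [Field F] :
    Equiv.Perm (Fin (n + 1)) →* Matrix (Fin n) (Fin n) F where
  toFun σ := LinearMap.toMatrix' (L n F σ)
  map_one' := by rw [L_one]; exact LinearMap.toMatrix'_one
  map_mul' σ τ := by rw [L_mul]; exact LinearMap.toMatrix'_mul _ _


/-- Let n ≥ 5 and F a finite field. Then the projective special linear group PSL_n(F) contains a subgroup isomorphic to the alternating group of degree n + 1. -/
theorem result (n : ℕ) (hn : 5 ≤ n) (F : Type*) [Field F] [Finite F] :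
    ∃ f : alternatingGroup (Fin (n + 1)) →* Matrix.ProjectiveSpecialLinearGroup (Fin n) F, Function.Injective f := by
  classical
  have h5 : 5 ≤ Nat.card (Fin (n + 1)) := by
    rw [Nat.card_eq_fintype_card, Fintype.card_fin]; omega
  haveI : IsSimpleGroup (alternatingGroup (Fin (n + 1))) := alternatingGroup.isSimpleGroup h5
  have hperf : commutator (alternatingGroup (Fin (n + 1))) = ⊤ :=
    commutator_alternatingGroup_eq_top h5
  let ρA : alternatingGroup (Fin (n + 1)) →* Matrix (Fin n) (Fin n) F :=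
    (mat n F).comp (alternatingGroup (Fin (n + 1))).subtype
  have hdet : ∀ a, (ρA a).det = 1 := by
    intro a
    let d : alternatingGroup (Fin (n + 1)) →* F := Matrix.detMonoidHom.comp ρA
    have h1 : commutator (alternatingGroup (Fin (n + 1))) ≤ d.toHomUnits.ker :=
      Abelianization.commutator_subset_ker _
    rw [hperf] at h1
    have h2 : d.toHomUnits a = 1 := MonoidHom.mem_ker.mp (h1 (Subgroup.mem_top a))
    have h3 : (d.toHomUnits a : F) = 1 := by rw [h2]; rfl
    exact h3
  let ψ : alternatingGroup (Fin (n + 1)) →* Matrix.SpecialLinearGroup (Fin n) F :=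
    { toFun := fun a => ⟨ρA a, hdet a⟩
      map_one' := Subtype.ext (map_one ρA)
      map_mul' := fun a b => Subtype.ext (map_mul ρA a b) }
  let φ : alternatingGroup (Fin (n + 1)) →* Matrix.ProjectiveSpecialLinearGroup (Fin n) F :=
    (QuotientGroup.mk' (Subgroup.center (Matrix.SpecialLinearGroup (Fin n) F))).comp ψ
  refine ⟨φ, ?_⟩
  rw [← MonoidHom.ker_eq_bot_iff]
  rcases φ.normal_ker.eq_bot_or_eq_top with h | h
  · exact h
  · exfalso
    let i0 : Fin n := ⟨0, by omega⟩
    let i1 : Fin n := ⟨1, by omega⟩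
    let a : Fin (n + 1) := ⟨0, by omega⟩
    let b : Fin (n + 1) := ⟨1, by omega⟩
    let c : Fin (n + 1) := ⟨2, by omega⟩
    have hab : a ≠ b := by simp [a, b, Fin.ext_iff]
    have hac : a ≠ c := by simp [a, c, Fin.ext_iff]
    have hbc : b ≠ c := by simp [b, c, Fin.ext_iff]
    have hla : Fin.last n ≠ a := by simp [a, Fin.ext_iff]; omega
    have hlb : Fin.last n ≠ b := by simp [b, Fin.ext_iff]; omega
    have hlc : Fin.last n ≠ c := by simp [c, Fin.ext_iff]; omega
    let σ : Equiv.Perm (Fin (n + 1)) := Equiv.swap a b * Equiv.swap b c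
    have hσ : σ ∈ alternatingGroup (Fin (n + 1)) := by
      rw [Equiv.Perm.mem_alternatingGroup, Equiv.Perm.sign_mul, Equiv.Perm.sign_swap hab,
        Equiv.Perm.sign_swap hbc]
      rfl
    have hσa : σ⁻¹ b = a := by
      rw [Equiv.Perm.inv_eq_iff_eq]
      show b = Equiv.swap a b (Equiv.swap b c a)
      rw [Equiv.swap_apply_of_ne_of_ne hab hac, Equiv.swap_apply_left]
    have hσl : σ⁻¹ (Fin.last n) = Fin.last n := by
      rw [Equiv.Perm.inv_eq_iff_eq]
      show Fin.last n = Equiv.swap a b (Equiv.swap b c (Fin.last n))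
      rw [Equiv.swap_apply_of_ne_of_ne hlb hlc, Equiv.swap_apply_of_ne_of_ne hla hlb]
    have hker : (⟨σ, hσ⟩ : alternatingGroup (Fin (n + 1))) ∈ φ.ker := by rw [h]; trivial
    rw [MonoidHom.mem_ker] at hker
    have hcen : ψ ⟨σ, hσ⟩ ∈ Subgroup.center (Matrix.SpecialLinearGroup (Fin n) F) :=
      (QuotientGroup.eq_one_iff _).mp hker
    rw [Matrix.SpecialLinearGroup.mem_center_iff] at hcen
    obtain ⟨r, _, hr⟩ := hcen
    have hentry := congrFun (congrFun hr i1) i0
    have hi : i1 ≠ i0 := by simp [i0, i1, Fin.ext_iff]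
    rw [Matrix.scalar_apply, Matrix.diagonal_apply_ne _ hi] at hentry
    have hval : ((ψ ⟨σ, hσ⟩ : Matrix.SpecialLinearGroup (Fin n) F) : Matrix (Fin n) (Fin n) F) i1 i0
        = 1 := by
      show LinearMap.toMatrix' (L n F σ) i1 i0 = 1
      rw [LinearMap.toMatrix'_apply, L_apply]
      have e1 : i1.castSucc = b := Fin.ext rfl
      have e2 : a = i0.castSucc := Fin.ext rfl
      rw [e1, hσa, hσl, ext0_last, e2, ext0_castSucc, Pi.single_eq_same, sub_zero]
    rw [hval] at hentry
    exact zero_ne_one hentry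

end Cfsg.Agent.S4156
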