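import Cfsg.Statements.S4168
import Mathlib
-- import your own Cfsg.Agent.* helpers here

set_option autoImplicit false
open Cfsg

namespace Cfsg.Agent.S4168

/-- Let L be a finite quasisimple group (perfect with L/Z(L) simple). Then every prime dividing the order of the centre Z(L) also divides the order of L/Z(L). -/
theorem result {L : Type*} [Group L] [Finite L] (hL : Cfsg.IsQuasisimple L)
    (p : ℕ) (hp : p.Prime) (hdiv : p ∣ Nat.card (Subgroup.center L)) : p ∣ (Subgroup.center L).index := by
  obtain ⟨hperf, _⟩ := hL
  have hker : ∀ g : L, g ^ (Subgroup.center L).index = 1 := by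
    intro g
    have h1 : commutator L ≤ (MonoidHom.transferCenterPow L).ker := by
      rw [commutator_eq_closure, Subgroup.closure_le]
      rintro _ ⟨a, b, rfl⟩
      rw [SetLike.mem_coe, MonoidHom.mem_ker, map_commutatorElement]
      refine commutatorElement_eq_one_iff_commute.mpr ?_
      have hc : ∀ x y : Subgroup.center L, x * y = y * x := by
        intro x y
        ext
        simpa using (Subgroup.mem_center_iff.mp y.2 x)
      exact hc _ _
    have h2 : g ∈ (MonoidHom.transferCenterPow L).ker :=
      h1 (by rw [hperf.commutator_eq_top]; trivial)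
    have h3 := MonoidHom.transferCenterPow_apply (G := L) g
    rw [MonoidHom.mem_ker] at h2
    rw [h2] at h3
    simpa using h3.symm
  haveI := Fact.mk hp
  obtain ⟨z, hz⟩ := exists_prime_orderOf_dvd_card' p hdiv
  have h4 : orderOf (z : L) = p := by
    rw [Subgroup.orderOf_coe, hz]
  rw [← h4]
  exact orderOf_dvd_of_pow_eq_one (hker z)

end Cfsg.Agent.S4168
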