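import Cfsg.Statements.S4178
import Mathlib
-- import your own Cfsg.Agent.* helpers here

set_option autoImplicit false
open Cfsg

namespace Cfsg.Agent.S4178

/-- If `e : K → X` into a finite type separates cosets of `R` (equal values force the same coset),
then the index of `R` is at most the size of `X`. -/
theorem index_le_card_of_map {K X : Type*} [Group K] [Finite X] (R : Subgroup K) (e : K → X)
    (he : ∀ k k' : K, e k = e k' → k⁻¹ * k' ∈ R) : R.index ≤ Nat.card X := by
  classical
  let ψ : X → K ⧸ R := fun w => if h : ∃ k : K, e k = w then (h.choose : K ⧸ R) else ((1 : K) : K ⧸ R)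
  have hsurj : Function.Surjective ψ := by
    intro c
    induction c using QuotientGroup.induction_on with
    | H k =>
    refine ⟨e k, ?_⟩
    have hex : ∃ k' : K, e k' = e k := ⟨k, rfl⟩
    simp only [ψ, dif_pos hex]
    rw [QuotientGroup.eq]
    exact he _ _ hex.choose_spec
  exact Nat.card_le_card_of_surjective ψ hsurj

theorem card_ne_zero_subtype {F V : Type*} [Field F] [Fintype F] [AddCommGroup V] [Module F V]
    [FiniteDimensional F V] :
    Nat.card {v : V // v ≠ 0} = Fintype.card F ^ Module.finrank F V - 1 := by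
  classical
  haveI : Finite V := Module.finite_of_finite F
  haveI : Fintype V := Fintype.ofFinite V
  rw [Nat.card_eq_fintype_card, Fintype.card_subtype_compl, Fintype.card_subtype_eq,
    ← Nat.card_eq_fintype_card, Module.natCard_eq_pow_finrank (K := F), Nat.card_eq_fintype_card]

theorem exists_fixed_of_quot_fixed {F V : Type*} [Field F] [AddCommGroup V] [Module F V]
    [FiniteDimensional F V] (g : V ≃ₗ[F] V) (W : Submodule F V) (hW : ∀ w ∈ W, g w ∈ W)
    (v : V) (hv : v ∉ W) (hgv : g v - v ∈ W) : ∃ u : V, u ≠ 0 ∧ g u = u := by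
  by_contra hcon
  push Not at hcon
  let T : V →ₗ[F] V := (g : V →ₗ[F] V) - LinearMap.id
  have hT : ∀ w ∈ W, T w ∈ W := fun w hw => by
    simp only [T, LinearMap.sub_apply, LinearMap.id_apply, LinearEquiv.coe_coe]
    exact W.sub_mem (hW w hw) hw
  have hTinj : Function.Injective T := by
    rw [← LinearMap.ker_eq_bot, Submodule.eq_bot_iff]
    intro u hu
    by_contra hu0
    apply hcon u hu0
    have : g u - u = 0 := by simpa [T] using hu
    exact sub_eq_zero.mp this
  let T' : W →ₗ[F] W := T.restrict hT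
  have hT'inj : Function.Injective T' := by
    intro a b hab
    have := congrArg Subtype.val hab
    simp only [T', LinearMap.coe_restrict_apply] at this
    exact Subtype.ext (hTinj this)
  have hT'surj : Function.Surjective T' := LinearMap.injective_iff_surjective.mp hT'inj
  obtain ⟨w, hw⟩ := hT'surj ⟨g v - v, hgv⟩
  have h1 : T w = T v := by
    have := congrArg Subtype.val hw
    simp only [T', LinearMap.coe_restrict_apply] at this
    rw [this]
    simp [T]
  have h2 : (w : V) = v := hTinj h1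
  exact hv (h2 ▸ w.2)


/-- Let F be a finite field with q elements, V a non-zero finite-dimensional F-space of dimension d, H a group of invertible linear maps of V, and R the subgroup of H generated by the elements of H that fix some non-zero vector (have eigenvalue 1). Then the index of R in H is at most q^d − 1; and if H leaves invariant some proper non-zero subspace, the index is at most q^(d/2) − 1. -/
theorem result {F V : Type*} [Field F] [Fintype F] [AddCommGroup V] [Module F V] [FiniteDimensional F V] [Nontrivial V]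
    (H : Subgroup (V ≃ₗ[F] V)) :
    (Subgroup.closure {h : ↥H | ∃ v : V, v ≠ 0 ∧ (h : V ≃ₗ[F] V) v = v}).index ≤ Fintype.card F ^ Module.finrank F V - 1 ∧
    ((∃ W : Submodule F V, W ≠ ⊥ ∧ W ≠ ⊤ ∧ ∀ h ∈ H, ∀ w ∈ W, h w ∈ W) →
      ((Subgroup.closure {h : ↥H | ∃ v : V, v ≠ 0 ∧ (h : V ≃ₗ[F] V) v = v}).index : ℝ) ≤ Real.sqrt ((Fintype.card F : ℝ) ^ Module.finrank F V) - 1) := by
  classical
  haveI : Finite V := Module.finite_of_finite F
  set R := Subgroup.closure {h : ↥H | ∃ v : V, v ≠ 0 ∧ (h : V ≃ₗ[F] V) v = v} with hR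
  have hRmem : ∀ g : ↥H, (∃ v : V, v ≠ 0 ∧ (g : V ≃ₗ[F] V) v = v) → g ∈ R :=
    fun g hg => Subgroup.subset_closure hg
  have hq1 : 1 ≤ Fintype.card F := Fintype.card_pos
  constructor
  · obtain ⟨v₀, hv₀⟩ := exists_ne (0 : V)
    have h := index_le_card_of_map R
      (fun k : ↥H => (⟨(k : V ≃ₗ[F] V) v₀, by simpa using hv₀⟩ : {v : V // v ≠ 0})) (by
        intro k k' hkk
        apply hRmem
        refine ⟨v₀, hv₀, ?_⟩
        have h1 : (k : V ≃ₗ[F] V) v₀ = (k' : V ≃ₗ[F] V) v₀ := congrArg Subtype.val hkk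
        show ((k⁻¹ * k' : ↥H) : V ≃ₗ[F] V) v₀ = v₀
        rw [Subgroup.coe_mul, Subgroup.coe_inv, LinearEquiv.mul_apply, ← h1]
        exact (k : V ≃ₗ[F] V).symm_apply_apply v₀)
    rwa [card_ne_zero_subtype (F := F)] at h
  · rintro ⟨W, hWbot, hWtop, hWinv⟩
    have hWinv' : ∀ h : ↥H, ∀ w : V, (h : V ≃ₗ[F] V) w ∈ W → w ∈ W := by
      intro h w hw
      have := hWinv ((h⁻¹ : ↥H) : V ≃ₗ[F] V) (h⁻¹).2 _ hw
      rw [Subgroup.coe_inv] at this
      have e : ((h : V ≃ₗ[F] V))⁻¹ ((h : V ≃ₗ[F] V) w) = w := (h : V ≃ₗ[F] V).symm_apply_apply w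
      rwa [e] at this
    have hfin := Submodule.finrank_quotient_add_finrank W
    -- the real-number step
    have key : ∀ e : ℕ, 2 * e ≤ Module.finrank F V → R.index ≤ Fintype.card F ^ e - 1 →
        (R.index : ℝ) ≤ Real.sqrt ((Fintype.card F : ℝ) ^ Module.finrank F V) - 1 := by
      intro e he hle
      have h1 : (1 : ℕ) ≤ Fintype.card F ^ e := Nat.one_le_pow _ _ hq1
      have h2 : (R.index : ℝ) ≤ (Fintype.card F : ℝ) ^ e - 1 := by
        have : (R.index : ℝ) ≤ ((Fintype.card F ^ e - 1 : ℕ) : ℝ) := by exact_mod_cast hle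
        rw [Nat.cast_sub h1] at this
        simpa using this
      have h3 : (Fintype.card F : ℝ) ^ e ≤ Real.sqrt ((Fintype.card F : ℝ) ^ Module.finrank F V) := by
        apply Real.le_sqrt_of_sq_le
        rw [← pow_mul]
        apply pow_le_pow_right₀
        · exact_mod_cast hq1
        · omega
      linarith
    by_cases hcase : 2 * Module.finrank F W ≤ Module.finrank F V
    · -- orbit inside W
      obtain ⟨w₀, hw₀W, hw₀⟩ := (Submodule.ne_bot_iff W).mp hWbot
      apply key (Module.finrank F W) hcase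
      have h := index_le_card_of_map R
        (fun k : ↥H => (⟨⟨(k : V ≃ₗ[F] V) w₀, hWinv _ k.2 _ hw₀W⟩, by
          simpa [Subtype.ext_iff] using hw₀⟩ : {w : W // w ≠ 0})) (by
          intro k k' hkk
          apply hRmem
          refine ⟨w₀, hw₀, ?_⟩
          have h1 : (k : V ≃ₗ[F] V) w₀ = (k' : V ≃ₗ[F] V) w₀ :=
            congrArg (fun z : {w : W // w ≠ 0} => ((z : W) : V)) hkk
          show ((k⁻¹ * k' : ↥H) : V ≃ₗ[F] V) w₀ = w₀
          rw [Subgroup.coe_mul, Subgroup.coe_inv, LinearEquiv.mul_apply, ← h1]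
          exact (k : V ≃ₗ[F] V).symm_apply_apply w₀)
      rwa [card_ne_zero_subtype (F := F)] at h
    · -- orbit inside V ⧸ W
      have hex : ∃ v₁ : V, v₁ ∉ W := by
        by_contra hall
        push Not at hall
        exact hWtop (Submodule.eq_top_iff'.mpr hall)
      obtain ⟨v₁, hv₁⟩ := hex
      haveI : Finite (V ⧸ W) := Module.finite_of_finite F
      apply key (Module.finrank F (V ⧸ W)) (by omega)
      have h := index_le_card_of_map R
        (fun k : ↥H => (⟨Submodule.Quotient.mk ((k : V ≃ₗ[F] V) v₁), by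
          rw [Ne, Submodule.Quotient.mk_eq_zero]
          exact fun hk => hv₁ (hWinv' k v₁ hk)⟩ : {u : V ⧸ W // u ≠ 0})) (by
          intro k k' hkk
          apply hRmem
          have h1 : (Submodule.Quotient.mk ((k : V ≃ₗ[F] V) v₁) : V ⧸ W) =
              Submodule.Quotient.mk ((k' : V ≃ₗ[F] V) v₁) := congrArg Subtype.val hkk
          rw [Submodule.Quotient.eq] at h1
          apply exists_fixed_of_quot_fixed _ W (fun w hw => hWinv _ (k⁻¹ * k').2 w hw) v₁ hv₁
          -- (k⁻¹ k') v₁ - v₁ ∈ W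
          apply hWinv' k
          have e : (k : V ≃ₗ[F] V) (((k⁻¹ * k' : ↥H) : V ≃ₗ[F] V) v₁ - v₁) =
              -((k : V ≃ₗ[F] V) v₁ - (k' : V ≃ₗ[F] V) v₁) := by
            rw [Subgroup.coe_mul, Subgroup.coe_inv, LinearEquiv.mul_apply, map_sub]
            have e2 : (k : V ≃ₗ[F] V) (((k : V ≃ₗ[F] V))⁻¹ ((k' : V ≃ₗ[F] V) v₁)) = (k' : V ≃ₗ[F] V) v₁ :=
              (k : V ≃ₗ[F] V).apply_symm_apply _
            rw [e2]; abel
          rw [e]
          exact W.neg_mem h1)
      rwa [card_ne_zero_subtype (F := F)] at h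

end Cfsg.Agent.S4178
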