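import Cfsg.Statements.S4182
import Mathlib
import Cfsg.Agent.Helper5.Grp

set_option autoImplicit false
open Cfsg

namespace Cfsg.Agent.S4182

universe u v

/-- A finite `p`-group is not the union of at most `p` proper subgroups. -/
theorem pgroup_not_cover {G : Type u} [Group G] [Finite G] (p : ℕ) [Fact p.Prime]
    (hG : IsPGroup p G) {ι : Type v} [Fintype ι] (K : ι → Subgroup G) (hK : ∀ i, K i ≠ ⊤)
    (hcov : ∀ g : G, ∃ i, g ∈ K i) : p + 1 ≤ Fintype.card ι := by
  classical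
  by_contra hlt
  push_neg at hlt
  have hp2 : 2 ≤ p := (Fact.out : p.Prime).two_le
  choose idx hidx using hcov
  obtain ⟨i₁, hi₁⟩ : ∃ i₁, i₁ = idx 1 := ⟨_, rfl⟩
  let f : G ⊕ {i : ι // i ≠ i₁} → Σ i, K i := fun t =>
    match t with
    | Sum.inl g => ⟨idx g, ⟨g, hidx g⟩⟩
    | Sum.inr i => ⟨i.1, 1⟩
  have hf : Function.Injective f := by
    rintro (g | i) (g' | i') h
    · have h2 := congrArg (fun t : Σ i, K i => (t.2 : G)) h
      exact congrArg Sum.inl h2
    · exfalso
      have h1 := congrArg (fun t : Σ i, K i => t.1) h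
      have h2 := congrArg (fun t : Σ i, K i => (t.2 : G)) h
      have hg : g = 1 := h2
      have h3 : idx g = i'.1 := h1
      rw [hg, ← hi₁] at h3
      exact i'.2 h3.symm
    · exfalso
      have h1 := congrArg (fun t : Σ i, K i => t.1) h
      have h2 := congrArg (fun t : Σ i, K i => (t.2 : G)) h
      have hg : (1 : G) = g' := h2
      have h3 : i.1 = idx g' := h1
      rw [← hg, ← hi₁] at h3
      exact i.2 h3
    · have h1 := congrArg (fun t : Σ i, K i => t.1) h
      exact congrArg Sum.inr (Subtype.ext h1)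
  have h1 : Nat.card G + Nat.card {i : ι // i ≠ i₁} ≤ ∑ i, Nat.card (K i) := by
    have h := Nat.card_le_card_of_injective f hf
    rwa [Nat.card_sum, Nat.card_sigma] at h
  have h2 : Nat.card {i : ι // i ≠ i₁} + 1 = Fintype.card ι := by
    have h := Fintype.card_congr (Equiv.optionSubtypeNe i₁)
    rw [Fintype.card_option] at h
    rw [Nat.card_eq_fintype_card]; exact h
  have h3 : ∀ i, Nat.card (K i) * p ≤ Nat.card G := by
    intro i
    obtain ⟨n, hn⟩ := hG.index (K i)
    have hn0 : n ≠ 0 := by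
      rintro rfl
      rw [pow_zero, Subgroup.index_eq_one] at hn
      exact hK i hn
    have hpd : p ∣ (K i).index := by rw [hn]; exact dvd_pow_self p hn0
    have hidx0 : (K i).index ≠ 0 := Subgroup.index_ne_zero_of_finite
    have hple : p ≤ (K i).index := Nat.le_of_dvd (Nat.pos_of_ne_zero hidx0) hpd
    rw [← Subgroup.card_mul_index (K i)]
    exact Nat.mul_le_mul_left _ hple
  have h4 : (∑ i, Nat.card (K i)) * p ≤ Fintype.card ι * Nat.card G := by
    rw [Finset.sum_mul]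
    calc ∑ i, Nat.card (K i) * p ≤ ∑ _i : ι, Nat.card G := Finset.sum_le_sum (fun i _ => h3 i)
      _ = Fintype.card ι * Nat.card G := by rw [Finset.sum_const, Finset.card_univ, smul_eq_mul]
  have hm : 0 < Nat.card G := Nat.card_pos
  obtain ⟨c', hc'⟩ : ∃ c', c' = Nat.card {i : ι // i ≠ i₁} := ⟨_, rfl⟩
  rw [← hc'] at h1 h2
  have h5 : (Nat.card G + c') * p ≤ Fintype.card ι * Nat.card G :=
    le_trans (Nat.mul_le_mul_right p h1) h4
  have h6 : Fintype.card ι * Nat.card G ≤ p * Nat.card G := Nat.mul_le_mul_right _ (by omega)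
  have e : (Nat.card G + c') * p = p * Nat.card G + c' * p := by ring
  have h7 : c' * p = 0 := by omega
  have hc0 : c' = 0 := by
    rcases Nat.mul_eq_zero.mp h7 with h | h
    · exact h
    · omega
  rw [hc0] at h2 h5
  rw [← h2] at h5
  have h8 : Nat.card G * 2 ≤ Nat.card G * p := Nat.mul_le_mul_left _ hp2
  simp only [add_zero, zero_add, one_mul] at h5
  omega

/-- conjugate of a subgroup -/
def cj {G : Type u} [Group G] (g : G) (L : Subgroup G) : Subgroup G :=
  L.map (MulAut.conj g).toMonoidHom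

theorem mem_cj {G : Type u} [Group G] (g x : G) (L : Subgroup G) :
    x ∈ cj g L ↔ g⁻¹ * x * g ∈ L := by
  unfold cj
  rw [Subgroup.mem_map]
  constructor
  · rintro ⟨y, hy, rfl⟩
    have e : g⁻¹ * ((MulAut.conj g).toMonoidHom y) * g = y := by
      simp [MulAut.conj_apply, mul_assoc]
    rw [e]; exact hy
  · intro h
    exact ⟨g⁻¹ * x * g, h, by simp [MulAut.conj_apply, mul_assoc]⟩

theorem cj_mul {G : Type u} [Group G] (g h : G) (L : Subgroup G) :
    cj g (cj h L) = cj (g * h) L := by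
  ext x
  rw [mem_cj, mem_cj, mem_cj]
  have e : (g * h)⁻¹ * x * (g * h) = h⁻¹ * (g⁻¹ * x * g) * h := by group
  rw [e]

theorem cj_one {G : Type u} [Group G] (L : Subgroup G) : cj 1 L = L := by
  ext x; rw [mem_cj]; simp

theorem cj_mono {G : Type u} [Group G] (g : G) {L L' : Subgroup G} (h : L ≤ L') :
    cj g L ≤ cj g L' :=
  Subgroup.map_mono h

theorem cj_top {G : Type u} [Group G] (g : G) : cj g (⊤ : Subgroup G) = ⊤ := by
  ext x; rw [mem_cj]; simp

theorem cj_self {G : Type u} [Group G] {g : G} {L : Subgroup G} (hg : g ∈ L) : cj g L = L := by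
  ext x
  rw [mem_cj, Subgroup.mul_mem_cancel_right _ hg, Subgroup.mul_mem_cancel_left _ (L.inv_mem hg)]

/-- generated by `p`-elements -/
def PG (p : ℕ) {G : Type u} [Group G] (L : Subgroup G) : Prop :=
  ∃ S : Set G, (∀ s ∈ S, ∃ k : ℕ, orderOf s = p ^ k) ∧ Subgroup.closure S = L

theorem cj_PG (p : ℕ) {G : Type u} [Group G] (g : G) {L : Subgroup G} (h : PG p L) :
    PG p (cj g L) := by
  obtain ⟨S, hS, hcl⟩ := h
  refine ⟨(MulAut.conj g).toMonoidHom '' S, ?_, ?_⟩
  · rintro _ ⟨s, hs, rfl⟩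
    obtain ⟨k, hk⟩ := hS s hs
    exact ⟨k, by rw [orderOf_injective _ (MulAut.conj g).injective]; exact hk⟩
  · rw [← MonoidHom.map_closure, hcl]; rfl

theorem aux (p : ℕ) [Fact p.Prime] {ι : Type v} [Fintype ι] :
    ∀ N : ℕ, ∀ (G : Type u) [Group G] [Finite G], Nat.card G = N →
      ∀ K : ι → Subgroup G, Subgroup.closure {g : G | ∃ k : ℕ, orderOf g = p ^ k} = ⊤ →
      (∀ i, K i ≠ ⊤) → (∀ g : G, (∃ k : ℕ, orderOf g = p ^ k) → ∃ i, g ∈ K i) →
      p + 1 ≤ Fintype.card ι := by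
  intro N
  induction N using Nat.strong_induction_on with
  | _ N ih =>
  intro G _ _ hN K hgen hK hcov
  by_contra hlt
  push_neg at hlt
  have step1 : ∀ L : Subgroup G, L ≠ ⊤ → PG p L → ∃ i, L ≤ K i := by
    intro L hL hPG
    by_contra hcon
    push_neg at hcon
    obtain ⟨S, hS, hcl⟩ := hPG
    have hcard : Nat.card L < N := by
      rw [← hN]
      refine lt_of_le_of_ne (Subgroup.card_le_card_group L) ?_
      intro h
      exact hL ((Subgroup.card_eq_iff_eq_top L).mp h)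
    have h1 := ih (Nat.card L) hcard L rfl (fun i => (K i).subgroupOf L) ?_ ?_ ?_
    · omega
    · rw [eq_top_iff, ← Subgroup.map_le_map_iff_of_injective L.subtype_injective,
        MonoidHom.map_closure, ← MonoidHom.range_eq_map, Subgroup.range_subtype]
      calc L = Subgroup.closure S := hcl.symm
        _ ≤ _ := Subgroup.closure_mono ?_
      intro s hs
      have hsL : s ∈ L := by rw [← hcl]; exact Subgroup.subset_closure hs
      obtain ⟨k, hk⟩ := hS s hs
      exact ⟨⟨s, hsL⟩, ⟨k, by rw [Subgroup.orderOf_mk]; exact hk⟩, rfl⟩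
    · intro i h
      exact hcon i (Subgroup.subgroupOf_eq_top.mp h)
    · rintro g ⟨k, hk⟩
      obtain ⟨i, hi⟩ := hcov (g : G) ⟨k, by rw [Subgroup.orderOf_coe]; exact hk⟩
      exact ⟨i, Subgroup.mem_subgroupOf.mpr hi⟩
  by_cases hGp : IsPGroup p G
  · have h1 := pgroup_not_cover p hGp K hK (fun g => hcov g (IsPGroup.iff_orderOf.mp hGp g))
    omega
  have hsyl : ∀ Q : Sylow p G, (Q : Subgroup G) ≠ ⊤ := by
    intro Q hQ
    apply hGp
    intro g
    obtain ⟨k, hk⟩ := Q.isPGroup' ⟨g, by rw [hQ]; exact Subgroup.mem_top g⟩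
    exact ⟨k, by simpa using congrArg Subtype.val hk⟩
  have hsylPG : ∀ Q : Sylow p G, PG p (Q : Subgroup G) := by
    intro Q
    refine ⟨(Q : Set G), ?_, Subgroup.closure_eq _⟩
    intro s hs
    obtain ⟨k, hk⟩ := IsPGroup.iff_orderOf.mp Q.isPGroup' ⟨s, hs⟩
    exact ⟨k, by rw [← hk, Subgroup.orderOf_mk]⟩
  obtain ⟨𝓜, h𝓜def⟩ : ∃ 𝓜 : Set (Subgroup G),
      𝓜 = {M | Maximal (fun L : Subgroup G => L ≠ ⊤ ∧ PG p L) M} := ⟨_, rfl⟩
  have hmem : ∀ M, M ∈ 𝓜 ↔ Maximal (fun L : Subgroup G => L ≠ ⊤ ∧ PG p L) M := by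
    intro M; rw [h𝓜def]; rfl
  have hex : ∀ L : Subgroup G, L ≠ ⊤ → PG p L → ∃ M ∈ 𝓜, L ≤ M := by
    intro L hL hPG
    obtain ⟨M, hLM, hM⟩ :=
      Finite.exists_le_maximal (p := fun L : Subgroup G => L ≠ ⊤ ∧ PG p L) ⟨hL, hPG⟩
    exact ⟨M, (hmem M).mpr hM, hLM⟩
  have hK' : ∀ M ∈ 𝓜, ∃ i,
      M = Subgroup.closure {g : G | g ∈ K i ∧ ∃ k : ℕ, orderOf g = p ^ k} := by
    intro M hM
    have hM' := (hmem M).mp hM
    obtain ⟨i, hi⟩ := step1 M hM'.prop.1 hM'.prop.2
    have hle : M ≤ Subgroup.closure {g : G | g ∈ K i ∧ ∃ k : ℕ, orderOf g = p ^ k} := by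
      obtain ⟨S, hS, hcl⟩ := hM'.prop.2
      calc M = Subgroup.closure S := hcl.symm
        _ ≤ _ := Subgroup.closure_mono ?_
      intro s hs
      exact ⟨hi (by rw [← hcl]; exact Subgroup.subset_closure hs), hS s hs⟩
    refine ⟨i, le_antisymm hle (hM'.le_of_ge ⟨?_, ?_⟩ hle)⟩
    · intro h
      apply hK i
      rw [eq_top_iff, ← h, Subgroup.closure_le]
      intro g hg; exact hg.1
    · exact ⟨_, fun s hs => hs.2, rfl⟩
  have hcard𝓜 : Nat.card 𝓜 ≤ p := by
    obtain ⟨i0, -⟩ := hcov 1 ⟨0, by simp⟩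
    haveI : Nonempty ι := ⟨i0⟩
    choose! idx hidx using hK'
    have hinj : Function.Injective (fun M : 𝓜 => idx M.1) := by
      intro M M' h
      have h' : idx M.1 = idx M'.1 := h
      apply Subtype.ext
      calc M.1 = Subgroup.closure {g : G | g ∈ K (idx M.1) ∧ ∃ k : ℕ, orderOf g = p ^ k} :=
            hidx M.1 M.2
        _ = Subgroup.closure {g : G | g ∈ K (idx M'.1) ∧ ∃ k : ℕ, orderOf g = p ^ k} := by
            rw [h']
        _ = M'.1 := (hidx M'.1 M'.2).symm
    have h1 := Nat.card_le_card_of_injective _ hinj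
    rw [Nat.card_eq_fintype_card (α := ι)] at h1
    omega
  have hconj : ∀ g : G, ∀ M ∈ 𝓜, cj g M ∈ 𝓜 := by
    intro g M hM
    have hM' := (hmem M).mp hM
    rw [hmem]
    refine ⟨⟨?_, cj_PG p g hM'.prop.2⟩, ?_⟩
    · intro h
      apply hM'.prop.1
      have h1 : cj g⁻¹ (cj g M) = cj g⁻¹ ⊤ := by rw [h]
      rwa [cj_mul, inv_mul_cancel, cj_one, cj_top] at h1
    · intro L hL hle
      have h1 : M ≤ cj g⁻¹ L := by
        have h0 := cj_mono g⁻¹ hle
        rwa [cj_mul, inv_mul_cancel, cj_one] at h0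
      have hne : cj g⁻¹ L ≠ ⊤ := by
        intro h
        apply hL.1
        have h0 : cj g (cj g⁻¹ L) = cj g ⊤ := by rw [h]
        rwa [cj_mul, mul_inv_cancel, cj_one, cj_top] at h0
      have h2 : cj g⁻¹ L ≤ M := hM'.le_of_ge ⟨hne, cj_PG p g⁻¹ hL.2⟩ h1
      have h3 := cj_mono g h2
      rwa [cj_mul, mul_inv_cancel, cj_one] at h3
  have stepA : ∀ g : G, (∃ k : ℕ, orderOf g = p ^ k) → ∀ M ∈ 𝓜, cj g M = M := by
    rintro g ⟨k, hk⟩ M hM
    have hgP : IsPGroup p (Subgroup.zpowers g) := by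
      apply IsPGroup.of_card (n := k)
      rw [Nat.card_zpowers, hk]
    obtain ⟨Q, hQ⟩ := hgP.exists_le_sylow
    obtain ⟨M₁, hM₁, hQM₁⟩ := hex Q (hsyl Q) (hsylPG Q)
    have hgM₁ : g ∈ M₁ := hQM₁ (hQ (Subgroup.mem_zpowers g))
    let f : Function.End 𝓜 := fun M => ⟨cj g M.1, hconj g M.1 M.2⟩
    have hfpow : ∀ j : ℕ, ∀ M : 𝓜, ((f ^ j) M).1 = cj (g ^ j) M.1 := by
      intro j
      induction j with
      | zero =>
        intro M
        rw [pow_zero, pow_zero, cj_one]
        all_goals rfl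
      | succ j ihj =>
        intro M
        rw [pow_succ, pow_succ]
        show ((f ^ j) (f M)).1 = _
        rw [ihj (f M)]
        show cj (g ^ j) (cj g M.1) = _
        rw [cj_mul]
    have hf : f ^ p ^ k = 1 := by
      funext M
      apply Subtype.ext
      rw [hfpow, ← hk, pow_orderOf_eq_one, cj_one]
      all_goals rfl
    have hmod : Nat.card 𝓜 ≡ Nat.card (Function.fixedPoints f) [MOD p] := by
      classical
      haveI := Fintype.ofFinite 𝓜
      have h1 := Equiv.Perm.card_fixedPoints_modEq (f := f) hf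
      rw [← Nat.card_eq_fintype_card, ← Nat.card_eq_fintype_card] at h1
      exact h1
    have hfix1 : (⟨M₁, hM₁⟩ : 𝓜) ∈ Function.fixedPoints f := by
      show f ⟨M₁, hM₁⟩ = ⟨M₁, hM₁⟩
      apply Subtype.ext
      show cj g M₁ = M₁
      exact cj_self hgM₁
    by_contra hne
    have hnot : (⟨M, hM⟩ : 𝓜) ∉ Function.fixedPoints f := by
      intro h
      apply hne
      exact congrArg Subtype.val (show f ⟨M, hM⟩ = ⟨M, hM⟩ from h)
    have hlt' : Nat.card (Function.fixedPoints f) < Nat.card 𝓜 := Finite.card_subtype_lt hnot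
    have hpos : 0 < Nat.card (Function.fixedPoints f) :=
      Nat.card_pos_iff.mpr ⟨⟨⟨_, hfix1⟩⟩, inferInstance⟩
    have hdvd : p ∣ Nat.card 𝓜 - Nat.card (Function.fixedPoints f) :=
      (Nat.modEq_iff_dvd' hlt'.le).mp hmod.symm
    have h9 := Nat.le_of_dvd (by omega) hdvd
    omega
  have stepB : ∀ x : G, ∀ M ∈ 𝓜, cj x M = M := by
    intro x M hM
    have hx : x ∈ Subgroup.closure {g : G | ∃ k : ℕ, orderOf g = p ^ k} := by
      rw [hgen]; exact Subgroup.mem_top x
    induction hx using Subgroup.closure_induction with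
    | mem g hg => exact stepA g hg M hM
    | one => exact cj_one M
    | mul a b _ _ ha hb => rw [← cj_mul, hb, ha]
    | inv a _ ha =>
      have h1 : cj a⁻¹ (cj a M) = cj a⁻¹ M := by rw [ha]
      rw [cj_mul, inv_mul_cancel, cj_one] at h1
      exact h1.symm
  obtain ⟨P⟩ : Nonempty (Sylow p G) := inferInstance
  obtain ⟨M₀, hM₀, hPM₀⟩ := hex P (hsyl P) (hsylPG P)
  have hM₀top : M₀ = ⊤ := by
    rw [eq_top_iff, ← hgen, Subgroup.closure_le]
    rintro h ⟨k, hk⟩
    have hhP : IsPGroup p (Subgroup.zpowers h) := by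
      apply IsPGroup.of_card (n := k)
      rw [Nat.card_zpowers, hk]
    obtain ⟨Q, hQ⟩ := hhP.exists_le_sylow
    obtain ⟨x, hx⟩ := MulAction.exists_smul_eq G P Q
    have hhQ : h ∈ (Q : Subgroup G) := hQ (Subgroup.mem_zpowers h)
    rw [← hx, Helper5.mem_sylow_smul] at hhQ
    have h2 : h ∈ cj x M₀ := (mem_cj x h M₀).mpr (hPM₀ hhQ)
    rw [stepB x M₀ hM₀] at h2
    exact h2
  exact ((hmem M₀).mp hM₀).prop.1 hM₀top

/-- Let p be a prime and G a finite group generated by its p-elements. If a finite family of proper subgroups of G covers the set of p-elements of G (every element of p-power order lies in one of them), then the family has at least p + 1 members. -/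
theorem result {G : Type*} [Group G] [Finite G] (p : ℕ) [Fact p.Prime] (hgen : Subgroup.closure {g : G | ∃ k : ℕ, orderOf g = p ^ k} = ⊤)
    {ι : Type*} [Fintype ι] (K : ι → Subgroup G) (hK : ∀ i, K i ≠ ⊤)
    (hcov : ∀ g : G, (∃ k : ℕ, orderOf g = p ^ k) → ∃ i, g ∈ K i) :
    p + 1 ≤ Fintype.card ι := by
  exact aux p (Nat.card G) G rfl K hgen hK hcov

end Cfsg.Agent.S4182
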