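import Cfsg.Statements.S4186
import Mathlib
-- import your own Cfsg.Agent.* helpers here

set_option autoImplicit false
open Cfsg

namespace Cfsg.Agent.S4186

/-- Let T and X be subgroups of a group with T a finite 2-group normalizing X but not centralizing it. Then some element of T inverts some non-identity element of X under conjugation. -/
theorem result {G : Type*} [Group G] (T X : Subgroup G) [Finite ↥T] (hT : IsPGroup 2 ↥T) (hTN : T ≤ Subgroup.normalizer (X : Set G)) (hTC : ¬ T ≤ Subgroup.centralizer (X : Set G)) : ∃ t ∈ T, ∃ x ∈ X, x ≠ 1 ∧ t * x * t⁻¹ = x⁻¹ := by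
  classical
  obtain ⟨s, hsT, hsC⟩ := SetLike.not_le_iff_exists.mp hTC
  obtain ⟨k, hk⟩ := hT ⟨s, hsT⟩
  have hk' : s ^ 2 ^ k = 1 := by simpa using congrArg Subtype.val hk
  have hex : ∃ j, s ^ 2 ^ j ∈ Subgroup.centralizer (X : Set G) :=
    ⟨k, by rw [hk']; exact one_mem _⟩
  have hj := Nat.find_spec hex
  have hj0 : Nat.find hex ≠ 0 := by
    intro h0
    rw [h0] at hj
    simp at hj
    exact hsC hj
  obtain ⟨i, hi⟩ := Nat.exists_eq_succ_of_ne_zero hj0
  have ht : s ^ 2 ^ i ∉ Subgroup.centralizer (X : Set G) :=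
    Nat.find_min hex (by omega)
  have ht2 : (s ^ 2 ^ i) ^ 2 ∈ Subgroup.centralizer (X : Set G) := by
    rw [← pow_mul, ← pow_succ, ← Nat.succ_eq_add_one, ← hi]
    exact hj
  have htT : s ^ 2 ^ i ∈ T := T.pow_mem hsT _
  generalize s ^ 2 ^ i = t at ht ht2 htT
  rw [Subgroup.mem_centralizer_iff] at ht
  push Not at ht
  obtain ⟨y, hyX, hy⟩ := ht
  have hN := hTN htT
  rw [Subgroup.mem_normalizer_iff] at hN
  have hyt : t * y * t⁻¹ ∈ X := (hN y).mp hyX
  refine ⟨t, htT, y⁻¹ * (t * y * t⁻¹), X.mul_mem (X.inv_mem hyX) hyt, ?_, ?_⟩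
  · intro h
    apply hy
    have : t * y * t⁻¹ = y := by
      have := congrArg (fun z => y * z) h
      simpa using this
    calc y * t = (t * y * t⁻¹) * t := by rw [this]
      _ = t * y := by group
  · have h2 := (Subgroup.mem_centralizer_iff.mp ht2) y hyX
    have h3 : t * t * y = y * (t * t) := by
      rw [pow_two] at h2
      exact h2.symm
    have h4 : t * (t * y * t⁻¹) * t⁻¹ = y := by
      calc t * (t * y * t⁻¹) * t⁻¹ = (t * t * y) * t⁻¹ * t⁻¹ := by group
        _ = y * (t * t) * t⁻¹ * t⁻¹ := by rw [h3]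
        _ = y := by group
    calc t * (y⁻¹ * (t * y * t⁻¹)) * t⁻¹ = (t * y * t⁻¹)⁻¹ * (t * (t * y * t⁻¹) * t⁻¹) := by group
      _ = (t * y * t⁻¹)⁻¹ * y := by rw [h4]
      _ = (y⁻¹ * (t * y * t⁻¹))⁻¹ := by group

end Cfsg.Agent.S4186
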