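import Cfsg.Statements.S4196
import Mathlib
import Cfsg.Agent.S4195
-- import your own Cfsg.Agent.* helpers here

set_option autoImplicit false
open Cfsg

namespace Cfsg.Agent.S4196

open scoped Pointwise

theorem inv_eq_self_of_sq {G : Type*} [Group G] {a : G} (h : a ^ 2 = 1) : a⁻¹ = a := by
  rw [inv_eq_iff_mul_eq_one, ← pow_two, h]


/-- A finite group G has elementary abelian Sylow 2-subgroups (commutative with every element squaring to the identity) if and only if every 2-element of G has a Sylow 2-subgroup in its centralizer and is conjugate to its inverse. -/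
theorem result {G : Type*} [Group G] [Finite G] (P : Sylow 2 G) :
    (IsMulCommutative (P : Subgroup G) ∧ ∀ x ∈ (P : Subgroup G), x ^ 2 = 1) ↔
      ∀ x : G, (∃ k : ℕ, orderOf x = 2 ^ k) → (∃ Q : Sylow 2 G, (Q : Subgroup G) ≤ Subgroup.centralizer ({x} : Set G)) ∧ IsConj x x⁻¹ := by
  have : Fact (Nat.Prime 2) := ⟨Nat.prime_two⟩
  constructor
  · rintro ⟨hcomm, hexp⟩ x ⟨k, hk⟩
    have hpg : IsPGroup 2 (Subgroup.zpowers x) := by
      apply IsPGroup.of_card (n := k)
      rw [Nat.card_zpowers, hk]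
    obtain ⟨Q, hQ⟩ := hpg.exists_le_sylow
    obtain ⟨g, hg⟩ := MulAction.exists_smul_eq G P Q
    have hxQ : x ∈ (Q : Subgroup G) := hQ (Subgroup.mem_zpowers x)
    have hQmem : ∀ q ∈ (Q : Subgroup G), g⁻¹ * q * g ∈ (P : Subgroup G) := by
      intro q hq
      have hq' : q ∈ ((g • P : Sylow 2 G) : Subgroup G) := by rw [hg]; exact hq
      rw [Sylow.coe_subgroup_smul, Subgroup.mem_pointwise_smul_iff_inv_smul_mem, MulAut.smul_def,
        ← map_inv, MulAut.conj_apply, inv_inv] at hq'
      exact hq'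
    refine ⟨⟨Q, ?_⟩, ?_⟩
    · intro q hq
      rw [Subgroup.mem_centralizer_iff]
      intro y hy
      rw [Set.mem_singleton_iff] at hy
      subst hy
      have h1 := setLike_mul_comm (s := (P : Subgroup G)) (hQmem y hxQ) (hQmem q hq)
      calc y * q = g * ((g⁻¹ * y * g) * (g⁻¹ * q * g)) * g⁻¹ := by group
        _ = g * ((g⁻¹ * q * g) * (g⁻¹ * y * g)) * g⁻¹ := by rw [h1]
        _ = q * y := by group
    · have h2 := hexp _ (hQmem x hxQ)
      have h3 : x ^ 2 = 1 := by
        have e : x ^ 2 = g * (g⁻¹ * x * g) ^ 2 * g⁻¹ := by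
          rw [pow_two, pow_two]; group
        rw [e, h2]; group
      rw [inv_eq_self_of_sq h3]
  · intro h
    have hexp : ∀ x ∈ (P : Subgroup G), x ^ 2 = 1 := by
      intro x hx
      have hk : ∃ k, orderOf x = 2 ^ k := by
        obtain ⟨k, hk⟩ := (IsPGroup.iff_orderOf.mp P.2) ⟨x, hx⟩
        exact ⟨k, by rw [← hk, Subgroup.orderOf_mk]⟩
      obtain ⟨⟨Q, hQ⟩, hreal⟩ := h x hk
      exact Cfsg.Agent.S4195.sq_eq_one_of_real x Q hQ hreal
    refine ⟨?_, hexp⟩
    apply IsMulCommutative.of_setLike_mul_comm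
    intro a ha b hb
    have hab := inv_eq_self_of_sq (hexp _ (Subgroup.mul_mem _ ha hb))
    have ha2 := inv_eq_self_of_sq (hexp a ha)
    have hb2 := inv_eq_self_of_sq (hexp b hb)
    calc a * b = (a * b)⁻¹ := hab.symm
      _ = b⁻¹ * a⁻¹ := by group
      _ = b * a := by rw [ha2, hb2]

end Cfsg.Agent.S4196
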