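import Mathlib
import Cfsg.Agent.S0261
import Cfsg.Agent.S3053
import Cfsg.Statements.S4211

set_option autoImplicit false
open Cfsg

namespace Cfsg.Agent.S4211

/-- In a cyclic group, an element killed by `p` is a power of `g ^ n` when `orderOf g = p * n`. -/
theorem cyc {G : Type*} [Group G] [Finite G] (g h : G) (p n : ℕ) (hp : 0 < p)
    (hg : orderOf g = p * n) (hh : h ∈ Subgroup.zpowers g) (hhp : h ^ p = 1) :
    ∃ m : ℕ, h = (g ^ n) ^ m := by
  rw [← mem_powers_iff_mem_zpowers] at hh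
  obtain ⟨k, rfl⟩ := (Submonoid.mem_powers_iff _ _).1 hh
  rw [← pow_mul] at hhp
  have h1 : p * n ∣ k * p := by rw [← hg]; exact orderOf_dvd_of_pow_eq_one hhp
  have h2 : n ∣ k := by
    rw [mul_comm k p] at h1
    exact (Nat.mul_dvd_mul_iff_left hp).1 h1
  obtain ⟨m, rfl⟩ := h2
  exact ⟨m, by rw [pow_mul]⟩

/-- The core computation: a minimal non-commuting pair in a Dedekind group generates `Q₈`. -/
theorem core {G : Type*} [Group G] [Finite G] (hn : ∀ H : Subgroup G, H.Normal) (x y : G)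
    (hxy : x * y ≠ y * x)
    (hmin : ∀ u v : G, u * v ≠ v * u → orderOf x + orderOf y ≤ orderOf u + orderOf v)
    (hle : orderOf y ≤ orderOf x) :
    orderOf x = 4 ∧ y * y = x ^ 2 ∧ y * x * y⁻¹ = x⁻¹ := by
  obtain ⟨c, hc⟩ : ∃ c, c = x * y * x⁻¹ * y⁻¹ := ⟨_, rfl⟩
  have hc1 : c ≠ 1 := by
    intro h
    apply hxy
    have : x * y = c * (y * x) := by rw [hc]; group
    rw [this, h, one_mul]
  have hcx : c ∈ Subgroup.zpowers x := by
    have h1 : y * x⁻¹ * y⁻¹ ∈ Subgroup.zpowers x :=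
      (hn (Subgroup.zpowers x)).conj_mem _ (inv_mem (Subgroup.mem_zpowers x)) y
    have : c = x * (y * x⁻¹ * y⁻¹) := by rw [hc]; group
    rw [this]
    exact mul_mem (Subgroup.mem_zpowers x) h1
  have hcy : c ∈ Subgroup.zpowers y := by
    have h1 : x * y * x⁻¹ ∈ Subgroup.zpowers y :=
      (hn (Subgroup.zpowers y)).conj_mem _ (Subgroup.mem_zpowers y) x
    have : c = (x * y * x⁻¹) * y⁻¹ := by rw [hc]
    rw [this]
    exact mul_mem h1 (inv_mem (Subgroup.mem_zpowers y))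
  have hcxc : c * x = x * c := by
    obtain ⟨k, hk⟩ := Subgroup.mem_zpowers_iff.1 hcx
    rw [← hk]
    exact ((Commute.refl x).zpow_left k).eq
  have hcyc : c * y = y * c := by
    obtain ⟨k, hk⟩ := Subgroup.mem_zpowers_iff.1 hcy
    rw [← hk]
    exact ((Commute.refl y).zpow_left k).eq
  have hxyc : x * y = c * y * x := by rw [hc]; group
  have hP1 : ∀ n : ℕ, x ^ n * y = c ^ n * y * x ^ n := by
    intro n
    induction n with
    | zero => simp
    | succ n ih =>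
      have hcn : x * c ^ n = c ^ n * x := ((show Commute x c from hcxc.symm).pow_right n).eq
      calc x ^ (n + 1) * y = x * (x ^ n * y) := by rw [pow_succ', mul_assoc]
        _ = x * (c ^ n * y * x ^ n) := by rw [ih]
        _ = (x * c ^ n) * y * x ^ n := by simp only [mul_assoc]
        _ = c ^ n * (x * y) * x ^ n := by rw [hcn]; simp only [mul_assoc]
        _ = c ^ n * (c * y * x) * x ^ n := by rw [hxyc]
        _ = c ^ (n + 1) * y * x ^ (n + 1) := by rw [pow_succ, pow_succ']; simp only [mul_assoc]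
  have hP3 : ∀ n : ℕ, x * y ^ n = c ^ n * y ^ n * x := by
    intro n
    induction n with
    | zero => simp
    | succ n ih =>
      have hcn : y ^ n * c = c * y ^ n := ((show Commute y c from hcyc.symm).pow_left n).eq
      calc x * y ^ (n + 1) = (x * y ^ n) * y := by rw [pow_succ, mul_assoc]
        _ = c ^ n * y ^ n * (x * y) := by rw [ih]; simp only [mul_assoc]
        _ = c ^ n * y ^ n * (c * y * x) := by rw [hxyc]
        _ = c ^ n * (y ^ n * c) * y * x := by simp only [mul_assoc]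
        _ = c ^ n * (c * y ^ n) * y * x := by rw [hcn]
        _ = c ^ (n + 1) * y ^ (n + 1) * x := by rw [pow_succ, pow_succ]; simp only [mul_assoc]
  have hx1 : x ≠ 1 := by rintro rfl; exact hxy (by simp)
  have hy1 : y ≠ 1 := by rintro rfl; exact hxy (by simp)
  have hox : 0 < orderOf x := orderOf_pos x
  have hoy : 0 < orderOf y := orderOf_pos y
  have hA : ∀ r : ℕ, r.Prime → r ∣ orderOf x → c ^ r = 1 := by
    intro r hr hdvd
    have hord : orderOf (x ^ r) = orderOf x / r := orderOf_pow_of_dvd hr.ne_zero hdvd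
    have hlt : orderOf (x ^ r) < orderOf x := by rw [hord]; exact Nat.div_lt_self hox hr.one_lt
    have hcomm : x ^ r * y = y * x ^ r := by
      by_contra h
      have := hmin (x ^ r) y h
      omega
    have h1 := hP1 r
    rw [hcomm] at h1
    have h2 : 1 * (y * x ^ r) = c ^ r * (y * x ^ r) := by rw [one_mul, ← mul_assoc]; exact h1
    exact (mul_right_cancel h2).symm
  have hB : ∀ r : ℕ, r.Prime → r ∣ orderOf y → c ^ r = 1 := by
    intro r hr hdvd
    have hord : orderOf (y ^ r) = orderOf y / r := orderOf_pow_of_dvd hr.ne_zero hdvd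
    have hlt : orderOf (y ^ r) < orderOf y := by rw [hord]; exact Nat.div_lt_self hoy hr.one_lt
    have hcomm : x * y ^ r = y ^ r * x := by
      by_contra h
      have := hmin x (y ^ r) h
      omega
    have h1 := hP3 r
    rw [hcomm] at h1
    have h2 : 1 * (y ^ r * x) = c ^ r * (y ^ r * x) := by rw [one_mul, ← mul_assoc]; exact h1
    exact (mul_right_cancel h2).symm
  obtain ⟨p, hp, hpx⟩ := Nat.exists_prime_and_dvd
    (show orderOf x ≠ 1 from fun h => hx1 (orderOf_eq_one_iff.1 h))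
  have hcp : orderOf c = p := by
    have h1 : orderOf c ∣ p := orderOf_dvd_of_pow_eq_one (hA p hp hpx)
    rcases (Nat.dvd_prime hp).1 h1 with h | h
    · exact absurd (orderOf_eq_one_iff.1 h) hc1
    · exact h
  have hxpow : ∀ r : ℕ, r.Prime → r ∣ orderOf x → r = p := by
    intro r hr hdvd
    have h1 : orderOf c ∣ r := orderOf_dvd_of_pow_eq_one (hA r hr hdvd)
    rw [hcp] at h1
    exact ((Nat.prime_dvd_prime_iff_eq hp hr).1 h1).symm
  have hypow : ∀ r : ℕ, r.Prime → r ∣ orderOf y → r = p := by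
    intro r hr hdvd
    have h1 : orderOf c ∣ r := orderOf_dvd_of_pow_eq_one (hB r hr hdvd)
    rw [hcp] at h1
    exact ((Nat.prime_dvd_prime_iff_eq hp hr).1 h1).symm
  obtain ⟨a, hxa⟩ : ∃ a, orderOf x = p ^ a :=
    ⟨_, Nat.eq_prime_pow_of_unique_prime_dvd hox.ne' (fun {d} hd hdvd => hxpow d hd hdvd)⟩
  obtain ⟨b, hyb⟩ : ∃ b, orderOf y = p ^ b :=
    ⟨_, Nat.eq_prime_pow_of_unique_prime_dvd hoy.ne' (fun {d} hd hdvd => hypow d hd hdvd)⟩
  have hb0 : b ≠ 0 := by
    rintro rfl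
    rw [pow_zero] at hyb
    exact hy1 (orderOf_eq_one_iff.1 hyb)
  have hba : b ≤ a := by
    rw [hxa, hyb] at hle
    exact (Nat.pow_le_pow_iff_right hp.one_lt).1 hle
  obtain ⟨b', rfl⟩ : ∃ b', b = b' + 1 := ⟨b - 1, by omega⟩
  obtain ⟨e, rfl⟩ : ∃ e, a = b' + 1 + e := ⟨a - (b' + 1), by omega⟩
  have hyp : y ^ (p ^ (b' + 1)) = 1 := by rw [← hyb]; exact pow_orderOf_eq_one y
  have hcp' : c ^ p = 1 := by rw [← hcp]; exact pow_orderOf_eq_one c
  obtain ⟨v, hv⟩ : ∃ v, v = y ^ (p ^ b') := ⟨_, rfl⟩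
  have hvp : v ^ p = 1 := by rw [hv, ← pow_mul, ← pow_succ]; exact hyp
  obtain ⟨j, hj⟩ := cyc y c p (p ^ b') hp.pos (by rw [hyb, pow_succ']) hcy hcp'
  rw [← hv] at hj
  have hpj : ¬ p ∣ j := by
    rintro ⟨j', rfl⟩
    apply hc1
    rw [hj, pow_mul, hvp, one_pow]
  obtain ⟨i, -, hi⟩ := Nat.exists_mul_mod_eq_one_of_coprime
    ((Nat.Prime.coprime_iff_not_dvd hp).2 hpj).symm hp.one_lt
  have hvc : v = c ^ i := by
    rw [hj, ← pow_mul, pow_eq_pow_mod (j * i) hvp, hi, pow_one]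
  have hvx : v ∈ Subgroup.zpowers x := by rw [hvc]; exact Subgroup.pow_mem _ hcx i
  have hb'0 : b' ≠ 0 := by
    rintro rfl
    apply hxy
    have hyx' : y ∈ Subgroup.zpowers x := by simpa [hv] using hvx
    obtain ⟨k, hk⟩ := Subgroup.mem_zpowers_iff.1 hyx'
    rw [← hk]
    exact ((Commute.refl x).zpow_right k).eq
  obtain ⟨b'', rfl⟩ : ∃ b'', b' = b'' + 1 := ⟨b' - 1, by omega⟩
  obtain ⟨m, hm⟩ := cyc x v p (p ^ (b'' + 1 + e)) hp.pos (by rw [hxa]; ring) hvx hvp
  obtain ⟨k, hk⟩ : ∃ k, k = p ^ e * m := ⟨_, rfl⟩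
  obtain ⟨u, hu⟩ : ∃ u, u = x ^ k := ⟨_, rfl⟩
  have hun : u ^ (p ^ (b'' + 1)) = v := by
    rw [hm, hu, hk, ← pow_mul, ← pow_mul]
    congr 1
    ring
  have huy : u * y = c ^ k * y * u := by rw [hu]; exact hP1 k
  have hcu : c ^ k * u⁻¹ = u⁻¹ * c ^ k := by
    rw [hu]
    exact (((show Commute c x from hcxc).pow_pow k k).inv_right).eq
  have hcky : c ^ k * y = y * c ^ k := ((show Commute c y from hcyc).pow_left k).eq
  have hyu : y * u⁻¹ = c ^ k * u⁻¹ * y := by
    calc y * u⁻¹ = u⁻¹ * (u * y) * u⁻¹ := by group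
      _ = u⁻¹ * (c ^ k * y * u) * u⁻¹ := by rw [huy]
      _ = (u⁻¹ * c ^ k) * y := by group
      _ = c ^ k * u⁻¹ * y := by rw [hcu]
  have hw := Cfsg.Agent.S3053.mul_pow_class2 u⁻¹ y (c ^ k) hyu hcu hcky (p ^ (b'' + 1))
  have hw' : (u⁻¹ * y) ^ (p ^ (b'' + 1)) = c ^ (k * ∑ i ∈ Finset.range (p ^ (b'' + 1)), i) := by
    rw [hw, inv_pow, hun, ← hv, mul_assoc, inv_mul_cancel, mul_one, ← pow_mul]
  have hwne : x * (u⁻¹ * y) ≠ (u⁻¹ * y) * x := by
    intro h
    apply hxy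
    have hxu : x * u⁻¹ = u⁻¹ * x := by
      rw [hu]
      exact (((Commute.refl x).pow_right k).inv_right).eq
    have h' : u⁻¹ * (x * y) = u⁻¹ * (y * x) := by
      calc u⁻¹ * (x * y) = (x * u⁻¹) * y := by rw [hxu, mul_assoc]
        _ = x * (u⁻¹ * y) := by rw [mul_assoc]
        _ = u⁻¹ * y * x := h
        _ = u⁻¹ * (y * x) := by rw [mul_assoc]
    exact mul_left_cancel h'
  have hordw : orderOf y ≤ orderOf (u⁻¹ * y) := by
    have := hmin x (u⁻¹ * y) hwne
    omega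
  have hnd : ¬ p ∣ k * ∑ i ∈ Finset.range (p ^ (b'' + 1)), i := by
    intro hdvd
    have h1 : (u⁻¹ * y) ^ (p ^ (b'' + 1)) = 1 := by
      rw [hw']
      obtain ⟨s, hs⟩ := hdvd
      rw [hs, pow_mul, hcp', one_pow]
    have h2 : orderOf (u⁻¹ * y) ∣ p ^ (b'' + 1) := orderOf_dvd_of_pow_eq_one h1
    have h3 : orderOf (u⁻¹ * y) ≤ p ^ (b'' + 1) := Nat.le_of_dvd (pow_pos hp.pos _) h2
    rw [hyb] at hordw
    have h4 : p ^ (b'' + 1) < p ^ (b'' + 1 + 1) := Nat.pow_lt_pow_right hp.one_lt (by omega)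
    omega
  have he0 : e = 0 := by
    by_contra he
    apply hnd
    obtain ⟨e', rfl⟩ : ∃ e', e = e' + 1 := ⟨e - 1, by omega⟩
    rw [hk]
    exact Dvd.dvd.mul_right (Dvd.dvd.mul_right (dvd_pow_self p (Nat.succ_ne_zero e')) m) _
  have hS := Finset.sum_range_id_mul_two (p ^ (b'' + 1))
  obtain ⟨Sg, hSg⟩ : ∃ Sg, Sg = ∑ i ∈ Finset.range (p ^ (b'' + 1)), i := ⟨_, rfl⟩
  rw [← hSg] at hS hnd
  have hpS : ¬ p ∣ Sg := fun h => hnd (Dvd.dvd.mul_left h k)
  have hp2 : p = 2 := by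
    by_contra hne
    apply hpS
    have h1 : p ∣ Sg * 2 := by
      rw [hS]
      exact Dvd.dvd.mul_right (dvd_pow_self p (Nat.succ_ne_zero b'')) _
    rcases (Nat.Prime.dvd_mul hp).1 h1 with h | h
    · exact h
    · exact absurd ((Nat.prime_dvd_prime_iff_eq hp Nat.prime_two).1 h) hne
  have hb''0 : b'' = 0 := by
    by_contra hb
    apply hpS
    obtain ⟨b3, hb3⟩ : ∃ b3, b'' = b3 + 1 := ⟨b'' - 1, by omega⟩
    have h1 : 4 ∣ Sg * 2 := by
      rw [hS, hb3, hp2]
      exact Dvd.dvd.mul_right ⟨2 ^ b3, by ring⟩ _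
    rw [hp2]
    omega
  have hx4 : orderOf x = 4 := by simp [hxa, hp2, hb''0, he0]
  have hy4 : orderOf y = 4 := by simp [hyb, hp2, hb''0]
  have hc2 : c ^ 2 = 1 := by rw [← hp2]; exact hcp'
  have hx4' : x ^ 4 = 1 := by rw [← hx4]; exact pow_orderOf_eq_one x
  have hy4' : y ^ 4 = 1 := by rw [← hy4]; exact pow_orderOf_eq_one y
  have hsq : ∀ g : G, orderOf g = 4 → g ^ 4 = 1 → c ∈ Subgroup.zpowers g → c = g ^ 2 := by
    intro g hg4 hg4' hcg
    obtain ⟨m2, hm2⟩ := cyc g c 2 2 (by norm_num) (by rw [hg4]) hcg hc2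
    rcases Nat.even_or_odd' m2 with ⟨t, rfl | rfl⟩
    · exfalso
      apply hc1
      rw [hm2, ← pow_mul, show 2 * (2 * t) = 4 * t by ring, pow_mul, hg4', one_pow]
    · rw [hm2, ← pow_mul, show 2 * (2 * t + 1) = 4 * t + 2 by ring, pow_add, pow_mul, hg4',
        one_pow, one_mul]
  have hcx2 : c = x ^ 2 := hsq x hx4 hx4' hcx
  have hcy2 : c = y ^ 2 := hsq y hy4 hy4' hcy
  refine ⟨hx4, ?_, ?_⟩
  · rw [← pow_two, ← hcy2, hcx2]
  · have h1 : y * x * y⁻¹ = c⁻¹ * x := by rw [hc]; group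
    rw [h1, hcx2]; group

/-- A finite non-abelian Dedekind group contains a quaternion pair. -/
theorem exists_quat {G : Type*} [Group G] [Finite G] (hna : ¬ IsMulCommutative G)
    (hn : ∀ H : Subgroup G, H.Normal) :
    ∃ x y : G, orderOf x = 4 ∧ y * y = x ^ 2 ∧ y * x * y⁻¹ = x⁻¹ := by
  have hex : ∃ a b : G, a * b ≠ b * a := by
    by_contra h
    push_neg at h
    exact hna ⟨⟨h⟩⟩
  obtain ⟨a, b, hab⟩ := hex
  obtain ⟨⟨x, y⟩, hxyS, hmin⟩ := Set.exists_min_image {q : G × G | q.1 * q.2 ≠ q.2 * q.1}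
    (fun q => orderOf q.1 + orderOf q.2) (Set.toFinite _) ⟨(a, b), hab⟩
  have hxy : x * y ≠ y * x := hxyS
  have hmin' : ∀ u v : G, u * v ≠ v * u → orderOf x + orderOf y ≤ orderOf u + orderOf v :=
    fun u v huv => hmin (u, v) huv
  rcases le_total (orderOf y) (orderOf x) with hle | hle
  · exact ⟨x, y, core hn x y hxy hmin' hle⟩
  · refine ⟨y, x, core hn y x (fun h => hxy h.symm) (fun u v huv => ?_) hle⟩
    have := hmin' u v huv
    omega

/-- Conjugates of an element of order 4 in a Dedekind group. -/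
theorem conj4 {G : Type*} [Group G] [Finite G] (hn : ∀ H : Subgroup G, H.Normal) (z g : G)
    (hz : orderOf z = 4) : g * z * g⁻¹ = z ∨ g * z * g⁻¹ = z⁻¹ := by
  have hz4 : z ^ 4 = 1 := by rw [← hz]; exact pow_orderOf_eq_one z
  have hz2 : z ^ 2 ≠ 1 := by
    intro h
    have := orderOf_dvd_of_pow_eq_one h
    rw [hz] at this
    norm_num at this
  have hz1 : z ≠ 1 := by
    rintro rfl
    simp at hz
  have hmem : g * z * g⁻¹ ∈ Subgroup.zpowers z :=
    (hn (Subgroup.zpowers z)).conj_mem _ (Subgroup.mem_zpowers z) g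
  rw [← mem_powers_iff_mem_zpowers] at hmem
  obtain ⟨k, hk⟩ := (Submonoid.mem_powers_iff _ _).1 hmem
  have hk' : z ^ (k % 4) = g * z * g⁻¹ := by rw [← hk]; exact (pow_eq_pow_mod k hz4).symm
  have hlt : k % 4 < 4 := Nat.mod_lt _ (by norm_num)
  generalize k % 4 = r at hk' hlt
  interval_cases r
  · exfalso
    rw [pow_zero] at hk'
    apply hz1
    calc z = g⁻¹ * (g * z * g⁻¹) * g := by group
      _ = 1 := by rw [← hk']; group
  · left; rw [← hk', pow_one]
  · exfalso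
    apply hz2
    have h1 : (g * z * g⁻¹) ^ 2 = 1 := by rw [← hk', ← pow_mul]; exact hz4
    rw [conj_pow] at h1
    calc z ^ 2 = g⁻¹ * (g * z ^ 2 * g⁻¹) * g := by group
      _ = 1 := by rw [h1]; group
  · right
    rw [← hk']
    exact eq_inv_of_mul_eq_one_left (by rw [← pow_succ]; exact hz4)

/-- The elements of `C` killed by `2`. -/
def sqSub {G : Type*} [Group G] (C : Subgroup G) (hC : ∀ a ∈ C, ∀ b ∈ C, a * b = b * a) :
    Subgroup G where
  carrier := {z | z ∈ C ∧ z ^ 2 = 1}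
  mul_mem' := by
    rintro a b ⟨ha, ha2⟩ ⟨hb, hb2⟩
    refine ⟨C.mul_mem ha hb, ?_⟩
    rw [(show Commute a b from hC a ha b hb).mul_pow, ha2, hb2, one_mul]
  one_mem' := ⟨C.one_mem, one_pow 2⟩
  inv_mem' := by
    rintro a ⟨ha, ha2⟩
    exact ⟨C.inv_mem ha, by rw [inv_pow, ha2, inv_one]⟩

/-- The elements of `C` of odd order. -/
def oddSub {G : Type*} [Group G] (C : Subgroup G) (hC : ∀ a ∈ C, ∀ b ∈ C, a * b = b * a) :
    Subgroup G where
  carrier := {z | z ∈ C ∧ ∃ m : ℕ, Odd m ∧ z ^ m = 1}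
  mul_mem' := by
    rintro a b ⟨ha, m₁, hm₁, ha2⟩ ⟨hb, m₂, hm₂, hb2⟩
    refine ⟨C.mul_mem ha hb, m₁ * m₂, hm₁.mul hm₂, ?_⟩
    rw [(show Commute a b from hC a ha b hb).mul_pow, pow_mul, ha2, one_pow, mul_comm m₁ m₂,
      pow_mul, hb2, one_pow, one_mul]
  one_mem' := ⟨C.one_mem, 1, odd_one, one_pow 1⟩
  inv_mem' := by
    rintro a ⟨ha, m, hm, ha2⟩
    exact ⟨C.inv_mem ha, m, hm, by rw [inv_pow, ha2, inv_one]⟩

/-- A finite non-abelian group in which every subgroup is normal is the internal direct product of a subgroup isomorphic to the quaternion group of order `8`, an elementary abelian `2`-subgroup and an abelian subgroup of odd order. -/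
theorem result {G : Type*} [Group G] [Finite G] (hna : ¬ IsMulCommutative G) (hn : ∀ H : Subgroup G, H.Normal) : ∃ Q E A : Subgroup G, Nonempty (Q ≃* QuaternionGroup 2) ∧ Cfsg.IsElementaryAbelian 2 E ∧ IsMulCommutative A ∧ Odd (Nat.card A) ∧ E ⊓ A = ⊥ ∧ Q ⊓ (E ⊔ A) = ⊥ ∧ Q ⊔ (E ⊔ A) = ⊤ := by
  obtain ⟨x, y, hx4, hyy, hyx⟩ := exists_quat hna hn
  have hx4' : x ^ 4 = 1 := by rw [← hx4]; exact pow_orderOf_eq_one x
  have hx2 : x ^ 2 ≠ 1 := by
    intro h
    have := orderOf_dvd_of_pow_eq_one h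
    rw [hx4] at this
    norm_num at this
  have hxinv : x⁻¹ ≠ x := by
    intro h
    apply hx2
    rw [pow_two]
    calc x * x = x⁻¹ * x := by rw [h]
      _ = 1 := inv_mul_cancel x
  have hynot : y ∉ Subgroup.zpowers x := by
    intro h
    obtain ⟨k, hk⟩ := Subgroup.mem_zpowers_iff.1 h
    have hcomm : y * x = x * y := by rw [← hk]; exact ((Commute.refl x).zpow_left k).eq
    apply hxinv
    rw [← hyx, hcomm]; group
  have hy2 : y ^ 2 = x ^ 2 := by rw [pow_two]; exact hyy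
  have hy4' : y ^ 4 = 1 := by
    calc y ^ 4 = (y ^ 2) ^ 2 := by rw [← pow_mul]
      _ = 1 := by rw [hy2, ← pow_mul]; exact hx4'
  have hy4 : orderOf y = 4 := by
    have h1 : ¬ y ^ 2 ^ 1 = 1 := by rw [pow_one, hy2]; exact hx2
    have h2 : y ^ 2 ^ (1 + 1) = 1 := by norm_num; exact hy4'
    have h := orderOf_eq_prime_pow (p := 2) (n := 1) h1 h2
    norm_num at h
    exact h
  have hxy' : x * y * x⁻¹ = y⁻¹ := by
    apply eq_inv_of_mul_eq_one_left
    calc x * y * x⁻¹ * y = x * (y * x * y⁻¹)⁻¹ * (y * y) := by group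
      _ = x * (x⁻¹)⁻¹ * x ^ 2 := by rw [hyx, hyy]
      _ = x ^ 4 := by group
      _ = 1 := hx4'
  have hx4'' : x ^ (2 * 2) = 1 := hx4'
  obtain ⟨φ, hφinj, hφa, hφxa⟩ : ∃ φ : QuaternionGroup 2 →* G, Function.Injective φ ∧
      (∀ i, φ (QuaternionGroup.a i) = x ^ i.val) ∧
      (∀ i, φ (QuaternionGroup.xa i) = y * x ^ i.val) :=
    ⟨Cfsg.Agent.S0261.quatHom 2 x y hx4'' hyy hyx,
      Cfsg.Agent.S0261.quatHom_injective 2 x y hx4'' hyy hyx (by rw [hx4]) hynot,
      fun i => rfl, fun i => rfl⟩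
  have hv1 : ((1 : ZMod (2 * 2))).val = 1 := by decide
  have hxQ : x ∈ φ.range := ⟨QuaternionGroup.a 1, by rw [hφa, hv1, pow_one]⟩
  have hyQ : y ∈ φ.range := ⟨QuaternionGroup.xa 0, by rw [hφxa, ZMod.val_zero, pow_zero, mul_one]⟩
  obtain ⟨C, hC⟩ : ∃ C : Subgroup G, C = Subgroup.centralizer ({x, y} : Set G) := ⟨_, rfl⟩
  have hCmem : ∀ g : G, g ∈ C ↔ g * x * g⁻¹ = x ∧ g * y * g⁻¹ = y := by
    intro g
    rw [hC, Subgroup.mem_centralizer_iff]
    constructor
    · intro h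
      have h1 : x * g = g * x := h x (by simp)
      have h2 : y * g = g * y := h y (by simp)
      constructor
      · calc g * x * g⁻¹ = x * g * g⁻¹ := by rw [h1]
          _ = x := by group
      · calc g * y * g⁻¹ = y * g * g⁻¹ := by rw [h2]
          _ = y := by group
    · rintro ⟨h1, h2⟩ w hw
      rw [Set.mem_insert_iff, Set.mem_singleton_iff] at hw
      rcases hw with hw | hw
      · subst hw
        exact (mul_inv_eq_iff_eq_mul.1 h1).symm
      · subst hw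
        exact (mul_inv_eq_iff_eq_mul.1 h2).symm
  have hx2C : x ^ 2 ∈ C := by
    rw [hCmem]
    constructor
    · group
    · rw [← hyy]; group
  have hC4 : ∀ z ∈ C, orderOf z ≠ 4 := by
    intro z hz hz4
    obtain ⟨hzx, hzy⟩ := (hCmem z).1 hz
    have hzx' : x * z = z * x := (mul_inv_eq_iff_eq_mul.1 hzx).symm
    have hzy' : y * z = z * y := (mul_inv_eq_iff_eq_mul.1 hzy).symm
    have hz4' : z ^ 4 = 1 := by rw [← hz4]; exact pow_orderOf_eq_one z
    have hz2 : z ^ 2 ≠ 1 := by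
      intro h
      have := orderOf_dvd_of_pow_eq_one h
      rw [hz4] at this
      norm_num at this
    have hconj : y * (x * z) * y⁻¹ = x⁻¹ * z := by
      calc y * (x * z) * y⁻¹ = (y * x * y⁻¹) * (y * z) * y⁻¹ := by group
        _ = x⁻¹ * (z * y) * y⁻¹ := by rw [hyx, hzy']
        _ = x⁻¹ * z := by group
    have hmem : y * (x * z) * y⁻¹ ∈ Subgroup.zpowers (x * z) :=
      (hn (Subgroup.zpowers (x * z))).conj_mem _ (Subgroup.mem_zpowers _) y
    rw [hconj, ← mem_powers_iff_mem_zpowers] at hmem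
    obtain ⟨k, hk⟩ := (Submonoid.mem_powers_iff _ _).1 hmem
    have hxz4 : (x * z) ^ 4 = 1 := by
      rw [(show Commute x z from hzx').mul_pow, hx4', hz4', one_mul]
    have hk' : (x * z) ^ (k % 4) = x⁻¹ * z := by
      rw [← hk]; exact (pow_eq_pow_mod k hxz4).symm
    have hlt : k % 4 < 4 := Nat.mod_lt _ (by norm_num)
    have hzx_ne : z ≠ x := by
      intro hzx_eq
      apply hxinv
      rw [← hyx]
      have : y * x = x * y := by rw [← hzx_eq]; exact hzy'
      calc y * x * y⁻¹ = x * y * y⁻¹ := by rw [this]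
        _ = x := by group
    generalize k % 4 = r at hk' hlt
    interval_cases r
    · rw [pow_zero] at hk'
      apply hzx_ne
      calc z = x * (x⁻¹ * z) := by group
        _ = x := by rw [← hk', mul_one]
    · rw [pow_one] at hk'
      exact hxinv (mul_right_cancel hk').symm
    · rw [(show Commute x z from hzx').mul_pow] at hk'
      apply hzx_ne
      calc z = (x ^ 2)⁻¹ * (x ^ 2 * z ^ 2) * z⁻¹ := by group
        _ = (x ^ 2)⁻¹ * (x⁻¹ * z) * z⁻¹ := by rw [hk']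
        _ = (x ^ 4)⁻¹ * x := by group
        _ = x := by rw [hx4', inv_one, one_mul]
    · rw [(show Commute x z from hzx').mul_pow] at hk'
      apply hz2
      have hx3 : x ^ 3 = x⁻¹ := eq_inv_of_mul_eq_one_left (by rw [← pow_succ]; exact hx4')
      rw [hx3] at hk'
      have h3 : z ^ 3 = z := mul_left_cancel hk'
      have : z ^ 2 * z = 1 * z := by rw [← pow_succ, one_mul]; exact h3
      exact mul_right_cancel this
  have hnC : ∀ H : Subgroup ↥C, H.Normal := by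
    intro H
    have h1 : (H.map C.subtype).Normal := hn _
    have h2 : (H.map C.subtype).comap C.subtype = H :=
      Subgroup.comap_map_eq_self_of_injective C.subtype_injective H
    rw [← h2]
    exact h1.comap C.subtype
  have hCcomm : ∀ z₁ ∈ C, ∀ z₂ ∈ C, z₁ * z₂ = z₂ * z₁ := by
    by_contra hcon
    have hnaC : ¬ IsMulCommutative ↥C := by
      intro hcomm
      apply hcon
      intro z₁ h₁ z₂ h₂
      have := hcomm.is_comm.comm (⟨z₁, h₁⟩ : ↥C) ⟨z₂, h₂⟩
      exact congrArg Subtype.val this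
    obtain ⟨x', y', hx', -, -⟩ := exists_quat hnaC hnC
    exact hC4 (x' : G) x'.2 (by rw [Subgroup.orderOf_coe]; exact hx')
  have hC3 : ∀ z ∈ C, ∃ t : ℕ, Odd t ∧ z ^ (2 * t) = 1 := by
    intro z hz
    have hpos : 0 < orderOf z := orderOf_pos z
    rcases Nat.even_or_odd (orderOf z) with he | ho
    · obtain ⟨t, ht⟩ := he
      rcases Nat.even_or_odd t with hte | hto
      · exfalso
        obtain ⟨s, hs⟩ := hte
        have hs0 : s ≠ 0 := by rintro rfl; omega
        have hdvd : s ∣ orderOf z := ⟨4, by omega⟩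
        have h4 : orderOf (z ^ s) = 4 := by
          rw [orderOf_pow_of_dvd hs0 hdvd]
          have : orderOf z = 4 * s := by omega
          rw [this, Nat.mul_div_cancel _ (Nat.pos_of_ne_zero hs0)]
        exact hC4 _ (C.pow_mem hz s) h4
      · exact ⟨t, hto, by rw [two_mul, ← ht]; exact pow_orderOf_eq_one z⟩
    · exact ⟨orderOf z, ho, by rw [mul_comm, pow_mul, pow_orderOf_eq_one, one_pow]⟩
  have hQC : ∀ g : G, ∃ q ∈ φ.range, g * q ∈ C := by
    intro g
    rcases conj4 hn x g hx4 with h1 | h1 <;> rcases conj4 hn y g hy4 with h2 | h2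
    · refine ⟨1, Subgroup.one_mem _, ?_⟩
      rw [mul_one, hCmem]
      exact ⟨h1, h2⟩
    · refine ⟨x, hxQ, ?_⟩
      rw [hCmem]
      constructor
      · calc g * x * x * (g * x)⁻¹ = g * x * g⁻¹ := by group
          _ = x := h1
      · calc g * x * y * (g * x)⁻¹ = g * (x * y * x⁻¹) * g⁻¹ := by group
          _ = g * y⁻¹ * g⁻¹ := by rw [hxy']
          _ = (g * y * g⁻¹)⁻¹ := by group
          _ = y := by rw [h2, inv_inv]
    · refine ⟨y, hyQ, ?_⟩
      rw [hCmem]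
      constructor
      · calc g * y * x * (g * y)⁻¹ = g * (y * x * y⁻¹) * g⁻¹ := by group
          _ = g * x⁻¹ * g⁻¹ := by rw [hyx]
          _ = (g * x * g⁻¹)⁻¹ := by group
          _ = x := by rw [h1, inv_inv]
      · calc g * y * y * (g * y)⁻¹ = g * y * g⁻¹ := by group
          _ = y := h2
    · refine ⟨y * x, Subgroup.mul_mem _ hyQ hxQ, ?_⟩
      rw [hCmem]
      constructor
      · calc g * (y * x) * x * (g * (y * x))⁻¹ = g * (y * x * y⁻¹) * g⁻¹ := by group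
          _ = g * x⁻¹ * g⁻¹ := by rw [hyx]
          _ = (g * x * g⁻¹)⁻¹ := by group
          _ = x := by rw [h1, inv_inv]
      · calc g * (y * x) * y * (g * (y * x))⁻¹ = g * (y * (x * y * x⁻¹) * y⁻¹) * g⁻¹ := by group
          _ = g * (y * y⁻¹ * y⁻¹) * g⁻¹ := by rw [hxy']
          _ = (g * y * g⁻¹)⁻¹ := by group
          _ = y := by rw [h2, inv_inv]
  have hQC' : ∀ g ∈ φ.range, g ∈ C → g = 1 ∨ g = x ^ 2 := by
    rintro _ ⟨q, rfl⟩ hg
    rw [hCmem] at hg
    obtain ⟨h1, h2⟩ := hg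
    rcases q with i | i
    · rw [hφa] at h2 ⊢
      generalize i.val = k at h2 ⊢
      have h2' : x ^ k * y = y * x ^ k := mul_inv_eq_iff_eq_mul.1 h2
      have e1 : y * x ^ k * y⁻¹ = x ^ k := by
        calc y * x ^ k * y⁻¹ = x ^ k * y * y⁻¹ := by rw [h2']
          _ = x ^ k := by group
      have e2 : y * x ^ k * y⁻¹ = (x ^ k)⁻¹ := by
        rw [← conj_pow, hyx, inv_pow]
      have e3 : x ^ k * x ^ k = 1 := by
        rw [mul_eq_one_iff_eq_inv, ← e2, e1]
      have hk : x ^ (2 * k) = 1 := by rw [two_mul, pow_add]; exact e3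
      have hdvd : 4 ∣ 2 * k := by rw [← hx4]; exact orderOf_dvd_of_pow_eq_one hk
      obtain ⟨s, hs⟩ : 2 ∣ k := by omega
      rcases Nat.even_or_odd' s with ⟨t, rfl | rfl⟩
      · left
        rw [hs, show 2 * (2 * t) = 4 * t by ring, pow_mul, hx4', one_pow]
      · right
        rw [hs, show 2 * (2 * t + 1) = 4 * t + 2 by ring, pow_add, pow_mul, hx4', one_pow,
          one_mul]
    · rw [hφxa] at h1
      exfalso
      apply hxinv
      rw [← hyx]
      calc y * x * y⁻¹ = y * x ^ i.val * x * (y * x ^ i.val)⁻¹ := by group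
        _ = x := h1
  obtain ⟨E₂, hE₂⟩ : ∃ E₂ : Subgroup G, E₂ = sqSub C hCcomm := ⟨_, rfl⟩
  obtain ⟨A, hA⟩ : ∃ A : Subgroup G, A = oddSub C hCcomm := ⟨_, rfl⟩
  have hE₂mem : ∀ z, z ∈ E₂ ↔ z ∈ C ∧ z ^ 2 = 1 := fun z => by rw [hE₂]; exact Iff.rfl
  have hAmem : ∀ z, z ∈ A ↔ z ∈ C ∧ ∃ m : ℕ, Odd m ∧ z ^ m = 1 := fun z => by
    rw [hA]; exact Iff.rfl
  have hx2E₂ : x ^ 2 ∈ E₂ := (hE₂mem _).2 ⟨hx2C, by rw [← pow_mul]; exact hx4'⟩
  obtain ⟨E, ⟨hEle, hEx⟩, hEmax⟩ := Set.exists_max_image {E : Subgroup G | E ≤ E₂ ∧ x ^ 2 ∉ E}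
    (fun E => Nat.card E) (Set.toFinite _) ⟨⊥, bot_le, fun h => hx2 (Subgroup.mem_bot.1 h)⟩
  have hEcov : ∀ g ∈ E₂, g ∈ E ∨ g * x ^ 2 ∈ E := by
    intro g hg
    by_contra hcon
    push_neg at hcon
    obtain ⟨hgE, hgxE⟩ := hcon
    have hle' : E ⊔ Subgroup.zpowers g ≤ E₂ := sup_le hEle ((Subgroup.zpowers_le).2 hg)
    have hx2in : x ^ 2 ∈ E ⊔ Subgroup.zpowers g := by
      by_contra hnot
      have hcard := hEmax (E ⊔ Subgroup.zpowers g) ⟨hle', hnot⟩
      have heq : E = E ⊔ Subgroup.zpowers g := Subgroup.eq_of_le_of_card_ge le_sup_left hcard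
      apply hgE
      rw [heq]
      exact Subgroup.mem_sup_right (Subgroup.mem_zpowers g)
    haveI := hn (Subgroup.zpowers g)
    obtain ⟨e, he, h, hh, heh⟩ := Subgroup.mem_sup_of_normal_right.1 hx2in
    obtain ⟨k, rfl⟩ := Subgroup.mem_zpowers_iff.1 hh
    have hg2 : g ^ 2 = 1 := ((hE₂mem g).1 hg).2
    rcases Int.even_or_odd' k with ⟨j, rfl | rfl⟩
    · have : g ^ (2 * j : ℤ) = 1 := by rw [zpow_mul, zpow_ofNat, hg2, one_zpow]
      rw [this, mul_one] at heh
      exact hEx (heh ▸ he)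
    · have : g ^ (2 * j + 1 : ℤ) = g := by
        rw [zpow_add, zpow_one, zpow_mul, zpow_ofNat, hg2, one_zpow, one_mul]
      rw [this] at heh
      apply hgxE
      have hcomm : e * g = g * e :=
        hCcomm e ((hE₂mem e).1 (hEle he)).1 g ((hE₂mem g).1 hg).1
      have : g * x ^ 2 = e := by
        rw [← heh, hcomm, ← mul_assoc, ← pow_two, hg2, one_mul]
      rw [this]; exact he
  have hkill : ∀ g : G, g ^ 2 = 1 → g ∈ A → g = 1 := by
    intro g hg2 hgA
    obtain ⟨_, m, ⟨t, rfl⟩, hm⟩ := (hAmem g).1 hgA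
    rw [pow_add, pow_mul, hg2, one_pow, one_mul, pow_one] at hm
    exact hm
  have hEC : ∀ z ∈ E, z ∈ C := fun z hz => ((hE₂mem z).1 (hEle hz)).1
  have hAC : ∀ z ∈ A, z ∈ C := fun z hz => ((hAmem z).1 hz).1
  refine ⟨φ.range, E, A, ⟨(MonoidHom.ofInjective hφinj).symm⟩, ?_, ?_, ?_, ?_, ?_, ?_⟩
  · exact ⟨⟨⟨fun a b => Subtype.ext (hCcomm a (hEC a a.2) b (hEC b b.2))⟩⟩,
      fun a ha => ((hE₂mem a).1 (hEle ha)).2⟩
  · exact ⟨⟨fun a b => Subtype.ext (hCcomm a (hAC a a.2) b (hAC b b.2))⟩⟩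
  · by_contra hodd
    rw [Nat.not_odd_iff_even] at hodd
    obtain ⟨z, hz⟩ := exists_prime_orderOf_dvd_card' 2 hodd.two_dvd
    obtain ⟨_, m, hm, hzm⟩ := (hAmem z).1 z.2
    have h1 : orderOf (z : G) ∣ m := orderOf_dvd_of_pow_eq_one hzm
    rw [Subgroup.orderOf_coe, hz] at h1
    exact (Nat.not_even_iff_odd.2 hm) (even_iff_two_dvd.2 h1)
  · rw [eq_bot_iff]
    rintro g ⟨hgE, hgA⟩
    exact Subgroup.mem_bot.2 (hkill g ((hE₂mem g).1 (hEle hgE)).2 hgA)
  · rw [eq_bot_iff]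
    rintro g ⟨hgQ, hgEA⟩
    have hEAC : E ⊔ A ≤ C := sup_le hEC hAC
    rcases hQC' g hgQ (hEAC hgEA) with h | h
    · exact Subgroup.mem_bot.2 h
    · exfalso
      haveI := hn A
      obtain ⟨e, he, a', ha', hea⟩ := Subgroup.mem_sup_of_normal_right.1 hgEA
      have ha'2 : a' ^ 2 = 1 := by
        have : a' = e⁻¹ * x ^ 2 := by rw [← h, ← hea]; group
        have hmem : a' ∈ E₂ := by
          rw [this]; exact E₂.mul_mem (E₂.inv_mem (hEle he)) hx2E₂
        exact ((hE₂mem a').1 hmem).2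
      have ha1 : a' = 1 := hkill a' ha'2 ha'
      rw [ha1, mul_one] at hea
      exact hEx (by rw [← h, ← hea]; exact he)
  · rw [eq_top_iff]
    intro g _
    obtain ⟨q, hq, hz⟩ := hQC g
    obtain ⟨t, ht, hzt⟩ := hC3 (g * q) hz
    have hg : g = (g * q) ^ t * (g * q) ^ (t + 1) * q⁻¹ := by
      have : (g * q) ^ t * (g * q) ^ (t + 1) = g * q := by
        rw [← pow_add, show t + (t + 1) = 2 * t + 1 by ring, pow_add, hzt, one_mul, pow_one]
      rw [this]; group
    rw [hg]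
    have h1 : (g * q) ^ t ∈ E₂ :=
      (hE₂mem _).2 ⟨C.pow_mem hz t, by rw [← pow_mul, mul_comm]; exact hzt⟩
    have h2 : (g * q) ^ (t + 1) ∈ A := by
      refine (hAmem _).2 ⟨C.pow_mem hz _, t, ht, ?_⟩
      obtain ⟨s, hs⟩ := ht
      rw [← pow_mul, show (t + 1) * t = (2 * t) * (s + 1) by rw [hs]; ring, pow_mul, hzt, one_pow]
    have h3 : (g * q) ^ t ∈ φ.range ⊔ (E ⊔ A) := by
      rcases hEcov _ h1 with h | h
      · exact Subgroup.mem_sup_right (Subgroup.mem_sup_left h)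
      · rw [show (g * q) ^ t = ((g * q) ^ t * x ^ 2) * (x ^ 2)⁻¹ by group]
        exact Subgroup.mul_mem _ (Subgroup.mem_sup_right (Subgroup.mem_sup_left h))
          (Subgroup.mem_sup_left (Subgroup.inv_mem _ (Subgroup.pow_mem _ hxQ 2)))
    exact Subgroup.mul_mem _ (Subgroup.mul_mem _ h3
      (Subgroup.mem_sup_right (Subgroup.mem_sup_right h2)))
      (Subgroup.mem_sup_left (Subgroup.inv_mem _ hq))

end Cfsg.Agent.S4211
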