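import Cfsg.Statements.S4214
import Mathlib
import Cfsg.Agent.Helper1.Hall
import Cfsg.Agent.S4071
import Cfsg.Agent.Helper14.PIrred2

set_option autoImplicit false
open Cfsg

namespace Cfsg.Agent.S4214

open Pointwise
open Cfsg.Agent.Helper1

universe u

/-- the property of the factors -/
def Good (G : Type*) [Group G] (m x : ℕ) : Prop :=
  (∃ q e : ℕ, q.Prime ∧ x = q ^ e) ∧
  (∃ K L : Subgroup G, K.Normal ∧ L.Normal ∧ K < L ∧
    (∀ M : Subgroup G, M.Normal → K ≤ M → M ≤ L → M = K ∨ M = L) ∧ x ∣ K.relIndex L) ∧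
  (∃ q : ℕ, q.Prime ∧ q ∣ m ∧ x ≡ 1 [MOD q])

theorem mem_conj_smul {G : Type*} [Group G] (g x : G) (K : Subgroup G) :
    x ∈ MulAut.conj g • K ↔ g⁻¹ * x * g ∈ K := by
  rw [Subgroup.mem_pointwise_smul_iff_inv_smul_mem, MulAut.smul_def, MulAut.conj_inv_apply]

theorem card_conj_smul {G : Type*} [Group G] (g : G) (K : Subgroup G) :
    Nat.card (MulAut.conj g • K : Subgroup G) = Nat.card K :=
  Nat.card_congr (Subgroup.equivSMul (MulAut.conj g) K).symm.toEquiv

theorem conj_smul_eq_iff {G : Type*} [Group G] (g : G) (H : Subgroup G) :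
    MulAut.conj g • H = H ↔ g ∈ Subgroup.normalizer (H : Set G) := by
  rw [Subgroup.mem_normalizer_iff]
  constructor
  · intro h x
    have h1 : g * x * g⁻¹ ∈ MulAut.conj g • H ↔ x ∈ H := by
      rw [mem_conj_smul]
      have : g⁻¹ * (g * x * g⁻¹) * g = x := by group
      rw [this]
    rw [h] at h1
    exact h1.symm
  · intro h
    ext y
    rw [mem_conj_smul, h (g⁻¹ * y * g)]
    have : g * (g⁻¹ * y * g) * g⁻¹ = y := by group
    rw [this]

theorem card_mul_relIndex {G : Type*} [Group G] (A B : Subgroup G) (h : A ≤ B) :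
    Nat.card A * A.relIndex B = Nat.card B := by
  rw [Subgroup.relIndex, ← Subgroup.card_mul_index (A.subgroupOf B),
    Nat.card_congr (Subgroup.subgroupOfEquivOfLe h).toEquiv]

theorem relIndex_sup_normal {G : Type*} [Group G] [Finite G] (A N : Subgroup G) [N.Normal] :
    A.relIndex (A ⊔ N) = A.relIndex N := by
  have h1 := card_mul_relIndex A (A ⊔ N) le_sup_left
  have h2 := card_mul_relIndex N (A ⊔ N) le_sup_right
  rw [Subgroup.relIndex_sup_right A N] at h2
  have h4 := card_mul_relIndex (A ⊓ N) A inf_le_left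
  rw [Subgroup.inf_relIndex_left A N] at h4
  have h6 := card_mul_relIndex (A ⊓ N) N inf_le_right
  rw [Subgroup.inf_relIndex_right A N] at h6
  have hA : 0 < Nat.card A := Nat.card_pos
  have e4 : Nat.card A * A.relIndex (A ⊔ N) = Nat.card A * A.relIndex N := by
    rw [h1, ← h2, ← h6, ← h4]; ring
  exact Nat.eq_of_mul_eq_mul_left hA e4

/-- Schur–Zassenhaus conjugacy with the conjugating element in the normal subgroup -/
theorem szconj {G : Type*} [Group G] [Finite G] (N H K : Subgroup G) [N.Normal]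
    [IsMulCommutative N] (hH : (Nat.card H).Coprime (Nat.card N))
    (hK : (Nat.card K).Coprime (Nat.card N)) (hKH : K ≤ H ⊔ N) :
    ∃ a ∈ N, ∀ x ∈ K, a⁻¹ * x * a ∈ H := by
  obtain ⟨M, hM⟩ : ∃ M : Subgroup G, M = K ⊔ N := ⟨_, rfl⟩
  have hNM : N ≤ M := hM ▸ le_sup_right
  have hKM : K ≤ M := hM ▸ le_sup_left
  obtain ⟨D, hD⟩ : ∃ D : Subgroup G, D = H ⊓ M := ⟨_, rfl⟩
  have hDM : D ≤ M := hD ▸ inf_le_right
  have hDH : D ≤ H := hD ▸ inf_le_left
  have hDN : D ⊔ N = M := by
    apply le_antisymm (sup_le hDM hNM)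
    intro x hx
    have hx' : x ∈ H ⊔ N := by
      rw [hM] at hx
      exact (sup_le hKH le_sup_right) hx
    obtain ⟨h, hh, n, hn, rfl⟩ := (Cfsg.Agent.S0001.mem_sup_normal H N x).1 hx'
    have hhM : h ∈ M := by
      have : h * n * n⁻¹ ∈ M := M.mul_mem hx (M.inv_mem (hNM hn))
      simpa using this
    exact Subgroup.mul_mem_sup (hD ▸ Subgroup.mem_inf.mpr ⟨hh, hhM⟩) hn
  haveI : (N.subgroupOf M).Normal := Subgroup.normal_subgroupOf
  haveI : IsMulCommutative (N.subgroupOf M) := by
    refine ⟨⟨fun a b => ?_⟩⟩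
    have := congrArg Subtype.val
      ((IsMulCommutative.is_comm (M := N)).comm ⟨a.1.1, a.2⟩ ⟨b.1.1, b.2⟩)
    apply Subtype.ext
    apply Subtype.ext
    exact this
  have hNc : Nat.card (N.subgroupOf M) = Nat.card N :=
    Nat.card_congr (Subgroup.subgroupOfEquivOfLe hNM).toEquiv
  have hKc : Nat.card (K.subgroupOf M) = Nat.card K :=
    Nat.card_congr (Subgroup.subgroupOfEquivOfLe hKM).toEquiv
  have hDc : Nat.card (D.subgroupOf M) = Nat.card D :=
    Nat.card_congr (Subgroup.subgroupOfEquivOfLe hDM).toEquiv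
  have hDH' : (Nat.card D).Coprime (Nat.card N) :=
    Nat.Coprime.coprime_dvd_left (Subgroup.card_dvd_of_le hDH) hH
  have hcK : Subgroup.IsComplement' (N.subgroupOf M) (K.subgroupOf M) :=
    Cfsg.Agent.S0001.isComplement'_of_sup _ _
      (Cfsg.Agent.S0001.sup_subgroupOf_top K N M hKM hNM hM.symm) (by rw [hNc, hKc]; exact hK)
  have hcD : Subgroup.IsComplement' (N.subgroupOf M) (D.subgroupOf M) :=
    Cfsg.Agent.S0001.isComplement'_of_sup _ _
      (Cfsg.Agent.S0001.sup_subgroupOf_top D N M hDM hNM hDN) (by rw [hNc, hDc]; exact hDH')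
  have hidx : (Nat.card (N.subgroupOf M)).Coprime (N.subgroupOf M).index := by
    rw [hcK.symm.index_eq_card, hNc, hKc]; exact hK.symm
  obtain ⟨a, haN, ha⟩ := Cfsg.Agent.S0002.result (N.subgroupOf M) hidx (D.subgroupOf M)
    (K.subgroupOf M) hcD hcK
  have hconj := Cfsg.Agent.S0001.conjTo_of_smul ha
  refine ⟨(a : G), Subgroup.mem_subgroupOf.mp haN, fun x hx => ?_⟩
  have h1 := (hconj ⟨x, hKM hx⟩).1 (by simpa [Subgroup.mem_subgroupOf] using hx)
  have h2 : (a : G)⁻¹ * x * a ∈ D := by simpa [Subgroup.mem_subgroupOf] using h1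
  exact hDH h2

theorem count_eq_index {G : Type u} [Group G] [Finite G] [Group.IsSolvable G] (m n : ℕ)
    (hG : Nat.card G = m * n) (hmn : m.Coprime n) (H : Subgroup G) (hH : Nat.card H = m) :
    Nat.card {K : Subgroup G // Nat.card K = m} = (Subgroup.normalizer (H : Set G)).index := by
  letI : MulAction G (Subgroup G) := MulAction.compHom (Subgroup G) (MulAut.conj (G := G))
  have hsmul : ∀ (g : G) (K : Subgroup G), g • K = MulAut.conj g • K := fun g K => rfl
  have hstab : MulAction.stabilizer G H = Subgroup.normalizer (H : Set G) := by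
    ext g
    rw [MulAction.mem_stabilizer_iff, hsmul, conj_smul_eq_iff]
  have horbit : MulAction.orbit G H = {K : Subgroup G | Nat.card K = m} := by
    ext K
    rw [MulAction.mem_orbit_iff]
    constructor
    · rintro ⟨g, rfl⟩
      show Nat.card (g • H : Subgroup G) = m
      rw [hsmul, card_conj_smul, hH]
    · intro hK
      have hK' : Nat.card K = m := hK
      obtain ⟨g, hg⟩ := (hall_aux _ G rfl m n hG hmn).2 H K hH (by rw [hK']; exact hmn)
      exact ⟨g, conj_of_subConj g H K hg (by rw [hH, hK'])⟩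
  have h1 := MulAction.index_stabilizer G H
  rw [hstab, horbit] at h1
  rw [h1, ← Nat.card_coe_set_eq]
  rfl

theorem cent_index {G : Type u} [Group G] [Finite G] [Group.IsSolvable G] (p : ℕ) (hp : p.Prime)
    (N : Subgroup G) [N.Normal] (hN : IsPGroup p N) :
    ∀ c : ℕ, ∀ H : Subgroup G, Nat.card H = c → ¬ p ∣ Nat.card H →
      ∃ l : List ℕ, (N ⊓ Subgroup.centralizer (H : Set G)).relIndex N = l.prod ∧
        ∀ x ∈ l, (∃ e : ℕ, x = p ^ e) ∧ ∃ q : ℕ, q.Prime ∧ q ∣ Nat.card H ∧ x ≡ 1 [MOD q] := by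
  classical
  haveI : Fact p.Prime := ⟨hp⟩
  intro c
  induction c using Nat.strongRecOn with | ind c ih => ?_
  intro H hc hpH
  by_cases hbot : H = ⊥
  · refine ⟨[], ?_, by simp⟩
    rw [hbot]
    have : Subgroup.centralizer (((⊥ : Subgroup G) : Subgroup G) : Set G) = ⊤ := by
      ext x
      simp [Subgroup.mem_centralizer_iff]
    rw [this, inf_top_eq, Subgroup.relIndex_self, List.prod_nil]
  · haveI : Nontrivial H := (Subgroup.nontrivial_iff_ne_bot H).mpr hbot
    obtain ⟨M₀, r, hr, hM₀n, hM₀i⟩ := Cfsg.Agent.S4071.exists_normal_prime_index (G := H)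
    haveI : Fact r.Prime := ⟨hr⟩
    haveI := hM₀n
    obtain ⟨M, hMdef⟩ : ∃ M : Subgroup G, M = M₀.map H.subtype := ⟨_, rfl⟩
    have hMH : M ≤ H := by rw [hMdef]; exact Subgroup.map_subtype_le M₀
    have hMcard : Nat.card M * r = Nat.card H := by
      rw [hMdef, Subgroup.card_map_of_injective H.subtype_injective, ← hM₀i]
      exact Subgroup.card_mul_index M₀
    have hmemM : ∀ y : H, (y : G) ∈ M ↔ y ∈ M₀ := by
      intro y
      rw [hMdef]
      constructor
      · rintro ⟨z, hz, hzy⟩
        have : z = y := Subtype.ext hzy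
        rw [← this]; exact hz
      · intro hy; exact ⟨y, hy, rfl⟩
    have hMnorm : ∀ h ∈ H, ∀ x ∈ M, h * x * h⁻¹ ∈ M := by
      intro h hh x hx
      have hxH : x ∈ H := hMH hx
      have h1 : (⟨x, hxH⟩ : H) ∈ M₀ := (hmemM ⟨x, hxH⟩).mp hx
      have h2 := hM₀n.conj_mem _ h1 ⟨h, hh⟩
      exact (hmemM _).mpr h2
    have hMne : M₀ ≠ ⊤ := by
      intro h
      rw [h, Subgroup.index_top] at hM₀i
      exact hr.one_lt.ne hM₀i
    obtain ⟨s₀, hs₀⟩ : ∃ s₀ : H, s₀ ∉ M₀ := by
      by_contra hall
      push_neg at hall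
      exact hMne (eq_top_iff.mpr fun x _ => hall x)
    obtain ⟨a, u, hu, hou⟩ :=
      Nat.exists_eq_pow_mul_and_not_dvd (orderOf_pos s₀).ne' r hr.one_lt.ne'
    have hs₁ : s₀ ^ u ∉ M₀ := by
      intro h
      have h2 : s₀ ^ r ∈ M₀ := by
        have := Subgroup.pow_index_mem M₀ s₀
        rwa [hM₀i] at this
      have hcop : Nat.Coprime u r := ((Nat.Prime.coprime_iff_not_dvd hr).mpr hu).symm
      exact hs₀ (Cfsg.Agent.Helper14.mem_of_pow_mem_of_coprime M₀ s₀ u r hcop h h2)
    obtain ⟨s, hsdef⟩ : ∃ s : G, s = ((s₀ ^ u : H) : G) := ⟨_, rfl⟩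
    have hsH : s ∈ H := by rw [hsdef]; exact (s₀ ^ u).2
    have hsM : s ∉ M := by
      rw [hsdef, hmemM]; exact hs₁
    have hspow : s ^ r ^ a = 1 := by
      rw [hsdef, ← Subgroup.coe_pow, ← pow_mul, mul_comm, ← hou, pow_orderOf_eq_one]
      rfl
    have hsup : M ⊔ Subgroup.zpowers s = H := by
      have hle : M ⊔ Subgroup.zpowers s ≤ H :=
        sup_le hMH (by rw [Subgroup.zpowers_le]; exact hsH)
      apply Subgroup.eq_of_le_of_card_ge hle
      have hd1 : Nat.card M ∣ Nat.card (M ⊔ Subgroup.zpowers s : Subgroup G) :=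
        Subgroup.card_dvd_of_le le_sup_left
      have hd2 : Nat.card (M ⊔ Subgroup.zpowers s : Subgroup G) ∣ Nat.card H :=
        Subgroup.card_dvd_of_le hle
      obtain ⟨j, hj⟩ := hd1
      rw [hj, ← hMcard] at hd2
      have hMpos : 0 < Nat.card M := Nat.card_pos
      have hjr : j ∣ r := Nat.dvd_of_mul_dvd_mul_left hMpos hd2
      rcases (Nat.dvd_prime hr).mp hjr with h1 | h1
      · exfalso
        rw [h1, mul_one] at hj
        have : M = M ⊔ Subgroup.zpowers s :=
          Subgroup.eq_of_le_of_card_ge le_sup_left (by rw [hj])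
        apply hsM
        rw [this]
        exact le_sup_right (a := M) (Subgroup.mem_zpowers s)
      · rw [hj, h1, hMcard]
    obtain ⟨D, hD⟩ : ∃ D : Subgroup G, D = N ⊓ Subgroup.centralizer (M : Set G) := ⟨_, rfl⟩
    obtain ⟨E, hE⟩ : ∃ E : Subgroup G, E = N ⊓ Subgroup.centralizer (H : Set G) := ⟨_, rfl⟩
    have hED : E ≤ D := by
      rw [hE, hD]
      exact inf_le_inf_left N (Subgroup.centralizer_le (fun x hx => hMH hx))
    have hDN : D ≤ N := by rw [hD]; exact inf_le_left
    have hMlt : Nat.card M < c := by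
      rw [← hc, ← hMcard]
      have hMpos : 0 < Nat.card M := Nat.card_pos
      have := hr.two_le
      nlinarith
    have hpM : ¬ p ∣ Nat.card M := fun h => hpH (h.trans ⟨r, hMcard.symm⟩)
    obtain ⟨l₁, hl₁, hlg₁⟩ := ih (Nat.card M) hMlt M rfl hpM
    have hmul := Subgroup.relIndex_mul_relIndex E D N hED hDN
    have hcardED := card_mul_relIndex E D hED
    obtain ⟨d, hd⟩ := IsPGroup.iff_card.mp (hN.to_le hDN)
    obtain ⟨e', he'⟩ := IsPGroup.iff_card.mp (hN.to_le (hED.trans hDN))
    have hx₀dvd : E.relIndex D ∣ p ^ d := by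
      rw [← hd, ← hcardED]; exact Dvd.intro_left _ rfl
    obtain ⟨j, -, hj⟩ := (Nat.dvd_prime_pow hp).mp hx₀dvd
    have hsD : ∀ x ∈ D, s * x * s⁻¹ ∈ D := by
      intro x hx
      rw [hD] at hx ⊢
      refine Subgroup.mem_inf.mpr ⟨‹N.Normal›.conj_mem x hx.1 s, ?_⟩
      rw [Subgroup.mem_centralizer_iff]
      intro m hm
      have hm' : s⁻¹ * m * s ∈ M := by
        have := hMnorm s⁻¹ (H.inv_mem hsH) m hm
        rwa [inv_inv] at this
      have h3 := (Subgroup.mem_centralizer_iff.mp hx.2) _ hm'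
      calc m * (s * x * s⁻¹) = s * ((s⁻¹ * m * s) * x) * s⁻¹ := by group
        _ = s * (x * (s⁻¹ * m * s)) * s⁻¹ := by rw [h3]
        _ = s * x * s⁻¹ * m := by group
    have hEiff : ∀ x : G, x ∈ E ↔ x ∈ D ∧ s * x * s⁻¹ = x := by
      intro x
      constructor
      · intro hx
        refine ⟨hED hx, ?_⟩
        rw [hE] at hx
        have := (Subgroup.mem_centralizer_iff.mp hx.2) s hsH
        rw [this]; group
      · rintro ⟨hxD, hxs⟩
        rw [hD] at hxD
        rw [hE]
        refine Subgroup.mem_inf.mpr ⟨hxD.1, ?_⟩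
        rw [Subgroup.mem_centralizer_iff]
        intro h hh
        have hle : H ≤ Subgroup.centralizer ({x} : Set G) := by
          rw [← hsup]
          apply sup_le
          · intro m hm
            rw [Subgroup.mem_centralizer_iff]
            intro y hy
            rw [Set.mem_singleton_iff] at hy
            rw [hy]
            exact ((Subgroup.mem_centralizer_iff.mp hxD.2) m hm).symm
          · rw [Subgroup.zpowers_le, Subgroup.mem_centralizer_iff]
            intro y hy
            rw [Set.mem_singleton_iff] at hy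
            rw [hy]
            calc x * s = (s * x * s⁻¹) * s := by rw [hxs]
              _ = s * x := by group
        have := (Subgroup.mem_centralizer_iff.mp (hle hh)) x rfl
        exact this.symm
    obtain ⟨f, hf⟩ : ∃ f : Function.End D, ∀ x : D, ((f x : D) : G) = s * x * s⁻¹ :=
      ⟨fun x => ⟨s * x * s⁻¹, hsD x x.2⟩, fun x => rfl⟩
    have hfpow : ∀ i : ℕ, ∀ x : D, (((f ^ i) x : D) : G) = s ^ i * x * (s ^ i)⁻¹ := by
      intro i
      induction i with
      | zero =>
        intro x
        rw [pow_zero, pow_zero, one_mul, inv_one, mul_one]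
        rfl
      | succ i ihi =>
        intro x
        have h1 : (f ^ (i + 1)) x = f ((f ^ i) x) := by rw [pow_succ']; rfl
        rw [h1, hf, ihi x, pow_succ']
        group
    have hf1 : f ^ r ^ a = 1 := by
      funext x
      apply Subtype.ext
      rw [hfpow, hspow, one_mul, inv_one, mul_one]
      rfl
    haveI : Fintype D := Fintype.ofFinite D
    have hcong := Equiv.Perm.card_fixedPoints_modEq (f := f) (p := r) (n := a) hf1
    have hfix : Nat.card (Function.fixedPoints f) = Nat.card E := by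
      apply Nat.card_congr
      refine ⟨fun x => ⟨(x.1 : G), (hEiff _).mpr ⟨x.1.2, ?_⟩⟩,
        fun y => ⟨⟨(y : G), ((hEiff _).mp y.2).1⟩, ?_⟩, fun x => rfl, fun y => rfl⟩
      · have h2 : f x.1 = x.1 := x.2
        rw [← hf, h2]
      · show f ⟨(y : G), _⟩ = ⟨(y : G), _⟩
        apply Subtype.ext
        rw [hf]
        exact ((hEiff _).mp y.2).2
    rw [Fintype.card_eq_nat_card, Fintype.card_eq_nat_card, hfix, hd, he'] at hcong
    have hrp : r ≠ p := by
      rintro rfl
      exact hpH ⟨Nat.card M, by rw [← hMcard, mul_comm]⟩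
    have hx₀ : E.relIndex D ≡ 1 [MOD r] := by
      have h1 : p ^ e' * E.relIndex D = p ^ e' * 1 → True := fun _ => trivial
      have h2 : p ^ e' * E.relIndex D ≡ p ^ e' * 1 [MOD r] := by
        rw [mul_one, ← he', hcardED, hd, he']
        exact hcong
      have hg : Nat.gcd r (p ^ e') = 1 :=
        Nat.Coprime.pow_right e' ((Nat.coprime_primes hr hp).mpr hrp)
      exact Nat.ModEq.cancel_left_of_coprime hg h2
    refine ⟨E.relIndex D :: l₁, ?_, ?_⟩
    · have h9 : (N ⊓ Subgroup.centralizer (H : Set G)).relIndex N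
          = E.relIndex D * D.relIndex N := by rw [hmul, hE]
      rw [List.prod_cons, ← hl₁, h9, hD]
    · intro x hx
      rcases List.mem_cons.mp hx with h | h
      · rw [h]
        exact ⟨⟨j, hj⟩, r, hr, ⟨Nat.card M, by rw [← hMcard, mul_comm]⟩, hx₀⟩
      · obtain ⟨he, q, hq, hqM, hq1⟩ := hlg₁ x h
        exact ⟨he, q, hq, hqM.trans ⟨r, hMcard.symm⟩, hq1⟩

theorem main : ∀ c : ℕ, ∀ (G : Type u) [Group G] [Finite G] [Group.IsSolvable G],
    Nat.card G = c → ∀ m n : ℕ, Nat.card G = m * n → m.Coprime n →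
    ∀ H : Subgroup G, Nat.card H = m →
    ∃ l : List ℕ, (Subgroup.normalizer (H : Set G)).index = l.prod ∧ ∀ x ∈ l, Good G m x := by
  intro c
  induction c using Nat.strongRecOn with | ind c ih => ?_
  intro G _ _ _ hc m n hG hmn H hH
  rcases subsingleton_or_nontrivial G with hsub | hnt
  · refine ⟨[], ?_, by simp⟩
    have : Subgroup.normalizer (H : Set G) = ⊤ :=
      eq_top_iff.mpr (fun x _ => by rw [Subsingleton.elim x 1]; exact Subgroup.one_mem _)
    rw [this, Subgroup.index_top, List.prod_nil]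
  · obtain ⟨N, hNn, hNne, hmin⟩ := exists_minimal_normal (G := G)
    haveI := hNn
    obtain ⟨hNc, p, hp, hexp⟩ := Cfsg.Agent.S0043.result N hNne hmin
    haveI := hNc
    haveI : Fact p.Prime := ⟨hp⟩
    have hNpg : IsPGroup p N := by
      intro x
      refine ⟨1, ?_⟩
      rw [pow_one]
      exact Subtype.ext (by simpa using hexp x x.2)
    obtain ⟨k, hk⟩ := IsPGroup.iff_card.mp hNpg
    have hlt : Nat.card (G ⧸ N) < c := hc ▸ Cfsg.Agent.S0001.card_quot_lt N hNne
    have hcardG : Nat.card G = Nat.card (G ⧸ N) * Nat.card N :=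
      Subgroup.card_eq_card_quotient_mul_card_subgroup N
    have hmpos : 0 < m := by
      rcases Nat.eq_zero_or_pos m with h0 | h0
      · exfalso
        rw [h0, zero_mul] at hG
        exact Nat.card_pos.ne' hG
      · exact h0
    obtain ⟨π, hπ⟩ : ∃ π : G →* G ⧸ N, π = QuotientGroup.mk' N := ⟨_, rfl⟩
    have hπs : Function.Surjective π := by rw [hπ]; exact QuotientGroup.mk'_surjective N
    have hker : π.ker = N := by rw [hπ]; exact QuotientGroup.ker_mk' N
    have hcm : (H.map π).comap π = H ⊔ N := by rw [Subgroup.comap_map_eq, hker]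
    have hBn : (Subgroup.normalizer ((H.map π : Subgroup (G ⧸ N)) : Set (G ⧸ N))).comap π
        = Subgroup.normalizer ((H ⊔ N : Subgroup G) : Set G) := by
      rw [Subgroup.comap_normalizer_eq_of_surjective _ hπs, hcm]
    have hBi : (Subgroup.normalizer ((H ⊔ N : Subgroup G) : Set G)).index
        = (Subgroup.normalizer ((H.map π : Subgroup (G ⧸ N)) : Set (G ⧸ N))).index := by
      rw [← hBn, Subgroup.index_comap_of_surjective _ hπs]
    have hcardHN : Nat.card (H ⊔ N : Subgroup G) = Nat.card N * Nat.card (H.map π) := by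
      rw [← hcm, hπ]; exact card_comap_mk N _
    have hgood : ∀ m' x : ℕ, m' ∣ m → Good (G ⧸ N) m' x → Good G m x := by
      rintro m' x hm'm ⟨hpp, ⟨K, L, hK, hL, hKL, hmin', hdvd⟩, ⟨q, hq, hqm, hq1⟩⟩
      refine ⟨hpp, ⟨K.comap π, L.comap π, hK.comap π, hL.comap π,
        (Subgroup.comap_lt_comap_of_surjective hπs).mpr hKL, ?_, ?_⟩, ⟨q, hq, hqm.trans hm'm, hq1⟩⟩
      · intro M hM hKM hML
        have hMn : (M.map π).Normal := hM.map π hπs
        have h1 : K ≤ M.map π := by
          rw [← Subgroup.map_comap_eq_self_of_surjective hπs K]; exact Subgroup.map_mono hKM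
        have h2 : M.map π ≤ L := by
          rw [← Subgroup.map_comap_eq_self_of_surjective hπs L]; exact Subgroup.map_mono hML
        have hNM : N ≤ M := by
          refine le_trans ?_ hKM
          have hkk : π.ker ≤ K.comap π := Subgroup.ker_le_comap π K
          rw [hker] at hkk
          exact hkk
        have hMeq : (M.map π).comap π = M := by
          rw [Subgroup.comap_map_eq, hker]; exact sup_eq_left.mpr hNM
        rcases hmin' (M.map π) hMn h1 h2 with h | h
        · left; rw [← hMeq, h]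
        · right; rw [← hMeq, h]
      · rw [Subgroup.relIndex_comap, Subgroup.map_comap_eq_self_of_surjective hπs]; exact hdvd
    by_cases hpm : p ∣ m
    · have hpn : ¬ p ∣ n := fun h =>
        hp.one_lt.ne' (Nat.dvd_one.mp (hmn.gcd_eq_one ▸ Nat.dvd_gcd hpm h))
      have hHidx : H.index = n := by
        have := H.card_mul_index
        rw [hH, hG] at this
        exact Nat.eq_of_mul_eq_mul_left hmpos this
      have hNH : N ≤ H := normal_pgroup_le_of_index p N H hNpg (by rw [hHidx]; exact hpn)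
      have hHN : H ⊔ N = H := sup_eq_left.mpr hNH
      obtain ⟨m', hm'⟩ : ∃ m', m' = Nat.card (H.map π) := ⟨_, rfl⟩
      have hmm' : m = p ^ k * m' := by
        rw [← hH, hm', ← hk, ← hcardHN, hHN]
      have hq : Nat.card (G ⧸ N) = m' * n := by
        have h2 : Nat.card (G ⧸ N) * p ^ k = (m' * n) * p ^ k := by
          rw [← hk, ← hcardG, hG, hmm', hk]; ring
        exact Nat.eq_of_mul_eq_mul_right (pow_pos hp.pos k) h2
      have hm'm : m' ∣ m := ⟨p ^ k, by rw [hmm']; ring⟩
      have hm'n : m'.Coprime n := Nat.Coprime.coprime_dvd_left hm'm hmn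
      obtain ⟨l, hl, hlg⟩ := ih _ hlt (G ⧸ N) rfl m' n hq hm'n (H.map π) hm'.symm
      refine ⟨l, ?_, fun x hx => hgood m' x hm'm (hlg x hx)⟩
      rw [← hl, ← hBi, hHN]
    · have hpm' : Nat.Coprime p m := (Nat.Prime.coprime_iff_not_dvd hp).mpr hpm
      have hcop : (Nat.card H).Coprime (Nat.card N) := by
        rw [hH, hk]; exact Nat.Coprime.pow_right k hpm'.symm
      have hHbar : Nat.card (H.map π) = m := by
        have h1 := Subgroup.card_map_dvd H π
        have h2 : Nat.card H ∣ Nat.card N * Nat.card (H.map π) := by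
          rw [← hcardHN]; exact Subgroup.card_dvd_of_le le_sup_left
        have h3 : Nat.card H ∣ Nat.card (H.map π) := hcop.dvd_of_dvd_mul_left h2
        rw [← hH]; exact Nat.dvd_antisymm h1 h3
      have hNdvd : p ^ k ∣ m * n := by
        rw [← hG, ← hk]; exact Subgroup.card_subgroup_dvd_card N
      have hdn : p ^ k ∣ n := (Nat.Coprime.pow_left k hpm').dvd_of_dvd_mul_left hNdvd
      obtain ⟨n', hn'⟩ := hdn
      have hq : Nat.card (G ⧸ N) = m * n' := by
        have h2 : Nat.card (G ⧸ N) * p ^ k = (m * n') * p ^ k := by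
          rw [← hk, ← hcardG, hG, hn', hk]; ring
        exact Nat.eq_of_mul_eq_mul_right (pow_pos hp.pos k) h2
      have hmn' : m.Coprime n' := Nat.Coprime.coprime_dvd_right ⟨p ^ k, by rw [hn']; ring⟩ hmn
      obtain ⟨l, hl, hlg⟩ := ih _ hlt (G ⧸ N) rfl m n' hq hmn' (H.map π) hHbar
      obtain ⟨A, hA⟩ : ∃ A : Subgroup G, A = Subgroup.normalizer (H : Set G) := ⟨_, rfl⟩
      have hFr : Subgroup.normalizer ((H ⊔ N : Subgroup G) : Set G) = A ⊔ N := by
        apply le_antisymm
        · intro g hg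
          obtain ⟨K, hKdef⟩ : ∃ K : Subgroup G, K = MulAut.conj g • H := ⟨_, rfl⟩
          have hKle : K ≤ H ⊔ N := by
            intro x hx
            rw [hKdef, mem_conj_smul] at hx
            have h1 : g⁻¹ * x * g ∈ H ⊔ N := le_sup_left (a := H) hx
            have h2 := (Subgroup.mem_normalizer_iff.mp hg (g⁻¹ * x * g)).mp h1
            have h3 : g * (g⁻¹ * x * g) * g⁻¹ = x := by group
            rwa [h3] at h2
          have hKcard : Nat.card K = Nat.card H := by rw [hKdef, card_conj_smul]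
          obtain ⟨a, haN, ha⟩ := szconj N H K hcop (by rw [hKcard]; exact hcop) hKle
          have hb : ∀ h ∈ H, (a⁻¹ * g) * h * (a⁻¹ * g)⁻¹ ∈ H := by
            intro h hh
            have h1 : g * h * g⁻¹ ∈ K := by
              rw [hKdef, mem_conj_smul]
              have : g⁻¹ * (g * h * g⁻¹) * g = h := by group
              rw [this]; exact hh
            have h2 := ha _ h1
            have h3 : a⁻¹ * (g * h * g⁻¹) * a = (a⁻¹ * g) * h * (a⁻¹ * g)⁻¹ := by group
            rwa [h3] at h2
          have hle : MulAut.conj (a⁻¹ * g) • H ≤ H := by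
            intro x hx
            rw [mem_conj_smul] at hx
            have h1 := hb _ hx
            have h3 : (a⁻¹ * g) * ((a⁻¹ * g)⁻¹ * x * (a⁻¹ * g)) * (a⁻¹ * g)⁻¹ = x := by group
            rwa [h3] at h1
          have heq : MulAut.conj (a⁻¹ * g) • H = H :=
            Subgroup.eq_of_le_of_card_ge hle (by rw [card_conj_smul])
          have hbA : a⁻¹ * g ∈ A := by rw [hA]; exact (conj_smul_eq_iff _ _).mp heq
          have : g = a * (a⁻¹ * g) := by group
          rw [this, sup_comm]
          exact Subgroup.mul_mem_sup haN hbA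
        · apply sup_le
          · intro g hg
            rw [← hBn, Subgroup.mem_comap]
            apply Subgroup.le_normalizer_map π
            rw [hA] at hg
            exact Subgroup.mem_map_of_mem π hg
          · exact le_trans le_sup_right Subgroup.le_normalizer
      have hidx : A.index = A.relIndex N
          * (Subgroup.normalizer ((H.map π : Subgroup (G ⧸ N)) : Set (G ⧸ N))).index := by
        rw [← hBi, hFr, ← relIndex_sup_normal A N]
        exact (Subgroup.relIndex_mul_index le_sup_left).symm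
      have hAN : N ⊓ A = N ⊓ Subgroup.centralizer (H : Set G) := by
        ext x
        constructor
        · rintro ⟨hxN, hxA⟩
          refine Subgroup.mem_inf.mpr ⟨hxN, ?_⟩
          rw [Subgroup.mem_centralizer_iff]
          intro h hh
          rw [hA] at hxA
          have h1 : x * h * x⁻¹ ∈ H := (Subgroup.mem_normalizer_iff.mp hxA h).mp hh
          have h2 : x * h * x⁻¹ * h⁻¹ ∈ H := H.mul_mem h1 (H.inv_mem hh)
          have h3 : x * h * x⁻¹ * h⁻¹ ∈ N := by
            have : x * h * x⁻¹ * h⁻¹ = x * (h * x⁻¹ * h⁻¹) := by group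
            rw [this]
            exact N.mul_mem hxN (hNn.conj_mem _ (N.inv_mem hxN) h)
          have h4 : x * h * x⁻¹ * h⁻¹ ∈ H ⊓ N := ⟨h2, h3⟩
          rw [(Subgroup.disjoint_of_coprime_natCard hcop).eq_bot, Subgroup.mem_bot] at h4
          calc h * x = (x * h * x⁻¹ * h⁻¹)⁻¹ * (x * h) := by group
            _ = x * h := by rw [h4, inv_one, one_mul]
        · rintro ⟨hxN, hxC⟩
          refine Subgroup.mem_inf.mpr ⟨hxN, ?_⟩
          rw [hA]
          exact Subgroup.centralizer_le_normalizer _ hxC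
      have hrel : A.relIndex N = (N ⊓ Subgroup.centralizer (H : Set G)).relIndex N := by
        rw [← hAN, Subgroup.inf_relIndex_left]
      obtain ⟨l', hl', hlg'⟩ := cent_index p hp N hNpg (Nat.card H) H rfl (by rw [hH]; exact hpm)
      refine ⟨l' ++ l, ?_, ?_⟩
      · rw [List.prod_append, ← hl', ← hl, ← hrel, ← hA]; exact hidx
      · intro x hx
        rcases List.mem_append.mp hx with h | h
        · obtain ⟨⟨e, he⟩, q, hq, hqH, hq1⟩ := hlg' x h
          refine ⟨⟨p, e, hp, he⟩, ⟨⊥, N, inferInstance, hNn, bot_lt_iff_ne_bot.mpr hNne, ?_, ?_⟩,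
            ⟨q, hq, hH ▸ hqH, hq1⟩⟩
          · intro M hM _ hMN; exact hmin M hM hMN
          · rw [Subgroup.relIndex_bot_left]
            have h1 : x ∣ l'.prod := List.dvd_prod h
            rw [← hl'] at h1
            exact h1.trans (Subgroup.relIndex_dvd_card _ _)
        · exact hgood m x dvd_rfl (hlg x h)

/-- Let `G` be a finite solvable group of order `mn` with `gcd(m, n) = 1`. Then the number of subgroups of order `m` is a product of natural numbers each of which is a power of a prime, divides the order of some chief factor of `G` (a quotient `L/K` of normal subgroups `K < L` of `G` with no normal subgroup of `G` strictly between them), and is congruent to `1` modulo some prime divisor of `m`. -/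
theorem result {G : Type*} [Group G] [Finite G] [Group.IsSolvable G] (m n : ℕ) (hG : Nat.card G = m * n) (hmn : Nat.Coprime m n) : ∃ (k : ℕ) (f : Fin k → ℕ), Nat.card {H : Subgroup G // Nat.card H = m} = ∏ i, f i ∧ ∀ i, (∃ q e : ℕ, q.Prime ∧ f i = q ^ e) ∧ (∃ K L : Subgroup G, K.Normal ∧ L.Normal ∧ K < L ∧ (∀ M : Subgroup G, M.Normal → K ≤ M → M ≤ L → M = K ∨ M = L) ∧ f i ∣ K.relIndex L) ∧ (∃ q : ℕ, q.Prime ∧ q ∣ m ∧ f i ≡ 1 [MOD q]) := by
  obtain ⟨⟨H, hH⟩, -⟩ := Cfsg.Agent.Helper1.hall_aux _ G rfl m n hG hmn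
  obtain ⟨l, hl, hlg⟩ := main _ G rfl m n hG hmn H hH
  refine ⟨l.length, l.get, ?_, fun i => hlg _ (List.get_mem l i)⟩
  rw [count_eq_index m n hG hmn H hH, hl, ← List.prod_ofFn, List.ofFn_get]

end Cfsg.Agent.S4214
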