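import Cfsg.Statements.S4250
import Mathlib
import Cfsg.Agent.Helper10.DecR
import Cfsg.Agent.Helper5.Grp

set_option autoImplicit false
open Cfsg

namespace Cfsg.Agent.S4250

open scoped commutatorElement

theorem dec_focal {G : Type*} [Group G] [Finite G] (p : ℕ) [Fact p.Prime] (P : Sylow p G)
    (W : Subgroup G)
    (hW1 : ⁅(P : Subgroup G), Subgroup.normalizer ((P : Subgroup G) : Set G)⁆ ≤ W)
    (hW2 : ∀ (Q : Sylow p G), (¬ p ∣ ((P : Subgroup G) ⊓ Subgroup.normalizer (((P : Subgroup G) ⊓ (Q : Subgroup G) : Subgroup G) : Set G)).relIndex (Subgroup.normalizer (((P : Subgroup G) ⊓ (Q : Subgroup G) : Subgroup G) : Set G)) ∧ ¬ p ∣ ((Q : Subgroup G) ⊓ Subgroup.normalizer (((P : Subgroup G) ⊓ (Q : Subgroup G) : Subgroup G) : Set G)).relIndex (Subgroup.normalizer (((P : Subgroup G) ⊓ (Q : Subgroup G) : Subgroup G) : Set G))) →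
      ∀ x : G, x ∈ Subgroup.normalizer (((P : Subgroup G) ⊓ (Q : Subgroup G) : Subgroup G) : Set G) →
        (∃ k : ℕ, orderOf x = p ^ k) →
        ⁅(P : Subgroup G) ⊓ (Q : Subgroup G), Subgroup.zpowers x⁆ ≤ W)
    (A : Set G) (g : G) (hd : Cfsg.Agent.Helper10.DecR (Cfsg.Agent.Helper10.stepR P) A g)
    (hA : A ⊆ (P : Subgroup G)) :
    ∀ a ∈ A, a⁻¹ * (g⁻¹ * a * g) ∈ W := by
  induction hd with
  | nil A => intro a _; simp
  | cons A T x g hR hAT hdec ih =>
    obtain ⟨Q, hT, hx, ht1, ht2, hor⟩ := hR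
    subst hT
    have hcj : Cfsg.Agent.Helper10.cj x A ⊆ (P : Subgroup G) := by
      rw [Cfsg.Agent.Helper10.cj_subset_iff]
      intro a ha
      exact (Cfsg.Agent.Helper5.conj_inv_mem_of_mem_normalizer hx (hAT ha)).1
    intro a ha
    have h2 := ih hcj (x⁻¹ * a * x) ⟨a, ha, rfl⟩
    have h1 : a⁻¹ * (x⁻¹ * a * x) ∈ W := by
      have e : a⁻¹ * (x⁻¹ * a * x) = ⁅a⁻¹, x⁻¹⁆ := by rw [commutatorElement_def]; group
      rw [e]
      rcases hor with hQP | ⟨k, hk⟩
      · apply hW1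
        apply Subgroup.commutator_mem_commutator
        · exact inv_mem (hAT ha).1
        · rw [hQP, inf_idem] at hx
          exact inv_mem hx
      · apply hW2 Q ⟨ht1, ht2⟩ x hx ⟨k, hk⟩
        apply Subgroup.commutator_mem_commutator
        · exact inv_mem (hAT ha)
        · exact inv_mem (Subgroup.mem_zpowers x)
    have e : a⁻¹ * ((x * g)⁻¹ * a * (x * g))
        = (a⁻¹ * (x⁻¹ * a * x)) * ((x⁻¹ * a * x)⁻¹ * (g⁻¹ * (x⁻¹ * a * x) * g)) := by group
    rw [e]; exact mul_mem h1 h2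

/-- Let P be a Sylow p-subgroup of a finite group G. Call an intersection H = P ∩ Q with a Sylow p-subgroup Q tame when N_P(H) and N_Q(H) are Sylow p-subgroups of N_G(H). Then P ∩ G′ is generated by [P, N_G(P)] together with the commutator subgroups [P ∩ Q, ⟨x⟩] for all tame intersections P ∩ Q and all p-elements x of N_G(P ∩ Q). -/
theorem result {G : Type*} [Group G] [Finite G] (p : ℕ) [Fact p.Prime] (P : Sylow p G) :
    (P : Subgroup G) ⊓ commutator G =
      ⁅(P : Subgroup G), Subgroup.normalizer ((P : Subgroup G) : Set G)⁆ ⊔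
        ⨆ (Q : Sylow p G) (_ : (¬ p ∣ ((P : Subgroup G) ⊓ Subgroup.normalizer (((P : Subgroup G) ⊓ (Q : Subgroup G) : Subgroup G) : Set G)).relIndex (Subgroup.normalizer (((P : Subgroup G) ⊓ (Q : Subgroup G) : Subgroup G) : Set G)) ∧ ¬ p ∣ ((Q : Subgroup G) ⊓ Subgroup.normalizer (((P : Subgroup G) ⊓ (Q : Subgroup G) : Subgroup G) : Set G)).relIndex (Subgroup.normalizer (((P : Subgroup G) ⊓ (Q : Subgroup G) : Subgroup G) : Set G))))
          (x : G) (_ : x ∈ Subgroup.normalizer (((P : Subgroup G) ⊓ (Q : Subgroup G) : Subgroup G) : Set G) ∧ ∃ k : ℕ, orderOf x = p ^ k),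
          ⁅(P : Subgroup G) ⊓ (Q : Subgroup G), Subgroup.zpowers x⁆ := by
  apply le_antisymm
  · rw [inf_comm, Subgroup.commutator_inf_eq_focalSubgroup P, Subgroup.focalSubgroup_def,
      Subgroup.closure_le]
    rintro g ⟨hg, x, hx, u, rfl⟩
    have hAS : ({x⁻¹} : Set G) ⊆ (P : Subgroup G) := by
      intro a ha; rw [Set.mem_singleton_iff] at ha; rw [ha]; exact inv_mem hx
    have hAg : Cfsg.Agent.Helper10.cj u⁻¹ ({x⁻¹} : Set G) ⊆ (P : Subgroup G) := by
      rw [Cfsg.Agent.Helper10.cj_subset_iff]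
      intro a ha; rw [Set.mem_singleton_iff] at ha; rw [ha, inv_inv]
      have e : u * x⁻¹ * u⁻¹ = x⁻¹ * ⁅x, u⁆ := by rw [commutatorElement_def]; group
      rw [e]; exact mul_mem (inv_mem hx) hg
    have hd := Cfsg.Agent.Helper10.alperin_tame_set P {x⁻¹} u⁻¹ hAS hAg
    have e : ⁅x, u⁆ = (x⁻¹)⁻¹ * ((u⁻¹)⁻¹ * x⁻¹ * u⁻¹) := by
      rw [commutatorElement_def]; group
    rw [SetLike.mem_coe, e]
    refine dec_focal p P _ le_sup_left ?_ {x⁻¹} u⁻¹ hd hAS x⁻¹ rfl
    intro Q ht y hy hk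
    refine le_sup_of_le_right ?_
    refine le_iSup_of_le Q ?_
    refine le_iSup_of_le ht ?_
    refine le_iSup_of_le y ?_
    exact le_iSup_of_le (And.intro hy hk) le_rfl
  · apply sup_le
    · apply le_inf
      · rw [Subgroup.commutator_le]
        intro a ha n hn
        have e : ⁅a, n⁆ = a * (n * a⁻¹ * n⁻¹) := by rw [commutatorElement_def]; group
        rw [e]
        exact mul_mem ha (Cfsg.Agent.Helper5.conj_mem_of_mem_normalizer hn (inv_mem ha))
      · rw [commutator_def]; exact Subgroup.commutator_mono le_top le_top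
    · refine iSup_le fun Q => iSup_le fun ht => iSup_le fun y => iSup_le fun hy => ?_
      apply le_inf
      · rw [Subgroup.commutator_le]
        intro a ha n hn
        have hnN : n ∈ Subgroup.normalizer
            (((P : Subgroup G) ⊓ (Q : Subgroup G) : Subgroup G) : Set G) :=
          (Subgroup.zpowers_le.mpr hy.1) hn
        have e : ⁅a, n⁆ = a * (n * a⁻¹ * n⁻¹) := by rw [commutatorElement_def]; group
        rw [e]
        exact (mul_mem ha
          (Cfsg.Agent.Helper5.conj_mem_of_mem_normalizer hnN (inv_mem ha))).1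
      · rw [commutator_def]; exact Subgroup.commutator_mono le_top le_top

end Cfsg.Agent.S4250
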