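import Cfsg.Statements.S4216
import Cfsg.Agent.S4250
import Cfsg.Agent.Helper10.SylowRel
import Cfsg.Agent.Helper5.Grp

set_option autoImplicit false
open Cfsg

namespace Cfsg.Agent.S4216

open scoped commutatorElement


/-- Grün's first Theorem: if `P` is a Sylow `p`-subgroup of the finite group `G`, then `P ∩ G'` is the subgroup generated by `P ∩ N_G(P)'` together with the subgroups `P ∩ z P' z⁻¹` for all `z ∈ G`, where `'` denotes the derived subgroup and `N_G(P)` the normalizer of `P`. -/
theorem result {G : Type*} [Group G] [Finite G] {p : ℕ} [Fact p.Prime] (P : Sylow p G) : (P : Subgroup G) ⊓ commutator G = ((P : Subgroup G) ⊓ ⁅Subgroup.normalizer ((P : Subgroup G) : Set G), Subgroup.normalizer ((P : Subgroup G) : Set G)⁆) ⊔ ⨆ z : G, (P : Subgroup G) ⊓ (⁅(P : Subgroup G), (P : Subgroup G)⁆).map (MulAut.conj z).toMonoidHom := by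
  classical
  apply le_antisymm
  · rw [Cfsg.Agent.S4250.result p P]
    apply sup_le
    · refine le_sup_of_le_left ?_
      apply le_inf
      · rw [Subgroup.commutator_le]
        intro a ha n hn
        have e : ⁅a, n⁆ = a * (n * a⁻¹ * n⁻¹) := by rw [commutatorElement_def]; group
        rw [e]
        exact mul_mem ha (Cfsg.Agent.Helper5.conj_mem_of_mem_normalizer hn (inv_mem ha))
      · exact Subgroup.commutator_mono Subgroup.le_normalizer le_rfl
    · refine iSup_le fun Q => iSup_le fun ht => iSup_le fun y => iSup_le fun hy => ?_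
      obtain ⟨T, hT⟩ : ∃ T : Subgroup G, T = (P : Subgroup G) ⊓ (Q : Subgroup G) := ⟨_, rfl⟩
      rw [← hT] at ht hy ⊢
      obtain ⟨hyN, k, hk⟩ := hy
      have hzp : IsPGroup p ↥(Subgroup.zpowers y) :=
        IsPGroup.of_card (n := k) (by rw [Nat.card_zpowers, hk])
      have hPN : IsPGroup p ↥((P : Subgroup G) ⊓ Subgroup.normalizer (T : Set G)) :=
        P.isPGroup'.to_le inf_le_left
      obtain ⟨n, hnN, hn⟩ := Cfsg.Agent.Helper10.exists_conj_into_of_relIndex
        (Subgroup.normalizer (T : Set G)) ((P : Subgroup G) ⊓ Subgroup.normalizer (T : Set G))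
        hPN ht.1 (Subgroup.zpowers y) hzp (Subgroup.zpowers_le.mpr hyN)
      refine le_sup_of_le_right (le_iSup_of_le n⁻¹ ?_)
      apply le_inf
      · rw [Subgroup.commutator_le]
        intro a ha u hu
        have huN : u ∈ Subgroup.normalizer (T : Set G) := (Subgroup.zpowers_le.mpr hyN) hu
        have e : ⁅a, u⁆ = a * (u * a⁻¹ * u⁻¹) := by rw [commutatorElement_def]; group
        rw [e]
        have haT : a ∈ T := ha
        have h2 : u * a⁻¹ * u⁻¹ ∈ T :=
          Cfsg.Agent.Helper5.conj_mem_of_mem_normalizer huN (inv_mem haT)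
        have h3 : a * (u * a⁻¹ * u⁻¹) ∈ T := mul_mem haT h2
        rw [hT] at h3; exact h3.1
      · rw [Subgroup.commutator_le]
        intro a ha u hu
        have ha' : n * a * n⁻¹ ∈ (P : Subgroup G) := by
          have haT : a ∈ T := ha
          have h4 : n * a * n⁻¹ ∈ T := Cfsg.Agent.Helper5.conj_mem_of_mem_normalizer hnN haT
          rw [hT] at h4; exact h4.1
        have hu' : n * u * n⁻¹ ∈ (P : Subgroup G) := (hn u hu).1
        refine Subgroup.mem_map.mpr ⟨⁅n * a * n⁻¹, n * u * n⁻¹⁆,
          Subgroup.commutator_mem_commutator ha' hu', ?_⟩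
        show n⁻¹ * ⁅n * a * n⁻¹, n * u * n⁻¹⁆ * n⁻¹⁻¹ = ⁅a, u⁆
        rw [commutatorElement_def, commutatorElement_def]
        group
  · apply sup_le
    · exact inf_le_inf_left _ (by rw [commutator_def]; exact Subgroup.commutator_mono le_top le_top)
    · refine iSup_le fun z => ?_
      apply inf_le_inf_left
      rintro _ ⟨c, hc, rfl⟩
      have hcG : c ∈ commutator G := by
        have h5 : ⁅(P : Subgroup G), (P : Subgroup G)⁆ ≤ commutator G := by
          rw [commutator_def]; exact Subgroup.commutator_mono le_top le_top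
        exact h5 hc
      have hnorm : (commutator G).Normal := inferInstance
      show z * c * z⁻¹ ∈ commutator G
      exact hnorm.conj_mem c hcG z

end Cfsg.Agent.S4216
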