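import Cfsg.Statements.S4218
import Cfsg.Agent.Helper23.PSolv
import Cfsg.Agent.S0029
import Cfsg.Agent.S0012
import Mathlib

set_option autoImplicit false
open Cfsg
open scoped commutatorElement

namespace Cfsg.Agent.S4218

theorem frattini_map_equiv {A B : Type*} [Group A] [Group B] (e : A ≃* B) (a : A) :
    e a ∈ frattini B ↔ a ∈ frattini A := by
  constructor
  · intro h
    have h1 := frattini_le_comap_frattini_of_surjective (φ := e.symm.toMonoidHom)
      e.symm.surjective h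
    simpa using h1
  · intro h
    exact frattini_le_comap_frattini_of_surjective (φ := e.toMonoidHom) e.surjective h

/-- membership in the preimage of the Frattini subgroup of `P₁ / N₀`, read in `G / N₀`. -/
theorem mem_F {G : Type*} [Group G] {p : ℕ} (x : G) :
    x ∈ ((frattini (↥(Cfsg.pPrimePCore p G) ⧸ (Cfsg.pPrimeCore p G).subgroupOf
        (Cfsg.pPrimePCore p G))).comap (QuotientGroup.mk' ((Cfsg.pPrimeCore p G).subgroupOf
        (Cfsg.pPrimePCore p G)))).map (Cfsg.pPrimePCore p G).subtype ↔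
    QuotientGroup.mk' (Cfsg.pPrimeCore p G) x ∈
      (frattini ↥(Cfsg.pCore p (G ⧸ Cfsg.pPrimeCore p G))).map
        (Cfsg.pCore p (G ⧸ Cfsg.pPrimeCore p G)).subtype := by
  obtain ⟨N, hN⟩ : ∃ N : Subgroup G, N = Cfsg.pPrimeCore p G := ⟨_, rfl⟩
  haveI hNn : N.Normal := by rw [hN]; infer_instance
  have key : ∀ (Q : Subgroup (G ⧸ N)) (P : Subgroup G) (hP : P = Q.comap (QuotientGroup.mk' N)),
      x ∈ ((frattini (↥P ⧸ N.subgroupOf P)).comap (QuotientGroup.mk' (N.subgroupOf P))).map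
        P.subtype ↔ QuotientGroup.mk' N x ∈ (frattini ↥Q).map Q.subtype := by
    intro Q P hP
    subst hP
    obtain ⟨φ, hφ⟩ : ∃ φ : ↥(Q.comap (QuotientGroup.mk' N)) →* ↥Q,
        φ = (QuotientGroup.mk' N).subgroupComap Q := ⟨_, rfl⟩
    have hφv : ∀ y : ↥(Q.comap (QuotientGroup.mk' N)), ((φ y : ↥Q) : G ⧸ N)
        = QuotientGroup.mk' N (y : G) := by
      intro y; rw [hφ]; rfl
    have hker : ∀ y : ↥(Q.comap (QuotientGroup.mk' N)),
        φ y = 1 ↔ y ∈ N.subgroupOf (Q.comap (QuotientGroup.mk' N)) := by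
      intro y
      rw [Subgroup.mem_subgroupOf, ← QuotientGroup.eq_one_iff (N := N)]
      constructor
      · intro h
        have := congrArg Subtype.val h
        rw [hφv] at this
        simpa using this
      · intro h
        apply Subtype.ext
        rw [hφv]
        simpa using h
    have hsurj : Function.Surjective φ := by
      rw [hφ]
      exact MonoidHom.subgroupComap_surjective_of_surjective _ Q (QuotientGroup.mk'_surjective N)
    obtain ⟨L, hL⟩ : ∃ L : (↥(Q.comap (QuotientGroup.mk' N)) ⧸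
        N.subgroupOf (Q.comap (QuotientGroup.mk' N))) →* ↥Q,
        L = QuotientGroup.lift (N.subgroupOf (Q.comap (QuotientGroup.mk' N))) φ
          (fun y hy => (hker y).2 hy) := ⟨_, rfl⟩
    have hLmk : ∀ y : ↥(Q.comap (QuotientGroup.mk' N)),
        L (QuotientGroup.mk' (N.subgroupOf (Q.comap (QuotientGroup.mk' N))) y) = φ y := by
      intro y; rw [hL]; rfl
    have hLbij : Function.Bijective L := by
      constructor
      · rw [injective_iff_map_eq_one]
        intro z hz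
        obtain ⟨y, rfl⟩ := QuotientGroup.mk'_surjective _ z
        rw [hLmk] at hz
        exact (QuotientGroup.eq_one_iff _).2 ((hker y).1 hz)
      · intro q
        obtain ⟨y, hy⟩ := hsurj q
        exact ⟨QuotientGroup.mk' _ y, by rw [hLmk, hy]⟩
    obtain ⟨e, he⟩ : ∃ e : (↥(Q.comap (QuotientGroup.mk' N)) ⧸
        N.subgroupOf (Q.comap (QuotientGroup.mk' N))) ≃* ↥Q, ∀ z, e z = L z :=
      ⟨MulEquiv.ofBijective L hLbij, fun z => rfl⟩
    constructor
    · rintro ⟨y, hy, rfl⟩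
      have hy' : QuotientGroup.mk' (N.subgroupOf (Q.comap (QuotientGroup.mk' N))) y ∈
          frattini (↥(Q.comap (QuotientGroup.mk' N)) ⧸
            N.subgroupOf (Q.comap (QuotientGroup.mk' N))) := hy
      have h1 := (frattini_map_equiv e _).2 hy'
      rw [he, hLmk] at h1
      exact ⟨φ y, h1, hφv y⟩
    · rintro ⟨z, hz, hzx⟩
      have hxP : x ∈ Q.comap (QuotientGroup.mk' N) := by
        rw [Subgroup.mem_comap, ← hzx]; exact z.2
      have hφy : φ ⟨x, hxP⟩ = z := by
        apply Subtype.ext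
        rw [hφv]; exact hzx.symm
      refine ⟨⟨x, hxP⟩, ?_, rfl⟩
      show QuotientGroup.mk' (N.subgroupOf (Q.comap (QuotientGroup.mk' N))) ⟨x, hxP⟩ ∈
          frattini (↥(Q.comap (QuotientGroup.mk' N)) ⧸
            N.subgroupOf (Q.comap (QuotientGroup.mk' N)))
      apply (frattini_map_equiv e _).1
      rw [he, hLmk, hφy]
      exact hz
  subst hN
  exact key (Cfsg.pCore p (G ⧸ Cfsg.pPrimeCore p G)) (Cfsg.pPrimePCore p G) rfl

/-- Let `G` be a finite `p`-solvable group, `N₀ = O_{p'}(G)`, `P₁ = O_{p',p}(G)`, and let `F ≤ P₁` be the preimage of the Frattini subgroup of `P₁/N₀`. Then an element `g` of `G` induces the identity on `P₁/F` by conjugation (that is, `g x g⁻¹ x⁻¹ ∈ F` for all `x ∈ P₁`) if and only if `g ∈ P₁`: the group `G/P₁` acts faithfully on `P₁/F`. -/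
theorem result {G : Type*} [Group G] [Finite G] {p : ℕ} [Fact p.Prime] (hG : Cfsg.IsPSolvable p G) (g : G) : (∀ x ∈ Cfsg.pPrimePCore p G, g * x * g⁻¹ * x⁻¹ ∈ ((frattini (↥(Cfsg.pPrimePCore p G) ⧸ (Cfsg.pPrimeCore p G).subgroupOf (Cfsg.pPrimePCore p G))).comap (QuotientGroup.mk' ((Cfsg.pPrimeCore p G).subgroupOf (Cfsg.pPrimePCore p G)))).map (Cfsg.pPrimePCore p G).subtype) ↔ g ∈ Cfsg.pPrimePCore p G := by
  have hp : p.Prime := Fact.out
  obtain ⟨Q, hQ⟩ : ∃ Q : Subgroup (G ⧸ Cfsg.pPrimeCore p G),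
      Q = Cfsg.pCore p (G ⧸ Cfsg.pPrimeCore p G) := ⟨_, rfl⟩
  haveI hQn : Q.Normal := by rw [hQ]; infer_instance
  have hQp : IsPGroup p Q := by rw [hQ]; exact Cfsg.Agent.Helper23.pCore_isPGroup p
  have hCQ : Subgroup.centralizer (Q : Set (G ⧸ Cfsg.pPrimeCore p G)) ≤ Q := by
    rw [hQ]
    exact Cfsg.Agent.Helper23.hall_higman
      (Cfsg.Agent.Helper23.isPSolvable_quotient hG (Cfsg.pPrimeCore p G))
      (Cfsg.Agent.Helper23.pPrimeCore_quotient_pPrimeCore p)
  have hmemP : ∀ x : G, x ∈ Cfsg.pPrimePCore p G ↔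
      QuotientGroup.mk' (Cfsg.pPrimeCore p G) x ∈ Q := by
    intro x; rw [hQ]; exact Iff.rfl
  obtain ⟨Φ, hΦ⟩ : ∃ Φ : Subgroup (G ⧸ Cfsg.pPrimeCore p G),
      Φ = (frattini ↥Q).map Q.subtype := ⟨_, rfl⟩
  have hΦn : Φ.Normal := by rw [hΦ]; infer_instance
  have hmemF : ∀ x : G, x ∈ ((frattini (↥(Cfsg.pPrimePCore p G) ⧸ (Cfsg.pPrimeCore p G).subgroupOf
        (Cfsg.pPrimePCore p G))).comap (QuotientGroup.mk' ((Cfsg.pPrimeCore p G).subgroupOf
        (Cfsg.pPrimePCore p G)))).map (Cfsg.pPrimePCore p G).subtype ↔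
      QuotientGroup.mk' (Cfsg.pPrimeCore p G) x ∈ Φ := by
    intro x; rw [hΦ, hQ]; exact mem_F x
  constructor
  · intro h
    -- the kernel of the action on Q / Φ
    obtain ⟨T, hT⟩ : ∃ T : Subgroup (G ⧸ Cfsg.pPrimeCore p G),
        ∀ a, a ∈ T ↔ ∀ q ∈ Q, a * q * a⁻¹ * q⁻¹ ∈ Φ := by
      refine ⟨{ carrier := {a | ∀ q ∈ Q, a * q * a⁻¹ * q⁻¹ ∈ Φ}
                mul_mem' := ?_
                one_mem' := ?_
                inv_mem' := ?_ }, fun a => Iff.rfl⟩
      · intro a b ha hb q hq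
        have e : a * b * q * (a * b)⁻¹ * q⁻¹
            = a * (b * q * b⁻¹ * q⁻¹) * a⁻¹ * (a * q * a⁻¹ * q⁻¹) := by group
        rw [e]
        exact Φ.mul_mem (hΦn.conj_mem _ (hb q hq) a) (ha q hq)
      · intro q hq
        have e : (1 : G ⧸ Cfsg.pPrimeCore p G) * q * 1⁻¹ * q⁻¹ = 1 := by group
        rw [e]; exact Φ.one_mem
      · intro a ha q hq
        have hq' : a⁻¹ * q * a ∈ Q := by
          have := hQn.conj_mem q hq a⁻¹
          rwa [inv_inv] at this
        have h1 := Φ.inv_mem (ha _ hq')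
        have e : (a * (a⁻¹ * q * a) * a⁻¹ * (a⁻¹ * q * a)⁻¹)⁻¹ = a⁻¹ * q * a⁻¹⁻¹ * q⁻¹ := by
          group
        rw [e] at h1
        exact h1
    have hTn : T.Normal := by
      constructor
      intro a ha c
      rw [hT] at ha ⊢
      intro q hq
      have hq' : c⁻¹ * q * c ∈ Q := by
        have := hQn.conj_mem q hq c⁻¹
        rwa [inv_inv] at this
      have e : c * a * c⁻¹ * q * (c * a * c⁻¹)⁻¹ * q⁻¹
          = c * (a * (c⁻¹ * q * c) * a⁻¹ * (c⁻¹ * q * c)⁻¹) * c⁻¹ := by group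
      rw [e]
      exact hΦn.conj_mem _ (ha _ hq') c
    have hTp : IsPGroup p T := by
      intro t
      obtain ⟨a, ha⟩ : ∃ a : G ⧸ Cfsg.pPrimeCore p G, a = (t : G ⧸ Cfsg.pPrimeCore p G) :=
        ⟨_, rfl⟩
      have haT : a ∈ T := by rw [ha]; exact t.2
      have hn0 : orderOf a ≠ 0 := (orderOf_pos a).ne'
      obtain ⟨e, m, hm, hnm⟩ := Nat.exists_eq_pow_mul_and_not_dvd hn0 p hp.ne_one
      obtain ⟨k, hk⟩ : ∃ k, k = a ^ (p ^ e) := ⟨_, rfl⟩
      have hkT : k ∈ T := by rw [hk]; exact T.pow_mem haT _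
      have hkm : k ^ m = 1 := by
        rw [hk, ← pow_mul, ← hnm]; exact pow_orderOf_eq_one a
      have hcop : (orderOf k).Coprime p :=
        Nat.Coprime.coprime_dvd_left (orderOf_dvd_of_pow_eq_one hkm)
          ((Nat.Prime.coprime_iff_not_dvd hp).2 hm).symm
      have hFp : IsPGroup p (frattini ↥Q) := hQp.to_subgroup _
      obtain ⟨j, hj⟩ := IsPGroup.iff_card.1 hFp
      have hA : Subgroup.zpowers k ≤ Subgroup.centralizer (Q : Set (G ⧸ Cfsg.pPrimeCore p G)) := by
        apply Cfsg.Agent.S0029.result (Subgroup.zpowers k) Q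
        · rw [Subgroup.normalizer_eq_top_iff.2 hQn]; exact le_top
        · rw [Nat.card_zpowers, hj]
          exact Nat.Coprime.pow_right _ hcop
        · intro b hb q hq
          rw [← hΦ]
          have hbT : b ∈ T := (Subgroup.zpowers_le.2 hkT) hb
          exact (hT b).1 hbT q hq
      have hkQ : k ∈ Q := hCQ (hA (Subgroup.mem_zpowers k))
      obtain ⟨i, hi⟩ := hQp ⟨k, hkQ⟩
      have hki : k ^ (p ^ i) = 1 := by
        have := congrArg Subtype.val hi
        simpa only [SubmonoidClass.coe_pow, OneMemClass.coe_one] using this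
      have hk1 : orderOf k = 1 := by
        have h1 : orderOf k ∣ p ^ i := orderOf_dvd_of_pow_eq_one hki
        exact Nat.Coprime.eq_one_of_dvd (Nat.Coprime.pow_right _ hcop) h1
      have hk1' : k = 1 := orderOf_eq_one_iff.1 hk1
      refine ⟨e, ?_⟩
      apply Subtype.ext
      simp only [SubmonoidClass.coe_pow, OneMemClass.coe_one]
      rw [← ha, ← hk]; exact hk1'
    have hTQ : T ≤ Q := by
      rw [hQ]; exact Cfsg.Agent.Helper23.le_pCore hTn hTp
    rw [hmemP]
    apply hTQ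
    rw [hT]
    intro q hq
    obtain ⟨x, rfl⟩ := QuotientGroup.mk'_surjective _ q
    have hx : x ∈ Cfsg.pPrimePCore p G := (hmemP x).2 hq
    have h1 := (hmemF _).1 (h x hx)
    simpa using h1
  · intro hg x hx
    rw [hmemF, hΦ]
    have hgQ := (hmemP g).1 hg
    have hxQ := (hmemP x).1 hx
    have hc : ⁅(⟨_, hgQ⟩ : ↥Q), (⟨_, hxQ⟩ : ↥Q)⁆ ∈ frattini ↥Q := by
      apply (Cfsg.Agent.S0012.result p hQp).1
      rw [commutator_def]
      exact Subgroup.commutator_mem_commutator (Subgroup.mem_top _) (Subgroup.mem_top _)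
    refine ⟨_, hc, ?_⟩
    rw [commutatorElement_def]
    simp

end Cfsg.Agent.S4218
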