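import Cfsg.Statements.S4219
import Mathlib
-- import your own Cfsg.Agent.* helpers here

set_option autoImplicit false
open Cfsg

namespace Cfsg.Agent.S4219

open scoped Pointwise in
theorem sylow_conj_in {G : Type*} [Group G] [Finite G] {p : ℕ} [Fact p.Prime]
    (K Q₁ Q₂ : Subgroup G) (h1 : Q₁ ≤ K) (h2 : Q₂ ≤ K)
    (c1 : Nat.card Q₁ = p ^ (Nat.card K).factorization p)
    (c2 : Nat.card Q₂ = p ^ (Nat.card K).factorization p) :
    ∃ c ∈ K, ∀ z, z ∈ Q₂ ↔ c⁻¹ * z * c ∈ Q₁ := by
  have e1 : Nat.card (Q₁.subgroupOf K) = p ^ (Nat.card K).factorization p := by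
    rw [← c1]; exact Nat.card_congr (Subgroup.subgroupOfEquivOfLe h1).toEquiv
  have e2 : Nat.card (Q₂.subgroupOf K) = p ^ (Nat.card K).factorization p := by
    rw [← c2]; exact Nat.card_congr (Subgroup.subgroupOfEquivOfLe h2).toEquiv
  obtain ⟨c, hc⟩ := MulAction.exists_smul_eq K (Sylow.ofCard (Q₁.subgroupOf K) e1)
    (Sylow.ofCard (Q₂.subgroupOf K) e2)
  refine ⟨c, c.2, ?_⟩
  intro z
  have hc' : (MulAut.conj c • (Q₁.subgroupOf K) : Subgroup K) = Q₂.subgroupOf K := by
    have h3 := congrArg (fun S : Sylow p K => (S : Subgroup K)) hc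
    simpa [Sylow.coe_subgroup_smul] using h3
  constructor
  · intro hz
    have hzK : z ∈ K := h2 hz
    have h4 : (⟨z, hzK⟩ : K) ∈ Q₂.subgroupOf K := Subgroup.mem_subgroupOf.mpr hz
    rw [← hc', Subgroup.mem_pointwise_smul_iff_inv_smul_mem, Subgroup.mem_subgroupOf] at h4
    simpa [MulAut.smul_def, MulAut.conj_inv_apply] using h4
  · intro hz
    have hzK : z ∈ K := by
      have h5 := K.mul_mem (K.mul_mem c.2 (h1 hz)) (K.inv_mem c.2)
      convert h5 using 1; group
    have h4 : (⟨z, hzK⟩ : K) ∈ Q₂.subgroupOf K := by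
      rw [← hc', Subgroup.mem_pointwise_smul_iff_inv_smul_mem, Subgroup.mem_subgroupOf]
      simpa [MulAut.smul_def, MulAut.conj_inv_apply] using hz
    exact Subgroup.mem_subgroupOf.mp h4


/-- Let a finite group `G` act `t`-fold transitively on a finite set, let `H` be the stabilizer of `t` distinct points and `P` a Sylow `p`-subgroup of `H`. Then the normalizer of `P` in `G` is `t`-fold transitive on the fixed points of `P`: any `t` distinct fixed points of `P` can be carried to any other `t` distinct fixed points of `P` by an element normalizing `P`. -/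
theorem result {G : Type*} [Group G] [Finite G] {α : Type*} [Fintype α] [MulAction G α] {t : ℕ} (hG : MulAction.IsMultiplyPretransitive G α t) (x : Fin t ↪ α) {p : ℕ} [Fact p.Prime] (P : Sylow p (MulAction.stabilizer G x)) (a b : Fin t ↪ α) (ha : ∀ i, a i ∈ MulAction.fixedPoints ((P : Subgroup (MulAction.stabilizer G x)).map (MulAction.stabilizer G x).subtype) α) (hb : ∀ i, b i ∈ MulAction.fixedPoints ((P : Subgroup (MulAction.stabilizer G x)).map (MulAction.stabilizer G x).subtype) α) : ∃ g ∈ Subgroup.normalizer ((((P : Subgroup (MulAction.stabilizer G x)).map (MulAction.stabilizer G x).subtype) : Subgroup G) : Set G), g • a = b := by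
  classical
  obtain ⟨PG, hPGdef⟩ : ∃ PG : Subgroup G, PG =
    (P : Subgroup (MulAction.stabilizer G x)).map (MulAction.stabilizer G x).subtype := ⟨_, rfl⟩
  rw [← hPGdef] at ha hb ⊢
  haveI : MulAction.IsPretransitive G (Fin t ↪ α) := hG
  obtain ⟨h₁, hh₁⟩ := MulAction.exists_smul_eq G x a
  obtain ⟨h₂, hh₂⟩ := MulAction.exists_smul_eq G x b
  obtain ⟨g₀, hg₀⟩ := MulAction.exists_smul_eq G a b
  have hPGa : ∀ g ∈ PG, g • a = a := by
    intro g hg
    ext i
    rw [Function.Embedding.smul_apply]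
    exact ha i ⟨g, hg⟩
  have hPGb : ∀ g ∈ PG, g • b = b := by
    intro g hg
    ext i
    rw [Function.Embedding.smul_apply]
    exact hb i ⟨g, hg⟩
  have hPGK : PG ≤ MulAction.stabilizer G b := fun g hg => MulAction.mem_stabilizer_iff.mpr (hPGb g hg)
  have hQmem : ∀ z, z ∈ PG.map (MulAut.conj g₀).toMonoidHom ↔ g₀⁻¹ * z * g₀ ∈ PG := by
    intro z
    rw [Subgroup.mem_map_equiv, MulAut.conj_symm_apply]
  have hQK : PG.map (MulAut.conj g₀).toMonoidHom ≤ MulAction.stabilizer G b := by
    intro z hz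
    rw [hQmem] at hz
    rw [MulAction.mem_stabilizer_iff]
    have h1 := hPGa _ hz
    rw [mul_smul, mul_smul, hg₀] at h1
    have h2 : z • b = g₀ • (g₀⁻¹ • z • b) := by rw [smul_inv_smul]
    rw [h2, h1, hg₀]
  have cP : Nat.card PG = p ^ (Nat.card (MulAction.stabilizer G x)).factorization p := by
    rw [← Sylow.card_eq_multiplicity P, hPGdef]
    exact Nat.card_congr (Subgroup.equivMapOfInjective _ _
      (Subgroup.subtype_injective _)).symm.toEquiv
  have cK : Nat.card (MulAction.stabilizer G b) = Nat.card (MulAction.stabilizer G x) := by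
    rw [← hh₂, MulAction.stabilizer_smul_eq_stabilizer_map_conj]
    exact Nat.card_congr (Subgroup.equivMapOfInjective _ _
      (MulAut.conj h₂).injective).symm.toEquiv
  have cQ : Nat.card (PG.map (MulAut.conj g₀).toMonoidHom) = Nat.card PG :=
    Nat.card_congr (Subgroup.equivMapOfInjective _ _ (MulAut.conj g₀).injective).symm.toEquiv
  obtain ⟨c, hcK, hc⟩ := sylow_conj_in (p := p) (MulAction.stabilizer G b)
    (PG.map (MulAut.conj g₀).toMonoidHom) PG hQK hPGK (by rw [cQ, cP, cK]) (by rw [cP, cK])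
  refine ⟨c * g₀, ?_, ?_⟩
  · rw [Subgroup.mem_normalizer_iff]
    intro h
    have h3 := hc (c * g₀ * h * (c * g₀)⁻¹)
    rw [hQmem] at h3
    have h4 : g₀⁻¹ * (c⁻¹ * (c * g₀ * h * (c * g₀)⁻¹) * c) * g₀ = h := by group
    rw [h4] at h3
    exact h3.symm
  · rw [mul_smul, hg₀]
    exact MulAction.mem_stabilizer_iff.mp hcK

end Cfsg.Agent.S4219
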