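import Cfsg.Statements.S4230
import Mathlib
-- import your own Cfsg.Agent.* helpers here

set_option autoImplicit false
open Cfsg

namespace Cfsg.Agent.S4230

/-- Let p be an odd prime, q a natural number not divisible by p, and e the multiplicative order of q modulo p. For a natural number f, p divides the value at q of the f-th cyclotomic polynomial if and only if f = e·p^j for some j ≥ 0. -/
theorem result (p q f : ℕ) (hp : p.Prime) (hp2 : p ≠ 2) (hpq : ¬ p ∣ q) :
    ((p : ℤ) ∣ (Polynomial.cyclotomic f ℤ).eval (q : ℤ)) ↔ ∃ j : ℕ, f = orderOf (q : ZMod p) * p ^ j := by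
  haveI := Fact.mk hp
  have hq0 : (q : ZMod p) ≠ 0 := by
    rw [Ne, ZMod.natCast_eq_zero_iff]
    exact hpq
  set e := orderOf (q : ZMod p) with he
  have he1 : e ∣ p - 1 := orderOf_dvd_of_pow_eq_one (ZMod.pow_card_sub_one_eq_one hq0)
  have hpe : ¬ p ∣ e := by
    intro h
    have h1 : p ∣ p - 1 := h.trans he1
    have h2 := Nat.le_of_dvd (by have := hp.two_le; omega) h1
    have := hp.two_le
    omega
  have he0 : e ≠ 0 := by
    intro h
    rw [h] at he1
    have := hp.two_le
    simp at he1
    omega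
  -- translate divisibility into a root statement
  have hroot : ((p : ℤ) ∣ (Polynomial.cyclotomic f ℤ).eval (q : ℤ)) ↔
      (Polynomial.cyclotomic f (ZMod p)).IsRoot (q : ZMod p) := by
    rw [← ZMod.intCast_zmod_eq_zero_iff_dvd, Polynomial.IsRoot.def,
      ← Polynomial.map_cyclotomic_int f (ZMod p), Polynomial.eval_map]
    have := Polynomial.eval₂_at_apply (p := Polynomial.cyclotomic f ℤ) (Int.castRingHom (ZMod p)) (q : ℤ)
    simp only [eq_intCast, Int.cast_natCast] at this
    rw [this]
  rw [hroot]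
  rcases Nat.eq_zero_or_pos f with hf0 | hfpos
  · subst hf0
    simp only [Polynomial.cyclotomic_zero, Polynomial.IsRoot.def, Polynomial.eval_one, one_ne_zero,
      false_iff]
    rintro ⟨j, hj⟩
    have := mul_ne_zero he0 (pow_ne_zero j hp.ne_zero)
    exact this hj.symm
  · obtain ⟨j, m, hm, hfm⟩ := Nat.exists_eq_pow_mul_and_not_dvd hfpos.ne' p hp.ne_one
    haveI : NeZero (m : ZMod p) := ⟨by rw [Ne, ZMod.natCast_eq_zero_iff]; exact hm⟩
    have hkey : (Polynomial.cyclotomic f (ZMod p)).IsRoot (q : ZMod p) ↔ e = m := by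
      rw [hfm]
      rcases Nat.eq_zero_or_pos j with hj0 | hjpos
      · subst hj0
        rw [pow_zero, one_mul, Polynomial.isRoot_cyclotomic_iff, IsPrimitiveRoot.iff_orderOf]
      · rw [Polynomial.cyclotomic_mul_prime_pow_eq (ZMod p) hm hjpos, Polynomial.IsRoot.def,
          Polynomial.eval_pow, pow_eq_zero_iff, ← Polynomial.IsRoot.def,
          Polynomial.isRoot_cyclotomic_iff, IsPrimitiveRoot.iff_orderOf]
        have h1 : p ^ (j - 1) < p ^ j := Nat.pow_lt_pow_right hp.one_lt (by omega)
        omega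
    rw [hkey]
    constructor
    · intro hem
      exact ⟨j, by rw [hfm, hem, mul_comm]⟩
    · rintro ⟨j', hj'⟩
      rw [hfm] at hj'
      -- p ^ j * m = e * p ^ j'
      have hcop_e : Nat.Coprime p e := (Nat.Prime.coprime_iff_not_dvd hp).mpr hpe
      have hcop_m : Nat.Coprime p m := (Nat.Prime.coprime_iff_not_dvd hp).mpr hm
      have h1 : p ^ j ∣ p ^ j' := by
        have : p ^ j ∣ e * p ^ j' := ⟨m, hj'.symm⟩
        exact (Nat.Coprime.dvd_mul_left (Nat.Coprime.pow_left j hcop_e)).mp this
      have h2 : p ^ j' ∣ p ^ j := by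
        have : p ^ j' ∣ p ^ j * m := ⟨e, by rw [hj', mul_comm]⟩
        exact (Nat.Coprime.dvd_mul_right (Nat.Coprime.pow_left j' hcop_m)).mp this
      have h3 : p ^ j = p ^ j' := Nat.dvd_antisymm h1 h2
      rw [h3, mul_comm] at hj'
      exact (Nat.eq_of_mul_eq_mul_right (pow_pos hp.pos j') hj').symm

end Cfsg.Agent.S4230
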