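import Cfsg.Statements.S4236
import Mathlib
import Cfsg.Agent.S4304
import Cfsg.Agent.Helper16.NPC

set_option autoImplicit false
open Cfsg

namespace Cfsg.Agent.S4236

open scoped Pointwise

set_option linter.unusedSectionVars false

universe u

section ThirtyFive

variable {G : Type*} [Group G] [Finite G] [Fact (Nat.Prime 17)]

/-- `R` is not in the `R`-orbit of another Sylow subgroup. -/
theorem not_mem_orbit (R Q : Sylow 17 G) (hQR : Q ≠ R) :
    R ∉ MulAction.orbit (R : Subgroup G) Q := by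
  rintro ⟨r, hr⟩
  apply hQR
  have h1 : (r : G) • Q = R := hr
  have h2 : (r : G)⁻¹ • R = R := S4304.smul_eq_of_mem ((R : Subgroup G).inv_mem r.2)
  calc Q = (r : G)⁻¹ • ((r : G) • Q) := (inv_smul_smul _ _).symm
    _ = (r : G)⁻¹ • R := by rw [h1]
    _ = R := h2

/-- Each non-trivial orbit of a Sylow 17-subgroup on the 35 Sylow 17-subgroups has size 17. -/
theorem orbit_ncard (h35 : Nat.card (Sylow 17 G) = 35) (R Q : Sylow 17 G) (hQR : Q ≠ R) :
    (MulAction.orbit (R : Subgroup G) Q).ncard = 17 := by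
  have hidx := MulAction.index_stabilizer (R : Subgroup G) Q
  obtain ⟨k, hk⟩ := (R.isPGroup').index (MulAction.stabilizer (R : Subgroup G) Q)
  rw [hidx] at hk
  have hsub : MulAction.orbit (R : Subgroup G) Q ⊆ ({R} : Set (Sylow 17 G))ᶜ := by
    intro S hS hSR
    rw [Set.mem_singleton_iff] at hSR
    rw [hSR] at hS
    exact not_mem_orbit R Q hQR hS
  have hle : (MulAction.orbit (R : Subgroup G) Q).ncard ≤ 34 := by
    have h1 := Set.ncard_le_ncard hsub (Set.toFinite _)
    have h2 : (({R} : Set (Sylow 17 G))ᶜ).ncard = 34 := by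
      rw [Set.ncard_compl, Set.ncard_singleton, h35]
    omega
  have hne1 : (MulAction.orbit (R : Subgroup G) Q).ncard ≠ 1 := by
    intro h1
    rw [← hidx, Subgroup.index_eq_one] at h1
    apply hQR
    have hRQ : (R : Subgroup G) ≤ Q := by
      intro x hx
      have h3 : (⟨x, hx⟩ : (R : Subgroup G)) ∈ MulAction.stabilizer (R : Subgroup G) Q := by
        rw [h1]; trivial
      have h2 : x • Q = Q := h3
      exact (S4304.smul_eq_iff_mem hx).mp h2
    exact Sylow.ext (R.3 Q.2 hRQ)
  rcases k with _ | _ | k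
  · rw [pow_zero] at hk; exact absurd hk hne1
  · rw [hk]; norm_num
  · exfalso
    have : 289 ≤ 17 ^ (k + 1 + 1) := by
      calc 289 = 17 ^ 2 := by norm_num
        _ ≤ 17 ^ (k + 1 + 1) := Nat.pow_le_pow_right (by norm_num) (by omega)
    omega

/-- Two distinct non-trivial orbits of a Sylow 17-subgroup `R`, together with `R`, exhaust the
35 Sylow 17-subgroups. -/
theorem orbit_cover (h35 : Nat.card (Sylow 17 G) = 35) (R Q Q' : Sylow 17 G) (hQR : Q ≠ R)
    (hQ'R : Q' ≠ R) (hQQ' : Q' ∉ MulAction.orbit (R : Subgroup G) Q) (S : Sylow 17 G) :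
    S = R ∨ S ∈ MulAction.orbit (R : Subgroup G) Q ∨ S ∈ MulAction.orbit (R : Subgroup G) Q' := by
  have hdisj : Disjoint (MulAction.orbit (R : Subgroup G) Q)
      (MulAction.orbit (R : Subgroup G) Q') := by
    rcases MulAction.orbit.eq_or_disjoint (G := (R : Subgroup G)) Q Q' with h | h
    · exfalso; apply hQQ'; rw [h]; exact MulAction.mem_orbit_self Q'
    · exact h
  have hd1 : Disjoint ({R} : Set (Sylow 17 G)) (MulAction.orbit (R : Subgroup G) Q
      ∪ MulAction.orbit (R : Subgroup G) Q') := by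
    rw [Set.disjoint_singleton_left]
    rintro (h | h)
    · exact not_mem_orbit R Q hQR h
    · exact not_mem_orbit R Q' hQ'R h
  have hcard : (({R} : Set (Sylow 17 G)) ∪ (MulAction.orbit (R : Subgroup G) Q
      ∪ MulAction.orbit (R : Subgroup G) Q')).ncard = 35 := by
    rw [Set.ncard_union_eq hd1, Set.ncard_union_eq hdisj, Set.ncard_singleton,
      orbit_ncard h35 R Q hQR, orbit_ncard h35 R Q' hQ'R]
  have huniv : (({R} : Set (Sylow 17 G)) ∪ (MulAction.orbit (R : Subgroup G) Q
      ∪ MulAction.orbit (R : Subgroup G) Q')) = Set.univ := by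
    apply Set.eq_of_subset_of_ncard_le (Set.subset_univ _)
    rw [Set.ncard_univ, h35, hcard]
  have hS : S ∈ (({R} : Set (Sylow 17 G)) ∪ (MulAction.orbit (R : Subgroup G) Q
      ∪ MulAction.orbit (R : Subgroup G) Q')) := by rw [huniv]; trivial
  rcases hS with h | h | h
  · exact Or.inl h
  · exact Or.inr (Or.inl h)
  · exact Or.inr (Or.inr h)

/-- The intersection `R ⊓ Q` (for `Q ≠ R`) is normalised by `R`: an element of `R ⊓ Q` lies in
every `R`-conjugate of `Q`. -/
theorem mem_smul_of_mem (h35 : Nat.card (Sylow 17 G) = 35) {R Q : Sylow 17 G} (hQR : Q ≠ R)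
    {g r : G} (hg : g ∈ R) (hr : r ∈ R) (hgQ : g ∈ Q) : g ∈ (r • Q : Sylow 17 G) := by
  refine (S4304.mem_smul Q r g).mpr ?_
  set St := MulAction.stabilizer (R : Subgroup G) Q with hSt
  have hidx : St.index = 17 := by
    rw [hSt, MulAction.index_stabilizer]; exact orbit_ncard h35 R Q hQR
  obtain ⟨n, hn⟩ := IsPGroup.iff_card.mp R.isPGroup'
  have hn0 : n ≠ 0 := by
    rintro rfl
    have h1 := St.card_mul_index
    rw [hidx, hn, pow_zero] at h1
    omega
  have hnormal : St.Normal := by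
    apply Subgroup.normal_of_index_eq_minFac_card
    rw [hidx, hn, Nat.pow_minFac hn0]
    exact ((Fact.out : Nat.Prime 17).minFac_eq).symm
  have h1 : (⟨g, hg⟩ : (R : Subgroup G)) ∈ St := by
    show g • Q = Q
    exact S4304.smul_eq_of_mem hgQ
  have h2 := hnormal.conj_mem _ h1 (⟨r, hr⟩⁻¹ : (R : Subgroup G))
  have h3 : (r⁻¹ * g * r) • Q = Q := by
    have h4 : ((⟨r, hr⟩⁻¹ : (R : Subgroup G)) * ⟨g, hg⟩ * (⟨r, hr⟩⁻¹ : (R : Subgroup G))⁻¹) • Q = Q :=
      h2
    rw [inv_inv] at h4
    exact h4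
  exact (S4304.smul_eq_iff_mem (R := R) ((R : Subgroup G).mul_mem ((R : Subgroup G).mul_mem
    ((R : Subgroup G).inv_mem hr) hg) hr)).mp h3

/-- A non-identity element of `R` lying in two other Sylow subgroups: they are `R`-conjugate
(the action on the Sylow subgroups being faithful). -/
theorem mem_orbit_of_mem (h35 : Nat.card (Sylow 17 G) = 35)
    (hfaith : ∀ g : G, (∀ Q : Sylow 17 G, g • Q = Q) → g = 1)
    {R Q Q' : Sylow 17 G} (hQR : Q ≠ R) (hQ'R : Q' ≠ R) {g : G} (hg : g ∈ R) (hg1 : g ≠ 1)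
    (hgQ : g ∈ Q) (hgQ' : g ∈ Q') : Q' ∈ MulAction.orbit (R : Subgroup G) Q := by
  by_contra hno
  apply hg1
  apply hfaith
  intro S
  apply S4304.smul_eq_of_mem
  rcases orbit_cover h35 R Q Q' hQR hQ'R hno S with h | h | h
  · rw [h]; exact hg
  · obtain ⟨r, rfl⟩ := h
    exact mem_smul_of_mem h35 hQR hg r.2 hgQ
  · obtain ⟨r, rfl⟩ := h
    exact mem_smul_of_mem h35 hQ'R hg r.2 hgQ'

theorem card_inter (h35 : Nat.card (Sylow 17 G) = 35) (R S : Sylow 17 G) (hSR : S ≠ R) :
    Nat.card ((S : Subgroup G).subgroupOf (R : Subgroup G)) * 17 = Nat.card (R : Subgroup G) := by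
  have hst : MulAction.stabilizer (R : Subgroup G) S
      = (S : Subgroup G).subgroupOf (R : Subgroup G) := by
    ext x
    rw [MulAction.mem_stabilizer_iff, Subgroup.mem_subgroupOf]
    exact S4304.smul_eq_iff_mem (R := R) x.2
  have hidx : (MulAction.stabilizer (R : Subgroup G) S).index = 17 := by
    rw [MulAction.index_stabilizer]; exact orbit_ncard h35 R S hSR
  rw [← hst]
  have h1 := Subgroup.card_mul_index (MulAction.stabilizer (R : Subgroup G) S)
  rw [hidx] at h1
  exact h1

theorem exists_ne_one_of_card (h35 : Nat.card (Sylow 17 G) = 35) (R S : Sylow 17 G) (hSR : S ≠ R)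
    (hc : 17 < Nat.card (R : Subgroup G)) : ∃ h : G, h ∈ R ∧ h ∈ S ∧ h ≠ 1 := by
  have h1 := card_inter h35 R S hSR
  have h2 : 1 < Nat.card ((S : Subgroup G).subgroupOf (R : Subgroup G)) := by omega
  rw [Subgroup.one_lt_card_iff_ne_bot] at h2
  obtain ⟨⟨x, hx⟩, hx1⟩ := (Subgroup.ne_bot_iff_exists_ne_one).mp h2
  refine ⟨(x : G), x.2, Subgroup.mem_subgroupOf.mp hx, fun h => hx1 ?_⟩
  apply Subtype.ext
  apply Subtype.ext
  exact h

/-- Distinct Sylow 17-subgroups intersect trivially. -/
theorem inter_trivial (h35 : Nat.card (Sylow 17 G) = 35)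
    (hfaith : ∀ g : G, (∀ Q : Sylow 17 G, g • Q = Q) → g = 1)
    (P Q : Sylow 17 G) (hPQ : P ≠ Q) (g : G) (hgP : g ∈ P) (hgQ : g ∈ Q) : g = 1 := by
  by_contra hg1
  obtain ⟨R', hR'⟩ : ∃ R' : Sylow 17 G, g ∉ R' := by
    by_contra hall
    push Not at hall
    exact hg1 (hfaith g (fun S => S4304.smul_eq_of_mem (hall S)))
  have hR'P : R' ≠ P := fun h => hR' (h ▸ hgP)
  have hR'Q : R' ≠ Q := fun h => hR' (h ▸ hgQ)
  have h1 : R' ∉ MulAction.orbit (P : Subgroup G) Q := by
    rintro ⟨r, hr⟩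
    apply hR'
    rw [← hr]
    exact mem_smul_of_mem h35 hPQ.symm hgP r.2 hgQ
  have h1' : R' ∉ MulAction.orbit (Q : Subgroup G) P := by
    rintro ⟨r, hr⟩
    apply hR'
    rw [← hr]
    exact mem_smul_of_mem h35 hPQ hgQ r.2 hgP
  have hcP : 17 < Nat.card (P : Subgroup G) := by
    have h2 := card_inter h35 P Q hPQ.symm
    have h3 : 1 < Nat.card ((Q : Subgroup G).subgroupOf (P : Subgroup G)) := by
      rw [Subgroup.one_lt_card_iff_ne_bot]
      intro hbot
      have h4 : (⟨g, hgP⟩ : (P : Subgroup G)) ∈ (Q : Subgroup G).subgroupOf (P : Subgroup G) :=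
        Subgroup.mem_subgroupOf.mpr hgQ
      rw [hbot, Subgroup.mem_bot] at h4
      exact hg1 (congrArg Subtype.val h4)
    omega
  have hcQ : 17 < Nat.card (Q : Subgroup G) := by
    rw [Q.card_eq_multiplicity, ← P.card_eq_multiplicity]; exact hcP
  obtain ⟨h, hhP, hhR', hh1⟩ := exists_ne_one_of_card h35 P R' hR'P hcP
  obtain ⟨h', hh'Q, hh'R', hh'1⟩ := exists_ne_one_of_card h35 Q R' hR'Q hcQ
  obtain ⟨S, hS, hSR'⟩ : ∃ S ∈ MulAction.orbit (P : Subgroup G) R', S ≠ R' := by
    have hc := orbit_ncard h35 P R' hR'P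
    have h2 : 1 < (MulAction.orbit (P : Subgroup G) R').ncard := by omega
    exact Set.exists_ne_of_one_lt_ncard h2 R'
  have hSP : S ≠ P := fun h => not_mem_orbit P R' hR'P (h ▸ hS)
  have hhS : h ∈ S := by
    obtain ⟨r, hr⟩ := hS
    rw [← hr]
    exact mem_smul_of_mem h35 hR'P hhP r.2 hhR'
  have hSQ : S ≠ Q := by
    intro hSQ
    apply h1
    rw [hSQ] at hS
    exact MulAction.mem_orbit_symm.mp hS
  have hSQP : S ∉ MulAction.orbit (Q : Subgroup G) P := by
    intro hS2
    have hgS : g ∈ S := by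
      obtain ⟨r, hr⟩ := hS2
      rw [← hr]
      exact mem_smul_of_mem h35 hPQ hgQ r.2 hgP
    have h3 := mem_orbit_of_mem h35 hfaith hPQ.symm hSP hgP hg1 hgQ hgS
    apply h1
    have e1 := MulAction.orbit_eq_iff.mpr h3
    have e2 := MulAction.orbit_eq_iff.mpr hS
    rw [← e1, e2]; exact MulAction.mem_orbit_self R'
  have hh'S : h' ∈ S := by
    rcases orbit_cover h35 Q P R' hPQ hR'Q h1' S with h | h | h
    · exact absurd h hSQ
    · exact absurd h hSQP
    · obtain ⟨r, hr⟩ := h
      rw [← hr]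
      exact mem_smul_of_mem h35 hR'Q hh'Q r.2 hh'R'
  have hSorbP : S ∈ MulAction.orbit (R' : Subgroup G) P :=
    mem_orbit_of_mem h35 hfaith hR'P.symm hSR' hhR' hh1 hhP hhS
  have hSorbQ : S ∈ MulAction.orbit (R' : Subgroup G) Q :=
    mem_orbit_of_mem h35 hfaith hR'Q.symm hSR' hh'R' hh'1 hh'Q hh'S
  have hQorbP : Q ∈ MulAction.orbit (R' : Subgroup G) P := by
    have e1 := MulAction.orbit_eq_iff.mpr hSorbP
    have e2 := MulAction.orbit_eq_iff.mpr hSorbQ
    rw [← e1, e2]; exact MulAction.mem_orbit_self Q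
  have hhQ : h ∈ Q := by
    obtain ⟨r, hr⟩ := hQorbP
    rw [← hr]
    exact mem_smul_of_mem h35 hR'P.symm hhR' r.2 hhP
  have h4 := mem_orbit_of_mem h35 hfaith hR'P hPQ.symm hhP hh1 hhR' hhQ
  exact h1 (MulAction.mem_orbit_symm.mp h4)

theorem exists_ne_sylow (h35 : Nat.card (Sylow 17 G) = 35) (P : Sylow 17 G) :
    ∃ Q : Sylow 17 G, Q ≠ P := by
  have : Nontrivial (Sylow 17 G) := by
    rw [← Finite.one_lt_card_iff_nontrivial, h35]; norm_num
  exact exists_ne P

/-- The Sylow 17-subgroups have order 17. -/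
theorem card_eq_p (h35 : Nat.card (Sylow 17 G) = 35)
    (hfaith : ∀ g : G, (∀ Q : Sylow 17 G, g • Q = Q) → g = 1) (P : Sylow 17 G) :
    Nat.card (P : Subgroup G) = 17 := by
  obtain ⟨Q, hQ⟩ := exists_ne_sylow h35 P
  have h1 := card_inter h35 P Q hQ
  have h2 : (Q : Subgroup G).subgroupOf (P : Subgroup G) = ⊥ := by
    rw [Subgroup.eq_bot_iff_forall]
    intro x hx
    have h3 := inter_trivial h35 hfaith P Q hQ.symm x x.2 (Subgroup.mem_subgroupOf.mp hx)
    exact Subtype.ext h3
  rw [h2, Subgroup.card_bot] at h1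
  omega

theorem comm_of_card_p (P : Sylow 17 G) (hP17 : Nat.card (P : Subgroup G) = 17) :
    ∀ x ∈ (P : Subgroup G), ∀ y ∈ (P : Subgroup G), x * y = y * x := by
  have : IsCyclic (P : Subgroup G) := isCyclic_of_prime_card hP17
  intro x hx y hy
  have := IsCyclic.isMulCommutative (α := (P : Subgroup G))
  have h : (⟨x, hx⟩ : (P : Subgroup G)) * ⟨y, hy⟩ = ⟨y, hy⟩ * ⟨x, hx⟩ := mul_comm' _ _
  exact congrArg Subtype.val h

theorem pow_of_card_p (P : Sylow 17 G) (hP17 : Nat.card (P : Subgroup G) = 17) :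
    ∀ z ∈ (P : Subgroup G), z ^ 17 = 1 := by
  intro z hz
  have h2 : orderOf z ∣ 17 := by
    have := orderOf_dvd_natCard (⟨z, hz⟩ : (P : Subgroup G))
    rw [hP17] at this
    rwa [Subgroup.orderOf_mk] at this
  exact orderOf_dvd_iff_pow_eq_one.mp h2

/-- An element of the centraliser of `P` preserving one non-trivial `P`-orbit lies in `P`. -/
theorem cent_mem (h35 : Nat.card (Sylow 17 G) = 35)
    (hfaith : ∀ g : G, (∀ Q : Sylow 17 G, g • Q = Q) → g = 1)
    (P Q : Sylow 17 G) (hQP : Q ≠ P) (c : G)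
    (hc : c ∈ Subgroup.centralizer ((P : Subgroup G) : Set G))
    (hcQ : c • Q ∈ MulAction.orbit (P : Subgroup G) Q) : c ∈ P := by
  have hP17 := card_eq_p h35 hfaith P
  have hPcomm := comm_of_card_p P hP17
  have hPpow := pow_of_card_p P hP17
  obtain ⟨y, hy⟩ := hcQ
  have hy' : (y : G) • Q = c • Q := hy
  set c' : G := (y : G)⁻¹ * c with hc'
  have hc'Q : c' • Q = Q := by rw [hc', mul_smul, ← hy', inv_smul_smul]
  have hcomm : ∀ z ∈ (P : Subgroup G), z * c' = c' * z := by
    intro z hz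
    have h1 : z * c = c * z := (Subgroup.mem_centralizer_iff.mp hc) z hz
    have h2 : z * (y : G)⁻¹ = (y : G)⁻¹ * z := hPcomm z hz _ ((P : Subgroup G).inv_mem y.2)
    rw [hc', ← mul_assoc, h2, mul_assoc, h1, mul_assoc]
  have hc'norm : c' ∈ Subgroup.normalizer ((P : Subgroup G) : Set G) :=
    Subgroup.mul_mem _ (Subgroup.le_normalizer ((P : Subgroup G).inv_mem y.2))
      (Subgroup.centralizer_le_normalizer _ hc)
  have hc'P : c' • P = P := Sylow.smul_eq_iff_mem_normalizer.mpr hc'norm
  have hkey : ∀ S : Sylow 17 G, ∃ z ∈ (P : Subgroup G), c' • S = z • S := by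
    intro S
    have horb : ∀ w ∈ (P : Subgroup G), c' • (w • Q) = w • Q := by
      intro w hw
      rw [← mul_smul, ← hcomm w hw, mul_smul, hc'Q]
    by_cases hSP : S = P
    · exact ⟨1, (P : Subgroup G).one_mem, by rw [hSP, hc'P, one_smul]⟩
    by_cases hS : S ∈ MulAction.orbit (P : Subgroup G) Q
    · obtain ⟨w, hw⟩ := hS
      have hw' : (w : G) • Q = S := hw
      refine ⟨1, (P : Subgroup G).one_mem, ?_⟩
      rw [one_smul, ← hw', horb w w.2]
    · rcases orbit_cover h35 P Q S hQP hSP hS (c' • S) with h | h | h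
      · exfalso
        apply hSP
        rw [← hc'P] at h
        exact smul_left_cancel c' h
      · exfalso
        apply hS
        obtain ⟨w, hw⟩ := h
        have hw' : (w : G) • Q = c' • S := hw
        have h3 : c' • ((w : G) • Q) = c' • S := by rw [horb w w.2, hw']
        have h4 : (w : G) • Q = S := smul_left_cancel c' h3
        exact ⟨w, h4⟩
      · obtain ⟨z, hz⟩ := h
        exact ⟨(z : G), z.2, hz.symm⟩
  have hpow : c' ^ 17 = 1 := by
    apply hfaith
    intro S
    obtain ⟨z, hz, hzS⟩ := hkey S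
    have hind : ∀ k : ℕ, c' ^ k • S = z ^ k • S := by
      intro k
      induction k with
      | zero => simp
      | succ k ih =>
        have hck : Commute z (c' ^ k) := (show Commute z c' from hcomm z hz).pow_right k
        rw [pow_succ, mul_smul, hzS, ← mul_smul, ← hck.eq, mul_smul, ih, ← mul_smul, ← pow_succ']
    rw [hind 17, hPpow z hz, one_smul]
  have hc'memP : c' ∈ P := by
    have hpg : IsPGroup 17 (Subgroup.zpowers c') := by
      by_cases h1 : c' = 1
      · apply IsPGroup.of_card (n := 0)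
        rw [Nat.card_zpowers, h1, orderOf_one, pow_zero]
      · apply IsPGroup.of_card (n := 1)
        rw [Nat.card_zpowers, pow_one]
        exact orderOf_eq_prime hpow h1
    exact S4304.le_of_le_normalizer _ hpg P (Subgroup.zpowers_le.mpr hc'norm) (Subgroup.mem_zpowers c')
  have hc'memQ : c' ∈ Q := (S4304.smul_eq_iff_mem (R := P) hc'memP).mp hc'Q
  have hc'1 : c' = 1 := inter_trivial h35 hfaith P Q hQP.symm c' hc'memP hc'memQ
  have hcy : c = (y : G) := by
    have : (y : G) * c' = (y : G) := by rw [hc'1, mul_one]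
    rw [hc', mul_inv_cancel_left] at this
    exact this
  rw [hcy]; exact y.2

/-- The square of an element of `C(P)` lies in `P`. -/
theorem cent_sq_mem (h35 : Nat.card (Sylow 17 G) = 35)
    (hfaith : ∀ g : G, (∀ Q : Sylow 17 G, g • Q = Q) → g = 1)
    (P : Sylow 17 G) (c : G) (hc : c ∈ Subgroup.centralizer ((P : Subgroup G) : Set G))
    (hcP : c ∉ P) : c * c ∈ P := by
  obtain ⟨Q, hQ⟩ := exists_ne_sylow h35 P
  have hcN : c • P = P :=
    Sylow.smul_eq_iff_mem_normalizer.mpr (Subgroup.centralizer_le_normalizer _ hc)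
  have hQ₁P : c • Q ≠ P := by
    intro h; apply hQ; rw [← hcN] at h; exact smul_left_cancel c h
  have h1 : c • Q ∉ MulAction.orbit (P : Subgroup G) Q :=
    fun h => hcP (cent_mem h35 hfaith P Q hQ c hc h)
  have h2 : c • (c • Q) ∉ MulAction.orbit (P : Subgroup G) (c • Q) :=
    fun h => hcP (cent_mem h35 hfaith P (c • Q) hQ₁P c hc h)
  have h3 : c • (c • Q) ≠ P := by
    intro h; apply hQ₁P; rw [← hcN] at h; exact smul_left_cancel c h
  rcases orbit_cover h35 P Q (c • Q) hQ hQ₁P h1 (c • (c • Q)) with h | h | h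
  · exact absurd h h3
  · apply cent_mem h35 hfaith P Q hQ (c * c) (Subgroup.mul_mem _ hc hc)
    rw [mul_smul]; exact h
  · exact absurd h h2

/-- An involution centralising `P` and not in `P` acts as an odd permutation of the 35 Sylow
17-subgroups, so `G` has a subgroup of index 2. -/
theorem exists_index_two (h35 : Nat.card (Sylow 17 G) = 35)
    (hfaith : ∀ g : G, (∀ Q : Sylow 17 G, g • Q = Q) → g = 1)
    (P : Sylow 17 G) (s : G) (hs : s ∈ Subgroup.centralizer ((P : Subgroup G) : Set G))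
    (hsP : s ∉ P) (hs2 : s * s = 1) : ∃ M : Subgroup G, M.Normal ∧ M.index = 2 := by
  classical
  have : Fintype (Sylow 17 G) := Fintype.ofFinite _
  let φ : G →* ℤˣ := Equiv.Perm.sign.comp (MulAction.toPermHom G (Sylow 17 G))
  have hφs : φ s = -1 := by
    set σ : Equiv.Perm (Sylow 17 G) := MulAction.toPermHom G (Sylow 17 G) s with hσ
    have hσ2 : σ ^ 2 = 1 := by rw [hσ, ← map_pow, sq, hs2, map_one]
    have hfix : ∀ Q : Sylow 17 G, σ Q = Q ↔ Q = P := by
      intro Q
      show s • Q = Q ↔ Q = P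
      constructor
      · intro h
        by_contra hQP
        apply hsP
        apply cent_mem h35 hfaith P Q hQP s hs
        rw [h]; exact MulAction.mem_orbit_self Q
      · rintro rfl
        exact Sylow.smul_eq_iff_mem_normalizer.mpr (Subgroup.centralizer_le_normalizer _ hs)
    have hσ1 : σ ≠ 1 := by
      intro h
      obtain ⟨Q, hQ⟩ := exists_ne_sylow h35 P
      exact hQ ((hfix Q).mp (by rw [h]; rfl))
    have hord : orderOf σ = 2 := orderOf_eq_prime hσ2 hσ1
    obtain ⟨n, hn⟩ := Equiv.Perm.cycleType_prime_order (σ := σ) (by rw [hord]; exact Nat.prime_two)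
    rw [hord] at hn
    have hsupp : σ.support.card = 34 := by
      have h1 : σ.support = Finset.univ.erase P := by
        ext Q
        rw [Equiv.Perm.mem_support, Finset.mem_erase]
        constructor
        · intro h; exact ⟨fun hQP => h ((hfix Q).mpr hQP), Finset.mem_univ _⟩
        · rintro ⟨h, -⟩ h'; exact h ((hfix Q).mp h')
      rw [h1, Finset.card_erase_of_mem (Finset.mem_univ _), Finset.card_univ,
        ← Nat.card_eq_fintype_card, h35]
    have hsum := Equiv.Perm.sum_cycleType σ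
    rw [hn, Multiset.sum_replicate, hsupp, smul_eq_mul] at hsum
    have hn17 : n + 1 = 17 := by omega
    show Equiv.Perm.sign σ = -1
    rw [Equiv.Perm.sign_of_cycleType, hn, hn17]
    decide
  refine ⟨φ.ker, MonoidHom.normal_ker φ, ?_⟩
  rw [Subgroup.index_eq_two_iff]
  refine ⟨s, fun b => ?_⟩
  rw [MonoidHom.mem_ker, MonoidHom.mem_ker, map_mul, hφs]
  rcases Int.units_eq_one_or (φ b) with h | h
  · rw [h]; decide
  · rw [h]; decide

end ThirtyFive

theorem fact_pow (p j m : ℕ) (hp : p.Prime) (hm : ¬ p ∣ m) :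
    (p ^ j * m).factorization p = j := by
  have hm0 : m ≠ 0 := by rintro rfl; exact hm (dvd_zero p)
  rw [Nat.factorization_mul (pow_ne_zero j hp.ne_zero) hm0, Finsupp.add_apply,
    hp.factorization_pow, Finsupp.single_eq_same, Nat.factorization_eq_zero_of_not_dvd hm,
    add_zero]

/-- A self-centralising subgroup `P` of order 17 whose normaliser has order `2^j * 17`, in a group
of order `2^j * m` with `m` odd: the Sylow 2-subgroups are cyclic, so there is a normal subgroup
of index `2^j`. -/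
theorem exists_normal_two_pow {G : Type*} [Group G] [Finite G] (P : Subgroup G)
    (hP17 : Nat.card P = 17)
    (hC : ∀ c ∈ Subgroup.centralizer (P : Set G), c ∈ P) (j m : ℕ)
    (hN : Nat.card (Subgroup.normalizer (P : Set G)) = 2 ^ j * 17)
    (hG : Nat.card G = 2 ^ j * m) (hm : ¬ 2 ∣ m) :
    ∃ M : Subgroup G, M.Normal ∧ M.index = 2 ^ j := by
  haveI : Fact (Nat.Prime 2) := ⟨Nat.prime_two⟩
  haveI : Fact (Nat.Prime 17) := ⟨by norm_num⟩
  obtain ⟨T0⟩ : Nonempty (Sylow 2 (Subgroup.normalizer (P : Set G))) := inferInstance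
  have hT0 : Nat.card (T0 : Subgroup (Subgroup.normalizer (P : Set G))) = 2 ^ j := by
    rw [T0.card_eq_multiplicity, hN, fact_pow 2 j 17 Nat.prime_two (by norm_num)]
  haveI hcycP : IsCyclic P := isCyclic_of_prime_card hP17
  have hcycU : IsCyclic (ZMod (Nat.card P))ˣ := by
    rw [hP17]; exact ZMod.isCyclic_units_prime (by norm_num)
  haveI hcycA : IsCyclic (MulAut P) :=
    isCyclic_of_surjective (IsCyclic.mulAutMulEquiv P).symm (MulEquiv.surjective _)
  have hψ : Function.Injective ((Subgroup.normalizerMonoidHom P).comp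
      (T0 : Subgroup (Subgroup.normalizer (P : Set G))).subtype) := by
    rw [injective_iff_map_eq_one]
    intro x hx
    have h1 : (x : Subgroup.normalizer (P : Set G)) ∈ (Subgroup.normalizerMonoidHom P).ker := hx
    rw [Subgroup.normalizerMonoidHom_ker, Subgroup.mem_subgroupOf] at h1
    have h2 : ((x : Subgroup.normalizer (P : Set G)) : G) ∈ P := hC _ h1
    have h3 : orderOf x ∣ 2 ^ j := by rw [← hT0]; exact orderOf_dvd_natCard x
    have h4 : orderOf (((x : Subgroup.normalizer (P : Set G)) : G)) ∣ 17 := by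
      have h := orderOf_dvd_natCard (⟨_, h2⟩ : P)
      rw [hP17] at h
      rwa [Subgroup.orderOf_mk] at h
    have h5 : orderOf (((x : Subgroup.normalizer (P : Set G)) : G)) = orderOf x := by
      rw [Subgroup.orderOf_coe, Subgroup.orderOf_coe]
    rw [h5] at h4
    have h6 : orderOf x ∣ Nat.gcd (2 ^ j) 17 := Nat.dvd_gcd h3 h4
    have h7 : Nat.gcd (2 ^ j) 17 = 1 := Nat.Coprime.pow_left j (by norm_num)
    rw [h7, Nat.dvd_one, orderOf_eq_one_iff] at h6
    exact h6
  have hT0cyc : IsCyclic (T0 : Subgroup (Subgroup.normalizer (P : Set G))) :=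
    isCyclic_of_injective _ hψ
  have hTcyc : IsCyclic ((T0 : Subgroup (Subgroup.normalizer (P : Set G))).map
      (Subgroup.subtype _)) :=
    isCyclic_of_surjective _ (MonoidHom.subgroupMap_surjective (Subgroup.subtype _)
      (T0 : Subgroup (Subgroup.normalizer (P : Set G))))
  have hTcard : Nat.card ((T0 : Subgroup (Subgroup.normalizer (P : Set G))).map
      (Subgroup.subtype _)) = 2 ^ j := by
    rw [Subgroup.card_map_of_injective (Subgroup.subtype_injective _), hT0]
  obtain ⟨S2, hS2⟩ : ∃ S2 : Sylow 2 G, (S2 : Subgroup G) =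
      (T0 : Subgroup (Subgroup.normalizer (P : Set G))).map (Subgroup.subtype _) :=
    ⟨Sylow.ofCard ((T0 : Subgroup (Subgroup.normalizer (P : Set G))).map (Subgroup.subtype _))
      (by rw [hTcard, hG, fact_pow 2 j m Nat.prime_two hm]), rfl⟩
  have hS2cyc : IsCyclic (S2 : Subgroup G) := by rw [hS2]; exact hTcyc
  obtain ⟨S', M, hMn, hcomp⟩ := Cfsg.Agent.Helper16.npc_of_cyclic_sylow_two S2 hS2cyc
  refine ⟨M, hMn, ?_⟩
  rw [hcomp.symm.index_eq_card, S'.card_eq_multiplicity, hG, fact_pow 2 j m Nat.prime_two hm]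

theorem main (n : ℕ) : ∀ (G : Type u) [Group G] [Finite G], Nat.card G = n →
    Nat.card (Sylow 17 G) ≠ 35 := by
  have hp17 : Fact (Nat.Prime 17) := ⟨by norm_num⟩
  induction n using Nat.strong_induction_on with
  | _ n ih =>
  intro G _ _ hn h35
  -- no proper normal subgroup of index prime to 17
  have hR2 : ∀ M : Subgroup G, M.Normal → M.index ≠ 1 → ¬ 17 ∣ M.index → False := by
    intro M hMn hM1 hM7
    have h1 : Nat.card (Sylow 17 M) = 35 := by rw [S4304.card_sylow_of_normal 17 M hM7, h35]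
    have h2 : Nat.card M < n := by
      rw [← hn, ← M.card_mul_index]
      have hpos : 0 < Nat.card M := Nat.card_pos
      have h0 : M.index ≠ 0 := Subgroup.index_ne_zero_of_finite
      have h3 : 2 ≤ M.index := by omega
      nlinarith
    exact ih _ h2 M rfl h1
  obtain ⟨P⟩ : Nonempty (Sylow 17 G) := inferInstance
  -- the action on the Sylow 17-subgroups is faithful
  have hfaith : ∀ g : G, (∀ Q : Sylow 17 G, g • Q = Q) → g = 1 := by
    by_contra hnf
    push Not at hnf
    obtain ⟨g, hg, hg1⟩ := hnf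
    let K : Subgroup G := (MulAction.toPermHom G (Sylow 17 G)).ker
    have hgK : g ∈ K := by
      rw [MonoidHom.mem_ker]
      apply Equiv.ext
      intro Q
      exact hg Q
    have hKN : K ≤ Subgroup.normalizer ((P : Subgroup G) : Set G) := by
      intro k hk
      have h1 : k • P = P := by
        have h2 := congrArg (fun σ : Equiv.Perm (Sylow 17 G) => σ P) (MonoidHom.mem_ker.mp hk)
        exact h2
      exact Sylow.smul_eq_iff_mem_normalizer.mp h1
    have h1 : Nat.card (Sylow 17 (G ⧸ K)) = 35 := by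
      rw [S4304.card_sylow_quotient 17 K P hKN, h35]
    have h2 : Nat.card (G ⧸ K) < n := by
      rw [← hn, ← K.card_mul_index, ← Subgroup.index_eq_card]
      have h3 : 1 < Nat.card K := by
        rw [Subgroup.one_lt_card_iff_ne_bot]
        intro hbot
        rw [hbot, Subgroup.mem_bot] at hgK
        exact hg1 hgK
      have h0 : K.index ≠ 0 := Subgroup.index_ne_zero_of_finite
      have h4 : 0 < K.index := Nat.pos_of_ne_zero h0
      nlinarith
    exact ih _ h2 (G ⧸ K) rfl h1
  have hP17 := card_eq_p h35 hfaith P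
  have hPcomm := comm_of_card_p P hP17
  have hPpow := pow_of_card_p P hP17
  -- C(P) = P
  have hCP : ∀ c ∈ Subgroup.centralizer ((P : Subgroup G) : Set G), c ∈ P := by
    intro c hc
    by_contra hcP
    have hcc := cent_sq_mem h35 hfaith P c hc hcP
    have hcc17 : (c * c) ^ 17 = 1 := hPpow _ hcc
    have hsC : c ^ 17 ∈ Subgroup.centralizer ((P : Subgroup G) : Set G) :=
      Subgroup.pow_mem _ hc 17
    have hs2 : c ^ 17 * c ^ 17 = 1 := by
      have e : c ^ 17 * c ^ 17 = (c * c) ^ 17 := by rw [← pow_add, ← sq, ← pow_mul]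
      rw [e, hcc17]
    have hsP : c ^ 17 ∉ P := by
      intro h
      apply hcP
      have e : c = c ^ 17 * ((c * c) ^ 8)⁻¹ := by
        rw [← sq, ← pow_mul, show (17 : ℕ) = 2 * 8 + 1 from rfl, pow_succ', mul_inv_cancel_right]
      rw [e]
      exact (P : Subgroup G).mul_mem h ((P : Subgroup G).inv_mem ((P : Subgroup G).pow_mem hcc 8))
    obtain ⟨M, hMn, hMi⟩ := exists_index_two h35 hfaith P (c ^ 17) hsC hsP hs2
    exact hR2 M hMn (by rw [hMi]; norm_num) (by rw [hMi]; norm_num)
  set N := Subgroup.normalizer ((P : Subgroup G) : Set G) with hN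
  set C := Subgroup.centralizer ((P : Subgroup G) : Set G) with hC
  have hCeq : C = (P : Subgroup G) := by
    apply le_antisymm hCP
    intro x hx
    rw [hC, Subgroup.mem_centralizer_iff]
    intro y hy
    exact hPcomm y hy x hx
  have hCcard : Nat.card C = 17 := by rw [hCeq, hP17]
  have hd : C.relIndex N ∣ 16 := by
    have h1 := S4304.relIndex_dvd_totient (P : Subgroup G) (isCyclic_of_prime_card hP17)
    rw [hP17, Nat.totient_prime (by norm_num)] at h1
    exact h1
  have hNcard : Nat.card N = 17 * C.relIndex N := by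
    have h1 := Subgroup.relIndex_mul_relIndex (⊥ : Subgroup G) C N bot_le
      (Subgroup.centralizer_le_normalizer _)
    rw [Subgroup.relIndex_bot_left, Subgroup.relIndex_bot_left, hCcard] at h1
    exact h1.symm
  have hidx : N.index = 35 := by
    rw [← h35]; exact (P.card_eq_index_normalizer).symm
  have hGcard : Nat.card G = 17 * C.relIndex N * 35 := by
    rw [← N.card_mul_index, hidx, hNcard]
  obtain ⟨d, hd'⟩ : ∃ d, C.relIndex N = d := ⟨_, rfl⟩
  rw [hd'] at hd hGcard hNcard
  obtain ⟨j, hj, rfl⟩ : ∃ j, j ≤ 4 ∧ d = 2 ^ j :=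
    (Nat.dvd_prime_pow Nat.prime_two).mp (show d ∣ 2 ^ 4 from hd)
  by_cases hj0 : j = 0
  · subst hj0
    have h5 : Fact (Nat.Prime 5) := ⟨by norm_num⟩
    obtain ⟨S⟩ : Nonempty (Sylow 5 G) := inferInstance
    have hG5 : Nat.card G = 5 * 119 := by rw [hGcard]; norm_num
    have hS := S4304.card_sylow_of_eq 5 119 hG5 (by decide) S
    obtain ⟨M, hMn, hMi⟩ := S4304.exists_normal_index 5 S hS (by rw [hG5]; decide)
    exact hR2 M hMn (by rw [hMi]; norm_num) (by rw [hMi]; norm_num)
  · obtain ⟨M, hMn, hMi⟩ := exists_normal_two_pow (P : Subgroup G) hP17 hCP j 595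
      (by rw [hNcard, mul_comm]) (by rw [hGcard]; ring) (by norm_num)
    refine hR2 M hMn ?_ ?_
    · rw [hMi]; exact (Nat.one_lt_two_pow hj0).ne'
    · rw [hMi]
      intro h
      exact absurd (Nat.Prime.dvd_of_dvd_pow (by norm_num) h) (by norm_num)

/-- No finite group has exactly 35 Sylow 17-subgroups. -/
theorem result {G : Type*} [Group G] [Finite G] : Nat.card (Sylow 17 G) ≠ 35 := by
  exact main (Nat.card G) G rfl

end Cfsg.Agent.S4236
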