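import Cfsg.Statements.S4244
import Mathlib
import Cfsg.Agent.S4309
-- import your own Cfsg.Agent.* helpers here

set_option autoImplicit false
open Cfsg

namespace Cfsg.Agent.S4244

theorem aux {G : Type*} [Group G] [Finite G] (H K' L : Subgroup G) (hHK : H ≤ K')
    (hn : (H.subgroupOf K').Normal) : L.relIndex H ∣ L.relIndex K' := by
  haveI := hn
  have h1 := Cfsg.Agent.S4309.relIndex_eq_relIndex_sup (L.subgroupOf K') (H.subgroupOf K')
  rw [Subgroup.relIndex_subgroupOf hHK] at h1
  rw [h1]
  exact Subgroup.relIndex_dvd_index_of_le le_sup_left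


/-- Let H be a subnormal subgroup of a finite group G. Then for every subgroup K of G the index of H ∩ K in H divides the index of K in G. -/
theorem result {G : Type*} [Group G] [Finite G] (H : Subgroup G) (hH : H.IsSubnormal) (K : Subgroup G) :
    (H ⊓ K).relIndex H ∣ K.index := by
  induction hH with
  | top => simp
  | step H K' h_le hSubn hN ih =>
    rw [Subgroup.inf_relIndex_left] at ih ⊢
    exact (aux H K' K h_le hN).trans ih

end Cfsg.Agent.S4244
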