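import Cfsg.Statements.S4251
import Mathlib
import Cfsg.Agent.Helper10.DecR
import Cfsg.Agent.Helper1.Frobenius
import Cfsg.Agent.Helper5.Grp
import Cfsg.Agent.S0001

set_option autoImplicit false
open Cfsg

namespace Cfsg.Agent.S4251

/-- If `N_P(T)` is Sylow in `N_G(T)` and `N_G(T)/C_G(T)` is a `p`-group, then every element of
`N_G(T)` acts on `T` like an element of `P`. -/
theorem step_aux {G : Type*} [Group G] [Finite G] (p : ℕ) [Fact p.Prime] (P : Sylow p G)
    (T : Subgroup G)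
    (h1 : ¬ p ∣ ((P : Subgroup G) ⊓ Subgroup.normalizer (T : Set G)).relIndex
      (Subgroup.normalizer (T : Set G)))
    (hq : IsPGroup p (Subgroup.normalizer (T : Set G) ⧸
      (Subgroup.centralizer (T : Set G)).subgroupOf (Subgroup.normalizer (T : Set G))))
    (x : G) (hx : x ∈ Subgroup.normalizer (T : Set G)) :
    ∃ u ∈ (P : Subgroup G), ∀ a ∈ T, x⁻¹ * a * x = u⁻¹ * a * u := by
  have hp : p.Prime := Fact.out
  obtain ⟨N, hN⟩ : ∃ N : Subgroup G, N = Subgroup.normalizer (T : Set G) := ⟨_, rfl⟩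
  subst hN
  have htop : ((P : Subgroup G) ⊓ Subgroup.normalizer (T : Set G)).subgroupOf
        (Subgroup.normalizer (T : Set G)) ⊔
      (Subgroup.centralizer (T : Set G)).subgroupOf (Subgroup.normalizer (T : Set G)) = ⊤ := by
    rw [← Subgroup.index_eq_one]
    by_contra hne
    obtain ⟨q, hq', hqd⟩ := Nat.exists_prime_and_dvd hne
    have hd1 := Subgroup.index_dvd_of_le
      (le_sup_left : ((P : Subgroup G) ⊓ Subgroup.normalizer (T : Set G)).subgroupOf
        (Subgroup.normalizer (T : Set G)) ≤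
        ((P : Subgroup G) ⊓ Subgroup.normalizer (T : Set G)).subgroupOf
          (Subgroup.normalizer (T : Set G)) ⊔
        (Subgroup.centralizer (T : Set G)).subgroupOf (Subgroup.normalizer (T : Set G)))
    have hd2 := Subgroup.index_dvd_of_le
      (le_sup_right : (Subgroup.centralizer (T : Set G)).subgroupOf
          (Subgroup.normalizer (T : Set G)) ≤
        ((P : Subgroup G) ⊓ Subgroup.normalizer (T : Set G)).subgroupOf
          (Subgroup.normalizer (T : Set G)) ⊔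
        (Subgroup.centralizer (T : Set G)).subgroupOf (Subgroup.normalizer (T : Set G)))
    obtain ⟨k, hk⟩ := IsPGroup.iff_card.mp hq
    rw [Subgroup.index_eq_card
      ((Subgroup.centralizer (T : Set G)).subgroupOf (Subgroup.normalizer (T : Set G))), hk] at hd2
    have hqp : q = p :=
      (Nat.prime_dvd_prime_iff_eq hq' hp).mp (hq'.dvd_of_dvd_pow (hqd.trans hd2))
    rw [hqp] at hqd
    exact h1 (hqd.trans hd1)
  have hmem : (⟨x, hx⟩ : Subgroup.normalizer (T : Set G)) ∈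
      ((P : Subgroup G) ⊓ Subgroup.normalizer (T : Set G)).subgroupOf
        (Subgroup.normalizer (T : Set G)) ⊔
      (Subgroup.centralizer (T : Set G)).subgroupOf (Subgroup.normalizer (T : Set G)) := by
    rw [htop]; trivial
  rw [Cfsg.Agent.S0001.mem_sup_normal] at hmem
  obtain ⟨u, hu, c, hc, huc⟩ := hmem
  rw [Subgroup.mem_subgroupOf] at hu hc
  have huc' : x = (u : G) * (c : G) := congrArg Subtype.val huc
  refine ⟨(u : G), hu.1, fun a ha => ?_⟩
  have hua : (u : G)⁻¹ * a * (u : G) ∈ T :=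
    Cfsg.Agent.Helper5.conj_inv_mem_of_mem_normalizer u.2 ha
  have hcc : (u : G)⁻¹ * a * (u : G) * (c : G) = (c : G) * ((u : G)⁻¹ * a * (u : G)) :=
    Subgroup.mem_centralizer_iff.mp hc _ hua
  rw [huc']
  calc ((u : G) * (c : G))⁻¹ * a * ((u : G) * (c : G))
      = (c : G)⁻¹ * ((u : G)⁻¹ * a * (u : G) * (c : G)) := by group
    _ = (c : G)⁻¹ * ((c : G) * ((u : G)⁻¹ * a * (u : G))) := by rw [hcc]
    _ = (u : G)⁻¹ * a * (u : G) := by group

theorem dec_fusion {G : Type*} [Group G] [Finite G] (p : ℕ) [Fact p.Prime] (P : Sylow p G)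
    (h : ∀ Q : Sylow p G, (P : Subgroup G) ⊓ (Q : Subgroup G) ≠ ⊥ → (¬ p ∣ ((P : Subgroup G) ⊓ Subgroup.normalizer (((P : Subgroup G) ⊓ (Q : Subgroup G) : Subgroup G) : Set G)).relIndex (Subgroup.normalizer (((P : Subgroup G) ⊓ (Q : Subgroup G) : Subgroup G) : Set G)) ∧ ¬ p ∣ ((Q : Subgroup G) ⊓ Subgroup.normalizer (((P : Subgroup G) ⊓ (Q : Subgroup G) : Subgroup G) : Set G)).relIndex (Subgroup.normalizer (((P : Subgroup G) ⊓ (Q : Subgroup G) : Subgroup G) : Set G))) →
      IsPGroup p (Subgroup.normalizer (((P : Subgroup G) ⊓ (Q : Subgroup G) : Subgroup G) : Set G) ⧸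
        (Subgroup.centralizer (((P : Subgroup G) ⊓ (Q : Subgroup G) : Subgroup G) : Set G)).subgroupOf
          (Subgroup.normalizer (((P : Subgroup G) ⊓ (Q : Subgroup G) : Subgroup G) : Set G))))
    (A : Set G) (g : G) (hd : Cfsg.Agent.Helper10.DecR (Cfsg.Agent.Helper10.stepR P) A g)
    (hA : A ⊆ (P : Subgroup G)) :
    ∃ u ∈ (P : Subgroup G), ∀ a ∈ A, g⁻¹ * a * g = u⁻¹ * a * u := by
  induction hd with
  | nil A => exact ⟨1, one_mem _, fun a _ => by simp⟩
  | cons A T x g hR hAT hdec ih =>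
    obtain ⟨Q, hT, hx, ht1, ht2, -⟩ := hR
    subst hT
    have hcj : Cfsg.Agent.Helper10.cj x A ⊆ (P : Subgroup G) := by
      rw [Cfsg.Agent.Helper10.cj_subset_iff]
      intro a ha
      exact (Cfsg.Agent.Helper5.conj_inv_mem_of_mem_normalizer hx (hAT ha)).1
    obtain ⟨u', hu', hu'a⟩ := ih hcj
    have hstep : ∃ u ∈ (P : Subgroup G),
        ∀ a ∈ (P : Subgroup G) ⊓ (Q : Subgroup G), x⁻¹ * a * x = u⁻¹ * a * u := by
      by_cases hbot : (P : Subgroup G) ⊓ (Q : Subgroup G) = ⊥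
      · refine ⟨1, one_mem _, fun a ha => ?_⟩
        rw [hbot, Subgroup.mem_bot] at ha
        rw [ha]; simp
      · exact step_aux p P _ ht1 (h Q hbot ⟨ht1, ht2⟩) x hx
    obtain ⟨u₁, hu₁, hu₁a⟩ := hstep
    refine ⟨u₁ * u', mul_mem hu₁ hu', fun a ha => ?_⟩
    have e1 := hu'a (x⁻¹ * a * x) ⟨a, ha, rfl⟩
    have e2 := hu₁a a (hAT ha)
    calc (x * g)⁻¹ * a * (x * g) = g⁻¹ * (x⁻¹ * a * x) * g := by group
      _ = u'⁻¹ * (x⁻¹ * a * x) * u' := e1
      _ = u'⁻¹ * (u₁⁻¹ * a * u₁) * u' := by rw [e2]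
      _ = (u₁ * u')⁻¹ * a * (u₁ * u') := by group

/-- Let P be a Sylow p-subgroup of a finite group G. Call an intersection H = P ∩ Q with a Sylow p-subgroup Q tame when N_P(H) and N_Q(H) are Sylow p-subgroups of N_G(H). If N_G(H)/C_G(H) is a p-group for every nontrivial tame intersection H = P ∩ Q, then G has a normal p-complement. -/
theorem result {G : Type*} [Group G] [Finite G] (p : ℕ) [Fact p.Prime] (P : Sylow p G)
    (h : ∀ Q : Sylow p G, (P : Subgroup G) ⊓ (Q : Subgroup G) ≠ ⊥ → (¬ p ∣ ((P : Subgroup G) ⊓ Subgroup.normalizer (((P : Subgroup G) ⊓ (Q : Subgroup G) : Subgroup G) : Set G)).relIndex (Subgroup.normalizer (((P : Subgroup G) ⊓ (Q : Subgroup G) : Subgroup G) : Set G)) ∧ ¬ p ∣ ((Q : Subgroup G) ⊓ Subgroup.normalizer (((P : Subgroup G) ⊓ (Q : Subgroup G) : Subgroup G) : Set G)).relIndex (Subgroup.normalizer (((P : Subgroup G) ⊓ (Q : Subgroup G) : Subgroup G) : Set G))) →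
      IsPGroup p (Subgroup.normalizer (((P : Subgroup G) ⊓ (Q : Subgroup G) : Subgroup G) : Set G) ⧸
        (Subgroup.centralizer (((P : Subgroup G) ⊓ (Q : Subgroup G) : Subgroup G) : Set G)).subgroupOf
          (Subgroup.normalizer (((P : Subgroup G) ⊓ (Q : Subgroup G) : Subgroup G) : Set G)))) :
    Cfsg.HasNormalPComplement p G := by
  apply Cfsg.Agent.Helper1.npc_of_fusion _ G rfl p P
  intro x hx g hgx
  have hAS : ({x} : Set G) ⊆ (P : Subgroup G) := by
    intro a ha; rw [Set.mem_singleton_iff] at ha; rw [ha]; exact hx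
  have hAg : Cfsg.Agent.Helper10.cj g⁻¹ ({x} : Set G) ⊆ (P : Subgroup G) := by
    rw [Cfsg.Agent.Helper10.cj_subset_iff]
    intro a ha; rw [Set.mem_singleton_iff] at ha; rw [ha, inv_inv]; exact hgx
  have hd := Cfsg.Agent.Helper10.alperin_tame_set P {x} g⁻¹ hAS hAg
  obtain ⟨u, hu, hua⟩ := dec_fusion p P h {x} g⁻¹ hd hAS
  refine ⟨u⁻¹, inv_mem hu, ?_⟩
  have h2 := hua x rfl
  rw [inv_inv] at h2
  rw [h2, inv_inv]

end Cfsg.Agent.S4251
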