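import Cfsg.Statements.S4253
import Mathlib
-- import your own Cfsg.Agent.* helpers here

set_option autoImplicit false
open Cfsg

namespace Cfsg.Agent.S4253

open scoped Pointwise


/-- Let H be a Frobenius complement in a finite group G (a nontrivial proper subgroup meeting each conjugate gHg⁻¹ with g outside H trivially). Then in the action of G on the left cosets of H by left multiplication, no non-identity element of G fixes two distinct cosets. -/
theorem result {G : Type*} [Group G] [Finite G] (H : Subgroup G) (hH : Cfsg.IsFrobeniusComplement H)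
    (g : G) (hg : g ≠ 1) (a b : G ⧸ H) (ha : g • a = a) (hb : g • b = b) : a = b := by
  obtain ⟨_, _, hTI⟩ := hH
  induction a using QuotientGroup.induction_on with
  | H x =>
  induction b using QuotientGroup.induction_on with
  | H y =>
  by_contra hne
  have hc : x⁻¹ * y ∉ H := fun h => hne (QuotientGroup.eq.mpr h)
  have hx : x⁻¹ * g * x ∈ H := by
    have h1 : ((g * x : G) : G ⧸ H) = (x : G ⧸ H) := ha
    have h2 := QuotientGroup.eq.mp h1
    have h3 := H.inv_mem h2
    have h4 : ((g * x)⁻¹ * x)⁻¹ = x⁻¹ * g * x := by group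
    rwa [h4] at h3
  have hy : y⁻¹ * g * y ∈ H := by
    have h1 : ((g * y : G) : G ⧸ H) = (y : G ⧸ H) := hb
    have h2 := QuotientGroup.eq.mp h1
    have h3 := H.inv_mem h2
    have h4 : ((g * y)⁻¹ * y)⁻¹ = y⁻¹ * g * y := by group
    rwa [h4] at h3
  have hmem : x⁻¹ * g * x ∈ H ⊓ (MulAut.conj (x⁻¹ * y) • H) := by
    refine Subgroup.mem_inf.mpr ⟨hx, ?_⟩
    rw [Subgroup.mem_pointwise_smul_iff_inv_smul_mem, MulAut.smul_def, ← map_inv, MulAut.conj_apply]
    have h4 : (x⁻¹ * y)⁻¹ * (x⁻¹ * g * x) * (x⁻¹ * y)⁻¹⁻¹ = y⁻¹ * g * y := by group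
    rw [h4]
    exact hy
  rw [hTI _ hc, Subgroup.mem_bot] at hmem
  apply hg
  have : g = x * (x⁻¹ * g * x) * x⁻¹ := by group
  rw [this, hmem]
  group

end Cfsg.Agent.S4253
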