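import Cfsg.Statements.S4261
import Mathlib
import Cfsg.Agent.S4309
-- import your own Cfsg.Agent.* helpers here

set_option autoImplicit false
open Cfsg

namespace Cfsg.Agent.S4261

open scoped Pointwise commutatorElement in
theorem index_prime_pow {G : Type*} [Group G] [Finite G] [Group.IsSolvable G] (M : Subgroup G)
    (hM : IsCoatom M) (hcore : M.normalCore = ⊥) : ∃ p k : ℕ, p.Prime ∧ M.index = p ^ k := by
  classical
  have hS : ({A | A.Normal ∧ A ≠ ⊥} : Set (Subgroup G)).Nonempty := by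
    refine ⟨⊤, inferInstance, ?_⟩
    intro h
    apply hM.1
    rw [eq_top_iff, h]; exact bot_le
  obtain ⟨A, ⟨hAn, hAne⟩, hAmin⟩ :=
    WellFounded.has_min (measure (fun A : Subgroup G => Nat.card A)).wf _ hS
  haveI := hAn
  have hmin : ∀ B : Subgroup G, B.Normal → B ≤ A → B = ⊥ ∨ B = A := by
    intro B hB hBA
    by_cases hb : B = ⊥
    · exact Or.inl hb
    · right
      have h1 : ¬ Nat.card B < Nat.card A := hAmin B ⟨hB, hb⟩
      exact Subgroup.eq_of_le_of_card_ge hBA (not_lt.mp h1)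
  have hAM : ¬ A ≤ M := by
    intro h
    have h1 : A ≤ M.normalCore := Subgroup.normal_le_normalCore.mpr h
    rw [hcore] at h1
    exact hAne (le_bot_iff.mp h1)
  have hsup : M ⊔ A = ⊤ := by
    apply hM.2
    exact lt_of_le_of_ne le_sup_left (fun h => hAM (h ▸ le_sup_right))
  have hcomm : ∀ a ∈ A, ∀ b ∈ A, a * b = b * a := by
    have h1 : ⁅A, A⁆ < A := Group.IsSolvable.commutator_lt_of_ne_bot hAne
    have h2 : ⁅A, A⁆ = ⊥ := by
      rcases hmin ⁅A, A⁆ inferInstance h1.le with h | h
      · exact h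
      · exact absurd h h1.ne
    intro a ha b hb
    have h3 : ⁅a, b⁆ ∈ ⁅A, A⁆ := Subgroup.commutator_mem_commutator ha hb
    rw [h2, Subgroup.mem_bot, commutatorElement_eq_one_iff_mul_comm] at h3
    exact h3
  have hinf : M ⊓ A = ⊥ := by
    have hn : (M ⊓ A).Normal := by
      refine ⟨fun n hn g => ?_⟩
      have hg : g ∈ (M : Set G) * (A : Set G) := by
        rw [← Subgroup.mul_normal, hsup]; trivial
      obtain ⟨m, hm, a, ha, rfl⟩ := Set.mem_mul.mp hg
      have e : m * a * n * (m * a)⁻¹ = m * n * m⁻¹ := by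
        have h4 : a * n = n * a := hcomm a ha n hn.2
        calc m * a * n * (m * a)⁻¹ = m * (a * n) * a⁻¹ * m⁻¹ := by group
          _ = m * (n * a) * a⁻¹ * m⁻¹ := by rw [h4]
          _ = m * n * m⁻¹ := by group
      rw [e]
      exact ⟨M.mul_mem (M.mul_mem hm hn.1) (M.inv_mem hm), hAn.conj_mem n hn.2 m⟩
    have h5 : M ⊓ A ≤ M.normalCore := Subgroup.normal_le_normalCore.mpr inf_le_left
    rw [hcore] at h5
    exact le_bot_iff.mp h5
  have hidx : M.index = Nat.card A := by
    have h1 := Cfsg.Agent.S4309.relIndex_eq_relIndex_sup M A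
    rw [hsup, Subgroup.relIndex_top_right] at h1
    rw [← h1, ← Subgroup.inf_relIndex_right, hinf, Subgroup.relIndex_bot_left]
  have hAcard : Nat.card A ≠ 1 := by
    intro h
    exact hAne (Subgroup.card_eq_one.mp h)
  obtain ⟨p, hp, hpdvd⟩ := Nat.exists_prime_and_dvd hAcard
  haveI : Fact p.Prime := ⟨hp⟩
  obtain ⟨x, hx⟩ := exists_prime_orderOf_dvd_card' (G := A) p hpdvd
  let B : Subgroup G :=
    { carrier := {a | a ∈ A ∧ a ^ p = 1}
      mul_mem' := fun {a b} ha hb => ⟨A.mul_mem ha.1 hb.1, by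
        rw [(show Commute a b from hcomm a ha.1 b hb.1).mul_pow, ha.2, hb.2, one_mul]⟩
      one_mem' := ⟨A.one_mem, one_pow _⟩
      inv_mem' := fun {a} ha => ⟨A.inv_mem ha.1, by rw [inv_pow, ha.2, inv_one]⟩ }
  have hBn : B.Normal :=
    ⟨fun n hn g => ⟨hAn.conj_mem n hn.1 g, by rw [conj_pow, hn.2]; group⟩⟩
  have hBA : B ≤ A := fun a ha => ha.1
  have hBne : B ≠ ⊥ := by
    intro h
    have hxB : (x : G) ∈ B := ⟨x.2, by
      have h6 := pow_orderOf_eq_one x
      rw [hx] at h6
      exact_mod_cast congrArg Subtype.val h6⟩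
    rw [h, Subgroup.mem_bot] at hxB
    have h7 : x = 1 := Subtype.ext hxB
    rw [h7, orderOf_one] at hx
    exact hp.one_lt.ne hx
  have hBeq : B = A := (hmin B hBn hBA).resolve_left hBne
  have hpg : IsPGroup p A := by
    intro a
    refine ⟨1, ?_⟩
    have h8 : (a : G) ∈ B := by rw [hBeq]; exact a.2
    apply Subtype.ext
    rw [pow_one]
    exact_mod_cast h8.2
  obtain ⟨k, hk⟩ := IsPGroup.iff_card.mp hpg
  exact ⟨p, k, hp, by rw [hidx, hk]⟩


/-- Let M be a maximal subgroup of a finite solvable group G such that x^[G : M] lies in M for every x in G. Then M is normal in G. -/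
theorem result {G : Type*} [Group G] [Finite G] (hG : Group.IsSolvable G) (M : Subgroup G) (hM : IsCoatom M)
    (hexp : ∀ x : G, x ^ M.index ∈ M) : M.Normal := by
  classical
  haveI := hG
  obtain ⟨N, hNdef⟩ : ∃ N : Subgroup G, N = M.normalCore := ⟨_, rfl⟩
  haveI hNn : N.Normal := hNdef ▸ inferInstance
  have hNM : N ≤ M := hNdef ▸ M.normalCore_le
  have hsurj : Function.Surjective (QuotientGroup.mk' N) := QuotientGroup.mk'_surjective N
  have hker : (QuotientGroup.mk' N).ker = N := QuotientGroup.ker_mk' N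
  obtain ⟨Mb, hMbdef⟩ : ∃ Mb : Subgroup (G ⧸ N), Mb = M.map (QuotientGroup.mk' N) := ⟨_, rfl⟩
  have hcomap : Mb.comap (QuotientGroup.mk' N) = M := by
    rw [hMbdef]; exact Subgroup.comap_map_eq_self (by rw [hker]; exact hNM)
  have hMb : IsCoatom Mb := by
    constructor
    · intro h
      apply hM.1
      rw [← hcomap, h, Subgroup.comap_top]
    · intro L hL
      have h1 : M ≤ L.comap (QuotientGroup.mk' N) := by
        rw [← hcomap]; exact Subgroup.comap_mono hL.le
      have h2 : M ≠ L.comap (QuotientGroup.mk' N) := by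
        intro h
        have h3 : L = Mb := by
          rw [hMbdef, h, Subgroup.map_comap_eq_self_of_surjective hsurj]
        exact hL.ne h3.symm
      have h3 := hM.2 _ (lt_of_le_of_ne h1 h2)
      rw [← Subgroup.map_comap_eq_self_of_surjective hsurj L, h3,
        Subgroup.map_top_of_surjective _ hsurj]
  have hcore : Mb.normalCore = ⊥ := by
    rw [eq_bot_iff]
    have h1 : (Mb.normalCore.comap (QuotientGroup.mk' N)) ≤ M := by
      rw [← hcomap]; exact Subgroup.comap_mono Mb.normalCore_le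
    have h2 : (Mb.normalCore.comap (QuotientGroup.mk' N)) ≤ M.normalCore :=
      Subgroup.normal_le_normalCore.mpr h1
    rw [← hNdef] at h2
    rw [← Subgroup.map_comap_eq_self_of_surjective hsurj Mb.normalCore]
    calc (Mb.normalCore.comap (QuotientGroup.mk' N)).map (QuotientGroup.mk' N)
        ≤ N.map (QuotientGroup.mk' N) := Subgroup.map_mono h2
      _ = ⊥ := by rw [Subgroup.map_eq_bot_iff, hker]
  obtain ⟨p, k, hp, hk⟩ := index_prime_pow Mb hMb hcore
  haveI : Fact p.Prime := ⟨hp⟩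
  have hidx : Mb.index = M.index := by
    rw [← hcomap, Subgroup.index_comap_of_surjective _ hsurj]
  have hpow : ∀ x : G, x ^ M.index ∈ N := by
    intro x
    rw [hNdef]
    show ∀ b : G, b * x ^ M.index * b⁻¹ ∈ M
    intro b
    rw [← conj_pow]
    exact hexp _
  have hpg : IsPGroup p (G ⧸ N) := by
    intro q
    obtain ⟨x, rfl⟩ := QuotientGroup.mk_surjective q
    refine ⟨k, ?_⟩
    rw [← hk, hidx, ← QuotientGroup.mk_pow, QuotientGroup.eq_one_iff]
    exact hpow x
  have hnil : Group.IsNilpotent (G ⧸ N) := hpg.isNilpotent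
  have h02 : Group.IsNilpotent (G ⧸ N) ↔ ∀ H : Subgroup (G ⧸ N), IsCoatom H → H.Normal :=
    (Group.isNilpotent_of_finite_tfae (G := G ⧸ N)).out 0 2
  have hnorm : Mb.Normal := h02.mp hnil Mb hMb
  rw [← hcomap]
  exact hnorm.comap _

end Cfsg.Agent.S4261
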