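import Cfsg.Statements.S4263
import Mathlib
import Cfsg.Agent.S4309
import Cfsg.Agent.Helper1.Fitting
-- import your own Cfsg.Agent.* helpers here

set_option autoImplicit false
open Cfsg

namespace Cfsg.Agent.S4263

theorem pow_index_mem_nil {K : Type*} [Group K] [Finite K] [Group.IsNilpotent K] :
    ∀ (n : ℕ) (L : Subgroup K), L.index = n → ∀ x : K, x ^ L.index ∈ L := by
  intro n
  induction n using Nat.strong_induction_on with
  | _ n ih =>
    intro L hn x
    by_cases hL : L = ⊤
    · rw [hL]; exact Subgroup.mem_top _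
    · have hlt : L < Subgroup.normalizer (L : Set K) :=
        Group.normalizerCondition_of_isNilpotent L (lt_top_iff_ne_top.mpr hL)
      have hmul : L.relIndex (Subgroup.normalizer (L : Set K)) *
          (Subgroup.normalizer (L : Set K)).index = L.index :=
        Subgroup.relIndex_mul_index hlt.le
      have hLi : L.index ≠ 0 := Subgroup.index_ne_zero_of_finite
      have hrel1 : L.relIndex (Subgroup.normalizer (L : Set K)) ≠ 1 := by
        intro h1
        exact (not_le_of_gt hlt) (Subgroup.relIndex_eq_one.mp h1)
      have hrel0 : L.relIndex (Subgroup.normalizer (L : Set K)) ≠ 0 := by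
        intro h0
        rw [h0, zero_mul] at hmul
        exact hLi hmul.symm
      have hMi : 0 < (Subgroup.normalizer (L : Set K)).index :=
        Nat.pos_of_ne_zero Subgroup.index_ne_zero_of_finite
      have hMlt : (Subgroup.normalizer (L : Set K)).index < n := by
        rw [← hn, ← hmul]
        have h2 : 2 ≤ L.relIndex (Subgroup.normalizer (L : Set K)) := by omega
        nlinarith
      have h1 : x ^ (Subgroup.normalizer (L : Set K)).index ∈ Subgroup.normalizer (L : Set K) :=
        ih _ hMlt _ rfl x
      haveI : (L.subgroupOf (Subgroup.normalizer (L : Set K))).Normal :=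
        Subgroup.normal_in_normalizer
      have h2 := Subgroup.pow_index_mem (L.subgroupOf (Subgroup.normalizer (L : Set K)))
        (⟨x ^ (Subgroup.normalizer (L : Set K)).index, h1⟩ : Subgroup.normalizer (L : Set K))
      have h3 : (x ^ (Subgroup.normalizer (L : Set K)).index) ^
          L.relIndex (Subgroup.normalizer (L : Set K)) ∈ L := h2
      rw [← hmul, mul_comm, pow_mul]
      exact h3

theorem pow_gcd_mem {G : Type*} [Group G] {H : Subgroup G} {x : G} {a b : ℕ}
    (ha : x ^ a ∈ H) (hb : x ^ b ∈ H) : x ^ Nat.gcd a b ∈ H := by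
  have h1 : ((Nat.gcd a b : ℕ) : ℤ) = (a : ℤ) * Nat.gcdA a b + (b : ℤ) * Nat.gcdB a b :=
    Nat.gcd_eq_gcd_ab a b
  have h2 : x ^ ((Nat.gcd a b : ℕ) : ℤ) ∈ H := by
    rw [h1, zpow_add, zpow_mul, zpow_mul, zpow_natCast, zpow_natCast]
    exact H.mul_mem (H.zpow_mem ha _) (H.zpow_mem hb _)
  rwa [zpow_natCast] at h2



/-- Let G be a finite group. An element x lies in the Fitting subgroup F(G) if and only if, for every subgroup H of G, the power x^[G : H] lies in H. -/
theorem result {G : Type*} [Group G] [Finite G] (x : G) :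
    x ∈ Cfsg.fittingSubgroup G ↔ ∀ H : Subgroup G, x ^ H.index ∈ H := by
  constructor
  · intro hx H
    haveI hFn : (Cfsg.fittingSubgroup G).Normal := Cfsg.Agent.Helper1.fitting_normal G
    haveI hFnil : Group.IsNilpotent (Cfsg.fittingSubgroup G) :=
      Cfsg.Agent.Helper1.fitting_isNilpotent
    have h1 := pow_index_mem_nil (K := Cfsg.fittingSubgroup G) _
      (H.subgroupOf (Cfsg.fittingSubgroup G)) rfl ⟨x, hx⟩
    have h2 : x ^ H.relIndex (Cfsg.fittingSubgroup G) ∈ H := h1
    have h3 : H.relIndex (Cfsg.fittingSubgroup G) ∣ H.index := by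
      rw [Cfsg.Agent.S4309.relIndex_eq_relIndex_sup H (Cfsg.fittingSubgroup G)]
      exact Subgroup.relIndex_dvd_index_of_le le_sup_left
    obtain ⟨k, hk⟩ := h3
    rw [hk, pow_mul]
    exact H.pow_mem h2 k
  · intro h
    have hF : ∀ (q : ℕ) [Fact q.Prime] (Q : Sylow q G),
        x ^ (Q : Subgroup G).index ∈ Cfsg.fittingSubgroup G := by
      intro q _ Q
      have hcore : x ^ (Q : Subgroup G).index ∈ (Q : Subgroup G).normalCore := by
        show ∀ b : G, b * x ^ (Q : Subgroup G).index * b⁻¹ ∈ (Q : Subgroup G)
        intro b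
        have h1 := h ((Q : Subgroup G).map ((MulAut.conj b⁻¹ : G ≃* G) : G →* G))
        rw [Subgroup.index_map_equiv] at h1
        obtain ⟨z, hz, hzx⟩ := h1
        have h2 : b * x ^ (Q : Subgroup G).index * b⁻¹ = z := by
          rw [← hzx]
          show b * (b⁻¹ * z * b⁻¹⁻¹) * b⁻¹ = z
          group
        rw [h2]; exact hz
      have hle : (Q : Subgroup G).normalCore ≤ Cfsg.fittingSubgroup G := by
        apply le_sSup
        refine ⟨Subgroup.normalCore_normal _, ?_⟩
        have hpg : IsPGroup q (Q : Subgroup G).normalCore := Q.2.to_le (Subgroup.normalCore_le _)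
        exact hpg.isNilpotent
      exact hle hcore
    have key : ∀ n : ℕ, 0 < n → x ^ n ∈ Cfsg.fittingSubgroup G → x ∈ Cfsg.fittingSubgroup G := by
      intro n
      induction n using Nat.strong_induction_on with
      | _ n ih =>
        intro hn hxn
        by_cases h1 : n = 1
        · rw [h1, pow_one] at hxn; exact hxn
        · obtain ⟨r, hr, hrn⟩ := Nat.exists_prime_and_dvd h1
          haveI : Fact r.Prime := ⟨hr⟩
          obtain ⟨R⟩ : Nonempty (Sylow r G) := inferInstance
          have hR := hF r R
          have hg : x ^ Nat.gcd n (R : Subgroup G).index ∈ Cfsg.fittingSubgroup G :=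
            pow_gcd_mem hxn hR
          have hgpos : 0 < Nat.gcd n (R : Subgroup G).index := Nat.gcd_pos_of_pos_left _ hn
          have hglt : Nat.gcd n (R : Subgroup G).index < n := by
            apply lt_of_le_of_ne (Nat.le_of_dvd hn (Nat.gcd_dvd_left _ _))
            intro heq
            have h2 : Nat.gcd n (R : Subgroup G).index ∣ (R : Subgroup G).index :=
              Nat.gcd_dvd_right _ _
            rw [heq] at h2
            exact R.not_dvd_index (dvd_trans hrn h2)
          exact ih _ hglt hgpos hg
    exact key (Nat.card G) Nat.card_pos (by rw [pow_card_eq_one']; exact Subgroup.one_mem _)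

end Cfsg.Agent.S4263
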