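-- Statement S4269: pronormality criterion for supplements of abelian normal subgroups
import Cfsg.Statements.S4269
import Mathlib
import Cfsg.Agent.Helper5.Grp

set_option autoImplicit false
open Cfsg
open scoped commutatorElement

namespace Cfsg.Agent.S4269

theorem map_conj_eq_of_forall {G : Type*} [Group G] (H U : Subgroup G)
    (hinv : ∀ h ∈ H, ∀ u ∈ U, h * u * h⁻¹ ∈ U) (h : G) (hh : h ∈ H) :
    U.map (MulAut.conj h).toMonoidHom = U := by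
  apply le_antisymm
  · rintro _ ⟨u, hu, rfl⟩
    show h * u * h⁻¹ ∈ U
    exact hinv h hh u hu
  · intro u hu
    refine ⟨h⁻¹ * u * h⁻¹⁻¹, hinv h⁻¹ (H.inv_mem hh) u hu, ?_⟩
    show h * (h⁻¹ * u * h⁻¹⁻¹) * h⁻¹ = u
    group

theorem forward {G : Type*} [Group G] [Finite G]
    (H : Subgroup G) (hP : Cfsg.IsPronormal H)
    (U : Subgroup G) (hUinv : ∀ h ∈ H, U.map (MulAut.conj h).toMonoidHom = U) :
    U = (U ⊓ Subgroup.normalizer (H : Set G)) ⊔ ⁅H, U⁆ := by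
  have hUconj : ∀ h ∈ H, ∀ u ∈ U, h * u * h⁻¹ ∈ U := by
    intro h hh u hu
    have h1 : (MulAut.conj h).toMonoidHom u ∈ U.map (MulAut.conj h).toMonoidHom :=
      Subgroup.mem_map_of_mem _ hu
    rw [hUinv h hh] at h1
    exact h1
  have hWU : ⁅H, U⁆ ≤ U := by
    rw [Subgroup.commutator_le]
    intro h hh u hu
    rw [commutatorElement_def]
    exact U.mul_mem (hUconj h hh u hu) (U.inv_mem hu)
  have hHW : H ≤ Subgroup.normalizer ((⁅H, U⁆ : Subgroup G) : Set G) := by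
    intro h' hh'
    apply Cfsg.Agent.Helper5.mem_normalizer_of_conj_mem
    have h1 : ⁅H, U⁆ ≤ (⁅H, U⁆ : Subgroup G).comap (MulAut.conj h').toMonoidHom := by
      rw [Subgroup.commutator_le]
      intro a ha b hb
      rw [Subgroup.mem_comap]
      show h' * ⁅a, b⁆ * h'⁻¹ ∈ ⁅H, U⁆
      rw [conjugate_commutatorElement]
      exact Subgroup.commutator_mem_commutator
        (H.mul_mem (H.mul_mem hh' ha) (H.inv_mem hh')) (hUconj h' hh' b hb)
    intro x hx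
    exact h1 hx
  apply le_antisymm
  · intro u hu
    obtain ⟨x, hx, hxeq⟩ := hP u
    have hsub : H ⊔ H.map (MulAut.conj u).toMonoidHom ≤ ⁅H, U⁆ ⊔ H := by
      refine sup_le le_sup_right ?_
      rintro _ ⟨h, hh, rfl⟩
      show u * h * u⁻¹ ∈ ⁅H, U⁆ ⊔ H
      have e : u * h * u⁻¹ = ⁅h, u⁆⁻¹ * h := by rw [commutatorElement_def]; group
      rw [e]
      exact Subgroup.mul_mem _
        ((le_sup_left : ⁅H, U⁆ ≤ ⁅H, U⁆ ⊔ H)
          (Subgroup.inv_mem _ (Subgroup.commutator_mem_commutator hh hu)))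
        ((le_sup_right : H ≤ ⁅H, U⁆ ⊔ H) hh)
    have hx' : x ∈ ((⁅H, U⁆ ⊔ H : Subgroup G) : Set G) := hsub hx
    rw [Subgroup.coe_mul_of_right_le_normalizer_left ⁅H, U⁆ H hHW] at hx'
    obtain ⟨w, hw, h₀, hh₀, rfl⟩ := Set.mem_mul.mp hx'
    have hw' : w ∈ ⁅H, U⁆ := hw
    have hh₀' : h₀ ∈ H := hh₀
    have hn : w⁻¹ * u ∈ Subgroup.normalizer (H : Set G) := by
      apply Cfsg.Agent.Helper5.mem_normalizer_of_conj_mem
      intro h hh
      have h1 : (MulAut.conj u).toMonoidHom h ∈ H.map (MulAut.conj u).toMonoidHom :=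
        Subgroup.mem_map_of_mem _ hh
      rw [hxeq] at h1
      obtain ⟨h', hh', he⟩ := h1
      have he' : w * h₀ * h' * (w * h₀)⁻¹ = u * h * u⁻¹ := he
      have e : w⁻¹ * u * h * (w⁻¹ * u)⁻¹ = w⁻¹ * (u * h * u⁻¹) * w := by group
      rw [e, ← he']
      have e2 : w⁻¹ * (w * h₀ * h' * (w * h₀)⁻¹) * w = h₀ * h' * h₀⁻¹ := by group
      rw [e2]
      exact H.mul_mem (H.mul_mem hh₀' hh') (H.inv_mem hh₀')
    have e : u = w * (w⁻¹ * u) := by group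
    rw [e]
    exact Subgroup.mul_mem _
      ((le_sup_right : ⁅H, U⁆ ≤ (U ⊓ Subgroup.normalizer (H : Set G)) ⊔ ⁅H, U⁆) hw')
      ((le_sup_left : U ⊓ Subgroup.normalizer (H : Set G)
          ≤ (U ⊓ Subgroup.normalizer (H : Set G)) ⊔ ⁅H, U⁆)
        (Subgroup.mem_inf.mpr ⟨U.mul_mem (U.inv_mem (hWU hw')) hu, hn⟩))
  · exact sup_le inf_le_left hWU

theorem backward {G : Type*} [Group G] [Finite G]
    (V : Subgroup G) [hVn : V.Normal] (hV : IsMulCommutative ↥V) (H : Subgroup G)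
    (hHV : H ⊔ V = ⊤)
    (hyp : ∀ U : Subgroup G, U ≤ V → (∀ h ∈ H, U.map (MulAut.conj h).toMonoidHom = U) →
        U = (U ⊓ Subgroup.normalizer (H : Set G)) ⊔ ⁅H, U⁆) : Cfsg.IsPronormal H := by
  have hVc : ∀ a ∈ V, ∀ b ∈ V, a * b = b * a := by
    intro a ha b hb
    exact congrArg Subtype.val (hV.is_comm.comm ⟨a, ha⟩ ⟨b, hb⟩)
  intro g
  have hg : g ∈ ((V ⊔ H : Subgroup G) : Set G) := by
    rw [sup_comm, hHV]; exact Subgroup.mem_top g
  rw [Subgroup.coe_mul_of_right_le_normalizer_left V H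
    (fun x _ => Cfsg.Agent.Helper5.mem_normalizer_of_conj_mem V x
      (fun q hq => hVn.conj_mem q hq x))] at hg
  obtain ⟨v, hv, h₁, hh₁, rfl⟩ := Set.mem_mul.mp hg
  have hv' : v ∈ V := hv
  have hh₁' : h₁ ∈ H := hh₁
  obtain ⟨T, hT⟩ : ∃ T : Subgroup G, T = H ⊔ H.map (MulAut.conj (v * h₁)).toMonoidHom :=
    ⟨_, rfl⟩
  have hHT : H ≤ T := by rw [hT]; exact le_sup_left
  have hvT : ∀ h ∈ H, v * h * v⁻¹ ∈ T := by
    intro h hh
    rw [hT]
    apply (le_sup_right : H.map (MulAut.conj (v * h₁)).toMonoidHom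
      ≤ H ⊔ H.map (MulAut.conj (v * h₁)).toMonoidHom)
    refine ⟨h₁⁻¹ * h * h₁, H.mul_mem (H.mul_mem (H.inv_mem hh₁') hh) hh₁', ?_⟩
    show v * h₁ * (h₁⁻¹ * h * h₁) * (v * h₁)⁻¹ = v * h * v⁻¹
    group
  have hcv : ∀ h ∈ H, h * v * h⁻¹ * v⁻¹ ∈ T := by
    intro h hh
    have e : h * v * h⁻¹ * v⁻¹ = h * (v * h⁻¹ * v⁻¹) := by group
    rw [e]
    exact T.mul_mem (hHT hh) (hvT h⁻¹ (H.inv_mem hh))
  obtain ⟨U, hU⟩ : ∃ U : Subgroup G, ∀ u, u ∈ U ↔ (u ∈ V ∧ ∀ h ∈ H, h * u * h⁻¹ * u⁻¹ ∈ T) :=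
    ⟨{ carrier := {u | u ∈ V ∧ ∀ h ∈ H, h * u * h⁻¹ * u⁻¹ ∈ T}
       mul_mem' := by
         rintro a b ⟨ha, ha'⟩ ⟨hb, hb'⟩
         refine ⟨V.mul_mem ha hb, ?_⟩
         intro h hh
         have h1 : a⁻¹ * (h * b * h⁻¹ * b⁻¹) = (h * b * h⁻¹ * b⁻¹) * a⁻¹ :=
           hVc _ (V.inv_mem ha) _ (V.mul_mem (hVn.conj_mem b hb h) (V.inv_mem hb))
         have e : h * (a * b) * h⁻¹ * (a * b)⁻¹
             = (h * a * h⁻¹ * a⁻¹) * (h * b * h⁻¹ * b⁻¹) := by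
           calc h * (a * b) * h⁻¹ * (a * b)⁻¹
               = h * a * h⁻¹ * ((h * b * h⁻¹ * b⁻¹) * a⁻¹) := by group
             _ = h * a * h⁻¹ * (a⁻¹ * (h * b * h⁻¹ * b⁻¹)) := by rw [h1]
             _ = (h * a * h⁻¹ * a⁻¹) * (h * b * h⁻¹ * b⁻¹) := by group
         rw [e]
         exact T.mul_mem (ha' h hh) (hb' h hh)
       one_mem' := ⟨V.one_mem, fun h hh => by simp⟩
       inv_mem' := by
         rintro a ⟨ha, ha'⟩
         refine ⟨V.inv_mem ha, ?_⟩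
         intro h hh
         have h1 : a * (h * a⁻¹ * h⁻¹) = (h * a⁻¹ * h⁻¹) * a :=
           hVc _ ha _ (hVn.conj_mem _ (V.inv_mem ha) h)
         have e : h * a⁻¹ * h⁻¹ * a⁻¹⁻¹ = (h * a * h⁻¹ * a⁻¹)⁻¹ := by
           calc h * a⁻¹ * h⁻¹ * a⁻¹⁻¹ = (h * a⁻¹ * h⁻¹) * a := by group
             _ = a * (h * a⁻¹ * h⁻¹) := h1.symm
             _ = (h * a * h⁻¹ * a⁻¹)⁻¹ := by group
         rw [e]
         exact T.inv_mem (ha' h hh) },
     fun u => Iff.rfl⟩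
  have hvU : v ∈ U := (hU v).mpr ⟨hv', hcv⟩
  have hUV : U ≤ V := fun u hu => ((hU u).mp hu).1
  have hUconj : ∀ h ∈ H, ∀ u ∈ U, h * u * h⁻¹ ∈ U := by
    intro h' hh' u hu
    obtain ⟨hu1, hu2⟩ := (hU u).mp hu
    rw [hU]
    refine ⟨hVn.conj_mem u hu1 h', ?_⟩
    intro h hh
    have e : h * (h' * u * h'⁻¹) * h⁻¹ * (h' * u * h'⁻¹)⁻¹
        = h' * ((h'⁻¹ * h * h') * u * (h'⁻¹ * h * h')⁻¹ * u⁻¹) * h'⁻¹ := by group
    rw [e]
    exact T.mul_mem (T.mul_mem (hHT hh')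
      (hu2 _ (H.mul_mem (H.mul_mem (H.inv_mem hh') hh) hh'))) (T.inv_mem (hHT hh'))
  have hUeq := hyp U hUV (fun h hh => map_conj_eq_of_forall H U hUconj h hh)
  have hWT : ⁅H, U⁆ ≤ T := by
    rw [Subgroup.commutator_le]
    intro h hh u hu
    rw [commutatorElement_def]
    exact ((hU u).mp hu).2 h hh
  have hWV : ⁅H, U⁆ ≤ V := by
    rw [Subgroup.commutator_le]
    intro h hh u hu
    rw [commutatorElement_def]
    exact V.mul_mem (hVn.conj_mem u (hUV hu) h) (V.inv_mem (hUV hu))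
  have hv2 : v ∈ ((⁅H, U⁆ ⊔ (U ⊓ Subgroup.normalizer (H : Set G)) : Subgroup G) : Set G) := by
    rw [sup_comm, ← hUeq]; exact hvU
  rw [Subgroup.coe_mul_of_right_le_normalizer_left ⁅H, U⁆
    (U ⊓ Subgroup.normalizer (H : Set G))
    (by
      intro n hn
      apply Cfsg.Agent.Helper5.mem_normalizer_of_conj_mem
      intro w hw
      have h1 : n * w = w * n := hVc n (hUV (Subgroup.mem_inf.mp hn).1) w (hWV hw)
      rw [h1]
      have e : w * n * n⁻¹ = w := by group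
      rw [e]; exact hw)] at hv2
  obtain ⟨w, hw, n, hn, hvwn⟩ := Set.mem_mul.mp hv2
  have hw' : w ∈ ⁅H, U⁆ := hw
  have hnN : n ∈ Subgroup.normalizer (H : Set G) := (Subgroup.mem_inf.mp hn).2
  refine ⟨w, ?_, ?_⟩
  · rw [← hT]; exact hWT hw'
  · have hnH : ∀ h ∈ H, n * h * n⁻¹ ∈ H :=
      fun h hh => (Subgroup.mem_normalizer_iff.mp hnN h).mp hh
    have hnH' : ∀ h ∈ H, n⁻¹ * h * n ∈ H := by
      intro h hh
      exact (Subgroup.mem_normalizer_iff.mp hnN (n⁻¹ * h * n)).mpr (by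
        have e : n * (n⁻¹ * h * n) * n⁻¹ = h := by group
        rw [e]; exact hh)
    apply le_antisymm
    · rintro _ ⟨h, hh, rfl⟩
      refine ⟨n * (h₁ * h * h₁⁻¹) * n⁻¹,
        hnH _ (H.mul_mem (H.mul_mem hh₁' hh) (H.inv_mem hh₁')), ?_⟩
      show w * (n * (h₁ * h * h₁⁻¹) * n⁻¹) * w⁻¹ = v * h₁ * h * (v * h₁)⁻¹
      rw [← hvwn]; group
    · rintro _ ⟨h, hh, rfl⟩
      refine ⟨h₁⁻¹ * (n⁻¹ * h * n) * h₁,
        H.mul_mem (H.mul_mem (H.inv_mem hh₁') (hnH' h hh)) hh₁', ?_⟩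
      show v * h₁ * (h₁⁻¹ * (n⁻¹ * h * n) * h₁) * (v * h₁)⁻¹ = w * h * w⁻¹
      rw [← hvwn]; group

/-- Let G be a finite group, V an abelian normal subgroup and H a subgroup with HV = G. Then H is pronormal in G (H and gHg⁻¹ are conjugate inside the subgroup they generate, for every g) if and only if every H-invariant subgroup U of V satisfies U = N_U(H)·[H, U], that is, U is the join of U ∩ N_G(H) and the commutator subgroup [H, U]. -/
theorem result {G : Type*} [Group G] [Finite G]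
    (V : Subgroup G) [V.Normal] (hV : IsMulCommutative ↥V) (H : Subgroup G) (hHV : H ⊔ V = ⊤) :
    Cfsg.IsPronormal H ↔
      ∀ U : Subgroup G, U ≤ V → (∀ h ∈ H, U.map (MulAut.conj h).toMonoidHom = U) →
        U = (U ⊓ Subgroup.normalizer (H : Set G)) ⊔ ⁅H, U⁆ := by
  constructor
  · intro hP U _ hUinv
    exact forward H hP U hUinv
  · intro hyp
    exact backward V hV H hHV hyp

end Cfsg.Agent.S4269
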