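import Cfsg.Statements.S4270
import Mathlib
import Cfsg.Agent.Helper15.Pron

set_option autoImplicit false
open Cfsg

namespace Cfsg.Agent.S4270

open Cfsg.Agent.Helper15.Subn Cfsg.Agent.Helper15.Pron

/-- Let p be a prime and G a finite group with a normal subgroup A such that, both in A and in G/A, every subgroup containing a Sylow p-subgroup of that group is pronormal in that group. Let T be a Sylow p-subgroup of A. Then every subgroup of G containing a Sylow p-subgroup of G is pronormal in G if and only if (i) every subgroup of N_G(T)/T containing a Sylow p-subgroup of N_G(T)/T is pronormal there, and (ii) for every subgroup H of G containing a Sylow p-subgroup of G, the image of N_G(H) in G/A is the full normalizer of the image of H. (Pronormal: H and gHg⁻¹ are conjugate inside the subgroup they generate, for every g.) -/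
theorem result {G : Type*} [Group G] [Finite G] {p : ℕ} [Fact p.Prime]
    (A : Subgroup G) [A.Normal] (hA : (∀ K : Subgroup ↥A, (∃ P : Sylow p ↥A, (P : Subgroup ↥A) ≤ K) → Cfsg.IsPronormal K)) (hQ : (∀ K : Subgroup (G ⧸ A), (∃ P : Sylow p (G ⧸ A), (P : Subgroup (G ⧸ A)) ≤ K) → Cfsg.IsPronormal K))
    (T : Subgroup G) (hT : ∃ P : Sylow p ↥A, (P : Subgroup ↥A).map A.subtype = T) [(T.subgroupOf (Subgroup.normalizer (T : Set G))).Normal] :
    (∀ K : Subgroup G, (∃ P : Sylow p G, (P : Subgroup G) ≤ K) → Cfsg.IsPronormal K) ↔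
      ((∀ K : Subgroup (↥(Subgroup.normalizer (T : Set G)) ⧸ T.subgroupOf (Subgroup.normalizer (T : Set G))), (∃ P : Sylow p (↥(Subgroup.normalizer (T : Set G)) ⧸ T.subgroupOf (Subgroup.normalizer (T : Set G))), (P : Subgroup (↥(Subgroup.normalizer (T : Set G)) ⧸ T.subgroupOf (Subgroup.normalizer (T : Set G)))) ≤ K) → Cfsg.IsPronormal K) ∧
        ∀ K : Subgroup G, (∃ P : Sylow p G, (P : Subgroup G) ≤ K) →
          (Subgroup.normalizer (K : Set G)).map (QuotientGroup.mk' A) = Subgroup.normalizer ((K.map (QuotientGroup.mk' A) : Subgroup (G ⧸ A)) : Set (G ⧸ A))) := by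
  have hTs : IsSyl p A T := by
    obtain ⟨P, hP⟩ := hT
    rw [← hP]
    exact sylOf P
  constructor
  · intro h1
    refine ⟨dir1 A T hTs _ rfl h1, ?_⟩
    intro K hK
    have hKp := h1 K hK
    apply le_antisymm
    · intro z hz
      obtain ⟨n, hn, rfl⟩ := Subgroup.mem_map.mp hz
      rw [← cj_eq_iff, ← map_cj, cj_eq_iff.mpr hn]
    · intro gb hgb
      obtain ⟨g, rfl⟩ := QuotientGroup.mk'_surjective A gb
      rw [← cj_eq_iff, ← map_cj] at hgb
      obtain ⟨x, hx, hxe⟩ := hKp g
      change x ∈ K ⊔ cj g K at hx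
      change cj g K = cj x K at hxe
      have h3 : x⁻¹ * g ∈ Subgroup.normalizer (K : Set G) := by
        rw [← cj_eq_iff, ← cj_mul, hxe, cj_mul, inv_mul_cancel, cj_one]
      have h4 : QuotientGroup.mk' A x ∈ K.map (QuotientGroup.mk' A) := by
        have h5 : QuotientGroup.mk' A x ∈ (K ⊔ cj g K).map (QuotientGroup.mk' A) :=
          Subgroup.mem_map_of_mem _ hx
        rw [Subgroup.map_sup, hgb, sup_idem] at h5
        exact h5
      obtain ⟨k, hk, hke⟩ := Subgroup.mem_map.mp h4
      refine Subgroup.mem_map.mpr ⟨k * (x⁻¹ * g),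
        (Subgroup.normalizer (K : Set G)).mul_mem (Subgroup.le_normalizer hk) h3, ?_⟩
      rw [map_mul, hke, ← map_mul]
      congr 1
      group
  · rintro ⟨h2, hii⟩
    apply pron_of_step A T hTs (hA_elt A hA T hT) (hN_elt _ T h2)
    intro H S hSH g₀
    obtain ⟨π, hπ⟩ : ∃ π : G →* G ⧸ A, π = QuotientGroup.mk' A := ⟨_, rfl⟩
    have hsurj : Function.Surjective π := by rw [hπ]; exact QuotientGroup.mk'_surjective A
    have hHb : Cfsg.IsPronormal (H.map π) := by
      apply hQ
      refine ⟨S.mapSurjective hsurj, ?_⟩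
      rw [Sylow.coe_mapSurjective]
      exact Subgroup.map_mono hSH
    obtain ⟨yb, hyb, hye⟩ := hHb (π g₀)
    change yb ∈ H.map π ⊔ cj (π g₀) (H.map π) at hyb
    change cj (π g₀) (H.map π) = cj yb (H.map π) at hye
    rw [← map_cj, ← Subgroup.map_sup] at hyb
    obtain ⟨y, hy, rfl⟩ := Subgroup.mem_map.mp hyb
    have h5 : (π y)⁻¹ * π g₀ ∈
        Subgroup.normalizer ((H.map π : Subgroup (G ⧸ A)) : Set (G ⧸ A)) := by
      rw [← cj_eq_iff, ← cj_mul, hye, cj_mul, inv_mul_cancel, cj_one]
    have h6 := hii H ⟨S, hSH⟩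
    rw [← hπ] at h6
    rw [← h6] at h5
    obtain ⟨s, hs, hse⟩ := Subgroup.mem_map.mp h5
    refine ⟨y, s, hy, cj_eq_iff.mpr hs, ?_⟩
    · have h6 : π (s⁻¹ * (y⁻¹ * g₀)) = 1 := by
        rw [map_mul, map_mul, map_inv, map_inv, hse]
        group
      have h7 : s⁻¹ * (y⁻¹ * g₀) ∈ π.ker := MonoidHom.mem_ker.mpr h6
      rw [hπ, QuotientGroup.ker_mk'] at h7
      exact h7

end Cfsg.Agent.S4270
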