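import Cfsg.Statements.S4271
import Mathlib
import Cfsg.Agent.Helper15.Pron

set_option autoImplicit false
open Cfsg

namespace Cfsg.Agent.S4271

open Cfsg.Agent.Helper15.Subn Cfsg.Agent.Helper15.Pron

/-- Let p be a prime and G a finite group with a normal subgroup A such that every subgroup of A containing a Sylow p-subgroup of A is pronormal in A, and the Sylow p-subgroups of G/A are self-normalizing. Let T be a Sylow p-subgroup of A. Then every subgroup of G containing a Sylow p-subgroup of G is pronormal in G if and only if every subgroup of N_G(T)/T containing a Sylow p-subgroup of N_G(T)/T is pronormal in N_G(T)/T. (Pronormal: H and gHg⁻¹ are conjugate inside the subgroup they generate, for every g.) -/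
theorem result {G : Type*} [Group G] [Finite G] {p : ℕ} [Fact p.Prime]
    (A : Subgroup G) [A.Normal] (hA : (∀ K : Subgroup ↥A, (∃ P : Sylow p ↥A, (P : Subgroup ↥A) ≤ K) → Cfsg.IsPronormal K))
    (hQ : ∀ P : Sylow p (G ⧸ A), Subgroup.normalizer ((P : Subgroup (G ⧸ A)) : Set (G ⧸ A)) = P)
    (T : Subgroup G) (hT : ∃ P : Sylow p ↥A, (P : Subgroup ↥A).map A.subtype = T) [(T.subgroupOf (Subgroup.normalizer (T : Set G))).Normal] :
    (∀ K : Subgroup G, (∃ P : Sylow p G, (P : Subgroup G) ≤ K) → Cfsg.IsPronormal K) ↔ (∀ K : Subgroup (↥(Subgroup.normalizer (T : Set G)) ⧸ T.subgroupOf (Subgroup.normalizer (T : Set G))), (∃ P : Sylow p (↥(Subgroup.normalizer (T : Set G)) ⧸ T.subgroupOf (Subgroup.normalizer (T : Set G))), (P : Subgroup (↥(Subgroup.normalizer (T : Set G)) ⧸ T.subgroupOf (Subgroup.normalizer (T : Set G)))) ≤ K) → Cfsg.IsPronormal K) := by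
  have hTs : IsSyl p A T := by
    obtain ⟨P, hP⟩ := hT
    rw [← hP]
    exact sylOf P
  constructor
  · intro h1
    exact dir1 A T hTs _ rfl h1
  · intro h2
    apply pron_of_step A T hTs (hA_elt A hA T hT) (hN_elt _ T h2)
    intro H S hSH g₀
    obtain ⟨π, hπ⟩ : ∃ π : G →* G ⧸ A, π = QuotientGroup.mk' A := ⟨_, rfl⟩
    have hsurj : Function.Surjective π := by rw [hπ]; exact QuotientGroup.mk'_surjective A
    obtain ⟨Sb, hSb⟩ : ∃ Sb : Sylow p (G ⧸ A), Sb = S.mapSurjective hsurj := ⟨_, rfl⟩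
    have hSbc : (Sb : Subgroup (G ⧸ A)) = (S : Subgroup G).map π := by rw [hSb]; rfl
    obtain ⟨J, hJdef⟩ : ∃ J : Subgroup G, J = H ⊔ cj g₀ H := ⟨_, rfl⟩
    have hHJ : H ≤ J := by rw [hJdef]; exact le_sup_left
    have hgJ : cj g₀ H ≤ J := by rw [hJdef]; exact le_sup_right
    have h3 : (Sb : Subgroup (G ⧸ A)) ≤ J.map π := by
      rw [hSbc]
      exact Subgroup.map_mono (hSH.trans hHJ)
    have h4 : cj (π g₀) (Sb : Subgroup (G ⧸ A)) ≤ J.map π := by
      rw [hSbc, ← map_cj]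
      exact Subgroup.map_mono ((cj_mono hSH).trans hgJ)
    have hsyl : IsSyl p (J.map π) (Sb : Subgroup (G ⧸ A)) :=
      ⟨h3, Sb.isPGroup', fun Q hQ _ hSQ => Sb.is_maximal' hQ hSQ⟩
    obtain ⟨yb, hyb, hyS⟩ := syl_conj hsyl (cj_pg Sb.isPGroup') h4
    obtain ⟨y, hy, rfl⟩ := Subgroup.mem_map.mp hyb
    have h5 : (π y)⁻¹ * π g₀ ∈
        Subgroup.normalizer ((Sb : Subgroup (G ⧸ A)) : Set (G ⧸ A)) := by
      rw [← cj_eq_iff]
      apply cj_eq_of_le
      rw [← cj_mul]
      exact le_cj_iff.mp hyS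
    rw [hQ Sb, hSbc] at h5
    obtain ⟨s, hs, hse⟩ := Subgroup.mem_map.mp h5
    refine ⟨y, s, ?_, cj_self (hSH hs), ?_⟩
    · rw [← hJdef]
      exact hy
    · have h6 : π (s⁻¹ * (y⁻¹ * g₀)) = 1 := by
        rw [map_mul, map_mul, map_inv, map_inv, hse]
        group
      have h7 : s⁻¹ * (y⁻¹ * g₀) ∈ π.ker := MonoidHom.mem_ker.mpr h6
      rw [hπ, QuotientGroup.ker_mk'] at h7
      exact h7

end Cfsg.Agent.S4271
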