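import Mathlib
import Cfsg.Statements.S4331
import Cfsg.Agent.Helper1.Fitting
import Cfsg.Agent.Helper3.Zipper
-- import your own Cfsg.Agent.* helpers here

set_option autoImplicit false
open Cfsg

namespace Cfsg.Agent.S4331

abbrev V := Fin 3 × Fin 3
abbrev KK := Fin 8 × Fin 2

def mulw (t : V) : V := (t.1 - t.2, t.1 + t.2)
def cj (s : Fin 2) (t : V) : V := if s = 0 then t else (t.1, -t.2)
def act (k : KK) (t : V) : V := mulw^[k.1.val] (cj k.2 t)
def kmul (k k' : KK) : KK := (k.1 + (if k.2 = 0 then k'.1 else 3 * k'.1), k.2 + k'.2)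
def kinv (k : KK) : KK := (-(if k.2 = 0 then k.1 else 3 * k.1), k.2)

/-- Carrier of `AΓL(1,9)`: the maps `t ↦ ω^j σ^s(t) + u` of `F_9 = F_3[i]`, `ω = 1 + i`. -/
structure Elt where
  u : V
  k : KK
deriving DecidableEq

instance : Fintype Elt :=
  Fintype.ofEquiv (V × KK) ⟨fun p => ⟨p.1, p.2⟩, fun x => (x.u, x.k), fun _ => rfl, fun _ => rfl⟩

def emul (x y : Elt) : Elt := ⟨act x.k y.u + x.u, kmul x.k y.k⟩
def eone : Elt := ⟨(0, 0), (0, 0)⟩
def einv (x : Elt) : Elt := ⟨-(act (kinv x.k) x.u), kinv x.k⟩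
def aa : Elt := ⟨(0, 0), (0, 1)⟩
def tt : Elt := ⟨(0, 1), (0, 0)⟩

theorem act_add : ∀ (k : KK) (t t' : V), act k (t + t') = act k t + act k t' := by decide
theorem act_act : ∀ (k k' : KK) (t : V), act k (act k' t) = act (kmul k k') t := by decide
theorem kmul_assoc : ∀ a b c : KK, kmul (kmul a b) c = kmul a (kmul b c) := by decide

theorem emul_assoc (x y z : Elt) : emul (emul x y) z = emul x (emul y z) := by
  obtain ⟨u, k⟩ := x
  obtain ⟨u', k'⟩ := y
  obtain ⟨u'', k''⟩ := z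
  show (⟨act (kmul k k') u'' + (act k u' + u), kmul (kmul k k') k''⟩ : Elt) =
    ⟨act k (act k' u'' + u') + u, kmul k (kmul k' k'')⟩
  rw [act_add, act_act, kmul_assoc, add_assoc]

set_option maxRecDepth 100000 in
theorem eone_mul : ∀ x : Elt, emul eone x = x := by decide
set_option maxRecDepth 100000 in
theorem einv_mul : ∀ x : Elt, emul (einv x) x = eone := by decide

instance : Mul Elt := ⟨emul⟩
instance : One Elt := ⟨eone⟩
instance : Inv Elt := ⟨einv⟩
instance : Group Elt := Group.ofLeftAxioms emul_assoc eone_mul einv_mul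

theorem mul_def (x y : Elt) : x * y = emul x y := rfl
theorem inv_def (x : Elt) : x⁻¹ = einv x := rfl
theorem one_def : (1 : Elt) = eone := rfl

set_option maxRecDepth 100000 in
theorem main : ∀ c : Elt, ∃ x : Elt,
    (emul (emul (emul x c) (einv x)) aa = emul aa (emul (emul x c) (einv x))) ∨
      (emul (emul x c) (einv x)).u = (0, 0) := by decide

/-- projection onto the point stabilizer -/
def proj : Elt →* Elt where
  toFun x := ⟨(0, 0), x.k⟩
  map_one' := rfl
  map_mul' x y := by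
    show (⟨(0, 0), kmul x.k y.k⟩ : Elt) = ⟨act x.k (0, 0) + (0, 0), kmul x.k y.k⟩
    have h : ∀ k : KK, act k (0, 0) + (0, 0) = ((0, 0) : V) := by decide
    rw [h]

theorem ker_comm : ∀ u u' : V, emul ⟨u, (0, 0)⟩ ⟨u', (0, 0)⟩ = emul ⟨u', (0, 0)⟩ ⟨u, (0, 0)⟩ := by
  decide

set_option maxRecDepth 100000 in
theorem stab_pow : ∀ k : KK, (⟨(0, 0), k⟩ : Elt) ^ 16 = 1 := by decide

theorem range_pgroup : IsPGroup 2 ↥proj.range := by
  rintro ⟨g, x, rfl⟩
  refine ⟨4, Subtype.ext ?_⟩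
  exact stab_pow x.k

theorem solvable : Group.IsSolvable Elt := by
  have : Group.IsSolvable ↥proj.ker := by
    apply Group.isSolvable_of_comm
    rintro ⟨x, hx⟩ ⟨y, hy⟩
    apply Subtype.ext
    have hx' : x.k = (0, 0) := by
      have := MonoidHom.mem_ker.mp hx
      exact congrArg Elt.k this
    have hy' : y.k = (0, 0) := by
      have := MonoidHom.mem_ker.mp hy
      exact congrArg Elt.k this
    obtain ⟨u, k⟩ := x
    obtain ⟨u', k'⟩ := y
    simp only at hx' hy'
    subst hx' hy'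
    exact ker_comm u u'
  have : Group.IsNilpotent ↥proj.range := range_pgroup.isNilpotent
  exact solvable_of_ker_le_range proj.ker.subtype proj.rangeRestrict
    (by rw [MonoidHom.ker_rangeRestrict, Subgroup.range_subtype])

theorem aa_sq : aa * aa = 1 := by decide
theorem aa_ne : aa ≠ 1 := by decide
theorem ww_ne : aa * (tt * aa⁻¹ * tt⁻¹) ≠ 1 := by decide
theorem ww_cube : (aa * (tt * aa⁻¹ * tt⁻¹)) * (aa * (tt * aa⁻¹ * tt⁻¹)) * (aa * (tt * aa⁻¹ * tt⁻¹)) = 1 := by
  decide
theorem proj_aa : proj aa = aa := rfl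

theorem not_le : ¬ Subgroup.zpowers aa ≤ Cfsg.pCore 2 Elt := by
  intro hle
  have ha : aa ∈ Cfsg.pCore 2 Elt := hle (Subgroup.mem_zpowers aa)
  haveI := Cfsg.Agent.Helper1.pCore_normal 2 Elt
  have hw : aa * (tt * aa⁻¹ * tt⁻¹) ∈ Cfsg.pCore 2 Elt :=
    mul_mem ha (Subgroup.Normal.conj_mem inferInstance _ (inv_mem ha) tt)
  obtain ⟨n, hn⟩ := Cfsg.Agent.Helper1.pCore_isPGroup 2 Elt ⟨_, hw⟩
  have hn' : (aa * (tt * aa⁻¹ * tt⁻¹)) ^ (2 ^ n) = 1 := by
    have := congrArg Subtype.val hn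
    simpa using this
  have ho : orderOf (aa * (tt * aa⁻¹ * tt⁻¹)) = 3 := by
    haveI : Fact (Nat.Prime 3) := ⟨by norm_num⟩
    refine orderOf_eq_prime ?_ ww_ne
    rw [pow_succ, pow_two]
    exact ww_cube
  have hd : 3 ∣ 2 ^ n := ho ▸ orderOf_dvd_of_pow_eq_one hn'
  have := Nat.Prime.dvd_of_dvd_pow (by norm_num : Nat.Prime 3) hd
  omega

theorem sub_comm (g : Elt) (hg : g * aa = aa * g) :
    ((Subgroup.zpowers aa).subgroupOf (Subgroup.zpowers aa ⊔ Subgroup.zpowers g)).IsSubnormal := by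
  have hle : Subgroup.zpowers aa ⊔ Subgroup.zpowers g ≤ Subgroup.centralizer ({aa} : Set Elt) := by
    refine sup_le ?_ ?_
    · rw [Subgroup.zpowers_le]
      exact Subgroup.mem_centralizer_iff.mpr (fun h hh => by rw [Set.mem_singleton_iff.mp hh])
    · rw [Subgroup.zpowers_le]
      exact Subgroup.mem_centralizer_iff.mpr (fun h hh => by rw [Set.mem_singleton_iff.mp hh]; exact hg.symm)
  apply Subgroup.Normal.isSubnormal
  refine ⟨fun n hn m => ?_⟩
  rw [Subgroup.mem_subgroupOf] at hn ⊢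
  obtain ⟨i, hi⟩ := Subgroup.mem_zpowers_iff.mp hn
  have hm : (m : Elt) * aa = aa * m := by
    have := Subgroup.mem_centralizer_iff.mp (hle m.2) aa (Set.mem_singleton aa)
    exact this.symm
  have hc : Commute (m : Elt) (aa ^ i) := (Commute.zpow_right hm i)
  have : ((m * n * m⁻¹ : ↥(Subgroup.zpowers aa ⊔ Subgroup.zpowers g)) : Elt) = aa ^ i := by
    rw [Subgroup.coe_mul, Subgroup.coe_mul, Subgroup.coe_inv, ← hi, hc.eq, mul_inv_cancel_right]
  rw [this]
  exact Subgroup.zpow_mem_zpowers aa i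

theorem sub_stab (g : Elt) (hg : g.u = (0, 0)) :
    ((Subgroup.zpowers aa).subgroupOf (Subgroup.zpowers aa ⊔ Subgroup.zpowers g)).IsSubnormal := by
  have hgr : g ∈ proj.range := by
    refine ⟨g, ?_⟩
    obtain ⟨u, k⟩ := g
    simp only at hg
    subst hg
    rfl
  have hle : Subgroup.zpowers aa ⊔ Subgroup.zpowers g ≤ proj.range := by
    refine sup_le ?_ ?_
    · rw [Subgroup.zpowers_le]; exact ⟨aa, proj_aa⟩
    · rw [Subgroup.zpowers_le]; exact hgr
  have hp : IsPGroup 2 ↥(Subgroup.zpowers aa ⊔ Subgroup.zpowers g) := range_pgroup.to_le hle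
  exact Cfsg.Agent.Helper3.isSubnormal_of_isPGroup hp _


/-- There is a finite solvable group G with a subgroup A of order 2 such that every conjugacy class of G contains an element g for which A is subnormal in the subgroup generated by A and g, and yet A is not contained in O_2(G). (So the corresponding criteria for odd primes fail at the prime 2, even for solvable groups.) -/
theorem result :
    ∃ (G : Type) (_ : Group G) (_ : Finite G) (A : Subgroup G), Group.IsSolvable G ∧ Nat.card A = 2 ∧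
      (∀ c : G, ∃ g : G, IsConj c g ∧ (A.subgroupOf (A ⊔ Subgroup.zpowers g)).IsSubnormal) ∧
      ¬ A ≤ Cfsg.pCore 2 G := by
  refine ⟨Elt, inferInstance, inferInstance, Subgroup.zpowers aa, solvable, ?_, ?_, not_le⟩
  · rw [Nat.card_zpowers]
    haveI : Fact (Nat.Prime 2) := ⟨Nat.prime_two⟩
    refine orderOf_eq_prime ?_ aa_ne
    rw [pow_two]; exact aa_sq
  · intro c
    obtain ⟨x, hx⟩ := main c
    refine ⟨x * c * x⁻¹, isConj_iff.mpr ⟨x, rfl⟩, ?_⟩
    rcases hx with hx | hx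
    · exact sub_comm _ hx
    · exact sub_stab _ hx

end Cfsg.Agent.S4331
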