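import Mathlib
import Cfsg.Statements.S4332
import Cfsg.Agent.Helper1.Fitting
-- import your own Cfsg.Agent.* helpers here

set_option autoImplicit false
open Pointwise
open Cfsg

namespace Cfsg.Agent.S4332

theorem KL (c : Equiv.Perm (Fin 8)) : ∃ x y z : Fin 8, x ≠ y ∧ y ≠ z ∧ x ≠ z ∧
    (((c x = x ∨ c x = y ∨ c x = z) ∧ (c y = x ∨ c y = y ∨ c y = z) ∧ (c z = x ∨ c z = y ∨ c z = z)) ∨
     ((c x ≠ x ∧ c x ≠ y ∧ c x ≠ z) ∧ (c y ≠ x ∧ c y ≠ y ∧ c y ≠ z) ∧ (c z ≠ x ∧ c z ≠ y ∧ c z ≠ z))) := by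
  by_cases hA : ∃ x, c x ≠ x ∧ c (c (c x)) = x
  · obtain ⟨x, hx, hx3⟩ := hA
    refine ⟨x, c x, c (c x), fun h => hx h.symm, ?_, ?_, Or.inl ⟨?_, ?_, ?_⟩⟩
    · intro h; exact hx (c.injective h).symm
    · intro h
      apply hx
      have : c (c (c x)) = c x := by rw [← h]
      rw [hx3] at this; exact this.symm
    · exact Or.inr (Or.inl rfl)
    · exact Or.inr (Or.inr rfl)
    · exact Or.inl hx3
  · push Not at hA
    by_cases hF : 2 < (Finset.univ.filter (fun v : Fin 8 => c v = v)).card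
    · obtain ⟨x, y, z, hx, hy, hz, hxy, hxz, hyz⟩ := Finset.two_lt_card_iff.mp hF
      simp only [Finset.mem_filter, Finset.mem_univ, true_and] at hx hy hz
      exact ⟨x, y, z, hxy, hyz, hxz, Or.inl ⟨Or.inl hx, Or.inr (Or.inl hy), Or.inr (Or.inr hz)⟩⟩
    · have hM : 6 ≤ c.support.card := by
        have h1 := Finset.card_filter_add_card_filter_not (s := (Finset.univ : Finset (Fin 8)))
          (fun v : Fin 8 => c v = v)
        have h2 : (Finset.univ.filter (fun v : Fin 8 => ¬ c v = v)) = c.support := by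
          ext v; simp [Equiv.Perm.mem_support]
        rw [h2] at h1
        simp only [Finset.card_univ, Fintype.card_fin] at h1
        omega
      obtain ⟨x1, hx1⟩ : c.support.Nonempty := by
        rw [← Finset.card_pos]; omega
      have hx1' : c x1 ≠ x1 := Equiv.Perm.mem_support.mp hx1
      obtain ⟨x2, hx2, h12, h21a, h21b, hcard⟩ : ∃ x2 ∈ c.support, x2 ≠ x1 ∧ c x1 ≠ x2 ∧ c x2 ≠ x1 ∧
          ({x1, c x1, c.symm x1, x2, c x2, c.symm x2} : Finset (Fin 8)).card ≤ 5 := by
        by_cases h2 : c (c x1) = x1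
        · have hs : c.symm x1 = c x1 := by rw [Equiv.symm_apply_eq]; exact h2.symm
          obtain ⟨x2, hx2, hx2n⟩ : ∃ e ∈ c.support, e ∉ ({x1, c x1} : Finset (Fin 8)) := by
            apply Finset.exists_mem_notMem_of_card_lt_card
            have := Finset.card_le_two (a := x1) (b := c x1)
            omega
          simp only [Finset.mem_insert, Finset.mem_singleton, not_or] at hx2n
          refine ⟨x2, hx2, hx2n.1, fun h => hx2n.2 h.symm, ?_, ?_⟩
          · intro h
            apply hx2n.2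
            have : c.symm (c x2) = c.symm x1 := by rw [h]
            rw [Equiv.symm_apply_apply, hs] at this
            exact this
          · have hsub : ({x1, c x1, c.symm x1, x2, c x2, c.symm x2} : Finset (Fin 8)) ⊆
                {x1, c x1, x2, c x2, c.symm x2} := by
              intro w hw
              simp only [Finset.mem_insert, Finset.mem_singleton] at hw ⊢
              rcases hw with rfl | rfl | rfl | rfl | rfl | rfl <;> simp [hs]
            exact (Finset.card_le_card hsub).trans Finset.card_le_five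
        · have hcc : c (c (c x1)) ≠ c (c x1) := by
            intro h
            exact hx1' (c.injective (c.injective h))
          refine ⟨c (c x1), Equiv.Perm.mem_support.mpr hcc, h2, ?_, hA x1 hx1', ?_⟩
          · intro h; exact hx1' (c.injective h).symm
          · have hsub : ({x1, c x1, c.symm x1, c (c x1), c (c (c x1)), c.symm (c (c x1))} :
                Finset (Fin 8)) ⊆ {x1, c x1, c.symm x1, c (c x1), c (c (c x1))} := by
              intro w hw
              simp only [Finset.mem_insert, Finset.mem_singleton] at hw ⊢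
              rcases hw with rfl | rfl | rfl | rfl | rfl | rfl <;> simp
            exact (Finset.card_le_card hsub).trans Finset.card_le_five
      have hx2' : c x2 ≠ x2 := Equiv.Perm.mem_support.mp hx2
      obtain ⟨x3, hx3, hx3n⟩ : ∃ e ∈ c.support,
          e ∉ ({x1, c x1, c.symm x1, x2, c x2, c.symm x2} : Finset (Fin 8)) := by
        apply Finset.exists_mem_notMem_of_card_lt_card
        omega
      have hx3' : c x3 ≠ x3 := Equiv.Perm.mem_support.mp hx3
      simp only [Finset.mem_insert, Finset.mem_singleton, not_or] at hx3n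
      obtain ⟨n1, n2, n3, n4, n5, n6⟩ := hx3n
      refine ⟨x1, x2, x3, fun h => h12 h.symm, fun h => n4 h.symm, fun h => n1 h.symm,
        Or.inr ⟨⟨hx1', h21a, fun h => n2 h.symm⟩, ⟨h21b, hx2', fun h => n5 h.symm⟩, ⟨?_, ?_, hx3'⟩⟩⟩
      · intro h
        apply n3
        rw [← h, Equiv.symm_apply_apply]
      · intro h
        apply n6
        rw [← h, Equiv.symm_apply_apply]

theorem three_eq_of_apply {α : Type*} [DecidableEq α] [Fintype α] {σ ρ : Equiv.Perm α}
    (hσ : σ.IsThreeCycle) (hρ : ρ.IsThreeCycle) (hs : ρ.support = σ.support) (a : α)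
    (ha : a ∈ σ.support) (h : ρ a = σ a) : ρ = σ := by
  have ha' : a ∈ ρ.support := hs ▸ ha
  have e1 := hσ.support_eq_iff_mem_support.mpr ha
  have e2 := hρ.support_eq_iff_mem_support.mpr ha'
  have n1 := hσ.nodup_iff_mem_support.mpr ha
  have n2 := hρ.nodup_iff_mem_support.mpr ha'
  have h3 : ρ (ρ a) ∈ σ.support := by
    rw [← hs, e2]; simp
  rw [e1] at h3
  have h2 : ρ (ρ a) = σ (σ a) := by
    simp only [Finset.mem_insert, Finset.mem_singleton] at h3
    simp only [List.nodup_cons, List.mem_cons, List.not_mem_nil, not_or,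
      List.nodup_nil, and_true, not_false_eq_true] at n2
    rcases h3 with h3 | h3 | h3
    · exact absurd h3.symm n2.1.2
    · exact absurd (h3.trans h.symm).symm n2.2
    · exact h3
  calc ρ = Equiv.swap a (ρ a) * Equiv.swap (ρ a) (ρ (ρ a)) :=
        hρ.eq_swap_mul_swap_iff_mem_support.mpr ha'
    _ = Equiv.swap a (σ a) * Equiv.swap (σ a) (σ (σ a)) := by rw [h2, h]
    _ = σ := (hσ.eq_swap_mul_swap_iff_mem_support.mpr ha).symm

theorem three_eq {α : Type*} [DecidableEq α] [Fintype α] {σ ρ : Equiv.Perm α}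
    (hσ : σ.IsThreeCycle) (hρ : ρ.IsThreeCycle) (hs : ρ.support = σ.support) :
    ρ = σ ∨ ρ = σ⁻¹ := by
  obtain ⟨a, ha⟩ : σ.support.Nonempty := by
    rw [← Finset.card_pos, hσ.card_support]; norm_num
  have ha' : a ∈ ρ.support := hs ▸ ha
  have e1 := hσ.support_eq_iff_mem_support.mpr ha
  have h3 : ρ a ∈ σ.support := by
    rw [← hs]; exact Equiv.Perm.apply_mem_support.mpr ha'
  rw [e1] at h3
  simp only [Finset.mem_insert, Finset.mem_singleton] at h3
  rcases h3 with h3 | h3 | h3
  · exact absurd h3 (Equiv.Perm.mem_support.mp ha')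
  · exact Or.inl (three_eq_of_apply hσ hρ hs a ha h3)
  · right
    have hc : σ (σ (σ a)) = a := by
      have : (σ ^ 3) a = a := by
        rw [← hσ.orderOf, pow_orderOf_eq_one]; rfl
      simpa [pow_succ] using this
    have hi : σ⁻¹ a = σ (σ a) := by
      rw [Equiv.Perm.inv_eq_iff_eq]; exact hc.symm
    refine three_eq_of_apply hσ.inv hρ (by rw [hs, Equiv.Perm.support_inv]) a
      (by rw [Equiv.Perm.support_inv]; exact ha) (by rw [hi]; exact h3)

theorem sub_comm {G : Type*} [Group G] (a g : G) (hg : g * a = a * g) :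
    ((Subgroup.zpowers a).subgroupOf (Subgroup.zpowers a ⊔ Subgroup.zpowers g)).IsSubnormal := by
  have hle : Subgroup.zpowers a ⊔ Subgroup.zpowers g ≤ Subgroup.centralizer ({a} : Set G) := by
    refine sup_le ?_ ?_
    · rw [Subgroup.zpowers_le]
      exact Subgroup.mem_centralizer_iff.mpr (fun h hh => by rw [Set.mem_singleton_iff.mp hh])
    · rw [Subgroup.zpowers_le]
      exact Subgroup.mem_centralizer_iff.mpr
        (fun h hh => by rw [Set.mem_singleton_iff.mp hh]; exact hg.symm)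
  apply Subgroup.Normal.isSubnormal
  refine ⟨fun n hn m => ?_⟩
  rw [Subgroup.mem_subgroupOf] at hn ⊢
  obtain ⟨i, hi⟩ := Subgroup.mem_zpowers_iff.mp hn
  have hm : (m : G) * a = a * m := by
    have := Subgroup.mem_centralizer_iff.mp (hle m.2) a (Set.mem_singleton a)
    exact this.symm
  have hc : Commute (m : G) (a ^ i) := (Commute.zpow_right hm i)
  have : ((m * n * m⁻¹ : ↥(Subgroup.zpowers a ⊔ Subgroup.zpowers g)) : G) = a ^ i := by
    rw [Subgroup.coe_mul, Subgroup.coe_mul, Subgroup.coe_inv, ← hi, hc.eq, mul_inv_cancel_right]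
  rw [this]
  exact Subgroup.zpow_mem_zpowers a i

theorem core3 : Cfsg.pCore 3 (Equiv.Perm (Fin 8)) = ⊥ := by
  by_contra hne
  have := Cfsg.Agent.Helper1.pCore_normal 3 (Equiv.Perm (Fin 8))
  have hnt : Nontrivial ↥(Cfsg.pCore 3 (Equiv.Perm (Fin 8))) :=
    (Subgroup.nontrivial_iff_ne_bot _).mpr hne
  have hA := Equiv.Perm.alternatingGroup_le_of_normal (α := Fin 8) (by simp) hnt
  have he : (Equiv.swap (0 : Fin 8) 1 * Equiv.swap 2 3) ∈ alternatingGroup (Fin 8) := by
    rw [Equiv.Perm.mem_alternatingGroup]; decide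
  have hw := hA he
  obtain ⟨n, hn⟩ := Cfsg.Agent.Helper1.pCore_isPGroup 3 (Equiv.Perm (Fin 8)) ⟨_, hw⟩
  have hn' : (Equiv.swap (0 : Fin 8) 1 * Equiv.swap 2 3) ^ (3 ^ n) = 1 := by
    have := congrArg Subtype.val hn
    simpa using this
  have ho : orderOf (Equiv.swap (0 : Fin 8) 1 * Equiv.swap 2 3) = 2 := by
    have : Fact (Nat.Prime 2) := ⟨Nat.prime_two⟩
    refine orderOf_eq_prime ?_ ?_
    · decide
    · decide
  have hd : 2 ∣ 3 ^ n := ho ▸ orderOf_dvd_of_pow_eq_one hn'
  have := Nat.Prime.dvd_of_dvd_pow Nat.prime_two hd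
  omega

theorem smul_zpowers {G : Type*} [Group G] (g a : G) :
    MulAut.conj g • Subgroup.zpowers a = Subgroup.zpowers (g * a * g⁻¹) := by
  show Subgroup.map (MulAut.conj g).toMonoidHom (Subgroup.zpowers a) = _
  rw [MonoidHom.map_zpowers]
  rfl


/-- In the symmetric group of degree 8, let A be the subgroup generated by a 3-cycle. Then every conjugacy class contains an element g for which A is subnormal in the subgroup generated by A and its conjugate by g, although O_3 of the symmetric group of degree 8 is trivial. -/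
theorem result
    (σ : Equiv.Perm (Fin 8)) (hσ : σ.IsThreeCycle) :
    (∀ c : Equiv.Perm (Fin 8), ∃ g : Equiv.Perm (Fin 8), IsConj c g ∧
      ((Subgroup.zpowers σ).subgroupOf (Subgroup.zpowers σ ⊔ MulAut.conj g • Subgroup.zpowers σ)).IsSubnormal) ∧
    Cfsg.pCore 3 (Equiv.Perm (Fin 8)) = ⊥ := by
  refine ⟨?_, core3⟩
  intro c
  obtain ⟨x, y, z, hxy, hyz, hxz, h⟩ := KL c
  obtain ⟨p, hp⟩ : σ.support.Nonempty := by
    rw [← Finset.card_pos, hσ.card_support]; norm_num
  have e1 := hσ.support_eq_iff_mem_support.mpr hp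
  have n1 := hσ.nodup_iff_mem_support.mpr hp
  simp only [List.nodup_cons, List.mem_cons, List.not_mem_nil, not_or,
    List.nodup_nil, and_true, not_false_eq_true] at n1
  obtain ⟨⟨hpq, hpr⟩, hqr⟩ := n1
  have hf : Function.Injective (![x, y, z] : Fin 3 → Fin 8) := by
    intro i j hij
    fin_cases i <;> fin_cases j <;> simp_all
  have hg0 : Function.Injective (![p, σ p, σ (σ p)] : Fin 3 → Fin 8) := by
    intro i j hij
    fin_cases i <;> fin_cases j <;> simp_all
  obtain ⟨τ, hτ⟩ := Equiv.Perm.exists_extending_pair _ _ hf hg0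
  have tx : τ x = p := hτ 0
  have ty : τ y = σ p := hτ 1
  have tz : τ z = σ (σ p) := hτ 2
  have ix : τ⁻¹ p = x := by rw [Equiv.Perm.inv_eq_iff_eq]; exact tx.symm
  have iy : τ⁻¹ (σ p) = y := by rw [Equiv.Perm.inv_eq_iff_eq]; exact ty.symm
  have iz : τ⁻¹ (σ (σ p)) = z := by rw [Equiv.Perm.inv_eq_iff_eq]; exact tz.symm
  have gp : (τ * c * τ⁻¹) p = τ (c x) := by
    show τ (c (τ⁻¹ p)) = τ (c x)
    rw [ix]
  have gq : (τ * c * τ⁻¹) (σ p) = τ (c y) := by
    show τ (c (τ⁻¹ (σ p))) = τ (c y)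
    rw [iy]
  have gr : (τ * c * τ⁻¹) (σ (σ p)) = τ (c z) := by
    show τ (c (τ⁻¹ (σ (σ p)))) = τ (c z)
    rw [iz]
  refine ⟨τ * c * τ⁻¹, isConj_iff.mpr ⟨τ, rfl⟩, ?_⟩
  rw [smul_zpowers]
  have hσ' : ((τ * c * τ⁻¹) * σ * (τ * c * τ⁻¹)⁻¹).IsThreeCycle := by
    unfold Equiv.Perm.IsThreeCycle
    rw [Equiv.Perm.cycleType_conj]; exact hσ
  have hsup : ((τ * c * τ⁻¹) * σ * (τ * c * τ⁻¹)⁻¹).support =
      {τ (c x), τ (c y), τ (c z)} := by
    rw [Equiv.Perm.support_conj, e1]
    ext w
    simp only [Finset.mem_map, Finset.mem_insert, Finset.mem_singleton, Equiv.coe_toEmbedding]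
    constructor
    · rintro ⟨v, rfl | rfl | rfl, rfl⟩
      · exact Or.inl gp
      · exact Or.inr (Or.inl gq)
      · exact Or.inr (Or.inr gr)
    · rintro (rfl | rfl | rfl)
      · exact ⟨p, Or.inl rfl, gp⟩
      · exact ⟨σ p, Or.inr (Or.inl rfl), gq⟩
      · exact ⟨σ (σ p), Or.inr (Or.inr rfl), gr⟩
  rcases h with ⟨h1, h2, h3⟩ | ⟨h1, h2, h3⟩
  · -- invariant case
    have hsub : ((τ * c * τ⁻¹) * σ * (τ * c * τ⁻¹)⁻¹).support ⊆ σ.support := by
      rw [hsup, e1]
      intro w hw
      simp only [Finset.mem_insert, Finset.mem_singleton] at hw ⊢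
      rcases hw with rfl | rfl | rfl
      · rcases h1 with h | h | h <;> rw [h] <;> simp [tx, ty, tz]
      · rcases h2 with h | h | h <;> rw [h] <;> simp [tx, ty, tz]
      · rcases h3 with h | h | h <;> rw [h] <;> simp [tx, ty, tz]
    have hseq : ((τ * c * τ⁻¹) * σ * (τ * c * τ⁻¹)⁻¹).support = σ.support :=
      Finset.eq_of_subset_of_card_le hsub (by rw [hσ.card_support, hσ'.card_support])
    have hz : Subgroup.zpowers ((τ * c * τ⁻¹) * σ * (τ * c * τ⁻¹)⁻¹) = Subgroup.zpowers σ := by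
      rcases three_eq hσ hσ' hseq with h | h
      · rw [h]
      · rw [h, Subgroup.zpowers_inv]
    rw [hz, sup_idem, Subgroup.subgroupOf_self]
    exact Subgroup.IsSubnormal.top
  · -- disjoint case
    have hdis : Disjoint σ.support ((τ * c * τ⁻¹) * σ * (τ * c * τ⁻¹)⁻¹).support := by
      rw [hsup, e1, Finset.disjoint_left]
      intro w hw hw'
      simp only [Finset.mem_insert, Finset.mem_singleton] at hw hw'
      have key : ∀ v : Fin 8, v ≠ x → v ≠ y → v ≠ z → τ v ≠ p ∧ τ v ≠ σ p ∧ τ v ≠ σ (σ p) := by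
        intro v vx vy vz
        refine ⟨?_, ?_, ?_⟩
        · intro hv; exact vx (τ.injective (hv.trans tx.symm))
        · intro hv; exact vy (τ.injective (hv.trans ty.symm))
        · intro hv; exact vz (τ.injective (hv.trans tz.symm))
      have k1 := key (c x) h1.1 h1.2.1 h1.2.2
      have k2 := key (c y) h2.1 h2.2.1 h2.2.2
      have k3 := key (c z) h3.1 h3.2.1 h3.2.2
      rcases hw with rfl | rfl | rfl <;> rcases hw' with hw' | hw' | hw' <;>
        first
          | exact k1.1 hw'.symm | exact k1.2.1 hw'.symm | exact k1.2.2 hw'.symm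
          | exact k2.1 hw'.symm | exact k2.2.1 hw'.symm | exact k2.2.2 hw'.symm
          | exact k3.1 hw'.symm | exact k3.2.1 hw'.symm | exact k3.2.2 hw'.symm
    have hcomm : Commute σ ((τ * c * τ⁻¹) * σ * (τ * c * τ⁻¹)⁻¹) :=
      (Equiv.Perm.disjoint_iff_disjoint_support.mpr hdis).commute
    exact sub_comm _ _ hcomm.eq.symm

end Cfsg.Agent.S4332
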