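import Cfsg.Statements.S4333
import Cfsg.Agent.S0001
import Cfsg.Agent.S0540
import Cfsg.Agent.S0066
import Mathlib

set_option autoImplicit false
open Pointwise
open Cfsg

namespace Cfsg.Agent.S4333

universe u

/-- the hypothesis of the statement -/
def Hyp {G : Type u} [Group G] (X : Subgroup G) : Prop :=
  ∀ a ∈ X, ∀ g : G, (X.subgroupOf (X ⊔ MulAut.conj (g⁻¹ * a * g) • X)).IsSubnormal

theorem hyp_conj {G : Type u} [Group G] {X : Subgroup G} (c : G) (hX : Hyp X) :
    Hyp (MulAut.conj c • X) := by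
  intro a' ha' g
  have ha : c⁻¹ * a' * c ∈ X := (Cfsg.Agent.S0066.mem_conj c a' X).1 ha'
  have h1 := Cfsg.Agent.S0066.sn_conj c (hX _ ha (c⁻¹ * g * c))
  rw [Subgroup.smul_sup, Cfsg.Agent.S0540.conj_smul_smul] at h1
  rw [Cfsg.Agent.S0540.conj_smul_smul]
  have e : c * ((c⁻¹ * g * c)⁻¹ * (c⁻¹ * a' * c) * (c⁻¹ * g * c)) = g⁻¹ * a' * g * c := by group
  rw [e] at h1
  exact h1

theorem hyp_sub {G : Type u} [Group G] {X : Subgroup G} (V : Subgroup G) (hX : Hyp X) :
    Hyp (X.subgroupOf V) := by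
  intro a ha g
  have ha' : (a : G) ∈ X := Subgroup.mem_subgroupOf.1 ha
  have hE : MulAut.conj (g⁻¹ * a * g) • (X.subgroupOf V)
      = (MulAut.conj (((g : G))⁻¹ * (a : G) * (g : G)) • X).subgroupOf V := by
    ext y
    rw [Cfsg.Agent.S0066.mem_conj, Subgroup.mem_subgroupOf, Subgroup.mem_subgroupOf,
      Cfsg.Agent.S0066.mem_conj]
    exact Iff.rfl
  obtain ⟨Yw, hYw⟩ : ∃ Y, Y = MulAut.conj (((g : G))⁻¹ * (a : G) * (g : G)) • X := ⟨_, rfl⟩
  have hsn : (X.subgroupOf (X ⊔ Yw)).IsSubnormal := by rw [hYw]; exact hX _ ha' _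
  rw [hE, ← hYw]
  have hJ : X.subgroupOf V ⊔ Yw.subgroupOf V ≤ (X ⊔ Yw).subgroupOf V :=
    sup_le (Subgroup.comap_mono le_sup_left) (Subgroup.comap_mono le_sup_right)
  have e2 : (X.subgroupOf V).subgroupOf (X.subgroupOf V ⊔ Yw.subgroupOf V)
      = (X.subgroupOf (X ⊔ Yw)).comap
        ((V.subtype.comp (Subgroup.subtype (X.subgroupOf V ⊔ Yw.subgroupOf V))).codRestrict
          (X ⊔ Yw) (fun x => hJ x.2)) :=
    Subgroup.ext fun x => Iff.rfl
  rw [e2]
  exact hsn.comap _

theorem aux : ∀ (n : ℕ) (G : Type u) [Group G] [Finite G],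
    Nat.card G = n → ∀ X : Subgroup G, Hyp X → X.IsSubnormal := by
  intro n
  induction n using Nat.strong_induction_on with
  | _ n ih =>
    intro G _ _ hn X hX
    by_contra hnot
    have stepA : ∀ (V : Subgroup G), V ≠ ⊤ → ∀ a : G, MulAut.conj a • X ≤ V →
        ((MulAut.conj a • X).subgroupOf V).IsSubnormal := by
      intro V hV a haV
      have hlt : Nat.card V < n := by rw [← hn]; exact Cfsg.Agent.S0001.card_sub_lt V hV
      exact ih _ hlt ↥V rfl _ (hyp_sub V (hyp_conj a hX))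
    have hXtop : X ≠ ⊤ := by
      intro h
      apply hnot
      rw [h]
      exact Subgroup.IsSubnormal.top
    have hX1 : ∀ V : Subgroup G, V ≠ ⊤ → X ≤ V → (X.subgroupOf V).IsSubnormal := by
      intro V hV hXV
      have h1 := stepA V hV 1 (by rw [Cfsg.Agent.S0066.conj_one_smul]; exact hXV)
      rw [Cfsg.Agent.S0066.conj_one_smul] at h1
      exact h1
    have h3core : ∀ V : Subgroup G, V ≠ ⊤ → X ≤ V → ∀ T : Set (Subgroup G), X ∈ T →
        (∀ B ∈ T, B ≤ V) →
        Subgroup.normalizer ((sSup T : Subgroup G) : Set G) ≠ ⊤ ∧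
          X ≤ Subgroup.normalizer ((sSup T : Subgroup G) : Set G) := by
      intro V hV hXV T hXT hTV
      have hXs : X ≤ sSup T := le_sSup hXT
      refine ⟨?_, hXs.trans Subgroup.le_normalizer⟩
      intro htop
      have hn : (sSup T).Normal := Subgroup.normalizer_eq_top_iff.1 htop
      have hsV : sSup T ≤ V := sSup_le hTV
      have h2 : (X.subgroupOf (sSup T)).IsSubnormal :=
        Cfsg.Agent.S0066.sn_restrict hsV (hX1 V hV hXV)
      exact hnot (Subgroup.IsSubnormal.trans hXs h2 (Subgroup.Normal.isSubnormal hn))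
    obtain ⟨S, hSdef⟩ : ∃ S : Subgroup G → Set (Subgroup G), ∀ V B : Subgroup G,
        B ∈ S V ↔ (∃ g : G, B = MulAut.conj g • X) ∧ B ≤ V ∧ (B.subgroupOf V).IsSubnormal :=
      ⟨fun V => {B : Subgroup G | (∃ g : G, B = MulAut.conj g • X) ∧ B ≤ V ∧
        (B.subgroupOf V).IsSubnormal}, fun V B => Iff.rfl⟩
    have hmemS : ∀ V : Subgroup G, V ≠ ⊤ → X ≤ V → X ∈ S V := by
      intro V hV hXV
      exact (hSdef V X).2 ⟨⟨1, (Cfsg.Agent.S0066.conj_one_smul X).symm⟩, hXV, hX1 V hV hXV⟩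
    obtain ⟨M, hMU, hMmax⟩ := Cfsg.Agent.S0540.result X {V : Subgroup G | V ≠ ⊤ ∧ X ≤ V}
      ⟨X, hXtop, le_rfl⟩ S hSdef
      (fun V hV => hmemS V hV.1 hV.2)
      (by
        intro V hV W hW B hB hBV
        obtain ⟨⟨g, rfl⟩, -, -⟩ := (hSdef W B).1 hB
        exact (hSdef V _).2 ⟨⟨g, rfl⟩, hBV, stepA V hV.1 g hBV⟩)
      (by
        intro V hV W hW
        exact ⟨Subgroup.normalizer ((sSup (S V ∩ S W) : Subgroup G) : Set G),
          h3core V hV.1 hV.2 (S V ∩ S W) ⟨hmemS V hV.1 hV.2, hmemS W hW.1 hW.2⟩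
            (fun B hB => ((hSdef V B).1 hB.1).2.1), le_rfl⟩)
    -- conjugates of elements of X normalize M
    have hnorm : ∀ a ∈ X, ∀ g : G, g⁻¹ * a * g ∈ Subgroup.normalizer (M : Set G) := by
      intro a ha g
      obtain ⟨x, hx⟩ : ∃ x : G, x = g⁻¹ * a * g := ⟨_, rfl⟩
      rw [← hx]
      have hxM : MulAut.conj x • X ≤ M := by
        by_cases hT : X ⊔ MulAut.conj x • X = ⊤
        · exfalso
          have h1 := hX a ha g
          rw [← hx, hT] at h1
          exact hnot (Subgroup.IsSubnormal.trans le_top h1 Subgroup.IsSubnormal.top)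
        · exact le_sup_right.trans (hMmax (X ⊔ MulAut.conj x • X) ⟨hT, le_sup_left⟩)
      -- X ≤ conj x⁻¹ • M
      have hXM' : X ≤ MulAut.conj x⁻¹ • M := by
        intro y hy
        rw [Cfsg.Agent.S0066.mem_conj, inv_inv]
        apply hxM
        rw [Cfsg.Agent.S0066.mem_conj]
        have e : x⁻¹ * (x * y * x⁻¹) * x = y := by group
        rw [e]; exact hy
      have hne : MulAut.conj x⁻¹ • M ≠ ⊤ := by
        intro htop
        apply hMU.1
        rw [eq_top_iff]
        intro y _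
        have h1 : x⁻¹ * y * x ∈ MulAut.conj x⁻¹ • M := by rw [htop]; exact Subgroup.mem_top _
        rw [Cfsg.Agent.S0066.mem_conj, inv_inv] at h1
        have e : x * (x⁻¹ * y * x) * x⁻¹ = y := by group
        rw [e] at h1; exact h1
      have hle : MulAut.conj x⁻¹ • M ≤ M := hMmax _ ⟨hne, hXM'⟩
      have h2 := Cfsg.Agent.S0540.mem_normalizer_of_smul_le M x⁻¹ hle
      have h3 := inv_mem h2
      rwa [inv_inv] at h3
    obtain ⟨N, hNdef⟩ : ∃ N : Subgroup G, N = Subgroup.normalClosure (X : Set G) := ⟨_, rfl⟩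
    have hNn : N.Normal := by rw [hNdef]; exact Subgroup.normalClosure_normal
    have hXN : X ≤ N := by rw [hNdef]; exact Subgroup.le_normalClosure
    have hNM : N ≤ Subgroup.normalizer (M : Set G) := by
      rw [hNdef]
      show Subgroup.closure (Group.conjugatesOfSet (X : Set G)) ≤ _
      rw [Subgroup.closure_le]
      intro y hy
      rw [Group.mem_conjugatesOfSet_iff] at hy
      obtain ⟨x, hx, hc⟩ := hy
      obtain ⟨c, rfl⟩ := isConj_iff.1 hc
      have h1 := hnorm x hx c⁻¹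
      rw [inv_inv] at h1
      exact h1
    by_cases hNtop : N = ⊤
    · have hMn : M.Normal := by
        apply Subgroup.normalizer_eq_top_iff.1
        rw [eq_top_iff, ← hNtop]; exact hNM
      exact hnot (Subgroup.IsSubnormal.trans hMU.2 (hX1 M hMU.1 hMU.2)
        (Subgroup.Normal.isSubnormal hMn))
    · exact hnot (Subgroup.IsSubnormal.trans hXN (hX1 N hNtop hXN)
        (Subgroup.Normal.isSubnormal hNn))

/-- Let A be a subgroup of a finite group G. If A is subnormal in the subgroup generated by A and its conjugate by g⁻¹ a g, for every a ∈ A and every g ∈ G, then A is subnormal in G. (A sharpening of Wielandt's subnormality criterion: only conjugates of A by conjugates of elements of A are needed.) -/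
theorem result {G : Type*} [Group G] [Finite G]
    (A : Subgroup G)
    (h : ∀ a ∈ A, ∀ g : G, (A.subgroupOf (A ⊔ MulAut.conj (g⁻¹ * a * g) • A)).IsSubnormal) :
    A.IsSubnormal := by
  exact aux _ G rfl A h

end Cfsg.Agent.S4333
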