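import Cfsg.Statements.S4337
import Mathlib
import Cfsg.Agent.Helper24.CharBurnside
-- import your own Cfsg.Agent.* helpers here

set_option autoImplicit false
open Cfsg

namespace Cfsg.Agent.S4337

theorem central {G : Type*} [Group G] (S : Set G) (x : G) (T : Set G) (hST : S ⊆ insert x T)
    (hx : ∀ y ∈ T, Commute x y)
    (hT : Group.IsSolvable (Subgroup.closure T)) : Group.IsSolvable (Subgroup.closure S) := by
  have hcent : Subgroup.closure T ≤ Subgroup.centralizer {x} := by
    rw [Subgroup.closure_le]
    intro y hy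
    rw [SetLike.mem_coe, Subgroup.mem_centralizer_iff]
    intro h hh
    rw [Set.mem_singleton_iff] at hh
    subst hh
    exact (hx y hy).eq
  have hcomm : ∀ (d : Subgroup.closure T) (z : Subgroup.zpowers x),
      Commute ((Subgroup.closure T).subtype d) ((Subgroup.zpowers x).subtype z) := by
    intro d z
    obtain ⟨k, hk⟩ := Subgroup.mem_zpowers_iff.mp z.2
    show Commute (d : G) (z : G)
    rw [← hk]
    apply Commute.zpow_right
    have h2 := hcent d.2
    rw [Subgroup.mem_centralizer_iff] at h2
    exact (h2 x rfl).symm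
  let f : Subgroup.closure T × Subgroup.zpowers x →* G :=
    MonoidHom.noncommCoprod (Subgroup.closure T).subtype (Subgroup.zpowers x).subtype hcomm
  haveI := hT
  haveI : Group.IsSolvable (Subgroup.zpowers x) := by
    apply Group.isSolvable_of_comm
    rintro ⟨a, ha⟩ ⟨b, hb⟩
    obtain ⟨k, rfl⟩ := Subgroup.mem_zpowers_iff.mp ha
    obtain ⟨l, rfl⟩ := Subgroup.mem_zpowers_iff.mp hb
    apply Subtype.ext
    show x ^ k * x ^ l = x ^ l * x ^ k
    rw [← zpow_add, ← zpow_add, add_comm]
  haveI : Group.IsSolvable f.range := Group.isSolvable_of_surjective f.rangeRestrict_surjective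
  have hle : Subgroup.closure S ≤ f.range := by
    rw [Subgroup.closure_le]
    intro y hy
    rcases hST hy with rfl | hy'
    · exact ⟨(1, ⟨y, Subgroup.mem_zpowers y⟩), by simp [f]⟩
    · exact ⟨(⟨y, Subgroup.subset_closure hy'⟩, 1), by simp [f]⟩
  exact Group.isSolvable_of_isSolvable_injective (Subgroup.inclusion_injective hle)

theorem small (n : ℕ) (S : Set (Equiv.Perm (Fin n))) (U : Finset (Fin n)) (hU : U.card ≤ 4)
    (hS : ∀ σ ∈ S, σ.support ⊆ U) : Group.IsSolvable (Subgroup.closure S) := by
  classical
  let f : Equiv.Perm {x // x ∈ U} →* Equiv.Perm (Fin n) := Equiv.Perm.ofSubtype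
  have hsolv : Group.IsSolvable (Equiv.Perm {x // x ∈ U}) := by
    have hcard : Nat.card (Equiv.Perm {x // x ∈ U}) = (U.card).factorial := by
      rw [Nat.card_eq_fintype_card, Fintype.card_perm, Fintype.card_coe]
    have hex : ∃ a b, (U.card).factorial = 2 ^ a * 3 ^ b := by
      have h0 : U.card = 0 ∨ U.card = 1 ∨ U.card = 2 ∨ U.card = 3 ∨ U.card = 4 := by omega
      rcases h0 with h | h | h | h | h <;> rw [h]
      · exact ⟨0, 0, rfl⟩
      · exact ⟨0, 0, rfl⟩
      · exact ⟨1, 0, rfl⟩
      · exact ⟨1, 1, rfl⟩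
      · exact ⟨3, 1, rfl⟩
    obtain ⟨a, b, hab⟩ := hex
    exact Cfsg.Agent.Helper24.isSolvable_of_card_prime_pow_mul 2 3 a b Nat.prime_two Nat.prime_three
      (hcard.trans hab)
  haveI := hsolv
  haveI : Group.IsSolvable f.range := Group.isSolvable_of_surjective f.rangeRestrict_surjective
  have hle : Subgroup.closure S ≤ f.range := by
    rw [Subgroup.closure_le]
    intro σ hσ
    have hsup := hS σ hσ
    have h₂ : ∀ x, σ x ≠ x → x ∈ U := fun x hx => hsup (Equiv.Perm.mem_support.mpr hx)
    have h₁ : ∀ x, σ x ∈ U ↔ x ∈ U := by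
      intro x
      by_cases hx : σ x = x
      · rw [hx]
      · have hx' : x ∈ σ.support := Equiv.Perm.mem_support.mpr hx
        exact ⟨fun _ => hsup hx', fun _ => hsup (Equiv.Perm.apply_mem_support.mpr hx')⟩
    exact ⟨Equiv.Perm.subtypePerm σ h₁, Equiv.Perm.ofSubtype_subtypePerm h₁ h₂⟩
  exact Group.isSolvable_of_isSolvable_injective (Subgroup.inclusion_injective hle)

theorem card_chain {α : Type*} [DecidableEq α] (A B C : Finset α) (hA : A.card = 2) (hB : B.card = 2)
    (hC : C.card = 2) (hAB : ¬ Disjoint A B) (hBC : ¬ Disjoint B C) : (A ∪ B ∪ C).card ≤ 4 := by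
  have h1 := Finset.card_union_add_card_inter A B
  have h2 := Finset.card_union_add_card_inter (A ∪ B) C
  have h3 : 1 ≤ (A ∩ B).card :=
    Finset.card_pos.mpr (Finset.not_disjoint_iff_nonempty_inter.mp hAB)
  have h4 : 1 ≤ ((A ∪ B) ∩ C).card := by
    obtain ⟨t, ht⟩ := Finset.not_disjoint_iff_nonempty_inter.mp hBC
    rw [Finset.mem_inter] at ht
    exact Finset.card_pos.mpr ⟨t, Finset.mem_inter.mpr ⟨Finset.mem_union_right _ ht.1, ht.2⟩⟩
  omega

theorem two {n : ℕ} (x y : Equiv.Perm (Fin n)) (hx : x.IsSwap) (hy : y.IsSwap) :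
    Group.IsSolvable (Subgroup.closure ({x, y} : Set (Equiv.Perm (Fin n)))) := by
  classical
  apply small n _ (x.support ∪ y.support)
  · have h1 := Finset.card_union_le x.support y.support
    rw [Equiv.Perm.card_support_eq_two.mpr hx, Equiv.Perm.card_support_eq_two.mpr hy] at h1
    exact h1
  · rintro σ (rfl | rfl)
    · exact Finset.subset_union_left
    · exact Finset.subset_union_right

theorem chain {n : ℕ} (S : Set (Equiv.Perm (Fin n))) (x y z : Equiv.Perm (Fin n))
    (hS : S ⊆ {x, y, z}) (hx : x.IsSwap) (hy : y.IsSwap)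
    (hz : z.IsSwap) (hxy : ¬ Disjoint x.support y.support) (hyz : ¬ Disjoint y.support z.support) :
    Group.IsSolvable (Subgroup.closure S) := by
  classical
  apply small n _ (x.support ∪ y.support ∪ z.support)
  · exact card_chain _ _ _ (Equiv.Perm.card_support_eq_two.mpr hx)
      (Equiv.Perm.card_support_eq_two.mpr hy) (Equiv.Perm.card_support_eq_two.mpr hz) hxy hyz
  · intro σ hσ
    rcases hS hσ with rfl | rfl | rfl
    · intro t ht; simp only [Finset.mem_union]; tauto
    · intro t ht; simp only [Finset.mem_union]; tauto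
    · intro t ht; simp only [Finset.mem_union]; tauto

theorem comm_of_disj {n : ℕ} (x y : Equiv.Perm (Fin n)) (h : Disjoint x.support y.support) :
    Commute x y :=
  (Equiv.Perm.disjoint_iff_disjoint_support.mpr h).commute



/-- In a finite symmetric group, any three transpositions generate a solvable subgroup. -/
theorem result (n : ℕ) (a b c : Equiv.Perm (Fin n))
    (ha : a.IsSwap) (hb : b.IsSwap) (hc : c.IsSwap) :
    Group.IsSolvable (Subgroup.closure ({a, b, c} : Set (Equiv.Perm (Fin n)))) := by
  classical
  by_cases hab : Disjoint a.support b.support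
  · by_cases hac : Disjoint a.support c.support
    · exact central _ a {b, c} (le_refl _)
        (by rintro y (rfl | rfl); exacts [comm_of_disj _ _ hab, comm_of_disj _ _ hac]) (two b c hb hc)
    · by_cases hbc : Disjoint b.support c.support
      · exact central _ b {a, c}
          (by intro σ hσ; simp only [Set.mem_insert_iff, Set.mem_singleton_iff] at hσ ⊢; tauto)
          (by rintro y (rfl | rfl); exacts [comm_of_disj _ _ hab.symm, comm_of_disj _ _ hbc])
          (two a c ha hc)
      · exact chain _ a c b
          (by intro σ hσ; simp only [Set.mem_insert_iff, Set.mem_singleton_iff] at hσ ⊢; tauto)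
          ha hc hb hac (fun h => hbc h.symm)
  · by_cases hac : Disjoint a.support c.support
    · by_cases hbc : Disjoint b.support c.support
      · exact central _ c {a, b}
          (by intro σ hσ; simp only [Set.mem_insert_iff, Set.mem_singleton_iff] at hσ ⊢; tauto)
          (by rintro y (rfl | rfl); exacts [comm_of_disj _ _ hac.symm, comm_of_disj _ _ hbc.symm])
          (two a b ha hb)
      · exact chain _ a b c (le_refl _) ha hb hc hab hbc
    · exact chain _ b a c
        (by intro σ hσ; simp only [Set.mem_insert_iff, Set.mem_singleton_iff] at hσ ⊢; tauto)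
        hb ha hc (fun h => hab h.symm) hac

end Cfsg.Agent.S4337
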