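import Cfsg.Statements.S4341
import Cfsg.Agent.Helper22.SylowCount

set_option autoImplicit false
open Cfsg

namespace Cfsg.Agent.S4341

/-- Let K be a normal subgroup of a finite group G, p a prime and P a Sylow p-subgroup of G; let N be the normalizer of P ∩ K inside the subgroup PK. Then the number of Sylow p-subgroups of G equals the product of the numbers of Sylow p-subgroups of G/K, of K, and of N/(P ∩ K). (The normality of P ∩ K in N, which always holds, is assumed as a hypothesis so that the quotient can be formed.) -/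
theorem result {G : Type*} [Group G] [Finite G]
    (p : ℕ) [Fact p.Prime] (K : Subgroup G) [K.Normal] (P : Sylow p G) (N : Subgroup G)
    (hN : N = ((P : Subgroup G) ⊔ K) ⊓ Subgroup.normalizer (((P : Subgroup G) ⊓ K : Subgroup G) : Set G))
    [hn : (((P : Subgroup G) ⊓ K).subgroupOf N).Normal] :
    Nat.card (Sylow p G) =
      Nat.card (Sylow p (G ⧸ K)) * Nat.card (Sylow p K) * Nat.card (Sylow p (N ⧸ ((P : Subgroup G) ⊓ K).subgroupOf N)) := by
  obtain ⟨NP, hNP⟩ : ∃ NP : Subgroup G,
      NP = Subgroup.normalizer ((P : Subgroup G) : Set G) := ⟨_, rfl⟩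
  obtain ⟨ND, hND⟩ : ∃ ND : Subgroup G, ND = Subgroup.normalizer
      ((((P : Subgroup G) ⊓ K : Subgroup G)) : Set G) := ⟨_, rfl⟩
  obtain ⟨H, hH⟩ : ∃ H : Subgroup G, H = (P : Subgroup G) ⊔ K := ⟨_, rfl⟩
  have hN' : N = ND ⊓ H := by
    rw [hN, hND, hH]
    exact inf_comm _ _
  have hP_NP : (P : Subgroup G) ≤ NP := by rw [hNP]; exact Subgroup.le_normalizer
  have hNPND : NP ≤ ND := by
    rw [hNP, hND]
    intro g hg
    rw [Subgroup.mem_normalizer_iff] at hg ⊢
    intro y
    have hK : g ∈ Subgroup.normalizer (K : Set G) := by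
      rw [Subgroup.normalizer_eq_top]; exact Subgroup.mem_top g
    rw [Subgroup.mem_normalizer_iff] at hK
    rw [Subgroup.mem_inf, Subgroup.mem_inf, hg y, hK y]
  have hPH : (P : Subgroup G) ≤ H := by rw [hH]; exact le_sup_left
  have hKH : K ≤ H := by rw [hH]; exact le_sup_right
  have hPN : (P : Subgroup G) ≤ N := by
    rw [hN']
    exact le_inf (le_trans hP_NP hNPND) hPH
  have hNH : N ≤ H := by rw [hN']; exact inf_le_right
  have h12 : Nat.card (Sylow p G) = NP.relIndex K * Nat.card (Sylow p (G ⧸ K)) := by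
    rw [hNP]
    exact Cfsg.Agent.Helper22.card_sylow_eq_relIndex_mul K P
  have h3 : Nat.card (Sylow p K) = ND.relIndex K := by
    rw [Sylow.card_eq_index_normalizer (Cfsg.Agent.Helper19.sylowInf P K)]
    have hcoe : ((Cfsg.Agent.Helper19.sylowInf P K : Sylow p K) : Subgroup K) =
        ((P : Subgroup G) ⊓ K).subgroupOf K := by
      rw [Subgroup.inf_subgroupOf_right]
      rfl
    have h5 : Subgroup.normalizer
        (((Cfsg.Agent.Helper19.sylowInf P K : Sylow p K) : Subgroup K) : Set K) =
        ND.subgroupOf K := by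
      rw [hcoe, ← Subgroup.subgroupOf_normalizer_eq inf_le_right, ← hND]
    exact congrArg Subgroup.index h5
  have h4 : Nat.card (Sylow p (N ⧸ ((P : Subgroup G) ⊓ K).subgroupOf N)) = NP.relIndex N := by
    rw [Cfsg.Agent.Helper19.card_sylow_quotient (((P : Subgroup G) ⊓ K).subgroupOf N)
      (P.subtype hPN)]
    have hle : ((P : Subgroup G) ⊓ K).subgroupOf N ≤
        Subgroup.normalizer ((((P.subtype hPN : Sylow p N) : Subgroup N)) : Set N) := by
      refine le_trans ?_ Subgroup.le_normalizer
      rw [Sylow.coe_subtype]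
      exact Subgroup.comap_mono inf_le_left
    rw [sup_of_le_left hle]
    have h5 : Subgroup.normalizer ((((P.subtype hPN : Sylow p N) : Subgroup N)) : Set N) =
        NP.subgroupOf N := by
      rw [Sylow.coe_subtype, ← Subgroup.subgroupOf_normalizer_eq hPN, ← hNP]
    exact congrArg Subgroup.index h5
  have e3 : (NP ⊓ H).relIndex H = NP.relIndex K := by
    apply Cfsg.Agent.Helper22.relIndex_inf_sup_normal NP H K hKH
    apply le_antisymm (sup_le inf_le_right hKH)
    exact hH.le.trans (sup_le_sup_right (le_inf hP_NP hPH) K)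
  have e4 : N.relIndex H = ND.relIndex K := by
    rw [hN']
    apply Cfsg.Agent.Helper22.relIndex_inf_sup_normal ND H K hKH
    apply le_antisymm (sup_le inf_le_right hKH)
    exact hH.le.trans (sup_le_sup_right (le_inf (le_trans hP_NP hNPND) hPH) K)
  have e5 : (NP ⊓ H).relIndex N * N.relIndex H = (NP ⊓ H).relIndex H :=
    Subgroup.relIndex_mul_relIndex (H := NP ⊓ H) (K := N) (L := H)
      (by rw [hN']; exact inf_le_inf_right H hNPND) hNH
  have e6 : (NP ⊓ H).relIndex N = NP.relIndex N :=
    Cfsg.Agent.Helper22.relIndex_inf_of_le NP H N hNH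
  rw [h12, h3, h4, ← e3, ← e5, e6, e4]
  ring

end Cfsg.Agent.S4341
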