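import Cfsg.Statements.S4342
import Mathlib
-- import your own Cfsg.Agent.* helpers here

set_option autoImplicit false
open Cfsg

namespace Cfsg.Agent.S4342

/-- Let H be a normal subgroup of a finite group G and p a prime not dividing the index of H. Then the number of Sylow p-subgroups of H/Z(H) equals the number of Sylow p-subgroups of G. -/
theorem result {G : Type*} [Group G] [Finite G]
    (p : ℕ) [Fact p.Prime] (H : Subgroup G) [H.Normal] (hp : ¬ p ∣ H.index) :
    Nat.card (Sylow p (H ⧸ Subgroup.center H)) = Nat.card (Sylow p G) := by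
  classical
  have hp' : p.Prime := Fact.out
  have hle : ∀ P : Sylow p G, (P : Subgroup G) ≤ H := by
    intro P
    have h1 : IsPGroup p ((P : Subgroup G).map (QuotientGroup.mk' H)) := P.isPGroup'.map _
    obtain ⟨k, hk⟩ := IsPGroup.iff_card.mp h1
    have h2 : Nat.card ((P : Subgroup G).map (QuotientGroup.mk' H)) ∣ H.index :=
      Subgroup.card_subgroup_dvd_card _
    rw [hk] at h2
    have hk0 : k = 0 := by
      by_contra hne
      exact hp ((dvd_pow_self p hne).trans h2)
    rw [hk0, pow_zero] at hk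
    have h3 : (P : Subgroup G).map (QuotientGroup.mk' H) = ⊥ := Subgroup.card_eq_one.mp hk
    rw [Subgroup.map_eq_bot_iff, QuotientGroup.ker_mk'] at h3
    exact h3
  have e1 : Nat.card (Sylow p G) = Nat.card (Sylow p H) := by
    apply Nat.card_congr
    refine Equiv.ofBijective (fun P => P.subtype (hle P)) ⟨?_, ?_⟩
    · intro P Q h
      exact Sylow.subtype_injective h
    · intro Q
      obtain ⟨P, hP⟩ := (Q.isPGroup'.map H.subtype).exists_le_sylow
      refine ⟨P, ?_⟩
      have h1 : (Q : Subgroup H) ≤ (P.subtype (hle P) : Sylow p H) := by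
        intro y hy
        rw [Sylow.coe_subtype]
        exact Subgroup.mem_subgroupOf.mpr (hP (Subgroup.mem_map_of_mem _ hy))
      exact Sylow.ext (Q.is_maximal' (P.subtype (hle P)).isPGroup' h1)
  have hf : Function.Surjective (QuotientGroup.mk' (Subgroup.center H)) :=
    QuotientGroup.mk'_surjective _
  have e2 : Nat.card (Sylow p H) = Nat.card (Sylow p (H ⧸ Subgroup.center H)) := by
    apply Nat.card_congr
    refine Equiv.ofBijective (Sylow.mapSurjective hf) ⟨?_, Sylow.mapSurjective_surjective hf p⟩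
    intro P Q h
    have h' : (P : Subgroup H).map (QuotientGroup.mk' (Subgroup.center H)) =
        (Q : Subgroup H).map (QuotientGroup.mk' (Subgroup.center H)) := by
      have h0 := congrArg (fun S : Sylow p (H ⧸ Subgroup.center H) => (S : Subgroup (H ⧸ Subgroup.center H))) h
      simpa [Sylow.coe_mapSurjective] using h0
    have hQP : (Q : Subgroup H) ≤ P := by
      intro y hy
      have hy' : (QuotientGroup.mk' (Subgroup.center H)) y ∈
          (P : Subgroup H).map (QuotientGroup.mk' (Subgroup.center H)) := by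
        rw [h']; exact Subgroup.mem_map_of_mem _ hy
      obtain ⟨x, hx, hxy⟩ := Subgroup.mem_map.mp hy'
      have hz : x⁻¹ * y ∈ Subgroup.center H := QuotientGroup.eq.mp hxy
      have hzc : ∀ w : H, w * (x⁻¹ * y) = (x⁻¹ * y) * w :=
        fun w => Subgroup.mem_center_iff.mp hz w
      obtain ⟨k1, hk1⟩ := P.isPGroup' ⟨x, hx⟩
      obtain ⟨k2, hk2⟩ := Q.isPGroup' ⟨y, hy⟩
      have ex : x ^ (p ^ k1) = 1 := by simpa using congrArg Subtype.val hk1
      have ey : y ^ (p ^ k2) = 1 := by simpa using congrArg Subtype.val hk2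
      have hcomm : Commute x⁻¹ y := by
        have h3 := hzc x
        rw [mul_inv_cancel_left] at h3
        show x⁻¹ * y = y * x⁻¹
        calc x⁻¹ * y = (x⁻¹ * y * x) * x⁻¹ := by group
          _ = y * x⁻¹ := by rw [← h3]
      have hz1 : (x⁻¹ * y) ^ (p ^ (k1 + k2)) = 1 := by
        rw [hcomm.mul_pow, inv_pow, pow_add, pow_mul, ex, one_pow, inv_one, one_mul,
          mul_comm (p ^ k1) (p ^ k2), pow_mul, ey, one_pow]
      have hzP : x⁻¹ * y ∈ (P : Subgroup H) := by
        have hd : orderOf (x⁻¹ * y) ∣ p ^ (k1 + k2) := orderOf_dvd_of_pow_eq_one hz1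
        obtain ⟨j, _, hj⟩ := (Nat.dvd_prime_pow hp').mp hd
        have hzp : IsPGroup p (Subgroup.zpowers (x⁻¹ * y)) :=
          IsPGroup.of_card (n := j) (by rw [Nat.card_zpowers, hj])
        obtain ⟨Q', hQ'⟩ := hzp.exists_le_sylow
        obtain ⟨w, hw⟩ := MulAction.exists_smul_eq H P Q'
        have hq : x⁻¹ * y ∈ (Q' : Subgroup H) := hQ' (Subgroup.mem_zpowers _)
        rw [← hw, Sylow.coe_subgroup_smul, Subgroup.mem_pointwise_smul_iff_inv_smul_mem] at hq
        have e : (MulAut.conj w)⁻¹ • (x⁻¹ * y) = x⁻¹ * y := by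
          rw [MulAut.smul_def, MulAut.conj_inv_apply, mul_assoc, ← hzc w, inv_mul_cancel_left]
        rwa [e] at hq
      have h9 : y = x * (x⁻¹ * y) := by group
      rw [h9]
      exact (P : Subgroup H).mul_mem hx hzP
    exact Sylow.ext (Q.is_maximal' P.isPGroup' hQP)
  rw [← e2, e1]

end Cfsg.Agent.S4342
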