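import Cfsg.Statements.S4343
-- import your own Cfsg.Agent.* helpers here

set_option autoImplicit false
open Cfsg
open scoped Pointwise

namespace Cfsg.Agent.S4343

theorem mem_smul_sylow_iff {G : Type*} [Group G] {p : ℕ} (g : G) (R : Sylow p G) (y : G) :
    y ∈ ((g • R : Sylow p G) : Subgroup G) ↔ g⁻¹ * y * g ∈ (R : Subgroup G) := by
  rw [Sylow.coe_subgroup_smul, Subgroup.mem_pointwise_smul_iff_inv_smul_mem]
  first
    | exact Iff.rfl
    | simp [MulAut.smul_def]

/-- Let S be a finite non-abelian simple group and p a prime dividing its order. If S has fewer than p² Sylow p-subgroups, then its Sylow p-subgroups have order p. -/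
theorem result {S : Type*} [Group S] [Finite S]
    [IsSimpleGroup S] (hS : ¬ IsMulCommutative S) (p : ℕ) [Fact p.Prime] (hp : p ∣ Nat.card S)
    (hn : Nat.card (Sylow p S) < p ^ 2) (P : Sylow p S) : Nat.card P = p := by
  have hpp : p.Prime := Fact.out
  have hk0 : (Nat.card S).factorization p ≠ 0 :=
    (Nat.Prime.factorization_pos_of_dvd hpp Nat.card_pos.ne' hp).ne'
  have hcard : ∀ Q : Sylow p S, Nat.card (Q : Subgroup S) = p ^ (Nat.card S).factorization p :=
    fun Q => Q.card_eq_multiplicity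
  have hPtop : (P : Subgroup S) ≠ ⊤ := by
    intro h
    apply hS
    have h1 : Nat.card S = p ^ (Nat.card S).factorization p := by
      rw [← hcard P, h, Subgroup.card_top]
    have hT : IsPGroup p S := IsPGroup.of_card h1
    have hnt : Nontrivial (Subgroup.center S) := hT.center_nontrivial
    have hne : Subgroup.center S ≠ ⊥ := (Subgroup.nontrivial_iff_ne_bot _).mp hnt
    have htop : Subgroup.center S = ⊤ :=
      (IsSimpleGroup.eq_bot_or_eq_top_of_normal _ inferInstance).resolve_left hne
    exact Subgroup.center_eq_top_iff.mp htop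
  have hcore : (P : Subgroup S).normalCore = ⊥ := by
    rcases IsSimpleGroup.eq_bot_or_eq_top_of_normal _
      (Subgroup.normalCore_normal (P : Subgroup S)) with h | h
    · exact h
    · exfalso
      apply hPtop
      rw [eq_top_iff, ← h]
      exact Subgroup.normalCore_le _
  have hC : ∀ D : Subgroup S, (∀ R : Sylow p S, D ≤ (R : Subgroup S)) → D = ⊥ := by
    intro D hD
    rw [eq_bot_iff, ← hcore]
    intro a ha
    show ∀ b : S, b * a * b⁻¹ ∈ (P : Subgroup S)
    intro b
    have h1 : a ∈ ((b⁻¹ • P : Sylow p S) : Subgroup S) := hD _ ha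
    rw [mem_smul_sylow_iff, inv_inv] at h1
    exact h1
  have hA : ∀ Q1 Q2 : Sylow p S, Q1 ≠ Q2 →
      (Q2 : Subgroup S).relIndex (Q1 : Subgroup S) = p := by
    intro Q1 Q2 hne
    have hstab : MulAction.stabilizer (↥(Q1 : Subgroup S)) Q2 =
        (Q2 : Subgroup S).subgroupOf (Q1 : Subgroup S) := by
      ext h
      rw [MulAction.mem_stabilizer_iff, Subgroup.mem_subgroupOf]
      have h1 : h • Q2 = (h : S) • Q2 := rfl
      rw [h1, Sylow.smul_eq_iff_mem_normalizer]
      constructor
      · intro hmem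
        have h2 : (h : S) ∈ (Q1 : Subgroup S) ⊓ (Q2 : Subgroup S) := by
          rw [← IsPGroup.inf_normalizer_sylow Q1.isPGroup' Q2]
          exact Subgroup.mem_inf.mpr ⟨h.2, hmem⟩
        exact (Subgroup.mem_inf.mp h2).2
      · intro hmem
        exact Subgroup.le_normalizer hmem
    have hle : (Q2 : Subgroup S).relIndex (Q1 : Subgroup S) ≤ Nat.card (Sylow p S) := by
      have h1 := MulAction.index_stabilizer (↥(Q1 : Subgroup S)) Q2
      rw [hstab] at h1
      have h2 : (Q2 : Subgroup S).relIndex (Q1 : Subgroup S) =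
          (MulAction.orbit (↥(Q1 : Subgroup S)) Q2).ncard := h1
      rw [h2]
      exact Set.ncard_le_card _
    have hdvd : (Q2 : Subgroup S).relIndex (Q1 : Subgroup S) ∣ Nat.card (Q1 : Subgroup S) :=
      Subgroup.relIndex_dvd_card _ _
    rw [hcard Q1] at hdvd
    obtain ⟨j, _, hj⟩ := (Nat.dvd_prime_pow hpp).mp hdvd
    have hj1 : j ≠ 0 := by
      intro h0
      rw [h0, pow_zero, Subgroup.relIndex_eq_one] at hj
      apply hne
      exact Sylow.ext (Q1.is_maximal' Q2.isPGroup' hj).symm
    have hj2 : j < 2 := by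
      by_contra hcon
      push Not at hcon
      have h2 : p ^ 2 ≤ p ^ j := Nat.pow_le_pow_right hpp.pos hcon
      rw [hj] at hle
      omega
    have hj3 : j = 1 := by omega
    rw [hj, hj3, pow_one]
  have hPbot : (P : Subgroup S) ≠ ⊥ := P.ne_bot_of_dvd_card hp
  obtain ⟨Q, hQP⟩ : ∃ Q : Sylow p S, Q ≠ P := by
    by_contra hcon
    push Not at hcon
    apply hPbot
    apply hC
    intro R
    rw [hcon R]
  have hPQ : (Q : Subgroup S).relIndex (P : Subgroup S) = p := hA P Q (Ne.symm hQP)
  have hQP' : (P : Subgroup S).relIndex (Q : Subgroup S) = p := hA Q P hQP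
  have hnormP : (P : Subgroup S) ≤
      Subgroup.normalizer ((((P : Subgroup S) ⊓ (Q : Subgroup S) : Subgroup S)) : Set S) := by
    have hidx : (((P : Subgroup S) ⊓ (Q : Subgroup S)).subgroupOf (P : Subgroup S)).index =
        (Nat.card (P : Subgroup S)).minFac := by
      have h1 : (((P : Subgroup S) ⊓ (Q : Subgroup S)).subgroupOf (P : Subgroup S)).index = p := by
        show ((P : Subgroup S) ⊓ (Q : Subgroup S)).relIndex (P : Subgroup S) = p
        rw [Subgroup.inf_relIndex_left]
        exact hPQ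
      rw [h1, hcard P, Nat.Prime.pow_minFac hpp hk0]
    have hn := Subgroup.normal_of_index_eq_minFac_card hidx
    exact (Subgroup.normal_subgroupOf_iff_le_normalizer inf_le_left).mp hn
  have hnormQ : (Q : Subgroup S) ≤
      Subgroup.normalizer ((((P : Subgroup S) ⊓ (Q : Subgroup S) : Subgroup S)) : Set S) := by
    have hidx : (((P : Subgroup S) ⊓ (Q : Subgroup S)).subgroupOf (Q : Subgroup S)).index =
        (Nat.card (Q : Subgroup S)).minFac := by
      have h1 : (((P : Subgroup S) ⊓ (Q : Subgroup S)).subgroupOf (Q : Subgroup S)).index = p := by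
        show ((P : Subgroup S) ⊓ (Q : Subgroup S)).relIndex (Q : Subgroup S) = p
        rw [Subgroup.inf_relIndex_right]
        exact hQP'
      rw [h1, hcard Q, Nat.Prime.pow_minFac hpp hk0]
    have hn := Subgroup.normal_of_index_eq_minFac_card hidx
    exact (Subgroup.normal_subgroupOf_iff_le_normalizer inf_le_right).mp hn
  have hD : ∀ R : Sylow p S, (P : Subgroup S) ⊓ (Q : Subgroup S) ≤ (R : Subgroup S) := by
    intro R
    obtain ⟨N, hN⟩ : ∃ N : Subgroup S, N = Subgroup.normalizer
        ((((P : Subgroup S) ⊓ (Q : Subgroup S) : Subgroup S)) : Set S) := ⟨_, rfl⟩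
    rw [← hN] at hnormP hnormQ
    have hRN : IsPGroup p ((R : Subgroup S).subgroupOf N) := R.isPGroup'.comap_subtype
    obtain ⟨T, hT⟩ := hRN.exists_le_sylow
    obtain ⟨x, hx⟩ := MulAction.exists_smul_eq N T (P.subtype hnormP)
    have hconj : ∀ r ∈ (R : Subgroup S), r ∈ N →
        (x : S) * r * (x : S)⁻¹ ∈ (P : Subgroup S) := by
      intro r hr hrN
      have h1 : (⟨r, hrN⟩ : N) ∈ (T : Subgroup N) :=
        hT (by rw [Subgroup.mem_subgroupOf]; exact hr)
      have h2 : x * ⟨r, hrN⟩ * x⁻¹ ∈ ((x • T : Sylow p N) : Subgroup N) := by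
        rw [mem_smul_sylow_iff]
        have e : x⁻¹ * (x * ⟨r, hrN⟩ * x⁻¹) * x = (⟨r, hrN⟩ : N) := by group
        rw [e]
        exact h1
      rw [hx, Sylow.coe_subtype, Subgroup.mem_subgroupOf] at h2
      exact h2
    have hQ1 : ((((x : S) • R : Sylow p S) : Subgroup S)) ⊓ (Q : Subgroup S) ≤
        (P : Subgroup S) ⊓ (Q : Subgroup S) := by
      intro y hy
      obtain ⟨hy1, hy2⟩ := Subgroup.mem_inf.mp hy
      refine Subgroup.mem_inf.mpr ⟨?_, hy2⟩
      rw [mem_smul_sylow_iff] at hy1
      have hyN : (x : S)⁻¹ * y * (x : S) ∈ N :=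
        N.mul_mem (N.mul_mem (N.inv_mem x.2) (hnormQ hy2)) x.2
      have h3 := hconj _ hy1 hyN
      have e : (x : S) * ((x : S)⁻¹ * y * (x : S)) * (x : S)⁻¹ = y := by group
      rw [e] at h3
      exact h3
    have hQ1ne : ((x : S) • R : Sylow p S) ≠ Q := by
      intro h
      rw [h, inf_idem] at hQ1
      apply hQP
      exact Sylow.ext (Q.is_maximal' P.isPGroup' (le_trans hQ1 inf_le_left)).symm
    have h1 : ((((x : S) • R : Sylow p S) : Subgroup S)).relIndex (Q : Subgroup S) = p :=
      hA Q _ (Ne.symm hQ1ne)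
    have h2 := Subgroup.relIndex_mul_relIndex
      (H := ((((x : S) • R : Sylow p S) : Subgroup S)) ⊓ (Q : Subgroup S))
      (K := (P : Subgroup S) ⊓ (Q : Subgroup S)) (L := (Q : Subgroup S)) hQ1 inf_le_right
    rw [Subgroup.inf_relIndex_right, Subgroup.inf_relIndex_right, hQP', h1] at h2
    have h3 : (((((x : S) • R : Sylow p S) : Subgroup S)) ⊓ (Q : Subgroup S)).relIndex
        ((P : Subgroup S) ⊓ (Q : Subgroup S)) = 1 :=
      Nat.eq_of_mul_eq_mul_right hpp.pos (h2.trans (one_mul p).symm)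
    rw [Subgroup.relIndex_eq_one] at h3
    intro d hd
    have hxN : (x : S) ∈ Subgroup.normalizer
        ((((P : Subgroup S) ⊓ (Q : Subgroup S) : Subgroup S)) : Set S) := by
      rw [← hN]
      exact x.2
    have hd' : (x : S) * d * (x : S)⁻¹ ∈ (P : Subgroup S) ⊓ (Q : Subgroup S) :=
      (Subgroup.mem_normalizer_iff.mp hxN d).mp hd
    have hd1 := (Subgroup.mem_inf.mp (h3 hd')).1
    rw [mem_smul_sylow_iff] at hd1
    have e : (x : S)⁻¹ * ((x : S) * d * (x : S)⁻¹) * (x : S) = d := by group
    rw [e] at hd1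
    exact hd1
  have hDbot : (P : Subgroup S) ⊓ (Q : Subgroup S) = ⊥ := hC _ hD
  have h5 : ((P : Subgroup S) ⊓ (Q : Subgroup S)).relIndex (P : Subgroup S) = p := by
    rw [Subgroup.inf_relIndex_left]
    exact hPQ
  rw [hDbot, Subgroup.relIndex_bot_left] at h5
  exact h5

end Cfsg.Agent.S4343
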