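import Cfsg.Statements.S4344
import Mathlib
-- import your own Cfsg.Agent.* helpers here

set_option autoImplicit false
open Cfsg

namespace Cfsg.Agent.S4344

theorem pow_card_of_mem {α : Type*} [Group α] (H : Subgroup α) {a : α} (ha : a ∈ H) :
    a ^ Nat.card H = 1 :=
  orderOf_dvd_iff_pow_eq_one.mp (Subgroup.orderOf_dvd_natCard H ha)

theorem mem_iff_pow_card_of_cyclic {α : Type*} [Group α] [Finite α] [IsCyclic α] (H : Subgroup α)
    (a : α) : a ∈ H ↔ a ^ Nat.card H = 1 := by
  classical
  haveI := Fintype.ofFinite α
  constructor
  · intro ha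
    exact pow_card_of_mem H ha
  · intro ha
    let F : Finset α := Finset.univ.filter (fun a => a ^ Nat.card H = 1)
    have hF : F.card ≤ Nat.card H := IsCyclic.card_pow_eq_one_le Nat.card_pos
    have hsub : (H : Set α).toFinset ⊆ F := by
      intro b hb
      rw [Set.mem_toFinset] at hb
      exact Finset.mem_filter.mpr ⟨Finset.mem_univ _, pow_card_of_mem H hb⟩
    have hcard : (H : Set α).toFinset.card = Nat.card H := by
      rw [Set.toFinset_card, Nat.card_eq_fintype_card]
      rfl
    have heq : (H : Set α).toFinset = F :=
      Finset.eq_of_subset_of_card_le hsub (by rw [hcard]; exact hF)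
    have haF : a ∈ F := Finset.mem_filter.mpr ⟨Finset.mem_univ _, ha⟩
    rw [← heq, Set.mem_toFinset] at haF
    exact haF


/-- Let S be a finite non-abelian simple group, M a maximal subgroup of S and C a cyclic normal subgroup of M. If a Sylow p-subgroup P of S (for a prime p dividing the order of S) is contained in C, then the number of Sylow p-subgroups of S equals the index of M. -/
theorem result {S : Type*} [Group S] [Finite S]
    [IsSimpleGroup S] (hS : ¬ IsMulCommutative S) (p : ℕ) [Fact p.Prime] (hp : p ∣ Nat.card S)
    (M : Subgroup S) (hM : IsCoatom M) (C : Subgroup S) (hCM : C ≤ M) (hCn : (C.subgroupOf M).Normal)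
    (hC : IsCyclic C) (P : Sylow p S) (hP : (P : Subgroup S) ≤ C) :
    Nat.card (Sylow p S) = M.index := by
  rw [Sylow.card_eq_index_normalizer P]
  congr 1
  -- conjugation by elements of M preserves P
  have hconj : ∀ m ∈ M, ∀ x ∈ (P : Subgroup S), m * x * m⁻¹ ∈ (P : Subgroup S) := by
    intro m hm x hx
    have hxC : x ∈ C := hP hx
    have hmem : m * x * m⁻¹ ∈ C := by
      have := hCn.conj_mem ⟨x, hCM hxC⟩ (Subgroup.mem_subgroupOf.mpr hxC) ⟨m, hm⟩
      rw [Subgroup.mem_subgroupOf] at this
      simpa using this
    haveI := hC
    have hcard : Nat.card ((P : Subgroup S).subgroupOf C) = Nat.card (P : Subgroup S) :=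
      Nat.card_congr (Subgroup.subgroupOfEquivOfLe hP).toEquiv
    have h1 : (⟨m * x * m⁻¹, hmem⟩ : C) ∈ (P : Subgroup S).subgroupOf C := by
      rw [mem_iff_pow_card_of_cyclic, hcard]
      apply Subtype.ext
      simp only [Subgroup.coe_pow, Subgroup.coe_one]
      rw [conj_pow]
      rw [pow_card_of_mem _ hx]; group
    exact Subgroup.mem_subgroupOf.mp h1
  have hle : M ≤ Subgroup.normalizer ((P : Subgroup S) : Set S) := by
    intro m hm
    rw [Subgroup.mem_normalizer_iff]
    intro n
    constructor
    · exact hconj m hm n
    · intro h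
      have := hconj m⁻¹ (M.inv_mem hm) _ h
      simpa [mul_assoc] using this
  have hne : Subgroup.normalizer ((P : Subgroup S) : Set S) ≠ ⊤ := by
    intro htop
    have hPn : (P : Subgroup S).Normal := Subgroup.normalizer_eq_top_iff.mp htop
    rcases hPn.eq_bot_or_eq_top with hbot | htop'
    · exact P.ne_bot_of_dvd_card hp hbot
    · -- S is a p-group, hence has nontrivial centre, hence is commutative
      have hpg : IsPGroup p S := by
        have := P.2
        rw [htop'] at this
        exact (IsPGroup.of_equiv this Subgroup.topEquiv : IsPGroup p S)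
      haveI : Nontrivial S := IsSimpleGroup.toNontrivial
      have hcen : Nontrivial (Subgroup.center S) := hpg.center_nontrivial
      have hcn : (Subgroup.center S) ≠ ⊥ := (Subgroup.nontrivial_iff_ne_bot _).mp hcen
      rcases (inferInstance : (Subgroup.center S).Normal).eq_bot_or_eq_top with hb | ht
      · exact hcn hb
      · apply hS
        rw [isMulCommutative_iff]
        intro a b
        have : b ∈ Subgroup.center S := by rw [ht]; trivial
        exact (Subgroup.mem_center_iff.mp this a)
  by_contra hneq
  exact hne (hM.2 _ (lt_of_le_of_ne hle (Ne.symm hneq)))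

end Cfsg.Agent.S4344
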