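import Cfsg.Statements.S4345
import Cfsg.Agent.Helper22.SylowCount

set_option autoImplicit false
open Cfsg

namespace Cfsg.Agent.S4345

universe u

theorem aux (p ℓ : ℕ) [Fact p.Prime] : ∀ n : ℕ, ∀ (G : Type u) [Group G] [Finite G],
    Nat.card G = n → Group.IsSolvable G →
    ℓ ^ (Nat.card (Sylow p G)).factorization ℓ ≡ 1 [MOD p] := by
  intro n
  induction n using Nat.strong_induction_on with
  | _ n ih =>
    intro G _ _ hcard hG
    obtain ⟨P⟩ : Nonempty (Sylow p G) := inferInstance
    by_cases hnt : Nontrivial G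
    swap
    · rw [not_nontrivial_iff_subsingleton] at hnt
      have h1 : Nat.card (Sylow p G) = 1 := by
        have h2 : Nat.card (Sylow p G) ∣ Nat.card G := by
          rw [Sylow.card_eq_index_normalizer P]
          exact Subgroup.index_dvd_card _
        rw [Nat.card_of_subsingleton (1 : G)] at h2
        exact Nat.dvd_one.mp h2
      have h3 : (Nat.card (Sylow p G)).factorization ℓ = 0 := by
        rw [h1, Nat.factorization_one]
        rfl
      have h4 : ℓ ^ (Nat.card (Sylow p G)).factorization ℓ = 1 := by rw [h3, pow_zero]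
      rw [Nat.ModEq, h4]
    · obtain ⟨N, q, hq, hNn, hNbot, hNq⟩ := Cfsg.Agent.Helper22.exists_normal_pgroup hG
      haveI := hNn
      haveI := hG
      have hprod := Cfsg.Agent.Helper22.card_sylow_eq_relIndex_mul N P
      have hdvd : (Subgroup.normalizer ((P : Subgroup G) : Set G)).relIndex N ∣ Nat.card N :=
        Subgroup.relIndex_dvd_card _ _
      haveI : Fact q.Prime := ⟨hq⟩
      obtain ⟨a, ha⟩ := IsPGroup.iff_card.mp hNq
      rw [ha] at hdvd
      obtain ⟨b, _, hb⟩ := (Nat.dvd_prime_pow hq).mp hdvd
      have hmod : (Subgroup.normalizer ((P : Subgroup G) : Set G)).relIndex N ≡ 1 [MOD p] := by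
        rw [Cfsg.Agent.Helper22.relIndex_normalizer_eq_card_sylow_sup N P]
        exact card_sylow_modEq_one p _
      have hlt : Nat.card (G ⧸ N) < n := by
        have h7 := Subgroup.card_eq_card_quotient_mul_card_subgroup N
        have h8 : 1 < Nat.card N := (Subgroup.one_lt_card_iff_ne_bot N).mpr hNbot
        have h9 : 0 < Nat.card (G ⧸ N) := Nat.card_pos
        have h10 : Nat.card (G ⧸ N) * 2 ≤ Nat.card (G ⧸ N) * Nat.card N :=
          Nat.mul_le_mul_left _ h8
        rw [hcard] at h7
        omega
      have hIH := ih _ hlt (G ⧸ N) rfl inferInstance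
      have hm0 : Nat.card (Sylow p (G ⧸ N)) ≠ 0 := Nat.card_pos.ne'
      have hq0 : q ^ b ≠ 0 := (pow_pos hq.pos b).ne'
      have hfirst : ℓ ^ (q ^ b).factorization ℓ ≡ 1 [MOD p] := by
        by_cases hlq : ℓ = q
        · rw [hlq, Nat.Prime.factorization_pow hq, Finsupp.single_eq_same, ← hb]
          exact hmod
        · have h10 : ℓ ^ (q ^ b).factorization ℓ = 1 := by
            rw [Nat.Prime.factorization_pow hq, Finsupp.single_apply, if_neg (Ne.symm hlq),
              pow_zero]
          rw [Nat.ModEq, h10]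
      rw [hprod, hb, Nat.factorization_mul hq0 hm0, Finsupp.add_apply, pow_add]
      have h11 := hfirst.mul hIH
      rw [mul_one] at h11
      exact h11

/-- Let G be a finite solvable group and p, ℓ primes. Then the largest power of ℓ dividing the number of Sylow p-subgroups of G is congruent to 1 modulo p. -/
theorem result {G : Type*} [Group G] [Finite G]
    (hG : Group.IsSolvable G) (p ℓ : ℕ) [Fact p.Prime] (hℓ : ℓ.Prime) :
    ℓ ^ (Nat.card (Sylow p G)).factorization ℓ ≡ 1 [MOD p] := by
  exact aux p ℓ (Nat.card G) G rfl hG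

end Cfsg.Agent.S4345
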