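import Cfsg.Statements.S4354
import Mathlib
import Cfsg.Agent.S4219
import Cfsg.Agent.S4309
import Cfsg.Agent.Helper23.PSolv
-- import your own Cfsg.Agent.* helpers here

set_option autoImplicit false
open Cfsg

namespace Cfsg.Agent.S4354

theorem sylow_conj_in' {G : Type*} [Group G] [Finite G] {p : ℕ} [Fact p.Prime]
    (K : Subgroup G) (P₁ P₂ : Sylow p G) (h1 : (P₁ : Subgroup G) ≤ K)
    (h2 : (P₂ : Subgroup G) ≤ K) :
    ∃ c ∈ K, ∀ z, z ∈ (P₂ : Subgroup G) ↔ c⁻¹ * z * c ∈ (P₁ : Subgroup G) := by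
  have c1 := P₁.card_eq_multiplicity
  have c2 := P₂.card_eq_multiplicity
  have hfac : (Nat.card K).factorization p = (Nat.card G).factorization p := by
    apply le_antisymm
    · exact (Nat.factorization_le_iff_dvd Nat.card_pos.ne' Nat.card_pos.ne').mpr
        (Subgroup.card_subgroup_dvd_card K) p
    · have h3 : p ^ (Nat.card G).factorization p ∣ Nat.card K :=
        c1 ▸ Subgroup.card_dvd_of_le h1
      exact (Nat.Prime.pow_dvd_iff_le_factorization Fact.out Nat.card_pos.ne').mp h3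
  exact Cfsg.Agent.S4219.sylow_conj_in K P₁ P₂ h1 h2 (by rw [c1, hfac]) (by rw [c2, hfac])

theorem mem_sylow_of_commute {G : Type*} [Group G] {p : ℕ} [Fact p.Prime] (P : Sylow p G)
    (z : G) (hz : ∃ k : ℕ, orderOf z = p ^ k)
    (hc : ∀ u ∈ (P : Subgroup G), u * z = z * u) : z ∈ (P : Subgroup G) := by
  have hH : IsPGroup p (Subgroup.zpowers z) := by
    obtain ⟨k, hk⟩ := hz
    exact IsPGroup.of_card (n := k) (by rw [Nat.card_zpowers, hk])
  have hle : Subgroup.zpowers z ≤ Subgroup.normalizer ((P : Subgroup G) : Set G) := by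
    refine le_trans ?_ (Subgroup.centralizer_le_normalizer _)
    rw [Subgroup.zpowers_le, Subgroup.mem_centralizer_iff]
    exact fun u hu => hc u hu
  have hsup : IsPGroup p (Subgroup.zpowers z ⊔ (P : Subgroup G) : Subgroup G) :=
    hH.to_sup_of_normal_right' P.2 hle
  have h3 := P.is_maximal' hsup le_sup_right
  rw [← h3]
  exact Subgroup.mem_sup_left (Subgroup.mem_zpowers z)

theorem mem_smul_sylow {G : Type*} [Group G] {p : ℕ} (P : Sylow p G) (g u : G) :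
    u ∈ ((g • P : Sylow p G) : Subgroup G) ↔ g⁻¹ * u * g ∈ (P : Subgroup G) := by
  rw [Sylow.smul_def, Sylow.pointwise_smul_def, Subgroup.mem_pointwise_smul_iff_inv_smul_mem]
  simp [MulAut.smul_def]

theorem exists_central_conj {G : Type*} [Group G] [Finite G] {p : ℕ} [Fact p.Prime]
    (P : Sylow p G)
    (ha : ∀ x : G, (∃ k : ℕ, orderOf x = p ^ k) →
      ¬ p ∣ (Subgroup.centralizer ({x} : Set G)).index)
    (x : G) (hx : ∃ k : ℕ, orderOf x = p ^ k) :
    ∃ g : G, ∃ z ∈ (P : Subgroup G), (∀ u ∈ (P : Subgroup G), u * z = z * u) ∧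
      x = g * z * g⁻¹ := by
  obtain ⟨P', hP'⟩ := Cfsg.Agent.Helper23.exists_sylow_le_of_not_dvd_index _ (ha x hx)
  obtain ⟨g, rfl⟩ := MulAction.exists_smul_eq G P P'
  have hcomm : ∀ u ∈ (P : Subgroup G), u * (g⁻¹ * x * g) = (g⁻¹ * x * g) * u := by
    intro u hu
    have h1 : g * u * g⁻¹ ∈ ((g • P : Sylow p G) : Subgroup G) := by
      rw [mem_smul_sylow]
      have e : g⁻¹ * (g * u * g⁻¹) * g = u := by group
      rw [e]; exact hu
    have h2 := hP' h1
    rw [Subgroup.mem_centralizer_iff] at h2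
    have h3 := h2 x rfl
    calc u * (g⁻¹ * x * g) = g⁻¹ * ((g * u * g⁻¹) * x) * g := by group
      _ = g⁻¹ * (x * (g * u * g⁻¹)) * g := by rw [h3]
      _ = (g⁻¹ * x * g) * u := by group
  refine ⟨g, g⁻¹ * x * g, mem_sylow_of_commute P _ ?_ hcomm, hcomm, by group⟩
  obtain ⟨k, hk⟩ := hx
  refine ⟨k, ?_⟩
  rw [← hk]
  have e : g⁻¹ * x * g = MulAut.conj g⁻¹ x := by simp [MulAut.conj_apply]
  rw [e, MulEquiv.orderOf_eq]

theorem decomp {G : Type*} [Group G] [Finite G] {p : ℕ} [Fact p.Prime] (P : Sylow p G)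
    (N : Subgroup G) [hNn : N.Normal]
    (hGN : ∀ a ∈ (P : Subgroup G), ∀ b ∈ (P : Subgroup G), (a * b)⁻¹ * (b * a) ∈ N)
    (ha : ∀ x : G, (∃ k : ℕ, orderOf x = p ^ k) →
      ¬ p ∣ (Subgroup.centralizer ({x} : Set G)).index)
    (x : G) (hx : x ∈ (P : Subgroup G)) :
    ∃ z ∈ (P : Subgroup G), (∀ u ∈ (P : Subgroup G), u * z = z * u) ∧ z⁻¹ * x ∈ N := by
  have hp := (Fact.out : p.Prime)
  have hxo : ∃ k : ℕ, orderOf x = p ^ k := by
    obtain ⟨k, hk⟩ := P.2 ⟨x, hx⟩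
    have h1 : x ^ p ^ k = 1 := by
      have := congrArg Subtype.val hk
      simpa using this
    obtain ⟨j, -, hj⟩ := (Nat.dvd_prime_pow hp).mp (orderOf_dvd_of_pow_eq_one h1)
    exact ⟨j, hj⟩
  obtain ⟨g, z, hzP, hzc, rfl⟩ := exists_central_conj P ha x hxo
  let K : Subgroup G := (Subgroup.centralizer
    ({(QuotientGroup.mk' N) (g * z * g⁻¹)} : Set (G ⧸ N))).comap (QuotientGroup.mk' N)
  have hK : ∀ c : G, c ∈ K ↔ ((g * z * g⁻¹) * c)⁻¹ * (c * (g * z * g⁻¹)) ∈ N := by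
    intro c
    show (QuotientGroup.mk' N) c ∈ Subgroup.centralizer
      ({(QuotientGroup.mk' N) (g * z * g⁻¹)} : Set (G ⧸ N)) ↔ _
    rw [Subgroup.mem_centralizer_iff]
    simp only [Set.mem_singleton_iff, forall_eq]
    rw [← map_mul, ← map_mul, QuotientGroup.mk'_apply, QuotientGroup.mk'_apply,
      QuotientGroup.eq]
  have h1 : (P : Subgroup G) ≤ K := by
    intro u hu
    rw [hK]
    exact hGN _ hx u hu
  have h2 : ((g • P : Sylow p G) : Subgroup G) ≤ K := by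
    intro u hu
    rw [hK]
    have hu' : g⁻¹ * u * g ∈ (P : Subgroup G) := (mem_smul_sylow P g u).mp hu
    have h3 := hzc _ hu'
    have h4 : u * (g * z * g⁻¹) = (g * z * g⁻¹) * u := by
      calc u * (g * z * g⁻¹) = g * ((g⁻¹ * u * g) * z) * g⁻¹ := by group
        _ = g * (z * (g⁻¹ * u * g)) * g⁻¹ := by rw [h3]
        _ = (g * z * g⁻¹) * u := by group
    rw [h4, inv_mul_cancel]
    exact N.one_mem
  obtain ⟨c, hcK, hc⟩ := sylow_conj_in' K (g • P) P h2 h1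
  refine ⟨c * (g * z * g⁻¹) * c⁻¹, ?_, ?_, ?_⟩
  · rw [hc]
    have e : c⁻¹ * (c * (g * z * g⁻¹) * c⁻¹) * c = g * z * g⁻¹ := by group
    rw [e, mem_smul_sylow]
    have e2 : g⁻¹ * (g * z * g⁻¹) * g = z := by group
    rw [e2]; exact hzP
  · intro u hu
    have h5 := (hc u).mp hu
    have h6 : g⁻¹ * (c⁻¹ * u * c) * g ∈ (P : Subgroup G) := (mem_smul_sylow P g _).mp h5
    have h7 := hzc _ h6
    calc u * (c * (g * z * g⁻¹) * c⁻¹)
        = c * g * ((g⁻¹ * (c⁻¹ * u * c) * g) * z) * g⁻¹ * c⁻¹ := by group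
      _ = c * g * (z * (g⁻¹ * (c⁻¹ * u * c) * g)) * g⁻¹ * c⁻¹ := by rw [h7]
      _ = (c * (g * z * g⁻¹) * c⁻¹) * u := by group
  · have h8 := (hK c).mp hcK
    have h9 : c * (((g * z * g⁻¹) * c)⁻¹ * (c * (g * z * g⁻¹))) * c⁻¹ ∈ N :=
      hNn.conj_mem _ h8 c
    have h10 : (c * (g * z * g⁻¹) * c⁻¹)⁻¹ * (g * z * g⁻¹) =
        (c * (((g * z * g⁻¹) * c)⁻¹ * (c * (g * z * g⁻¹))) * c⁻¹)⁻¹ := by group
    rw [h10]
    exact N.inv_mem h9

theorem comm_of_normal {G : Type*} [Group G] [Finite G] {p : ℕ} [Fact p.Prime] (P : Sylow p G)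
    (N : Subgroup G) [N.Normal]
    (hN : ∀ Q : Sylow p N, IsMulCommutative Q)
    (hGN : ∀ Q : Sylow p (G ⧸ N), IsMulCommutative Q)
    (ha : ∀ x : G, (∃ k : ℕ, orderOf x = p ^ k) →
      ¬ p ∣ (Subgroup.centralizer ({x} : Set G)).index) :
    ∀ a ∈ (P : Subgroup G), ∀ b ∈ (P : Subgroup G), a * b = b * a := by
  have h1 : ∀ a ∈ (P : Subgroup G), ∀ b ∈ (P : Subgroup G), (a * b)⁻¹ * (b * a) ∈ N := by
    intro a ha' b hb'
    have hp : IsPGroup p ((P : Subgroup G).map (QuotientGroup.mk' N)) := P.2.map _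
    obtain ⟨Q, hQ⟩ := hp.exists_le_sylow
    have hc := (hGN Q).is_comm.comm
      ⟨QuotientGroup.mk' N a, hQ (Subgroup.mem_map_of_mem _ ha')⟩
      ⟨QuotientGroup.mk' N b, hQ (Subgroup.mem_map_of_mem _ hb')⟩
    have hc' : (QuotientGroup.mk' N a) * (QuotientGroup.mk' N b) =
        (QuotientGroup.mk' N b) * (QuotientGroup.mk' N a) := congrArg Subtype.val hc
    rw [← map_mul, ← map_mul, QuotientGroup.mk'_apply, QuotientGroup.mk'_apply,
      QuotientGroup.eq] at hc'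
    exact hc'
  have h2 : ∀ a ∈ (P : Subgroup G), ∀ b ∈ (P : Subgroup G), a ∈ N → b ∈ N →
      a * b = b * a := by
    intro a ha' b hb' haN hbN
    have hp : IsPGroup p ((P : Subgroup G).subgroupOf N) := P.2.comap_subtype
    obtain ⟨Q, hQ⟩ := hp.exists_le_sylow
    have hc := (hN Q).is_comm.comm
      ⟨⟨a, haN⟩, hQ (Subgroup.mem_subgroupOf.mpr ha')⟩
      ⟨⟨b, hbN⟩, hQ (Subgroup.mem_subgroupOf.mpr hb')⟩
    have hc' := congrArg (fun t : Q => ((t : N) : G)) hc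
    simpa using hc'
  intro a ha' b hb'
  obtain ⟨za, hza, hzac, hqa⟩ := decomp P N h1 ha a ha'
  obtain ⟨zb, hzb, hzbc, hqb⟩ := decomp P N h1 ha b hb'
  have hqaP : za⁻¹ * a ∈ (P : Subgroup G) :=
    Subgroup.mul_mem _ (Subgroup.inv_mem _ hza) ha'
  have hqbP : zb⁻¹ * b ∈ (P : Subgroup G) :=
    Subgroup.mul_mem _ (Subgroup.inv_mem _ hzb) hb'
  have hq := h2 _ hqaP _ hqbP hqa hqb
  have e1 := hzac b hb'
  have e2 := hzbc a ha'
  have e3 := hzac zb hzb
  have c1 : a * zb⁻¹ = zb⁻¹ * a := by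
    calc a * zb⁻¹ = zb⁻¹ * (zb * a) * zb⁻¹ := by group
      _ = zb⁻¹ * (a * zb) * zb⁻¹ := by rw [e2]
      _ = zb⁻¹ * a := by group
  have c2 : b * za⁻¹ = za⁻¹ * b := by
    calc b * za⁻¹ = za⁻¹ * (za * b) * za⁻¹ := by group
      _ = za⁻¹ * (b * za) * za⁻¹ := by rw [e1]
      _ = za⁻¹ * b := by group
  have c3 : zb⁻¹ * za⁻¹ = za⁻¹ * zb⁻¹ := by
    rw [← mul_inv_rev, ← mul_inv_rev, e3]
  calc a * b = (zb * za) * (za⁻¹ * (zb⁻¹ * a) * b) := by group
    _ = (zb * za) * (za⁻¹ * (a * zb⁻¹) * b) := by rw [c1]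
    _ = (zb * za) * ((za⁻¹ * a) * (zb⁻¹ * b)) := by group
    _ = (zb * za) * ((zb⁻¹ * b) * (za⁻¹ * a)) := by rw [hq]
    _ = (zb * za) * (zb⁻¹ * (b * za⁻¹) * a) := by group
    _ = (zb * za) * (zb⁻¹ * (za⁻¹ * b) * a) := by rw [c2]
    _ = (zb * za) * ((zb⁻¹ * za⁻¹) * (b * a)) := by group
    _ = (zb * za) * ((za⁻¹ * zb⁻¹) * (b * a)) := by rw [c3]
    _ = b * a := by group

theorem cls_subgroup {G : Type*} [Group G] [Finite G] {p : ℕ} (N : Subgroup G) [N.Normal]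
    (ha : ∀ x : G, (∃ k : ℕ, orderOf x = p ^ k) →
      ¬ p ∣ (Subgroup.centralizer ({x} : Set G)).index) :
    ∀ x : N, (∃ k : ℕ, orderOf x = p ^ k) →
      ¬ p ∣ (Subgroup.centralizer ({x} : Set N)).index := by
  intro x hx hdvd
  apply ha (x : G) (by simpa [Subgroup.orderOf_coe] using hx)
  have h1 : Subgroup.centralizer ({x} : Set N) =
      (Subgroup.centralizer ({(x : G)} : Set G)).subgroupOf N := by
    ext y
    simp only [Subgroup.mem_centralizer_iff, Set.mem_singleton_iff, forall_eq,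
      Subgroup.mem_subgroupOf]
    constructor
    · intro hy
      have := congrArg Subtype.val hy
      simpa using this
    · intro hy
      exact Subtype.ext (by simpa using hy)
  have h2 : (Subgroup.centralizer ({x} : Set N)).index =
      (Subgroup.centralizer ({(x : G)} : Set G)).relIndex N := by rw [h1]; rfl
  rw [h2, Cfsg.Agent.S4309.relIndex_eq_relIndex_sup] at hdvd
  exact hdvd.trans (Subgroup.relIndex_dvd_index_of_le le_sup_left)

theorem exists_lift_p {G : Type*} [Group G] [Finite G] {p : ℕ} (hp : p.Prime) (N : Subgroup G)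
    [N.Normal] (y : G ⧸ N) (hy : ∃ k : ℕ, orderOf y = p ^ k) :
    ∃ x : G, (x : G ⧸ N) = y ∧ ∃ k : ℕ, orderOf x = p ^ k := by
  obtain ⟨g, rfl⟩ := QuotientGroup.mk_surjective y
  obtain ⟨k, hk⟩ := hy
  obtain ⟨a, m, hm, hgm⟩ :=
    Nat.exists_eq_pow_mul_and_not_dvd (orderOf_pos g).ne' p hp.ne_one
  have hm0 : m ≠ 0 := by rintro rfl; exact hm (dvd_zero p)
  have hcop : m.Coprime (orderOf (g : G ⧸ N)) := by
    rw [hk]
    exact Nat.Coprime.pow_right k ((Nat.Prime.coprime_iff_not_dvd hp).mpr hm).symm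
  obtain ⟨j, hj⟩ := exists_pow_eq_self_of_coprime hcop
  refine ⟨(g ^ m) ^ j, ?_, ?_⟩
  · rw [QuotientGroup.mk_pow, QuotientGroup.mk_pow]; exact hj
  · have h1 : orderOf (g ^ m) = p ^ a := by
      rw [orderOf_pow_of_dvd hm0 (hgm ▸ Dvd.intro_left _ rfl), hgm]
      exact Nat.mul_div_cancel _ (Nat.pos_of_ne_zero hm0)
    have h2 : orderOf ((g ^ m) ^ j) ∣ p ^ a := h1 ▸ orderOf_pow_dvd j
    obtain ⟨i, -, hi⟩ := (Nat.dvd_prime_pow hp).mp h2
    exact ⟨i, hi⟩

theorem cls_quotient {G : Type*} [Group G] [Finite G] {p : ℕ} (hp : p.Prime) (N : Subgroup G)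
    [N.Normal]
    (ha : ∀ x : G, (∃ k : ℕ, orderOf x = p ^ k) →
      ¬ p ∣ (Subgroup.centralizer ({x} : Set G)).index) :
    ∀ y : G ⧸ N, (∃ k : ℕ, orderOf y = p ^ k) →
      ¬ p ∣ (Subgroup.centralizer ({y} : Set (G ⧸ N))).index := by
  intro y hy hdvd
  obtain ⟨x, rfl, hx⟩ := exists_lift_p hp N y hy
  apply ha x hx
  have h1 : (Subgroup.centralizer ({x} : Set G)).map (QuotientGroup.mk' N) ≤
      Subgroup.centralizer ({(x : G ⧸ N)} : Set (G ⧸ N)) := by
    rintro _ ⟨c, hc, rfl⟩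
    have hc' : c ∈ Subgroup.centralizer ({x} : Set G) := hc
    rw [Subgroup.mem_centralizer_iff] at hc' ⊢
    intro z hz
    rw [Set.mem_singleton_iff] at hz
    subst hz
    have := hc' x rfl
    show (x : G ⧸ N) * (c : G ⧸ N) = (c : G ⧸ N) * (x : G ⧸ N)
    rw [← QuotientGroup.mk_mul, ← QuotientGroup.mk_mul, this]
  exact hdvd.trans ((Subgroup.index_dvd_of_le h1).trans
    (Subgroup.index_map_dvd _ (QuotientGroup.mk'_surjective N)))


/-- Let G be a finite group and p a prime such that the Sylow p-subgroups of G are non-abelian while every element of p-power order has conjugacy class size prime to p, and suppose no nontrivial proper normal subgroup N of G has this property and no quotient G/N by such an N has it. Then G is simple. -/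
theorem result {G : Type*} [Group G] [Finite G]
    (p : ℕ) [Fact p.Prime] (h : ((∃ P : Sylow p G, ¬ IsMulCommutative P) ∧ ∀ x : G, (∃ k : ℕ, orderOf x = p ^ k) → ¬ p ∣ (Subgroup.centralizer ({x} : Set G)).index))
    (hmin : ∀ (N : Subgroup G) [N.Normal], N ≠ ⊥ → N ≠ ⊤ →
      ¬ ((∃ P : Sylow p N, ¬ IsMulCommutative P) ∧ ∀ x : N, (∃ k : ℕ, orderOf x = p ^ k) → ¬ p ∣ (Subgroup.centralizer ({x} : Set N)).index) ∧
      ¬ ((∃ P : Sylow p (G ⧸ N), ¬ IsMulCommutative P) ∧ ∀ x : (G ⧸ N), (∃ k : ℕ, orderOf x = p ^ k) → ¬ p ∣ (Subgroup.centralizer ({x} : Set (G ⧸ N))).index)) :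
    IsSimpleGroup G := by
  obtain ⟨⟨P, hP⟩, ha⟩ := h
  have hp := (Fact.out : p.Prime)
  have hcomm_of : ∀ (N : Subgroup G) [N.Normal], N ≠ ⊥ → N ≠ ⊤ → False := by
    intro N _ hb ht
    obtain ⟨h1, h2⟩ := hmin N hb ht
    have hN : ∀ Q : Sylow p N, IsMulCommutative Q := by
      intro Q
      by_contra hQ
      exact h1 ⟨⟨Q, hQ⟩, cls_subgroup N ha⟩
    have hGN : ∀ Q : Sylow p (G ⧸ N), IsMulCommutative Q := by
      intro Q
      by_contra hQ
      exact h2 ⟨⟨Q, hQ⟩, cls_quotient hp N ha⟩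
    apply hP
    have hc := comm_of_normal P N hN hGN ha
    exact ⟨⟨fun x y => Subtype.ext (hc x x.2 y y.2)⟩⟩
  haveI : Nontrivial G := by
    by_contra hnt
    rw [not_nontrivial_iff_subsingleton] at hnt
    exact hP ⟨⟨fun x y => Subtype.ext (Subsingleton.elim (α := G) _ _)⟩⟩
  exact
    { exists_pair_ne := exists_pair_ne G
      eq_bot_or_eq_top_of_normal := fun N hN => by
        by_contra hcon
        push Not at hcon
        haveI := hN
        exact hcomm_of N hcon.1 hcon.2 }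

end Cfsg.Agent.S4354
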