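import Cfsg.Statements.S4365
import Cfsg.Agent.Helper22.TwoClass2

set_option autoImplicit false
open Cfsg

namespace Cfsg.Agent.S4365

/-- Let P be a finite p-group whose conjugacy class sizes are exactly 1 and pᵃ for some a ≥ 1. Then every element of P has its p-th power in the center of P (P/Z(P) has exponent p). -/
theorem result {P : Type*} [Group P] [Finite P] (p : ℕ) [Fact p.Prime]
    (hP : IsPGroup p P) (a : ℕ) (ha : 1 ≤ a)
    (hcs : {k : ℕ | ∃ x : P, (Subgroup.centralizer ({x} : Set P)).index = k} = {1, p ^ a}) (x : P) :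
    x ^ p ∈ Subgroup.center P := by
  have hcs' : Cfsg.Agent.Helper22.TwoClassSizes P (p ^ a) := by
    intro y
    have hmem : (Subgroup.centralizer ({y} : Set P)).index ∈
        {k : ℕ | ∃ x : P, (Subgroup.centralizer ({x} : Set P)).index = k} := ⟨y, rfl⟩
    rw [hcs, Set.mem_insert_iff, Set.mem_singleton_iff] at hmem
    exact hmem
  have hpp : p.Prime := Fact.out
  rcases Nat.eq_or_lt_of_le ha with ha1 | ha2
  · rw [← ha1, pow_one] at hcs'
    exact Cfsg.Agent.Helper22.pow_mem_center_of_index_prime hP hcs' x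
  · by_cases hp2 : p = 2
    · subst hp2
      have h4 : 4 ≤ 2 ^ a := by
        calc 4 = 2 ^ 2 := by norm_num
          _ ≤ 2 ^ a := Nat.pow_le_pow_right (by norm_num) ha2
      exact Cfsg.Agent.Helper22.sq_mem_center_of_four_le hP hcs' h4 x
    · exact Cfsg.Agent.Helper22.pow_mem_center_of_odd hp2 hP hcs'
        (Nat.pow_le_pow_right hpp.pos ha2) x

end Cfsg.Agent.S4365
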