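import Cfsg.Statements.S4381
import Cfsg.Agent.Helper3.ActBridge2
import Cfsg.Agent.S0012

set_option autoImplicit false
open Pointwise
open Cfsg

namespace Cfsg.Agent.S4381

open Cfsg.Agent.Helper3.ActBridge

/-- `M` is a maximal `A`-invariant proper subgroup. -/
def MaxInv (A : Type*) {G : Type*} [Group A] [Group G] [MulDistribMulAction A G]
    (M : Subgroup G) : Prop :=
  M ≠ ⊤ ∧ (∀ a : A, ∀ x ∈ M, a • x ∈ M) ∧
    ∀ L : Subgroup G, M < L → (∀ a : A, ∀ x ∈ L, a • x ∈ L) → L = ⊤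

variable {A G : Type*} [Group A] [Group G] [MulDistribMulAction A G]

theorem inv_sup (L₁ L₂ : Subgroup G) (h1 : ∀ a : A, ∀ x ∈ L₁, a • x ∈ L₁)
    (h2 : ∀ a : A, ∀ x ∈ L₂, a • x ∈ L₂) : ∀ a : A, ∀ x ∈ L₁ ⊔ L₂, a • x ∈ L₁ ⊔ L₂ := by
  intro a x hx
  have hle : L₁ ⊔ L₂ ≤ (L₁ ⊔ L₂).comap (MulDistribMulAction.toMonoidHom G a) :=
    sup_le (fun y hy => (Subgroup.mem_sup_left (h1 a y hy) : a • y ∈ L₁ ⊔ L₂))
      (fun y hy => (Subgroup.mem_sup_right (h2 a y hy) : a • y ∈ L₁ ⊔ L₂))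
  exact hle hx

theorem inv_frattini (a : A) (x : G) (hx : x ∈ frattini G) : a • x ∈ frattini G := by
  have hchar : (frattini G).Characteristic := inferInstance
  have h := Subgroup.characteristic_iff_map_le.1 hchar (MulDistribMulAction.toMulEquiv G a)
  exact h ⟨x, hx, rfl⟩

theorem exists_maxInv_ge [Finite G] (H : Subgroup G) (hinv : ∀ a : A, ∀ x ∈ H, a • x ∈ H)
    (hH : H ≠ ⊤) : ∃ M : Subgroup G, H ≤ M ∧ MaxInv A M := by
  obtain ⟨M, hHM, hmax⟩ := Finite.exists_le_maximal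
    (p := fun L : Subgroup G => L ≠ ⊤ ∧ ∀ a : A, ∀ x ∈ L, a • x ∈ L) (a := H) ⟨hH, hinv⟩
  refine ⟨M, hHM, hmax.prop.1, hmax.prop.2, ?_⟩
  intro L hML hL
  by_contra hne
  exact (not_le_of_gt hML) (hmax.le_of_ge ⟨hne, hL⟩ hML.le)

theorem frattini_le_of_maxInv [Finite G] (M : Subgroup G) (hM : MaxInv A M) :
    frattini G ≤ M := by
  by_contra h
  have hlt : M < M ⊔ frattini G := by
    apply lt_of_le_of_ne le_sup_left
    intro heq
    apply h
    have h1 : frattini G ≤ M ⊔ frattini G := le_sup_right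
    rw [← heq] at h1
    exact h1
  have htop := hM.2.2 _ hlt (inv_sup M (frattini G) hM.2.1 inv_frattini)
  exact hM.1 (frattini_nongenerating htop)

theorem maxInv_iff_of_cond [Finite G]
    (hcond : ∀ L : Subgroup G, frattini G < L → (∀ a : A, ∀ x ∈ L, a • x ∈ L) → L = ⊤)
    (M : Subgroup G) : MaxInv A M ↔ (M = frattini G ∧ M ≠ ⊤) := by
  constructor
  · intro hM
    refine ⟨?_, hM.1⟩
    have hle := frattini_le_of_maxInv M hM
    by_contra hne
    exact hM.1 (hcond M (lt_of_le_of_ne hle (fun h => hne h.symm)) hM.2.1)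
  · rintro ⟨rfl, hne⟩
    exact ⟨hne, inv_frattini, hcond⟩

theorem cond_of_conj [Finite G] [Finite A] (hcop : (Nat.card A).Coprime (Nat.card G))
    (hsol : Group.IsSolvable A ∨ Group.IsSolvable G)
    (H : ∀ M N : Subgroup G, MaxInv A M → MaxInv A N →
      ∃ c : G, (∀ a : A, a • c = c) ∧ N = MulAut.conj c • M) :
    (∃ p : ℕ, p.Prime ∧ IsPGroup p G) ∧
      ∀ L : Subgroup G, frattini G < L → (∀ a : A, ∀ x ∈ L, a • x ∈ L) → L = ⊤ := by
  by_cases hsub : Subsingleton G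
  · refine ⟨⟨2, Nat.prime_two, fun g => ⟨0, Subsingleton.elim _ _⟩⟩, fun L _ _ => ?_⟩
    rw [eq_top_iff]
    intro x _
    rw [Subsingleton.elim x 1]
    exact L.one_mem
  have hbot : (⊥ : Subgroup G) ≠ ⊤ := by
    intro h
    apply hsub
    constructor
    intro x y
    have hx : x ∈ (⊥ : Subgroup G) := by rw [h]; trivial
    have hy : y ∈ (⊥ : Subgroup G) := by rw [h]; trivial
    rw [Subgroup.mem_bot] at hx hy
    rw [hx, hy]
  obtain ⟨M₀, -, hM₀⟩ := exists_maxInv_ge (A := A) (⊥ : Subgroup G)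
    (fun a x hx => by rw [Subgroup.mem_bot] at hx ⊢; rw [hx, smul_one]) hbot
  have hpg : ∃ p : ℕ, p.Prime ∧ IsPGroup p G := by
    by_contra hnp
    have key : ∀ p : ℕ, p.Prime → p ^ (Nat.card G).factorization p ∣ Nat.card M₀ := by
      intro p hp
      haveI : Fact p.Prime := ⟨hp⟩
      obtain ⟨P, hPc, hPinv⟩ := exists_invariant_sylow hcop hsol p
      have hP : P ≠ ⊤ := by
        intro hPtop
        apply hnp
        refine ⟨p, hp, IsPGroup.of_card (n := (Nat.card G).factorization p) ?_⟩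
        rw [← hPc, hPtop, Subgroup.card_top]
      obtain ⟨M, hPM, hM⟩ := exists_maxInv_ge P hPinv hP
      obtain ⟨c, -, hc⟩ := H M₀ M hM₀ hM
      have hcard : Nat.card M = Nat.card M₀ := by
        rw [hc]
        exact (Nat.card_congr (Subgroup.equivSMul (MulAut.conj c) M₀).toEquiv).symm
      rw [← hcard, ← hPc]
      exact Subgroup.card_dvd_of_le hPM
    have hdvd : Nat.card G ∣ Nat.card M₀ := by
      rw [← Nat.factorization_prime_le_iff_dvd Nat.card_pos.ne' Nat.card_pos.ne']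
      intro p hp
      exact (hp.pow_dvd_iff_le_factorization Nat.card_pos.ne').1 (key p hp)
    have heq : Nat.card M₀ = Nat.card G :=
      Nat.dvd_antisymm (Subgroup.card_subgroup_dvd_card M₀) hdvd
    exact hM₀.1 (Subgroup.eq_top_of_card_eq M₀ heq)
  refine ⟨hpg, ?_⟩
  obtain ⟨p, hp, hG⟩ := hpg
  haveI : Fact p.Prime := ⟨hp⟩
  obtain ⟨hcomm, hpow⟩ := Cfsg.Agent.S0012.result p hG
  have hcomm' : ∀ x y : G, x * y * x⁻¹ * y⁻¹ ∈ frattini G := by
    intro x y
    apply hcomm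
    rw [commutator_def]
    exact Subgroup.commutator_mem_commutator (Subgroup.mem_top x) (Subgroup.mem_top y)
  intro L hΦL hL
  by_contra hne
  obtain ⟨M₁, hLM, hM₁⟩ := exists_maxInv_ge L hL hne
  have hΦM : frattini G ≤ M₁ := frattini_le_of_maxInv M₁ hM₁
  have hnorm : M₁.Normal := by
    constructor
    intro n hn g
    have h1 : g * n * g⁻¹ * n⁻¹ ∈ M₁ := hΦM (hcomm' g n)
    have h2 := M₁.mul_mem h1 hn
    simpa using h2
  have huniq : ∀ M : Subgroup G, MaxInv A M → M = M₁ := by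
    intro M hM
    obtain ⟨c, -, hc⟩ := H M₁ M hM₁ hM
    rw [hc, Subgroup.Normal.conj_smul_eq_self]
  have hall : ∀ W : Subgroup G, (∀ a : A, ∀ x ∈ W, a • x ∈ W) → W ≠ ⊤ → W ≤ M₁ := by
    intro W hW hWne
    obtain ⟨M, hWM, hM⟩ := exists_maxInv_ge W hW hWne
    rw [← huniq M hM]; exact hWM
  obtain ⟨W, hΦW, hWinv, hWM, hWtop⟩ := exists_invariant_compl_mod hcop p hp (frattini G)
    inv_frattini hcomm' hpow M₁ hΦM hM₁.2.1
  have hW : W = ⊤ := by
    by_contra hWne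
    have hle := hall W hWinv hWne
    rw [sup_eq_right.2 hle] at hWtop
    exact hM₁.1 hWtop
  rw [hW, top_inf_eq] at hWM
  rw [hWM] at hLM
  exact (not_le_of_gt hΦL) hLM

/-- Let the finite group A act by automorphisms on the finite group G with the orders of A and G coprime, and assume that A or G is solvable. Call a proper A-invariant subgroup of G maximal A-invariant when no A-invariant subgroup lies strictly between it and G. Then all maximal A-invariant subgroups of G are conjugate under elements of the fixed-point subgroup C_G(A) if and only if G is a p-group for some prime p and A leaves invariant no subgroup strictly between the Frattini subgroup of G and G. In that case, if G is nontrivial, the Frattini subgroup is the only maximal A-invariant subgroup (a trivial G has none). -/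
theorem result {A G : Type*} [Group A] [Finite A]
    [Group G] [Finite G] [MulDistribMulAction A G] (hcop : (Nat.card A).Coprime (Nat.card G)) (hsol : Group.IsSolvable A ∨ Group.IsSolvable G) :
    ((∀ M N : Subgroup G, (M ≠ ⊤ ∧ (∀ a : A, ∀ x ∈ M, a • x ∈ M) ∧ ∀ L : Subgroup G, M < L → (∀ a : A, ∀ x ∈ L, a • x ∈ L) → L = ⊤) → (N ≠ ⊤ ∧ (∀ a : A, ∀ x ∈ N, a • x ∈ N) ∧ ∀ L : Subgroup G, N < L → (∀ a : A, ∀ x ∈ L, a • x ∈ L) → L = ⊤) →
        ∃ c : G, (∀ a : A, a • c = c) ∧ N = MulAut.conj c • M) ↔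
      ((∃ p : ℕ, p.Prime ∧ IsPGroup p G) ∧ ∀ L : Subgroup G, frattini G < L → (∀ a : A, ∀ x ∈ L, a • x ∈ L) → L = ⊤)) ∧
    (((∃ p : ℕ, p.Prime ∧ IsPGroup p G) ∧ ∀ L : Subgroup G, frattini G < L → (∀ a : A, ∀ x ∈ L, a • x ∈ L) → L = ⊤) →
      ∀ M : Subgroup G, (M ≠ ⊤ ∧ (∀ a : A, ∀ x ∈ M, a • x ∈ M) ∧ ∀ L : Subgroup G, M < L → (∀ a : A, ∀ x ∈ L, a • x ∈ L) → L = ⊤) ↔ (M = frattini G ∧ M ≠ ⊤)) := by
  have hII : ((∃ p : ℕ, p.Prime ∧ IsPGroup p G) ∧ ∀ L : Subgroup G, frattini G < L → (∀ a : A, ∀ x ∈ L, a • x ∈ L) → L = ⊤) →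
      ∀ M : Subgroup G, (M ≠ ⊤ ∧ (∀ a : A, ∀ x ∈ M, a • x ∈ M) ∧ ∀ L : Subgroup G, M < L → (∀ a : A, ∀ x ∈ L, a • x ∈ L) → L = ⊤) ↔ (M = frattini G ∧ M ≠ ⊤) :=
    fun hc M => maxInv_iff_of_cond hc.2 M
  refine ⟨⟨fun H => cond_of_conj hcop hsol H, fun hc M N hM hN => ?_⟩, hII⟩
  have h1 := ((hII hc M).1 hM).1
  have h2 := ((hII hc N).1 hN).1
  refine ⟨1, fun a => smul_one a, ?_⟩
  rw [h1, h2, map_one, one_smul]

end Cfsg.Agent.S4381
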