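import Cfsg.Statements.S4387

set_option autoImplicit false
open Cfsg
open Pointwise

namespace Cfsg.Agent.S4387

/-- Jordan: a proper subgroup of a finite group misses, together with all its conjugates,
some element of the group. -/
theorem exists_not_mem_conj {G : Type*} [Group G] [Finite G] (M : Subgroup G) (hM : M ≠ ⊤) :
    ∃ g : G, ∀ x : G, x⁻¹ * g * x ∉ M := by
  classical
  by_contra hcon
  push Not at hcon
  have := Fintype.ofFinite G
  have : Fintype (G ⧸ M) := Fintype.ofFinite _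
  have : Fintype (Quotient (MulAction.orbitRel G (G ⧸ M))) := Fintype.ofFinite _
  have hfix : ∀ g : G, 1 ≤ Fintype.card (MulAction.fixedBy (G ⧸ M) g) := by
    intro g
    obtain ⟨x, hx⟩ := hcon g
    apply Fintype.card_pos_iff.2
    refine ⟨⟨(x : G ⧸ M), ?_⟩⟩
    rw [MulAction.mem_fixedBy]
    change ((g * x : G) : G ⧸ M) = x
    rw [QuotientGroup.eq]
    have h2 : (g * x)⁻¹ * x = (x⁻¹ * g * x)⁻¹ := by group
    rw [h2]
    exact M.inv_mem hx
  have h1 : 2 ≤ Fintype.card (MulAction.fixedBy (G ⧸ M) (1 : G)) := by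
    have h3 : Fintype.card (MulAction.fixedBy (G ⧸ M) (1 : G)) = Fintype.card (G ⧸ M) := by
      apply Fintype.card_congr
      exact Equiv.subtypeUnivEquiv (fun x => by simp [MulAction.mem_fixedBy])
    rw [h3, ← Nat.card_eq_fintype_card]
    have h4 : M.index ≠ 1 := fun h => hM (Subgroup.index_eq_one.1 h)
    have h5 : M.index ≠ 0 := Subgroup.index_ne_zero_of_finite
    have h6 : M.index = Nat.card (G ⧸ M) := rfl
    omega
  have hB := MulAction.sum_card_fixedBy_eq_card_orbits_mul_card_group G (G ⧸ M)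
  have horb : Fintype.card (Quotient (MulAction.orbitRel G (G ⧸ M))) ≤ 1 := by
    apply Fintype.card_le_one_iff_subsingleton.2
    exact (MulAction.pretransitive_iff_subsingleton_quotient G (G ⧸ M)).1 inferInstance
  have hsum : Fintype.card G + 1 ≤ ∑ g : G, Fintype.card (MulAction.fixedBy (G ⧸ M) g) := by
    have h7 : ∑ g : G, (1 + if g = 1 then 1 else 0) = Fintype.card G + 1 := by
      rw [Finset.sum_add_distrib]
      simp
    rw [← h7]
    apply Finset.sum_le_sum
    intro g _
    by_cases hg : g = 1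
    · subst hg
      simpa using h1
    · simpa [hg] using hfix g
  have : Fintype.card (Quotient (MulAction.orbitRel G (G ⧸ M))) * Fintype.card G ≤ Fintype.card G := by
    calc _ ≤ 1 * Fintype.card G := Nat.mul_le_mul_right _ horb
      _ = _ := one_mul _
  omega

theorem mem_conj_smul_iff {G : Type*} [Group G] (M : Subgroup G) (x y : G) :
    y ∈ MulAut.conj x • M ↔ x⁻¹ * y * x ∈ M := by
  rw [Subgroup.mem_pointwise_smul_iff_inv_smul_mem]
  simp [MulAut.smul_def]

/-- Let G be a non-trivial finite group in which any two maximal subgroups are conjugate. Then G is cyclic of prime-power order. -/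
theorem result {G : Type*} [Group G] [Finite G] [Nontrivial G]
    (h : ∀ M N : Subgroup G, IsCoatom M → IsCoatom N → ∃ g : G, N = MulAut.conj g • M) :
    IsCyclic G ∧ IsPrimePow (Nat.card G) := by
  -- a maximal subgroup exists
  obtain ⟨M, hMco, -⟩ : ∃ M : Subgroup G, IsCoatom M ∧ (⊥ : Subgroup G) ≤ M := by
    rcases eq_top_or_exists_le_coatom (⊥ : Subgroup G) with h0 | h0
    · exact absurd h0 bot_ne_top
    · exact h0
  have hMtop : M ≠ ⊤ := hMco.1
  obtain ⟨g, hg⟩ := exists_not_mem_conj M hMtop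
  -- every proper subgroup lies in a conjugate of M
  have hprop : ∀ K : Subgroup G, K ≠ ⊤ → ∃ x : G, ∀ k ∈ K, x⁻¹ * k * x ∈ M := by
    intro K hK
    rcases eq_top_or_exists_le_coatom K with h0 | ⟨N, hN, hKN⟩
    · exact absurd h0 hK
    · obtain ⟨x, hx⟩ := h M N hMco hN
      refine ⟨x, fun k hk => ?_⟩
      have := hKN hk
      rw [hx, mem_conj_smul_iff] at this
      exact this
  have hgtop : Subgroup.zpowers g = ⊤ := by
    by_contra hne
    obtain ⟨x, hx⟩ := hprop _ hne
    exact hg x (hx g (Subgroup.mem_zpowers g))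
  have hgen : ∀ x : G, x ∈ Subgroup.zpowers g := fun x => by rw [hgtop]; trivial
  have hcyc : IsCyclic G := ⟨⟨g, hgen⟩⟩
  refine ⟨hcyc, ?_⟩
  have hcomm : ∀ a b : G, a * b = b * a := fun a b => by
    obtain ⟨i, rfl⟩ := Subgroup.mem_zpowers_iff.1 (hgen a)
    obtain ⟨j, rfl⟩ := Subgroup.mem_zpowers_iff.1 (hgen b)
    rw [← zpow_add, ← zpow_add, add_comm]
  have hord : orderOf g = Nat.card G := orderOf_eq_card_of_forall_mem_zpowers hgen
  -- for every prime p dividing the order, g ^ p ∈ M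
  have hpM : ∀ p : ℕ, p.Prime → p ∣ Nat.card G → g ^ p ∈ M := by
    intro p hp hpd
    have hne : Subgroup.zpowers (g ^ p) ≠ ⊤ := by
      intro htop
      have hgm : g ∈ Subgroup.zpowers (g ^ p) := by rw [htop]; trivial
      obtain ⟨k, hk⟩ := Subgroup.mem_zpowers_iff.1 hgm
      have h1 : g ^ ((p : ℤ) * k - 1) = 1 := by
        rw [zpow_sub, zpow_mul, zpow_natCast, hk, zpow_one, mul_inv_cancel]
      have h2 : (orderOf g : ℤ) ∣ (p : ℤ) * k - 1 := orderOf_dvd_iff_zpow_eq_one.2 h1
      rw [hord] at h2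
      have h3 : (p : ℤ) ∣ (p : ℤ) * k - 1 := (Int.natCast_dvd_natCast.2 hpd).trans h2
      have h4 : (p : ℤ) ∣ 1 := by
        have h5 : (p : ℤ) ∣ (p : ℤ) * k := dvd_mul_right _ _
        have := dvd_sub h5 h3
        simpa using this
      have h6 : p ∣ 1 := Int.natCast_dvd_natCast.1 (by simpa using h4)
      exact hp.one_lt.ne' (Nat.dvd_one.1 h6)
    obtain ⟨x, hx⟩ := hprop _ hne
    have := hx (g ^ p) (Subgroup.mem_zpowers _)
    rwa [mul_assoc, hcomm (g ^ p) x, ← mul_assoc, inv_mul_cancel, one_mul] at this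
  rw [isPrimePow_iff_unique_prime_dvd]
  have hcard : Nat.card G ≠ 1 := by
    have : 1 < Nat.card G := Finite.one_lt_card
    omega
  obtain ⟨p, hp, hpd⟩ := Nat.exists_prime_and_dvd hcard
  refine ⟨p, ⟨hp, hpd⟩, ?_⟩
  rintro q ⟨hq, hqd⟩
  by_contra hne
  have hcop : Nat.Coprime p q := (Nat.coprime_primes hp hq).2 (fun h => hne h.symm)
  have hgM : g ∈ M := by
    have h1 : (p : ℤ) * Nat.gcdA p q + (q : ℤ) * Nat.gcdB p q = 1 := by
      have := Nat.gcd_eq_gcd_ab p q
      rw [hcop.gcd_eq_one] at this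
      exact_mod_cast this.symm
    have h2 : g = (g ^ p) ^ (Nat.gcdA p q) * (g ^ q) ^ (Nat.gcdB p q) := by
      rw [← zpow_natCast g p, ← zpow_natCast g q, ← zpow_mul, ← zpow_mul, ← zpow_add, h1, zpow_one]
    rw [h2]
    exact M.mul_mem (M.zpow_mem (hpM p hp hpd) _) (M.zpow_mem (hpM q hq hqd) _)
  apply hMtop
  rw [eq_top_iff, ← hgtop]
  exact (Subgroup.zpowers_le).2 hgM

end Cfsg.Agent.S4387
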