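import Cfsg.Statements.S4400
import Cfsg.Agent.Helper19.Nilpotent
import Cfsg.Agent.S4208

set_option autoImplicit false
open Cfsg

namespace Cfsg.Agent.S4400

universe u

/-- An elementary abelian 2-section `H/N` of a group of sectional 2-rank at most `k` has order
at most `2 ^ k`. -/
theorem sec_bound {S : Type u} [Group S] [Finite S] (k : ℕ) (hr : Cfsg.SectionalPRankLE 2 k S)
    (H N : Subgroup S) [N.Normal] (hNH : N ≤ H) (hexp : ∀ h ∈ H, h ^ 2 ∈ N) :
    Nat.card H ≤ 2 ^ k * Nat.card N := by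
  have hsq : ∀ x : ↥H ⧸ N.subgroupOf H, x * x = 1 := by
    intro x
    obtain ⟨h, rfl⟩ := QuotientGroup.mk_surjective x
    rw [← QuotientGroup.mk_mul, QuotientGroup.eq_one_iff, Subgroup.mem_subgroupOf]
    have h1 := hexp h h.2
    rw [pow_two] at h1
    exact h1
  have h1 := hr H (N.subgroupOf H) ⊤ ?_ ?_
  · rw [Subgroup.card_top] at h1
    have h2 := (N.subgroupOf H).card_mul_index
    rw [Nat.card_congr (Subgroup.subgroupOfEquivOfLe hNH).toEquiv] at h2
    have h3 : (N.subgroupOf H).index = Nat.card (↥H ⧸ N.subgroupOf H) := Subgroup.index_eq_card _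
    rw [← h2, h3, mul_comm]
    exact Nat.mul_le_mul_right _ h1
  · refine ⟨⟨fun a b => ?_⟩⟩
    apply Subtype.ext
    show (a : ↥H ⧸ N.subgroupOf H) * b = b * a
    have e1 := hsq (a : ↥H ⧸ N.subgroupOf H)
    have e2 := hsq (b : ↥H ⧸ N.subgroupOf H)
    have e3 := hsq ((b : ↥H ⧸ N.subgroupOf H) * a)
    calc (a : ↥H ⧸ N.subgroupOf H) * b
        = ((b : ↥H ⧸ N.subgroupOf H) * b) * (a * b) * (a * a) := by rw [e1, e2]; group
      _ = b * ((b * a) * (b * a)) * a := by group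
      _ = b * a := by rw [e3]; group
  · intro a _
    rw [pow_two]
    exact hsq a

theorem center_two {S : Type u} [Group S] (P : Subgroup S)
    (hZP : Nat.card ↥(Subgroup.center ↥P) = 2) :
    ∃ z : S, z ∈ P ∧ z ≠ 1 ∧ (∀ x ∈ P, x * z = z * x) ∧
      (∀ d ∈ P, (∀ x ∈ P, x * d = d * x) → d ≠ 1 → d = z) ∧
      (∀ w : S, w ∈ (Subgroup.center ↥P).map P.subtype ↔ w = 1 ∨ w = z) := by
  obtain ⟨zP, hzP1, hzPu⟩ := (Nat.card_eq_two_iff' (1 : ↥(Subgroup.center ↥P))).mp hZP
  have hcen : ∀ x ∈ P, x * ((zP : ↥P) : S) = ((zP : ↥P) : S) * x := by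
    intro x hx
    have h1 := Subgroup.mem_center_iff.mp zP.2 ⟨x, hx⟩
    exact congrArg Subtype.val h1
  have huniq : ∀ d ∈ P, (∀ x ∈ P, x * d = d * x) → d ≠ 1 → d = ((zP : ↥P) : S) := by
    intro d hd hdc hd1
    have hmem : (⟨d, hd⟩ : ↥P) ∈ Subgroup.center ↥P := by
      rw [Subgroup.mem_center_iff]
      intro g
      exact Subtype.ext (hdc g g.2)
    have h1 := hzPu ⟨⟨d, hd⟩, hmem⟩ (by
      intro h
      apply hd1
      have h2 := congrArg (fun w : ↥(Subgroup.center ↥P) => ((w : ↥P) : S)) h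
      simpa using h2)
    have h3 := congrArg (fun w : ↥(Subgroup.center ↥P) => ((w : ↥P) : S)) h1
    simpa using h3
  refine ⟨((zP : ↥P) : S), (zP : ↥P).2, ?_, hcen, huniq, ?_⟩
  · intro h
    apply hzP1
    apply Subtype.ext; apply Subtype.ext
    simpa using h
  · intro w
    constructor
    · rintro ⟨w', hw', rfl⟩
      by_cases h1 : (w' : S) = 1
      · left; exact h1
      · right
        exact huniq _ w'.2
          (fun x hx => congrArg Subtype.val (Subgroup.mem_center_iff.mp hw' ⟨x, hx⟩)) h1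
    · rintro (rfl | rfl)
      · exact Subgroup.one_mem _
      · exact ⟨(zP : ↥P), zP.2, rfl⟩

theorem center_two_central {S : Type u} [Group S] (P : Subgroup S) [P.Normal] (z : S)
    (hz : z ∈ P) (hz1 : z ≠ 1) (hcen : ∀ x ∈ P, x * z = z * x)
    (huniq : ∀ d ∈ P, (∀ x ∈ P, x * d = d * x) → d ≠ 1 → d = z) :
    ∀ g : S, g * z = z * g := by
  intro g
  have hP : P.Normal := inferInstance
  have h1 : g * z * g⁻¹ = z := by
    apply huniq _ (hP.conj_mem z hz g)
    · intro x hx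
      have h2 := hcen (g⁻¹ * x * g) (by have := hP.conj_mem x hx g⁻¹; simpa using this)
      calc x * (g * z * g⁻¹) = g * (g⁻¹ * x * g * z) * g⁻¹ := by group
        _ = g * (z * (g⁻¹ * x * g)) * g⁻¹ := by rw [h2]
        _ = g * z * g⁻¹ * x := by group
    · intro h
      apply hz1
      have e : z = g⁻¹ * (g * z * g⁻¹) * g := by group
      rw [e, h]; group
  calc g * z = g * z * g⁻¹ * g := by group
    _ = z * g := by rw [h1]

/-- The subgroup generated by the squares of the elements of `P`. -/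
def sqSub {S : Type u} [Group S] (P : Subgroup S) : Subgroup S :=
  Subgroup.closure {y | ∃ x ∈ P, y = x ^ 2}

theorem sqSub_le {S : Type u} [Group S] (P : Subgroup S) : sqSub P ≤ P := by
  unfold sqSub
  rw [Subgroup.closure_le]
  rintro y ⟨x, hx, rfl⟩
  exact pow_mem hx 2

theorem sq_mem {S : Type u} [Group S] (P : Subgroup S) {x : S} (hx : x ∈ P) : x ^ 2 ∈ sqSub P :=
  Subgroup.subset_closure ⟨x, hx, rfl⟩

theorem sqSub_normal {S : Type u} [Group S] (P : Subgroup S) [hP : P.Normal] :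
    (sqSub P).Normal := by
  constructor
  intro n hn g
  have h1 : g * n * g⁻¹ ∈ (sqSub P).map (MulAut.conj g).toMonoidHom := ⟨n, hn, by simp⟩
  unfold sqSub at h1 ⊢
  rw [MonoidHom.map_closure] at h1
  refine (Subgroup.closure_mono ?_) h1
  rintro y ⟨y', ⟨x, hx, rfl⟩, rfl⟩
  exact ⟨g * x * g⁻¹, hP.conj_mem x hx g, by simp [conj_pow]⟩

theorem comm_mem_sq {S : Type u} [Group S] (P : Subgroup S) {a b : S} (ha : a ∈ P) (hb : b ∈ P) :
    a * b * a⁻¹ * b⁻¹ ∈ sqSub P := by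
  have e : a * b * a⁻¹ * b⁻¹ = (a * b) ^ 2 * (b⁻¹ * a⁻¹ * b) ^ 2 * (b⁻¹) ^ 2 := by
    rw [pow_two, pow_two, pow_two]; group
  rw [e]
  exact (sqSub P).mul_mem ((sqSub P).mul_mem (sq_mem P (P.mul_mem ha hb))
    (sq_mem P (P.mul_mem (P.mul_mem (P.inv_mem hb) (P.inv_mem ha)) hb))) (sq_mem P (P.inv_mem hb))

theorem exists_noncomm {S : Type u} [Group S] (P : Subgroup S) (hP : ¬ IsMulCommutative ↥P) :
    ∃ a ∈ P, ∃ b ∈ P, a * b ≠ b * a := by
  by_contra hcon
  push Not at hcon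
  exact hP ⟨⟨fun a b => Subtype.ext (hcon a a.2 b b.2)⟩⟩

theorem sq_index {S : Type u} [Group S] [Finite S] (P : Subgroup S) (h2 : IsPGroup 2 ↥P)
    (hP : ¬ IsMulCommutative ↥P) : 4 * Nat.card (sqSub P) ≤ Nat.card P := by
  obtain ⟨sq, hsq⟩ : ∃ sq : Subgroup ↥P, sq = (sqSub P).subgroupOf P := ⟨_, rfl⟩
  have hcard : Nat.card sq = Nat.card (sqSub P) := by
    rw [hsq]; exact Nat.card_congr (Subgroup.subgroupOfEquivOfLe (sqSub_le P)).toEquiv
  have hmul := sq.card_mul_index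
  obtain ⟨a, ha⟩ := IsPGroup.iff_card.mp h2
  haveI : Fact (Nat.Prime 2) := ⟨Nat.prime_two⟩
  have hdvd : sq.index ∣ 2 ^ a := by rw [← ha]; exact Subgroup.index_dvd_card sq
  obtain ⟨b, -, hb⟩ := (Nat.dvd_prime_pow Nat.prime_two).mp hdvd
  by_cases hb2 : 2 ≤ b
  · have h4 : 4 ∣ sq.index := by
      rw [hb]; exact (pow_dvd_pow 2 hb2 : 2 ^ 2 ∣ 2 ^ b)
    obtain ⟨t, ht⟩ := h4
    have ht0 : 0 < t := by
      rcases Nat.eq_zero_or_pos t with h | h
      · rw [h, mul_zero] at ht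
        exact absurd ht (Subgroup.index_ne_zero_of_finite)
      · exact h
    rw [← hmul, ht, hcard]
    nlinarith [Nat.card_pos (α := ↥(sqSub P))]
  · exfalso
    have hidx : sq.index ≤ 2 := by
      rw [hb]
      have : b ≤ 1 := by omega
      calc 2 ^ b ≤ 2 ^ 1 := Nat.pow_le_pow_right (by norm_num) this
        _ = 2 := by norm_num
    haveI : Group.IsNilpotent ↥P := h2.isNilpotent
    have hsqfr : sq ≤ frattini ↥P := by
      intro y hy
      rw [Cfsg.Agent.S4208.mem_frattini_iff]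
      intro M hM
      haveI hMn : M.Normal :=
        Subgroup.NormalizerCondition.normal_of_coatom M Group.normalizerCondition_of_isNilpotent hM
      have hMi : M.index = 2 := Cfsg.Agent.S4208.coatom_index 2 ha M hM
      have hle : sqSub P ≤ M.map P.subtype := by
        unfold sqSub
        rw [Subgroup.closure_le]
        rintro y ⟨x, hx, rfl⟩
        refine ⟨⟨x, hx⟩ ^ 2, ?_, rfl⟩
        have := Subgroup.pow_index_mem M (⟨x, hx⟩ : ↥P)
        rw [hMi] at this
        exact this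
      rw [hsq, Subgroup.mem_subgroupOf] at hy
      obtain ⟨y', hy', hyy'⟩ := hle hy
      have : y' = y := Subtype.ext hyy'
      rw [← this]; exact hy'
    obtain ⟨x, hx⟩ : ∃ x : ↥P, Subgroup.zpowers x ⊔ sq = ⊤ := by
      by_cases htop : sq = ⊤
      · exact ⟨1, by rw [htop]; simp⟩
      · obtain ⟨x, hx⟩ : ∃ x : ↥P, x ∉ sq := by
          by_contra hcon
          push Not at hcon
          exact htop (eq_top_iff.mpr fun y _ => hcon y)
        refine ⟨x, ?_⟩
        have hlt : sq < Subgroup.zpowers x ⊔ sq := by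
          refine lt_of_le_of_ne le_sup_right (fun h => hx ?_)
          rw [h]
          exact (le_sup_left : Subgroup.zpowers x ≤ _) (Subgroup.mem_zpowers x)
        have h1 : (Subgroup.zpowers x ⊔ sq).index < sq.index := Subgroup.index_strictAnti hlt
        have h3 : (Subgroup.zpowers x ⊔ sq).index ≠ 0 := Subgroup.index_ne_zero_of_finite
        have h4 : (Subgroup.zpowers x ⊔ sq).index ∣ sq.index :=
          Subgroup.index_dvd_of_le le_sup_right
        have h5 : (Subgroup.zpowers x ⊔ sq).index = 1 := by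
          have h6 : sq.index = 2 := by
            have : sq.index ≠ 0 := Subgroup.index_ne_zero_of_finite
            omega
          rw [h6] at h4 h1
          have := Nat.le_of_dvd (by norm_num) h4
          omega
        exact Subgroup.index_eq_one.mp h5
    have hx' : Subgroup.zpowers x ⊔ frattini ↥P = ⊤ := by
      rw [eq_top_iff, ← hx]
      exact sup_le_sup_left hsqfr _
    have hz := frattini_nongenerating hx'
    apply hP
    refine ⟨⟨fun a b => ?_⟩⟩
    have ha' : a ∈ Subgroup.zpowers x := by rw [hz]; exact Subgroup.mem_top a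
    have hb' : b ∈ Subgroup.zpowers x := by rw [hz]; exact Subgroup.mem_top b
    obtain ⟨i, hi⟩ := Subgroup.mem_zpowers_iff.mp ha'
    obtain ⟨j, hj⟩ := Subgroup.mem_zpowers_iff.mp hb'
    rw [← hi, ← hj, ← zpow_add, ← zpow_add, add_comm]

theorem z_mem_sq {S : Type u} [Group S] [Finite S] (h2 : IsPGroup 2 S) (P : Subgroup S)
    [P.Normal] (hP : ¬ IsMulCommutative ↥P) (z : S)
    (huniq : ∀ d ∈ P, (∀ x ∈ P, x * d = d * x) → d ≠ 1 → d = z) : z ∈ sqSub P := by
  obtain ⟨a, ha, b, hb, hab⟩ := exists_noncomm P hP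
  haveI := sqSub_normal P
  haveI : Group.IsNilpotent S := h2.isNilpotent
  have hne : sqSub P ≠ ⊥ := by
    intro h
    have h1 := comm_mem_sq P ha hb
    rw [h, Subgroup.mem_bot] at h1
    apply hab
    have e : a * b = (a * b * a⁻¹ * b⁻¹) * (b * a) := by group
    rw [e, h1, one_mul]
  have h1 := Cfsg.Agent.Helper19.inf_center_ne_bot_of_normal (sqSub P) hne
  obtain ⟨d, hd, hd1⟩ : ∃ d ∈ sqSub P ⊓ Subgroup.center S, d ≠ 1 := by
    by_contra hcon
    push Not at hcon
    exact h1 ((Subgroup.eq_bot_iff_forall _).mpr hcon)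
  have hdc : ∀ g : S, g * d = d * g := Subgroup.mem_center_iff.mp hd.2
  have e1 := huniq d (sqSub_le P hd.1) (fun x _ => hdc x) hd1
  rw [← e1]; exact hd.1

theorem card_sup_le' {G : Type u} [Group G] [Finite G] (H K : Subgroup G) [K.Normal] :
    Nat.card ↥(H ⊔ K) ≤ Nat.card H * Nat.card K := by
  have h1 : Nat.card ↥(K.subgroupOf (H ⊔ K)) * (K.subgroupOf (H ⊔ K)).index = Nat.card ↥(H ⊔ K) :=
    Subgroup.card_mul_index _
  have h2 : Nat.card ↥(K.subgroupOf (H ⊔ K)) = Nat.card K :=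
    Nat.card_congr (Subgroup.subgroupOfEquivOfLe le_sup_right).toEquiv
  have h3 : (K.subgroupOf (H ⊔ K)).index = K.relIndex H := Subgroup.relIndex_sup_right H K
  have h4 : K.relIndex H ≤ Nat.card H :=
    Nat.le_of_dvd Nat.card_pos (Subgroup.relIndex_dvd_card K H)
  rw [← h1, h2, h3, mul_comm]
  exact Nat.mul_le_mul_right _ h4

theorem card_sup_eq' {G : Type u} [Group G] [Finite G] (H K : Subgroup G) [K.Normal]
    (h : H ⊓ K = ⊥) : Nat.card ↥(H ⊔ K) = Nat.card H * Nat.card K := by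
  have h1 : Nat.card ↥(K.subgroupOf (H ⊔ K)) * (K.subgroupOf (H ⊔ K)).index = Nat.card ↥(H ⊔ K) :=
    Subgroup.card_mul_index _
  have h2 : Nat.card ↥(K.subgroupOf (H ⊔ K)) = Nat.card K :=
    Nat.card_congr (Subgroup.subgroupOfEquivOfLe le_sup_right).toEquiv
  have h3 : (K.subgroupOf (H ⊔ K)).index = K.relIndex H := Subgroup.relIndex_sup_right H K
  have h4 : K.relIndex H = Nat.card H := by
    have h5 : K.subgroupOf H = ⊥ := by
      rw [Subgroup.subgroupOf_eq_bot, disjoint_iff, inf_comm]; exact h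
    show (K.subgroupOf H).index = Nat.card H
    rw [h5, Subgroup.index_bot]
  rw [← h1, h2, h3, h4, mul_comm]

/-- Let S be a finite 2-group of sectional 2-rank at most 4, and let P and Q be normal non-abelian subgroups of S whose centres have order 2 and are different. Then P and Q commute elementwise and intersect trivially, and PQ contains its own centralizer in S. -/
theorem result {S : Type*} [Group S] [Finite S] (h2 : IsPGroup 2 S) (hr : Cfsg.SectionalPRankLE 2 4 S)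
    (P Q : Subgroup S) [P.Normal] [Q.Normal] (hP : ¬ IsMulCommutative ↥P) (hQ : ¬ IsMulCommutative ↥Q)
    (hZP : Nat.card ↥(Subgroup.center ↥P) = 2) (hZQ : Nat.card ↥(Subgroup.center ↥Q) = 2)
    (hne : (Subgroup.center ↥P).map P.subtype ≠ (Subgroup.center ↥Q).map Q.subtype) :
    ⁅P, Q⁆ = ⊥ ∧ P ⊓ Q = ⊥ ∧ Subgroup.centralizer ((P ⊔ Q : Subgroup S) : Set S) ≤ P ⊔ Q := by
  obtain ⟨zp, hzpP, hzp1, hzpc, hzpu, hzpm⟩ := center_two P hZP
  obtain ⟨zq, hzqQ, hzq1, hzqc, hzqu, hzqm⟩ := center_two Q hZQ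
  have hzne : zp ≠ zq := by
    intro h
    apply hne
    ext w
    rw [hzpm, hzqm, h]
  haveI : Group.IsNilpotent S := h2.isNilpotent
  have hPQ : P ⊓ Q = ⊥ := by
    by_contra hD
    have h1 := Cfsg.Agent.Helper19.inf_center_ne_bot_of_normal (P ⊓ Q) hD
    obtain ⟨d, hd, hd1⟩ : ∃ d ∈ (P ⊓ Q) ⊓ Subgroup.center S, d ≠ 1 := by
      by_contra hcon
      push Not at hcon
      exact h1 ((Subgroup.eq_bot_iff_forall _).mpr hcon)
    have hdc : ∀ g : S, g * d = d * g := Subgroup.mem_center_iff.mp hd.2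
    have e1 := hzpu d hd.1.1 (fun x _ => hdc x) hd1
    have e2 := hzqu d hd.1.2 (fun x _ => hdc x) hd1
    exact hzne (e1.symm.trans e2)
  have hcomm : ⁅P, Q⁆ = ⊥ := by
    rw [eq_bot_iff, ← hPQ]; exact Subgroup.commutator_le_inf P Q
  have hPQc : ∀ x ∈ P, ∀ y ∈ Q, x * y = y * x := by
    intro x hx y hy
    have h1 := Subgroup.commutator_mem_commutator hx hy
    rw [hcomm, Subgroup.mem_bot, commutatorElement_eq_one_iff_mul_comm] at h1
    exact h1
  refine ⟨hcomm, hPQ, ?_⟩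
  by_contra hC
  rw [SetLike.not_le_iff_exists] at hC
  obtain ⟨c₀, hc₀C, hc₀⟩ := hC
  obtain ⟨c, hcC, hcPQ, hc2⟩ : ∃ c ∈ Subgroup.centralizer ((P ⊔ Q : Subgroup S) : Set S),
      c ∉ P ⊔ Q ∧ c ^ 2 ∈ P ⊔ Q := by
    classical
    have hex : ∃ j : ℕ, c₀ ^ (2 ^ j) ∈ P ⊔ Q := by
      obtain ⟨k, hk⟩ := h2 c₀
      exact ⟨k, by rw [hk]; exact Subgroup.one_mem _⟩
    have hj0 : Nat.find hex ≠ 0 := by
      intro h0
      have h1 := Nat.find_spec hex
      rw [h0, pow_zero, pow_one] at h1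
      exact hc₀ h1
    obtain ⟨j, hj⟩ := Nat.exists_eq_succ_of_ne_zero hj0
    refine ⟨c₀ ^ (2 ^ j), pow_mem hc₀C _, ?_, ?_⟩
    · exact Nat.find_min hex (by rw [hj]; exact Nat.lt_succ_self j)
    · have h1 := Nat.find_spec hex
      rw [hj, pow_succ, pow_mul] at h1
      exact h1
  have hcP : ∀ x ∈ P, x * c = c * x := fun x hx =>
    Subgroup.mem_centralizer_iff.mp hcC x ((le_sup_left : P ≤ P ⊔ Q) hx)
  have hcQ : ∀ x ∈ Q, x * c = c * x := fun x hx =>
    Subgroup.mem_centralizer_iff.mp hcC x ((le_sup_right : Q ≤ P ⊔ Q) hx)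
  haveI hsPn := sqSub_normal P
  haveI hsQn := sqSub_normal Q
  have hzpsq : zp ∈ sqSub P := z_mem_sq h2 P hP zp hzpu
  have hzqsq : zq ∈ sqSub Q := z_mem_sq h2 Q hQ zq hzqu
  -- c ^ 2 lies in the squares subgroup
  have hc2N : c ^ 2 ∈ sqSub P ⊔ sqSub Q := by
    have h1 : c ^ 2 ∈ ((P ⊔ Q : Subgroup S) : Set S) := hc2
    rw [Subgroup.mul_normal, Set.mem_mul] at h1
    obtain ⟨p₀, hp₀, q₀, hq₀, hpq⟩ := h1
    have hp₀c : ∀ x ∈ P, x * p₀ = p₀ * x := by
      intro x hx
      have h3 : x * c ^ 2 = c ^ 2 * x := (Commute.pow_right (show Commute x c from hcP x hx) 2).eq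
      rw [← hpq] at h3
      have h4 : x * q₀ = q₀ * x := hPQc x hx q₀ hq₀
      have h5 : x * p₀ * q₀ = p₀ * x * q₀ := by
        calc x * p₀ * q₀ = x * (p₀ * q₀) := by group
          _ = p₀ * q₀ * x := h3
          _ = p₀ * (q₀ * x) := by group
          _ = p₀ * (x * q₀) := by rw [h4]
          _ = p₀ * x * q₀ := by group
      exact mul_right_cancel h5
    have hq₀c : ∀ x ∈ Q, x * q₀ = q₀ * x := by
      intro x hx
      have h3 : x * c ^ 2 = c ^ 2 * x := (Commute.pow_right (show Commute x c from hcQ x hx) 2).eq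
      rw [← hpq] at h3
      have h4 : p₀ * x = x * p₀ := hPQc p₀ hp₀ x hx
      have h5 : p₀ * (x * q₀) = p₀ * (q₀ * x) := by
        calc p₀ * (x * q₀) = (p₀ * x) * q₀ := by group
          _ = (x * p₀) * q₀ := by rw [h4]
          _ = x * (p₀ * q₀) := by group
          _ = p₀ * q₀ * x := h3
          _ = p₀ * (q₀ * x) := by group
      exact mul_left_cancel h5
    have hp₀s : p₀ ∈ sqSub P := by
      by_cases h : p₀ = 1
      · rw [h]; exact Subgroup.one_mem _
      · rw [hzpu p₀ hp₀ hp₀c h]; exact hzpsq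
    have hq₀s : q₀ ∈ sqSub Q := by
      by_cases h : q₀ = 1
      · rw [h]; exact Subgroup.one_mem _
      · rw [hzqu q₀ hq₀ hq₀c h]; exact hzqsq
    rw [← hpq]
    exact Subgroup.mul_mem _ ((le_sup_left : sqSub P ≤ _) hp₀s) ((le_sup_right : sqSub Q ≤ _) hq₀s)
  obtain ⟨H, hH⟩ : ∃ H : Subgroup S, H = Subgroup.zpowers c ⊔ (P ⊔ Q) := ⟨_, rfl⟩
  have hPQH : P ⊔ Q ≤ H := by rw [hH]; exact le_sup_right
  have hcH : c ∈ H := by rw [hH]; exact (le_sup_left : Subgroup.zpowers c ≤ _) (Subgroup.mem_zpowers c)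
  have hNH : sqSub P ⊔ sqSub Q ≤ H :=
    (sup_le_sup (sqSub_le P) (sqSub_le Q)).trans hPQH
  have hexp : ∀ h ∈ H, h ^ 2 ∈ sqSub P ⊔ sqSub Q := by
    intro h hh
    rw [hH] at hh
    have h1 : h ∈ ((Subgroup.zpowers c ⊔ (P ⊔ Q) : Subgroup S) : Set S) := hh
    rw [Subgroup.mul_normal, Set.mem_mul] at h1
    obtain ⟨ci, hci, w, hw, rfl⟩ := h1
    have hw' : w ∈ ((P ⊔ Q : Subgroup S) : Set S) := hw
    rw [Subgroup.mul_normal, Set.mem_mul] at hw'
    obtain ⟨p, hp, q, hq, rfl⟩ := hw'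
    obtain ⟨i, rfl⟩ := Subgroup.mem_zpowers_iff.mp hci
    have hcp : Commute c p := (hcP p hp).symm
    have hcq : Commute c q := (hcQ q hq).symm
    have hpq : Commute p q := hPQc p hp q hq
    have hc1 : Commute (c ^ i) (p * q) := (hcp.mul_right hcq).zpow_left i
    rw [hc1.mul_pow, hpq.mul_pow]
    have e : (c ^ i) ^ 2 = (c ^ 2) ^ i := by
      rw [← zpow_natCast (c ^ i) 2, ← zpow_mul, mul_comm, zpow_mul, zpow_natCast]
    rw [e]
    exact Subgroup.mul_mem _ (zpow_mem hc2N i)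
      (Subgroup.mul_mem _ ((le_sup_left : sqSub P ≤ _) (sq_mem P hp))
        ((le_sup_right : sqSub Q ≤ _) (sq_mem Q hq)))
  have hbound := sec_bound 4 hr H (sqSub P ⊔ sqSub Q) hNH hexp
  have hN₀ : Nat.card ↥(sqSub P ⊔ sqSub Q) ≤ Nat.card (sqSub P) * Nat.card (sqSub Q) :=
    card_sup_le' _ _
  have hcPQ' : Nat.card ↥(P ⊔ Q) = Nat.card P * Nat.card Q := card_sup_eq' P Q hPQ
  have hP4 := sq_index P (h2.to_subgroup P) hP
  have hQ4 := sq_index Q (h2.to_subgroup Q) hQ
  have hH2 : 2 * Nat.card ↥(P ⊔ Q) ≤ Nat.card H := by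
    obtain ⟨m, hm⟩ := Subgroup.card_dvd_of_le hPQH
    have hm0 : m ≠ 0 := by
      rintro rfl
      rw [mul_zero] at hm
      exact absurd hm Nat.card_pos.ne'
    have hm1 : m ≠ 1 := by
      rintro rfl
      rw [mul_one] at hm
      have := Subgroup.eq_of_le_of_card_ge hPQH (le_of_eq hm)
      exact hcPQ (this ▸ hcH)
    have hm2 : 2 ≤ m := by omega
    rw [hm, mul_comm]
    exact Nat.mul_le_mul_left _ hm2
  have hmul := Nat.mul_le_mul hP4 hQ4
  have hpos : 0 < Nat.card ↥(sqSub P ⊔ sqSub Q) := Nat.card_pos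
  nlinarith

end Cfsg.Agent.S4400
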