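import Cfsg.Statements.S4406
-- import your own Cfsg.Agent.* helpers here

set_option autoImplicit false
open Cfsg
open scoped Pointwise

namespace Cfsg.Agent.S4406


theorem F1 : ∀ s : ↥(alternatingGroup (Fin 4)), s * s = 1 ∨ s * s * s = 1 := by decide +kernel

theorem F2 : ∀ a : ↥(alternatingGroup (Fin 4)), a * a * a = 1 → a ≠ 1 → ∀ s : ↥(alternatingGroup (Fin 4)), s * s = 1 → s ≠ 1 →
    a * s * a⁻¹ ≠ s ∧ a * (a * s * a⁻¹) * a⁻¹ = s * (a * s * a⁻¹) := by decide +kernel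

theorem G1' : ∀ s : ↥(alternatingGroup (Fin 4)), (s * s = 1 ∧ s ≠ 1) →
    ∀ s2 : ↥(alternatingGroup (Fin 4)), (s2 * s2 = 1 ∧ s2 ≠ 1 ∧ s2 ≠ s) →
    ∀ u : ↥(alternatingGroup (Fin 4)), (u * u = 1 ∧ u ≠ 1 ∧ u ≠ s) → (u = s2 ∨ u = s * s2) := by
  decide +kernel

theorem G1 (s : ↥(alternatingGroup (Fin 4))) (h1 : s * s = 1) (h2 : s ≠ 1)
    (s2 : ↥(alternatingGroup (Fin 4))) (h3 : s2 * s2 = 1) (h4 : s2 ≠ 1) (h5 : s2 ≠ s)
    (u : ↥(alternatingGroup (Fin 4))) (h6 : u * u = 1) (h7 : u ≠ 1) (h8 : u ≠ s) :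
    u = s2 ∨ u = s * s2 :=
  G1' s ⟨h1, h2⟩ s2 ⟨h3, h4, h5⟩ u ⟨h6, h7, h8⟩

theorem G2' : ∀ b : ↥(alternatingGroup (Fin 4)), (b * b * b = 1 ∧ b ≠ 1) →
    ∀ t : ↥(alternatingGroup (Fin 4)), (t * t = 1 ∧ t ≠ 1) →
    ∀ u : ↥(alternatingGroup (Fin 4)), (u * u = 1 ∧ u ≠ 1 ∧ u ≠ t) →
      (u = b * t * b⁻¹ ∨ u = b⁻¹ * t * b) := by
  decide +kernel

theorem G2 (b : ↥(alternatingGroup (Fin 4))) (h1 : b * b * b = 1) (h2 : b ≠ 1)
    (t : ↥(alternatingGroup (Fin 4))) (h3 : t * t = 1) (h4 : t ≠ 1)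
    (u : ↥(alternatingGroup (Fin 4))) (h6 : u * u = 1) (h7 : u ≠ 1) (h8 : u ≠ t) :
    u = b * t * b⁻¹ ∨ u = b⁻¹ * t * b :=
  G2' b ⟨h1, h2⟩ t ⟨h3, h4⟩ u ⟨h6, h7, h8⟩

/-- a 3-cycle -/
def c3 : ↥(alternatingGroup (Fin 4)) := ⟨Equiv.swap 0 1 * Equiv.swap 1 2, Equiv.Perm.mem_alternatingGroup.2 (by decide)⟩

theorem c3_cube : c3 * c3 * c3 = 1 := by decide +kernel

theorem c3_ne : c3 ≠ 1 := by decide +kernel

theorem card_A4 : Nat.card ↥(alternatingGroup (Fin 4)) = 12 := by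
  rw [nat_card_alternatingGroup, Nat.card_eq_fintype_card, Fintype.card_fin]
  rfl

theorem sq_of_two_pow (s : ↥(alternatingGroup (Fin 4))) (k : ℕ) (h : s ^ 2 ^ k = 1) : s * s = 1 := by
  rcases F1 s with h2 | h3
  · exact h2
  · have h1 : orderOf s ∣ 3 := orderOf_dvd_of_pow_eq_one (by rw [pow_three']; exact h3)
    have h2 : orderOf s ∣ 2 ^ k := orderOf_dvd_of_pow_eq_one h
    have h5 : orderOf s ∣ Nat.gcd 3 (2 ^ k) := Nat.dvd_gcd h1 h2
    have h4 : Nat.gcd 3 (2 ^ k) = 1 := Nat.Coprime.pow_right k (by norm_num)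
    rw [h4, Nat.dvd_one, orderOf_eq_one_iff] at h5
    rw [h5, one_mul]

theorem exists_in_sylow3 (Q : Sylow 3 (↥(alternatingGroup (Fin 4)) × ↥(alternatingGroup (Fin 4)))) :
    ∃ a b : ↥(alternatingGroup (Fin 4)), a * a * a = 1 ∧ a ≠ 1 ∧ b * b * b = 1 ∧ b ≠ 1 ∧
      ((a, 1) : ↥(alternatingGroup (Fin 4)) × ↥(alternatingGroup (Fin 4))) ∈ (Q : Subgroup (↥(alternatingGroup (Fin 4)) × ↥(alternatingGroup (Fin 4)))) ∧
      ((1, b) : ↥(alternatingGroup (Fin 4)) × ↥(alternatingGroup (Fin 4))) ∈ (Q : Subgroup (↥(alternatingGroup (Fin 4)) × ↥(alternatingGroup (Fin 4)))) := by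
  have := Fact.mk Nat.prime_three
  have hord : orderOf c3 = 3 := orderOf_eq_prime (by rw [pow_three']; exact c3_cube) c3_ne
  have hcard0 : Nat.card ↥((Subgroup.zpowers c3).prod (Subgroup.zpowers c3)) = 9 := by
    rw [Nat.card_congr (Subgroup.prodEquiv _ _).toEquiv, Nat.card_prod, Nat.card_zpowers, hord]
  have hG : Nat.card (↥(alternatingGroup (Fin 4)) × ↥(alternatingGroup (Fin 4))) = 144 := by
    rw [Nat.card_prod, card_A4]
  have hfac : (144 : ℕ).factorization 3 = 2 := by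
    have h144 : (144 : ℕ) = 3 ^ 2 * 16 := by norm_num
    rw [h144, Nat.factorization_mul (a := 3 ^ 2) (b := 16) (by norm_num) (by norm_num),
      Finsupp.add_apply, Nat.Prime.factorization_pow Nat.prime_three, Finsupp.single_eq_same,
      Nat.factorization_eq_zero_of_not_dvd (by norm_num)]
  have hcard : Nat.card ↥((Subgroup.zpowers c3).prod (Subgroup.zpowers c3)) =
      3 ^ (Nat.card (↥(alternatingGroup (Fin 4)) × ↥(alternatingGroup (Fin 4)))).factorization 3 := by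
    rw [hcard0, hG, hfac]
    rfl
  obtain ⟨g, hg⟩ := MulAction.exists_smul_eq (↥(alternatingGroup (Fin 4)) × ↥(alternatingGroup (Fin 4))) (Sylow.ofCard _ hcard) Q
  have hmemQ : ∀ y ∈ (Subgroup.zpowers c3).prod (Subgroup.zpowers c3),
      g * y * g⁻¹ ∈ (Q : Subgroup (↥(alternatingGroup (Fin 4)) × ↥(alternatingGroup (Fin 4)))) := by
    intro y hy
    have h1 : MulAut.conj g • y ∈ MulAut.conj g •
        ((Sylow.ofCard _ hcard : Sylow 3 (↥(alternatingGroup (Fin 4)) × ↥(alternatingGroup (Fin 4)))) : Subgroup (↥(alternatingGroup (Fin 4)) × ↥(alternatingGroup (Fin 4)))) :=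
      Subgroup.smul_mem_pointwise_smul y (MulAut.conj g) _ hy
    rw [← hg]
    exact h1
  refine ⟨g.1 * c3 * g.1⁻¹, g.2 * c3 * g.2⁻¹, ?_, ?_, ?_, ?_, ?_, ?_⟩
  · calc g.1 * c3 * g.1⁻¹ * (g.1 * c3 * g.1⁻¹) * (g.1 * c3 * g.1⁻¹)
        = g.1 * (c3 * c3 * c3) * g.1⁻¹ := by group
      _ = 1 := by rw [c3_cube, mul_one, mul_inv_cancel]
  · intro h
    exact c3_ne (conj_eq_one_iff.mp h)
  · calc g.2 * c3 * g.2⁻¹ * (g.2 * c3 * g.2⁻¹) * (g.2 * c3 * g.2⁻¹)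
        = g.2 * (c3 * c3 * c3) * g.2⁻¹ := by group
      _ = 1 := by rw [c3_cube, mul_one, mul_inv_cancel]
  · intro h
    exact c3_ne (conj_eq_one_iff.mp h)
  · have h1 := hmemQ (c3, 1)
      (Subgroup.mem_prod.mpr ⟨Subgroup.mem_zpowers c3, Subgroup.one_mem _⟩)
    have h2 : g * ((c3, 1) : ↥(alternatingGroup (Fin 4)) × ↥(alternatingGroup (Fin 4))) * g⁻¹ = (g.1 * c3 * g.1⁻¹, 1) := by
      apply Prod.ext
      · rfl
      · show g.2 * 1 * g.2⁻¹ = 1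
        rw [mul_one, mul_inv_cancel]
    rw [h2] at h1
    exact h1
  · have h1 := hmemQ (1, c3)
      (Subgroup.mem_prod.mpr ⟨Subgroup.one_mem _, Subgroup.mem_zpowers c3⟩)
    have h2 : g * ((1, c3) : ↥(alternatingGroup (Fin 4)) × ↥(alternatingGroup (Fin 4))) * g⁻¹ = (1, g.2 * c3 * g.2⁻¹) := by
      apply Prod.ext
      · show g.1 * 1 * g.1⁻¹ = 1
        rw [mul_one, mul_inv_cancel]
      · rfl
    rw [h2] at h1
    exact h1

/-- In the direct product P = A₄ × A₄, let X be the Sylow 2-subgroup, X₁ and X₂ its intersections with the two direct factors, Q a Sylow 3-subgroup and Q₁, Q₂ its intersections with the two factors. Then every subgroup B of X of order 4 either meets X₁ or X₂ nontrivially, or is normalized by one of the two subgroups of Q of order 3 other than Q₁ and Q₂. -/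
theorem result
    (X : Sylow 2 (↥(alternatingGroup (Fin 4)) × ↥(alternatingGroup (Fin 4))))
    (Q : Sylow 3 (↥(alternatingGroup (Fin 4)) × ↥(alternatingGroup (Fin 4))))
    (B : Subgroup (↥(alternatingGroup (Fin 4)) × ↥(alternatingGroup (Fin 4)))) (hBX : B ≤ (X : Subgroup _)) (hB4 : Nat.card ↥B = 4) :
    B ⊓ ((X : Subgroup _) ⊓ Subgroup.prod ⊤ ⊥) ≠ ⊥ ∨ B ⊓ ((X : Subgroup _) ⊓ Subgroup.prod ⊥ ⊤) ≠ ⊥ ∨
      ∃ R : Subgroup (↥(alternatingGroup (Fin 4)) × ↥(alternatingGroup (Fin 4))), R ≤ (Q : Subgroup _) ∧ Nat.card ↥R = 3 ∧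
        R ≠ (Q : Subgroup _) ⊓ Subgroup.prod ⊤ ⊥ ∧ R ≠ (Q : Subgroup _) ⊓ Subgroup.prod ⊥ ⊤ ∧ R ≤ Subgroup.normalizer (B : Set _) := by
  by_cases hB1 : B ⊓ ((X : Subgroup _) ⊓ Subgroup.prod ⊤ ⊥) = ⊥
  swap
  · exact Or.inl hB1
  by_cases hB2 : B ⊓ ((X : Subgroup _) ⊓ Subgroup.prod ⊥ ⊤) = ⊥
  swap
  · exact Or.inr (Or.inl hB2)
  refine Or.inr (Or.inr ?_)
  have hXsq : ∀ x ∈ (X : Subgroup (↥(alternatingGroup (Fin 4)) × ↥(alternatingGroup (Fin 4)))), x.1 * x.1 = 1 ∧ x.2 * x.2 = 1 := by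
    intro x hx
    obtain ⟨k, hk⟩ := X.isPGroup' ⟨x, hx⟩
    have hk' : x ^ 2 ^ k = 1 := by
      have h0 := congrArg Subtype.val hk
      simpa using h0
    constructor
    · apply sq_of_two_pow x.1 k
      have h0 := congrArg Prod.fst hk'
      simpa using h0
    · apply sq_of_two_pow x.2 k
      have h0 := congrArg Prod.snd hk'
      simpa using h0
  have hBsnd1 : ∀ x ∈ B, x.2 = 1 → x = 1 := by
    intro x hx h2
    have hmem : x ∈ B ⊓ ((X : Subgroup (↥(alternatingGroup (Fin 4)) × ↥(alternatingGroup (Fin 4)))) ⊓ Subgroup.prod ⊤ ⊥) := by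
      refine Subgroup.mem_inf.mpr ⟨hx, Subgroup.mem_inf.mpr ⟨hBX hx, ?_⟩⟩
      rw [Subgroup.mem_prod]
      exact ⟨Subgroup.mem_top _, by rw [Subgroup.mem_bot]; exact h2⟩
    rw [hB1, Subgroup.mem_bot] at hmem
    exact hmem
  have hBfst1 : ∀ x ∈ B, x.1 = 1 → x = 1 := by
    intro x hx h2
    have hmem : x ∈ B ⊓ ((X : Subgroup (↥(alternatingGroup (Fin 4)) × ↥(alternatingGroup (Fin 4)))) ⊓ Subgroup.prod ⊥ ⊤) := by
      refine Subgroup.mem_inf.mpr ⟨hx, Subgroup.mem_inf.mpr ⟨hBX hx, ?_⟩⟩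
      rw [Subgroup.mem_prod]
      exact ⟨by rw [Subgroup.mem_bot]; exact h2, Subgroup.mem_top _⟩
    rw [hB2, Subgroup.mem_bot] at hmem
    exact hmem
  have hinj1 : ∀ n ∈ B, ∀ m ∈ B, n.1 = m.1 → n = m := by
    intro n hn m hm hnm
    have h1 : n * m⁻¹ = 1 := hBfst1 _ (B.mul_mem hn (B.inv_mem hm)) (by
      show n.1 * m.1⁻¹ = 1
      rw [hnm, mul_inv_cancel])
    exact mul_inv_eq_one.mp h1
  have hinj2 : ∀ n ∈ B, ∀ m ∈ B, n.2 = m.2 → n = m := by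
    intro n hn m hm hnm
    have h1 : n * m⁻¹ = 1 := hBsnd1 _ (B.mul_mem hn (B.inv_mem hm)) (by
      show n.2 * m.2⁻¹ = 1
      rw [hnm, mul_inv_cancel])
    exact mul_inv_eq_one.mp h1
  obtain ⟨x, hxB, hx1⟩ : ∃ x ∈ B, x ≠ 1 := by
    by_contra hne
    push Not at hne
    have hbot : B = ⊥ := (Subgroup.eq_bot_iff_forall B).mpr hne
    rw [hbot, Subgroup.card_bot] at hB4
    omega
  have hxsq := hXsq x (hBX hxB)
  have hxx : x * x = 1 := Prod.ext hxsq.1 hxsq.2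
  obtain ⟨y, hyB, hy1, hyx⟩ : ∃ y ∈ B, y ≠ 1 ∧ y ≠ x := by
    by_contra hne
    push Not at hne
    have hle : B ≤ Subgroup.zpowers x := by
      intro y hy
      by_cases hy1 : y = 1
      · rw [hy1]; exact Subgroup.one_mem _
      · rw [hne y hy hy1]; exact Subgroup.mem_zpowers x
    have h1 : Nat.card ↥B ≤ Nat.card ↥(Subgroup.zpowers x) := Subgroup.card_le_of_le hle
    rw [hB4, Nat.card_zpowers] at h1
    have h2 : orderOf x ≤ 2 :=
      orderOf_le_of_pow_eq_one (by norm_num) (by rw [pow_two]; exact hxx)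
    omega
  have hs1 : x.1 ≠ 1 := fun h => hx1 (hBfst1 x hxB h)
  have ht1 : x.2 ≠ 1 := fun h => hx1 (hBsnd1 x hxB h)
  have hysq := hXsq y (hBX hyB)
  have hys1 : y.1 ≠ 1 := fun h => hy1 (hBfst1 y hyB h)
  have hysx : y.1 ≠ x.1 := fun h => hyx (hinj1 y hyB x hxB h)
  obtain ⟨a, b, ha3, ha1, hb3, hb1, haQ, hbQ⟩ := exists_in_sylow3 Q
  have hF2 := F2 a ha3 ha1 x.1 hxsq.1 hs1
  have hs'sq : (a * x.1 * a⁻¹) * (a * x.1 * a⁻¹) = 1 := by
    calc (a * x.1 * a⁻¹) * (a * x.1 * a⁻¹) = a * (x.1 * x.1) * a⁻¹ := by group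
      _ = 1 := by rw [hxsq.1, mul_one, mul_inv_cancel]
  have hs'1 : a * x.1 * a⁻¹ ≠ 1 := fun h => hs1 (conj_eq_one_iff.mp h)
  obtain ⟨y', hy'B, hy'fst⟩ : ∃ y' ∈ B, y'.1 = a * x.1 * a⁻¹ := by
    rcases G1 x.1 hxsq.1 hs1 y.1 hysq.1 hys1 hysx (a * x.1 * a⁻¹) hs'sq hs'1 hF2.1 with h | h
    · exact ⟨y, hyB, h.symm⟩
    · exact ⟨x * y, B.mul_mem hxB hyB, h.symm⟩
  have hy'sq := hXsq y' (hBX hy'B)
  have hy'ne : y'.1 ≠ 1 := by rw [hy'fst]; exact hs'1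
  have hy'nx : y'.1 ≠ x.1 := by rw [hy'fst]; exact hF2.1
  have hy'1 : y' ≠ 1 := by
    intro h
    apply hy'ne
    rw [h]
    rfl
  have ht'1 : y'.2 ≠ 1 := fun h => hy'1 (hBsnd1 y' hy'B h)
  have ht't : y'.2 ≠ x.2 := by
    intro h
    have h1 := hinj2 y' hy'B x hxB h
    apply hy'nx
    rw [h1]
  obtain ⟨b', hb'3, hb'1, hb'Q, hb't⟩ : ∃ b' : ↥(alternatingGroup (Fin 4)), b' * b' * b' = 1 ∧ b' ≠ 1 ∧
      ((1, b') : ↥(alternatingGroup (Fin 4)) × ↥(alternatingGroup (Fin 4))) ∈ (Q : Subgroup (↥(alternatingGroup (Fin 4)) × ↥(alternatingGroup (Fin 4)))) ∧ y'.2 = b' * x.2 * b'⁻¹ := by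
    rcases G2 b hb3 hb1 x.2 hxsq.2 ht1 y'.2 hy'sq.2 ht'1 ht't with h | h
    · exact ⟨b, hb3, hb1, hbQ, h⟩
    · refine ⟨b⁻¹, ?_, ?_, ?_, ?_⟩
      · calc b⁻¹ * b⁻¹ * b⁻¹ = (b * b * b)⁻¹ := by group
          _ = 1 := by rw [hb3, inv_one]
      · exact fun h1 => hb1 (inv_eq_one.mp h1)
      · have h1 := (Q : Subgroup (↥(alternatingGroup (Fin 4)) × ↥(alternatingGroup (Fin 4)))).inv_mem hbQ
        rw [Prod.inv_mk, inv_one] at h1
        exact h1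
      · rw [inv_inv]; exact h
  have hF2b := F2 b' hb'3 hb'1 x.2 hxsq.2 ht1
  obtain ⟨gR, hgR⟩ : ∃ gR : ↥(alternatingGroup (Fin 4)) × ↥(alternatingGroup (Fin 4)), gR = (a, b') := ⟨_, rfl⟩
  have hg1 : gR.1 = a := by rw [hgR]
  have hg2 : gR.2 = b' := by rw [hgR]
  have hgx : gR * x * gR⁻¹ = y' := by
    apply Prod.ext
    · show gR.1 * x.1 * gR.1⁻¹ = y'.1
      rw [hg1, hy'fst]
    · show gR.2 * x.2 * gR.2⁻¹ = y'.2
      rw [hg2, hb't]
  have hgy : gR * y' * gR⁻¹ = x * y' := by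
    apply Prod.ext
    · show gR.1 * y'.1 * gR.1⁻¹ = x.1 * y'.1
      rw [hg1, hy'fst]
      exact hF2.2
    · show gR.2 * y'.2 * gR.2⁻¹ = x.2 * y'.2
      rw [hg2, hb't]
      exact hF2b.2
  have hg3 : gR * gR * gR = 1 := by
    apply Prod.ext
    · show gR.1 * gR.1 * gR.1 = 1
      rw [hg1]; exact ha3
    · show gR.2 * gR.2 * gR.2 = 1
      rw [hg2]; exact hb'3
  have hgne : gR ≠ 1 := by
    intro h
    apply ha1
    rw [← hg1, h]
    rfl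
  have hBenum : ∀ n ∈ B, n = 1 ∨ n = x ∨ n = y' ∨ n = x * y' := by
    intro n hn
    have hnsq := hXsq n (hBX hn)
    by_cases hn1 : n.1 = 1
    · exact Or.inl (hBfst1 n hn hn1)
    by_cases hnx : n.1 = x.1
    · exact Or.inr (Or.inl (hinj1 n hn x hxB hnx))
    rcases G1 x.1 hxsq.1 hs1 y'.1 hy'sq.1 hy'ne hy'nx n.1 hnsq.1 hn1 hnx with h | h
    · exact Or.inr (Or.inr (Or.inl (hinj1 n hn y' hy'B h)))
    · exact Or.inr (Or.inr (Or.inr (hinj1 n hn (x * y') (B.mul_mem hxB hy'B) h)))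
  have hfwd : ∀ n ∈ B, gR * n * gR⁻¹ ∈ B := by
    intro n hn
    rcases hBenum n hn with h | h | h | h
    · rw [h, mul_one, mul_inv_cancel]; exact B.one_mem
    · rw [h, hgx]; exact hy'B
    · rw [h, hgy]; exact B.mul_mem hxB hy'B
    · rw [h]
      have h1 : gR * (x * y') * gR⁻¹ = (gR * x * gR⁻¹) * (gR * y' * gR⁻¹) := by group
      rw [h1, hgx, hgy]
      exact B.mul_mem hy'B (B.mul_mem hxB hy'B)
  refine ⟨Subgroup.zpowers gR, ?_, ?_, ?_, ?_, ?_⟩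
  · rw [Subgroup.zpowers_le]
    have h1 : gR = ((a, 1) : ↥(alternatingGroup (Fin 4)) × ↥(alternatingGroup (Fin 4))) * ((1, b') : ↥(alternatingGroup (Fin 4)) × ↥(alternatingGroup (Fin 4))) := by
      rw [hgR]
      apply Prod.ext
      · exact (mul_one a).symm
      · exact (one_mul b').symm
    rw [h1]
    exact Subgroup.mul_mem _ haQ hb'Q
  · rw [Nat.card_zpowers]
    have := Fact.mk Nat.prime_three
    exact orderOf_eq_prime (by rw [pow_three']; exact hg3) hgne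
  · intro h
    have h1 : gR ∈ Subgroup.zpowers gR := Subgroup.mem_zpowers gR
    rw [h] at h1
    have h2 := (Subgroup.mem_prod.mp (Subgroup.mem_inf.mp h1).2).2
    rw [Subgroup.mem_bot, hg2] at h2
    exact hb'1 h2
  · intro h
    have h1 : gR ∈ Subgroup.zpowers gR := Subgroup.mem_zpowers gR
    rw [h] at h1
    have h2 := (Subgroup.mem_prod.mp (Subgroup.mem_inf.mp h1).2).1
    rw [Subgroup.mem_bot, hg1] at h2
    exact ha1 h2
  · rw [Subgroup.zpowers_le, Subgroup.mem_set_normalizer_iff]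
    intro n
    constructor
    · exact hfwd n
    · intro hn
      have h2 := hfwd _ (hfwd _ hn)
      have h3 : gR * (gR * (gR * n * gR⁻¹) * gR⁻¹) * gR⁻¹ =
          (gR * gR * gR) * n * (gR * gR * gR)⁻¹ := by group
      rw [h3, hg3, one_mul, inv_one, mul_one] at h2
      exact h2

end Cfsg.Agent.S4406
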