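import Cfsg.Statements.S4408
import Mathlib
import Cfsg.Agent.Helper14.Frame
import Cfsg.Agent.S1264
import Cfsg.Agent.Helper1.Fitting

set_option autoImplicit false
open Cfsg

namespace Cfsg.Agent.S4408

/-- Let S be a finite solvable group whose Fitting subgroup F(S) has odd order, and let I be an elementary abelian 2-subgroup of S of order 2ⁿ with n ≥ 1. Then F(S) contains subgroups A₁, …, Aₙ of prime order, each normalized by I, pairwise commuting and generating a subgroup A of order |A₁|⋯|Aₙ| (their internal direct product), such that no non-identity element of I centralizes A. -/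
theorem result {S : Type*} [Group S] [Finite S]
    [Group.IsSolvable S] (hF : Odd (Nat.card ↥(Cfsg.fittingSubgroup S)))
    (I : Subgroup S) (hI : Cfsg.IsElementaryAbelian 2 I) (n : ℕ) (hn : 1 ≤ n) (hIn : Nat.card ↥I = 2 ^ n) :
    ∃ f : Fin n → Subgroup S, (∀ i, (Nat.card ↥(f i)).Prime) ∧ (∀ i, f i ≤ Cfsg.fittingSubgroup S) ∧
      (∀ i, I ≤ Subgroup.normalizer ((f i) : Set S)) ∧ (∀ i j, i ≠ j → ∀ a ∈ f i, ∀ b ∈ f j, a * b = b * a) ∧
      Nat.card ↥(⨆ i, f i) = ∏ i, Nat.card ↥(f i) ∧ I ⊓ Subgroup.centralizer ((⨆ i, f i : Subgroup S) : Set S) = ⊥ := by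
  classical
  haveI hFnorm : (Cfsg.fittingSubgroup S).Normal := Cfsg.Agent.Helper1.fitting_normal S
  have hFnil : Group.IsNilpotent ↥(Cfsg.fittingSubgroup S) := Cfsg.Agent.Helper1.fitting_isNilpotent
  have hIc : ∀ s ∈ I, ∀ t ∈ I, s * t = t * s := by
    intro s hs t ht
    haveI := hI.1
    exact setLike_mul_comm hs ht
  have hI2 : ∀ s ∈ I, s * s = 1 := fun s hs => by rw [← pow_two]; exact hI.2 s hs
  have hIF : I ≤ Subgroup.normalizer ((Cfsg.fittingSubgroup S : Subgroup S) : Set S) := by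
    rw [Subgroup.normalizer_eq_top_iff.mpr hFnorm]; exact le_top
  have hCF : Subgroup.centralizer ((Cfsg.fittingSubgroup S : Subgroup S) : Set S) ≤
      Cfsg.fittingSubgroup S := by
    have h := Cfsg.Agent.S1264.result
      (Subgroup.centralizer ((Cfsg.fittingSubgroup S : Subgroup S) : Set S)) le_rfl
      Subgroup.le_normalizer inferInstance
    refine h.trans ?_
    rintro _ ⟨x, _, rfl⟩
    exact x.2
  have hfaith : ∀ s ∈ I, (∀ x ∈ Cfsg.fittingSubgroup S, s * x = x * s) → s = 1 := by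
    intro s hs hsF
    have hsC : s ∈ Subgroup.centralizer ((Cfsg.fittingSubgroup S : Subgroup S) : Set S) := by
      rw [Subgroup.mem_centralizer_iff]
      intro x hx
      exact (hsF x hx).symm
    exact Cfsg.Agent.Helper14.Frame.no_invol _ hF s (hCF hsC) (hI2 s hs)
  obtain ⟨a, d, h1, h2, h3, h4, h5, h6, h7⟩ := Cfsg.Agent.Helper14.Frame.frame
    (Cfsg.fittingSubgroup S) I I hFnil hF hIc hI2 hIF le_rfl hfaith n hIn
  refine ⟨fun i => Subgroup.zpowers (d i), ?_, ?_, ?_, ?_, ?_, ?_⟩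
  · intro i
    rw [Nat.card_zpowers]
    exact (h1 i).2.2
  · intro i
    rw [Subgroup.zpowers_le]
    exact (h1 i).2.1
  · intro i s hs
    exact Cfsg.Agent.Helper14.Frame.mem_normalizer_zpowers (h2 i s hs)
  · intro i j hij x hx y hy
    obtain ⟨k, rfl⟩ := Subgroup.mem_zpowers_iff.mp hx
    obtain ⟨l, rfl⟩ := Subgroup.mem_zpowers_iff.mp hy
    exact Commute.zpow_zpow (h5 i j) k l
  · exact Cfsg.Agent.Helper14.Frame.card_iSup_of_frame a d
      (fun i => Cfsg.Agent.Helper14.Frame.odd_orderOf_of_mem _ hF _ (h1 i).2.1) h3 h4 h5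
  · rw [eq_bot_iff]
    intro x hx
    obtain ⟨hxI, hxC⟩ := Subgroup.mem_inf.mp hx
    rw [Subgroup.mem_bot]
    apply h7 x hxI
    intro i
    have hdi : d i ∈ ((⨆ i, Subgroup.zpowers (d i) : Subgroup S) : Set S) :=
      (le_iSup (fun i => Subgroup.zpowers (d i)) i) (Subgroup.mem_zpowers (d i))
    have := Subgroup.mem_centralizer_iff.mp hxC (d i) hdi
    rw [mul_inv_eq_iff_eq_mul]
    exact this.symm

end Cfsg.Agent.S4408
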