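import Cfsg.Statements.S4410
import Cfsg.Agent.Helper12.TransA
import Cfsg.Agent.Helper12.TransB

set_option autoImplicit false
open Cfsg

namespace Cfsg.Agent.S4410

open Cfsg.Agent.Helper12.TV

/-- Let V be a finite-dimensional vector space over the field with two elements and S a solvable group of linear automorphisms of V with O₂(S) = 1. If P ∈ S has order 4 and (P − 1)³ = 0 on V, then the image of (P − 1)² has at least 4 elements; equivalently, in the decomposition of V into indecomposable modules for the cyclic group generated by P, at least two summands have dimension 3. -/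
theorem result
    {V : Type*} [AddCommGroup V] [Module (ZMod 2) V] [Finite V]
    (S : Subgroup (V ≃ₗ[ZMod 2] V)) (hS : Group.IsSolvable ↥S) (hO2 : Cfsg.pCore 2 ↥S = ⊥)
    (P : V ≃ₗ[ZMod 2] V) (hPS : P ∈ S) (hP4 : orderOf P = 4)
    (hcub : ((P : V →ₗ[ZMod 2] V) - LinearMap.id) ^ 3 = 0) :
    4 ≤ Nat.card ↥(LinearMap.range (((P : V →ₗ[ZMod 2] V) - LinearMap.id) ^ 2)) := by
  classical
  set N : V →ₗ[ZMod 2] V := (P : V →ₗ[ZMod 2] V) - LinearMap.id with hN
  by_contra hlt
  have hNv : ∀ v, N v = P v + v := by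
    intro v
    have e : N v = P v - v := rfl
    rw [e, sub_eq_add_neg, neg_eq_of_add_eq_zero_right (add_self2 v)]
  have hN2 : ∀ v, (N ^ 2) v = P (P v) + v := by
    intro v
    rw [pow_two, Module.End.mul_apply, hNv, hNv, map_add]
    simp only [add_assoc, add_left_comm, add_comm, add_self2, cancel_l, add_zero, zero_add]
  have hN3 : ∀ v, N ((N ^ 2) v) = 0 := by
    intro v
    have h : (N ^ 3) v = 0 := by rw [hcub]; rfl
    have e : N ^ 3 = N * N ^ 2 := pow_succ' _ 2
    rw [e] at h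
    exact h
  have hPpow : P ^ 4 = 1 := by rw [← hP4]; exact pow_orderOf_eq_one P
  have hT2 : ∀ v, (P * P) ((P * P) v) = v := by
    intro v
    have h : (P ^ 4) v = v := by rw [hPpow]; rfl
    have e : P ^ 4 = (P * P) * (P * P) := by
      rw [show (4 : ℕ) = 2 + 2 from rfl, pow_add, pow_two]
    rw [e] at h
    exact h
  have hPP1 : P * P ≠ 1 := by
    intro h
    have h2 : P ^ 2 = 1 := by rw [pow_two]; exact h
    have hd := orderOf_dvd_of_pow_eq_one h2
    rw [hP4] at hd
    exact absurd hd (by decide)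
  obtain ⟨u, hu⟩ : ∃ u, (P * P) u ≠ u := by
    by_contra hne
    push_neg at hne
    exact hPP1 (LinearEquiv.ext fun x => hne x)
  obtain ⟨a, ha⟩ : ∃ a, a = (P * P) u + u := ⟨_, rfl⟩
  have ha0 : a ≠ 0 := fun h => hu (eq_of_add_eq_zero2 (ha ▸ h))
  have haR : a ∈ LinearMap.range (N ^ 2) :=
    ⟨u, by rw [ha]; exact hN2 u⟩
  have hR : ∀ r ∈ LinearMap.range (N ^ 2),
      r = 0 ∨ r = a := by
    intro r hr
    by_contra hcon
    push_neg at hcon
    exact hlt (four_le _ a r haR hr ha0 hcon.1 hcon.2)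
  have h2 : ∀ v, (P * P) v = v ∨ (P * P) v = v + a := by
    intro v
    rcases hR _ ⟨v, hN2 v⟩ with h | h
    · left; exact eq_of_add_eq_zero2 h
    · right
      have e : (P * P) v = (P (P v) + v) + v := by
        show P (P v) = P (P v) + v + v
        simp only [add_assoc, add_self2, add_zero]
      rw [e, h, add_comm]
  have hTa : (P * P) a = a := by
    rw [ha, map_add, hT2 u, add_comm]
  have hPa : P a = a := by
    have h := hN3 u
    rw [hN2 u, hNv] at h
    rw [ha]
    exact eq_of_add_eq_zero2 h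
  have hTv : IsTv (P * P) a :=
    ⟨hT2, h2, hTa, ha0, u, by rw [ha, add_comm ((P * P) u) u, cancel_l]⟩
  haveI : Finite (V ≃ₗ[ZMod 2] V) :=
    Finite.of_injective (fun e : V ≃ₗ[ZMod 2] V => (e : V → V))
      (fun e₁ e₂ h => LinearEquiv.ext (congrFun h))
  have hS' := hS
  obtain ⟨F, hFn, hFodd, x, hxF, hx⟩ := exists_odd_normal (S := ↥S) hO2
    ⟨P * P, S.mul_mem hPS hPS⟩
    (fun h => hPP1 (congrArg Subtype.val h)) (Subtype.ext (LinearEquiv.ext hT2))
  refine main_abs S (F.map S.subtype) ?_ ?_ ?_ P hPS a hTv hPa (x : V ≃ₗ[ZMod 2] V) ?_ ?_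
  · rintro _ ⟨y, -, rfl⟩
    exact y.2
  · rintro s hs _ ⟨y, hy, rfl⟩
    exact Subgroup.mem_map.mpr ⟨⟨s, hs⟩ * y * ⟨s, hs⟩⁻¹, hFn.conj_mem y hy ⟨s, hs⟩, rfl⟩
  · rintro _ ⟨w, hw, rfl⟩ hw4
    have hw4' : w ^ 4 = 1 := Subtype.ext (by rw [Subgroup.coe_pow]; exact hw4)
    have hd1 : orderOf w ∣ 4 := orderOf_dvd_of_pow_eq_one hw4'
    have hd2 : orderOf w ∣ Nat.card F := by
      have h := orderOf_dvd_natCard (⟨w, hw⟩ : F)
      rwa [Subgroup.orderOf_mk] at h
    have hco : Nat.Coprime 4 (Nat.card F) := by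
      have h2 : Nat.Coprime 2 (Nat.card F) := Nat.coprime_two_left.mpr hFodd
      have h4 : Nat.Coprime (2 ^ 2) (Nat.card F) := Nat.Coprime.pow_left 2 h2
      exact h4
    have h1 : orderOf w = 1 := (Nat.Coprime.coprime_dvd_left hd1 hco).eq_one_of_dvd hd2
    rw [orderOf_eq_one_iff] at h1
    rw [h1]
    exact map_one _
  · exact Subgroup.mem_map.mpr ⟨x, hxF, rfl⟩
  · intro h
    exact hx (Subtype.ext h)

end Cfsg.Agent.S4410
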