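import Cfsg.Statements.S4420

set_option autoImplicit false
open Cfsg

namespace Cfsg.Agent.S4420

theorem comm_of_sq {H : Type*} [Group H] (h : ∀ x : H, x ^ 2 = 1) (a b : H) : a * b = b * a := by
  have ha : a⁻¹ = a := by
    rw [inv_eq_iff_mul_eq_one, ← sq]; exact h a
  have hb : b⁻¹ = b := by
    rw [inv_eq_iff_mul_eq_one, ← sq]; exact h b
  have hab : (a * b)⁻¹ = a * b := by
    rw [inv_eq_iff_mul_eq_one, ← sq]; exact h (a * b)
  rw [mul_inv_rev, ha, hb] at hab
  exact hab.symm

/-- elements outside `A` invert `A` -/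
theorem inverts {H : Type*} [Group H] (A : Subgroup H) (hD : ∀ x : H, x ∉ A → x ^ 2 = 1)
    (t : H) (ht : t ∉ A) (a : H) (ha : a ∈ A) : t * a * t⁻¹ = a⁻¹ := by
  have hta : t * a ∉ A := fun h => ht (by simpa using A.mul_mem h (A.inv_mem ha))
  have h1 := hD _ hta
  have h2 := hD _ ht
  have h3 : t⁻¹ = t := by
    rw [inv_eq_iff_mul_eq_one, ← sq]; exact h2
  rw [h3]
  rw [sq] at h1
  -- t * a * (t * a) = 1
  have : t * a * t = a⁻¹ := by
    rw [eq_inv_iff_mul_eq_one]
    simpa [mul_assoc] using h1
  exact this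

/-- Structure of groups in which every element outside some proper subgroup has square 1. Let H be a finite group with a proper subgroup A such that every element outside A has square 1. Then H has an abelian normal subgroup B of index 2 such that every element outside B is an involution inverting every element of B; and if H is not an elementary abelian 2-group, B is the only abelian normal subgroup of index 2 with this property. -/
theorem result {H : Type*} [Group H] [Finite H] (A : Subgroup H) (hA : A ≠ ⊤) (hD : ∀ x : H, x ∉ A → x ^ 2 = 1) :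
    ∃ B : Subgroup H, B.Normal ∧ IsMulCommutative ↥B ∧ B.index = 2 ∧
      (∀ x : H, x ∉ B → x ^ 2 = 1 ∧ ∀ b ∈ B, x * b * x⁻¹ = b⁻¹) ∧
      (¬ (IsMulCommutative H ∧ ∀ x : H, x ^ 2 = 1) →
        ∀ B' : Subgroup H, B'.Normal → IsMulCommutative ↥B' → B'.index = 2 →
          (∀ x : H, x ∉ B' → x ^ 2 = 1 ∧ ∀ b ∈ B', x * b * x⁻¹ = b⁻¹) → B' = B) := by
  obtain ⟨t, ht⟩ : ∃ t : H, t ∉ A := by
    by_contra hcon
    push Not at hcon
    exact hA (eq_top_iff.2 (fun x _ => hcon x))
  have hinv := inverts A hD
  by_cases hidx : A.index = 2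
  · -- B = A
    have hAcomm : ∀ a ∈ A, ∀ b ∈ A, a * b = b * a := by
      intro a ha b hb
      have h1 := hinv t ht (a * b) (A.mul_mem ha hb)
      have h2 := hinv t ht a ha
      have h3 := hinv t ht b hb
      have h4 : t * (a * b) * t⁻¹ = (t * a * t⁻¹) * (t * b * t⁻¹) := by group
      rw [h4, h2, h3, mul_inv_rev] at h1
      have h5 : (a⁻¹ * b⁻¹)⁻¹ = (b⁻¹ * a⁻¹)⁻¹ := by rw [h1]
      simpa using h5.symm
    refine ⟨A, Subgroup.normal_of_index_eq_two hidx, ?_, hidx, ?_, ?_⟩
    · exact ⟨⟨fun a b => Subtype.ext (hAcomm a a.2 b b.2)⟩⟩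
    · intro x hx
      exact ⟨hD x hx, fun b hb => hinv x hx b hb⟩
    · intro hnot B' hB'n hB'c hB'idx hB'
      by_contra hne
      apply hnot
      -- there is y ∈ B' \ A
      have hnle : ¬ B' ≤ A := by
        intro hle
        apply hne
        apply Subgroup.eq_of_le_of_card_ge hle
        have h1 := Subgroup.card_mul_index A
        have h2 := Subgroup.card_mul_index B'
        rw [hidx] at h1
        rw [hB'idx] at h2
        omega
      obtain ⟨y, hyB', hyA⟩ : ∃ y, y ∈ B' ∧ y ∉ A := by
        by_contra hcon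
        push Not at hcon
        exact hnle (fun y hy => hcon y hy)
      have hsq : ∀ x : H, x ^ 2 = 1 := by
        intro x
        by_cases hxA : x ∈ A
        · by_cases hxB' : x ∈ B'
          · have h1 := hinv y hyA x hxA
            have h2 : y * x = x * y := by
              have := hB'c.is_comm.comm ⟨y, hyB'⟩ ⟨x, hxB'⟩
              exact congrArg Subtype.val this
            rw [h2, mul_assoc, mul_inv_cancel, mul_one] at h1
            rw [sq]
            nth_rewrite 1 [h1]
            exact inv_mul_cancel x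
          · exact (hB' x hxB').1
        · exact hD x hxA
      exact ⟨⟨⟨fun a b => comm_of_sq hsq a b⟩⟩, hsq⟩
  · -- H is an elementary abelian 2-group
    have hsq : ∀ x : H, x ^ 2 = 1 := by
      intro x
      by_cases hxA : x ∈ A
      · have h1 : ¬ ∀ b, Xor (b * t ∈ A) (b ∈ A) := by
          intro hall
          exact hidx (Subgroup.index_eq_two_iff.2 ⟨t, hall⟩)
        push Not at h1
        obtain ⟨b, hb⟩ := h1
        have hbA : b ∉ A := by
          intro hbA
          apply hb
          right
          exact ⟨hbA, fun hbt => ht (by simpa using A.mul_mem (A.inv_mem hbA) hbt)⟩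
        have hbtA : b * t ∉ A := by
          intro hbt
          apply hb
          left
          exact ⟨hbt, hbA⟩
        have h2 := hinv (b * t) hbtA x hxA
        have h3 := hinv t ht x hxA
        have h4 := hinv b hbA x⁻¹ (A.inv_mem hxA)
        have h5 : b * t * x * (b * t)⁻¹ = b * (t * x * t⁻¹) * b⁻¹ := by group
        rw [h5, h3, h4, inv_inv] at h2
        rw [sq]
        nth_rewrite 1 [h2]
        exact inv_mul_cancel x
      · exact hD x hxA
    have hcomm := comm_of_sq hsq
    have hp : IsPGroup 2 H := fun g => ⟨1, by simpa using hsq g⟩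
    obtain ⟨n, hn⟩ := IsPGroup.iff_card.1 hp
    have hn1 : n ≠ 0 := by
      rintro rfl
      have h1 : Nat.card H = 1 := by simpa using hn
      have := (Nat.card_eq_one_iff_unique.1 h1).1
      exact ht (by rw [Subsingleton.elim t 1]; exact A.one_mem)
    have : Fact (Nat.Prime 2) := ⟨Nat.prime_two⟩
    obtain ⟨K, hK⟩ := Sylow.exists_subgroup_card_pow_prime 2 (n := n - 1) (G := H)
      (by rw [hn]; exact pow_dvd_pow 2 (Nat.sub_le n 1))
    have hKidx : K.index = 2 := by
      have h1 := Subgroup.card_mul_index K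
      rw [hK, hn] at h1
      have h2 : 2 ^ n = 2 ^ (n - 1) * 2 := by
        rw [← pow_succ]; congr 1; omega
      rw [h2] at h1
      exact Nat.eq_of_mul_eq_mul_left (by positivity) h1
    refine ⟨K, Subgroup.normal_of_index_eq_two hKidx, ⟨⟨fun a b => Subtype.ext (hcomm a b)⟩⟩, hKidx, ?_, ?_⟩
    · intro x _
      refine ⟨hsq x, fun b _ => ?_⟩
      have hb : b⁻¹ = b := by
        rw [inv_eq_iff_mul_eq_one, ← sq]; exact hsq b
      rw [hb, hcomm x b, mul_assoc, mul_inv_cancel, mul_one]
    · intro hnot
      exact absurd ⟨⟨⟨fun a b => hcomm a b⟩⟩, hsq⟩ hnot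

end Cfsg.Agent.S4420
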