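import Cfsg.Statements.S4511
import Cfsg.Agent.Helper22.BlkSubsec2

set_option autoImplicit false
open Cfsg
open Cfsg.Agent.Helper5 Cfsg.Agent.Helper24 Cfsg.Agent.Helper22

namespace Cfsg.Agent.S4511

/-- Brauer's count of the irreducible characters in a block by subsections. Let M be a maximal ideal of the algebraic integers containing the prime p, B a p-block of the finite group G, and X a set of representatives of the conjugacy classes of p-elements of G (elements of p-power order, the identity included: every p-element is conjugate to exactly one member of X). Then the number of irreducible characters in B is the sum, over x ∈ X and over the blocks b of C_G(x) that induce B, of the p-regular rank of b (the number of irreducible Brauer characters of b, here the dimension of the span of the restrictions of the members of b to the p-regular elements of C_G(x)). -/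
theorem result {G : Type*} [Group G] [Finite G] (p : ℕ) (M : Ideal Cfsg.AlgInt) (hM : Cfsg.IsPModular p M)
    (B : Set (Cfsg.IrrCharacter G)) (hB : Cfsg.IsPBlock M B) (X : Finset G)
    (hX : ∀ x ∈ X, ∃ k : ℕ, orderOf x = p ^ k)
    (hXrep : ∀ g : G, (∃ k : ℕ, orderOf g = p ^ k) → ∃! x, x ∈ X ∧ IsConj g x) :
    Nat.card B = ∑ x ∈ X, ∑ᶠ b ∈ {b : Set (Cfsg.IrrCharacter ↥(Subgroup.centralizer ({x} : Set G))) | Cfsg.IsInducedBlock M (Subgroup.centralizer ({x} : Set G)) b B},
      Cfsg.blockRank p b := by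
  classical
  haveI := Fintype.ofFinite G
  haveI : Fact p.Prime := ⟨hM.1⟩
  haveI hMp : M.IsPrime := hM.2.1.isPrime
  have hp : p.Prime := hM.1
  obtain ⟨χ₀, rfl⟩ := hB
  have hG0 : (Nat.card G : ℂ) ≠ 0 := Nat.cast_ne_zero.mpr Nat.card_pos.ne'
  obtain ⟨Φ, hΦdef⟩ : ∃ Φ : G → ℂ, Φ = fun g => ∑ χ : IrrCharacter G,
      if χ ∈ blockOf M (χ₀ : G → ℂ) then (χ : G → ℂ) g * (χ : G → ℂ) g⁻¹ else 0 := ⟨_, rfl⟩
  have hΦapp : ∀ g, Φ g = ∑ χ : IrrCharacter G,
      if χ ∈ blockOf M (χ₀ : G → ℂ) then (χ : G → ℂ) g * (χ : G → ℂ) g⁻¹ else 0 :=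
    fun g => by rw [hΦdef]
  have hΦc : ∀ g t : G, Φ (t * g * t⁻¹) = Φ g := by
    intro g t
    rw [hΦapp, hΦapp]
    refine Finset.sum_congr rfl fun χ _ => ?_
    have e : (t * g * t⁻¹)⁻¹ = t * g⁻¹ * t⁻¹ := by group
    rw [e, irr_conj, irr_conj]
  have hsum : ∑ g : G, Φ g = (Nat.card G : ℂ) * (Nat.card (blockOf M (χ₀ : G → ℂ)) : ℂ) := by
    rw [natCard_set_cast, Finset.mul_sum]
    rw [Finset.sum_congr rfl fun g _ => hΦapp g, Finset.sum_comm]
    refine Finset.sum_congr rfl fun χ _ => ?_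
    by_cases hχ : χ ∈ blockOf M (χ₀ : G → ℂ)
    · simp only [if_pos hχ]
      rw [mul_one]
      exact sum_irr_mul_inv χ
    · simp only [if_neg hχ, Finset.sum_const_zero, mul_zero]
  have hps := psection_sum hp X hX hXrep Φ hΦc
  rw [hsum] at hps
  have hx : ∀ x ∈ X, (Nat.card G : ℂ) * (Nat.card (Subgroup.centralizer ({x} : Set G)) : ℂ)⁻¹ *
      ∑ c : G, (if (c * x = x * c ∧ ¬ p ∣ orderOf c) then Φ (x * c) else 0) =
      (Nat.card G : ℂ) * ((∑ᶠ b ∈ {b : Set (IrrCharacter (Subgroup.centralizer ({x} : Set G))) |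
          IsInducedBlock M (Subgroup.centralizer ({x} : Set G)) b (blockOf M (χ₀ : G → ℂ))}, blockRank p b : ℕ) : ℂ) := by
    intro x hxX
    have hC0 : (Nat.card (Subgroup.centralizer ({x} : Set G)) : ℂ) ≠ 0 := Nat.cast_ne_zero.mpr Nat.card_pos.ne'
    have h1 := subsection_count hM χ₀ x (hX x hxX)
    have h2 : ∑ c : G, (if (c * x = x * c ∧ ¬ p ∣ orderOf c) then Φ (x * c) else 0) =
        (Nat.card (Subgroup.centralizer ({x} : Set G)) : ℂ) * ((∑ᶠ b ∈ {b : Set (IrrCharacter (Subgroup.centralizer ({x} : Set G))) |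
          IsInducedBlock M (Subgroup.centralizer ({x} : Set G)) b (blockOf M (χ₀ : G → ℂ))}, blockRank p b : ℕ) : ℂ) := by
      rw [← h1]
      exact Finset.sum_congr rfl fun c _ => by rw [hΦapp]
    rw [h2, mul_assoc, ← mul_assoc (Nat.card (Subgroup.centralizer ({x} : Set G)) : ℂ)⁻¹, inv_mul_cancel₀ hC0, one_mul]
  rw [Finset.sum_congr rfl hx, ← Finset.mul_sum] at hps
  have hfin := mul_left_cancel₀ hG0 hps
  rw [← Nat.cast_sum] at hfin
  exact Nat.cast_injective hfin

end Cfsg.Agent.S4511
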