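import Cfsg.Statements.S4517
import Cfsg.Agent.Helper5.BlkReal2
import Cfsg.Agent.Helper5.BlkOrth2
import Cfsg.Agent.Helper5.BlkKer
import Cfsg.Agent.Helper22.BlkCover
import Cfsg.Agent.Helper24.CharBasic
import Cfsg.Agent.S0906
import Cfsg.Agent.S0908

set_option autoImplicit false
open Cfsg

namespace Cfsg.Agent.S4517

/-- Let G be a finite group, M a maximal ideal of the algebraic integers containing 2, and k a natural number coprime to the order of G with g ^ k = g⁻¹ for every element g of odd order (so that g ↦ g ^ k induces a field automorphism of the character values inverting the roots of unity of odd order). If B is a 2-block of full defect (its defect equals the exponent of 2 in the order of G) that is stable under χ ↦ χ ∘ (· ^ k), then B is the principal 2-block. -/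
theorem result {G : Type*} [Group G] [Finite G] (M : Ideal Cfsg.AlgInt) (hM : Cfsg.IsPModular 2 M) (k : ℕ) (hk : Nat.Coprime k (Nat.card G)) (hk₂ : ∀ g : G, Odd (orderOf g) → g ^ k = g⁻¹) (B : Set (Cfsg.IrrCharacter G)) (hB : Cfsg.IsPBlock M B) (hdef : Cfsg.blockDefect 2 B = (Nat.card G).factorization 2) (hstab : ∀ χ ∈ B, ∃ ψ ∈ B, ∀ g : G, (ψ : G → ℂ) g = (χ : G → ℂ) (g ^ k)) : B = Cfsg.principalBlock M G := by
  classical
  haveI := Fintype.ofFinite G
  haveI hMp : M.IsPrime := hM.2.1.isPrime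
  haveI : Fact (Nat.Prime 2) := ⟨Nat.prime_two⟩
  obtain ⟨χ₀, rfl⟩ := hB
  have hB : IsPBlock M (blockOf M (χ₀ : G → ℂ)) := ⟨χ₀, rfl⟩
  obtain ⟨g, hg⟩ := Cfsg.Agent.S0906.result 2 M hM _ hB
  obtain ⟨Q⟩ : Nonempty (Sylow 2 (Subgroup.centralizer ({g} : Set G))) := inferInstance
  have hD : IsDefectGroup 2 M (blockOf M (χ₀ : G → ℂ))
      ((Q : Subgroup (Subgroup.centralizer ({g} : Set G))).map
        (Subgroup.centralizer ({g} : Set G)).subtype) := ⟨g, hg, Q, rfl⟩
  have hcard := Cfsg.Agent.S0908.result 2 M hM _ hB _ hD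
  rw [hdef] at hcard
  obtain ⟨P, hP⟩ : ∃ P : Sylow 2 G, (P : Subgroup G) =
      (Q : Subgroup (Subgroup.centralizer ({g} : Set G))).map
        (Subgroup.centralizer ({g} : Set G)).subtype :=
    ⟨Sylow.ofCard _ hcard, Sylow.coe_ofCard _ hcard⟩
  refine Cfsg.Agent.Helper5.real_full_defect_principal hM χ₀ P (by rw [hP]; exact hD) ?_
  intro χ hχ ψ hψ
  obtain ⟨ψ', hψ', hψ'k⟩ := hstab χ hχ
  have hagree : ∀ x : G, ¬ 2 ∣ orderOf x → (ψ' : G → ℂ) x = (ψ : G → ℂ) x := by
    intro x hx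
    rw [hψ'k x, hψ, hk₂ x (Nat.not_even_iff_odd.mp (fun h => hx h.two_dvd))]
    exact Cfsg.Agent.Helper24.irr_inv χ x
  have hsb : SameBlock M (ψ' : G → ℂ) (ψ : G → ℂ) := by
    by_contra hne
    have h0 := Cfsg.Agent.Helper5.block_reg_orth hM ψ' ψ hne
    rw [Cfsg.Agent.Helper22.finsum_setOf_eq_sum'] at h0
    have h1 : ∑ x : G, (if ¬ 2 ∣ orderOf x then
        (ψ' : G → ℂ) x * starRingEnd ℂ ((ψ : G → ℂ) x) else 0)
        = ((∑ x : G, (if ¬ 2 ∣ orderOf x then Complex.normSq ((ψ : G → ℂ) x) else 0) : ℝ) : ℂ) := by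
      rw [Complex.ofReal_sum]
      refine Finset.sum_congr rfl fun x _ => ?_
      by_cases hx : ¬ 2 ∣ orderOf x
      · rw [if_pos hx, if_pos hx, hagree x hx]
        exact Complex.mul_conj _
      · rw [if_neg hx, if_neg hx, Complex.ofReal_zero]
    rw [h1] at h0
    have h2 : ∑ x : G, (if ¬ 2 ∣ orderOf x then Complex.normSq ((ψ : G → ℂ) x) else 0) = 0 := by
      exact_mod_cast h0
    have h3 := (Finset.sum_eq_zero_iff_of_nonneg (fun x _ => by
      split_ifs <;> first | exact Complex.normSq_nonneg _ | exact le_refl _)).mp h2 1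
        (Finset.mem_univ _)
    rw [if_pos (by rw [orderOf_one]; decide)] at h3
    exact Cfsg.Agent.Helper24.irr_one_ne_zero ψ (Complex.normSq_eq_zero.mp h3)
  exact Cfsg.Agent.Helper5.sameBlock_trans hψ' hsb

end Cfsg.Agent.S4517
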