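import Cfsg.Statements.S4518
import Cfsg.Agent.Helper22.GalIrr

set_option autoImplicit false
open Cfsg
open Cfsg.Agent.Helper24 Cfsg.Agent.Helper22

namespace Cfsg.Agent.S4518

/-- Let N be a normal subgroup of the finite group G whose index is not divisible by the prime p, and let k be coprime to the order of G with k ^ (p ^ e) ≡ 1 modulo the order of G for some e (so g ↦ g ^ k induces a field automorphism of p-power order on character values). If an irreducible character χ of G satisfies χ (g ^ k) = χ g for all g, then every irreducible constituent θ of the restriction of χ to N satisfies θ (n ^ k) = θ n for all n. -/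
theorem result {G : Type*} [Group G] [Fintype G] (p : ℕ) [Fact p.Prime] (N : Subgroup G) [N.Normal] [Fintype N] (hidx : ¬ p ∣ N.index) (k e : ℕ) (hk : Nat.Coprime k (Nat.card G)) (hke : k ^ (p ^ e) ≡ 1 [MOD Nat.card G]) (χ : Cfsg.IrrCharacter G) (hχ : ∀ g : G, (χ : G → ℂ) (g ^ k) = (χ : G → ℂ) g) (θ : Cfsg.IrrCharacter N) (hθ : Cfsg.classInner (fun n : N => (χ : G → ℂ) n) (θ : N → ℂ) ≠ 0) : ∀ n : N, (θ : N → ℂ) (n ^ k) = (θ : N → ℂ) n := by
  classical
  have hN : N.Normal := inferInstance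
  have hkN : k.Coprime (Nat.card N) :=
    Nat.Coprime.coprime_dvd_right (Subgroup.card_subgroup_dvd_card N) hk
  have hσtw : ∀ (f : N → ℂ) (g : G),
      (fun n : N => twist N f g (n ^ k)) = twist N (fun n : N => f (n ^ k)) g := by
    intro f g
    funext n
    show f ⟨g * ((n ^ k : N) : G) * g⁻¹, _⟩ = f ((⟨g * (n : G) * g⁻¹, _⟩ : N) ^ k)
    exact congrArg f (Subtype.ext (by simp only [Subgroup.coe_pow, conj_pow]))
  have hσθ : ∃ g : G, (fun n : N => (θ : N → ℂ) (n ^ k)) = twist N (θ : N → ℂ) g := by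
    have hirr : IsIrrCharacter N (fun n : N => (θ : N → ℂ) (n ^ k)) :=
      isIrrCharacter_pow_coprime θ k hkN
    have hψ : classInner (fun n : N => (χ : G → ℂ) n) (fun n : N => (θ : N → ℂ) (n ^ k)) ≠ 0 := by
      have h1 : classInner (fun n : N => (χ : G → ℂ) ((n ^ k : N) : G))
          (fun n : N => (θ : N → ℂ) (n ^ k)) =
          classInner (fun n : N => (χ : G → ℂ) n) (θ : N → ℂ) :=
        classInner_pow_coprime (fun n : N => (χ : G → ℂ) n) (θ : N → ℂ) k hkN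
      have h2 : (fun n : N => (χ : G → ℂ) ((n ^ k : N) : G)) = fun n : N => (χ : G → ℂ) n := by
        funext n
        rw [Subgroup.coe_pow, hχ]
      rw [h2] at h1
      rw [h1]; exact hθ
    exact exists_twist_of_constituent N (χ : G → ℂ) χ.2 θ ⟨_, hirr⟩ hθ hψ
  obtain ⟨g₁, hg₁⟩ := hσθ
  obtain ⟨Ω, hΩ⟩ : ∃ Ω : Set (N → ℂ),
      Ω = {φ : N → ℂ | ∃ g : G, φ = twist N (θ : N → ℂ) g} := ⟨_, rfl⟩
  have hmem : ∀ φ : N → ℂ, φ ∈ Ω ↔ ∃ g : G, φ = twist N (θ : N → ℂ) g := by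
    intro φ; rw [hΩ]; exact Iff.rfl
  have hΩfin : Finite Ω := by
    have hsurj : Function.Surjective
        (fun g : G => (⟨twist N (θ : N → ℂ) g, (hmem _).mpr ⟨g, rfl⟩⟩ : Ω)) := by
      rintro ⟨φ, hφ⟩
      obtain ⟨g, hg⟩ := (hmem φ).mp hφ
      exact ⟨g, Subtype.ext hg.symm⟩
    exact Finite.of_surjective _ hsurj
  have hσΩ : ∀ φ : N → ℂ, φ ∈ Ω → (fun n : N => φ (n ^ k)) ∈ Ω := by
    intro φ hφ
    obtain ⟨g, rfl⟩ := (hmem φ).mp hφ
    refine (hmem _).mpr ⟨g₁ * g, ?_⟩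
    exact (hσtw _ g).trans (by rw [twist_mul, ← hg₁])
  have hcardΩ : ¬ p ∣ Nat.card Ω := by
    intro hdiv
    apply hidx
    rw [Nat.card_coe_set_eq, hΩ] at hdiv
    exact hdiv.trans (ncard_twist_orbit_dvd N (θ : N → ℂ) (irr_isClassFunction θ))
  obtain ⟨F, hFdef⟩ : ∃ F : Function.End Ω, ∀ x : Ω, (F x).1 = fun n : N => x.1 (n ^ k) :=
    ⟨fun x => ⟨fun n : N => x.1 (n ^ k), hσΩ x.1 x.2⟩, fun x => rfl⟩
  have hF : ∀ (m : ℕ) (x : Ω), ((F ^ m) x).1 = fun n : N => x.1 (n ^ (k ^ m)) := by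
    intro m
    induction m with
    | zero =>
      intro x
      funext n
      rw [pow_zero F, pow_zero k, pow_one]
      rfl
    | succ m ih =>
      intro x
      rw [pow_succ F m]
      show ((F ^ m) (F x)).1 = _
      rw [ih (F x), hFdef x]
      funext n
      show x.1 ((n ^ (k ^ m)) ^ k) = x.1 (n ^ (k ^ (m + 1)))
      rw [← pow_mul, ← pow_succ]
  have hFp : F ^ (p ^ e) = 1 := by
    funext x
    apply Subtype.ext
    rw [hF]
    funext n
    show x.1 (n ^ (k ^ (p ^ e))) = x.1 n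
    have h1 : n ^ (k ^ (p ^ e)) = n ^ 1 :=
      pow_eq_pow_iff_modEq.mpr
        (hke.of_dvd ((orderOf_dvd_natCard n).trans (Subgroup.card_subgroup_dvd_card N)))
    rw [h1, pow_one]
  obtain ⟨x, hx⟩ := exists_fixed_of_pow p e F hFp hcardΩ
  obtain ⟨g₀, hg₀⟩ := (hmem x.1).mp x.2
  have hx1 : (fun n : N => x.1 (n ^ k)) = x.1 := by
    have h := congrArg Subtype.val hx
    rw [hFdef] at h
    exact h
  have hθx : (θ : N → ℂ) = twist N x.1 g₀⁻¹ := by
    rw [hg₀, ← twist_mul, mul_inv_cancel, twist_one]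
  have hfin : (fun n : N => (θ : N → ℂ) (n ^ k)) = (θ : N → ℂ) := by
    calc (fun n : N => (θ : N → ℂ) (n ^ k))
        = fun n : N => twist N x.1 g₀⁻¹ (n ^ k) := by rw [← hθx]
      _ = twist N (fun n : N => x.1 (n ^ k)) g₀⁻¹ := hσtw _ _
      _ = twist N x.1 g₀⁻¹ := by rw [hx1]
      _ = (θ : N → ℂ) := hθx.symm
  intro n
  exact congrFun hfin n

end Cfsg.Agent.S4518
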