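import Cfsg.Statements.S4521
import Cfsg.Agent.Helper22.BlkPrinReg

set_option autoImplicit false
open Cfsg
open Cfsg.Agent.Helper22

namespace Cfsg.Agent.S4521

/-- Let the finite group G be generated by subgroups U₁ and U₂ that commute elementwise and whose intersection is a p-group, and let M be a maximal ideal of the algebraic integers containing the prime p. If the irreducible character χ of G has the irreducible constituents ψ₁ on U₁ and ψ₂ on U₂, then χ lies in the principal block of G if and only if ψ₁ and ψ₂ lie in the principal blocks of U₁ and U₂. -/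
theorem result {G : Type*} [Group G] [Fintype G] (p : ℕ) [Fact p.Prime] (M : Ideal Cfsg.AlgInt) (hM : Cfsg.IsPModular p M) (U₁ U₂ : Subgroup G) [Fintype U₁] [Fintype U₂] (hcomm : ∀ u ∈ U₁, ∀ v ∈ U₂, u * v = v * u) (hgen : U₁ ⊔ U₂ = ⊤) (hZ : IsPGroup p ↥(U₁ ⊓ U₂)) (χ : Cfsg.IrrCharacter G) (ψ₁ : Cfsg.IrrCharacter U₁) (ψ₂ : Cfsg.IrrCharacter U₂) (h₁ : Cfsg.classInner (fun u : U₁ => (χ : G → ℂ) u) (ψ₁ : U₁ → ℂ) ≠ 0) (h₂ : Cfsg.classInner (fun u : U₂ => (χ : G → ℂ) u) (ψ₂ : U₂ → ℂ) ≠ 0) : χ ∈ Cfsg.principalBlock M G ↔ (ψ₁ ∈ Cfsg.principalBlock M U₁ ∧ ψ₂ ∈ Cfsg.principalBlock M U₂) := by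
  classical
  haveI hMp : M.IsPrime := hM.2.1.isPrime
  have hp : p.Prime := Fact.out
  have hprod : ∀ g : G, ∃ u ∈ U₁, ∃ v ∈ U₂, g = u * v := by
    let S : Subgroup G :=
      { carrier := {g | ∃ u ∈ U₁, ∃ v ∈ U₂, g = u * v}
        mul_mem' := by
          rintro _ _ ⟨u₁, hu₁, u₂, hu₂, rfl⟩ ⟨v₁, hv₁, v₂, hv₂, rfl⟩
          refine ⟨u₁ * v₁, U₁.mul_mem hu₁ hv₁, u₂ * v₂, U₂.mul_mem hu₂ hv₂, ?_⟩
          have e := hcomm v₁ hv₁ u₂ hu₂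
          calc u₁ * u₂ * (v₁ * v₂) = u₁ * (u₂ * v₁) * v₂ := by group
            _ = u₁ * (v₁ * u₂) * v₂ := by rw [e]
            _ = u₁ * v₁ * (u₂ * v₂) := by group
        one_mem' := ⟨1, U₁.one_mem, 1, U₂.one_mem, (mul_one 1).symm⟩
        inv_mem' := by
          rintro _ ⟨u₁, hu₁, u₂, hu₂, rfl⟩
          refine ⟨u₁⁻¹, U₁.inv_mem hu₁, u₂⁻¹, U₂.inv_mem hu₂, ?_⟩
          rw [mul_inv_rev]
          exact (hcomm u₁⁻¹ (U₁.inv_mem hu₁) u₂⁻¹ (U₂.inv_mem hu₂)).symm }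
    have h1 : U₁ ≤ S := fun u hu => ⟨u, hu, 1, U₂.one_mem, (mul_one u).symm⟩
    have h2 : U₂ ≤ S := fun v hv => ⟨1, U₁.one_mem, v, hv, (one_mul v).symm⟩
    have h3 : (⊤ : Subgroup G) ≤ S := hgen ▸ sup_le h1 h2
    intro g
    exact h3 (Subgroup.mem_top g)
  have hcomm' : ∀ u ∈ U₂, ∀ v ∈ U₁, u * v = v * u := fun u hu v hv => (hcomm v hv u hu).symm
  have hprod' : ∀ g : G, ∃ u ∈ U₂, ∃ v ∈ U₁, g = u * v := by
    intro g
    obtain ⟨u, hu, v, hv, rfl⟩ := hprod g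
    exact ⟨v, hv, u, hu, hcomm u hu v hv⟩
  obtain ⟨e₁, he₁⟩ : ∃ e : ℂ, e = classInner (fun u : U₁ => (χ : G → ℂ) u) (ψ₁ : U₁ → ℂ) :=
    ⟨_, rfl⟩
  obtain ⟨e₂, he₂⟩ : ∃ e : ℂ, e = classInner (fun u : U₂ => (χ : G → ℂ) u) (ψ₂ : U₂ → ℂ) :=
    ⟨_, rfl⟩
  have hres₁ : ∀ x : U₁, (χ : G → ℂ) x = e₁ * (ψ₁ : U₁ → ℂ) x := fun x => by
    rw [he₁]
    exact central_prod_res U₁ U₂ hcomm hprod χ ψ₁ h₁ x
  have hres₂ : ∀ x : U₂, (χ : G → ℂ) x = e₂ * (ψ₂ : U₂ → ℂ) x := fun x => by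
    rw [he₂]
    exact central_prod_res U₂ U₁ hcomm' hprod' χ ψ₂ h₂ x
  have he₁0 : e₁ ≠ 0 := by
    rw [he₁]
    exact h₁
  have he₂0 : e₂ ≠ 0 := by
    rw [he₂]
    exact h₂
  have h10 := Cfsg.Agent.Helper5.irr_one_ne_zero χ
  obtain ⟨S₁, hS₁⟩ : ∃ S : ℂ,
      S = ∑ x : U₁, (if ¬ p ∣ orderOf x then (ψ₁ : U₁ → ℂ) x else 0) := ⟨_, rfl⟩
  obtain ⟨S₂, hS₂⟩ : ∃ S : ℂ,
      S = ∑ x : U₂, (if ¬ p ∣ orderOf x then (ψ₂ : U₂ → ℂ) x else 0) := ⟨_, rfl⟩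
  have hA : ∑ g : G, (if ¬ p ∣ orderOf g then (χ : G → ℂ) g else 0) =
      ∑ u : U₁, ∑ v : U₂, (if (¬ p ∣ orderOf (u : G) ∧ ¬ p ∣ orderOf (v : G)) then
        (χ : G → ℂ) ((u : G) * (v : G)) else 0) := by
    rw [central_prod_reg_sum U₁ U₂ hcomm hprod hZ (χ : G → ℂ), Fintype.sum_prod_type]
  have hB : ∀ (u : U₁) (v : U₂),
      (if (¬ p ∣ orderOf (u : G) ∧ ¬ p ∣ orderOf (v : G)) then
        (χ : G → ℂ) ((u : G) * (v : G)) else 0) * (χ : G → ℂ) 1 =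
      (e₁ * (if ¬ p ∣ orderOf u then (ψ₁ : U₁ → ℂ) u else 0)) *
        (e₂ * (if ¬ p ∣ orderOf v then (ψ₂ : U₂ → ℂ) v else 0)) := by
    intro u v
    rw [Subgroup.orderOf_coe, Subgroup.orderOf_coe]
    by_cases hu : p ∣ orderOf u
    · rw [if_neg (show ¬ (¬ p ∣ orderOf u ∧ ¬ p ∣ orderOf v) from fun h => h.1 hu),
        if_neg (not_not.mpr hu)]
      ring
    · by_cases hv : p ∣ orderOf v
      · rw [if_neg (show ¬ (¬ p ∣ orderOf u ∧ ¬ p ∣ orderOf v) from fun h => h.2 hv),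
          if_neg (not_not.mpr hv)]
        ring
      · rw [if_pos (show (¬ p ∣ orderOf u ∧ ¬ p ∣ orderOf v) from ⟨hu, hv⟩), if_pos hu,
          if_pos hv, central_prod_mul U₁ U₂ hcomm hprod χ u v u.2 v.2, hres₁, hres₂]
  have hkey : (∑ g : G, (if ¬ p ∣ orderOf g then (χ : G → ℂ) g else 0)) * (χ : G → ℂ) 1 =
      (e₁ * S₁) * (e₂ * S₂) := by
    rw [hA, hS₁, hS₂, Finset.mul_sum, Finset.mul_sum, Finset.sum_mul_sum, Finset.sum_mul]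
    refine Finset.sum_congr rfl fun u _ => ?_
    rw [Finset.sum_mul]
    exact Finset.sum_congr rfl fun v _ => hB u v
  rw [principal_iff_reg_sum hM χ, principal_iff_reg_sum hM ψ₁, principal_iff_reg_sum hM ψ₂,
    ← hS₁, ← hS₂]
  constructor
  · intro h
    have h3 : (e₁ * S₁) * (e₂ * S₂) ≠ 0 := by
      rw [← hkey]
      exact mul_ne_zero h h10
    constructor
    · intro h0
      apply h3
      rw [h0]
      ring
    · intro h0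
      apply h3
      rw [h0]
      ring
  · rintro ⟨h1, h2⟩ h0
    have h3 : (e₁ * S₁) * (e₂ * S₂) = 0 := by rw [← hkey, h0, zero_mul]
    exact mul_ne_zero (mul_ne_zero he₁0 h1) (mul_ne_zero he₂0 h2) h3

end Cfsg.Agent.S4521
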