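import Cfsg.Statements.S4553
import Cfsg.Agent.Helper22.S4553bci
import Cfsg.Agent.Helper22.S4553def
import Cfsg.Agent.Helper22.S4553g
import Cfsg.Agent.Helper22.S4553a
import Cfsg.Agent.Helper6.S4553h
import Cfsg.Agent.Helper22.GalIrr2
import Cfsg.Agent.Helper22.FrobSchur2
import Cfsg.Agent.Helper24.CharCliff
import Cfsg.Agent.Helper24.BS1
import Cfsg.Agent.Helper24.CharBasic
import Cfsg.Agent.Helper5.DetChar
import Cfsg.Agent.Helper26.FusNormal3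

set_option autoImplicit false
open Cfsg
open Cfsg.Agent.Helper22.S4553bci Cfsg.Agent.Helper22.S4553def Cfsg.Agent.Helper22.S4553g
open Cfsg.Agent.Helper22.S4553a Cfsg.Agent.Helper6.S4553h

namespace Cfsg.Agent.S4553

theorem deg_eq {G : Type*} [Group G] (N : Subgroup G) (χ : G → ℂ) (θ : ↥N → ℂ)
    (h : ∀ n : ↥N, θ n = χ n) : Cfsg.charDegree θ = Cfsg.charDegree χ := by
  have h1 : θ 1 = χ 1 := by
    have := h 1
    rwa [Subgroup.coe_one] at this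
  unfold Cfsg.charDegree
  rw [h1]

theorem count_lemma {X Y : Type*} [Finite X] [Finite Y] (PA : X → Prop) (PB : Y → Prop)
    (R : X → Y → Prop) (m : ℕ) (hfun : ∀ x, PA x → ∃ y, PB y ∧ R x y)
    (huniq : ∀ x y y', R x y → R x y' → y = y')
    (hfib : ∀ y, PB y → Nat.card {x // PA x ∧ R x y} = m) :
    Nat.card {x // PA x} = m * Nat.card {y // PB y} := by
  classical
  haveI : Fintype {y // PB y} := Fintype.ofFinite _
  choose r hr using hfun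
  obtain ⟨r', hr'⟩ : ∃ r' : {x // PA x} → {y // PB y}, ∀ a, (r' a).1 = r a.1 a.2 :=
    ⟨fun a => ⟨r a.1 a.2, (hr a.1 a.2).1⟩, fun a => rfl⟩
  have hfib' : ∀ b : {y // PB y}, Nat.card {a // r' a = b} = m := by
    intro b
    rw [← hfib b.1 b.2]
    refine Nat.card_congr
      { toFun := fun a => ⟨a.1.1, a.1.2, ?_⟩
        invFun := fun x => ⟨⟨x.1, x.2.1⟩, ?_⟩
        left_inv := fun a => Subtype.ext (Subtype.ext rfl)
        right_inv := fun x => Subtype.ext rfl }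
    · have h1 := (hr a.1.1 a.1.2).2
      rw [← hr' a.1, a.2] at h1
      exact h1
    · apply Subtype.ext
      rw [hr']
      exact huniq x.1 _ _ (hr x.1 x.2.1).2 x.2.2
  rw [← Nat.card_congr (Equiv.sigmaFiberEquiv r'), Nat.card_sigma,
    Finset.sum_congr rfl (fun b _ => hfib' b), Finset.sum_const, Finset.card_univ, smul_eq_mul,
    Nat.card_eq_fintype_card, mul_comm]

theorem ext_count {G : Type*} [Group G] [Finite G] (p : ℕ) [Fact p.Prime] (N : Subgroup G)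
    [hN : N.Normal] (hNres : N = Cfsg.pResidual p G) (hcyc : IsCyclic (G ⧸ N)) (hnt : N ≠ ⊤)
    (k : ℕ) (hk₁ : ∀ g : G, (∃ j : ℕ, orderOf g = p ^ j) → g ^ k = g ^ (1 + p))
    (hk₂ : ∀ g : G, Nat.Coprime (orderOf g) p → g ^ k = g) (θ : Cfsg.IrrCharacter ↥N)
    (hinv : ∀ (g : G) (n : ↥N),
      (θ : ↥N → ℂ) ⟨g * n * g⁻¹, hN.conj_mem n n.2 g⟩ = (θ : ↥N → ℂ) n)
    (hdeg : ¬ p ∣ Cfsg.charDegree (θ : ↥N → ℂ))
    (hσ : ∀ n : ↥N, (θ : ↥N → ℂ) (n ^ k) = (θ : ↥N → ℂ) n) :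
    Nat.card {χ : Cfsg.IrrCharacter G // (∀ n : ↥N, (χ : G → ℂ) n = (θ : ↥N → ℂ) n) ∧
      ∀ g : G, (χ : G → ℂ) (g ^ k) = (χ : G → ℂ) g} = p := by
  classical
  haveI : Fintype G := Fintype.ofFinite G
  have hkc : k.Coprime (Nat.card G) := k_coprime p k hk₁ hk₂
  obtain ⟨χ₀, hχ₀⟩ := ext_exists N hcyc θ hinv
  have hχ₁irr : Cfsg.IsIrrCharacter G (fun g => (χ₀ : G → ℂ) (g ^ k)) :=
    Cfsg.Agent.Helper22.isIrrCharacter_pow_coprime χ₀ k hkc
  have hχ₁N : ∀ n : ↥N, (χ₀ : G → ℂ) ((n : G) ^ k) = (θ : ↥N → ℂ) n := by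
    intro n
    have : ((n : G) ^ k) = ((n ^ k : ↥N) : G) := by rw [Subgroup.coe_pow]
    rw [this, hχ₀, hσ]
  obtain ⟨μ₀, hμ₀N, hμ₀⟩ := ext_twist N χ₀ ⟨_, hχ₁irr⟩ θ hχ₀ hχ₁N
  have hμ₀' : ∀ g : G, (χ₀ : G → ℂ) (g ^ k) = ((μ₀ g : ℂˣ) : ℂ) * (χ₀ : G → ℂ) g := hμ₀
  obtain ⟨hd1, -⟩ := Cfsg.Agent.Helper22.charDegree_irr θ
  obtain ⟨d, hd⟩ : ∃ d : ℕ, d = Cfsg.charDegree (θ : ↥N → ℂ) := ⟨_, rfl⟩
  have hdp : ¬ p ∣ d := by rw [hd]; exact hdeg
  have hχ₀1 : (χ₀ : G → ℂ) 1 = d := by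
    have h1 := hχ₀ 1
    rw [Subgroup.coe_one] at h1
    rw [h1, hd]
    exact hd1.symm
  have hχ₀c : Cfsg.IsCharacter G (χ₀ : G → ℂ) :=
    Cfsg.Agent.Helper24.isCharacter_of_isIrrCharacter χ₀.2
  obtain ⟨ε, hε⟩ := Cfsg.Agent.Helper5.detChar_exists_hom (χ₀ : G → ℂ)
  have hdet : ∀ g : G, μ₀ g ^ d * ε g = ε (g ^ k) := by
    intro g
    apply Units.ext
    rw [Units.val_mul, Units.val_pow_eq_pow_val, hε, hε]
    have h1 := det_gal (χ₀ : G → ℂ) hχ₀c k hkc g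
    have h2 := Cfsg.Agent.Helper5.detChar_linear_mul μ₀ hχ₀c d hχ₀1 g
    have h3 : (fun x => (χ₀ : G → ℂ) (x ^ k)) =
        fun g => ((μ₀ g : ℂˣ) : ℂ) * (χ₀ : G → ℂ) g := funext hμ₀'
    rw [← h1, h3, h2]
  have hcount := hom_count p N hNres hcyc hnt k hk₁ hk₂ d hdp ε μ₀ hμ₀N hdet
  have hirr : ∀ μ : G →* ℂˣ,
      Cfsg.IsIrrCharacter G (fun g => ((μ g : ℂˣ) : ℂ) * (χ₀ : G → ℂ) g) := fun μ =>
    Cfsg.Agent.Helper24.linear_mul_irr _ (χ₀ : G → ℂ)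
      (Cfsg.Agent.Helper24.isIrrCharacter_unitsHom μ) (by simp) χ₀.2
  obtain ⟨F, hF⟩ : ∃ F : {μ : G →* ℂˣ // (∀ x ∈ N, μ x = 1) ∧
      ∀ g : G, μ (g ^ k) * μ₀ g = μ g} →
      {χ : Cfsg.IrrCharacter G // (∀ n : ↥N, (χ : G → ℂ) n = (θ : ↥N → ℂ) n) ∧
        ∀ g : G, (χ : G → ℂ) (g ^ k) = (χ : G → ℂ) g},
      ∀ μ g, ((F μ).1 : G → ℂ) g = ((μ.1 g : ℂˣ) : ℂ) * (χ₀ : G → ℂ) g := by
    refine ⟨fun μ => ⟨⟨fun g => ((μ.1 g : ℂˣ) : ℂ) * (χ₀ : G → ℂ) g, hirr μ.1⟩, ?_, ?_⟩,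
      fun μ g => rfl⟩
    · intro n
      show ((μ.1 (n : G) : ℂˣ) : ℂ) * (χ₀ : G → ℂ) n = _
      rw [μ.2.1 _ n.2, hχ₀, Units.val_one, one_mul]
    · intro g
      show ((μ.1 (g ^ k) : ℂˣ) : ℂ) * (χ₀ : G → ℂ) (g ^ k) =
        ((μ.1 g : ℂˣ) : ℂ) * (χ₀ : G → ℂ) g
      rw [hμ₀', ← mul_assoc, ← Units.val_mul, μ.2.2 g]
  have hbij : Function.Bijective F := by
    constructor
    · intro μ ν h
      apply Subtype.ext
      have h1 : ∀ g : G, ((μ.1 g : ℂˣ) : ℂ) * (χ₀ : G → ℂ) g =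
          ((ν.1 g : ℂˣ) : ℂ) * (χ₀ : G → ℂ) g := by
        intro g
        rw [← hF μ g, ← hF ν g, h]
      exact twist_inj N χ₀ θ hχ₀ μ.1 ν.1 μ.2.1 ν.2.1 h1
    · rintro ⟨χ, hχN, hχσ⟩
      obtain ⟨μ, hμN, hμ⟩ := ext_twist N χ₀ χ θ hχ₀ hχN
      have hν : ∀ g : G, (((μ ^ k * μ₀) g : ℂˣ) : ℂ) * (χ₀ : G → ℂ) g =
          ((μ g : ℂˣ) : ℂ) * (χ₀ : G → ℂ) g := by
        intro g
        have e1 := hχσ g
        rw [hμ (g ^ k), hμ g, hμ₀' g, map_pow] at e1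
        rw [MonoidHom.mul_apply, MonoidHom.pow_apply, Units.val_mul, mul_assoc]
        exact e1
      have hνN : ∀ x ∈ N, (μ ^ k * μ₀) x = 1 := by
        intro x hx
        rw [MonoidHom.mul_apply, MonoidHom.pow_apply, hμN x hx, hμ₀N x hx, one_pow, one_mul]
      have hνμ := twist_inj N χ₀ θ hχ₀ (μ ^ k * μ₀) μ hνN hμN hν
      have hfix : ∀ g : G, μ (g ^ k) * μ₀ g = μ g := by
        intro g
        have h2 : (μ ^ k * μ₀) g = μ g := by rw [hνμ]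
        rw [MonoidHom.mul_apply, MonoidHom.pow_apply] at h2
        rw [map_pow]
        exact h2
      refine ⟨⟨μ, hμN, hfix⟩, ?_⟩
      apply Subtype.ext
      apply Subtype.ext
      funext g
      rw [hF]
      exact (hμ g).symm
  exact (Nat.card_congr (Equiv.ofBijective F hbij)).symm.trans hcount

/-- Let G be a finite group, p a prime, P a Sylow p-subgroup, N the p-residual of G (the subgroup generated by the elements of order prime to p, the smallest normal subgroup with G/N a p-group), and M a maximal ideal of the algebraic integers containing p; suppose G/N is cyclic and nontrivial. Let k be a natural number with g ^ k = g ^ (1 + p) for every p-element g and g ^ k = g for every element g of order prime to p (so that χ (g ^ k) is the image of χ g under the field automorphism that raises p-power roots of unity to the power 1 + p and fixes the roots of unity of order prime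 to p). Then the number of members χ of the principal block of G of degree prime to p with χ (g ^ k) = χ g for all g equals p times the number of members θ of the principal block of N of degree prime to p that are invariant under conjugation by P and satisfy θ (n ^ k) = θ n for all n. -/
theorem result {G : Type*} [Group G] [Finite G] (p : ℕ) [Fact p.Prime] (M : Ideal Cfsg.AlgInt) (hM : Cfsg.IsPModular p M) (P : Sylow p G) (N : Subgroup G) [hN : N.Normal] (hNres : N = Cfsg.pResidual p G) (hcyc : IsCyclic (G ⧸ N)) (hnt : N ≠ ⊤) (k : ℕ) (hk₁ : ∀ g : G, (∃ j : ℕ, orderOf g = p ^ j) → g ^ k = g ^ (1 + p)) (hk₂ : ∀ g : G, Nat.Coprime (orderOf g) p → g ^ k = g) : Nat.card {χ : Cfsg.IrrCharacter G // χ ∈ Cfsg.principalBlock M G ∧ ¬ p ∣ Cfsg.charDegree (χ : G → ℂ) ∧ ∀ g : G, (χ : G → ℂ) (g ^ k) = (χ : G → ℂ) g} = p * Nat.card {θ : Cfsg.IrrCharacter ↥N // θ ∈ Cfsg.principalBlock M ↥N ∧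 ¬ p ∣ Cfsg.charDegree (θ : ↥N → ℂ) ∧ (∀ x ∈ (P : Subgroup G), ∀ n : ↥N, (θ : ↥N → ℂ) ⟨x * n * x⁻¹, hN.conj_mem n n.2 x⟩ = (θ : ↥N → ℂ) n) ∧ ∀ n : ↥N, (θ : ↥N → ℂ) (n ^ k) = (θ : ↥N → ℂ) n} := by
  classical
  haveI : Fintype G := Fintype.ofFinite G
  have hpq : IsPGroup p (G ⧸ N) := by
    subst hNres
    exact Cfsg.Agent.Helper26.isPGroup_quotient_pResidual'
  refine count_lemma _ _ (fun (χ : Cfsg.IrrCharacter G) (θ : Cfsg.IrrCharacter ↥N) =>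
    ∀ n : ↥N, (θ : ↥N → ℂ) n = (χ : G → ℂ) n) p ?_ ?_ ?_
  · intro χ hχ
    obtain ⟨θ, hR⟩ := res_irr p N hcyc hpq χ hχ.2.1
    refine ⟨θ, ⟨(blk_iff p M hM N hNres χ θ hR).mp hχ.1, ?_, ?_, ?_⟩, hR⟩
    · rw [deg_eq N (χ : G → ℂ) (θ : ↥N → ℂ) hR]
      exact hχ.2.1
    · intro x _ n
      rw [hR, hR]
      exact Cfsg.Agent.Helper24.irr_conj χ (n : G) x
    · intro n
      rw [hR, hR, Subgroup.coe_pow]
      exact hχ.2.2 (n : G)
  · intro χ θ θ' h h'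
    apply Subtype.ext
    funext n
    rw [h, h']
  · intro θ hθ
    have hinv := inv_all p P N hNres θ hθ.2.2.1
    have hc := ext_count p N hNres hcyc hnt k hk₁ hk₂ θ hinv hθ.2.1 hθ.2.2.2
    refine (Nat.card_congr (Equiv.subtypeEquivRight fun χ => ?_)).trans hc
    constructor
    · rintro ⟨⟨_, _, h3⟩, hR⟩
      exact ⟨fun n => (hR n).symm, h3⟩
    · rintro ⟨h1, h2⟩
      have hR : ∀ n : ↥N, (θ : ↥N → ℂ) n = (χ : G → ℂ) n := fun n => (h1 n).symm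
      refine ⟨⟨(blk_iff p M hM N hNres χ θ hR).mpr hθ.1, ?_, h2⟩, hR⟩
      rw [← deg_eq N (χ : G → ℂ) (θ : ↥N → ℂ) hR]
      exact hθ.2.1

end Cfsg.Agent.S4553
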