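import Cfsg.Statements.S4558
import Mathlib

set_option autoImplicit false
open Cfsg

namespace Cfsg.Agent.S4558

open Polynomial in
/-- A multiset of `m`-th roots of unity is the value at a primitive root of an integer polynomial
whose value at `1` is the size of the multiset. -/
theorem exists_poly_of_roots_of_unity {m : ℕ} [NeZero m] {ζ : ℂ} (hζ : IsPrimitiveRoot ζ m)
    (S : Multiset ℂ) (hS : ∀ μ ∈ S, μ ^ m = 1) :
    ∃ f : ℤ[X], aeval ζ f = S.sum ∧ f.eval 1 = (Multiset.card S : ℤ) := by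
  induction S using Multiset.induction with
  | empty => exact ⟨0, by simp, by simp⟩
  | cons a S ih =>
    obtain ⟨f, hf1, hf2⟩ := ih (fun μ hμ => hS μ (Multiset.mem_cons_of_mem hμ))
    obtain ⟨i, _, hi⟩ := hζ.eq_pow_of_pow_eq_one (hS a (Multiset.mem_cons_self a S))
    refine ⟨X ^ i + f, ?_, ?_⟩
    · simp [hf1, hi]
    · simp [hf2]; ring

open Polynomial in
theorem prime_dvd_card_of_sum_eq_zero {p : ℕ} [Fact p.Prime] (j : ℕ) (S : Multiset ℂ)
    (hS : ∀ μ ∈ S, μ ^ (p ^ j) = 1) (hsum : S.sum = 0) : p ∣ Multiset.card S := by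
  have hp := (Fact.out : p.Prime)
  rcases Nat.eq_zero_or_pos j with hj | hj
  · subst hj
    have h1 : ∀ μ ∈ S, μ = 1 := fun μ hμ => by simpa using hS μ hμ
    have h2 : S = Multiset.replicate (Multiset.card S) 1 := Multiset.eq_replicate.mpr ⟨rfl, h1⟩
    rw [h2, Multiset.sum_replicate] at hsum
    have h3 : (Multiset.card S : ℂ) = 0 := by simpa using hsum
    have h4 : Multiset.card S = 0 := by exact_mod_cast h3
    rw [h4]; exact dvd_zero p
  · obtain ⟨k, rfl⟩ : ∃ k, j = k + 1 := ⟨j - 1, by omega⟩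
    have hm : NeZero (p ^ (k + 1)) := ⟨pow_ne_zero _ hp.ne_zero⟩
    have hζ : IsPrimitiveRoot (Complex.exp (2 * Real.pi * Complex.I / (p ^ (k + 1) : ℕ))) (p ^ (k + 1)) :=
      Complex.isPrimitiveRoot_exp _ hm.ne
    obtain ⟨f, hf1, hf2⟩ := exists_poly_of_roots_of_unity hζ S hS
    rw [hsum] at hf1
    have hdvd : cyclotomic (p ^ (k + 1)) ℤ ∣ f := by
      rw [cyclotomic_eq_minpoly hζ (Nat.pos_of_ne_zero hm.ne)]
      exact minpoly.isIntegrallyClosed_dvd (hζ.isIntegral (Nat.pos_of_ne_zero hm.ne)) hf1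
    obtain ⟨q, hq⟩ := hdvd
    have h5 : (Multiset.card S : ℤ) = (p : ℤ) * q.eval 1 := by
      rw [← hf2, hq, eval_mul, eval_one_cyclotomic_prime_pow]
    have h6 : (p : ℤ) ∣ (Multiset.card S : ℤ) := ⟨_, h5⟩
    exact_mod_cast h6

/-- Let χ be a character of the finite group G and g an element of p-power order for the prime p. If χ g = 0, then p divides the degree of χ. -/
theorem result {G : Type*} [Group G] [Finite G] (p : ℕ) [Fact p.Prime] (χ : G → ℂ) (hχ : Cfsg.IsCharacter G χ) (g : G) (hg : ∃ j : ℕ, orderOf g = p ^ j) (h0 : χ g = 0) : p ∣ Cfsg.charDegree χ := by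
  obtain ⟨n, ρ, rfl⟩ := hχ
  obtain ⟨j, hj⟩ := hg
  have hdeg : Cfsg.charDegree ρ.character = n := by
    unfold Cfsg.charDegree
    rw [Representation.char_one]
    simp
  rw [hdeg]
  set f : Module.End ℂ (Fin n → ℂ) := ρ g with hf
  have hpow : f ^ (p ^ j) = 1 := by
    rw [hf, ← map_pow, ← hj, pow_orderOf_eq_one, map_one]
  have htr : LinearMap.trace ℂ (Fin n → ℂ) f = f.charpoly.roots.sum :=
    Module.End.trace_eq_sum_roots_charpoly_of_splits (IsAlgClosed.splits _)
  have hcard : Multiset.card f.charpoly.roots = n := by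
    rw [IsAlgClosed.card_roots_eq_natDegree, LinearMap.charpoly_natDegree]
    simp
  have hroots : ∀ μ ∈ f.charpoly.roots, μ ^ (p ^ j) = 1 := by
    intro μ hμ
    have hroot : f.charpoly.IsRoot μ := (Polynomial.mem_roots'.mp hμ).2
    have hev : f.HasEigenvalue μ := (Module.End.hasEigenvalue_iff_isRoot_charpoly f μ).mpr hroot
    obtain ⟨v, hv⟩ := hev.exists_hasEigenvector
    have h1 : (f ^ (p ^ j)) v = μ ^ (p ^ j) • v := hv.pow_apply _
    rw [hpow] at h1
    have h2 : (1 - μ ^ (p ^ j)) • v = 0 := by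
      rw [sub_smul, one_smul, ← h1]; simp
    rcases smul_eq_zero.mp h2 with h3 | h3
    · exact (sub_eq_zero.mp h3).symm
    · exact absurd h3 hv.2
  have h0' : f.charpoly.roots.sum = 0 := by
    rw [← htr]; exact h0
  have := prime_dvd_card_of_sum_eq_zero j f.charpoly.roots hroots h0'
  rwa [hcard] at this

end Cfsg.Agent.S4558
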