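import Cfsg.Statements.S4566
import Mathlib

set_option autoImplicit false
open Cfsg

namespace Cfsg.Agent.S4566

open Representation in
/-- Schur's lemma for central elements: in an irreducible complex representation a central
element acts as a scalar, so the character is multiplied by that scalar. -/
theorem central_scalar {H : Type*} [Group H] {n : ℕ} (τ : Representation ℂ H (Fin n → ℂ))
    (hτ : τ.IsIrreducible) (z : H) (hz : z ∈ Subgroup.center H) :
    ∃ c : ℂ, ∀ h : H, τ.character (h * z) = c * τ.character h := by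
  have := hτ
  let T : IntertwiningMap τ τ := LinearMap.intertwiningMap_of_isIntertwiningMap τ τ (τ z) (by
    intro g v
    have h1 : τ z (τ g v) = τ (z * g) v := by rw [map_mul]; rfl
    have h2 : τ g (τ z v) = τ (g * z) v := by rw [map_mul]; rfl
    rw [h1, h2, (Subgroup.mem_center_iff.mp hz g)])
  obtain ⟨c, hc⟩ :=
    (IsIrreducible.algebraMap_intertwiningMap_bijective_of_isAlgClosed (ρ := τ)).2 T
  refine ⟨c, fun h => ?_⟩
  have h3 : τ z = c • (LinearMap.id : (Fin n → ℂ) →ₗ[ℂ] (Fin n → ℂ)) := by
    refine LinearMap.ext fun v => ?_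
    funext i
    have := congrArg (fun S : IntertwiningMap τ τ => S v i) hc
    simp only [IntertwiningMap.algebraMap_apply] at this
    have h4 : T v = τ z v := rfl
    rw [h4] at this
    rw [← this]
    simp [IntertwiningMap.smul_apply]
  have h5 : τ (h * z) = c • τ h := by
    rw [map_mul, h3]
    refine LinearMap.ext fun v => ?_
    funext i
    simp
  unfold Representation.character
  rw [h5, map_smul, smul_eq_mul]

open scoped ComplexConjugate in
/-- Let N be a central subgroup of the finite group G, ψ a faithful irreducible (hence degree-one) character of N, and χ an irreducible character of G whose restriction to N contains ψ. If g ∈ G and some x ∈ G has commutator x⁻¹ g⁻¹ x g in N but different from 1, then χ g = 0. -/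
theorem result {G : Type*} [Group G] [Fintype G] (N : Subgroup G) [Fintype N] (hN : N ≤ Subgroup.center G) (ψ : Cfsg.IrrCharacter ↥N) (hfaith : ∀ n : ↥N, (ψ : ↥N → ℂ) n = (ψ : ↥N → ℂ) 1 → n = 1) (χ : Cfsg.IrrCharacter G) (hover : Cfsg.classInner (fun n : ↥N => (χ : G → ℂ) n) (ψ : ↥N → ℂ) ≠ 0) (g x : G) (hcomm : x⁻¹ * g⁻¹ * x * g ∈ N) (hne : x⁻¹ * g⁻¹ * x * g ≠ 1) : (χ : G → ℂ) g = 0 := by
  obtain ⟨χ, n, ρ, hρ, rfl⟩ := χ
  obtain ⟨ψ, m, σ, hσ, rfl⟩ := ψ
  simp only at hover hfaith ⊢
  set z : G := x⁻¹ * g⁻¹ * x * g with hz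
  have hzc : z ∈ Subgroup.center G := hN hcomm
  have hzc' : (⟨z, hcomm⟩ : N) ∈ Subgroup.center N := by
    rw [Subgroup.mem_center_iff]
    intro k
    apply Subtype.ext
    simp only [Subgroup.coe_mul]
    exact Subgroup.mem_center_iff.mp hzc k
  obtain ⟨c, hc⟩ := central_scalar ρ hρ z hzc
  obtain ⟨d, hd⟩ := central_scalar σ hσ ⟨z, hcomm⟩ hzc'
  -- chi(g) = c * chi(g)
  have h1 : ρ.character g = c * ρ.character g := by
    have h2 : g = (x⁻¹ * g * x) * z := by
      rw [hz]; group
    have h3 : ρ.character ((x⁻¹ * g * x) * z) = c * ρ.character (x⁻¹ * g * x) := hc _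
    have h4 : ρ.character (x⁻¹ * g * x) = ρ.character g := by
      have := Representation.char_conj ρ g x⁻¹
      simpa using this
    rw [h4, ← h2] at h3
    exact h3
  by_contra hg0
  have hc1 : c = 1 := by
    have : (1 - c) * ρ.character g = 0 := by
      rw [sub_mul, one_mul, ← h1, sub_self]
    rcases mul_eq_zero.mp this with h | h
    · exact (sub_eq_zero.mp h).symm
    · exact absurd h hg0
  -- the sum
  set S : ℂ := ∑ k : N, ρ.character (k : G) * conj (σ.character k) with hS
  have hS0 : S ≠ 0 := by
    intro h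
    apply hover
    unfold Cfsg.classInner
    rw [← hS, h, mul_zero]
  have hS1 : S = c * conj d * S := by
    have h5 : S = ∑ k : N, ρ.character ((k * ⟨z, hcomm⟩ : N) : G) * conj (σ.character (k * ⟨z, hcomm⟩)) := by
      rw [hS]
      exact (Equiv.sum_comp (Equiv.mulRight (⟨z, hcomm⟩ : N))
        (fun k : N => ρ.character (k : G) * conj (σ.character k))).symm
    refine h5.trans ?_
    rw [hS, Finset.mul_sum]
    apply Finset.sum_congr rfl
    intro k _
    rw [hd k]
    have h6 : ρ.character ((k * ⟨z, hcomm⟩ : N) : G) = c * ρ.character (k : G) := hc _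
    rw [h6, map_mul]
    ring
  have hd1 : d = 1 := by
    have h7 : (1 - c * conj d) * S = 0 := by
      rw [sub_mul, one_mul, ← hS1, sub_self]
    rcases mul_eq_zero.mp h7 with h | h
    · rw [hc1, one_mul] at h
      have h8 : conj d = 1 := (sub_eq_zero.mp h).symm
      have := congrArg conj h8
      simpa using this
    · exact absurd h hS0
  have h9 : σ.character (⟨z, hcomm⟩ : N) = σ.character 1 := by
    have := hd 1
    rw [one_mul, hd1, one_mul] at this
    exact this
  have h10 := hfaith _ h9
  apply hne
  have := congrArg Subtype.val h10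
  simpa using this

end Cfsg.Agent.S4566
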