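import Cfsg.Statements.S4571
import Cfsg.Agent.Helper22.BlkRank2
import Cfsg.Agent.Helper22.IrrKer
import Cfsg.Agent.Helper5.BlkQuot
import Cfsg.Agent.Helper24.CharDecomp


set_option autoImplicit false
open Cfsg
open Cfsg.Agent.Helper22 Cfsg.Agent.Helper5 Cfsg.Agent.Helper24

namespace Cfsg.Agent.S4571

/-- Let Q be a normal p-subgroup of the finite group G with G = Q·C_G(Q), and M a maximal ideal of the algebraic integers containing p. Then the principal p-blocks of G and of G/Q have the same p-regular rank (the same number of irreducible Brauer characters). -/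
theorem result {G : Type*} [Group G] [Finite G] (p : ℕ) [Fact p.Prime] (M : Ideal Cfsg.AlgInt) (hM : Cfsg.IsPModular p M) (Q : Subgroup G) [Q.Normal] (hQ : IsPGroup p Q) (hsup : Q ⊔ Subgroup.centralizer (Q : Set G) = ⊤) : Cfsg.blockRank p (Cfsg.principalBlock M G) = Cfsg.blockRank p (Cfsg.principalBlock M (G ⧸ Q)) := by
  classical
  haveI := Fintype.ofFinite G
  haveI : Fintype (G ⧸ Q) := Fintype.ofFinite _
  haveI hMp : M.IsPrime := hM.2.1.isPrime
  have hp : p.Prime := hM.1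
  have hCidx : ∃ k : ℕ, (Subgroup.centralizer (Q : Set G)).index = p ^ k := by
    have h1 : (Subgroup.centralizer (Q : Set G)).relIndex (Q ⊔ Subgroup.centralizer (Q : Set G))
        = (Subgroup.centralizer (Q : Set G)).relIndex Q := Subgroup.relIndex_sup_right Q _
    rw [hsup, Subgroup.relIndex_top_right] at h1
    rw [h1]
    exact hQ.index _
  have hregC : ∀ g : G, ¬ p ∣ orderOf g → g ∈ Subgroup.centralizer (Q : Set G) := by
    intro g hg
    by_contra hnot
    exact hg (singular_of_notMem hp _ hCidx g hnot)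
  have hqb := (quot_blocks hM Q hQ hCidx).1
  obtain ⟨infl, hinfl⟩ : ∃ infl : IrrCharacter (G ⧸ Q) → IrrCharacter G,
      ∀ (ψ : IrrCharacter (G ⧸ Q)) (g : G),
        (infl ψ : G → ℂ) g = (ψ : G ⧸ Q → ℂ) (QuotientGroup.mk g) :=
    ⟨inflIrr (QuotientGroup.mk' Q) (QuotientGroup.mk'_surjective Q), fun ψ g => rfl⟩
  have hcomp : ∀ ψ : IrrCharacter (G ⧸ Q),
      ((ψ : G ⧸ Q → ℂ) ∘ QuotientGroup.mk) = (infl ψ : G → ℂ) :=
    fun ψ => funext fun g => (hinfl ψ g).symm
  have hF3 : ∀ ψ : IrrCharacter (G ⧸ Q),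
      ψ ∈ principalBlock M (G ⧸ Q) ↔ infl ψ ∈ principalBlock M G := by
    intro ψ
    have h1 := hqb ⟨fun _ => 1, Cfsg.Agent.Helper24.isIrrCharacter_one⟩ ψ
    rw [hcomp ψ] at h1
    exact h1
  obtain ⟨Φ, hΦ⟩ : ∃ Φ : (G ⧸ Q → ℂ) →ₗ[ℂ] (G → ℂ),
      ∀ f : G ⧸ Q → ℂ, Φ f = pRegularPart p (f ∘ QuotientGroup.mk) :=
    ⟨(pRegLin G p).comp (LinearMap.funLeft ℂ ℂ (QuotientGroup.mk : G → G ⧸ Q)), fun f => rfl⟩
  -- Φ of a p-regular part
  have hA : ∀ ψ : IrrCharacter (G ⧸ Q),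
      Φ (pRegularPart p (ψ : G ⧸ Q → ℂ)) = pRegularPart p (infl ψ : G → ℂ) := by
    intro ψ
    rw [hΦ]
    funext g
    by_cases hg : p ∣ orderOf g
    · rw [pRegularPart_of_sing p _ hg, pRegularPart_of_sing p _ hg]
    · rw [pRegularPart_of_reg p _ hg, pRegularPart_of_reg p _ hg, hinfl]
      have hq : ¬ p ∣ orderOf (QuotientGroup.mk g : G ⧸ Q) := fun hd =>
        hg (hd.trans (orderOf_map_dvd (QuotientGroup.mk' Q) g))
      show pRegularPart p (ψ : G ⧸ Q → ℂ) (QuotientGroup.mk g) = _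
      rw [pRegularPart_of_reg p _ hq]
  -- uniqueness of p-regular lifts
  have hUL : ∀ g g' : G, ¬ p ∣ orderOf g → ¬ p ∣ orderOf g' →
      (QuotientGroup.mk g : G ⧸ Q) = QuotientGroup.mk g' → g = g' := by
    intro g g' hg hg' hmk
    have hu : g⁻¹ * g' ∈ Q := QuotientGroup.eq.mp hmk
    have hgC := hregC g hg
    have hcomm : Commute g (g⁻¹ * g') :=
      (Subgroup.mem_centralizer_iff.mp hgC (g⁻¹ * g') hu).symm
    have hcomm' : Commute g g' := by
      have h1 : g' = g * (g⁻¹ * g') := by group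
      rw [h1]
      exact (Commute.refl g).mul_right hcomm
    obtain ⟨k, hk⟩ := hQ ⟨g⁻¹ * g', hu⟩
    have hk' : (g⁻¹ * g') ^ (p ^ k) = 1 := by
      have h2 := congrArg Subtype.val hk
      simpa using h2
    have hn : (g⁻¹ * g') ^ (orderOf g * orderOf g') = 1 := by
      rw [(hcomm'.inv_left).mul_pow, inv_pow, pow_mul, pow_orderOf_eq_one, one_pow, inv_one,
        one_mul, mul_comm, pow_mul, pow_orderOf_eq_one, one_pow]
    have hd1 : orderOf (g⁻¹ * g') ∣ orderOf g * orderOf g' := orderOf_dvd_of_pow_eq_one hn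
    have hd2 : orderOf (g⁻¹ * g') ∣ p ^ k := orderOf_dvd_of_pow_eq_one hk'
    have hcop : (orderOf g * orderOf g').Coprime (p ^ k) :=
      Nat.Coprime.pow_right k (Nat.Coprime.mul_left
        ((Nat.Prime.coprime_iff_not_dvd hp).mpr hg).symm
        ((Nat.Prime.coprime_iff_not_dvd hp).mpr hg').symm)
    have h1 : orderOf (g⁻¹ * g') = 1 := Nat.eq_one_of_dvd_coprimes hcop hd1 hd2
    have h2 : g⁻¹ * g' = 1 := orderOf_eq_one_iff.mp h1
    exact inv_mul_eq_one.mp h2
  -- the two spans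
  obtain ⟨SG, hSG⟩ : ∃ SG : Set (G → ℂ), SG =
      (fun χ : IrrCharacter G => pRegularPart p (χ : G → ℂ)) '' principalBlock M G := ⟨_, rfl⟩
  obtain ⟨SQ, hSQ⟩ : ∃ SQ : Set (G ⧸ Q → ℂ), SQ =
      (fun χ : IrrCharacter (G ⧸ Q) => pRegularPart p (χ : G ⧸ Q → ℂ)) ''
        principalBlock M (G ⧸ Q) := ⟨_, rfl⟩
  -- main lemma
  have hML : ∀ χ : IrrCharacter G, χ ∈ principalBlock M G →
      pRegularPart p (χ : G → ℂ) ∈ Submodule.span ℂ (Φ '' SQ) := by
    intro χ hχ
    have hχ' : SameBlock M (fun _ : G => (1:ℂ)) (χ : G → ℂ) := hχ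
    obtain ⟨f, hf⟩ : ∃ f : G ⧸ Q → ℂ, f = fun q => ∑ g : G,
        if (QuotientGroup.mk g : G ⧸ Q) = q ∧ ¬ p ∣ orderOf g then (χ : G → ℂ) g else 0 :=
      ⟨_, rfl⟩
    have hfΦ : Φ f = pRegularPart p (χ : G → ℂ) := by
      rw [hΦ]
      funext g
      by_cases hg : p ∣ orderOf g
      · rw [pRegularPart_of_sing p _ hg, pRegularPart_of_sing p _ hg]
      · rw [pRegularPart_of_reg p _ hg, pRegularPart_of_reg p _ hg, hf]
        show (∑ g' : G, if (QuotientGroup.mk g' : G ⧸ Q) = QuotientGroup.mk g ∧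
          ¬ p ∣ orderOf g' then (χ : G → ℂ) g' else 0) = (χ : G → ℂ) g
        rw [Finset.sum_eq_single g]
        · rw [if_pos ⟨rfl, hg⟩]
        · intro g' _ hne
          have hnc : ¬ ((QuotientGroup.mk g' : G ⧸ Q) = QuotientGroup.mk g ∧
              ¬ p ∣ orderOf g') := by
            rintro ⟨h1, h2⟩
            exact hne (hUL g' g h2 hg h1)
          rw [if_neg hnc]
        · intro h
          exact absurd (Finset.mem_univ g) h
    have hfcl : IsClassFunction (G ⧸ Q) f := by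
      intro q y
      obtain ⟨y0, rfl⟩ := QuotientGroup.mk_surjective y
      rw [hf]
      show (∑ g : G, if (QuotientGroup.mk g : G ⧸ Q) =
          QuotientGroup.mk y0 * q * (QuotientGroup.mk y0)⁻¹ ∧ ¬ p ∣ orderOf g
          then (χ : G → ℂ) g else 0) =
        ∑ g : G, if (QuotientGroup.mk g : G ⧸ Q) = q ∧ ¬ p ∣ orderOf g
          then (χ : G → ℂ) g else 0
      refine (Fintype.sum_equiv (MulAut.conj y0).toEquiv _ _ (fun g => ?_)).symm
      show (if (QuotientGroup.mk g : G ⧸ Q) = q ∧ ¬ p ∣ orderOf g then (χ : G → ℂ) g else 0) =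
        if (QuotientGroup.mk (y0 * g * y0⁻¹) : G ⧸ Q) =
          QuotientGroup.mk y0 * q * (QuotientGroup.mk y0)⁻¹ ∧ ¬ p ∣ orderOf (y0 * g * y0⁻¹)
        then (χ : G → ℂ) (y0 * g * y0⁻¹) else 0
      have hiff : ((QuotientGroup.mk (y0 * g * y0⁻¹) : G ⧸ Q) =
          QuotientGroup.mk y0 * q * (QuotientGroup.mk y0)⁻¹ ∧ ¬ p ∣ orderOf (y0 * g * y0⁻¹)) ↔
          ((QuotientGroup.mk g : G ⧸ Q) = q ∧ ¬ p ∣ orderOf g) := by
        rw [orderOf_conj']
        constructor
        · rintro ⟨h1, h2⟩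
          refine ⟨?_, h2⟩
          rw [QuotientGroup.mk_mul, QuotientGroup.mk_mul, QuotientGroup.mk_inv] at h1
          exact mul_left_cancel (mul_right_cancel h1)
        · rintro ⟨h1, h2⟩
          refine ⟨?_, h2⟩
          rw [QuotientGroup.mk_mul, QuotientGroup.mk_mul, QuotientGroup.mk_inv, h1]
      by_cases hc : (QuotientGroup.mk g : G ⧸ Q) = q ∧ ¬ p ∣ orderOf g
      · rw [if_pos hc, if_pos (hiff.mpr hc), irr_conj χ g y0]
      · rw [if_neg hc, if_neg (fun h => hc (hiff.mp h))]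
    obtain ⟨a, ha⟩ : ∃ a : IrrCharacter (G ⧸ Q) → ℂ,
        a = fun ψ : IrrCharacter (G ⧸ Q) => classInner f (ψ : G ⧸ Q → ℂ) := ⟨_, rfl⟩
    have hfsum : f = ∑ ψ : IrrCharacter (G ⧸ Q), a ψ • (ψ : G ⧸ Q → ℂ) := by
      rw [ha]
      exact classFunction_eq_sum_irr f hfcl
    have h1 : pRegularPart p (χ : G → ℂ) =
        ∑ ψ : IrrCharacter (G ⧸ Q), a ψ • pRegularPart p (infl ψ : G → ℂ) := by
      rw [← hfΦ, congrArg Φ hfsum, map_sum]
      refine Finset.sum_congr rfl fun ψ _ => ?_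
      rw [map_smul, hΦ, hcomp ψ]
    obtain ⟨T₁, hT₁⟩ : ∃ T₁ : G → ℂ, T₁ = ∑ ψ ∈ Finset.univ.filter
        (fun ψ : IrrCharacter (G ⧸ Q) => ψ ∈ principalBlock M (G ⧸ Q)),
        a ψ • pRegularPart p (infl ψ : G → ℂ) := ⟨_, rfl⟩
    obtain ⟨T₂, hT₂⟩ : ∃ T₂ : G → ℂ, T₂ = ∑ ψ ∈ Finset.univ.filter
        (fun ψ : IrrCharacter (G ⧸ Q) => ¬ ψ ∈ principalBlock M (G ⧸ Q)),
        a ψ • pRegularPart p (infl ψ : G → ℂ) := ⟨_, rfl⟩
    have h2 : pRegularPart p (χ : G → ℂ) = T₁ + T₂ := by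
      rw [h1, hT₁, hT₂, Finset.sum_filter_add_sum_filter_not]
    have hT2cl : IsClassFunction G T₂ := by
      intro g h
      rw [hT₂]
      simp only [Finset.sum_apply, Pi.smul_apply]
      refine Finset.sum_congr rfl fun ψ _ => ?_
      rw [pRegularPart_conj p (irr_isClassFunction (infl ψ)) g h]
    have hT2 : T₂ = 0 := by
      refine eq_zero_of_forall_classInner_irr_eq_zero hT2cl (fun ψ' => ?_)
      by_cases hψ' : ψ' ∈ principalBlock M G
      · have hψ'' : SameBlock M (fun _ : G => (1:ℂ)) (ψ' : G → ℂ) := hψ'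
        rw [hT₂, classInner_sum_smul]
        refine Finset.sum_eq_zero fun ψ hψ => ?_
        have hψn : ψ ∉ principalBlock M (G ⧸ Q) := (Finset.mem_filter.mp hψ).2
        have hn : ¬ SameBlock M (infl ψ : G → ℂ) (ψ' : G → ℂ) := by
          intro hs
          apply hψn
          rw [hF3]
          exact sameBlock_trans' hψ'' (sameBlock_symm hs)
        rw [classInner_pRegularPart_of_not_sameBlock hM (infl ψ) ψ' hn, mul_zero]
      · have e : T₂ = pRegularPart p (χ : G → ℂ) - T₁ := by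
          rw [h2, add_sub_cancel_left]
        rw [e, classInner_sub', hT₁, classInner_sum_smul]
        have hn : ¬ SameBlock M (χ : G → ℂ) (ψ' : G → ℂ) :=
          fun hs => hψ' (sameBlock_trans' hχ' hs)
        rw [classInner_pRegularPart_of_not_sameBlock hM χ ψ' hn, zero_sub, neg_eq_zero]
        refine Finset.sum_eq_zero fun ψ hψ => ?_
        have hψB : SameBlock M (fun _ : G => (1:ℂ)) (infl ψ : G → ℂ) :=
          (hF3 ψ).mp (Finset.mem_filter.mp hψ).2
        have hn' : ¬ SameBlock M (infl ψ : G → ℂ) (ψ' : G → ℂ) :=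
          fun hs => hψ' (sameBlock_trans' hψB hs)
        rw [classInner_pRegularPart_of_not_sameBlock hM (infl ψ) ψ' hn', mul_zero]
    rw [h2, hT2, add_zero, hT₁]
    refine Submodule.sum_mem _ fun ψ hψ => Submodule.smul_mem _ _ (Submodule.subset_span ?_)
    refine ⟨pRegularPart p (ψ : G ⧸ Q → ℂ), ?_, hA ψ⟩
    rw [hSQ]
    exact ⟨ψ, (Finset.mem_filter.mp hψ).2, rfl⟩
  -- the span of G is the image of the span of G/Q
  have hmap : Submodule.span ℂ SG = (Submodule.span ℂ SQ).map Φ := by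
    rw [Submodule.map_span]
    apply le_antisymm
    · rw [Submodule.span_le]
      intro x hx
      rw [hSG] at hx
      obtain ⟨χ, hχ, rfl⟩ := hx
      exact hML χ hχ
    · refine Submodule.span_mono ?_
      rintro x ⟨y, hy, rfl⟩
      rw [hSQ] at hy
      obtain ⟨ψ, hψ, rfl⟩ := hy
      rw [hSG]
      exact ⟨infl ψ, (hF3 ψ).mp hψ, (hA ψ).symm⟩
  -- injectivity on the span
  have hsupp : ∀ f ∈ Submodule.span ℂ SQ, ∀ q : G ⧸ Q, p ∣ orderOf q → f q = 0 := by
    intro f hf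
    refine Submodule.span_induction
      (p := fun f _ => ∀ q : G ⧸ Q, p ∣ orderOf q → f q = 0) ?_ ?_ ?_ ?_ hf
    · intro x hx q hq
      rw [hSQ] at hx
      obtain ⟨ψ, -, rfl⟩ := hx
      exact pRegularPart_of_sing p _ hq
    · intro q hq
      rfl
    · intro x y _ _ hx hy q hq
      rw [Pi.add_apply, hx q hq, hy q hq, add_zero]
    · intro c x _ hx q hq
      rw [Pi.smul_apply, hx q hq, smul_zero]
  have hinj : Function.Injective (Φ.domRestrict (Submodule.span ℂ SQ)) := by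
    rw [injective_iff_map_eq_zero]
    intro x hx
    apply Subtype.ext
    have hx' : Φ (x : G ⧸ Q → ℂ) = 0 := hx
    funext q
    by_cases hq : p ∣ orderOf q
    · exact hsupp x.1 x.2 q hq
    · obtain ⟨g, rfl, hg⟩ := exists_regular_lift hp Q q hq
      have h1 := congrFun hx' g
      rw [hΦ, pRegularPart_of_reg p _ hg] at h1
      exact h1
  have hrange : LinearMap.range (Φ.domRestrict (Submodule.span ℂ SQ)) =
      (Submodule.span ℂ SQ).map Φ := LinearMap.range_domRestrict _ _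
  have hfin := LinearMap.finrank_range_of_inj hinj
  rw [hrange, ← hmap] at hfin
  unfold blockRank
  rw [← hSG, ← hSQ]
  exact hfin

end Cfsg.Agent.S4571
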