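import Cfsg.Statements.S4574
import Cfsg.Agent.Helper22.GalChar2
import Cfsg.Agent.Helper22.FrobSchur2

set_option autoImplicit false
open Cfsg
open Cfsg.Agent.Helper22 Cfsg.Agent.Helper24

namespace Cfsg.Agent.S4574

theorem gallagher_aux {G : Type*} [Group G] [Fintype G] [DecidableEq G] (χ : G → ℂ)
    (hχ : Cfsg.IsIrrCharacter G χ) (Z Z0 : Finset G)
    (hZ : ∀ g, g ∈ Z ↔ ‖χ g‖ = (Cfsg.charDegree χ : ℝ)) (hZ0 : ∀ g, g ∈ Z0 ↔ χ g = 0) :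
    (Cfsg.charDegree χ ^ 2 - 1) * Z.card ≤ Z0.card ∧
    ((∀ g : G, ‖χ g‖ = 0 ∨ ‖χ g‖ = 1 ∨ ‖χ g‖ = (Cfsg.charDegree χ : ℝ)) →
      (Cfsg.charDegree χ ^ 2 - 1) * Z.card = Z0.card) := by
  have hdpos : 0 < Cfsg.charDegree χ := (charDegree_irr (⟨χ, hχ⟩ : IrrCharacter G)).2
  obtain ⟨d, hd⟩ : ∃ d : ℕ, d = Cfsg.charDegree χ := ⟨_, rfl⟩
  rw [← hd] at hdpos hZ ⊢
  have hchar : IsCharacter G χ := isCharacter_of_isIrrCharacter hχ
  have hsum : ∑ g : G, ‖χ g‖ ^ 2 = (Nat.card G : ℝ) :=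
    irr_sum_normSq (⟨χ, hχ⟩ : IrrCharacter G)
  have hd1' : (1 : ℝ) ≤ (d : ℝ) := by exact_mod_cast hdpos
  have hdisj : Disjoint Z Z0 := by
    rw [Finset.disjoint_left]
    intro g hg hg0
    have h1 := (hZ g).mp hg
    rw [(hZ0 g).mp hg0, norm_zero] at h1
    linarith
  obtain ⟨A, hAdef⟩ : ∃ A : Finset G, A = Finset.univ \ (Z ∪ Z0) := ⟨_, rfl⟩
  have hAmem : ∀ g, g ∈ A ↔ ‖χ g‖ ≠ (d : ℝ) ∧ χ g ≠ 0 := by
    intro g
    rw [hAdef, Finset.mem_sdiff, Finset.mem_union, not_or, hZ, hZ0]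
    simp
  have hstab : ∀ g ∈ A, ∀ k : (ZMod (Nat.card G))ˣ,
      g ^ (k : ZMod (Nat.card G)).val ∈ A := by
    intro g hg k
    rw [hAmem] at hg ⊢
    refine ⟨fun h => hg.1 ?_, fun h => hg.2 ((char_pow_eq_zero_iff hchar g k).mp h)⟩
    have h1 : ‖χ (g ^ (k : ZMod (Nat.card G)).val)‖ ^ 2 = (((d : ℤ) ^ 2 : ℤ) : ℝ) := by
      rw [h]; push_cast; ring
    have h2 := char_pow_normSq_eq hchar g ((d : ℤ) ^ 2) k 1 h1
    rw [pow_unit_one] at h2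
    have h3 : ‖χ g‖ ^ 2 = (d : ℝ) ^ 2 := by rw [h2]; push_cast; ring
    exact (sq_eq_sq₀ (norm_nonneg _) (Nat.cast_nonneg d)).mp h3
  have hge := sum_normSq_ge_card_of_stable hchar A hstab (fun g hg => ((hAmem g).mp hg).2)
  have hsplit : ∑ g : G, ‖χ g‖ ^ 2 =
      ∑ g ∈ A, ‖χ g‖ ^ 2 + (∑ g ∈ Z, ‖χ g‖ ^ 2 + ∑ g ∈ Z0, ‖χ g‖ ^ 2) := by
    rw [← Finset.sum_union hdisj, hAdef, Finset.sum_sdiff (Finset.subset_univ _)]
  have hZsum : ∑ g ∈ Z, ‖χ g‖ ^ 2 = (Z.card : ℝ) * (d : ℝ) ^ 2 := by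
    rw [Finset.sum_congr rfl (fun g hg => by rw [(hZ g).mp hg]), Finset.sum_const, nsmul_eq_mul]
  have hZ0sum : ∑ g ∈ Z0, ‖χ g‖ ^ 2 = 0 := by
    refine Finset.sum_eq_zero fun g hg => ?_
    rw [(hZ0 g).mp hg, norm_zero]; norm_num
  have hcard : (A.card : ℝ) = (Nat.card G : ℝ) - (Z.card : ℝ) - (Z0.card : ℝ) := by
    have h1 : A.card + (Z ∪ Z0).card = Fintype.card G := by
      rw [hAdef, Finset.card_sdiff_add_card_eq_card (Finset.subset_univ _), Finset.card_univ]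
    rw [Finset.card_union_of_disjoint hdisj] at h1
    rw [Nat.card_eq_fintype_card, ← h1]
    push_cast; ring
  have hcastd : ((d ^ 2 - 1 : ℕ) : ℝ) = (d : ℝ) ^ 2 - 1 := by
    rw [Nat.cast_sub (Nat.one_le_pow _ _ hdpos)]; push_cast; ring
  constructor
  · have h : ((d ^ 2 - 1 : ℕ) : ℝ) * (Z.card : ℝ) ≤ (Z0.card : ℝ) := by
      rw [hcastd]; nlinarith
    exact_mod_cast h
  · intro hall
    have hA1 : ∑ g ∈ A, ‖χ g‖ ^ 2 = (A.card : ℝ) := by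
      have h1 : ∀ g ∈ A, ‖χ g‖ ^ 2 = (1 : ℝ) := by
        intro g hg
        obtain ⟨hg1, hg2⟩ := (hAmem g).mp hg
        rcases hall g with h | h | h
        · exact absurd (norm_eq_zero.mp h) hg2
        · rw [h]; norm_num
        · exact absurd h hg1
      rw [Finset.sum_congr rfl h1, Finset.sum_const, nsmul_eq_mul, mul_one]
    have h : ((d ^ 2 - 1 : ℕ) : ℝ) * (Z.card : ℝ) = (Z0.card : ℝ) := by
      rw [hcastd]; nlinarith
    exact_mod_cast h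


/-- Let χ be an irreducible character of the finite group G, of degree d, and let Z(χ) be the set of elements g with |χ g| = d (the centre of χ). Then χ vanishes on at least (d ^ 2 - 1) · |Z(χ)| elements of G, with equality when every value |χ g| is 0, 1 or d. -/
theorem result {G : Type*} [Group G] [Fintype G] [DecidableEq G] (χ : G → ℂ) (hχ : Cfsg.IsIrrCharacter G χ) : (Cfsg.charDegree χ ^ 2 - 1) * (Finset.univ.filter (fun g : G => ‖χ g‖ = (Cfsg.charDegree χ : ℝ))).card ≤ (Finset.univ.filter (fun g : G => χ g = 0)).card ∧ ((∀ g : G, ‖χ g‖ = 0 ∨ ‖χ g‖ = 1 ∨ ‖χ g‖ = (Cfsg.charDegree χ : ℝ)) → (Cfsg.charDegree χ ^ 2 - 1) * (Finset.univ.filter (fun g : G => ‖χ g‖ = (Cfsg.charDegree χ : ℝ))).card = (Finset.univ.filter (fun g : G => χ g = 0)).card) := by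
  exact gallagher_aux χ hχ _ _ (fun g => by simp) (fun g => by simp)

end Cfsg.Agent.S4574
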