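import Cfsg.Statements.S4582
import Mathlib

set_option autoImplicit false
open Cfsg

namespace Cfsg.Agent.S4582

open Subgroup in
theorem aux {G : Type*} [Group G] [Finite G] (N : Subgroup G) [N.Normal] (Pg : Subgroup G)
    (h2 : IsPGroup 2 Pg) (hidx : Odd Pg.index)
    (hP : ∀ x ∈ Pg, x ^ 2 ∈ (Pg ⊓ N) ⊔ ⁅Pg, Pg⁆)
    (hQ : ∀ x ∈ Pg ⊓ N, x ^ 2 ∈ ⁅Pg ⊓ N, Pg ⊓ N⁆)
    (hodd : Odd (Nat.card (Abelianization N))) :
    ∀ x ∈ Pg, x ^ 2 ∈ ⁅Pg, Pg⁆ := by
  classical
  intro x hx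
  set K : Subgroup G := N ⊔ Pg with hK
  have hPK : Pg ≤ K := le_sup_right
  have hNK : N ≤ K := le_sup_left
  set PK : Subgroup K := Pg.subgroupOf K with hPKdef
  let φ : PK →* Abelianization PK := Abelianization.of
  let τ : K →* Abelianization PK := MonoidHom.transfer φ
  have hcomm_le : ⁅Pg, Pg⁆ ≤ Pg := by
    rw [Subgroup.commutator_le]
    intro a ha b hb
    rw [commutatorElement_def]
    exact Pg.mul_mem (Pg.mul_mem (Pg.mul_mem ha hb) (Pg.inv_mem ha)) (Pg.inv_mem hb)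
  -- F1: kernel of φ
  have F1 : ∀ y : PK, φ y = 1 ↔ ((y : K) : G) ∈ ⁅Pg, Pg⁆ := by
    intro y
    rw [← MonoidHom.mem_ker, Abelianization.ker_of]
    let ι : PK →* G := K.subtype.comp PK.subtype
    have hι : Function.Injective ι :=
      (Subgroup.subtype_injective K).comp (Subgroup.subtype_injective PK)
    have htop : (⊤ : Subgroup PK).map ι = Pg := by
      ext g
      constructor
      · rintro ⟨y, -, rfl⟩
        exact y.2
      · intro hg
        exact ⟨⟨⟨g, hPK hg⟩, hg⟩, Subgroup.mem_top _, rfl⟩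
    have hmap : (_root_.commutator PK).map ι = ⁅Pg, Pg⁆ := by
      rw [_root_.commutator_def, Subgroup.map_commutator, htop]
    rw [← hmap]
    exact (Subgroup.mem_map_iff_mem hι).symm
  -- F2: the target is a 2-group
  have F2 : ∀ (a : Abelianization PK) (m : ℕ), Odd m → a ^ m = 1 → a = 1 := by
    intro a m hm ha
    obtain ⟨y, rfl⟩ := QuotientGroup.mk_surjective a
    obtain ⟨k, hk⟩ := h2 ⟨((y : K) : G), y.2⟩
    have hk' : y ^ 2 ^ k = 1 := by
      apply Subtype.ext; apply Subtype.ext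
      have := congrArg Subtype.val hk
      simpa using this
    have h1 : (φ y) ^ 2 ^ k = 1 := by rw [← map_pow, hk', map_one]
    have h3 : orderOf (φ y) ∣ m := orderOf_dvd_of_pow_eq_one ha
    have h4 : orderOf (φ y) ∣ 2 ^ k := orderOf_dvd_of_pow_eq_one h1
    have h5 : Nat.Coprime m (2 ^ k) :=
      Nat.Coprime.pow_right k (Nat.Coprime.symm (Nat.coprime_two_left.mpr hm))
    have h6 : orderOf (φ y) = 1 := Nat.eq_one_of_dvd_coprimes h5 h3 h4
    exact orderOf_eq_one_iff.mp h6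
  -- F4: τ kills N
  have F4 : ∀ n : K, (n : G) ∈ N → τ n = 1 := by
    intro n hn
    let f : N →* Abelianization PK := τ.comp (Subgroup.inclusion hNK)
    have h1 : f ⟨n, hn⟩ = τ n := rfl
    rw [← h1]
    have h3 : f ⟨n, hn⟩ = Abelianization.lift f (Abelianization.of ⟨n, hn⟩) := by simp
    rw [h3]
    apply F2 _ (Nat.card (Abelianization N)) hodd
    rw [← map_pow, pow_card_eq_one', map_one]
  -- F5: τ kills the commutator subgroup of P
  have F5 : ∀ d : K, (d : G) ∈ ⁅Pg, Pg⁆ → τ d = 1 := by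
    intro d hd
    have h1 : d ∈ _root_.commutator K := by
      have htop : (⊤ : Subgroup K).map K.subtype = K := by
        rw [← MonoidHom.range_eq_map, Subgroup.range_subtype]
      have hmap : (_root_.commutator K).map K.subtype = ⁅K, K⁆ := by
        rw [_root_.commutator_def, Subgroup.map_commutator, htop]
      have h3 : (d : G) ∈ ⁅K, K⁆ := Subgroup.commutator_mono hPK hPK hd
      rw [← hmap] at h3
      exact (Subgroup.mem_map_iff_mem (Subgroup.subtype_injective K)).mp h3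
    exact Abelianization.commutator_subset_ker τ h1
  -- the main computation for one factor
  have claim : ∀ (g : K) (hg : (g : G) ∈ Pg) (t : K) (k : ℕ) (h : t⁻¹ * g ^ k * t ∈ PK),
      φ ⟨t⁻¹ * g ^ k * t, h⟩ ^ 2 = φ ⟨g, hg⟩ ^ (2 * k) := by
    intro g hg t k h
    obtain ⟨n, hn, p, hp, hnp⟩ := Subgroup.mem_sup_of_normal_left.mp t.2
    have he : (t : G)⁻¹ * (g : G) ^ k * (t : G) ∈ Pg := h
    set y : G := n⁻¹ * (g : G) ^ k * n with hy
    have hyP : y ∈ Pg := by
      have : y = p * ((t : G)⁻¹ * (g : G) ^ k * (t : G)) * p⁻¹ := by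
        rw [hy, ← hnp]; group
      rw [this]
      exact Pg.mul_mem (Pg.mul_mem hp he) (Pg.inv_mem hp)
    set c : G := ((g : G) ^ k)⁻¹ * y with hc
    have hcP : c ∈ Pg := Pg.mul_mem (Pg.inv_mem (Pg.pow_mem hg k)) hyP
    have hcN : c ∈ N := by
      have : c = (((g : G) ^ k)⁻¹ * n⁻¹ * (((g : G) ^ k)⁻¹)⁻¹) * n := by
        rw [hc, hy]; group
      rw [this]
      exact N.mul_mem (Subgroup.Normal.conj_mem inferInstance _ (N.inv_mem hn) _) hn
    let gP : PK := ⟨g, hg⟩
    let pP : PK := ⟨⟨p, hPK hp⟩, hp⟩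
    let cP : PK := ⟨⟨c, hPK hcP⟩, hcP⟩
    have hdecomp : (⟨t⁻¹ * g ^ k * t, h⟩ : PK) = pP⁻¹ * (gP ^ k * cP) * pP := by
      apply Subtype.ext; apply Subtype.ext
      simp only [Subgroup.coe_mul, Subgroup.coe_inv, Subgroup.coe_pow, gP, pP, cP]
      rw [hc, hy, ← hnp]; group
    have hc2 : φ cP ^ 2 = 1 := by
      rw [← map_pow, F1]
      have h1 : c ^ 2 ∈ ⁅Pg ⊓ N, Pg ⊓ N⁆ := hQ c ⟨hcP, hcN⟩
      have h2 : c ^ 2 ∈ ⁅Pg, Pg⁆ := Subgroup.commutator_mono inf_le_left inf_le_left h1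
      simpa [cP] using h2
    rw [hdecomp, map_mul, map_mul, map_mul, map_inv, map_pow]
    have : (φ pP)⁻¹ * (φ gP ^ k * φ cP) * φ pP = φ gP ^ k * φ cP := by
      rw [mul_comm, mul_inv_cancel_left]
    rw [this, mul_pow, hc2, mul_one, ← pow_mul, mul_comm]
  -- F6
  have F6 : ∀ (g : K) (hg : (g : G) ∈ Pg), τ g ^ 2 = φ ⟨g, hg⟩ ^ (2 * PK.index) := by
    intro g hg
    have : Fintype (Quotient (MulAction.orbitRel (zpowers g) (K ⧸ PK))) := Fintype.ofFinite _
    have h1 : τ g = _ := MonoidHom.transfer_eq_prod_quotient_orbitRel_zpowers_quot φ g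
    rw [h1, ← Finset.prod_pow]
    rw [Finset.prod_congr rfl (fun q _ => claim g hg q.out.out _ _)]
    rw [Finset.prod_pow_eq_pow_sum, ← Finset.mul_sum, ← Subgroup.index_eq_sum_minimalPeriod]
  -- conclusion
  let xK : K := ⟨x, hPK hx⟩
  have hle : (Pg ⊓ N) ⊔ ⁅Pg, Pg⁆ ≤ τ.ker.map K.subtype := by
    apply sup_le
    · intro q hq
      exact ⟨⟨q, hNK hq.2⟩, F4 _ hq.2, rfl⟩
    · intro d hd
      exact ⟨⟨d, hPK (hcomm_le hd)⟩, F5 _ hd, rfl⟩
  have h1 : τ (xK ^ 2) = 1 := by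
    obtain ⟨y, hy, hyx⟩ := hle (hP x hx)
    have : y = xK ^ 2 := by
      apply Subtype.ext
      simpa [xK] using hyx
    rw [← this]; exact hy
  have h2 := F6 xK hx
  rw [map_pow, h2] at h1
  have h3 : (φ (⟨xK, hx⟩ ^ 2)) ^ PK.index = 1 := by
    rw [map_pow, ← pow_mul]; exact h1
  have hidx' : Odd PK.index := by
    have hdvd : PK.index ∣ Pg.index := Subgroup.relIndex_dvd_index_of_le hPK
    exact Odd.of_dvd_nat hidx hdvd
  have h4 := F2 _ _ hidx' h3
  rw [F1] at h4
  simpa [xK] using h4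

/-- Let N be a normal subgroup of the finite group G, P a Sylow 2-subgroup of G and Q = P ∩ N. Suppose that P/QP' and Q/Q' are elementary abelian (every square of an element of P lies in the subgroup generated by Q and the derived subgroup of P, and every square of an element of Q lies in the derived subgroup of Q), and that the commutator factor group N/N' has odd order. Then P/P' is elementary abelian. -/
theorem result {G : Type*} [Group G] [Finite G] (N : Subgroup G) [N.Normal] (P : Sylow 2 G)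
    (hP : ∀ x ∈ (P : Subgroup G), x ^ 2 ∈ ((P : Subgroup G) ⊓ N) ⊔ ⁅(P : Subgroup G), (P : Subgroup G)⁆)
    (hQ : ∀ x ∈ (P : Subgroup G) ⊓ N, x ^ 2 ∈ ⁅(P : Subgroup G) ⊓ N, (P : Subgroup G) ⊓ N⁆)
    (hodd : Odd (Nat.card (Abelianization N))) :
    ∀ x ∈ (P : Subgroup G), x ^ 2 ∈ ⁅(P : Subgroup G), (P : Subgroup G)⁆ := by
  have hidx : Odd (P : Subgroup G).index := by
    have := P.not_dvd_index
    exact Nat.not_even_iff_odd.mp (fun h => this (even_iff_two_dvd.mp h))
  exact aux N (P : Subgroup G) P.isPGroup' hidx hP hQ hodd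

end Cfsg.Agent.S4582
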