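import Cfsg.Statements.S4602
import Cfsg.Agent.Helper23.PSolv

set_option autoImplicit false
open Cfsg

namespace Cfsg.Agent.S4602

open Cfsg.Agent.Helper23

/-- Let G be a finite p-solvable group and q a prime different from p. Some Sylow p-subgroup of G normalizes some Sylow q-subgroup of G if and only if q does not divide the order of G/O_{p'}(G), the quotient by the largest normal subgroup of order prime to p. -/
theorem result {G : Type*} [Group G] [Finite G] (p q : ℕ) [Fact p.Prime] [Fact q.Prime] (hpq : p ≠ q) (hsolv : Cfsg.IsPSolvable p G) :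
    (∃ (P : Sylow p G) (Q : Sylow q G), (P : Subgroup G) ≤ Subgroup.normalizer ((Q : Subgroup G) : Set G)) ↔ ¬ q ∣ (Cfsg.pPrimeCore p G).index := by
  set N := Cfsg.pPrimeCore p G with hN
  have hNn : N.Normal := pPrimeCore_normal_fin p
  have hNc : (Nat.card N).Coprime p := pPrimeCore_coprime p
  constructor
  · rintro ⟨P, Q, hPQ⟩
    -- pass to the quotient
    set π := QuotientGroup.mk' N with hπ
    have hπs : Function.Surjective π := QuotientGroup.mk'_surjective N
    have hsol' : IsPSolvable p (G ⧸ N) := isPSolvable_quotient hsolv N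
    have hbot : pPrimeCore p (G ⧸ N) = ⊥ := pPrimeCore_quotient_pPrimeCore p
    have hHH := hall_higman hsol' hbot
    set V := pCore p (G ⧸ N) with hV
    have hVn : V.Normal := pCore_normal_fin p
    have hVp : IsPGroup p V := pCore_isPGroup p
    have hVP : V ≤ (P : Subgroup G).map π := by
      have := le_sylow_of_normal hVn hVp (P.mapSurjective hπs)
      rwa [Sylow.coe_mapSurjective] at this
    have hQp : IsPGroup q ((Q : Subgroup G).map π) := Q.2.map π
    have hdisj : Disjoint V ((Q : Subgroup G).map π) := IsPGroup.disjoint_of_ne p q hpq _ _ hVp hQp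
    have hQV : (Q : Subgroup G).map π ≤ Subgroup.centralizer (V : Set (G ⧸ N)) := by
      rintro x hx
      rw [Subgroup.mem_centralizer_iff]
      intro v hv
      -- v * x * v⁻¹ * x⁻¹ ∈ V ⊓ Q̄
      have h1 : v * x * v⁻¹ ∈ (Q : Subgroup G).map π := by
        obtain ⟨a, ha, rfl⟩ := hVP hv
        obtain ⟨b, hb, rfl⟩ := hx
        refine ⟨a * b * a⁻¹, ?_, by simp⟩
        have := (Subgroup.mem_normalizer_iff.mp (hPQ ha)) b
        exact this.mp hb
      have h2 : x * v⁻¹ * x⁻¹ ∈ V := hVn.conj_mem _ (V.inv_mem hv) x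
      have h3 : v * x * v⁻¹ * x⁻¹ ∈ V := by
        have : v * x * v⁻¹ * x⁻¹ = v * (x * v⁻¹ * x⁻¹) := by group
        rw [this]; exact V.mul_mem hv h2
      have h4 : v * x * v⁻¹ * x⁻¹ ∈ (Q : Subgroup G).map π :=
        Subgroup.mul_mem _ h1 (Subgroup.inv_mem _ hx)
      have h5 : v * x * v⁻¹ * x⁻¹ = 1 := by
        have := hdisj.le_bot ⟨h3, h4⟩
        exact Subgroup.mem_bot.mp this
      have : v * x = x * v := by
        have h6 : v * x = (v * x * v⁻¹ * x⁻¹) * (x * v) := by group
        rw [h6, h5, one_mul]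
      exact this
    have hQbot : (Q : Subgroup G).map π = ⊥ := by
      rw [eq_bot_iff]
      intro x hx
      exact hdisj.le_bot ⟨hHH (hQV hx), hx⟩
    have hQN : (Q : Subgroup G) ≤ N := by
      intro x hx
      have : π x ∈ (Q : Subgroup G).map π := Subgroup.mem_map_of_mem _ hx
      rw [hQbot, Subgroup.mem_bot, hπ, QuotientGroup.mk'_apply, QuotientGroup.eq_one_iff] at this
      exact this
    intro hdvd
    exact Q.not_dvd_index (hdvd.trans (Subgroup.index_dvd_of_le hQN))
  · intro hq
    obtain ⟨Q⟩ : Nonempty (Sylow q G) := inferInstance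
    have hQN : (Q : Subgroup G) ≤ N := sylow_le_of_normal_of_not_dvd_index Q hNn hq
    set NQ := Subgroup.normalizer ((Q : Subgroup G) : Set G) with hNQ
    have hfr : NQ ⊔ N = ⊤ := Sylow.normalizer_sup_eq_top' Q hQN
    -- index of NQ divides card N
    have h1 : Nat.card G = Nat.card N * N.relIndex NQ := by
      have := card_eq_card_mul_relIndex (le_sup_right : N ≤ NQ ⊔ N)
      rw [Subgroup.relIndex_sup_right] at this
      rw [← this, hfr]; exact (Subgroup.card_top).symm
    have h2 : NQ.index ∣ Nat.card N := by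
      have h3 : Nat.card NQ * NQ.index = Nat.card G := Subgroup.card_mul_index NQ
      have h4 : N.relIndex NQ ∣ Nat.card NQ := Subgroup.relIndex_dvd_card N NQ
      obtain ⟨c, hc⟩ := h4
      have h5 : Nat.card NQ * NQ.index = N.relIndex NQ * (c * NQ.index) := by rw [← mul_assoc, ← hc]
      have h6 : N.relIndex NQ * (c * NQ.index) = N.relIndex NQ * Nat.card N := by
        rw [← h5, h3, h1, mul_comm]
      have hpos : 0 < N.relIndex NQ := by
        rcases Nat.eq_zero_or_pos (N.relIndex NQ) with h0 | h0
        · rw [h0, mul_zero] at h1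
          exact absurd h1 Nat.card_pos.ne'
        · exact h0
      have h7 := Nat.eq_of_mul_eq_mul_left hpos h6
      exact Dvd.intro_left c h7
    have h3 : ¬ p ∣ NQ.index := by
      intro hp
      have := hp.trans h2
      have h4 : p ∣ Nat.gcd (Nat.card N) p := Nat.dvd_gcd this dvd_rfl
      rw [hNc.gcd_eq_one] at h4
      exact (Fact.out : p.Prime).one_lt.ne' (Nat.dvd_one.mp h4)
    obtain ⟨P, hP⟩ := exists_sylow_le_of_not_dvd_index NQ h3
    exact ⟨P, Q, hP⟩

end Cfsg.Agent.S4602
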