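import Cfsg.Statements.S4601
import Cfsg.Agent.Helper23.Balance
import Cfsg.Agent.S4602
import Cfsg.Agent.S0023
import Cfsg.Agent.S0024

set_option autoImplicit false
open Cfsg

namespace Cfsg.Agent.S4601

open Cfsg.Agent.Helper23

universe u

variable {G : Type*} [Group G]

/-- For `K` normal, `[K : H ∩ K]` divides `[G : H]`. -/
theorem relIndex_dvd_index_of_normal_right [Finite G] (H K : Subgroup G) [K.Normal] :
    H.relIndex K ∣ H.index := by
  have h1 : Nat.card (H ⊔ K : Subgroup G) = Nat.card K * K.relIndex H :=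
    (card_eq_card_mul_relIndex (le_sup_right : K ≤ H ⊔ K)).trans
      (by rw [Subgroup.relIndex_sup_right])
  have h2 : Nat.card H = Nat.card (H ⊓ K : Subgroup G) * K.relIndex H :=
    (card_eq_card_mul_relIndex (inf_le_left : H ⊓ K ≤ H)).trans
      (by rw [Subgroup.inf_relIndex_left])
  have h3 : Nat.card K = Nat.card (H ⊓ K : Subgroup G) * H.relIndex K :=
    (card_eq_card_mul_relIndex (inf_le_right : H ⊓ K ≤ K)).trans
      (by rw [Subgroup.inf_relIndex_right])
  have h4 : Nat.card (H ⊔ K : Subgroup G) = Nat.card H * H.relIndex (H ⊔ K) :=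
    card_eq_card_mul_relIndex le_sup_left
  have h5 : H.relIndex (H ⊔ K) = H.relIndex K := by
    have hpos1 : 0 < Nat.card (H ⊓ K : Subgroup G) := Nat.card_pos
    have hpos2 : 0 < K.relIndex H := by
      apply Nat.pos_of_ne_zero
      intro h0
      rw [h0, mul_zero] at h2
      exact Nat.card_pos.ne' h2
    have h6 : Nat.card (H ⊓ K : Subgroup G) * K.relIndex H * H.relIndex (H ⊔ K) =
        Nat.card (H ⊓ K : Subgroup G) * K.relIndex H * H.relIndex K := by
      calc Nat.card (H ⊓ K : Subgroup G) * K.relIndex H * H.relIndex (H ⊔ K)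
          = Nat.card H * H.relIndex (H ⊔ K) := by rw [← h2]
        _ = Nat.card (H ⊔ K : Subgroup G) := h4.symm
        _ = Nat.card K * K.relIndex H := h1
        _ = Nat.card (H ⊓ K : Subgroup G) * H.relIndex K * K.relIndex H := by rw [← h3]
        _ = Nat.card (H ⊓ K : Subgroup G) * K.relIndex H * H.relIndex K := by ring
    exact Nat.eq_of_mul_eq_mul_left (Nat.mul_pos hpos1 hpos2) h6
  rw [← h5]
  exact Subgroup.relIndex_dvd_index_of_le le_sup_left

theorem le_normalizer_of_normal (M : Subgroup G) [hMn : M.Normal] (A : Subgroup G) :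
    A ≤ Subgroup.normalizer (M : Set G) := by
  rw [Subgroup.normalizer_eq_top]
  exact le_top

/-- A nontrivial `p`-solvable group has a nontrivial normal `p`-subgroup or `p'`-subgroup. -/
theorem exists_normal_of_isPSolvable {p : ℕ} [Nontrivial G] (h : IsPSolvable p G) :
    ∃ M : Subgroup G, M.Normal ∧ M ≠ ⊥ ∧
      ((∃ m : ℕ, Nat.card M = p ^ m) ∨ (Nat.card M).Coprime p) := by
  obtain ⟨n, H, h0, hlast, hmono, hnorm, hfac⟩ := h
  by_contra hcon
  have key : ∀ i : Fin (n + 1), H i = ⊥ := by
    intro i
    induction i using Fin.induction with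
    | zero => exact h0
    | succ i ih =>
      by_contra hne
      apply hcon
      refine ⟨H i.succ, hnorm _, hne, ?_⟩
      have := hfac i
      rw [ih, Subgroup.relIndex_bot_left] at this
      exact this
  have := key (Fin.last n)
  rw [hlast] at this
  exact top_ne_bot this

/-- The class-size hypothesis passes to quotients. -/
theorem star_quotient [Finite G] {p q : ℕ} [Fact q.Prime] (M : Subgroup G) [M.Normal]
    (hstar : ∀ y : G, (∃ k : ℕ, orderOf y = q ^ k) →
      ¬ p ∣ (Subgroup.centralizer ({y} : Set G)).index) :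
    ∀ yb : G ⧸ M, (∃ k : ℕ, orderOf yb = q ^ k) →
      ¬ p ∣ (Subgroup.centralizer ({yb} : Set (G ⧸ M))).index := by
  rintro yb ⟨k, hk⟩
  obtain ⟨g, rfl⟩ := QuotientGroup.mk'_surjective M yb
  obtain ⟨e, m, hm, hem⟩ := Nat.exists_eq_pow_mul_and_not_dvd (orderOf_pos g).ne' q
    (Fact.out : q.Prime).ne_one
  have hcop : Nat.Coprime m (q ^ k) :=
    Nat.Coprime.pow_right k ((Nat.Prime.coprime_iff_not_dvd Fact.out).mpr hm).symm
  have hbez : (m : ℤ) * Nat.gcdA m (q ^ k) + ((q ^ k : ℕ) : ℤ) * Nat.gcdB m (q ^ k) = 1 := by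
    rw [← Nat.gcd_eq_gcd_ab, hcop.gcd_eq_one]; rfl
  have hy'1 : ((g ^ m) ^ (Nat.gcdA m (q ^ k))) ^ q ^ e = 1 := by
    rw [← zpow_natCast, ← zpow_mul, mul_comm, zpow_mul, zpow_natCast, ← pow_mul, mul_comm m,
      ← hem, pow_orderOf_eq_one, one_zpow]
  have hy'q : ∃ j : ℕ, orderOf ((g ^ m) ^ (Nat.gcdA m (q ^ k))) = q ^ j := by
    obtain ⟨j, _, hj⟩ := (Nat.dvd_prime_pow Fact.out).mp (orderOf_dvd_of_pow_eq_one hy'1)
    exact ⟨j, hj⟩
  have h1 : (QuotientGroup.mk' M g) ^ q ^ k = 1 := by rw [← hk]; exact pow_orderOf_eq_one _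
  have h2 : QuotientGroup.mk' M g = ((QuotientGroup.mk' M g) ^ m) ^ (Nat.gcdA m (q ^ k)) *
      ((QuotientGroup.mk' M g) ^ q ^ k) ^ (Nat.gcdB m (q ^ k)) := by
    rw [← zpow_natCast, ← zpow_natCast, ← zpow_mul, ← zpow_mul, ← zpow_add, hbez, zpow_one]
  rw [h1, one_zpow, mul_one] at h2
  have hπy' : QuotientGroup.mk' M ((g ^ m) ^ (Nat.gcdA m (q ^ k))) = QuotientGroup.mk' M g := by
    rw [map_zpow, map_pow]; exact h2.symm
  have h4 := hstar _ hy'q
  have h5 : (Subgroup.centralizer ({(g ^ m) ^ (Nat.gcdA m (q ^ k))} : Set G)).map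
      (QuotientGroup.mk' M) ≤ Subgroup.centralizer ({QuotientGroup.mk' M g} : Set (G ⧸ M)) := by
    rintro _ ⟨c, hc, rfl⟩
    have hc' : c ∈ Subgroup.centralizer ({(g ^ m) ^ (Nat.gcdA m (q ^ k))} : Set G) := hc
    rw [Subgroup.mem_centralizer_singleton_iff] at hc' ⊢
    rw [← hπy', ← map_mul, ← map_mul, hc']
  intro hdvd
  exact h4 (hdvd.trans ((Subgroup.index_dvd_of_le h5).trans
    (Subgroup.index_map_dvd _ (QuotientGroup.mk'_surjective M))))

/-- A `q`-group `Q` acting on a normal `q'`-subgroup `M`, each of whose elements centralizes a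
Sylow `p`-subgroup of `G`, centralizes a Sylow `p`-subgroup of `M`. -/
theorem exists_sylow_centralized [Finite G] {p q : ℕ} [Fact p.Prime] [Fact q.Prime]
    (M : Subgroup G) [hMn : M.Normal] (hM : (Nat.card M).Coprime q) (Q : Subgroup G)
    (hQ : IsPGroup q Q)
    (hstar : ∀ y : G, (∃ k : ℕ, orderOf y = q ^ k) →
      ¬ p ∣ (Subgroup.centralizer ({y} : Set G)).index) :
    ∃ S : Sylow p M, ∀ s ∈ S, ∀ y ∈ Q, (s : G) * y = y * (s : G) := by
  obtain ⟨j, hj⟩ := IsPGroup.iff_card.mp hQ
  have hcop : (Nat.card Q).Coprime (Nat.card M) := by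
    rw [hj]; exact Nat.Coprime.pow_left j hM.symm
  have hnil : Group.IsNilpotent Q := hQ.isNilpotent
  have hsolQ : Group.IsSolvable Q := inferInstance
  obtain ⟨S, hS⟩ := Cfsg.Agent.S0023.result Q M (le_normalizer_of_normal M Q) hcop (Or.inl hsolQ) p
  refine ⟨S, fun s hs y hy => ?_⟩
  have hzQ : Subgroup.zpowers y ≤ Q := Subgroup.zpowers_le.mpr hy
  have hyq : ∃ k : ℕ, orderOf y = q ^ k := by
    obtain ⟨k, hk⟩ := (IsPGroup.iff_orderOf.mp hQ) ⟨y, hy⟩
    exact ⟨k, by rw [← hk]; exact (Subgroup.orderOf_mk y hy).symm⟩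
  have hidx : ¬ p ∣ ((Subgroup.centralizer ({y} : Set G)).subgroupOf M).index := fun h =>
    hstar y hyq (h.trans (relIndex_dvd_index_of_normal_right _ M))
  obtain ⟨T, hT⟩ := exists_sylow_le_of_not_dvd_index _ hidx
  have hsolz : Group.IsSolvable (Subgroup.zpowers y) :=
    Group.isSolvable_of_isSolvable_injective (f := Subgroup.inclusion hzQ)
      (Subgroup.inclusion_injective hzQ)
  have hcopz : (Nat.card (Subgroup.zpowers y)).Coprime (Nat.card M) :=
    Nat.Coprime.coprime_dvd_left (Subgroup.card_dvd_of_le hzQ) hcop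
  have hTcomm : ∀ t ∈ (T : Subgroup M).map M.subtype, t * y = y * t := by
    rintro _ ⟨t, ht, rfl⟩
    have := hT ht
    rw [Subgroup.mem_subgroupOf, Subgroup.mem_centralizer_singleton_iff] at this
    exact this
  have hT' : Subgroup.zpowers y ≤
      Subgroup.normalizer (((T : Subgroup M).map M.subtype : Subgroup G) : Set G) := by
    rw [Subgroup.zpowers_le, Subgroup.mem_normalizer_iff]
    intro h
    constructor
    · intro hh
      have e : y * h * y⁻¹ = h := by rw [← hTcomm h hh]; group
      rw [e]; exact hh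
    · intro hh
      have e1 := hTcomm _ hh
      have e : y * h * y⁻¹ = h := by
        have e2 : y * h * y⁻¹ = y⁻¹ * (y * (y * h * y⁻¹)) := by group
        rw [e2, ← e1]; group
      rwa [e] at hh
  obtain ⟨c, hc, hconj⟩ := Cfsg.Agent.S0024.result (Subgroup.zpowers y) M
    (le_normalizer_of_normal M _) hcopz (Or.inl hsolz) p S T (hzQ.trans hS) hT'
  have hcy : y * (c : G) = (c : G) * y :=
    (Subgroup.mem_centralizer_iff.mp hc) y (Subgroup.mem_zpowers y)
  have h1 : c * s * c⁻¹ ∈ ((MulAut.conj c • S : Sylow p M) : Subgroup M) := by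
    rw [Sylow.pointwise_smul_def, Subgroup.mem_pointwise_smul_iff_inv_smul_mem, MulAut.smul_def,
      MulAut.conj_inv_apply]
    have e : c⁻¹ * (c * s * c⁻¹) * c = s := by group
    rw [e]; exact hs
  rw [hconj] at h1
  have h3 := hTcomm _ (Subgroup.mem_map_of_mem M.subtype h1)
  simp only [Subgroup.coe_subtype, Subgroup.coe_mul, Subgroup.coe_inv] at h3
  -- h3 : c * s * c⁻¹ * y = y * (c * s * c⁻¹)
  have hcy' : (c : G)⁻¹ * y * (c : G) = y := by
    rw [mul_assoc, hcy, ← mul_assoc, inv_mul_cancel, one_mul]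
  have hcy'' : (c : G)⁻¹ * y⁻¹ * (c : G) = y⁻¹ := by
    have h7 : (c : G)⁻¹ * y⁻¹ * (c : G) = ((c : G)⁻¹ * y * (c : G))⁻¹ := by group
    rw [h7, hcy']
  calc (s : G) * y
      = (c : G)⁻¹ * ((c : G) * s * (c : G)⁻¹ * y) * (y⁻¹ * (c : G) * y) := by group
    _ = (c : G)⁻¹ * (y * ((c : G) * s * (c : G)⁻¹)) * (y⁻¹ * (c : G) * y) := by rw [h3]
    _ = ((c : G)⁻¹ * y * (c : G)) * s * ((c : G)⁻¹ * y⁻¹ * (c : G)) * y := by group
    _ = y * s * y⁻¹ * y := by rw [hcy', hcy'']
    _ = y * s := by group

/-- The `q`-solvable case, by induction on the order. -/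
theorem exists_sylow_normalizer_index (p q : ℕ) [Fact p.Prime] [Fact q.Prime] (hpq : p ≠ q) :
    ∀ (n : ℕ) (G : Type u) [Group G] [Finite G], Nat.card G ≤ n → IsPSolvable q G →
      (∀ y : G, (∃ k : ℕ, orderOf y = q ^ k) →
        ¬ p ∣ (Subgroup.centralizer ({y} : Set G)).index) →
      ∃ Q : Sylow q G, ¬ p ∣ (Subgroup.normalizer ((Q : Subgroup G) : Set G)).index := by
  intro n
  induction n with
  | zero =>
    intro G _ _ h
    have := Nat.card_pos (α := G)
    omega
  | succ n ih =>
    intro G _ _ hcard hsol hstar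
    by_cases htriv : Subsingleton G
    · obtain ⟨Q⟩ : Nonempty (Sylow q G) := inferInstance
      refine ⟨Q, fun h => ?_⟩
      rw [Subgroup.index_eq_one.mpr (Subsingleton.elim _ _)] at h
      exact (Fact.out : p.Prime).one_lt.ne' (Nat.dvd_one.mp h)
    · have hnt : Nontrivial G := not_subsingleton_iff_nontrivial.mp htriv
      obtain ⟨M, hMn, hMbot, hM⟩ := exists_normal_of_isPSolvable hsol
      have hsolQ : IsPSolvable q (G ⧸ M) := isPSolvable_quotient hsol M
      have hcardQ : Nat.card (G ⧸ M) ≤ n := by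
        have h1 : Nat.card M * Nat.card (G ⧸ M) = Nat.card G := M.card_mul_index
        have h2 : 1 < Nat.card M := (Subgroup.one_lt_card_iff_ne_bot M).mpr hMbot
        have h3 := Nat.card_pos (α := G ⧸ M)
        nlinarith
      obtain ⟨Qb, hQb⟩ := ih (G ⧸ M) hcardQ hsolQ (star_quotient M hstar)
      have hπs : Function.Surjective (QuotientGroup.mk' M) := QuotientGroup.mk'_surjective M
      set Y := (Qb : Subgroup (G ⧸ M)).comap (QuotientGroup.mk' M) with hY
      have hYidx : Y.index = (Qb : Subgroup (G ⧸ M)).index :=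
        Subgroup.index_comap_of_surjective _ hπs
      have hqY : ¬ q ∣ Y.index := by rw [hYidx]; exact Qb.not_dvd_index
      set X := Subgroup.normalizer (Y : Set G) with hX
      have hXidx : ¬ p ∣ X.index := by
        have hle : (Subgroup.normalizer ((Qb : Subgroup (G ⧸ M)) : Set (G ⧸ M))).comap
            (QuotientGroup.mk' M) ≤ X := by
          intro g hg
          rw [Subgroup.mem_comap, Subgroup.mem_normalizer_iff] at hg
          rw [hX, Subgroup.mem_normalizer_iff]
          intro h
          rw [hY, Subgroup.mem_comap, Subgroup.mem_comap, hg (QuotientGroup.mk' M h)]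
          simp only [map_mul, map_inv]
        intro hdvd
        apply hQb
        rw [← Subgroup.index_comap_of_surjective _ hπs]
        exact hdvd.trans (Subgroup.index_dvd_of_le hle)
      have hmemM : ∀ g : G, QuotientGroup.mk' M g = 1 → g ∈ M := by
        intro g hg
        rw [QuotientGroup.mk'_apply, QuotientGroup.eq_one_iff] at hg
        exact hg
      have hMY : M ≤ Y := by
        intro x hx
        rw [hY, Subgroup.mem_comap]
        have : QuotientGroup.mk' M x = 1 := by
          rw [QuotientGroup.mk'_apply, QuotientGroup.eq_one_iff]; exact hx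
        rw [this]; exact Subgroup.one_mem _
      rcases hM with ⟨m, hm⟩ | hMc
      · -- `M` a `q`-group: `Y` is a Sylow `q`-subgroup
        have hYq : IsPGroup q Y := by
          rintro ⟨g, hg⟩
          obtain ⟨a, ha⟩ := Qb.2 ⟨QuotientGroup.mk' M g, hg⟩
          have ha' : (QuotientGroup.mk' M g) ^ q ^ a = 1 := congrArg Subtype.val ha
          have h1 : g ^ q ^ a ∈ M := hmemM _ (by rw [map_pow]; exact ha')
          have h2 : (g ^ q ^ a) ^ q ^ m = 1 := by
            rw [← hm]; exact pow_card_subgroup_eq_one M h1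
          refine ⟨a + m, Subtype.ext ?_⟩
          simp only [Subgroup.coe_pow, Subgroup.coe_one]
          rw [pow_add, pow_mul]; exact h2
        refine ⟨hYq.toSylow hqY, ?_⟩
        rw [IsPGroup.toSylow_coe]
        exact hXidx
      · -- `M` a `q'`-group
        obtain ⟨P1, hP1⟩ := exists_sylow_le_of_not_dvd_index X hXidx
        have hsmul : ∀ (c : P1) (Q' : Sylow q G), (Q' : Subgroup G) ≤ Y →
            (((c : G) • Q' : Sylow q G) : Subgroup G) ≤ Y := by
          intro c Q' h x hx
          rw [Sylow.smul_def, Sylow.pointwise_smul_def,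
            Subgroup.mem_pointwise_smul_iff_inv_smul_mem] at hx
          have h1 : (c : G)⁻¹ * x * (c : G) ∈ Y := h (by simpa [MulAut.smul_def] using hx)
          have h2 := (Subgroup.mem_normalizer_iff.mp (hP1 c.2) ((c : G)⁻¹ * x * c)).mp h1
          have e : (c : G) * ((c : G)⁻¹ * x * c) * (c : G)⁻¹ = x := by group
          rwa [e] at h2
        let Ω := {Q' : Sylow q G // (Q' : Subgroup G) ≤ Y}
        let _ : MulAction P1 Ω :=
          { smul := fun c Q' => ⟨(c : G) • Q'.1, hsmul c Q'.1 Q'.2⟩
            one_smul := fun Q' => Subtype.ext (by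
              show ((1 : P1) : G) • Q'.1 = Q'.1
              rw [Subgroup.coe_one, one_smul])
            mul_smul := fun c d Q' => Subtype.ext (by
              show ((c * d : P1) : G) • Q'.1 = (c : G) • ((d : G) • Q'.1)
              rw [Subgroup.coe_mul, mul_smul]) }
        have hΩ : ¬ p ∣ Nat.card Ω := by
          have hinj : Function.Injective (fun Q' : Ω => Q'.1.subtype Q'.2) := by
            rintro ⟨Q1, h1⟩ ⟨Q2, h2⟩ h
            exact Subtype.ext (Sylow.subtype_injective h)
          have hsurj : Function.Surjective (fun Q' : Ω => Q'.1.subtype Q'.2) := by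
            intro R
            have hRp : IsPGroup q ((R : Subgroup Y).map Y.subtype) := R.2.map _
            have hRi : ¬ q ∣ ((R : Subgroup Y).map Y.subtype).index := by
              rw [Subgroup.index_map_subtype]
              exact Nat.Prime.not_dvd_mul Fact.out R.not_dvd_index hqY
            refine ⟨⟨hRp.toSylow hRi, by
              rw [IsPGroup.toSylow_coe]; exact Subgroup.map_subtype_le _⟩, ?_⟩
            apply Sylow.ext
            rw [Sylow.coe_subtype]
            ext x
            rw [Subgroup.mem_subgroupOf, IsPGroup.toSylow_coe]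
            exact Subgroup.mem_map_iff_mem (Subgroup.subtype_injective Y)
          rw [Nat.card_congr (Equiv.ofBijective _ ⟨hinj, hsurj⟩)]
          obtain ⟨Q0⟩ : Nonempty (Sylow q Y) := inferInstance
          rw [Sylow.card_eq_index_normalizer Q0]
          obtain ⟨S, hS⟩ := exists_sylow_centralized (p := p) M hMc
            ((Q0 : Subgroup Y).map Y.subtype) (Q0.2.map _) hstar
          set S' := (S : Subgroup M).map M.subtype with hS'
          have hS'M : S' ≤ M := Subgroup.map_subtype_le _
          have h1 : S'.relIndex Y = S'.relIndex M * M.relIndex Y :=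
            (Subgroup.relIndex_mul_relIndex S' M Y hS'M hMY).symm
          have h2 : S'.relIndex M = (S : Subgroup M).index := by
            rw [Subgroup.relIndex, Subgroup.subgroupOf, hS',
              Subgroup.comap_map_eq_self_of_injective (Subgroup.subtype_injective M)]
          have h3 : ¬ p ∣ M.relIndex Y := by
            have e1 := Subgroup.relIndex_ker (QuotientGroup.mk' M) (K := Y)
            rw [QuotientGroup.ker_mk'] at e1
            rw [e1, hY, Subgroup.map_comap_eq_self_of_surjective hπs]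
            obtain ⟨b, hb⟩ := IsPGroup.iff_card.mp Qb.2
            rw [hb]
            intro h
            exact hpq ((Nat.prime_dvd_prime_iff_eq Fact.out Fact.out).mp
              ((Fact.out : p.Prime).dvd_of_dvd_pow h))
          have h4 : ¬ p ∣ S'.relIndex Y := by
            rw [h1, h2]
            exact Nat.Prime.not_dvd_mul Fact.out S.not_dvd_index h3
          have h5 : S'.subgroupOf Y ≤ Subgroup.normalizer ((Q0 : Subgroup Y) : Set Y) := by
            intro s hs
            rw [Subgroup.mem_subgroupOf] at hs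
            obtain ⟨s0, hs0, hs0eq⟩ := hs
            have hcomm : ∀ y : Y, y ∈ (Q0 : Subgroup Y) → s * y * s⁻¹ = y := by
              intro y hy
              have h6 := hS s0 hs0 (y : G) ⟨y, hy, rfl⟩
              apply Subtype.ext
              simp only [Subgroup.coe_mul, Subgroup.coe_inv]
              rw [← hs0eq]
              simp only [Subgroup.coe_subtype]
              rw [h6]; group
            rw [Subgroup.mem_normalizer_iff]
            intro h
            constructor
            · intro hh; rw [hcomm h hh]; exact hh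
            · intro hh
              have h7 := hcomm _ hh
              have hz : s * h * s⁻¹ = h := by
                calc s * h * s⁻¹ = s⁻¹ * (s * (s * h * s⁻¹) * s⁻¹) * s := by group
                  _ = s⁻¹ * (s * h * s⁻¹) * s := by rw [h7]
                  _ = h := by group
              rwa [hz] at hh
          have h6 : (Subgroup.normalizer ((Q0 : Subgroup Y) : Set Y)).index ∣
              (S'.subgroupOf Y).index := Subgroup.index_dvd_of_le h5
          exact fun h => h4 (h.trans h6)
        obtain ⟨⟨Q', hQ'Y⟩, hfix⟩ := P1.2.nonempty_fixed_point_of_prime_not_dvd_card Ω hΩ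
        refine ⟨Q', ?_⟩
        have hle : (P1 : Subgroup G) ≤ Subgroup.normalizer ((Q' : Subgroup G) : Set G) := by
          intro c hc
          have h1 : (⟨c, hc⟩ : P1) • (⟨Q', hQ'Y⟩ : Ω) = ⟨Q', hQ'Y⟩ := hfix ⟨c, hc⟩
          have h2 : c • Q' = Q' := congrArg Subtype.val h1
          exact Sylow.smul_eq_iff_mem_normalizer.mp h2
        exact fun h => P1.not_dvd_index (h.trans (Subgroup.index_dvd_of_le hle))

/-- Let p and q be primes and G a finite group that is p-solvable or q-solvable, in which no q-element has conjugacy class size divisible by p. Then some Sylow p-subgroup of G normalizes some Sylow q-subgroup of G. -/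
theorem result {G : Type*} [Group G] [Finite G] (p q : ℕ) [Fact p.Prime] [Fact q.Prime] (hsolv : Cfsg.IsPSolvable p G ∨ Cfsg.IsPSolvable q G)
    (h : ∀ y : G, (∃ k : ℕ, orderOf y = q ^ k) → ¬ p ∣ (Subgroup.centralizer ({y} : Set G)).index) :
    ∃ (P : Sylow p G) (Q : Sylow q G), (P : Subgroup G) ≤ Subgroup.normalizer ((Q : Subgroup G) : Set G) := by
  by_cases hpq : p = q
  · subst hpq
    obtain ⟨P⟩ : Nonempty (Sylow p G) := inferInstance
    exact ⟨P, P, Subgroup.le_normalizer⟩
  · rcases hsolv with hp | hq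
    · apply (Cfsg.Agent.S4602.result p q hpq hp).mpr
      intro hdvd
      have hc := centralizer_pCore_quotient_le hp
      obtain ⟨yb, hyb⟩ := exists_prime_orderOf_dvd_card' (G := G ⧸ pPrimeCore p G) q hdvd
      obtain ⟨g, rfl⟩ := QuotientGroup.mk'_surjective (pPrimeCore p G) yb
      obtain ⟨e, m, hm, hem⟩ := Nat.exists_eq_pow_mul_and_not_dvd (orderOf_pos g).ne' q
        (Fact.out : q.Prime).ne_one
      have hy1 : (g ^ m) ^ q ^ e = 1 := by
        rw [← pow_mul, mul_comm, ← hem, pow_orderOf_eq_one]
      obtain ⟨k, _, hk⟩ := (Nat.dvd_prime_pow Fact.out).mp (orderOf_dvd_of_pow_eq_one hy1)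
      have hπy : QuotientGroup.mk' (pPrimeCore p G) (g ^ m) ≠ 1 := by
        intro h1
        rw [map_pow] at h1
        have := orderOf_dvd_of_pow_eq_one h1
        rw [hyb] at this
        exact hm this
      obtain ⟨P, hP⟩ := exists_sylow_le_of_not_dvd_index _ (h (g ^ m) ⟨k, hk⟩)
      have hVn : (pCore p (G ⧸ pPrimeCore p G)).Normal := pCore_normal_fin p
      have hVp : IsPGroup p (pCore p (G ⧸ pPrimeCore p G)) := pCore_isPGroup p
      have hVP : pCore p (G ⧸ pPrimeCore p G) ≤
          (P : Subgroup G).map (QuotientGroup.mk' (pPrimeCore p G)) := by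
        have := le_sylow_of_normal hVn hVp
          (P.mapSurjective (QuotientGroup.mk'_surjective (pPrimeCore p G)))
        rwa [Sylow.coe_mapSurjective] at this
      have hyC : QuotientGroup.mk' (pPrimeCore p G) (g ^ m) ∈
          Subgroup.centralizer (pCore p (G ⧸ pPrimeCore p G) : Set (G ⧸ pPrimeCore p G)) := by
        rw [Subgroup.mem_centralizer_iff]
        intro v hv
        obtain ⟨a, ha, rfl⟩ := hVP hv
        have h1 := hP ha
        rw [Subgroup.mem_centralizer_singleton_iff] at h1
        rw [← map_mul, ← map_mul, h1]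
      have hcop : (q ^ k).Coprime p :=
        Nat.Coprime.pow_left k ((Nat.coprime_primes Fact.out Fact.out).mpr (Ne.symm hpq))
      have h1 : QuotientGroup.mk' (pPrimeCore p G) (g ^ m) = 1 :=
        eq_one_of_isPGroup_of_pow_eq_one hVp (hc hyC) hcop
          (by rw [← map_pow, ← hk, pow_orderOf_eq_one, map_one])
      exact hπy h1
    · obtain ⟨Q, hQ⟩ := exists_sylow_normalizer_index p q hpq (Nat.card G) G le_rfl hq h
      obtain ⟨P, hP⟩ := exists_sylow_le_of_not_dvd_index _ hQ
      exact ⟨P, Q, hP⟩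

end Cfsg.Agent.S4601
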