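import Cfsg.Statements.S4604
import Cfsg.Agent.Helper22.Brauer6
import Cfsg.Agent.S0876

set_option autoImplicit false
open Cfsg
open Cfsg.Agent.Helper22 Cfsg.Agent.Helper24

namespace Cfsg.Agent.S4604

/-- Let G be a finite group, p a prime and p^a the p-part of the order of G. Let x, y ∈ G and let x′, y′ be their p-regular parts: x′ has order prime to p, commutes with x·x′⁻¹, and x·x′⁻¹ has p-power order (likewise for y). Then x′ and y′ are conjugate in G if and only if for every irreducible character χ of G the algebraic integer χ(x)^(p^a) − χ(y)^(p^a) is p times an algebraic integer. -/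
theorem result {G : Type*} [Group G] [Finite G] (p : ℕ) [Fact p.Prime] (x y x' y' : G)
    (hx : (∃ k : ℕ, orderOf (x * x'⁻¹) = p ^ k) ∧ Commute (x * x'⁻¹) x' ∧ ¬ p ∣ orderOf x')
    (hy : (∃ k : ℕ, orderOf (y * y'⁻¹) = p ^ k) ∧ Commute (y * y'⁻¹) y' ∧ ¬ p ∣ orderOf y') :
    IsConj x' y' ↔ ∀ χ : Cfsg.IrrCharacter G, ∃ γ : Cfsg.AlgInt,
      (χ : G → ℂ) x ^ (p ^ (Nat.card G).factorization p) - (χ : G → ℂ) y ^ (p ^ (Nat.card G).factorization p) = (p : ℂ) * (γ : ℂ) := by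
  classical
  haveI : Fintype G := Fintype.ofFinite G
  have hp : p.Prime := Fact.out
  obtain ⟨⟨kx, hkx⟩, hcx, hrx⟩ := hx
  obtain ⟨⟨ky, hky⟩, hcy, hry⟩ := hy
  obtain ⟨e, he⟩ : ∃ e, e = (Nat.card G).factorization p := ⟨_, rfl⟩
  rw [← he]
  have hax : x * x'⁻¹ * x' = x := by group
  have hay : y * y'⁻¹ * y' = y := by group
  have hpow : ∀ (a : G) (k : ℕ), orderOf a = p ^ k → a ^ (p ^ e) = 1 := by
    intro a k hk
    have h1 : orderOf a ∣ Nat.card G := orderOf_dvd_natCard a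
    rw [hk] at h1
    have h2 : k ≤ e := by
      rw [he]; exact (hp.pow_dvd_iff_le_factorization Nat.card_pos.ne').mp h1
    rw [← orderOf_dvd_iff_pow_eq_one, hk]; exact pow_dvd_pow p h2
  have hxq : x ^ (p ^ e) = x' ^ (p ^ e) := by
    conv_lhs => rw [← hax]
    rw [hcx.mul_pow, hpow _ kx hkx, one_mul]
  have hyq : y ^ (p ^ e) = y' ^ (p ^ e) := by
    conv_lhs => rw [← hay]
    rw [hcy.mul_pow, hpow _ ky hky, one_mul]
  constructor
  · intro hconj χ
    obtain ⟨d, ρ, -, hρ⟩ := χ.2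
    obtain ⟨γ₁, hγ₁⟩ := char_pow_sub_mem_span hp ρ x e
    obtain ⟨γ₂, hγ₂⟩ := char_pow_sub_mem_span hp ρ y e
    have hcl : ρ.character (x ^ (p ^ e)) = ρ.character (y ^ (p ^ e)) := by
      rw [hxq, hyq]
      obtain ⟨c, hc⟩ := isConj_iff.mp hconj
      rw [← hc, conj_pow]
      exact (isCharacter_conj ⟨d, ρ, rfl⟩ (x' ^ (p ^ e)) c).symm
    refine ⟨γ₁ - γ₂, ?_⟩
    rw [← hρ]
    show _ = (p : ℂ) * ((γ₁ : ℂ) - (γ₂ : ℂ))
    linear_combination hγ₁ - hγ₂ + hcl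
  · intro hall
    obtain ⟨M, hM⟩ := exists_isPModular hp
    have hPx : IsPPart p x (x * x'⁻¹) := ⟨x', hax, hcx, ⟨kx, hkx⟩, hrx⟩
    have hPy : IsPPart p y (y * y'⁻¹) := ⟨y', hay, hcy, ⟨ky, hky⟩, hry⟩
    have key : ∀ χ : IrrCharacter G,
        MemLocalIdeal M ((χ : G → ℂ) x - (χ : G → ℂ) y) := by
      intro χ
      obtain ⟨γ, hγ⟩ := hall χ
      have hXint : IsIntegral ℤ ((χ : G → ℂ) x) := irr_isIntegral χ x
      have hYint : IsIntegral ℤ ((χ : G → ℂ) y) := irr_isIntegral χ y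
      obtain ⟨-, hMmax, hpM⟩ := hM
      haveI := hMmax
      have hpK : ((p : ℕ) : AlgInt ⧸ M) = 0 := by
        have h1 : Ideal.Quotient.mk M (p : AlgInt) = 0 := Ideal.Quotient.eq_zero_iff_mem.mpr hpM
        rwa [map_natCast] at h1
      haveI : CharP (AlgInt ⧸ M) p := (CharP.charP_iff_prime_eq_zero hp).mpr hpK
      have h1 : (⟨_, hXint⟩ : AlgInt) ^ (p ^ e) - (⟨_, hYint⟩ : AlgInt) ^ (p ^ e) =
          (p : AlgInt) * γ := Subtype.ext (by push_cast; exact hγ)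
      have h2 : Ideal.Quotient.mk M ((⟨_, hXint⟩ : AlgInt) - ⟨_, hYint⟩) ^ (p ^ e) = 0 := by
        rw [map_sub, sub_pow_char_pow, ← map_pow, ← map_pow, ← map_sub, h1, map_mul,
          map_natCast, hpK, zero_mul]
      have hmem : ((⟨_, hXint⟩ : AlgInt) - ⟨_, hYint⟩) ∈ M :=
        Ideal.Quotient.eq_zero_iff_mem.mp ((pow_eq_zero_iff (pow_pos hp.pos e).ne').mp h2)
      have hzz : (χ : G → ℂ) x - (χ : G → ℂ) y =
          (((⟨_, hXint⟩ : AlgInt) - ⟨_, hYint⟩ : AlgInt) : ℂ) := rfl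
      rw [hzz]
      exact memLocalIdeal_of_mem hMmax.ne_top hmem
    have h876 := (Cfsg.Agent.S0876.result p M hM x y (x * x'⁻¹) (y * y'⁻¹) hPx hPy).mpr key
    have e1 : (x * x'⁻¹)⁻¹ * x = x' := by group
    have e2 : (y * y'⁻¹)⁻¹ * y = y' := by group
    rwa [e1, e2] at h876

end Cfsg.Agent.S4604
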