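import Cfsg.Statements.S4611
import Cfsg.Agent.Helper22.BlkSolvPrin

set_option autoImplicit false
open Cfsg
open Cfsg.Agent.Helper22 Cfsg.Agent.Helper24

namespace Cfsg.Agent.S4611

/-- Let G be a finite solvable group and π a nonempty set of primes, each dividing the order of G; fix for each p in π a maximal ideal M p of the algebraic integers containing p. Then the only irreducible character lying in the principal p-block for every p in π is the principal character if and only if G is generated by the subgroups O_{p'}(G), p in π (the largest normal subgroups of order prime to p). -/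
theorem result {G : Type*} [Group G] [Finite G] [Group.IsSolvable G] (π : Set ℕ) (hπ : ∀ p ∈ π, p.Prime ∧ p ∣ Nat.card G) (hne : π.Nonempty) (M : ℕ → Ideal Cfsg.AlgInt) (hM : ∀ p ∈ π, Cfsg.IsPModular p (M p)) :
    (∀ χ : Cfsg.IrrCharacter G, (∀ p ∈ π, χ ∈ Cfsg.principalBlock (M p) G) → (χ : G → ℂ) = fun _ => 1) ↔
      ⨆ p ∈ π, Cfsg.pPrimeCore p G = ⊤ := by
  classical
  haveI := Fintype.ofFinite G
  have key : ∀ p ∈ π, ∀ χ : Cfsg.IrrCharacter G, χ ∈ Cfsg.principalBlock (M p) G ↔
      ∀ k ∈ Cfsg.pPrimeCore p G, (χ : G → ℂ) k = (χ : G → ℂ) 1 := by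
    intro p hp χ
    haveI : Fact p.Prime := ⟨(hπ p hp).1⟩
    exact solv_principal_iff (hM p hp) χ
  constructor
  · intro h
    by_contra hL
    obtain ⟨L, hLdef⟩ : ∃ L : Subgroup G, L = ⨆ p ∈ π, Cfsg.pPrimeCore p G := ⟨_, rfl⟩
    haveI hLn : L.Normal := by
      rw [hLdef, ← sSup_image]
      refine Subgroup.sSup_normal _ ?_
      rintro N ⟨p, -, rfl⟩
      exact ppc_normal p
    rw [← hLdef] at hL
    obtain ⟨g, hg⟩ : ∃ g : G, g ∉ L := by
      by_contra hcon
      push Not at hcon
      exact hL (eq_top_iff.mpr fun x _ => hcon x)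
    have hg1 : (QuotientGroup.mk' L g) ≠ 1 := fun h1 => hg ((QuotientGroup.eq_one_iff g).mp h1)
    obtain ⟨ψ, hψ⟩ := exists_irr_ne_one (QuotientGroup.mk' L g) hg1
    apply hψ
    have hχ := h (inflIrr (QuotientGroup.mk' L) (QuotientGroup.mk'_surjective L) ψ) (by
      intro p hp
      rw [key p hp]
      intro k hk
      have e1 : (QuotientGroup.mk' L) k = 1 := by
        refine (QuotientGroup.eq_one_iff k).mpr ?_
        rw [hLdef]
        exact (le_biSup (fun p => Cfsg.pPrimeCore p G) hp) hk
      rw [inflIrr_apply, inflIrr_apply, e1, map_one])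
    funext q
    obtain ⟨x, rfl⟩ := QuotientGroup.mk'_surjective L q
    exact congrFun hχ x
  · intro hL χ hχ
    obtain ⟨K, hKn, hK⟩ := Cfsg.Agent.Helper5.exists_ker_subgroup χ
    have hle : (⨆ p ∈ π, Cfsg.pPrimeCore p G) ≤ K := by
      refine iSup₂_le fun p hp k hk => ?_
      rw [hK]
      exact (key p hp χ).mp (hχ p hp) k hk
    rw [hL] at hle
    have hconst : ∀ g : G, (χ : G → ℂ) g = (χ : G → ℂ) 1 :=
      fun g => (hK g).mp (hle (Subgroup.mem_top g))
    have hinner : Cfsg.classInner (χ : G → ℂ) ((trivIrr G : Cfsg.IrrCharacter G) : G → ℂ) ≠ 0 := by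
      rw [classInner_def']
      have e : ∑ g : G, (χ : G → ℂ) g *
          starRingEnd ℂ (((trivIrr G : Cfsg.IrrCharacter G) : G → ℂ) g)
          = (Nat.card G : ℂ) * (χ : G → ℂ) 1 := by
        have e1 : ∀ g : G, (χ : G → ℂ) g *
            starRingEnd ℂ (((trivIrr G : Cfsg.IrrCharacter G) : G → ℂ) g) = (χ : G → ℂ) 1 := by
          intro g
          rw [hconst g]
          show (χ : G → ℂ) 1 * starRingEnd ℂ 1 = (χ : G → ℂ) 1
          rw [map_one, mul_one]
        rw [Finset.sum_congr rfl (fun g _ => e1 g), Finset.sum_const, Finset.card_univ,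
          nsmul_eq_mul, Nat.card_eq_fintype_card]
      rw [e]
      exact mul_ne_zero (inv_ne_zero (Nat.cast_ne_zero.mpr Nat.card_pos.ne'))
        (mul_ne_zero (Nat.cast_ne_zero.mpr Nat.card_pos.ne')
          (Cfsg.Agent.Helper5.irr_one_ne_zero χ))
    have horth := irr_orthonormal χ (trivIrr G)
    by_cases heq : χ = trivIrr G
    · rw [heq]
      rfl
    · rw [if_neg heq] at horth
      exact absurd horth hinner

end Cfsg.Agent.S4611
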