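import Cfsg.Statements.S4620
import Mathlib

set_option autoImplicit false
open scoped Pointwise
open Cfsg

namespace Cfsg.Agent.S4620

variable {H : Type*} [Group H] [Finite H] {p : ℕ} [Fact p.Prime]

/-- elementwise trivial-intersection property -/
def TI (P : Subgroup H) : Prop :=
  ∀ x y : H, y ≠ 1 → y ∈ P → x⁻¹ * y * x ∈ P → x ∈ Subgroup.normalizer (P : Set H)

theorem ti_of_hTI (P : Subgroup H)
    (hTI : ∀ g : H, g ∉ Subgroup.normalizer (P : Set H) → P ⊓ (MulAut.conj g • P) = ⊥) : TI P := by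
  intro x y hy1 hyP hxy
  by_contra hx
  have h1 := hTI x hx
  have h2 : y ∈ MulAut.conj x • P := by
    rw [Subgroup.mem_pointwise_smul_iff_inv_smul_mem]
    simpa [MulAut.smul_def] using hxy
  have h3 : y ∈ P ⊓ (MulAut.conj x • P) := ⟨hyP, h2⟩
  rw [h1] at h3
  exact hy1 (Subgroup.mem_bot.mp h3)

theorem ti_conj (P : Subgroup H) (hTI : TI P) (g : H) : TI (MulAut.conj g • P) := by
  intro x y hy1 hyP hxy
  rw [Subgroup.mem_pointwise_smul_iff_inv_smul_mem] at hyP hxy
  simp only [MulAut.smul_def, MulAut.conj_inv_apply] at hyP hxy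
  have h1 : g⁻¹ * x * g ∈ Subgroup.normalizer (P : Set H) := by
    apply hTI (g⁻¹ * x * g) (g⁻¹ * y * g) _ hyP
    · have : (g⁻¹ * x * g)⁻¹ * (g⁻¹ * y * g) * (g⁻¹ * x * g) = g⁻¹ * (x⁻¹ * y * x) * g := by group
      rw [this]; exact hxy
    · intro h
      apply hy1
      have : y = g * (g⁻¹ * y * g) * g⁻¹ := by group
      rw [this, h]; group
  rw [Subgroup.mem_normalizer_iff] at h1 ⊢
  intro h
  rw [Subgroup.mem_pointwise_smul_iff_inv_smul_mem, Subgroup.mem_pointwise_smul_iff_inv_smul_mem]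
  simp only [MulAut.smul_def, MulAut.conj_inv_apply]
  have h2 := h1 (g⁻¹ * h * g)
  have : (g⁻¹ * x * g) * (g⁻¹ * h * g) * (g⁻¹ * x * g)⁻¹ = g⁻¹ * (x * h * x⁻¹) * g := by group
  rw [this] at h2
  exact h2

theorem isPGroup_zpowers (x : H) (k : ℕ) (h : x ^ p ^ k = 1) : IsPGroup p (Subgroup.zpowers x) := by
  rintro ⟨g, hg⟩
  obtain ⟨m, rfl⟩ := Subgroup.mem_zpowers_iff.mp hg
  refine ⟨k, ?_⟩
  apply Subtype.ext
  simp only [Subgroup.coe_pow, Subgroup.coe_one]
  rw [← zpow_natCast, ← zpow_mul, mul_comm, zpow_mul, zpow_natCast, h, one_zpow]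

theorem exists_conj_mem (P : Sylow p H) (y : H) (hy : IsPGroup p (Subgroup.zpowers y)) :
    ∃ g : H, g * y * g⁻¹ ∈ (P : Subgroup H) := by
  obtain ⟨Q, hQ⟩ := hy.exists_le_sylow
  obtain ⟨g, hg⟩ := MulAction.exists_smul_eq H Q P
  refine ⟨g, ?_⟩
  have h1 : y ∈ (Q : Subgroup H) := hQ (Subgroup.mem_zpowers y)
  have h2 : MulAut.conj g • y ∈ MulAut.conj g • (Q : Subgroup H) :=
    Subgroup.smul_mem_pointwise_smul _ _ _ h1
  rw [← Sylow.coe_subgroup_smul, hg] at h2
  simpa [MulAut.smul_def] using h2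

/-- a nontrivial normal subgroup meets `P` nontrivially -/
theorem exists_mem_inf (hOp' : Cfsg.pPrimeCore p H = ⊥) (P : Sylow p H) (K : Subgroup H)
    (hKn : K.Normal) (hK : K ≠ ⊥) : ∃ y, y ≠ 1 ∧ y ∈ (P : Subgroup H) ∧ y ∈ K := by
  have hp := (Fact.out : p.Prime)
  have hdvd : p ∣ Nat.card K := by
    by_contra h
    apply hK
    have : K ≤ Cfsg.pPrimeCore p H :=
      le_sSup ⟨hKn, (Nat.Coprime.symm ((Nat.Prime.coprime_iff_not_dvd hp).mpr h))⟩
    rw [hOp'] at this
    exact le_bot_iff.mp this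
  obtain ⟨k, hk⟩ := exists_prime_orderOf_dvd_card' p hdvd
  have hk' : orderOf (k : H) = p := by rw [Subgroup.orderOf_coe]; exact hk
  have hpg : IsPGroup p (Subgroup.zpowers (k : H)) := by
    apply isPGroup_zpowers (k : H) 1
    rw [pow_one, ← hk', pow_orderOf_eq_one]
  obtain ⟨g, hg⟩ := exists_conj_mem P (k : H) hpg
  refine ⟨g * k * g⁻¹, ?_, hg, hKn.conj_mem _ k.2 g⟩
  intro h
  have h1 : (k : H) = 1 := by
    have : (k : H) = g⁻¹ * (g * k * g⁻¹) * g := by group
    rw [this, h]; group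
  rw [h1, orderOf_one] at hk'
  exact hp.one_lt.ne hk'

theorem le_normalizer_of_commute (P : Subgroup H) (hTI : TI P) (A : Subgroup H) (y : H)
    (hy1 : y ≠ 1) (hyP : y ∈ P) (hcomm : ∀ a ∈ A, a * y = y * a) :
    A ≤ Subgroup.normalizer (P : Set H) := by
  intro a ha
  apply hTI a y hy1 hyP
  have : a⁻¹ * y * a = y := by
    rw [mul_assoc, ← hcomm a ha]; group
  rw [this]; exact hyP

theorem mem_of_mem_normalizer (P : Sylow p H) (y : H)
    (hy : y ∈ Subgroup.normalizer ((P : Subgroup H) : Set H))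
    (hpy : IsPGroup p (Subgroup.zpowers y)) : y ∈ (P : Subgroup H) := by
  have h1 : IsPGroup p (↥((Subgroup.zpowers y) ⊔ (P : Subgroup H))) :=
    IsPGroup.to_sup_of_normal_right' hpy P.isPGroup' ((Subgroup.zpowers_le).mpr hy)
  have h2 := P.is_maximal' h1 le_sup_right
  have h3 : y ∈ Subgroup.zpowers y ⊔ (P : Subgroup H) :=
    (le_sup_left : Subgroup.zpowers y ≤ _) (Subgroup.mem_zpowers y)
  rw [h2] at h3; exact h3

/-- no nontrivial normal subgroup normalizes `P` -/
theorem not_le_normalizer (hOp : Cfsg.pCore p H = ⊥) (hOp' : Cfsg.pPrimeCore p H = ⊥)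
    (P : Sylow p H) (K : Subgroup H) (hKn : K.Normal) (hK : K ≠ ⊥) :
    ¬ K ≤ Subgroup.normalizer ((P : Subgroup H) : Set H) := by
  intro hle
  obtain ⟨y, hy1, hyP, hyK⟩ := exists_mem_inf hOp' P K hKn hK
  have hnormal : ((P : Subgroup H) ⊓ K).Normal := by
    constructor
    intro r hr h
    refine ⟨?_, hKn.conj_mem r hr.2 h⟩
    apply mem_of_mem_normalizer P _ (hle (hKn.conj_mem r hr.2 h))
    obtain ⟨k, hk⟩ := P.isPGroup' ⟨r, hr.1⟩
    have hk' : r ^ p ^ k = 1 := by
      have := congrArg Subtype.val hk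
      simpa using this
    apply isPGroup_zpowers _ k
    rw [conj_pow, hk']; group
  have hpg : IsPGroup p ↥((P : Subgroup H) ⊓ K) := P.isPGroup'.to_le inf_le_left
  have : (P : Subgroup H) ⊓ K ≤ Cfsg.pCore p H := le_sSup ⟨hnormal, hpg⟩
  rw [hOp] at this
  exact hy1 ((Subgroup.mem_bot).mp (this ⟨hyP, hyK⟩))

theorem exists_min_normal (hOp : Cfsg.pCore p H = ⊥) (hOp' : Cfsg.pPrimeCore p H = ⊥)
    (P : Sylow p H) (hP1 : (P : Subgroup H) ≠ ⊥) (hTI : TI (P : Subgroup H)) :
    ∃ N : Subgroup H, N.Normal ∧ N ≠ ⊥ ∧ (∀ K : Subgroup H, K.Normal → K ≠ ⊥ → N ≤ K) := by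
  classical
  let 𝒮 : Set (Subgroup H) := {K | K.Normal ∧ K ≠ ⊥}
  have hfin : 𝒮.Finite := Set.toFinite _
  have htop : (⊤ : Subgroup H) ≠ ⊥ := by
    intro h
    apply hP1
    exact le_bot_iff.mp (h ▸ le_top)
  have hne : 𝒮.Nonempty := ⟨⊤, inferInstance, htop⟩
  obtain ⟨N, ⟨hNn, hN⟩, hmin⟩ := Set.exists_min_image 𝒮 (fun K => Nat.card K) hfin hne
  refine ⟨N, hNn, hN, ?_⟩
  intro K hKn hK
  by_contra hNK
  have hinf : N ⊓ K = ⊥ := by
    by_contra hne'
    have hnorm : (N ⊓ K).Normal := Subgroup.normal_inf_normal N K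
    have h1 := hmin (N ⊓ K) ⟨hnorm, hne'⟩
    have h2 : N ⊓ K = N := Subgroup.eq_of_le_of_card_ge inf_le_left h1
    exact hNK (h2 ▸ inf_le_right)
  obtain ⟨y, hy1, hyP, hyK⟩ := exists_mem_inf hOp' P K hKn hK
  have hcomm : ∀ a ∈ N, a * y = y * a := fun a ha =>
    Subgroup.commute_of_normal_of_disjoint N K hNn hKn (disjoint_iff.mpr hinf) a y ha hyK
  exact not_le_normalizer hOp hOp' P N hNn hN (le_normalizer_of_commute _ hTI N y hy1 hyP hcomm)

theorem not_comm (hOp : Cfsg.pCore p H = ⊥) (hOp' : Cfsg.pPrimeCore p H = ⊥)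
    (P : Sylow p H) (hTI : TI (P : Subgroup H)) (N : Subgroup H) (hNn : N.Normal) (hN : N ≠ ⊥) :
    ¬ (∀ a ∈ N, ∀ b ∈ N, a * b = b * a) := by
  intro hab
  obtain ⟨y, hy1, hyP, hyN⟩ := exists_mem_inf hOp' P N hNn hN
  exact not_le_normalizer hOp hOp' P N hNn hN
    (le_normalizer_of_commute _ hTI N y hy1 hyP (fun a ha => hab a ha y hyN))

theorem simple_aux (hOp : Cfsg.pCore p H = ⊥) (hOp' : Cfsg.pPrimeCore p H = ⊥) (P : Sylow p H)
    (hTI : TI (P : Subgroup H)) (N : Subgroup H) (hNn : N.Normal) (hN : N ≠ ⊥)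
    (hmin : ∀ K : Subgroup H, K.Normal → K ≠ ⊥ → N ≤ K)
    (S : Subgroup H) (hSN : S ≤ N) (hS : S ≠ ⊥)
    (hSnorm : ∀ n ∈ N, ∀ s ∈ S, n * s * n⁻¹ ∈ S)
    (hSmin : ∀ A : Subgroup H, A ≤ N → A ≠ ⊥ → (∀ n ∈ N, ∀ a ∈ A, n * a * n⁻¹ ∈ A) →
      Nat.card S ≤ Nat.card A) :
    S = N := by
  classical
  by_contra hne
  have hp := (Fact.out : p.Prime)
  let c : H → Subgroup H := fun h => S.map (MulAut.conj h).toMonoidHom
  have hc_mem : ∀ h x, x ∈ c h ↔ h⁻¹ * x * h ∈ S := by
    intro h x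
    constructor
    · rintro ⟨s, hs, rfl⟩
      have : h⁻¹ * ((MulAut.conj h).toMonoidHom s) * h = s := by simp [mul_assoc]
      rw [this]; exact hs
    · intro hx
      exact ⟨h⁻¹ * x * h, hx, by simp [mul_assoc]⟩
  have hc_le : ∀ h, c h ≤ N := by
    intro h x hx
    rw [hc_mem] at hx
    have := hNn.conj_mem _ (hSN hx) h
    have e : h * (h⁻¹ * x * h) * h⁻¹ = x := by group
    rw [e] at this; exact this
  have hc_card : ∀ h, Nat.card (c h) = Nat.card S := fun h =>
    Subgroup.card_map_of_injective (MulAut.conj h).injective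
  have hc_norm : ∀ h, ∀ n ∈ N, ∀ a ∈ c h, n * a * n⁻¹ ∈ c h := by
    intro h n hn a ha
    rw [hc_mem] at ha ⊢
    have h1 : h⁻¹ * n * h ∈ N := by
      have := hNn.conj_mem n hn h⁻¹
      simpa using this
    have := hSnorm _ h1 _ ha
    have e : h⁻¹ * (n * a * n⁻¹) * h = (h⁻¹ * n * h) * (h⁻¹ * a * h) * (h⁻¹ * n * h)⁻¹ := by group
    rw [e]; exact this
  have hdich : ∀ h k, c h = c k ∨ ∀ a ∈ c h, ∀ b ∈ c k, a * b = b * a := by
    intro h k
    by_cases hbot : c h ⊓ c k = ⊥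
    · right
      intro a ha b hb
      have h1 : a * b * a⁻¹ * b⁻¹ ∈ c h ⊓ c k := by
        constructor
        · have := hc_norm h b (hc_le k hb) a⁻¹ ((c h).inv_mem ha)
          have e : a * b * a⁻¹ * b⁻¹ = a * (b * a⁻¹ * b⁻¹) := by group
          rw [e]; exact (c h).mul_mem ha this
        · have := hc_norm k a (hc_le h ha) b hb
          exact (c k).mul_mem this ((c k).inv_mem hb)
      rw [hbot, Subgroup.mem_bot] at h1
      have : a * b = (a * b * a⁻¹ * b⁻¹) * (b * a) := by group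
      rw [this, h1, one_mul]
    · left
      have hn : ∀ n ∈ N, ∀ a ∈ c h ⊓ c k, n * a * n⁻¹ ∈ c h ⊓ c k := fun n hn a ha =>
        ⟨hc_norm h n hn a ha.1, hc_norm k n hn a ha.2⟩
      have h1 := hSmin (c h ⊓ c k) (inf_le_left.trans (hc_le h)) hbot hn
      have e1 : c h ⊓ c k = c h :=
        Subgroup.eq_of_le_of_card_ge inf_le_left (by rw [hc_card]; exact h1)
      have e2 : c h ⊓ c k = c k :=
        Subgroup.eq_of_le_of_card_ge inf_le_right (by rw [hc_card]; exact h1)
      exact e1.symm.trans e2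
  let J : Subgroup H := ⨆ h, c h
  have hJn : J.Normal := by
    constructor
    intro x hx g
    have h1 : (MulAut.conj g).toMonoidHom x ∈ J.map (MulAut.conj g).toMonoidHom :=
      Subgroup.mem_map_of_mem _ hx
    have h2 : J.map (MulAut.conj g).toMonoidHom ≤ J := by
      rw [Subgroup.map_iSup]
      apply iSup_le
      intro h
      have : (c h).map (MulAut.conj g).toMonoidHom = c (g * h) := by
        ext x
        rw [hc_mem]
        constructor
        · rintro ⟨y, hy, rfl⟩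
          have hy' := (hc_mem h y).mp hy
          have e : (g * h)⁻¹ * ((MulAut.conj g).toMonoidHom y) * (g * h) = h⁻¹ * y * h := by
            simp [mul_assoc]
          rw [e]; exact hy'
        · intro hx
          refine ⟨g⁻¹ * x * g, ?_, by simp [mul_assoc]⟩
          apply (hc_mem h _).mpr
          have e : h⁻¹ * (g⁻¹ * x * g) * h = (g * h)⁻¹ * x * (g * h) := by group
          rw [e]; exact hx
      rw [this]
      exact le_iSup c (g * h)
    have h3 := h2 h1
    simpa using h3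
  have hc1 : c 1 = S := by
    ext x; rw [hc_mem]; simp
  have hSJ : S ≤ J := by
    rw [← hc1]; exact le_iSup c 1
  have hJ : J ≠ ⊥ := fun h => hS (le_bot_iff.mp (h ▸ hSJ))
  have hNJ : N ≤ J := hmin J hJn hJ
  have hex : ∃ h, c h ≠ S := by
    by_contra hall
    simp only [not_exists, not_not] at hall
    have hSn : S.Normal := by
      constructor
      intro s hs g
      have : g * s * g⁻¹ ∈ c g := ⟨s, hs, by simp⟩
      rw [hall g] at this; exact this
    exact hne (le_antisymm hSN (hmin S hSn hS))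
  obtain ⟨h₀, hh₀⟩ := hex
  have hex' : ∀ g, ∃ k, c k ≠ c g := by
    intro g
    refine ⟨g * h₀, ?_⟩
    intro heq
    apply hh₀
    ext x
    have h1 : g * x * g⁻¹ ∈ c (g * h₀) ↔ g * x * g⁻¹ ∈ c g := by rw [heq]
    rw [hc_mem, hc_mem] at h1
    rw [hc_mem]
    have e1 : (g * h₀)⁻¹ * (g * x * g⁻¹) * (g * h₀) = h₀⁻¹ * x * h₀ := by group
    have e2 : g⁻¹ * (g * x * g⁻¹) * g = x := by group
    rw [e1, e2] at h1
    exact h1
  by_cases hpS : p ∣ Nat.card S
  · -- Case A
    obtain ⟨s, hs⟩ := exists_prime_orderOf_dvd_card' p hpS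
    have hs' : orderOf (s : H) = p := by rw [Subgroup.orderOf_coe]; exact hs
    have hpg : IsPGroup p (Subgroup.zpowers (s : H)) := by
      apply isPGroup_zpowers (s : H) 1
      rw [pow_one, ← hs', pow_orderOf_eq_one]
    obtain ⟨g, hg⟩ := exists_conj_mem P (s : H) hpg
    have hy1mem : g * s * g⁻¹ ∈ c g := ⟨s, s.2, by simp⟩
    have hy1ne : g * (s : H) * g⁻¹ ≠ 1 := by
      intro h
      have h1 : (s : H) = 1 := by
        have : (s : H) = g⁻¹ * (g * s * g⁻¹) * g := by group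
        rw [this, h]; group
      rw [h1, orderOf_one] at hs'
      exact hp.one_lt.ne hs'
    have hA : ∀ k, c k ≠ c g → c k ≤ Subgroup.normalizer ((P : Subgroup H) : Set H) := by
      intro k hk
      apply le_normalizer_of_commute _ hTI (c k) _ hy1ne hg
      intro a ha
      rcases hdich k g with h | h
      · exact absurd h hk
      · exact h a ha _ hy1mem
    obtain ⟨k₀, hk₀⟩ := hex' g
    have hk₀N := hA k₀ hk₀
    have hpk : p ∣ Nat.card (c k₀) := by rw [hc_card]; exact hpS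
    obtain ⟨t, ht⟩ := exists_prime_orderOf_dvd_card' p hpk
    have ht' : orderOf (t : H) = p := by rw [Subgroup.orderOf_coe]; exact ht
    have hpgt : IsPGroup p (Subgroup.zpowers (t : H)) := by
      apply isPGroup_zpowers (t : H) 1
      rw [pow_one, ← ht', pow_orderOf_eq_one]
    have htP : (t : H) ∈ (P : Subgroup H) := mem_of_mem_normalizer P _ (hk₀N t.2) hpgt
    have htne : (t : H) ≠ 1 := by
      intro h; rw [h, orderOf_one] at ht'; exact hp.one_lt.ne ht'
    have hgN : c g ≤ Subgroup.normalizer ((P : Subgroup H) : Set H) := by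
      apply le_normalizer_of_commute _ hTI (c g) _ htne htP
      intro a ha
      rcases hdich g k₀ with h | h
      · exact absurd h.symm hk₀
      · exact h a ha _ t.2
    have hall : ∀ k, c k ≤ Subgroup.normalizer ((P : Subgroup H) : Set H) := by
      intro k
      by_cases hk : c k = c g
      · rw [hk]; exact hgN
      · exact hA k hk
    have hJle : J ≤ Subgroup.normalizer ((P : Subgroup H) : Set H) := iSup_le hall
    exact not_le_normalizer hOp hOp' P N hNn hN (hNJ.trans hJle)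
  · -- Case B
    let ι := ↥(Set.range c)
    have : Fintype ι := Fintype.ofFinite _
    have hcomm : Pairwise fun i j : ι => ∀ x y : H, x ∈ i.1 → y ∈ j.1 → Commute x y := by
      rintro ⟨_, ⟨h, rfl⟩⟩ ⟨_, ⟨k, rfl⟩⟩ hij x y hx hy
      rcases hdich h k with e | e
      · exact absurd (Subtype.ext e) hij
      · exact e x hx y hy
    have hJeq : J = ⨆ i : ι, i.1 := by
      simp only [J, ι]
      exact (iSup_range' (fun T : Subgroup H => T) c).symm
    have hpow : ∀ x ∈ J, x ^ Nat.card S = 1 := by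
      intro x hx
      rw [hJeq, ← Subgroup.noncommPiCoprod_range (hcomm := hcomm)] at hx
      obtain ⟨u, rfl⟩ := hx
      rw [← map_pow]
      have : u ^ Nat.card S = 1 := by
        funext i
        obtain ⟨_, ⟨h, rfl⟩⟩ := i
        simp only [Pi.pow_apply, Pi.one_apply]
        rw [← hc_card h]
        exact pow_card_eq_one'
      rw [this, map_one]
    obtain ⟨y, hy1, hyP, hyN⟩ := exists_mem_inf hOp' P N hNn hN
    obtain ⟨k, hk⟩ := P.isPGroup' ⟨y, hyP⟩
    have hk' : y ^ p ^ k = 1 := by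
      have := congrArg Subtype.val hk
      simpa using this
    have h1 : orderOf y ∣ Nat.card S := orderOf_dvd_of_pow_eq_one (hpow y (hNJ hyN))
    have h2 : orderOf y ∣ p ^ k := orderOf_dvd_of_pow_eq_one hk'
    have h3 : Nat.Coprime (Nat.card S) (p ^ k) :=
      Nat.Coprime.pow_right k (Nat.Coprime.symm ((Nat.Prime.coprime_iff_not_dvd hp).mpr hpS))
    have h4 : orderOf y = 1 := Nat.eq_one_of_dvd_coprimes h3 h1 h2
    exact hy1 (orderOf_eq_one_iff.mp h4)

omit [Finite H] in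
theorem dvd_card_of_normal (hOp' : Cfsg.pPrimeCore p H = ⊥) (K : Subgroup H)
    (hKn : K.Normal) (hK : K ≠ ⊥) : p ∣ Nat.card K := by
  have hp := (Fact.out : p.Prime)
  by_contra h
  apply hK
  have : K ≤ Cfsg.pPrimeCore p H :=
    le_sSup ⟨hKn, (Nat.Coprime.symm ((Nat.Prime.coprime_iff_not_dvd hp).mpr h))⟩
  rw [hOp'] at this
  exact le_bot_iff.mp this

/-- Let H be a finite group with no nontrivial normal p-subgroup and no nontrivial normal subgroup of order prime to p, whose Sylow p-subgroup P is nontrivial and a trivial-intersection set (P meets its conjugates by elements outside N_H(P) trivially). Then H has a unique minimal normal subgroup N; N is non-abelian simple with trivial centralizer in H (so H embeds in Aut(N)), and a Sylow p-subgroup of N is again a nontrivial trivial-intersection set in N. -/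
theorem result {H : Type*} [Group H] [Finite H] (p : ℕ) [Fact p.Prime] (hOp : Cfsg.pCore p H = ⊥) (hOp' : Cfsg.pPrimeCore p H = ⊥) (P : Sylow p H) (hP1 : (P : Subgroup H) ≠ ⊥)
    (hTI : ∀ g : H, g ∉ Subgroup.normalizer ((P : Subgroup H) : Set H) → (P : Subgroup H) ⊓ (MulAut.conj g • (P : Subgroup H)) = ⊥) :
    ∃ N : Subgroup H, N.Normal ∧ N ≠ ⊥ ∧ (∀ K : Subgroup H, K.Normal → K ≠ ⊥ → N ≤ K) ∧
      IsSimpleGroup N ∧ ¬ IsMulCommutative N ∧ Subgroup.centralizer (N : Set H) = ⊥ ∧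
      ∀ Q : Sylow p N, (Q : Subgroup N) ≠ ⊥ ∧
        ∀ n : N, n ∉ Subgroup.normalizer ((Q : Subgroup N) : Set N) → (Q : Subgroup N) ⊓ (MulAut.conj n • (Q : Subgroup N)) = ⊥ := by
  classical
  have hp := (Fact.out : p.Prime)
  have hTI' : TI (P : Subgroup H) := ti_of_hTI _ hTI
  obtain ⟨N, hNn, hN, hmin⟩ := exists_min_normal hOp hOp' P hP1 hTI'
  have hnc := not_comm hOp hOp' P hTI' N hNn hN
  refine ⟨N, hNn, hN, hmin, ?_, ?_, ?_, ?_⟩
  · -- simple
    have hnt : Nontrivial N := (Subgroup.nontrivial_iff_ne_bot N).mpr hN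
    refine ⟨fun S₁ hS₁n => ?_⟩
    by_contra hcon
    rw [not_or] at hcon
    obtain ⟨hS₁, hS₁'⟩ := hcon
    let 𝒯 : Set (Subgroup N) := {T | T.Normal ∧ T ≠ ⊥}
    obtain ⟨S₀, ⟨hS₀n, hS₀⟩, hS₀min⟩ :=
      Set.exists_min_image 𝒯 (fun T => Nat.card T) (Set.toFinite _) ⟨S₁, hS₁n, hS₁⟩
    let S : Subgroup H := S₀.map N.subtype
    have hSN : S ≤ N := by
      rintro _ ⟨s, -, rfl⟩; exact s.2
    have hScard : Nat.card S = Nat.card S₀ :=
      Subgroup.card_map_of_injective N.subtype_injective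
    have hSne : S ≠ ⊥ := by
      intro h; apply hS₀
      exact (Subgroup.map_eq_bot_iff_of_injective S₀ N.subtype_injective).mp h
    have hSnorm : ∀ n ∈ N, ∀ s ∈ S, n * s * n⁻¹ ∈ S := by
      rintro n hn _ ⟨s, hs, rfl⟩
      exact ⟨⟨n, hn⟩ * s * ⟨n, hn⟩⁻¹, hS₀n.conj_mem s hs ⟨n, hn⟩, by simp⟩
    have hSmin : ∀ A : Subgroup H, A ≤ N → A ≠ ⊥ → (∀ n ∈ N, ∀ a ∈ A, n * a * n⁻¹ ∈ A) →
        Nat.card S ≤ Nat.card A := by
      intro A hAN hA hAnorm
      have hAn : (A.subgroupOf N).Normal := by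
        constructor
        intro a ha n
        exact hAnorm n n.2 a ha
      have hAne : A.subgroupOf N ≠ ⊥ := by
        intro h
        apply hA
        rw [Subgroup.subgroupOf_eq_bot] at h
        have h2 : A ⊓ N = ⊥ := disjoint_iff.mp h
        rw [inf_eq_left.mpr hAN] at h2
        exact h2
      have := hS₀min (A.subgroupOf N) ⟨hAn, hAne⟩
      rw [hScard]
      calc Nat.card S₀ ≤ Nat.card (A.subgroupOf N) := this
        _ = Nat.card A := Nat.card_congr (Subgroup.subgroupOfEquivOfLe hAN).toEquiv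
    have hSeq : S = N := simple_aux hOp hOp' P hTI' N hNn hN hmin S hSN hSne hSnorm hSmin
    have hcardN : Nat.card S₀ = Nat.card N := by rw [← hScard, hSeq]
    have h1 := hS₀min S₁ ⟨hS₁n, hS₁⟩
    apply hS₁'
    apply Subgroup.eq_top_of_card_eq
    apply le_antisymm (Subgroup.card_le_card_group S₁)
    rw [← hcardN]; exact h1
  · -- not commutative
    intro hc
    apply hnc
    intro a ha b hb
    have := (isMulCommutative_iff.mp hc) ⟨a, ha⟩ ⟨b, hb⟩
    exact congrArg Subtype.val this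
  · -- centralizer
    by_contra hC
    have hCn : (Subgroup.centralizer (N : Set H)).Normal := by
      exact @Subgroup.normal_centralizer H _ N hNn
    have hle := hmin _ hCn hC
    apply hnc
    intro a ha b hb
    exact (Subgroup.mem_centralizer_iff.mp (hle hb)) a ha
  · -- Sylow subgroups of N
    intro Q
    have hdvd : p ∣ Nat.card N := dvd_card_of_normal hOp' N hNn hN
    refine ⟨Q.ne_bot_of_dvd_card hdvd, ?_⟩
    intro n hn
    by_contra hne
    obtain ⟨⟨x, hx⟩, hx1⟩ := (Subgroup.ne_bot_iff_exists_ne_one).mp hne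
    obtain ⟨hxQ, hxnQ⟩ := Subgroup.mem_inf.mp hx
    rw [Subgroup.mem_pointwise_smul_iff_inv_smul_mem] at hxnQ
    simp only [MulAut.smul_def, MulAut.conj_inv_apply] at hxnQ
    have hQ'pg : IsPGroup p ((Q : Subgroup N).map N.subtype) := Q.isPGroup'.map N.subtype
    obtain ⟨P', hP'⟩ := hQ'pg.exists_le_sylow
    obtain ⟨g, hg⟩ := MulAction.exists_smul_eq H P P'
    have hTIP' : TI (P' : Subgroup H) := by
      rw [← hg, Sylow.coe_subgroup_smul]; exact ti_conj _ hTI' g
    have hnN : (n : H) ∈ Subgroup.normalizer ((P' : Subgroup H) : Set H) := by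
      apply hTIP' (n : H) (x : H)
      · intro h
        apply hx1
        apply Subtype.ext
        exact Subtype.ext h
      · exact hP' ⟨x, hxQ, rfl⟩
      · exact hP' ⟨n⁻¹ * x * n, hxnQ, by simp⟩
    apply hn
    have hQeq : (Q : Subgroup N) = (P' : Subgroup H).subgroupOf N := by
      have hpg2 : IsPGroup p ((P' : Subgroup H).subgroupOf N) := P'.isPGroup'.comap_subtype
      have hle : (Q : Subgroup N) ≤ (P' : Subgroup H).subgroupOf N := fun q hq => hP' ⟨q, hq, rfl⟩
      exact (Q.is_maximal' hpg2 hle).symm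
    rw [hQeq, Subgroup.mem_normalizer_iff]
    intro h
    have := (Subgroup.mem_normalizer_iff.mp hnN) (h : H)
    simpa [Subgroup.mem_subgroupOf] using this

end Cfsg.Agent.S4620
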