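import Cfsg.Statements.S4623
import Cfsg.Agent.Helper28.SylG3
import Cfsg.Agent.Helper28.SylG4
import Cfsg.Agent.Helper28.SylG5
import Cfsg.Agent.Helper28.SylG7
import Cfsg.Agent.Helper28.SylG8

set_option autoImplicit false
open Cfsg

namespace Cfsg.Agent.S4623

theorem exists_gen (p : ℕ) [Fact p.Prime] : ∀ n : ℕ, ∃ H : Subgroup (Equiv.Perm (Fin n)),
    Nat.card H = p ^ padicValNat p n.factorial ∧
    H ≤ Subgroup.closure {x | x ∈ H ∧ x ^ p = 1} ∧
    H ⊓ alternatingGroup (Fin n) ≤
      Subgroup.closure {x | x ∈ H ⊓ alternatingGroup (Fin n) ∧ x ^ p = 1} := by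
  intro n
  induction n using Nat.strong_induction_on with
  | _ n ih =>
    have hp : p.Prime := Fact.out
    by_cases hnp : n < p
    · refine ⟨⊥, ?_, bot_le, ?_⟩
      · have h0 : padicValNat p n.factorial = 0 := by
          apply padicValNat.eq_zero_of_not_dvd
          rw [hp.dvd_factorial]; omega
        rw [h0, pow_zero, Subgroup.card_bot]
      · rw [bot_inf_eq]; exact bot_le
    · have hnp' : p ≤ n := not_lt.mp hnp
      have hm : n / p < n := Nat.div_lt_self (by have := hp.pos; omega) hp.one_lt
      obtain ⟨R, hRc, hRg, -⟩ := ih (n / p) hm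
      obtain ⟨K, hKc, hKg, hKa⟩ :=
        Cfsg.Agent.Helper28.SylG3.wreath_step p (n / p) R hRg
      have hn : n = p * (n / p) + n % p := (Nat.div_add_mod n p).symm
      obtain ⟨H, hHc, hHg, hHa⟩ :=
        Cfsg.Agent.Helper28.SylG4.embed_step p (n / p) (n % p) n hn K
      have hv := Cfsg.Agent.Helper28.SylG5.val_step p (n / p) (n % p) (Nat.mod_lt n hp.pos)
      rw [← hn] at hv
      have hcard : Nat.card H = p ^ padicValNat p n.factorial := by
        rw [hHc, hKc, hRc, ← pow_add, hv]
      refine ⟨H, hcard, hHg hKg, ?_⟩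
      by_cases hp2 : p = 2
      · exact hHa (hKa hp2)
      · have hle : H ≤ alternatingGroup (Fin n) :=
          Cfsg.Agent.Helper28.SylG5.le_alt_of_odd p hp2 H (IsPGroup.of_card hcard)
        rw [inf_eq_left.mpr hle]
        exact hHg hKg


/-- For every prime p and every n, a Sylow p-subgroup P of the symmetric group on n letters has P/P' elementary abelian (the p-th power of every element of P lies in the derived subgroup of P), and the same holds for a Sylow p-subgroup of the alternating group on n letters. -/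
theorem result (p : ℕ) [Fact p.Prime] (n : ℕ) (P : Sylow p (Equiv.Perm (Fin n))) (Q : Sylow p (alternatingGroup (Fin n))) :
    (∀ x : (P : Subgroup (Equiv.Perm (Fin n))), x ^ p ∈ commutator (P : Subgroup (Equiv.Perm (Fin n)))) ∧
    (∀ x : (Q : Subgroup (alternatingGroup (Fin n))), x ^ p ∈ commutator (Q : Subgroup (alternatingGroup (Fin n)))) := by
  obtain ⟨H, hc, hg, ha⟩ := exists_gen p n
  exact ⟨Cfsg.Agent.Helper28.SylG7.sym_part p n H hc hg P,
    Cfsg.Agent.Helper28.SylG8.alt_part p n H hc ha Q⟩

end Cfsg.Agent.S4623
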