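import Cfsg.Statements.S4654
import Cfsg.Agent.Helper24.BP6

set_option autoImplicit false
open Cfsg

namespace Cfsg.Agent.S4654

/-- Fix a prime p and a maximal ideal M of the algebraic integers containing p. Let P be a normal p-subgroup of the finite group G, B a p-block of G and e a p-block of C_G(P) such that (P, e) is a Brauer pair of B (as P is normal, this says that e occurs in the idempotent of B, which is supported on C_G(P)). Let T be the stabilizer of e in G under conjugation. Then the idempotent of e is a block idempotent of T: some block E of T has, at every element of T, the same idempotent coefficient as e (zero off C_G(P)); and the idempotent of B is the sum of the distinct G-conjugates of the idempotent of e: its coefficient at g is the sum over all x in G of the coefficient of e at x⁻¹ g x, divided by the order of T. -/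
theorem result {G : Type*} [Group G] [Fintype G] (p : ℕ) [Fact p.Prime] (M : Ideal Cfsg.AlgInt) (hM : Cfsg.IsPModular p M) (P : Subgroup G) [P.Normal] (hP : IsPGroup p P) (B : Set (Cfsg.IrrCharacter G)) (e : Set (Cfsg.IrrCharacter (Subgroup.centralizer (P : Set G)))) (hBe : Cfsg.IsBrauerPairOf p M B P e) (T : Subgroup G) (hT : ∀ x : G, x ∈ T ↔ Cfsg.StabilizesBlock (Subgroup.centralizer (P : Set G)) e x) : (∃ E : Set (Cfsg.IrrCharacter T), Cfsg.IsPBlock M E ∧ ∀ t : T, Cfsg.blockCoeff E t = Cfsg.subgroupBlockCoeff (Subgroup.centralizer (P : Set G)) e (t : G)) ∧ ∀ g : G, Cfsg.blockCoeff B g = (Nat.card T : ℂ)⁻¹ * ∑ x : G, Cfsg.subgroupBlockCoeff (Subgroup.centralizer (P : Set G)) e (x⁻¹ * g * x) := by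
  haveI hMp : M.IsPrime := hM.2.1.isPrime
  refine ⟨?_, fun g => Cfsg.Agent.Helper24.bp_orbit_G hM P hP B e hBe T hT g⟩
  obtain ⟨θ₀, he⟩ := hBe.1.2
  have hPT : P ≤ T := by
    intro x hx
    rw [hT]
    exact (Cfsg.Agent.Helper24.bp_refl_normal P e hBe.1).2.2.2.2.1 x hx
  have hCT : Subgroup.centralizer (P : Set G) ≤ T := by
    intro x hx
    rw [hT]
    refine ⟨Subgroup.le_normalizer hx, fun χ hχ => ⟨χ, hχ, ?_⟩⟩
    intro k k' hkk'
    have e1 : k' = (⟨x, hx⟩ : Subgroup.centralizer (P : Set G)) * k
        * (⟨x, hx⟩ : Subgroup.centralizer (P : Set G))⁻¹ := Subtype.ext hkk'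
    rw [e1]
    exact Cfsg.Agent.Helper24.irr_conj χ k ⟨x, hx⟩
  have hTN : T ≤ Subgroup.normalizer (P : Set G) := by
    intro x _
    rw [Subgroup.mem_normalizer_iff]
    intro h
    constructor
    · intro hh
      exact (inferInstance : P.Normal).conj_mem h hh x
    · intro hh
      have h2 := (inferInstance : P.Normal).conj_mem _ hh x⁻¹
      have e1 : x⁻¹ * (x * h * x⁻¹) * x⁻¹⁻¹ = h := by group
      rwa [e1] at h2
  obtain ⟨χ₁, h1⟩ := Cfsg.Agent.Helper24.bp_orbit_H hM P T hP hPT hTN hCT θ₀ e (by
    intro θ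
    rw [← he]
    exact Cfsg.Agent.Helper24.bp_stab_orbit _ T e (fun x hx => (hT x).mp hx) θ)
  exact ⟨blockOf M (χ₁ : T → ℂ), ⟨χ₁, rfl⟩, h1⟩

end Cfsg.Agent.S4654
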