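import Cfsg.Statements.S4669
import Cfsg.Agent.Helper22.BlkCentral
import Cfsg.Agent.Helper22.BlkRank

set_option autoImplicit false
open Cfsg
open Cfsg.Agent.Helper5 Cfsg.Agent.Helper24 Cfsg.Agent.Helper22

namespace Cfsg.Agent.S4669

/-- Fix a prime p and a maximal ideal M of the algebraic integers containing p. If the p-block B of the finite group G has a defect group P contained in the centre of G, then B has p-regular rank one (a single irreducible Brauer character). -/
theorem result {G : Type*} [Group G] [Fintype G] (p : ℕ) [Fact p.Prime] (M : Ideal Cfsg.AlgInt) (hM : Cfsg.IsPModular p M) (B : Set (Cfsg.IrrCharacter G)) (hB : Cfsg.IsPBlock M B) (P : Subgroup G) (hD : Cfsg.IsDefectGroup p M B P) (hPZ : P ≤ Subgroup.center G) : Cfsg.blockRank p B = 1 := by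
  classical
  haveI hMp : M.IsPrime := hM.2.1.isPrime
  have hp : p.Prime := Fact.out
  obtain ⟨χ₀, rfl⟩ := hB
  have hχ₀ : SameBlock M (χ₀ : G → ℂ) (χ₀ : G → ℂ) := sameBlock_refl _
  have himg : (fun χ : IrrCharacter G => pRegularPart p (χ : G → ℂ)) '' blockOf M (χ₀ : G → ℂ) =
      {pRegularPart p (χ₀ : G → ℂ)} := by
    ext f
    constructor
    · rintro ⟨χ, hχ, rfl⟩
      rw [Set.mem_singleton_iff]
      show pRegularPart p (χ : G → ℂ) = pRegularPart p (χ₀ : G → ℂ)
      funext g
      by_cases hg : p ∣ orderOf g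
      · rw [pRegularPart_of_sing p _ hg, pRegularPart_of_sing p _ hg]
      · rw [pRegularPart_of_reg p _ hg, pRegularPart_of_reg p _ hg]
        exact (central_defect_facts hM χ₀ P hD hPZ χ χ₀ hχ hχ₀).2.2 g hg
    · intro hf
      rw [Set.mem_singleton_iff] at hf
      exact ⟨χ₀, hχ₀, hf.symm⟩
  have hv : pRegularPart p (χ₀ : G → ℂ) ≠ 0 := by
    intro hz
    have h4 := congrFun hz 1
    rw [pRegularPart_of_reg p _ (by rw [orderOf_one]; exact hp.not_dvd_one)] at h4
    exact Cfsg.Agent.Helper5.irr_one_ne_zero χ₀ h4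
  unfold blockRank
  rw [himg]
  exact finrank_span_singleton hv

end Cfsg.Agent.S4669
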