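import Cfsg.Statements.S4683
import Cfsg.Agent.Helper22.BlkSubsec
import Cfsg.Agent.Helper5.BlkBr
import Cfsg.Agent.Helper5.BlkBr2
import Cfsg.Agent.Helper5.BlkNorm

set_option autoImplicit false
open Cfsg
open Cfsg.Agent.Helper5 Cfsg.Agent.Helper24 Cfsg.Agent.Helper22

namespace Cfsg.Agent.S4683

/-- Fix a prime p and a maximal ideal M of the algebraic integers containing p, a p-block B of the finite group G, a p-element u and a p-block e of C = C_G(u) such that (⟨u⟩, e) is a Brauer pair of B (a Brauer element of B). For χ ∈ B let χ_u be the e-part of the class function c ↦ χ(u c) on C and χ_u' the e-part of c ↦ χ(u⁻¹ c). Then the sum over χ ∈ B and over the p-regular elements s of C of χ_u(s)·χ_u'(s⁻¹) equals the order of C times the p-regular rank of e (the number of irreducible Brauer characters of e). -/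
theorem result {G : Type*} [Group G] [Fintype G] (p : ℕ) [Fact p.Prime] (M : Ideal Cfsg.AlgInt) (hM : Cfsg.IsPModular p M) (B : Set (Cfsg.IrrCharacter G)) (u : G) (hu : ∃ k : ℕ, orderOf u = p ^ k) (e : Set (Cfsg.IrrCharacter (Subgroup.centralizer (Subgroup.zpowers u : Set G)))) (hBe : Cfsg.IsBrauerPairOf p M B (Subgroup.zpowers u) e) : ∑ᶠ χ ∈ B, ∑ᶠ s : Subgroup.centralizer (Subgroup.zpowers u : Set G), Cfsg.pRegularPart p (Cfsg.blockPart e (fun c : Subgroup.centralizer (Subgroup.zpowers u : Set G) => (χ : G → ℂ) (u * c))) s * Cfsg.blockPart e (fun c : Subgroup.centralizer (Subgroup.zpowers u : Set G) => (χ : G → ℂ) (u⁻¹ * c)) s⁻¹ = (Nat.card (Subgroup.centralizer (Subgroup.zpowers u : Set G)) : ℂ) * (Cfsg.blockRank p e : ℂ) := by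
  classical
  haveI hMp : M.IsPrime := hM.2.1.isPrime
  have hp : p.Prime := Fact.out
  obtain ⟨⟨hPg, ⟨ξ₀, rfl⟩⟩, ⟨χ₀, rfl⟩, hom⟩ := hBe
  haveI : Fintype ↥(Subgroup.centralizer (Subgroup.zpowers u : Set G)) := Fintype.ofFinite _
  have hH : ∀ g : G, g ∈ (Subgroup.centralizer (Subgroup.zpowers u : Set G)) ↔ g * u = u * g := by
    intro g
    rw [Subgroup.mem_centralizer_iff]
    constructor
    · intro h
      exact (h u (Subgroup.mem_zpowers u)).symm
    · intro h x hx
      obtain ⟨k, rfl⟩ := Subgroup.mem_zpowers_iff.mp hx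
      exact (Commute.zpow_left (show Commute u g from h.symm) k).eq
  have hPH : Subgroup.zpowers u ≤ (Subgroup.centralizer (Subgroup.zpowers u : Set G)) := by
    intro x hx
    rw [hH]
    obtain ⟨k, rfl⟩ := Subgroup.mem_zpowers_iff.mp hx
    exact (Commute.zpow_left (Commute.refl u) k).eq
  have hHN : (Subgroup.centralizer (Subgroup.zpowers u : Set G)) ≤ Subgroup.normalizer ((Subgroup.zpowers u : Subgroup G) : Set G) :=
    Subgroup.centralizer_le_normalizer _
  obtain ⟨χ₁, hbr⟩ := exists_brauer_block hM (Subgroup.zpowers u) (Subgroup.centralizer (Subgroup.zpowers u : Set G)) hPg (le_refl _) hHN ξ₀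
  have hind₁ := induced_of_brauer_congr hM (Subgroup.zpowers u) (Subgroup.centralizer (Subgroup.zpowers u : Set G)) hPg hPH hHN ξ₀ χ₁ hbr
  have hχ₁ : SameBlock M (χ₀ : G → ℂ) (χ₁ : G → ℂ) := by
    by_contra hnot
    obtain ⟨ι, hι⟩ := exists_class_reps G
    obtain ⟨c, hcdef⟩ : ∃ c : IrrCharacter G → ℂ,
        c = fun ψ => if ψ ∈ blockOf M (χ₀ : G → ℂ) then (1 : ℂ) else 0 := ⟨_, rfl⟩
    have hβ : ∀ g : G, blockCoeff (blockOf M (χ₀ : G → ℂ)) g = specFun c g := fun g =>
      blockCoeff_eq_specFun _ c (fun ψ h => by rw [hcdef]; exact if_pos h)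
        (fun ψ h => by rw [hcdef]; exact if_neg h) g
    have hβ' : blockCoeff (blockOf M (χ₀ : G → ℂ)) = specFun c := funext hβ
    have hR : ∀ g : G, MemLocalRing M (specFun c g) := fun g => by
      rw [← hβ g]; exact blockCoeff_memLocalRing χ₀ g
    rw [hβ'] at hom
    have hF : IsClassFunction G (specFun c) := specFun_isClassFunction c
    have h1 := sum_reps_induced (Subgroup.centralizer (Subgroup.zpowers u : Set G)) (ξ₀ : ↥(Subgroup.centralizer (Subgroup.zpowers u : Set G)) → ℂ) (specFun c) hF ι hι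
    have h2 := classFun_value hF ι hι χ₁
    have h3 : ((χ₁ : G → ℂ) 1)⁻¹ * ∑ g : G, specFun c g * (χ₁ : G → ℂ) g = 0 := by
      have hc0 : c χ₁ = 0 := by rw [hcdef]; exact if_neg hnot
      rw [spec_inversion c χ₁, hc0, zero_mul, mul_zero]
    have h4 : MemLocalIdeal M (∑ r ∈ ι, specFun c r * inducedCentralChar (Subgroup.centralizer (Subgroup.zpowers u : Set G)) (ξ₀ : ↥(Subgroup.centralizer (Subgroup.zpowers u : Set G)) → ℂ) r -
        ∑ r ∈ ι, specFun c r * centralChar (χ₁ : G → ℂ) r) := by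
      rw [← Finset.sum_sub_distrib]
      refine memLocalIdeal_sum _ _ fun r _ => ?_
      rw [← mul_sub]
      exact memLocalIdeal_mul_left (hR r)
        (hind₁.2.2 ξ₀ (sameBlock_refl _) χ₁ (sameBlock_refl _) r)
    rw [← h2, h3, h1, sub_zero] at h4
    have h5 := hom ξ₀ (sameBlock_refl _)
    have h6 : brauerOmega (Subgroup.zpowers u) (specFun c) (ξ₀ : ↥(Subgroup.centralizer (Subgroup.zpowers u : Set G)) → ℂ) =
        ((ξ₀ : ↥(Subgroup.centralizer (Subgroup.zpowers u : Set G)) → ℂ) 1)⁻¹ * ∑ k : ↥(Subgroup.centralizer (Subgroup.zpowers u : Set G)), specFun c ↑k * (ξ₀ : ↥(Subgroup.centralizer (Subgroup.zpowers u : Set G)) → ℂ) k := by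
      unfold brauerOmega
      rw [finsum_eq_sum_of_fintype, Finset.mul_sum]
      exact Finset.sum_congr rfl fun k _ => div_eq_inv_mul _ _
    rw [h6] at h5
    have h7 := memLocalIdeal_sub h4 h5
    rw [sub_sub_cancel] at h7
    exact not_memLocalIdeal_one h7
  have hBeq : blockOf M (χ₁ : G → ℂ) = blockOf M (χ₀ : G → ℂ) :=
    (blockOf_eq_of_sameBlock hχ₁).symm
  rw [hBeq] at hind₁
  have hcomm : ∀ h : ↥(Subgroup.centralizer (Subgroup.zpowers u : Set G)), (h : G) * u = u * (h : G) := fun h => (hH h).mp h.2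
  have hcomm' : ∀ h : ↥(Subgroup.centralizer (Subgroup.zpowers u : Set G)), (h : G) * u⁻¹ = u⁻¹ * (h : G) := fun h =>
    (Commute.inv_right (show Commute (h : G) u from hcomm h)).eq
  have huH : u ∈ (Subgroup.centralizer (Subgroup.zpowers u : Set G)) := (hH u).mpr rfl
  have hsmt : ∀ χ : IrrCharacter G, χ ∉ blockOf M (χ₀ : G → ℂ) → ∀ s : ↥(Subgroup.centralizer (Subgroup.zpowers u : Set G)), ¬ p ∣ orderOf s →
      blockPart (blockOf M (ξ₀ : ↥(Subgroup.centralizer (Subgroup.zpowers u : Set G)) → ℂ)) (fun c : ↥(Subgroup.centralizer (Subgroup.zpowers u : Set G)) => (χ : G → ℂ) (u * c)) s = 0 := by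
    intro χ hχ s hs
    rw [blockPart_eq_sum _ _ (shift_isClassFunction (Subgroup.centralizer (Subgroup.zpowers u : Set G)) u hcomm χ) s]
    have hsG : ¬ p ∣ orderOf (s : G) := by rw [Subgroup.orderOf_coe]; exact hs
    have hsu : (s : G) * u = u * (s : G) := hcomm s
    have hC : ∀ z : G, IsPPart p (((⟨u, huH⟩ : ↥(Subgroup.centralizer (Subgroup.zpowers u : Set G))) * s : ↥(Subgroup.centralizer (Subgroup.zpowers u : Set G))) : G) z →
        Subgroup.centralizer ({z} : Set G) ≤ (Subgroup.centralizer (Subgroup.zpowers u : Set G)) := by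
      intro z hz
      have h1 : IsPPart p (u * (s : G)) u := ⟨(s : G), rfl, hsu.symm, hu, hsG⟩
      have hz' : IsPPart p (u * (s : G)) z := hz
      have hzu : z = u := isPPart_unique hp hz' h1
      rw [hzu]
      intro g hg
      rw [Subgroup.mem_centralizer_singleton_iff] at hg
      exact (hH g).mpr hg
    have hkey := second_main_key hM (Subgroup.centralizer (Subgroup.zpowers u : Set G)) ξ₀ χ₀ hind₁ ((⟨u, huH⟩ : ↥(Subgroup.centralizer (Subgroup.zpowers u : Set G))) * s) hC χ hχ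
    refine Eq.trans (Finset.sum_congr rfl fun k _ => ?_) hkey
    have e : u * ((k * s : ↥(Subgroup.centralizer (Subgroup.zpowers u : Set G))) : G) = (k : G) * (((⟨u, huH⟩ : ↥(Subgroup.centralizer (Subgroup.zpowers u : Set G))) * s : ↥(Subgroup.centralizer (Subgroup.zpowers u : Set G))) : G) := by
      show u * ((k : G) * (s : G)) = (k : G) * (u * (s : G))
      rw [← mul_assoc, ← mul_assoc, hcomm k]
    show blockCoeff _ k * (χ : G → ℂ) (u * ((k * s : ↥(Subgroup.centralizer (Subgroup.zpowers u : Set G))) : G)) = _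
    rw [e]
  have hinner : ∀ χ : IrrCharacter G,
      (∑ᶠ s : ↥(Subgroup.centralizer (Subgroup.zpowers u : Set G)), pRegularPart p (blockPart (blockOf M (ξ₀ : ↥(Subgroup.centralizer (Subgroup.zpowers u : Set G)) → ℂ))
        (fun c : ↥(Subgroup.centralizer (Subgroup.zpowers u : Set G)) => (χ : G → ℂ) (u * c))) s *
        blockPart (blockOf M (ξ₀ : ↥(Subgroup.centralizer (Subgroup.zpowers u : Set G)) → ℂ)) (fun c : ↥(Subgroup.centralizer (Subgroup.zpowers u : Set G)) => (χ : G → ℂ) (u⁻¹ * c)) s⁻¹) =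
      ∑ s : ↥(Subgroup.centralizer (Subgroup.zpowers u : Set G)), pRegularPart p (blockPart (blockOf M (ξ₀ : ↥(Subgroup.centralizer (Subgroup.zpowers u : Set G)) → ℂ))
        (fun c : ↥(Subgroup.centralizer (Subgroup.zpowers u : Set G)) => (χ : G → ℂ) (u * c))) s * (χ : G → ℂ) (u⁻¹ * ((s⁻¹ : ↥(Subgroup.centralizer (Subgroup.zpowers u : Set G))) : G)) := by
    intro χ
    rw [finsum_eq_sum_of_fintype]
    exact reg_pair_strip hM ξ₀ _ _ (shift_isClassFunction (Subgroup.centralizer (Subgroup.zpowers u : Set G)) u⁻¹ hcomm' χ)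
  have hzero : ∀ χ : IrrCharacter G, χ ∉ blockOf M (χ₀ : G → ℂ) →
      ∑ s : ↥(Subgroup.centralizer (Subgroup.zpowers u : Set G)), pRegularPart p (blockPart (blockOf M (ξ₀ : ↥(Subgroup.centralizer (Subgroup.zpowers u : Set G)) → ℂ))
        (fun c : ↥(Subgroup.centralizer (Subgroup.zpowers u : Set G)) => (χ : G → ℂ) (u * c))) s * (χ : G → ℂ) (u⁻¹ * ((s⁻¹ : ↥(Subgroup.centralizer (Subgroup.zpowers u : Set G))) : G)) = 0 := by
    intro χ hχ
    refine Finset.sum_eq_zero fun s _ => ?_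
    by_cases hs : p ∣ orderOf s
    · rw [pRegularPart_of_sing p _ hs, zero_mul]
    · rw [pRegularPart_of_reg p _ hs, hsmt χ hχ s hs, zero_mul]
  rw [finsum_mem_eq_sum_ite]
  have hfin := subsection_trace hM u hu (Subgroup.centralizer (Subgroup.zpowers u : Set G)) hH ξ₀
  rw [← hfin]
  refine Finset.sum_congr rfl fun χ _ => ?_
  rw [hinner χ]
  split_ifs with hχ
  · rfl
  · exact (hzero χ hχ).symm

end Cfsg.Agent.S4683
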