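import Cfsg.Statements.S4708
import Cfsg.Agent.Helper22.BlkPrinCover
import Cfsg.Agent.Helper22.BlkSubsec3
import Cfsg.Agent.Helper22.Brauer3

set_option autoImplicit false
open Cfsg
open Cfsg.Agent.Helper22 Cfsg.Agent.Helper24

namespace Cfsg.Agent.S4708

/-- Let p be a prime, M a maximal ideal of the algebraic integers containing p, G a finite group and H a normal subgroup. Write λ(X) for the sum of the squares of the degrees of the irreducible characters in the principal p-block of a group X. Then λ(H) ≤ λ(G) ≤ [G : H]·λ(H). -/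
theorem result {G : Type*} [Group G] [Finite G] (p : ℕ) [Fact p.Prime] (M : Ideal Cfsg.AlgInt) (hM : Cfsg.IsPModular p M) (H : Subgroup G) [H.Normal] : (∑ᶠ θ ∈ Cfsg.principalBlock M H, Cfsg.charDegree (θ : H → ℂ) ^ 2) ≤ (∑ᶠ χ ∈ Cfsg.principalBlock M G, Cfsg.charDegree (χ : G → ℂ) ^ 2) ∧ (∑ᶠ χ ∈ Cfsg.principalBlock M G, Cfsg.charDegree (χ : G → ℂ) ^ 2) ≤ H.index * ∑ᶠ θ ∈ Cfsg.principalBlock M H, Cfsg.charDegree (θ : H → ℂ) ^ 2 := by
  classical
  haveI := Fintype.ofFinite G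
  haveI : Fintype ↥H := Fintype.ofFinite _
  have hmex : ∀ (χ : IrrCharacter G) (θ : IrrCharacter H), ∃ k : ℕ,
      classInner (fun h : H => (χ : G → ℂ) h) (θ : H → ℂ) = k := fun χ θ =>
    classInner_isCharacter_natCast (isCharacter_restrict H (isCharacter_of_isIrrCharacter χ.2))
      (isCharacter_of_isIrrCharacter θ.2)
  choose m hm using hmex
  have ha : ∀ χ : IrrCharacter G, (χ : G → ℂ) 1 = (charDegree (χ : G → ℂ) : ℂ) :=
    fun χ => (irr_charDegree_spec χ).1
  have hb : ∀ θ : IrrCharacter H, (θ : H → ℂ) 1 = (charDegree (θ : H → ℂ) : ℂ) :=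
    fun θ => (irr_charDegree_spec θ).1
  have hA : ∀ χ : IrrCharacter G, charDegree (χ : G → ℂ) =
      ∑ θ : IrrCharacter H, m χ θ * charDegree (θ : H → ℂ) := by
    intro χ
    have hclH : IsClassFunction H (fun u : H => (χ : G → ℂ) u) :=
      fun g k => irr_conj χ (g : G) (k : G)
    have h2 := congrFun (classFunction_eq_sum_irr (fun u : H => (χ : G → ℂ) u) hclH) (1 : H)
    simp only [Finset.sum_apply, Pi.smul_apply, smul_eq_mul] at h2
    have h3 : ((charDegree (χ : G → ℂ) : ℕ) : ℂ) =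
        ((∑ θ : IrrCharacter H, m χ θ * charDegree (θ : H → ℂ) : ℕ) : ℂ) := by
      rw [← ha, Nat.cast_sum]
      refine h2.trans (Finset.sum_congr rfl fun θ _ => ?_)
      rw [hm, hb, Nat.cast_mul]
    exact_mod_cast h3
  have hG0 : (Nat.card G : ℂ) ≠ 0 := Nat.cast_ne_zero.mpr Nat.card_pos.ne'
  have hH0 : (Nat.card H : ℂ) ≠ 0 := Nat.cast_ne_zero.mpr Nat.card_pos.ne'
  have hB : ∀ θ : IrrCharacter H, ∑ χ : IrrCharacter G, m χ θ * charDegree (χ : G → ℂ) =
      H.index * charDegree (θ : H → ℂ) := by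
    intro θ
    have h6 : ∀ χ : IrrCharacter G, ((m χ θ : ℕ) : ℂ) * ((charDegree (χ : G → ℂ) : ℕ) : ℂ) =
        (Nat.card H : ℂ)⁻¹ * ∑ h : H, starRingEnd ℂ ((θ : H → ℂ) h) *
          ((χ : G → ℂ) 1 * (χ : G → ℂ) h) := by
      intro χ
      rw [← hm, ← ha, classInner_def', mul_assoc, Finset.sum_mul]
      congr 1
      refine Finset.sum_congr rfl fun h _ => ?_
      show (χ : G → ℂ) h * starRingEnd ℂ ((θ : H → ℂ) h) * (χ : G → ℂ) 1 = _
      ring
    have h7 : ∀ h : H, ∑ χ : IrrCharacter G, starRingEnd ℂ ((θ : H → ℂ) h) *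
        ((χ : G → ℂ) 1 * (χ : G → ℂ) h) =
        if h = 1 then (Nat.card G : ℂ) * (charDegree (θ : H → ℂ) : ℂ) else 0 := by
      intro h
      rw [← Finset.mul_sum, sum_irr_one_mul (h : G)]
      by_cases hh : h = 1
      · rw [if_pos hh, if_pos (show ((h : H) : G) = 1 from by rw [hh]; rfl), hh, hb,
          Complex.conj_natCast, mul_comm]
      · rw [if_neg hh, if_neg (fun h1 => hh (OneMemClass.coe_eq_one.mp h1)), mul_zero]
    have h8 : ((∑ χ : IrrCharacter G, m χ θ * charDegree (χ : G → ℂ) : ℕ) : ℂ) =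
        ((H.index * charDegree (θ : H → ℂ) : ℕ) : ℂ) := by
      rw [Nat.cast_sum]
      have h9 : ∀ χ : IrrCharacter G, ((m χ θ * charDegree (χ : G → ℂ) : ℕ) : ℂ) =
          (Nat.card H : ℂ)⁻¹ * ∑ h : H, starRingEnd ℂ ((θ : H → ℂ) h) *
            ((χ : G → ℂ) 1 * (χ : G → ℂ) h) := fun χ => by rw [Nat.cast_mul, h6]
      rw [Finset.sum_congr rfl (fun χ _ => h9 χ), ← Finset.mul_sum, Finset.sum_comm,
        Finset.sum_congr rfl (fun h _ => h7 h),
        Finset.sum_eq_single (1 : H) (fun h _ hh => if_neg hh)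
          (fun h => absurd (Finset.mem_univ _) h), if_pos rfl, ← Subgroup.index_mul_card H]
      push_cast
      field_simp
    exact_mod_cast h8
  have hc : ∀ θ ∈ principalBlock M H, ∃ χ ∈ principalBlock M G, m χ θ ≠ 0 := by
    intro θ hθ
    obtain ⟨χ, hχ, hne⟩ := principal_lies_under hM H θ hθ
    refine ⟨χ, hχ, fun h0 => hne ?_⟩
    rw [hm, h0, Nat.cast_zero]
  have hd : ∀ χ ∈ principalBlock M G, ∀ θ : IrrCharacter H, m χ θ ≠ 0 →
      θ ∈ principalBlock M H := by
    intro χ hχ θ hne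
    refine principal_covers_principal hM H χ hχ θ ?_
    rw [hm]
    exact Nat.cast_ne_zero.mpr hne
  rw [finsum_mem_eq_sum_ite_gen, finsum_mem_eq_sum_ite_gen]
  exact sq_sum_ineq (principalBlock M G) (principalBlock M H)
    (fun χ : IrrCharacter G => charDegree (χ : G → ℂ))
    (fun θ : IrrCharacter H => charDegree (θ : H → ℂ)) m H.index hA hB hc hd

end Cfsg.Agent.S4708
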