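import Cfsg.Statements.S4720
import Cfsg.Agent.Helper22.BlkSubsec3
import Cfsg.Agent.Helper24.CharInd

set_option autoImplicit false
open Cfsg
open Cfsg.Agent.Helper5 Cfsg.Agent.Helper24 Cfsg.Agent.Helper22

namespace Cfsg.Agent.S4720

/-- Let p be a prime, M a maximal ideal of the algebraic integers containing p, P a p-subgroup of the finite group G, N a subgroup with P ≤ N ≤ N_G(P), and U a nonempty subset of P normalized by N such that an element of U and an element of P that are conjugate in G are already conjugate in N, and such that λ(C_G(y)) = w·#C_N(y) for every y ∈ U with one rational number w, where λ(X) denotes the sum of the squares of the degrees of the irreducible characters in the principal p-block of X. For a complex function θ on P and χ in the principal block of G put a_χ(θ) = #P⁻¹ Σ_{y ∈ P} χ(y) θ(y⁻¹). Then for generalized characters θ, η of P with θ vanishing outside U, Σ_χ a_χ(θ)·conj(a_χ(η))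 = (w/#P²)·Σ_{y ∈ P} θ(y)·conj(Σ_{x ∈ N} η(x y x⁻¹)) (η extended by zero off P; the conjugates lie in P), the first sum over the principal p-block of G. -/
theorem result {G : Type*} [Group G] [Finite G] (p : ℕ) [Fact p.Prime] (M : Ideal Cfsg.AlgInt) (hM : Cfsg.IsPModular p M) (P : Subgroup G) (hP : IsPGroup p P) (N : Subgroup G) (hPN : P ≤ N) (hNN : N ≤ Subgroup.normalizer (P : Set G)) (U : Set G) (hUne : U.Nonempty) (hUP : U ⊆ (P : Set G)) (hUN : ∀ n ∈ N, ∀ u ∈ U, n * u * n⁻¹ ∈ U) (hfus : ∀ u ∈ U, ∀ g : G, g * u * g⁻¹ ∈ (P : Set G) → ∃ n ∈ N, n * u * n⁻¹ = g * u * g⁻¹) (w : ℚ) (hw : ∀ y ∈ U, ((∑ᶠ ψ ∈ Cfsg.principalBlock M ↥(Subgroup.centralizer ({y} : Set G)), Cfsg.charDegree (ψ : ↥(Subgroup.centralizer ({y} : Set G)) → ℂ) ^ 2) : ℚ) = w * Nat.card ↥(N ⊓ Subgroup.centralizer ({y} : Set G))) (θ η : ↥P → ℂ) (hθ : Cfsg.IsGeneralizedCharacter ↥P θ) (hη : Cfsg.IsGeneralizedCharacter ↥P η) (hθU : ∀ y : ↥P, (y : G) ∉ U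 → θ y = 0) : ∑ᶠ χ ∈ Cfsg.principalBlock M G, ((Nat.card ↥P : ℂ)⁻¹ * ∑ᶠ y : ↥P, (χ : G → ℂ) (y : G) * θ y⁻¹) * (starRingEnd ℂ) ((Nat.card ↥P : ℂ)⁻¹ * ∑ᶠ y : ↥P, (χ : G → ℂ) (y : G) * η y⁻¹) = ((w : ℂ) / ((Nat.card ↥P : ℂ) ^ 2)) * ∑ᶠ y : ↥P, θ y * (starRingEnd ℂ) (∑ᶠ x : ↥N, Cfsg.extendByZero P η ((x : G) * (y : G) * (x : G)⁻¹)) := by
  classical
  haveI := Fintype.ofFinite G
  haveI hMp : M.IsPrime := hM.2.1.isPrime
  have hp : p.Prime := Fact.out
  haveI : Fintype ↥P := Fintype.ofFinite _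
  haveI : Fintype ↥N := Fintype.ofFinite _
  have hP0 : (Nat.card ↥P : ℂ) ≠ 0 := Nat.cast_ne_zero.mpr Nat.card_pos.ne'
  obtain ⟨triv, htriv⟩ : ∃ t : IrrCharacter G, (t : G → ℂ) = fun _ => 1 :=
    ⟨⟨_, Cfsg.Agent.Helper24.isIrrCharacter_one⟩, rfl⟩
  have hPB := principalBlock_eq_blockOf M triv htriv
  obtain ⟨S, hSdef⟩ : ∃ S : G → G → ℂ, S = fun z y => ∑ χ : IrrCharacter G,
      if χ ∈ principalBlock M G then (χ : G → ℂ) z * (χ : G → ℂ) y⁻¹ else 0 := ⟨_, rfl⟩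
  have hSapp : ∀ z y, S z y = ∑ χ : IrrCharacter G,
      if χ ∈ principalBlock M G then (χ : G → ℂ) z * (χ : G → ℂ) y⁻¹ else 0 :=
    fun z y => by rw [hSdef]
  obtain ⟨cnt, hcntdef⟩ : ∃ cnt : G → G → ℂ, cnt = fun z y => ∑ x : ↥N,
      if (x : G) * y * (x : G)⁻¹ = z then (1 : ℂ) else 0 := ⟨_, rfl⟩
  have hcntapp : ∀ z y, cnt z y = ∑ x : ↥N,
      if (x : G) * y * (x : G)⁻¹ = z then (1 : ℂ) else 0 := fun z y => by rw [hcntdef]
  have hpel : ∀ y : ↥P, ∃ k : ℕ, orderOf (y : G) = p ^ k := by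
    intro y
    obtain ⟨k, hk⟩ := (IsPGroup.iff_orderOf.mp hP) y
    exact ⟨k, by rw [Subgroup.orderOf_coe]; exact hk⟩
  have hppart : ∀ y : ↥P, IsPPart p (y : G) (y : G) := fun y =>
    ⟨1, mul_one _, Commute.one_right _, hpel y, by rw [orderOf_one]; exact hp.not_dvd_one⟩
  have hS : ∀ y : ↥P, (y : G) ∈ U → ∀ z : ↥P,
      S (z : G) (y : G) = (w : ℂ) * cnt (z : G) (y : G) := by
    intro y hyU z
    by_cases hex : ∃ n ∈ N, n * (y : G) * n⁻¹ = (z : G)
    · obtain ⟨n, hn, hnz⟩ := hex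
      rw [hcntapp, count_conj_sub N (y : G) (z : G) (hPN y.2) ⟨n, hn, hnz⟩]
      have h1 : S (z : G) (y : G) = ∑ χ : IrrCharacter G,
          (if χ ∈ principalBlock M G then
            (χ : G → ℂ) (y : G) * (χ : G → ℂ) (y : G)⁻¹ else 0) := by
        rw [hSapp, ← hnz]
        refine Finset.sum_congr rfl fun χ _ => ?_
        rw [irr_conj]
      rw [h1, principal_norm_pelement hM (y : G) (hpel y)]
      have h2 := hw (y : G) hyU
      rw [finsum_mem_eq_sum_ite_gen] at h2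
      have h3 : ((∑ ψ : IrrCharacter ↥(Subgroup.centralizer ({(y : G)} : Set G)),
          (if ψ ∈ principalBlock M ↥(Subgroup.centralizer ({(y : G)} : Set G)) then
            ((charDegree (ψ : ↥(Subgroup.centralizer ({(y : G)} : Set G)) → ℂ) : ℚ)) ^ 2
          else 0) : ℚ) : ℂ) =
          ((w * (Nat.card ↥(N ⊓ Subgroup.centralizer ({(y : G)} : Set G)) : ℚ) : ℚ) : ℂ) :=
        congrArg (fun q : ℚ => (q : ℂ)) h2
      rw [Rat.cast_sum, Rat.cast_mul, Rat.cast_natCast] at h3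
      rw [← h3]
      refine Finset.sum_congr rfl fun ψ _ => ?_
      by_cases hψ : ψ ∈ principalBlock M ↥(Subgroup.centralizer ({(y : G)} : Set G))
      · rw [if_pos hψ, if_pos hψ, Rat.cast_pow, Rat.cast_natCast]
      · rw [if_neg hψ, if_neg hψ, Rat.cast_zero]
    · have hnc : ¬ IsConj (z : G) (y : G) := by
        intro hc
        obtain ⟨g, hg⟩ := isConj_iff.mp hc.symm
        obtain ⟨n, hn, hnz⟩ := hfus (y : G) hyU g (by rw [hg]; exact z.2)
        exact hex ⟨n, hn, hnz.trans hg⟩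
      have h0 := block_orth hM (z : G) (y : G) (z : G) (y : G) (hppart z) (hppart y) hnc triv
      rw [finsum_mem_eq_sum_ite] at h0
      rw [hSapp, hPB, h0, hcntapp]
      symm
      rw [mul_eq_zero]
      right
      refine Finset.sum_eq_zero fun x _ => ?_
      rw [if_neg]
      intro hx
      exact hex ⟨(x : G), x.2, hx⟩
  have hN : ∀ (x : ↥N) (y : ↥P), (x : G) * (y : G) * (x : G)⁻¹ ∈ P := fun x y =>
    (Subgroup.mem_normalizer_iff.mp (hNN x.2) (y : G)).mp y.2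
  have hstep4 : ∀ y : ↥P,
      starRingEnd ℂ (∑ x : ↥N, extendByZero P η ((x : G) * (y : G) * (x : G)⁻¹)) =
      ∑ z : ↥P, starRingEnd ℂ (η z) * cnt (z : G) (y : G) := by
    intro y
    rw [map_sum]
    have h1 : ∀ x : ↥N, starRingEnd ℂ (extendByZero P η ((x : G) * (y : G) * (x : G)⁻¹)) =
        ∑ z : ↥P, (if (x : G) * (y : G) * (x : G)⁻¹ = (z : G) then
          starRingEnd ℂ (η z) else 0) := by
      intro x
      rw [extendByZero_apply_mem P η (hN x y),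
        Finset.sum_eq_single (⟨(x : G) * (y : G) * (x : G)⁻¹, hN x y⟩ : ↥P)]
      · rw [if_pos rfl]
      · intro z _ hne
        rw [if_neg]
        intro h
        exact hne (Subtype.ext h.symm)
      · intro h
        exact absurd (Finset.mem_univ _) h
    rw [Finset.sum_congr rfl fun x _ => h1 x, Finset.sum_comm]
    refine Finset.sum_congr rfl fun z _ => ?_
    rw [hcntapp, Finset.mul_sum]
    refine Finset.sum_congr rfl fun x _ => ?_
    split_ifs
    · rw [mul_one]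
    · rw [mul_zero]
  obtain ⟨a, ha⟩ : ∃ a : ℂ, a = (Nat.card ↥P : ℂ)⁻¹ := ⟨_, rfl⟩
  have haconj : starRingEnd ℂ a = a := by rw [ha, map_inv₀, Complex.conj_natCast]
  obtain ⟨T, hTdef⟩ : ∃ T : IrrCharacter G → ℂ, T = fun χ : IrrCharacter G => ∑ y : ↥P, ∑ z : ↥P,
      θ y * (starRingEnd ℂ (η z) * ((χ : G → ℂ) (z : G) * (χ : G → ℂ) (y : G)⁻¹)) := ⟨_, rfl⟩
  have hTapp : ∀ χ : IrrCharacter G, T χ = ∑ y : ↥P, ∑ z : ↥P,
      θ y * (starRingEnd ℂ (η z) * ((χ : G → ℂ) (z : G) * (χ : G → ℂ) (y : G)⁻¹)) :=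
    fun χ => by rw [hTdef]
  have hi : ∀ χ : IrrCharacter G, (a * ∑ y : ↥P, (χ : G → ℂ) (y : G) * θ y⁻¹) *
      starRingEnd ℂ (a * ∑ y : ↥P, (χ : G → ℂ) (y : G) * η y⁻¹) = a ^ 2 * T χ := by
    intro χ
    have h1 : ∑ y : ↥P, (χ : G → ℂ) (y : G) * θ y⁻¹ =
        ∑ y : ↥P, θ y * (χ : G → ℂ) (y : G)⁻¹ := by
      refine Fintype.sum_equiv (Equiv.inv ↥P) _ _ fun y => ?_
      show (χ : G → ℂ) (y : G) * θ y⁻¹ = θ y⁻¹ * (χ : G → ℂ) ((y⁻¹ : ↥P) : G)⁻¹
      rw [Subgroup.coe_inv, inv_inv, mul_comm]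
    have h2 : starRingEnd ℂ (a * ∑ y : ↥P, (χ : G → ℂ) (y : G) * η y⁻¹) =
        a * ∑ z : ↥P, starRingEnd ℂ (η z) * (χ : G → ℂ) (z : G) := by
      rw [map_mul, haconj, map_sum]
      refine congrArg (fun t => a * t) ?_
      refine Fintype.sum_equiv (Equiv.inv ↥P) _ _ fun y => ?_
      show starRingEnd ℂ ((χ : G → ℂ) (y : G) * η y⁻¹) =
        starRingEnd ℂ (η y⁻¹) * (χ : G → ℂ) ((y⁻¹ : ↥P) : G)
      rw [map_mul, Subgroup.coe_inv, irr_inv, mul_comm]
    have h3 : (∑ y : ↥P, θ y * (χ : G → ℂ) (y : G)⁻¹) *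
        (∑ z : ↥P, starRingEnd ℂ (η z) * (χ : G → ℂ) (z : G)) =
        ∑ y : ↥P, ∑ z : ↥P,
          θ y * (starRingEnd ℂ (η z) * ((χ : G → ℂ) (z : G) * (χ : G → ℂ) (y : G)⁻¹)) := by
      rw [Finset.sum_mul_sum]
      refine Finset.sum_congr rfl fun y _ => Finset.sum_congr rfl fun z _ => ?_
      ring
    rw [h1, h2, hTapp, ← h3]
    ring
  have hii : ∑ χ : IrrCharacter G, (if χ ∈ principalBlock M G then a ^ 2 * T χ else 0) =
      a ^ 2 * ∑ y : ↥P, θ y * ∑ z : ↥P, starRingEnd ℂ (η z) * S (z : G) (y : G) := by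
    have e1 : ∀ y : ↥P, θ y * ∑ z : ↥P, starRingEnd ℂ (η z) * S (z : G) (y : G) =
        ∑ χ : IrrCharacter G, (if χ ∈ principalBlock M G then ∑ z : ↥P,
          θ y * (starRingEnd ℂ (η z) * ((χ : G → ℂ) (z : G) * (χ : G → ℂ) (y : G)⁻¹))
        else 0) := by
      intro y
      have e2 : ∀ z : ↥P, starRingEnd ℂ (η z) * S (z : G) (y : G) =
          ∑ χ : IrrCharacter G, (if χ ∈ principalBlock M G then
            starRingEnd ℂ (η z) * ((χ : G → ℂ) (z : G) * (χ : G → ℂ) (y : G)⁻¹) else 0) := by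
        intro z
        rw [hSapp, Finset.mul_sum]
        refine Finset.sum_congr rfl fun χ _ => ?_
        split_ifs
        · rfl
        · rw [mul_zero]
      rw [Finset.sum_congr rfl fun z _ => e2 z, Finset.sum_comm, Finset.mul_sum]
      refine Finset.sum_congr rfl fun χ _ => ?_
      by_cases hχ : χ ∈ principalBlock M G
      · simp only [if_pos hχ]
        rw [Finset.mul_sum]
      · simp only [if_neg hχ, Finset.sum_const_zero, mul_zero]
    rw [Finset.sum_congr rfl fun y _ => e1 y, Finset.sum_comm, Finset.mul_sum]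
    refine Finset.sum_congr rfl fun χ _ => ?_
    by_cases hχ : χ ∈ principalBlock M G
    · simp only [if_pos hχ]
      rw [hTapp]
    · simp only [if_neg hχ, Finset.sum_const_zero, mul_zero]
  have hfinal : ∀ y : ↥P, θ y * ∑ z : ↥P, starRingEnd ℂ (η z) * S (z : G) (y : G) =
      (w : ℂ) * (θ y * starRingEnd ℂ
        (∑ x : ↥N, extendByZero P η ((x : G) * (y : G) * (x : G)⁻¹))) := by
    intro y
    by_cases hyU : (y : G) ∈ U
    · have e : ∀ z : ↥P, starRingEnd ℂ (η z) * S (z : G) (y : G) =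
          starRingEnd ℂ (η z) * ((w : ℂ) * cnt (z : G) (y : G)) := fun z => by
        rw [hS y hyU z]
      rw [Finset.sum_congr rfl fun z _ => e z, hstep4 y, Finset.mul_sum, Finset.mul_sum,
        Finset.mul_sum]
      refine Finset.sum_congr rfl fun z _ => ?_
      ring
    · rw [hθU y hyU, zero_mul, zero_mul, mul_zero]
  have key : ∑ χ : IrrCharacter G, (if χ ∈ principalBlock M G then
      (a * ∑ y : ↥P, (χ : G → ℂ) (y : G) * θ y⁻¹) *
        starRingEnd ℂ (a * ∑ y : ↥P, (χ : G → ℂ) (y : G) * η y⁻¹) else 0) =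
      (w : ℂ) / ((Nat.card ↥P : ℂ) ^ 2) * ∑ y : ↥P, θ y * starRingEnd ℂ
        (∑ x : ↥N, extendByZero P η ((x : G) * (y : G) * (x : G)⁻¹)) := by
    have hi' : ∀ χ : IrrCharacter G, (if χ ∈ principalBlock M G then
        (a * ∑ y : ↥P, (χ : G → ℂ) (y : G) * θ y⁻¹) *
          starRingEnd ℂ (a * ∑ y : ↥P, (χ : G → ℂ) (y : G) * η y⁻¹) else 0) =
        (if χ ∈ principalBlock M G then a ^ 2 * T χ else 0) := fun χ => by rw [hi χ]
    rw [Finset.sum_congr rfl fun χ _ => hi' χ, hii, Finset.sum_congr rfl fun y _ => hfinal y,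
      ← Finset.mul_sum, ha, inv_pow, div_eq_mul_inv]
    ring
  rw [finsum_mem_eq_sum_ite]
  simp only [finsum_eq_sum_of_fintype]
  rw [← ha]
  exact key

end Cfsg.Agent.S4720
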