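import Cfsg.Statements.S4722
import Cfsg.Agent.Helper22.BlkSubsec3
import Cfsg.Agent.Helper24.CharInd
import Cfsg.Agent.Helper5.BlkKer
import Cfsg.Agent.Helper5.BlkRoot
import Cfsg.Agent.Helper5.BlkOrth

set_option autoImplicit false
open Cfsg
open Cfsg.Agent.Helper5 Cfsg.Agent.Helper24 Cfsg.Agent.Helper22

namespace Cfsg.Agent.S4722

theorem weights_collapse {ι : Type*} [Fintype ι] (m x : ι → ℝ) (h0 : ∑ i, m i = 0)
    (h1 : ∑ i, m i * x i = 0) (h2 : ∑ i, m i * x i ^ 2 = 0) (i₀ : ι)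
    (hpos : ∀ i, i ≠ i₀ → 0 ≤ m i) : ∀ i, m i ≠ 0 → x i = x i₀ := by
  have hsum : ∑ i, m i * (x i - x i₀) ^ 2 = 0 := by
    have e : ∑ i, m i * (x i - x i₀) ^ 2 =
        (∑ i, m i * x i ^ 2) - 2 * x i₀ * (∑ i, m i * x i) + x i₀ ^ 2 * ∑ i, m i := by
      rw [Finset.mul_sum, Finset.mul_sum, ← Finset.sum_sub_distrib, ← Finset.sum_add_distrib]
      exact Finset.sum_congr rfl fun i _ => by ring
    rw [e, h0, h1, h2]
    ring
  have hnn : ∀ i ∈ (Finset.univ : Finset ι), 0 ≤ m i * (x i - x i₀) ^ 2 := by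
    intro i _
    by_cases hi : i = i₀
    · subst hi
      simp
    · exact mul_nonneg (hpos i hi) (sq_nonneg _)
  have hz := (Finset.sum_eq_zero_iff_of_nonneg hnn).mp hsum
  intro i hi
  have h3 := hz i (Finset.mem_univ _)
  rcases mul_eq_zero.mp h3 with h4 | h4
  · exact absurd h4 hi
  · have h5 : x i - x i₀ = 0 := (pow_eq_zero_iff two_ne_zero).mp h4
    linarith

theorem weights_collapse_neg {ι : Type*} [Fintype ι] (m x : ι → ℝ) (h0 : ∑ i, m i = 0)
    (h1 : ∑ i, m i * x i = 0) (h2 : ∑ i, m i * x i ^ 2 = 0) (i₀ : ι)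
    (hneg : ∀ i, i ≠ i₀ → m i ≤ 0) : ∀ i, m i ≠ 0 → x i = x i₀ := by
  intro i hi
  refine weights_collapse (fun i => - m i) x ?_ ?_ ?_ i₀
    (fun j hj => neg_nonneg.mpr (hneg j hj)) i (neg_ne_zero.mpr hi)
  · rw [Finset.sum_neg_distrib, h0, neg_zero]
  · have e : ∀ j, - m j * x j = - (m j * x j) := fun j => by ring
    rw [Finset.sum_congr rfl fun j _ => e j, Finset.sum_neg_distrib, h1, neg_zero]
  · have e : ∀ j, - m j * x j ^ 2 = - (m j * x j ^ 2) := fun j => by ring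
    rw [Finset.sum_congr rfl fun j _ => e j, Finset.sum_neg_distrib, h2, neg_zero]


/-- Let M be a maximal ideal of the algebraic integers containing 2, P a 2-subgroup of the finite group G, U a subset of P, and t an involution of G such that no element of U is inverted by any conjugate of t. Let θ be a generalized character of P vanishing outside U, and for χ in the principal 2-block B₀ put a_χ = #P⁻¹ Σ_{y ∈ P} χ(y) θ(y⁻¹). Then Σ_{χ ∈ B₀} a_χ χ(t)^2/χ(1) = 0, Σ_{χ ∈ B₀} a_χ χ(1) = 0 and Σ_{χ ∈ B₀} a_χ χ(t) = 0. If moreover #P⁻¹ Σ_{y ∈ P} θ(y) ≠ 0, then either at least two of the a_χ have positive real part and at least two have negative real part, or G has a proper normal subgroup containing O_2'(G) and t. -/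
theorem result {G : Type*} [Group G] [Finite G] (M : Ideal Cfsg.AlgInt) (hM : Cfsg.IsPModular 2 M) (P : Subgroup G) (hP : IsPGroup 2 P) (U : Set G) (hUP : U ⊆ (P : Set G)) (t : G) (ht : orderOf t = 2) (hinv : ∀ u ∈ U, ∀ g : G, (g * t * g⁻¹) * u * (g * t * g⁻¹)⁻¹ ≠ u⁻¹) (θ : ↥P → ℂ) (hθ : Cfsg.IsGeneralizedCharacter ↥P θ) (hθU : ∀ y : ↥P, (y : G) ∉ U → θ y = 0) : (∑ᶠ χ ∈ Cfsg.principalBlock M G, ((Nat.card ↥P : ℂ)⁻¹ * ∑ᶠ y : ↥P, (χ : G → ℂ) (y : G) * θ y⁻¹) * (χ : G → ℂ) t ^ 2 / (χ : G → ℂ) 1 = 0) ∧ (∑ᶠ χ ∈ Cfsg.principalBlock M G, ((Nat.card ↥P : ℂ)⁻¹ * ∑ᶠ y : ↥P, (χ : G → ℂ) (y : G) * θ y⁻¹) * (χ : G → ℂ) 1 = 0) ∧ (∑ᶠ χ ∈ Cfsg.principalBlock M G, ((Nat.card ↥P : ℂ)⁻¹ * ∑ᶠ y : ↥P, (χ : G → ℂ) (y : G) * θ y⁻¹) * (χ : G → ℂ) t = 0) ∧ ((Nat.card ↥P : ℂ)⁻¹ * ∑ᶠ y : ↥P, θ y ≠ 0 → (2 ≤ Nat.card {χ : Cfsg.IrrCharacter G // χ ∈ Cfsg.principalBlock M G ∧ 0 < (((Nat.card ↥P : ℂ)⁻¹ * ∑ᶠ y : ↥P, (χ : G → ℂ) (y : G) * θ y⁻¹)).re} ∧ 2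 ≤ Nat.card {χ : Cfsg.IrrCharacter G // χ ∈ Cfsg.principalBlock M G ∧ (((Nat.card ↥P : ℂ)⁻¹ * ∑ᶠ y : ↥P, (χ : G → ℂ) (y : G) * θ y⁻¹)).re < 0}) ∨ ∃ K : Subgroup G, K.Normal ∧ K ≠ ⊤ ∧ Cfsg.pPrimeCore 2 G ≤ K ∧ t ∈ K) := by
  classical
  haveI := Fintype.ofFinite G
  haveI : Fact (Nat.Prime 2) := ⟨Nat.prime_two⟩
  haveI hMp : M.IsPrime := hM.2.1.isPrime
  haveI : Fintype ↥P := Fintype.ofFinite _
  have hG0 : (Nat.card G : ℂ) ≠ 0 := Nat.cast_ne_zero.mpr Nat.card_pos.ne'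
  have hP0 : (Nat.card ↥P : ℂ) ≠ 0 := Nat.cast_ne_zero.mpr Nat.card_pos.ne'
  obtain ⟨triv, htriv⟩ : ∃ t : IrrCharacter G, (t : G → ℂ) = fun _ => 1 :=
    ⟨⟨_, Cfsg.Agent.Helper24.isIrrCharacter_one⟩, rfl⟩
  have hPB := principalBlock_eq_blockOf M triv htriv
  have ht2 : t * t = 1 := by
    have h := pow_orderOf_eq_one t
    rw [ht, pow_two] at h
    exact h
  have htinv : t⁻¹ = t := inv_eq_of_mul_eq_one_right ht2
  obtain ⟨a, ha⟩ : ∃ a : IrrCharacter G → ℂ, a = fun χ : IrrCharacter G =>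
      (Nat.card ↥P : ℂ)⁻¹ * ∑ᶠ y : ↥P, (χ : G → ℂ) (y : G) * θ y⁻¹ := ⟨_, rfl⟩
  have hfold : ∀ χ : IrrCharacter G,
      (Nat.card ↥P : ℂ)⁻¹ * ∑ᶠ y : ↥P, (χ : G → ℂ) (y : G) * θ y⁻¹ = a χ := fun χ => by
    rw [ha]
  have haapp : ∀ χ : IrrCharacter G,
      a χ = (Nat.card ↥P : ℂ)⁻¹ * ∑ y : ↥P, (χ : G → ℂ) (y : G) * θ y⁻¹ := fun χ => by
    rw [← hfold χ, finsum_eq_sum_of_fintype]
  obtain ⟨Sg, hSg⟩ : ∃ Sg : G → ℂ, Sg = fun g => ∑ χ : IrrCharacter G,
      if χ ∈ principalBlock M G then a χ * (χ : G → ℂ) g else 0 := ⟨_, rfl⟩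
  have hSgapp : ∀ g, Sg g = ∑ χ : IrrCharacter G,
      if χ ∈ principalBlock M G then a χ * (χ : G → ℂ) g else 0 := fun g => by rw [hSg]
  have hpel : ∀ y : ↥P, ∃ k : ℕ, orderOf (y : G) = 2 ^ k := by
    intro y
    obtain ⟨k, hk⟩ := (IsPGroup.iff_orderOf.mp hP) y
    exact ⟨k, by rw [Subgroup.orderOf_coe]; exact hk⟩
  have hppart : ∀ y : ↥P, IsPPart 2 (y : G) (y : G) := fun y =>
    ⟨1, mul_one _, Commute.one_right _, hpel y,
      by rw [orderOf_one]; exact Nat.prime_two.not_dvd_one⟩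
  have hC : ∀ g x : G, IsPPart 2 g x → (∀ u ∈ U, ¬ IsConj x u) → Sg g = 0 := by
    intro g x hgx hxU
    have h1 : Sg g = (Nat.card ↥P : ℂ)⁻¹ * ∑ y : ↥P, θ y⁻¹ * ∑ χ : IrrCharacter G,
        (if χ ∈ principalBlock M G then (χ : G → ℂ) g * (χ : G → ℂ) (y : G) else 0) := by
      rw [hSgapp]
      have e1 : ∀ y : ↥P, θ y⁻¹ * ∑ χ : IrrCharacter G,
          (if χ ∈ principalBlock M G then (χ : G → ℂ) g * (χ : G → ℂ) (y : G) else 0) =
          ∑ χ : IrrCharacter G, (if χ ∈ principalBlock M G then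
            ((χ : G → ℂ) (y : G) * θ y⁻¹) * (χ : G → ℂ) g else 0) := by
        intro y
        rw [Finset.mul_sum]
        refine Finset.sum_congr rfl fun χ _ => ?_
        split_ifs
        · ring
        · rw [mul_zero]
      rw [Finset.sum_congr rfl fun y _ => e1 y, Finset.sum_comm, Finset.mul_sum]
      refine Finset.sum_congr rfl fun χ _ => ?_
      by_cases hχ : χ ∈ principalBlock M G
      · simp only [if_pos hχ]
        rw [haapp, ← Finset.sum_mul, mul_assoc]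
      · simp only [if_neg hχ, Finset.sum_const_zero, mul_zero]
    rw [h1]
    have h2 : ∀ y : ↥P, θ y⁻¹ * ∑ χ : IrrCharacter G,
        (if χ ∈ principalBlock M G then (χ : G → ℂ) g * (χ : G → ℂ) (y : G) else 0) = 0 := by
      intro y
      by_cases hyU : ((y⁻¹ : ↥P) : G) ∈ U
      · have hne : ¬ IsConj x ((y⁻¹ : ↥P) : G) := hxU _ hyU
        have h0 := block_orth hM g ((y⁻¹ : ↥P) : G) x ((y⁻¹ : ↥P) : G) hgx (hppart y⁻¹) hne triv
        rw [finsum_mem_eq_sum_ite, Subgroup.coe_inv, inv_inv, ← hPB] at h0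
        rw [h0, mul_zero]
      · rw [hθU y⁻¹ hyU, zero_mul]
    rw [Finset.sum_congr rfl fun y _ => h2 y, Finset.sum_const_zero, mul_zero]
  have hu1 : (1 : G) ∉ U := by
    intro h1U
    exact hinv 1 h1U 1 (by group)
  have hpp1 : IsPPart 2 (1 : G) 1 :=
    ⟨1, mul_one _, Commute.one_right _, ⟨0, by rw [orderOf_one, pow_zero]⟩,
      by rw [orderOf_one]; exact Nat.prime_two.not_dvd_one⟩
  have hS1 : Sg 1 = 0 := by
    refine hC 1 1 hpp1 (fun u hu hc => ?_)
    have hu1' : u = 1 := isConj_one_right.mp hc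
    subst hu1'
    exact hu1 hu
  have hppt : IsPPart 2 t t :=
    ⟨1, mul_one _, Commute.one_right _, ⟨1, by rw [ht, pow_one]⟩,
      by rw [orderOf_one]; exact Nat.prime_two.not_dvd_one⟩
  have hSt : Sg t = 0 := by
    refine hC t t hppt (fun u hu hc => ?_)
    obtain ⟨c, hcu⟩ := isConj_iff.mp hc
    refine hinv u hu c ?_
    rw [hcu]
    have huu : u * u = 1 := by
      rw [← hcu]
      calc c * t * c⁻¹ * (c * t * c⁻¹) = c * (t * t) * c⁻¹ := by group
        _ = 1 := by rw [ht2]; group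
    rw [mul_inv_cancel_right]
    exact (inv_eq_of_mul_eq_one_right huu).symm
  have hSprod : ∀ h : G, Sg (t * h * t * h⁻¹) = 0 := by
    intro h
    obtain ⟨x, hx⟩ := exists_isPPart Nat.prime_two (t * h * t * h⁻¹)
    refine hC _ x hx (fun u hu hc => ?_)
    obtain ⟨n, hn⟩ := ppart_eq_pow Nat.prime_two hx
    obtain ⟨c, hcu⟩ := isConj_iff.mp hc
    have hz : t * (t * h * t * h⁻¹) * t⁻¹ = (t * h * t * h⁻¹)⁻¹ := by
      have e1 : (t * h * t * h⁻¹)⁻¹ = h * t⁻¹ * h⁻¹ * t⁻¹ := by group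
      rw [e1, htinv]
      calc t * (t * h * t * h⁻¹) * t = (t * t) * h * t * h⁻¹ * t := by group
        _ = h * t * h⁻¹ * t := by rw [ht2, one_mul]
    have hxinv : t * x * t⁻¹ = x⁻¹ := by
      rw [← hn, ← conj_pow, hz, inv_pow]
    refine hinv u hu c ?_
    rw [← hcu]
    calc c * t * c⁻¹ * (c * x * c⁻¹) * (c * t * c⁻¹)⁻¹ = c * (t * x * t⁻¹) * c⁻¹ := by group
      _ = (c * x * c⁻¹)⁻¹ := by rw [hxinv]; group
  have h1 : ∑ χ : IrrCharacter G, (if χ ∈ principalBlock M G then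
      a χ * (χ : G → ℂ) t ^ 2 / (χ : G → ℂ) 1 else 0) = 0 := by
    have e : ∀ χ : IrrCharacter G, (if χ ∈ principalBlock M G then
        a χ * (χ : G → ℂ) t ^ 2 / (χ : G → ℂ) 1 else 0) =
        (Nat.card G : ℂ)⁻¹ * ∑ h : G, (if χ ∈ principalBlock M G then
          a χ * (χ : G → ℂ) (t * h * t * h⁻¹) else 0) := by
      intro χ
      by_cases hχ : χ ∈ principalBlock M G
      · simp only [if_pos hχ]
        rw [← Finset.mul_sum, sum_conj_mul χ t t]
        have e3 : (Nat.card G : ℂ)⁻¹ * (a χ * ((Nat.card G : ℂ) * (χ : G → ℂ) t *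
            (χ : G → ℂ) t / (χ : G → ℂ) 1)) = (Nat.card G : ℂ)⁻¹ * (Nat.card G : ℂ) *
            (a χ * (χ : G → ℂ) t ^ 2 / (χ : G → ℂ) 1) := by ring
        rw [e3, inv_mul_cancel₀ hG0, one_mul]
      · simp only [if_neg hχ, Finset.sum_const_zero, mul_zero]
    rw [Finset.sum_congr rfl fun χ _ => e χ, ← Finset.mul_sum, Finset.sum_comm]
    have e2 : ∀ h : G, ∑ χ : IrrCharacter G, (if χ ∈ principalBlock M G then
        a χ * (χ : G → ℂ) (t * h * t * h⁻¹) else 0) = 0 := fun h =>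
      (hSgapp (t * h * t * h⁻¹)).symm.trans (hSprod h)
    rw [Finset.sum_congr rfl fun h _ => e2 h, Finset.sum_const_zero, mul_zero]
  have h2 : ∑ χ : IrrCharacter G, (if χ ∈ principalBlock M G then
      a χ * (χ : G → ℂ) 1 else 0) = 0 := (hSgapp 1).symm.trans hS1
  have h3 : ∑ χ : IrrCharacter G, (if χ ∈ principalBlock M G then
      a χ * (χ : G → ℂ) t else 0) = 0 := (hSgapp t).symm.trans hSt
  have h4 : (Nat.card ↥P : ℂ)⁻¹ * ∑ᶠ y : ↥P, θ y ≠ 0 →
      (2 ≤ Nat.card {χ : IrrCharacter G // χ ∈ principalBlock M G ∧ 0 < (a χ).re} ∧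
        2 ≤ Nat.card {χ : IrrCharacter G // χ ∈ principalBlock M G ∧ (a χ).re < 0}) ∨
      ∃ K : Subgroup G, K.Normal ∧ K ≠ ⊤ ∧ pPrimeCore 2 G ≤ K ∧ t ∈ K := by
    intro hbar
    by_contra hcon
    rw [not_or] at hcon
    obtain ⟨hcnt, hnoK⟩ := hcon
    have hatriv : a triv = (Nat.card ↥P : ℂ)⁻¹ * ∑ᶠ y : ↥P, θ y := by
      rw [haapp, finsum_eq_sum_of_fintype]
      refine congrArg (fun s => (Nat.card ↥P : ℂ)⁻¹ * s) ?_
      refine Fintype.sum_equiv (Equiv.inv ↥P) _ _ fun y => ?_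
      show (triv : G → ℂ) (y : G) * θ y⁻¹ = θ y⁻¹
      have e : (triv : G → ℂ) (y : G) = 1 := by rw [htriv]
      rw [e, one_mul]
    obtain ⟨kint, hkint⟩ : ∃ k : ℤ, (Nat.card ↥P : ℂ)⁻¹ * ∑ᶠ y : ↥P, θ y = (k : ℂ) := by
      obtain ⟨φ, ψ, hφ, hψ, hθeq⟩ := hθ
      have h1P := isCharacter_of_isIrrCharacter
        (Cfsg.Agent.Helper24.isIrrCharacter_one (G := ↥P))
      obtain ⟨k1, hk1⟩ := classInner_isCharacter_natCast hφ h1P
      obtain ⟨k2, hk2⟩ := classInner_isCharacter_natCast hψ h1P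
      rw [classInner_def'] at hk1 hk2
      simp only [map_one, mul_one] at hk1 hk2
      refine ⟨(k1 : ℤ) - (k2 : ℤ), ?_⟩
      rw [finsum_eq_sum_of_fintype, hθeq]
      simp only [Pi.sub_apply]
      rw [Finset.sum_sub_distrib, mul_sub, hk1, hk2, Int.cast_sub, Int.cast_natCast,
        Int.cast_natCast]
    have hrtriv : (a triv).re ≠ 0 := by
      rw [hatriv, hkint, Complex.intCast_re]
      intro h0
      apply hbar
      rw [hkint]
      have h00 : kint = 0 := by exact_mod_cast h0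
      rw [h00, Int.cast_zero]
    obtain ⟨d, hd⟩ : ∃ d : IrrCharacter G → ℝ,
        d = fun χ : IrrCharacter G => (charDegree (χ : G → ℂ) : ℝ) := ⟨_, rfl⟩
    have hdpos : ∀ χ : IrrCharacter G, 0 < d χ := fun χ => by
      rw [hd]
      exact Nat.cast_pos.mpr (Nat.pos_of_ne_zero (irr_charDegree_spec χ).2.1)
    have hdc : ∀ χ : IrrCharacter G, (χ : G → ℂ) 1 = ((d χ : ℝ) : ℂ) := fun χ => by
      rw [hd, (irr_charDegree_spec χ).1]
      exact (Complex.ofReal_natCast _).symm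
    have hτ : ∀ χ : IrrCharacter G, (χ : G → ℂ) t = (((χ : G → ℂ) t).re : ℂ) := by
      intro χ
      have h := irr_inv χ t
      rw [htinv] at h
      obtain ⟨r, hr⟩ := Complex.conj_eq_iff_real.mp h.symm
      rw [hr, Complex.ofReal_re]
    obtain ⟨m, hm⟩ : ∃ m : IrrCharacter G → ℝ, m = fun χ : IrrCharacter G =>
        if χ ∈ principalBlock M G then (a χ).re * d χ else 0 := ⟨_, rfl⟩
    have hmapp : ∀ χ : IrrCharacter G,
        m χ = if χ ∈ principalBlock M G then (a χ).re * d χ else 0 := fun χ => by rw [hm]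
    obtain ⟨x, hx⟩ : ∃ x : IrrCharacter G → ℝ,
        x = fun χ : IrrCharacter G => ((χ : G → ℂ) t).re / d χ := ⟨_, rfl⟩
    have hxapp : ∀ χ : IrrCharacter G, x χ = ((χ : G → ℂ) t).re / d χ := fun χ => by rw [hx]
    have hm0 : ∑ χ : IrrCharacter G, m χ = 0 := by
      have h := congrArg Complex.re h2
      rw [Complex.re_sum, Complex.zero_re] at h
      refine Eq.trans (Finset.sum_congr rfl fun χ _ => ?_) h
      rw [hmapp]
      by_cases hχ : χ ∈ principalBlock M G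
      · rw [if_pos hχ, if_pos hχ, hdc χ, Complex.re_mul_ofReal]
      · rw [if_neg hχ, if_neg hχ, Complex.zero_re]
    have hm1 : ∑ χ : IrrCharacter G, m χ * x χ = 0 := by
      have h := congrArg Complex.re h3
      rw [Complex.re_sum, Complex.zero_re] at h
      refine Eq.trans (Finset.sum_congr rfl fun χ _ => ?_) h
      rw [hmapp, hxapp]
      by_cases hχ : χ ∈ principalBlock M G
      · rw [if_pos hχ, if_pos hχ]
        have hd0 := (hdpos χ).ne'
        have e : a χ * (χ : G → ℂ) t = a χ * ((((χ : G → ℂ) t).re : ℝ) : ℂ) := by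
          rw [← hτ χ]
        rw [e, Complex.re_mul_ofReal]
        field_simp
      · rw [if_neg hχ, if_neg hχ, Complex.zero_re, zero_mul]
    have hm2 : ∑ χ : IrrCharacter G, m χ * x χ ^ 2 = 0 := by
      have h := congrArg Complex.re h1
      rw [Complex.re_sum, Complex.zero_re] at h
      refine Eq.trans (Finset.sum_congr rfl fun χ _ => ?_) h
      rw [hmapp, hxapp]
      by_cases hχ : χ ∈ principalBlock M G
      · rw [if_pos hχ, if_pos hχ]
        have hd0 := (hdpos χ).ne'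
        have e : a χ * (χ : G → ℂ) t ^ 2 / (χ : G → ℂ) 1 =
            a χ * ((((χ : G → ℂ) t).re ^ 2 / d χ : ℝ) : ℂ) := by
          rw [hdc χ]
          conv_lhs => rw [hτ χ]
          push_cast
          ring
        rw [e, Complex.re_mul_ofReal]
        field_simp
      · rw [if_neg hχ, if_neg hχ, Complex.zero_re, zero_mul]
    have hcollapse : ∃ i₀ : IrrCharacter G, ∀ χ : IrrCharacter G, m χ ≠ 0 → x χ = x i₀ := by
      have hor : Nat.card {χ : IrrCharacter G // χ ∈ principalBlock M G ∧ 0 < (a χ).re} ≤ 1 ∨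
          Nat.card {χ : IrrCharacter G // χ ∈ principalBlock M G ∧ (a χ).re < 0} ≤ 1 := by
        by_contra hh
        rw [not_or] at hh
        exact hcnt ⟨by omega, by omega⟩
      rcases hor with hPos | hNeg
      · haveI : Subsingleton {χ : IrrCharacter G // χ ∈ principalBlock M G ∧ 0 < (a χ).re} :=
          Finite.card_le_one_iff_subsingleton.mp hPos
        by_cases hex : ∃ χ : IrrCharacter G, χ ∈ principalBlock M G ∧ 0 < (a χ).re
        · obtain ⟨i₀, hi₀⟩ := hex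
          refine ⟨i₀, weights_collapse_neg m x hm0 hm1 hm2 i₀ (fun χ hχ => ?_)⟩
          rw [hmapp]
          by_cases hχB : χ ∈ principalBlock M G
          · rw [if_pos hχB]
            by_cases hre : 0 < (a χ).re
            · exact absurd (congrArg Subtype.val (Subsingleton.elim
                (⟨χ, hχB, hre⟩ : {χ : IrrCharacter G // χ ∈ principalBlock M G ∧ 0 < (a χ).re})
                ⟨i₀, hi₀⟩)) hχ
            · exact mul_nonpos_of_nonpos_of_nonneg (not_lt.mp hre) (hdpos χ).le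
          · rw [if_neg hχB]
        · refine ⟨triv, weights_collapse_neg m x hm0 hm1 hm2 triv (fun χ _ => ?_)⟩
          rw [hmapp]
          by_cases hχB : χ ∈ principalBlock M G
          · rw [if_pos hχB]
            have hre : (a χ).re ≤ 0 := by
              by_contra hpos
              exact hex ⟨χ, hχB, not_le.mp hpos⟩
            exact mul_nonpos_of_nonpos_of_nonneg hre (hdpos χ).le
          · rw [if_neg hχB]
      · haveI : Subsingleton {χ : IrrCharacter G // χ ∈ principalBlock M G ∧ (a χ).re < 0} :=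
          Finite.card_le_one_iff_subsingleton.mp hNeg
        by_cases hex : ∃ χ : IrrCharacter G, χ ∈ principalBlock M G ∧ (a χ).re < 0
        · obtain ⟨i₀, hi₀⟩ := hex
          refine ⟨i₀, weights_collapse m x hm0 hm1 hm2 i₀ (fun χ hχ => ?_)⟩
          rw [hmapp]
          by_cases hχB : χ ∈ principalBlock M G
          · rw [if_pos hχB]
            by_cases hre : (a χ).re < 0
            · exact absurd (congrArg Subtype.val (Subsingleton.elim
                (⟨χ, hχB, hre⟩ : {χ : IrrCharacter G // χ ∈ principalBlock M G ∧ (a χ).re < 0})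
                ⟨i₀, hi₀⟩)) hχ
            · exact mul_nonneg (not_lt.mp hre) (hdpos χ).le
          · rw [if_neg hχB]
        · refine ⟨triv, weights_collapse m x hm0 hm1 hm2 triv (fun χ _ => ?_)⟩
          rw [hmapp]
          by_cases hχB : χ ∈ principalBlock M G
          · rw [if_pos hχB]
            have hre : 0 ≤ (a χ).re := by
              by_contra hneg
              exact hex ⟨χ, hχB, not_le.mp hneg⟩
            exact mul_nonneg hre (hdpos χ).le
          · rw [if_neg hχB]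
    obtain ⟨i₀, hi₀⟩ := hcollapse
    have htrivB : triv ∈ principalBlock M G := by rw [hPB]; exact sameBlock_refl _
    have htriv1 : ∀ g : G, (triv : G → ℂ) g = 1 := fun g => by rw [htriv]
    have hdtriv : d triv = 1 := by
      have h := hdc triv
      rw [htriv1 1] at h
      exact_mod_cast h.symm
    have hmtriv : m triv ≠ 0 := by
      rw [hmapp, if_pos htrivB, hdtriv, mul_one]
      exact hrtriv
    have hxtriv : x triv = 1 := by
      rw [hxapp, hdtriv, htriv1 t, Complex.one_re, div_one]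
    have hx1 : ∀ χ : IrrCharacter G, m χ ≠ 0 → x χ = 1 := fun χ hχ => by
      rw [hi₀ χ hχ, ← hi₀ triv hmtriv, hxtriv]
    obtain ⟨χ₁, hχ₁ne, hχ₁m⟩ : ∃ χ : IrrCharacter G, χ ≠ triv ∧ m χ ≠ 0 := by
      by_contra hno
      push_neg at hno
      have hs : ∑ χ : IrrCharacter G, m χ = m triv :=
        Finset.sum_eq_single triv (fun χ _ hne => hno χ hne)
          (fun h => absurd (Finset.mem_univ _) h)
      rw [hm0] at hs
      exact hmtriv hs.symm
    have hχ₁B : χ₁ ∈ principalBlock M G := by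
      by_contra hnB
      apply hχ₁m
      rw [hmapp, if_neg hnB]
    have hχ₁t : (χ₁ : G → ℂ) t = (χ₁ : G → ℂ) 1 := by
      have h := hx1 χ₁ hχ₁m
      rw [hxapp, div_eq_one_iff_eq (hdpos χ₁).ne'] at h
      rw [hτ χ₁, hdc χ₁, h]
    obtain ⟨K, hKn, hKmem⟩ := exists_ker_subgroup χ₁
    apply hnoK
    refine ⟨K, hKn, ?_, ?_, (hKmem t).mpr hχ₁t⟩
    · intro hKtop
      have hconst : ∀ g : G, (χ₁ : G → ℂ) g = (χ₁ : G → ℂ) 1 := fun g =>
        (hKmem g).mp (by rw [hKtop]; exact Subgroup.mem_top g)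
      have horth := irr_orthonormal χ₁ triv
      rw [if_neg hχ₁ne, classInner_def'] at horth
      have e : ∑ g : G, (χ₁ : G → ℂ) g * starRingEnd ℂ ((triv : G → ℂ) g) =
          (Nat.card G : ℂ) * (χ₁ : G → ℂ) 1 := by
        have e1 : ∀ g : G, (χ₁ : G → ℂ) g * starRingEnd ℂ ((triv : G → ℂ) g) =
            (χ₁ : G → ℂ) 1 := fun g => by rw [htriv1 g, map_one, mul_one, hconst g]
        rw [Finset.sum_congr rfl fun g _ => e1 g, Finset.sum_const, Finset.card_univ,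
          nsmul_eq_mul, ← Nat.card_eq_fintype_card]
      rw [e, ← mul_assoc, inv_mul_cancel₀ hG0, one_mul] at horth
      exact Cfsg.Agent.Helper5.irr_one_ne_zero χ₁ horth
    · intro g hg
      rw [hKmem]
      have hcop := Cfsg.Agent.Helper9.pPrimeCore_coprime 2 G
      have hpN : ¬ 2 ∣ Nat.card (pPrimeCore 2 G) := fun hd =>
        Nat.prime_two.one_lt.ne' (Nat.Coprime.eq_one_of_dvd hcop.symm hd)
      have hchar := Cfsg.Agent.Helper9.pPrimeCore_characteristic 2 G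
      haveI hNn : (pPrimeCore 2 G).Normal := inferInstance
      rw [hPB] at hχ₁B
      exact ker_of_sameBlock hM (pPrimeCore 2 G) hpN triv χ₁ hχ₁B
        (fun g _ => by rw [htriv1 g, htriv1 1]) g hg
  simp only [hfold]
  rw [finsum_mem_eq_sum_ite, finsum_mem_eq_sum_ite, finsum_mem_eq_sum_ite]
  exact ⟨h1, h2, h3, h4⟩

end Cfsg.Agent.S4722
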