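import Cfsg.Statements.S4731
import Cfsg.Agent.Helper22.BlkSubsec2
import Cfsg.Agent.Helper22.Brauer3
import Cfsg.Agent.Helper24.CharInd
import Cfsg.Agent.Helper24.CharDecomp
import Cfsg.Agent.Helper5.BlkOrth

set_option autoImplicit false
open Cfsg
open Cfsg.Agent.Helper5 Cfsg.Agent.Helper24 Cfsg.Agent.Helper22

namespace Cfsg.Agent.S4731

/-- Let p ≠ q be primes, M_p and M_q maximal ideals of the algebraic integers containing p and q respectively, and G a finite group with no element of order pq; let q^b be the q-part of the order of G. For a p-block B_p (relative to M_p), a q-block B_q (relative to M_q) and a p-singular element y, the sum of χ(1)χ(y) over the irreducible characters χ lying in both B_p and B_q is q^b times an algebraic integer. -/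
theorem result {G : Type*} [Group G] [Finite G] (p q : ℕ) [Fact p.Prime] [Fact q.Prime] (hpq : p ≠ q) (Mp Mq : Ideal Cfsg.AlgInt) (hMp : Cfsg.IsPModular p Mp) (hMq : Cfsg.IsPModular q Mq) (hno : ∀ g : G, orderOf g ≠ p * q) (b : ℕ) (hb : (Nat.card G).factorization q = b) (Bp : Set (Cfsg.IrrCharacter G)) (hBp : Cfsg.IsPBlock Mp Bp) (Bq : Set (Cfsg.IrrCharacter G)) (hBq : Cfsg.IsPBlock Mq Bq) (y : G) (hy : p ∣ orderOf y) : ∃ ω : Cfsg.AlgInt, ∑ᶠ χ ∈ Bp ∩ Bq, (Cfsg.charDegree (χ : G → ℂ) : ℂ) * (χ : G → ℂ) y = (q : ℂ) ^ b * (ω : ℂ) := by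
  classical
  haveI := Fintype.ofFinite G
  haveI hMp' : Mp.IsPrime := hMp.2.1.isPrime
  haveI hMq' : Mq.IsPrime := hMq.2.1.isPrime
  have hp : p.Prime := Fact.out
  have hq : q.Prime := Fact.out
  obtain ⟨χp, rfl⟩ := hBp
  obtain ⟨χq, rfl⟩ := hBq
  have hG0 : (Nat.card G : ℂ) ≠ 0 := Nat.cast_ne_zero.mpr Nat.card_pos.ne'
  have hnopq : ∀ g : G, q ∣ orderOf g → ¬ p ∣ orderOf g := by
    intro g hqg hpg
    have hcop : Nat.Coprime p q := (Nat.coprime_primes hp hq).mpr hpq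
    have hdvd : p * q ∣ orderOf g := hcop.mul_dvd_of_dvd_of_dvd hpg hqg
    exact hno (g ^ (orderOf g / (p * q))) (orderOf_pow_orderOf_div (orderOf_pos g).ne' hdvd)
  obtain ⟨θ, hθdef⟩ : ∃ θ : G → ℂ, θ = fun g => ∑ χ : IrrCharacter G,
      if χ ∈ blockOf Mp (χp : G → ℂ) then (χ : G → ℂ) g * (χ : G → ℂ) y else 0 := ⟨_, rfl⟩
  have hθapp : ∀ g, θ g = ∑ χ : IrrCharacter G,
      if χ ∈ blockOf Mp (χp : G → ℂ) then (χ : G → ℂ) g * (χ : G → ℂ) y else 0 :=
    fun g => by rw [hθdef]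
  have hyinv : p ∣ orderOf y⁻¹ := by rw [orderOf_inv]; exact hy
  have hθ0 : ∀ g : G, ¬ p ∣ orderOf g → θ g = 0 := by
    intro g hg
    have h := weak_block_orth hMp χp g y⁻¹ hg hyinv
    rw [finsum_mem_eq_sum_ite] at h
    rw [hθapp]
    refine Eq.trans (Finset.sum_congr rfl fun χ _ => ?_) h
    by_cases hχ : χ ∈ blockOf Mp (χp : G → ℂ)
    · rw [if_pos hχ, if_pos hχ, irr_inv, Complex.conj_conj]
    · rw [if_neg hχ, if_neg hχ]
  have hcoef : ∀ ψ : IrrCharacter G,
      (Nat.card G : ℂ)⁻¹ * ∑ h : G, θ h * starRingEnd ℂ ((ψ : G → ℂ) h) =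
      if ψ ∈ blockOf Mp (χp : G → ℂ) then (ψ : G → ℂ) y else 0 := by
    intro ψ
    have h1 : ∀ h : G, θ h * starRingEnd ℂ ((ψ : G → ℂ) h) = ∑ χ : IrrCharacter G,
        if χ ∈ blockOf Mp (χp : G → ℂ) then
          (χ : G → ℂ) y * ((χ : G → ℂ) h * starRingEnd ℂ ((ψ : G → ℂ) h)) else 0 := by
      intro h
      rw [hθapp, Finset.sum_mul]
      refine Finset.sum_congr rfl fun χ _ => ?_
      split_ifs
      · ring
      · rw [zero_mul]
    rw [Finset.sum_congr rfl fun h _ => h1 h, Finset.sum_comm, Finset.mul_sum]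
    have h2 : ∀ χ : IrrCharacter G, (Nat.card G : ℂ)⁻¹ * ∑ h : G,
        (if χ ∈ blockOf Mp (χp : G → ℂ) then
          (χ : G → ℂ) y * ((χ : G → ℂ) h * starRingEnd ℂ ((ψ : G → ℂ) h)) else 0) =
        if χ = ψ then (if ψ ∈ blockOf Mp (χp : G → ℂ) then (ψ : G → ℂ) y else 0) else 0 := by
      intro χ
      by_cases hχ : χ ∈ blockOf Mp (χp : G → ℂ)
      · simp only [if_pos hχ]
        rw [← Finset.mul_sum, mul_left_comm, ← classInner_def', irr_orthonormal]
        by_cases hχψ : χ = ψ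
        · rw [if_pos hχψ, if_pos hχψ, mul_one, ← hχψ, if_pos hχ]
        · rw [if_neg hχψ, if_neg hχψ, mul_zero]
      · simp only [if_neg hχ, Finset.sum_const_zero, mul_zero]
        by_cases hχψ : χ = ψ
        · rw [if_pos hχψ, ← hχψ, if_neg hχ]
        · rw [if_neg hχψ]
    rw [Finset.sum_congr rfl fun χ _ => h2 χ, Finset.sum_ite_eq', if_pos (Finset.mem_univ _)]
  obtain ⟨η, hηdef⟩ : ∃ η : G → ℂ, η = fun g => ∑ ψ : IrrCharacter G,
      if ψ ∈ blockOf Mq (χq : G → ℂ) then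
        (if ψ ∈ blockOf Mp (χp : G → ℂ) then (ψ : G → ℂ) y else 0) * (ψ : G → ℂ) g else 0 :=
    ⟨_, rfl⟩
  have hηapp : ∀ g, η g = ∑ ψ : IrrCharacter G,
      if ψ ∈ blockOf Mq (χq : G → ℂ) then
        (if ψ ∈ blockOf Mp (χp : G → ℂ) then (ψ : G → ℂ) y else 0) * (ψ : G → ℂ) g else 0 :=
    fun g => by rw [hηdef]
  have hη0 : ∀ g : G, q ∣ orderOf g → η g = 0 := by
    intro g hg
    have h1 : η g = (Nat.card G : ℂ)⁻¹ * ∑ h : G, θ h * ∑ ψ : IrrCharacter G,
        (if ψ ∈ blockOf Mq (χq : G → ℂ) then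
          starRingEnd ℂ ((ψ : G → ℂ) h) * (ψ : G → ℂ) g else 0) := by
      rw [hηapp]
      have h2 : ∀ h : G, θ h * ∑ ψ : IrrCharacter G,
          (if ψ ∈ blockOf Mq (χq : G → ℂ) then
            starRingEnd ℂ ((ψ : G → ℂ) h) * (ψ : G → ℂ) g else 0) =
          ∑ ψ : IrrCharacter G, (if ψ ∈ blockOf Mq (χq : G → ℂ) then
            (θ h * starRingEnd ℂ ((ψ : G → ℂ) h)) * (ψ : G → ℂ) g else 0) := by
        intro h
        rw [Finset.mul_sum]
        refine Finset.sum_congr rfl fun ψ _ => ?_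
        split_ifs
        · ring
        · rw [mul_zero]
      rw [Finset.sum_congr rfl fun h _ => h2 h, Finset.sum_comm, Finset.mul_sum]
      refine Finset.sum_congr rfl fun ψ _ => ?_
      by_cases hψ : ψ ∈ blockOf Mq (χq : G → ℂ)
      · simp only [if_pos hψ]
        rw [← Finset.sum_mul, ← mul_assoc, hcoef ψ]
      · simp only [if_neg hψ, Finset.sum_const_zero, mul_zero]
    rw [h1]
    have h3 : ∀ h : G, θ h * ∑ ψ : IrrCharacter G,
        (if ψ ∈ blockOf Mq (χq : G → ℂ) then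
          starRingEnd ℂ ((ψ : G → ℂ) h) * (ψ : G → ℂ) g else 0) = 0 := by
      intro h
      by_cases hh : q ∣ orderOf h
      · rw [hθ0 h (hnopq h hh), zero_mul]
      · have hw := weak_block_orth hMq χq h g hh hg
        rw [finsum_mem_eq_sum_ite] at hw
        have hw2 := congrArg (starRingEnd ℂ) hw
        rw [map_sum, map_zero] at hw2
        have e : ∑ ψ : IrrCharacter G, (if ψ ∈ blockOf Mq (χq : G → ℂ) then
            starRingEnd ℂ ((ψ : G → ℂ) h) * (ψ : G → ℂ) g else 0) = 0 := by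
          refine Eq.trans (Finset.sum_congr rfl fun ψ _ => ?_) hw2
          by_cases hψ : ψ ∈ blockOf Mq (χq : G → ℂ)
          · rw [if_pos hψ, if_pos hψ, map_mul, Complex.conj_conj]
          · rw [if_neg hψ, if_neg hψ, map_zero]
        rw [e, mul_zero]
    rw [Finset.sum_congr rfl fun h _ => h3 h, Finset.sum_const_zero, mul_zero]
  obtain ⟨Q⟩ : Nonempty (Sylow q G) := inferInstance
  haveI : Fintype ↥(Q : Subgroup G) := Fintype.ofFinite _
  have hQcard : Nat.card ↥(Q : Subgroup G) = q ^ b := by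
    have h := Sylow.card_eq_multiplicity Q
    rw [hb] at h
    exact h
  have hQ0 : (Nat.card ↥(Q : Subgroup G) : ℂ) ≠ 0 := Nat.cast_ne_zero.mpr Nat.card_pos.ne'
  have hsumQ : ∑ x : ↥(Q : Subgroup G), η (x : G) = η 1 := by
    rw [Finset.sum_eq_single (1 : ↥(Q : Subgroup G))]
    · rw [Subgroup.coe_one]
    · intro x _ hx
      apply hη0
      obtain ⟨k, hk⟩ := (IsPGroup.iff_orderOf.mp Q.isPGroup') x
      rw [Subgroup.orderOf_coe, hk]
      have hk0 : k ≠ 0 := by
        rintro rfl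
        rw [pow_zero, orderOf_eq_one_iff] at hk
        exact hx hk
      exact dvd_pow_self q hk0
    · intro h
      exact absurd (Finset.mem_univ _) h
  have hk : ∀ χ : IrrCharacter G, ∃ k : ℕ, ∑ x : ↥(Q : Subgroup G), (χ : G → ℂ) (x : G) =
      (Nat.card ↥(Q : Subgroup G) : ℂ) * (k : ℂ) := by
    intro χ
    obtain ⟨k, hk⟩ := classInner_isCharacter_natCast
      (isCharacter_restrict (Q : Subgroup G) (isCharacter_of_isIrrCharacter χ.2))
      (isCharacter_of_isIrrCharacter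
        (Cfsg.Agent.Helper24.isIrrCharacter_one (G := ↥(Q : Subgroup G))))
    refine ⟨k, ?_⟩
    rw [classInner_def'] at hk
    simp only [map_one, mul_one] at hk
    rw [← hk, ← mul_assoc, mul_inv_cancel₀ hQ0, one_mul]
  choose kf hkf using hk
  have hint : IsIntegral ℤ (∑ χ : IrrCharacter G, (if χ ∈ blockOf Mq (χq : G → ℂ) then
      (if χ ∈ blockOf Mp (χp : G → ℂ) then (χ : G → ℂ) y else 0) * (kf χ : ℂ) else 0)) := by
    refine IsIntegral.sum _ fun χ _ => ?_
    by_cases hχq : χ ∈ blockOf Mq (χq : G → ℂ)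
    · rw [if_pos hχq]
      by_cases hχp : χ ∈ blockOf Mp (χp : G → ℂ)
      · rw [if_pos hχp]
        exact (irr_isIntegral χ y).mul (isIntegral_natCast _)
      · rw [if_neg hχp, zero_mul]
        exact isIntegral_zero
    · rw [if_neg hχq]
      exact isIntegral_zero
  have hη1 : η 1 = (q : ℂ) ^ b * ∑ χ : IrrCharacter G,
      (if χ ∈ blockOf Mq (χq : G → ℂ) then
        (if χ ∈ blockOf Mp (χp : G → ℂ) then (χ : G → ℂ) y else 0) * (kf χ : ℂ) else 0) := by
    rw [← hsumQ, Finset.sum_congr rfl fun (x : ↥(Q : Subgroup G)) _ => hηapp (x : G), Finset.sum_comm, Finset.mul_sum]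
    refine Finset.sum_congr rfl fun χ _ => ?_
    by_cases hχ : χ ∈ blockOf Mq (χq : G → ℂ)
    · simp only [if_pos hχ]
      rw [← Finset.mul_sum, hkf χ, hQcard, Nat.cast_pow]
      ring
    · simp only [if_neg hχ, Finset.sum_const_zero, mul_zero]
  refine ⟨⟨_, hint⟩, ?_⟩
  refine Eq.trans ?_ hη1
  rw [finsum_mem_eq_sum_ite, hηapp]
  refine Finset.sum_congr rfl fun χ _ => ?_
  by_cases hχq : χ ∈ blockOf Mq (χq : G → ℂ)
  · by_cases hχp : χ ∈ blockOf Mp (χp : G → ℂ)
    · rw [if_pos ⟨hχp, hχq⟩, if_pos hχq, if_pos hχp, (irr_charDegree_spec χ).1, mul_comm]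
    · rw [if_neg (fun h => hχp h.1), if_pos hχq, if_neg hχp, zero_mul]
  · rw [if_neg (fun h => hχq h.2), if_neg hχq]

end Cfsg.Agent.S4731
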