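import Cfsg.Statements.S4735
import Cfsg.Agent.Helper22.BlkPrinGal
import Cfsg.Agent.Helper22.BlkSubsec3
import Cfsg.Agent.Helper22.Brauer3
import Cfsg.Agent.Helper22.BlkCover
import Cfsg.Agent.Helper9.PPrimeCore
import Cfsg.Agent.Helper5.BlkOsima

set_option autoImplicit false
open Cfsg
open Cfsg.Agent.Helper22 Cfsg.Agent.Helper24 Cfsg.Agent.Helper5

namespace Cfsg.Agent.S4735

/-- Let p be a prime, M a maximal ideal of the algebraic integers containing p, G a finite group, H = O_p'(G) and Ḡ = G/H. For x ∈ G write λ(G, x) for the sum of |χ(x)|^2 over the irreducible characters χ in the principal p-block of G. Then λ(G, x) is a positive integer, λ(G, x) = λ(Ḡ, x̄) where x̄ is the image of x, and λ(G, x) ≤ #C_Ḡ(x̄). Moreover λ(G, 1) = [G : H] if and only if the principal block is the only p-block of Ḡ. -/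
theorem result {G : Type*} [Group G] [Finite G] (p : ℕ) [Fact p.Prime] (M : Ideal Cfsg.AlgInt) (hM : Cfsg.IsPModular p M) (x : G) : (∃ n : ℕ, 0 < n ∧ ∑ᶠ χ ∈ Cfsg.principalBlock M G, Complex.normSq ((χ : G → ℂ) x) = n) ∧ ∑ᶠ χ ∈ Cfsg.principalBlock M G, Complex.normSq ((χ : G → ℂ) x) = ∑ᶠ ψ ∈ Cfsg.principalBlock M (G ⧸ Cfsg.pPrimeCore p G), Complex.normSq ((ψ : G ⧸ Cfsg.pPrimeCore p G → ℂ) (QuotientGroup.mk x)) ∧ ∑ᶠ χ ∈ Cfsg.principalBlock M G, Complex.normSq ((χ : G → ℂ) x) ≤ (Nat.card ↥(Subgroup.centralizer ({(QuotientGroup.mk x : G ⧸ Cfsg.pPrimeCore p G)} : Set (G ⧸ Cfsg.pPrimeCore p G))) : ℝ) ∧ ((∑ᶠ χ ∈ Cfsg.principalBlock M G, Cfsg.charDegree (χ : G → ℂ) ^ 2) = (Cfsg.pPrimeCore p G).index ↔ ∀ B : Set (Cfsg.IrrCharacter (G ⧸ Cfsg.pPrimeCore p G)), Cfsg.IsPBlock M B → B = Cfsg.principalBlock M (G ⧸ Cfsg.pPrimeCore p G)) := by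
  classical
  haveI := Fintype.ofFinite G
  haveI : Fintype (G ⧸ pPrimeCore p G) := Fintype.ofFinite _
  haveI hMp : M.IsPrime := hM.2.1.isPrime
  have hp : p.Prime := Fact.out
  have hK : ¬ p ∣ Nat.card (pPrimeCore p G) := fun hd =>
    hp.one_lt.ne' (Nat.Coprime.eq_one_of_dvd (Cfsg.Agent.Helper9.pPrimeCore_coprime p G).symm hd)
  rw [finsum_mem_eq_sum_ite_gen, finsum_mem_eq_sum_ite_gen, finsum_mem_eq_sum_ite_gen]
  have hsum2 : ∑ χ : IrrCharacter G,
      (if χ ∈ principalBlock M G then Complex.normSq ((χ : G → ℂ) x) else 0) =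
      ∑ ψ : IrrCharacter (G ⧸ pPrimeCore p G),
        (if ψ ∈ principalBlock M (G ⧸ pPrimeCore p G) then
          Complex.normSq ((ψ : G ⧸ pPrimeCore p G → ℂ) (QuotientGroup.mk x)) else 0) :=
    principal_sum_quot hM (pPrimeCore p G) hK (fun φ : G → ℂ => Complex.normSq (φ x))
  obtain ⟨z, hz⟩ := principal_norm_int hM x
  have hL : ((∑ χ : IrrCharacter G,
      (if χ ∈ principalBlock M G then Complex.normSq ((χ : G → ℂ) x) else 0) : ℝ) : ℂ) =
      (z : ℂ) := by
    rw [← hz, Complex.ofReal_sum]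
    refine Finset.sum_congr rfl fun χ _ => ?_
    by_cases hχ : χ ∈ principalBlock M G
    · rw [if_pos hχ, if_pos hχ, irr_inv, Complex.mul_conj]
    · rw [if_neg hχ, if_neg hχ, Complex.ofReal_zero]
  have hLz : ∑ χ : IrrCharacter G,
      (if χ ∈ principalBlock M G then Complex.normSq ((χ : G → ℂ) x) else 0) = (z : ℝ) := by
    apply Complex.ofReal_injective
    rw [hL, Complex.ofReal_intCast]
  obtain ⟨t, ht⟩ : ∃ t : IrrCharacter G, (t : G → ℂ) = fun _ => 1 :=
    ⟨⟨_, Cfsg.Agent.Helper24.isIrrCharacter_one⟩, rfl⟩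
  have htB : t ∈ principalBlock M G := by
    rw [principalBlock_eq_blockOf M t ht]
    exact sameBlock_refl _
  have hL1 : (1 : ℝ) ≤ ∑ χ : IrrCharacter G,
      (if χ ∈ principalBlock M G then Complex.normSq ((χ : G → ℂ) x) else 0) := by
    have h1 := Finset.single_le_sum (f := fun χ : IrrCharacter G =>
      if χ ∈ principalBlock M G then Complex.normSq ((χ : G → ℂ) x) else 0)
      (fun χ _ => by
        by_cases h : χ ∈ principalBlock M G
        · simp only [if_pos h]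
          exact Complex.normSq_nonneg _
        · simp only [if_neg h]
          exact le_rfl) (Finset.mem_univ t)
    have h2 : (if t ∈ principalBlock M G then Complex.normSq ((t : G → ℂ) x) else 0) = 1 := by
      rw [if_pos htB, ht]
      exact Complex.normSq_one
    calc (1 : ℝ) = _ := h2.symm
      _ ≤ _ := h1
  have hz1 : (1 : ℤ) ≤ z := by
    have h1 : (1 : ℝ) ≤ (z : ℝ) := hLz ▸ hL1
    exact_mod_cast h1
  obtain ⟨n, rfl⟩ := Int.eq_ofNat_of_zero_le (by omega : (0 : ℤ) ≤ z)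
  have hn0 : 0 < n := by
    have h1 : 1 ≤ n := by exact_mod_cast hz1
    exact h1
  have h3 : ∑ χ : IrrCharacter G,
      (if χ ∈ principalBlock M G then Complex.normSq ((χ : G → ℂ) x) else 0) ≤
      (Nat.card ↥(Subgroup.centralizer ({(QuotientGroup.mk x : G ⧸ pPrimeCore p G)} :
        Set (G ⧸ pPrimeCore p G))) : ℝ) := by
    rw [hsum2, ← sum_irr_normSq (QuotientGroup.mk x : G ⧸ pPrimeCore p G)]
    refine Finset.sum_le_sum fun ψ _ => ?_
    by_cases hψ : ψ ∈ principalBlock M (G ⧸ pPrimeCore p G)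
    · rw [if_pos hψ]
      exact le_of_eq (Complex.normSq_eq_norm_sq _)
    · rw [if_neg hψ]
      positivity
  have hdeg : ∑ χ : IrrCharacter G,
      (if χ ∈ principalBlock M G then charDegree (χ : G → ℂ) ^ 2 else 0) =
      ∑ ψ : IrrCharacter (G ⧸ pPrimeCore p G),
        (if ψ ∈ principalBlock M (G ⧸ pPrimeCore p G) then
          charDegree (ψ : G ⧸ pPrimeCore p G → ℂ) ^ 2 else 0) :=
    principal_sum_quot hM (pPrimeCore p G) hK (fun φ : G → ℂ => charDegree φ ^ 2)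
  have htot : ∑ ψ : IrrCharacter (G ⧸ pPrimeCore p G),
      charDegree (ψ : G ⧸ pPrimeCore p G → ℂ) ^ 2 = (pPrimeCore p G).index := by
    have h1 := sum_irr_one_normSq (X := G ⧸ pPrimeCore p G)
    have h2 : ((∑ ψ : IrrCharacter (G ⧸ pPrimeCore p G),
        charDegree (ψ : G ⧸ pPrimeCore p G → ℂ) ^ 2 : ℕ) : ℝ) =
        ((pPrimeCore p G).index : ℝ) := by
      rw [Nat.cast_sum]
      refine Eq.trans (Finset.sum_congr rfl fun ψ _ => ?_) h1
      rw [(irr_charDegree_spec ψ).1, Complex.norm_natCast, Nat.cast_pow]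
    exact_mod_cast h2
  refine ⟨⟨n, hn0, hLz.trans (Int.cast_natCast n)⟩, hsum2, h3, ?_, ?_⟩
  · intro hS B₁ hB₁
    have hall : ∀ ψ : IrrCharacter (G ⧸ pPrimeCore p G),
        ψ ∈ principalBlock M (G ⧸ pPrimeCore p G) := by
      by_contra hcon
      rw [not_forall] at hcon
      obtain ⟨ψ₀, hψ₀⟩ := hcon
      have hlt : ∑ ψ : IrrCharacter (G ⧸ pPrimeCore p G),
          (if ψ ∈ principalBlock M (G ⧸ pPrimeCore p G) then
            charDegree (ψ : G ⧸ pPrimeCore p G → ℂ) ^ 2 else 0) <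
          ∑ ψ : IrrCharacter (G ⧸ pPrimeCore p G),
            charDegree (ψ : G ⧸ pPrimeCore p G → ℂ) ^ 2 := by
        refine Finset.sum_lt_sum (fun ψ _ => ?_) ⟨ψ₀, Finset.mem_univ _, ?_⟩
        · by_cases h : ψ ∈ principalBlock M (G ⧸ pPrimeCore p G)
          · exact le_of_eq (if_pos h)
          · exact (le_of_eq (if_neg h)).trans (Nat.zero_le _)
        · rw [if_neg hψ₀]
          exact pow_pos (Nat.pos_of_ne_zero (irr_charDegree_spec ψ₀).2.1) 2
      rw [← hdeg, hS, htot] at hlt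
      exact lt_irrefl _ hlt
    obtain ⟨ψ₁, rfl⟩ := hB₁
    have h1 : SameBlock M (fun _ : G ⧸ pPrimeCore p G => (1 : ℂ))
        (ψ₁ : G ⧸ pPrimeCore p G → ℂ) := hall ψ₁
    exact (blockOf_eq_of_sameBlock h1).symm
  · intro hall
    rw [hdeg, ← htot]
    refine Finset.sum_congr rfl fun ψ _ => ?_
    have hψ : ψ ∈ principalBlock M (G ⧸ pPrimeCore p G) := by
      have h1 := hall (blockOf M (ψ : G ⧸ pPrimeCore p G → ℂ)) ⟨ψ, rfl⟩
      rw [← h1]
      exact sameBlock_refl _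
    rw [if_pos hψ]

end Cfsg.Agent.S4735
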