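import Cfsg.Statements.S4746
import Mathlib
import Cfsg.Agent.S4742
import Cfsg.Agent.Helper22.EvenDeg

set_option autoImplicit false
open Cfsg

namespace Cfsg.Agent.S4746

/-- Let p be an odd prime and G a finite group of even order divisible by p in which the centralizer of every non-identity p-element has odd order. Then G has an irreducible character of p-defect zero or an irreducible character of even degree. -/
theorem result {G : Type*} [Group G] [Finite G] (p : ℕ) [Fact p.Prime] (hp2 : p ≠ 2) (hpG : p ∣ Nat.card G) (h2G : 2 ∣ Nat.card G) (hC : ∀ g : G, g ≠ 1 → (∃ k : ℕ, orderOf g = p ^ k) → Odd (Nat.card ↥(Subgroup.centralizer ({g} : Set G)))) : (∃ χ : Cfsg.IrrCharacter G, (Cfsg.charDegree (χ : G → ℂ)).factorization p = (Nat.card G).factorization p) ∨ ∃ χ : Cfsg.IrrCharacter G, Even (Cfsg.charDegree (χ : G → ℂ)) := by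
  have hC' : ∀ g : G, g ≠ 1 → (∃ k : ℕ, orderOf g = p ^ k) →
      ¬ 2 ∣ Nat.card ↥(Subgroup.centralizer ({g} : Set G)) := by
    intro g hg hk h2
    have h3 := hC g hg hk
    rw [Nat.odd_iff] at h3
    omega
  rcases Cfsg.Agent.S4742.result p 2 hp2 hpG h2G hC' with h | h
  · exact Or.inl h
  · right
    obtain ⟨t, ht⟩ := exists_prime_orderOf_dvd_card' 2 h2G
    have ht1 : t ≠ 1 := by
      intro h1
      rw [h1, orderOf_one] at ht
      omega
    obtain ⟨g, h', hg, hh, hne, hk⟩ := h t ht1 ⟨1, by rw [ht, pow_one]⟩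
    have ht2 : t * t = 1 := by
      have h3 := pow_orderOf_eq_one t
      rw [ht, sq] at h3
      exact h3
    obtain ⟨c, hc⟩ := isConj_iff.mp hg
    obtain ⟨d, hd⟩ := isConj_iff.mp hh
    have hg2 : g * g = 1 := by
      rw [← hc]
      have e : c * t * c⁻¹ * (c * t * c⁻¹) = c * (t * t) * c⁻¹ := by group
      rw [e, ht2, mul_one, mul_inv_cancel]
    have hh2 : h' * h' = 1 := by
      rw [← hd]
      have e : d * t * d⁻¹ * (d * t * d⁻¹) = d * (t * t) * d⁻¹ := by group
      rw [e, ht2, mul_one, mul_inv_cancel]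
    have hginv : g⁻¹ = g := inv_eq_of_mul_eq_one_left hg2
    have hhinv : h'⁻¹ = h' := inv_eq_of_mul_eq_one_left hh2
    have hreal : g * (g * h'⁻¹) * g⁻¹ = (g * h'⁻¹)⁻¹ := by
      rw [mul_inv_rev, inv_inv, hginv, hhinv, ← mul_assoc, hg2, one_mul]
    exact Cfsg.Agent.Helper22.exists_even_degree_of_real_odd_centralizer (g * h'⁻¹) g hne hreal
      (hC _ hne hk)

end Cfsg.Agent.S4746
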