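import Cfsg.Statements.S4754
import Cfsg.Agent.Helper24.CharLinear
import Cfsg.Agent.Helper24.CharComplete

set_option autoImplicit false
open Cfsg
open Cfsg.Agent.Helper24

namespace Cfsg.Agent.S4754

theorem irr_sum_conj_mul {G : Type*} [Group G] [Fintype G] (χ : IrrCharacter G) (a b : G) :
    ∑ x : G, (χ : G → ℂ) (x * a * x⁻¹ * b) =
      (Nat.card G : ℂ) * (χ : G → ℂ) a * (χ : G → ℂ) b / (χ : G → ℂ) 1 := by
  obtain ⟨n, ρ, hρ, hχ⟩ := χ.2
  have : ρ.IsIrreducible := hρ
  rw [← hχ, Representation.char_one]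
  exact sum_char_conj_mul ρ a b


/-- For elements x, y of a finite group G, the conjugacy class of x y equals the set of all products of a conjugate of x with a conjugate of y if and only if χ(1) χ(a x a⁻¹ b y b⁻¹) = χ(x) χ(y) for all a, b ∈ G and every irreducible character χ. -/
theorem result {G : Type*} [Group G] [Finite G] (x y : G) : (∀ z : G, IsConj (x * y) z ↔ ∃ a b : G, z = a * x * a⁻¹ * (b * y * b⁻¹)) ↔ ∀ (a b : G) (χ : Cfsg.IrrCharacter G), (χ : G → ℂ) 1 * (χ : G → ℂ) (a * x * a⁻¹ * (b * y * b⁻¹)) = (χ : G → ℂ) x * (χ : G → ℂ) y := by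
  classical
  have := Fintype.ofFinite G
  have hG : (Nat.card G : ℂ) ≠ 0 := Nat.cast_ne_zero.mpr Nat.card_pos.ne'
  constructor
  · intro h a b χ
    have h1 : ∀ c : G, (χ : G → ℂ) (c * x * c⁻¹ * (b * y * b⁻¹)) = (χ : G → ℂ) (x * y) := by
      intro c
      have hc : IsConj (x * y) (c * x * c⁻¹ * (b * y * b⁻¹)) := (h _).mpr ⟨c, b, rfl⟩
      exact (isClassFunction_of_isConj (irr_isClassFunction χ) hc).symm
    have h2 := irr_sum_conj_mul χ x (b * y * b⁻¹)
    simp only [h1] at h2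
    rw [Finset.sum_const, Finset.card_univ, nsmul_eq_mul, ← Nat.card_eq_fintype_card,
      irr_conj] at h2
    have h0 := Cfsg.Agent.Helper24.irr_one_ne_zero χ
    rw [h1 a]
    have h3 : (Nat.card G : ℂ) * ((χ : G → ℂ) 1 * (χ : G → ℂ) (x * y)) =
        (Nat.card G : ℂ) * ((χ : G → ℂ) x * (χ : G → ℂ) y) := by
      calc (Nat.card G : ℂ) * ((χ : G → ℂ) 1 * (χ : G → ℂ) (x * y))
          = ((Nat.card G : ℂ) * (χ : G → ℂ) (x * y)) * (χ : G → ℂ) 1 := by ring
        _ = ((Nat.card G : ℂ) * (χ : G → ℂ) x * (χ : G → ℂ) y / (χ : G → ℂ) 1) *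
              (χ : G → ℂ) 1 := by rw [h2]
        _ = (Nat.card G : ℂ) * ((χ : G → ℂ) x * (χ : G → ℂ) y) := by field_simp
    exact mul_left_cancel₀ hG h3
  · intro h z
    constructor
    · intro hz
      obtain ⟨c, hc⟩ := isConj_iff.mp hz
      refine ⟨c, c, ?_⟩
      rw [← hc]; group
    · rintro ⟨a, b, rfl⟩
      by_contra hcon
      have h1 := (sum_irr_mul_conj (x * y) (a * x * a⁻¹ * (b * y * b⁻¹))).2 hcon
      have h2 := (sum_irr_mul_conj (x * y) (x * y)).1 (IsConj.refl _)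
      have h3 : ∀ χ : IrrCharacter G,
          (χ : G → ℂ) (a * x * a⁻¹ * (b * y * b⁻¹)) = (χ : G → ℂ) (x * y) := by
        intro χ
        have e1 := h a b χ
        have e2 := h 1 1 χ
        simp only [one_mul, inv_one, mul_one] at e2
        exact mul_left_cancel₀ (Cfsg.Agent.Helper24.irr_one_ne_zero χ) (e1.trans e2.symm)
      simp only [h3] at h1
      rw [h1] at h2
      exact (Nat.cast_ne_zero.mpr Nat.card_pos.ne' :
        (Nat.card (Subgroup.centralizer ({x * y} : Set G)) : ℂ) ≠ 0) h2.symm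

end Cfsg.Agent.S4754
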