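import Cfsg.Statements.S4755
import Cfsg.Agent.S4754

set_option autoImplicit false
open Cfsg
open Cfsg.Agent.Helper24
open scoped commutatorElement

namespace Cfsg.Agent.S4755

theorem irr_linear_commutator {G : Type*} [Group G] (χ : IrrCharacter G)
    (h1 : (χ : G → ℂ) 1 = 1) {w : G} (hw : w ∈ commutator G) : (χ : G → ℂ) w = 1 := by
  let f : G →* ℂ :=
    { toFun := (χ : G → ℂ), map_one' := h1, map_mul' := irr_linear_mul χ h1 }
  have h2 := Abelianization.commutator_subset_ker f.toHomUnits hw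
  rw [MonoidHom.mem_ker] at h2
  have h4 : (f.toHomUnits w : ℂ) = f w := MonoidHom.coe_toHomUnits f w
  rw [h2] at h4
  exact h4.symm.trans Units.val_one


/-- Let x, y be non-identity elements of the finite group G such that χ(x' y') = χ(x') χ(y') for all conjugates x' of x, y' of y and every irreducible character χ. Then the conjugacy class of x y is the set of all products of a conjugate of x with a conjugate of y; every irreducible character of degree greater than 1 vanishes at x y; and the conjugacy class of x y is the coset of the commutator subgroup containing x y. -/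
theorem result {G : Type*} [Group G] [Finite G] (x y : G) (hx : x ≠ 1) (hy : y ≠ 1) (h : ∀ (a b : G) (χ : Cfsg.IrrCharacter G), (χ : G → ℂ) (a * x * a⁻¹ * (b * y * b⁻¹)) = (χ : G → ℂ) (a * x * a⁻¹) * (χ : G → ℂ) (b * y * b⁻¹)) : (∀ z : G, IsConj (x * y) z ↔ ∃ a b : G, z = a * x * a⁻¹ * (b * y * b⁻¹)) ∧ (∀ χ : Cfsg.IrrCharacter G, (χ : G → ℂ) 1 ≠ 1 → (χ : G → ℂ) (x * y) = 0) ∧ (∀ z : G, IsConj (x * y) z ↔ (x * y)⁻¹ * z ∈ commutator G) := by
  classical
  have := Fintype.ofFinite G
  have hG : (Nat.card G : ℂ) ≠ 0 := Nat.cast_ne_zero.mpr Nat.card_pos.ne'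
  have hA : ∀ (a b : G) (χ : IrrCharacter G),
      (χ : G → ℂ) (a * x * a⁻¹ * (b * y * b⁻¹)) = (χ : G → ℂ) x * (χ : G → ℂ) y := by
    intro a b χ
    rw [h a b χ, irr_conj, irr_conj]
  have hB : ∀ χ : IrrCharacter G,
      (χ : G → ℂ) 1 * ((χ : G → ℂ) x * (χ : G → ℂ) y) = (χ : G → ℂ) x * (χ : G → ℂ) y := by
    intro χ
    have h0 := Cfsg.Agent.Helper24.irr_one_ne_zero χ
    have h2 := Cfsg.Agent.S4754.irr_sum_conj_mul χ x y
    have h1 : ∀ c : G, (χ : G → ℂ) (c * x * c⁻¹ * y) = (χ : G → ℂ) x * (χ : G → ℂ) y := by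
      intro c
      have e := hA c 1 χ
      simp only [one_mul, inv_one, mul_one] at e
      exact e
    simp only [h1] at h2
    rw [Finset.sum_const, Finset.card_univ, nsmul_eq_mul, ← Nat.card_eq_fintype_card] at h2
    have h3 : (Nat.card G : ℂ) * ((χ : G → ℂ) 1 * ((χ : G → ℂ) x * (χ : G → ℂ) y)) =
        (Nat.card G : ℂ) * ((χ : G → ℂ) x * (χ : G → ℂ) y) := by
      calc (Nat.card G : ℂ) * ((χ : G → ℂ) 1 * ((χ : G → ℂ) x * (χ : G → ℂ) y))
          = ((Nat.card G : ℂ) * ((χ : G → ℂ) x * (χ : G → ℂ) y)) * (χ : G → ℂ) 1 := by ring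
        _ = ((Nat.card G : ℂ) * (χ : G → ℂ) x * (χ : G → ℂ) y / (χ : G → ℂ) 1) *
              (χ : G → ℂ) 1 := by rw [h2]
        _ = (Nat.card G : ℂ) * ((χ : G → ℂ) x * (χ : G → ℂ) y) := by field_simp
    exact mul_left_cancel₀ hG h3
  have hxy : ∀ χ : IrrCharacter G,
      (χ : G → ℂ) (x * y) = (χ : G → ℂ) x * (χ : G → ℂ) y := by
    intro χ
    have e := hA 1 1 χ
    simp only [one_mul, inv_one, mul_one] at e
    exact e
  have hvan : ∀ χ : IrrCharacter G, (χ : G → ℂ) 1 ≠ 1 → (χ : G → ℂ) (x * y) = 0 := by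
    intro χ hne
    rw [hxy]
    have e := hB χ
    have e2 : ((χ : G → ℂ) 1 - 1) * ((χ : G → ℂ) x * (χ : G → ℂ) y) = 0 := by
      rw [sub_mul, one_mul, e, sub_self]
    rcases mul_eq_zero.mp e2 with e3 | e3
    · exact absurd (sub_eq_zero.mp e3) hne
    · exact e3
  refine ⟨?_, hvan, ?_⟩
  · apply (Cfsg.Agent.S4754.result x y).mpr
    intro a b χ
    rw [hA, hB]
  · intro z
    constructor
    · intro hz
      obtain ⟨c, hc⟩ := isConj_iff.mp hz
      have hmem : ⁅(x * y)⁻¹, c⁆ ∈ commutator G := by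
        rw [commutator_def]
        exact Subgroup.commutator_mem_commutator (Subgroup.mem_top _) (Subgroup.mem_top _)
      have e : (x * y)⁻¹ * z = ⁅(x * y)⁻¹, c⁆ := by
        rw [commutatorElement_def, ← hc]; group
      rw [e]; exact hmem
    · intro hz
      by_contra hcon
      have h1 := (sum_irr_mul_conj (x * y) z).2 hcon
      have h2 := (sum_irr_mul_conj (x * y) (x * y)).1 (IsConj.refl _)
      have h3 : ∀ χ : IrrCharacter G,
          (χ : G → ℂ) (x * y) * starRingEnd ℂ ((χ : G → ℂ) z) =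
          (χ : G → ℂ) (x * y) * starRingEnd ℂ ((χ : G → ℂ) (x * y)) := by
        intro χ
        by_cases hlin : (χ : G → ℂ) 1 = 1
        · have e : (χ : G → ℂ) z = (χ : G → ℂ) (x * y) := by
            have e1 : z = (x * y) * ((x * y)⁻¹ * z) := by group
            rw [e1, irr_linear_mul χ hlin, irr_linear_commutator χ hlin hz, mul_one]
          rw [e]
        · rw [hvan χ hlin, zero_mul, zero_mul]
      simp only [h3] at h1
      rw [h1] at h2
      exact (Nat.cast_ne_zero.mpr Nat.card_pos.ne' :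
        (Nat.card (Subgroup.centralizer ({x * y} : Set G)) : ℂ) ≠ 0) h2.symm

end Cfsg.Agent.S4755
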