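import Cfsg.Statements.S4765
import Mathlib
import Cfsg.Agent.Helper12.SL2Count
import Cfsg.Agent.S2308
import Cfsg.Agent.Helper22.IrrKer

set_option autoImplicit false
open Cfsg

namespace Cfsg.Agent.S4765

open Cfsg.Agent.Helper12
open Cfsg.Agent.S2305 (th)
open Cfsg.Agent.S2308 (belG)


/-- Let F be a finite field of characteristic p with at least 4 elements. Then PSL(2,F) has exactly one irreducible complex character of degree divisible by p, and its degree is the order of F. -/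
theorem result (p : ℕ) [Fact p.Prime] (F : Type*) [Field F] [Fintype F] [CharP F p] (hF : 4 ≤ Fintype.card F) : Nat.card {χ : Cfsg.IrrCharacter (Matrix.ProjectiveSpecialLinearGroup (Fin 2) F) // p ∣ Cfsg.charDegree (χ : Matrix.ProjectiveSpecialLinearGroup (Fin 2) F → ℂ)} = 1 ∧ ∀ χ : Cfsg.IrrCharacter (Matrix.ProjectiveSpecialLinearGroup (Fin 2) F), p ∣ Cfsg.charDegree (χ : Matrix.ProjectiveSpecialLinearGroup (Fin 2) F → ℂ) → Cfsg.charDegree (χ : Matrix.ProjectiveSpecialLinearGroup (Fin 2) F → ℂ) = Fintype.card F := by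
  classical
  have hp := (Fact.out : p.Prime)
  have hpq : p ∣ Fintype.card F := (CharP.cast_eq_zero_iff F p _).mp (Nat.cast_card_eq_zero F)
  obtain ⟨m, hm⟩ : ∃ m, Fintype.card F = m + 1 := ⟨Fintype.card F - 1, by omega⟩
  have hcop : ∀ k, p ∣ k → p ∣ k + 1 → False := fun k h1 h2 => hp.not_dvd_one ((Nat.dvd_add_right h1).mp h2)
  have hSt1 : Cfsg.indFun (Cfsg.upperTriangularGL 2 F) (fun _ => (1 : ℂ)) (Matrix.SpecialLinearGroup.toGL (1 : (Matrix.SpecialLinearGroup (Fin 2) F))) - 1 = (Fintype.card F : ℂ) := by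
    rw [S2308.indFun1_scalar (Matrix.SpecialLinearGroup.toGL (1 : (Matrix.SpecialLinearGroup (Fin 2) F))) 1 (by rw [map_one, one_smul]; rfl)]
    ring
  have key : ∀ χ : Cfsg.IrrCharacter (Matrix.SpecialLinearGroup (Fin 2) F), p ∣ Cfsg.charDegree (χ : (Matrix.SpecialLinearGroup (Fin 2) F) → ℂ) →
      ∀ g : (Matrix.SpecialLinearGroup (Fin 2) F), (χ : (Matrix.SpecialLinearGroup (Fin 2) F) → ℂ) g = Cfsg.indFun (Cfsg.upperTriangularGL 2 F) (fun _ => (1 : ℂ)) (Matrix.SpecialLinearGroup.toGL g) - 1 := by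
    intro χ hdiv
    obtain ⟨n, hn⟩ := Helper24.irr_one_eq_natCast χ
    have hdeg : Cfsg.charDegree (χ : (Matrix.SpecialLinearGroup (Fin 2) F) → ℂ) = n := by
      unfold Cfsg.charDegree
      rw [hn, Complex.natCast_re, Nat.floor_natCast]
    rw [hdeg] at hdiv
    rw [hm] at hpq
    rcases sl2_types χ m n hm hn with (h | ⟨h, -⟩) | ⟨h, -⟩ | ⟨h, -⟩ | ⟨h, hval⟩ | ⟨h, -⟩
    · exact (hcop m (h ▸ hdiv) hpq).elim
    · exact (hcop m (h ▸ Dvd.dvd.mul_left hdiv 2) hpq).elim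
    · exact (hcop (m + 1) hpq (h ▸ hdiv)).elim
    · exact (hp.not_dvd_one (h ▸ hdiv)).elim
    · exact hval
    · exact (hcop (m + 1) hpq (h ▸ Dvd.dvd.mul_left hdiv 2)).elim
  have hπ : Function.Surjective (QuotientGroup.mk' (Subgroup.center (Matrix.SpecialLinearGroup (Fin 2) F))) := QuotientGroup.mk'_surjective _
  have hinfl : ∀ ψ : Cfsg.IrrCharacter (Matrix.ProjectiveSpecialLinearGroup (Fin 2) F),
      p ∣ Cfsg.charDegree (ψ : Matrix.ProjectiveSpecialLinearGroup (Fin 2) F → ℂ) →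
      ∀ g : (Matrix.SpecialLinearGroup (Fin 2) F), (ψ : Matrix.ProjectiveSpecialLinearGroup (Fin 2) F → ℂ) (QuotientGroup.mk' (Subgroup.center (Matrix.SpecialLinearGroup (Fin 2) F)) g) =
        Cfsg.indFun (Cfsg.upperTriangularGL 2 F) (fun _ => (1 : ℂ)) (Matrix.SpecialLinearGroup.toGL g) - 1 := by
    intro ψ hdiv g
    have h1 : Cfsg.charDegree ((Helper22.inflIrr (QuotientGroup.mk' (Subgroup.center (Matrix.SpecialLinearGroup (Fin 2) F))) hπ ψ : Cfsg.IrrCharacter (Matrix.SpecialLinearGroup (Fin 2) F)) : (Matrix.SpecialLinearGroup (Fin 2) F) → ℂ) =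
        Cfsg.charDegree (ψ : Matrix.ProjectiveSpecialLinearGroup (Fin 2) F → ℂ) := by
      unfold Cfsg.charDegree
      rw [Helper22.inflIrr_apply, map_one]
    have h2 := key (Helper22.inflIrr (QuotientGroup.mk' (Subgroup.center (Matrix.SpecialLinearGroup (Fin 2) F))) hπ ψ) (h1 ▸ hdiv) g
    rwa [Helper22.inflIrr_apply] at h2
  have hdegq : ∀ ψ : Cfsg.IrrCharacter (Matrix.ProjectiveSpecialLinearGroup (Fin 2) F),
      p ∣ Cfsg.charDegree (ψ : Matrix.ProjectiveSpecialLinearGroup (Fin 2) F → ℂ) →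
      Cfsg.charDegree (ψ : Matrix.ProjectiveSpecialLinearGroup (Fin 2) F → ℂ) = Fintype.card F := by
    intro ψ hdiv
    have h := hinfl ψ hdiv 1
    rw [map_one, hSt1] at h
    unfold Cfsg.charDegree
    rw [h, Complex.natCast_re, Nat.floor_natCast]
  refine ⟨?_, hdegq⟩
  rw [Nat.card_eq_one_iff_unique]
  constructor
  · constructor
    rintro ⟨ψ₁, h₁⟩ ⟨ψ₂, h₂⟩
    apply Subtype.ext
    apply Subtype.ext
    funext x
    obtain ⟨g, rfl⟩ := hπ x
    rw [hinfl ψ₁ h₁ g, hinfl ψ₂ h₂ g]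
  · obtain ⟨St, hSt⟩ := exists_sl2_St (F := F)
    have hker : ∀ u : (Matrix.SpecialLinearGroup (Fin 2) F), QuotientGroup.mk' (Subgroup.center (Matrix.SpecialLinearGroup (Fin 2) F)) u = 1 →
        (St : (Matrix.SpecialLinearGroup (Fin 2) F) → ℂ) u = (St : (Matrix.SpecialLinearGroup (Fin 2) F) → ℂ) 1 := by
      intro u hu
      have hu' : u ∈ Subgroup.center (Matrix.SpecialLinearGroup (Fin 2) F) := (QuotientGroup.eq_one_iff u).mp hu
      obtain ⟨r, -, hr⟩ := Matrix.SpecialLinearGroup.mem_center_iff.mp hu'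
      have hr' : ((Matrix.SpecialLinearGroup.toGL u : (Matrix.GeneralLinearGroup (Fin 2) F)) : (Matrix (Fin 2) (Fin 2) F)) = r • (1 : (Matrix (Fin 2) (Fin 2) F)) := by
        show (u : (Matrix (Fin 2) (Fin 2) F)) = r • (1 : (Matrix (Fin 2) (Fin 2) F))
        rw [← hr, Matrix.scalar_apply, Matrix.smul_one_eq_diagonal]
      rw [hSt u, hSt 1, S2308.indFun1_scalar (Matrix.SpecialLinearGroup.toGL u) r hr',
        S2308.indFun1_scalar (Matrix.SpecialLinearGroup.toGL (1 : (Matrix.SpecialLinearGroup (Fin 2) F))) 1 (by rw [map_one, one_smul]; rfl)]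
    obtain ⟨ψ, hψ⟩ := Helper22.exists_irr_of_ker (QuotientGroup.mk' (Subgroup.center (Matrix.SpecialLinearGroup (Fin 2) F))) hπ St hker
    have h1 : (ψ : Matrix.ProjectiveSpecialLinearGroup (Fin 2) F → ℂ) 1 = (Fintype.card F : ℂ) := by
      rw [← map_one (QuotientGroup.mk' (Subgroup.center (Matrix.SpecialLinearGroup (Fin 2) F))), ← hψ 1, hSt 1]
      exact hSt1
    refine ⟨⟨ψ, ?_⟩⟩
    unfold Cfsg.charDegree
    rw [h1, Complex.natCast_re, Nat.floor_natCast]
    exact hpq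

end Cfsg.Agent.S4765
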