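import Cfsg.Statements.S4774
import Mathlib
import Cfsg.Agent.Helper12.DegGraph

set_option autoImplicit false
open Cfsg

namespace Cfsg.Agent.S4774

open Cfsg.Agent.Helper12
open Cfsg.Agent.S2305 (th)
open Cfsg.Agent.S2308 (belG)


/-- Let F be a finite field of odd characteristic t with q > 5 elements and let S be isomorphic to PSL(2,F) or to SL(2,F). Then the vertices of the character degree graph of S are the primes dividing q(q²−1); the prime t is adjacent to no vertex; two distinct primes dividing q² − 1 are adjacent exactly when one of them is 2, or both divide q + 1, or both divide q − 1. -/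
theorem result (F : Type*) [Field F] [Fintype F] (t : ℕ) [Fact t.Prime] [CharP F t] (ht : t ≠ 2) (q : ℕ) (hq : Fintype.card F = q) (h5 : 5 < q) {S : Type*} [Group S] [Finite S] (hS : Nonempty (S ≃* Matrix.ProjectiveSpecialLinearGroup (Fin 2) F) ∨ Nonempty (S ≃* Matrix.SpecialLinearGroup (Fin 2) F)) : Cfsg.degreePrimes S = {r : ℕ | r.Prime ∧ r ∣ q * (q ^ 2 - 1)} ∧ ∀ r s : ℕ, (Cfsg.degreeGraph S).Adj r s ↔ (r ≠ s ∧ r.Prime ∧ s.Prime ∧ r ∣ q ^ 2 - 1 ∧ s ∣ q ^ 2 - 1 ∧ (r = 2 ∨ s = 2 ∨ (r ∣ q + 1 ∧ s ∣ q + 1) ∨ (r ∣ q - 1 ∧ s ∣ q - 1))) := by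
  classical
  subst hq
  have htp : t.Prime := Fact.out
  obtain ⟨a, -, hta⟩ := FiniteField.card F t
  have hoddt : Odd t := htp.odd_of_ne_two ht
  have hodd : Odd (Fintype.card F) := by
    rw [hta]
    exact hoddt.pow
  obtain ⟨m, hm⟩ : ∃ m : ℕ, Fintype.card F = m + 1 := ⟨Fintype.card F - 1, by omega⟩
  have hm2 : 2 ∣ m := by
    obtain ⟨k, hk⟩ := hodd
    exact ⟨k, by omega⟩
  have h41 : ¬ (Fintype.card F - 1) ∣ 4 := fun h => by
    have := Nat.le_of_dvd (by norm_num) h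
    omega
  have h42 : ¬ (Fintype.card F + 1) ∣ 4 := fun h => by
    have := Nat.le_of_dvd (by norm_num) h
    omega
  obtain ⟨χ₁, h11, h12⟩ := Helper12.central_St (F := F)
  obtain ⟨χ₂, h21, h22⟩ := Helper12.central_ps (F := F) h41
  obtain ⟨χ₃, h31, h32⟩ := Helper12.central_cusp (F := F) hodd h42 t
  have hB2 : m + 1 ∈ Cfsg.charDegrees S := Helper12.family_mem hS χ₁ h12 (m + 1) (by rw [h11, hm])
  have hB3 : m + 2 ∈ Cfsg.charDegrees S := Helper12.family_mem hS χ₂ h22 (m + 2) (by rw [h21, hm]; push_cast; ring)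
  have hB1 : m ∈ Cfsg.charDegrees S := Helper12.family_mem hS χ₃ h32 m (by rw [h31, hm]; push_cast; ring)
  have hA : ∀ d ∈ Cfsg.charDegrees S, d ∣ m ∨ d ∣ m + 2 ∨ d = 1 ∨ d = m + 1 := by
    intro d hd
    rcases Helper12.family_sub hS m hm d hd with h | ⟨h, -⟩ | h | h | h | ⟨h, -⟩
    · exact Or.inl (dvd_of_eq h)
    · exact Or.inl ⟨2, by omega⟩
    · exact Or.inr (Or.inl (dvd_of_eq h))
    · exact Or.inr (Or.inr (Or.inl h))
    · exact Or.inr (Or.inr (Or.inr h))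
    · exact Or.inr (Or.inl ⟨2, by omega⟩)
  obtain ⟨hv, hadj⟩ := Helper12.degree_graph_core (S := S) (Fintype.card F) m t a hm htp hta hA hB1 hB2 hB3
  refine ⟨hv, fun r s => ?_⟩
  rw [hadj r s]
  constructor
  · rintro ⟨hne, hr, hs, h⟩
    have h' := (Helper12.odd_adj_iff (Fintype.card F) m r s hm hm2 hr hs).mp h
    exact ⟨hne, hr, hs, h'.1, h'.2.1, h'.2.2⟩
  · rintro ⟨hne, hr, hs, hrq, hsq, h⟩
    exact ⟨hne, hr, hs, (Helper12.odd_adj_iff (Fintype.card F) m r s hm hm2 hr hs).mpr ⟨hrq, hsq, h⟩⟩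

end Cfsg.Agent.S4774
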