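import Cfsg.Statements.S4812
import Mathlib
import Cfsg.Agent.Helper12.DegGraph

set_option autoImplicit false
open Cfsg

namespace Cfsg.Agent.S4812

open Cfsg.Agent.Helper12
open Cfsg.Agent.S2305 (th)
open Cfsg.Agent.S2308 (belG)


/-- Let F be a finite field of characteristic 2 with q ≥ 4 elements and let S be isomorphic to PSL(2,F) or to SL(2,F). Then the vertices of the character degree graph of S are the primes dividing q(q²−1), and two distinct primes are adjacent exactly when both divide q + 1 or both divide q − 1; so the graph has the three connected components {2}, the primes dividing q + 1 and the primes dividing q − 1, each complete. -/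
theorem result (F : Type*) [Field F] [Fintype F] [CharP F 2] (q : ℕ) (hq : Fintype.card F = q) (h4 : 4 ≤ q) {S : Type*} [Group S] [Finite S] (hS : Nonempty (S ≃* Matrix.ProjectiveSpecialLinearGroup (Fin 2) F) ∨ Nonempty (S ≃* Matrix.SpecialLinearGroup (Fin 2) F)) : Cfsg.degreePrimes S = {r : ℕ | r.Prime ∧ r ∣ q * (q ^ 2 - 1)} ∧ ∀ r s : ℕ, (Cfsg.degreeGraph S).Adj r s ↔ (r ≠ s ∧ r.Prime ∧ s.Prime ∧ ((r ∣ q + 1 ∧ s ∣ q + 1) ∨ (r ∣ q - 1 ∧ s ∣ q - 1))) := by
  classical
  subst hq
  haveI : Fact (Nat.Prime 2) := ⟨Nat.prime_two⟩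
  obtain ⟨a, -, hta⟩ := FiniteField.card F 2
  have heven : Even (Fintype.card F) := by
    rw [hta]
    exact Nat.even_pow.mpr ⟨even_two, a.ne_zero⟩
  obtain ⟨m, hm⟩ : ∃ m : ℕ, Fintype.card F = m + 1 := ⟨Fintype.card F - 1, by omega⟩
  have hnodd : ¬ Odd (Fintype.card F) := Nat.not_odd_iff_even.mpr heven
  have h41 : ¬ (Fintype.card F - 1) ∣ 4 := by
    intro h
    have hle := Nat.le_of_dvd (by norm_num) h
    obtain ⟨k, hk⟩ := heven
    have hq4 : Fintype.card F = 4 := by omega
    rw [hq4] at h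
    norm_num at h
  obtain ⟨χ₁, h11, h12⟩ := Helper12.central_St (F := F)
  obtain ⟨χ₂, h21, h22⟩ := Helper12.central_ps (F := F) h41
  obtain ⟨χ₃, h31⟩ := Helper12.exists_cusp_even (F := F) heven h4
  have hneg : (-1 : Fˣ) = 1 := Units.ext (by rw [Units.val_neg, Units.val_one, CharTwo.neg_eq])
  have h32 : ∀ u : (Matrix.SpecialLinearGroup (Fin 2) F), u ∈ Subgroup.center (Matrix.SpecialLinearGroup (Fin 2) F) → (χ₃ : (Matrix.SpecialLinearGroup (Fin 2) F) → ℂ) u = (χ₃ : (Matrix.SpecialLinearGroup (Fin 2) F) → ℂ) 1 := by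
    intro u hu
    rcases Helper12.sl2_center_two u hu with h | h
    · rw [h]
    · rw [h, hneg, Helper12.bel_one_zero]
  have hB2 : m + 1 ∈ Cfsg.charDegrees S := Helper12.family_mem hS χ₁ h12 (m + 1) (by rw [h11, hm])
  have hB3 : m + 2 ∈ Cfsg.charDegrees S := Helper12.family_mem hS χ₂ h22 (m + 2) (by rw [h21, hm]; push_cast; ring)
  have hB1 : m ∈ Cfsg.charDegrees S := Helper12.family_mem hS χ₃ h32 m (by rw [h31, hm, Nat.add_sub_cancel])
  have hA : ∀ d ∈ Cfsg.charDegrees S, d ∣ m ∨ d ∣ m + 2 ∨ d = 1 ∨ d = m + 1 := by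
    intro d hd
    rcases Helper12.family_sub hS m hm d hd with h | ⟨-, ho⟩ | h | h | h | ⟨-, ho⟩
    · exact Or.inl (dvd_of_eq h)
    · exact absurd ho hnodd
    · exact Or.inr (Or.inl (dvd_of_eq h))
    · exact Or.inr (Or.inr (Or.inl h))
    · exact Or.inr (Or.inr (Or.inr h))
    · exact absurd ho hnodd
  exact Helper12.degree_graph_core (S := S) (Fintype.card F) m 2 a hm Nat.prime_two hta hA hB1 hB2 hB3

end Cfsg.Agent.S4812
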