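import Cfsg.Statements.S4866
import Cfsg.Agent.Helper24.CharProd


set_option autoImplicit false
open Cfsg

namespace Cfsg.Agent.S4866

theorem quot_card {G X : Type*} [Group G] [Fintype G] [Fintype X] (f : G → X → X)
    (h1 : ∀ x, f 1 x = x) (hm : ∀ g h x, f (g * h) x = f g (f h x)) :
    Nat.card (Quot (fun x y : X => ∃ g, y = f g x)) * Nat.card G =
      ∑ g : G, Nat.card {x : X // f g x = x} := by
  letI : MulAction G X := { smul := f, one_smul := h1, mul_smul := hm }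
  have hb := Helper24.burnside_card (G := G) X
  have hrel : (fun x y : X => ∃ g, y = f g x) = @Setoid.r X (MulAction.orbitRel G X) := by
    funext x y
    apply propext
    show (∃ g, y = f g x) ↔ x ∈ MulAction.orbit G y
    rw [MulAction.mem_orbit_iff]
    constructor
    · rintro ⟨g, rfl⟩
      exact ⟨g⁻¹, by show f g⁻¹ (f g x) = x; rw [← hm, inv_mul_cancel, h1]⟩
    · rintro ⟨g, hg⟩
      refine ⟨g⁻¹, ?_⟩
      have hg' : f g y = x := hg
      rw [← hg', ← hm, inv_mul_cancel, h1]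
  rw [hrel]
  exact hb.symm

theorem odd_aut {K : Type*} [Group K] (φ : MulAut K) (θ : K → ℂ) (n : ℕ) (hn : Odd n)
    (H : ∀ k, starRingEnd ℂ (θ (φ k)) = θ k) (Hn : ∀ k, θ ((φ ^ n) k) = θ k) :
    ∀ k, θ (φ k) = θ k ∧ starRingEnd ℂ (θ k) = θ k := by
  have h2 : ∀ k, θ (φ (φ k)) = θ k := by
    intro k
    have a := H k
    have b := H (φ k)
    rw [← b] at a
    simpa using a
  have h3 : ∀ (i : ℕ) (k : K), θ ((φ ^ (2 * i)) k) = θ k := by
    intro i
    induction i with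
    | zero => intro k; simp
    | succ i ih =>
      intro k
      have e : φ ^ (2 * (i + 1)) = φ ^ (2 * i) * φ * φ := by
        rw [mul_add, mul_one, pow_add, pow_two, mul_assoc]
      rw [e, MulAut.mul_apply, MulAut.mul_apply, ih, h2]
  obtain ⟨i, hi⟩ := hn
  have h4 : ∀ k, θ (φ k) = θ k := by
    intro k
    have e := Hn k
    rw [hi, pow_succ, MulAut.mul_apply, h3] at e
    exact e
  intro k
  refine ⟨h4 k, ?_⟩
  have e := H k
  rw [h4 k] at e
  exact e

theorem real_of_inverted {G : Type*} [Group G] (K : Subgroup G) [K.Normal] (hodd : Odd K.index)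
    (k : K) (h : G) (hh : h * (k : G) * h⁻¹ = (k : G)⁻¹) : IsConj k k⁻¹ := by
  obtain ⟨i, hi⟩ := hodd
  have e1 : h * (k : G)⁻¹ * h⁻¹ = (k : G) := by
    calc h * (k : G)⁻¹ * h⁻¹ = (h * (k : G) * h⁻¹)⁻¹ := by group
      _ = (k : G) := by rw [hh, inv_inv]
  have hc : Commute (h * h) (k : G) := by
    show h * h * (k : G) = (k : G) * (h * h)
    calc h * h * (k : G) = h * (h * (k : G) * h⁻¹) * h⁻¹ * (h * h) := by group
      _ = h * (k : G)⁻¹ * h⁻¹ * (h * h) := by rw [hh]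
      _ = (k : G) * (h * h) := by rw [e1]
  have hci : Commute ((h * h) ^ i) (k : G) := hc.pow_left i
  have hu : h ^ K.index ∈ K := Subgroup.pow_index_mem K h
  refine isConj_iff.mpr ⟨⟨h ^ K.index, hu⟩, Subtype.ext ?_⟩
  show h ^ K.index * (k : G) * (h ^ K.index)⁻¹ = (k : G)⁻¹
  rw [hi, pow_succ, pow_mul, pow_two]
  generalize (h * h) ^ i = a at hci ⊢
  calc a * h * (k : G) * (a * h)⁻¹
      = a * (h * (k : G) * h⁻¹) * a⁻¹ := by group
    _ = a * (k : G)⁻¹ * a⁻¹ := by rw [hh]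
    _ = (k : G)⁻¹ := by rw [(hci.inv_right).eq, mul_inv_cancel_right]

abbrev XL {G : Type*} [Group G] (K : Subgroup G) : Type _ :=
  {θ : Cfsg.IrrCharacter ↥K // (∀ k : ↥K, ((θ : ↥K → ℂ) k).im = 0)}

abbrev XR {G : Type*} [Group G] (K : Subgroup G) : Type _ := {x : ↥K // IsConj x x⁻¹}

noncomputable def fL {G : Type*} [Group G] (K : Subgroup G) [hN : K.Normal] (g : G) (θ : XL K) :
    XL K :=
  ⟨⟨Helper24.twist K (θ.1 : K → ℂ) g⁻¹, Helper24.isIrrCharacter_twist K _ θ.1.2 g⁻¹⟩,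
    fun _ => θ.2 _⟩

theorem fL_one {G : Type*} [Group G] (K : Subgroup G) [hN : K.Normal] (θ : XL K) :
    fL K 1 θ = θ := by
  apply Subtype.ext
  apply Subtype.ext
  funext n
  show (θ.1 : K → ℂ) ⟨(1 : G)⁻¹ * n * (1 : G)⁻¹⁻¹, _⟩ = (θ.1 : K → ℂ) n
  refine congrArg (θ.1 : K → ℂ) (Subtype.ext ?_)
  simp

theorem fL_mul {G : Type*} [Group G] (K : Subgroup G) [hN : K.Normal] (g h : G) (θ : XL K) :
    fL K (g * h) θ = fL K g (fL K h θ) := by
  apply Subtype.ext
  apply Subtype.ext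
  show Helper24.twist K (θ.1 : K → ℂ) (g * h)⁻¹ =
    Helper24.twist K (Helper24.twist K (θ.1 : K → ℂ) h⁻¹) g⁻¹
  rw [mul_inv_rev, Helper24.twist_mul]

theorem hreal {G : Type*} [Group G] (K : Subgroup G) [hN : K.Normal] (g : G) (x : XR K) :
    IsConj (⟨g * (x.1 : G) * g⁻¹, hN.conj_mem x.1 x.1.2 g⟩ : K)
      (⟨g * (x.1 : G) * g⁻¹, hN.conj_mem x.1 x.1.2 g⟩ : K)⁻¹ := by
  obtain ⟨c, hc⟩ := isConj_iff.mp x.2
  have hc' : (c : G) * (x.1 : G) * (c : G)⁻¹ = (x.1 : G)⁻¹ := congrArg Subtype.val hc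
  refine isConj_iff.mpr ⟨⟨g * (c : G) * g⁻¹, hN.conj_mem c c.2 g⟩, Subtype.ext ?_⟩
  show g * (c : G) * g⁻¹ * (g * (x.1 : G) * g⁻¹) * (g * (c : G) * g⁻¹)⁻¹ =
    (g * (x.1 : G) * g⁻¹)⁻¹
  calc g * (c : G) * g⁻¹ * (g * (x.1 : G) * g⁻¹) * (g * (c : G) * g⁻¹)⁻¹
      = g * ((c : G) * (x.1 : G) * (c : G)⁻¹) * g⁻¹ := by group
    _ = g * (x.1 : G)⁻¹ * g⁻¹ := by rw [hc']
    _ = (g * (x.1 : G) * g⁻¹)⁻¹ := by group

def fR {G : Type*} [Group G] (K : Subgroup G) [hN : K.Normal] (g : G) (x : XR K) : XR K :=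
  ⟨⟨g * (x.1 : G) * g⁻¹, hN.conj_mem x.1 x.1.2 g⟩, hreal K g x⟩

theorem fR_one {G : Type*} [Group G] (K : Subgroup G) [hN : K.Normal] (x : XR K) :
    fR K 1 x = x := by
  apply Subtype.ext
  apply Subtype.ext
  show (1 : G) * (x.1 : G) * (1 : G)⁻¹ = (x.1 : G)
  group

theorem fR_mul {G : Type*} [Group G] (K : Subgroup G) [hN : K.Normal] (g h : G) (x : XR K) :
    fR K (g * h) x = fR K g (fR K h x) := by
  apply Subtype.ext
  apply Subtype.ext
  show g * h * (x.1 : G) * (g * h)⁻¹ = g * (h * (x.1 : G) * h⁻¹) * g⁻¹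
  group

theorem fix_count {G : Type*} [Group G] [Finite G] (K : Subgroup G) [hN : K.Normal] [Fintype K]
    (hodd : Odd K.index) (g : G) :
    (Nat.card K : ℂ) * (Nat.card {θ : XL K // fL K g θ = θ} : ℂ) =
      ∑ k : K, (Nat.card {u : K // u * k * u⁻¹ =
        (⟨g⁻¹ * (k : G) * g⁻¹⁻¹, hN.conj_mem k k.2 g⁻¹⟩ : K)⁻¹} : ℂ) := by
  classical
  have hK0 : (Nat.card K : ℂ) ≠ 0 := Nat.cast_ne_zero.mpr Nat.card_pos.ne'
  have htwφ : ∀ (θ : K → ℂ) (k : K),
      Helper24.twist K θ g⁻¹ k = θ ((MulAut.conjNormal g⁻¹ : MulAut K) k) :=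
    fun θ k => congrArg θ (Subtype.ext (MulAut.conjNormal_apply g⁻¹ k).symm)
  have hirr : ∀ θ : IrrCharacter K,
      IsIrrCharacter K (fun k => starRingEnd ℂ (Helper24.twist K (θ : K → ℂ) g⁻¹ k)) :=
    fun θ => Helper24.isIrrCharacter_star (Helper24.isIrrCharacter_twist K _ θ.2 g⁻¹)
  obtain ⟨ct, hct⟩ : ∃ ct : IrrCharacter K → IrrCharacter K, ∀ θ k,
      (ct θ : K → ℂ) k = starRingEnd ℂ (Helper24.twist K (θ : K → ℂ) g⁻¹ k) :=
    ⟨fun θ => ⟨_, hirr θ⟩, fun θ k => rfl⟩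
  have hiff : ∀ θ : IrrCharacter K, ((∀ k : K, ((θ : K → ℂ) k).im = 0) ∧
      Helper24.twist K (θ : K → ℂ) g⁻¹ = (θ : K → ℂ)) ↔ θ = ct θ := by
    intro θ
    constructor
    · rintro ⟨hre, htw⟩
      apply Subtype.ext
      funext k
      rw [hct, htw]
      exact (Complex.conj_eq_iff_im.mpr (hre k)).symm
    · intro h
      have H : ∀ k : K, starRingEnd ℂ ((θ : K → ℂ) ((MulAut.conjNormal g⁻¹ : MulAut K) k)) =
          (θ : K → ℂ) k := by
        intro k
        have e := congrFun (congrArg Subtype.val h) k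
        rw [hct, htwφ] at e
        exact e.symm
      have Hn : ∀ k : K, (θ : K → ℂ) (((MulAut.conjNormal g⁻¹ : MulAut K) ^ K.index) k) =
          (θ : K → ℂ) k := by
        intro k
        rw [← map_pow]
        have hu : g⁻¹ ^ K.index ∈ K := Subgroup.pow_index_mem K g⁻¹
        have e : (MulAut.conjNormal (g⁻¹ ^ K.index) : MulAut K) k =
            ⟨g⁻¹ ^ K.index, hu⟩ * k * (⟨g⁻¹ ^ K.index, hu⟩ : K)⁻¹ := by
          apply Subtype.ext
          rw [MulAut.conjNormal_apply]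
          rfl
        rw [e]
        exact Helper24.irr_conj θ k _
      have hO := odd_aut (MulAut.conjNormal g⁻¹ : MulAut K) (θ : K → ℂ) K.index hodd H Hn
      refine ⟨fun k => Complex.conj_eq_iff_im.mp (hO k).2, ?_⟩
      funext k
      rw [htwφ]
      exact (hO k).1
  have hc1 : Nat.card {θ : XL K // fL K g θ = θ} =
      (Finset.univ.filter (fun θ : IrrCharacter K => θ = ct θ)).card := by
    rw [← Fintype.card_subtype, ← Nat.card_eq_fintype_card]
    apply Nat.card_congr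
    refine (Equiv.subtypeEquivRight (fun θ' => ?_)).trans
      ((Equiv.subtypeSubtypeEquivSubtypeInter
        (fun θ : IrrCharacter K => ∀ k : K, ((θ : K → ℂ) k).im = 0)
        (fun θ : IrrCharacter K => Helper24.twist K (θ : K → ℂ) g⁻¹ = (θ : K → ℂ))).trans
        (Equiv.subtypeEquivRight (fun θ => hiff θ)))
    constructor
    · intro h; exact congrArg (fun z : XL K => (z.1 : K → ℂ)) h
    · intro h; exact Subtype.ext (Subtype.ext h)
  rw [hc1, Finset.card_filter]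
  push_cast
  have hinner : ∀ θ : IrrCharacter K, (if θ = ct θ then (1 : ℂ) else 0) =
      (Nat.card K : ℂ)⁻¹ * ∑ k : K, (θ : K → ℂ) k * starRingEnd ℂ
        ((θ : K → ℂ) (⟨g⁻¹ * (k : G) * g⁻¹⁻¹, hN.conj_mem k k.2 g⁻¹⟩ : K)⁻¹) := by
    intro θ
    have ho := Helper24.irr_orthonormal θ (ct θ)
    have hd := Helper24.classInner_def' (θ : K → ℂ) (ct θ : K → ℂ)
    have hval : classInner (θ : K → ℂ) (ct θ : K → ℂ) = if θ = ct θ then (1 : ℂ) else 0 := by
      by_cases hθ : θ = ct θ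
      · simp only [ho, if_pos hθ]
      · simp only [ho, if_neg hθ]
    rw [← hval, hd]
    congr 1
    apply Finset.sum_congr rfl
    intro k _
    congr 1
    rw [hct, Helper24.irr_inv θ]
    rfl
  simp only [hinner]
  rw [← Finset.mul_sum, ← mul_assoc, mul_inv_cancel₀ hK0, one_mul, Finset.sum_comm]
  apply Finset.sum_congr rfl
  intro k _
  rw [Nat.card_eq_fintype_card, Fintype.card_subtype]
  convert Helper24.sum_irr_mul_conj_eq_card k
    (⟨g⁻¹ * (k : G) * g⁻¹⁻¹, hN.conj_mem k k.2 g⁻¹⟩ : K)⁻¹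

theorem pair_count {G : Type*} [Group G] [Fintype G] (K : Subgroup G) [hN : K.Normal]
    [Fintype K] :
    ∑ g : G, ∑ k : K, Nat.card {u : K // u * k * u⁻¹ =
        (⟨g⁻¹ * (k : G) * g⁻¹⁻¹, hN.conj_mem k k.2 g⁻¹⟩ : K)⁻¹}
      = Nat.card K * ∑ k : K, Nat.card {h : G // h * (k : G) * h⁻¹ = (k : G)⁻¹} := by
  classical
  have h1 : ∀ (g : G) (k : K), Nat.card {u : K // u * k * u⁻¹ =
        (⟨g⁻¹ * (k : G) * g⁻¹⁻¹, hN.conj_mem k k.2 g⁻¹⟩ : K)⁻¹} =
      ∑ u : K, if (g * (u : G)) * (k : G) * (g * (u : G))⁻¹ = (k : G)⁻¹ then 1 else 0 := by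
    intro g k
    rw [Nat.card_eq_fintype_card, Fintype.card_subtype, Finset.card_filter]
    apply Finset.sum_congr rfl
    intro u _
    have hiff : (u * k * u⁻¹ = (⟨g⁻¹ * (k : G) * g⁻¹⁻¹, hN.conj_mem k k.2 g⁻¹⟩ : K)⁻¹) ↔
        (g * (u : G)) * (k : G) * (g * (u : G))⁻¹ = (k : G)⁻¹ := by
      constructor
      · intro h
        have h' : (u : G) * (k : G) * (u : G)⁻¹ = (g⁻¹ * (k : G) * g⁻¹⁻¹)⁻¹ :=
          congrArg Subtype.val h
        calc g * (u : G) * (k : G) * (g * (u : G))⁻¹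
            = g * ((u : G) * (k : G) * (u : G)⁻¹) * g⁻¹ := by group
          _ = g * (g⁻¹ * (k : G) * g⁻¹⁻¹)⁻¹ * g⁻¹ := by rw [h']
          _ = (k : G)⁻¹ := by group
      · intro h
        apply Subtype.ext
        show (u : G) * (k : G) * (u : G)⁻¹ = (g⁻¹ * (k : G) * g⁻¹⁻¹)⁻¹
        calc (u : G) * (k : G) * (u : G)⁻¹
            = g⁻¹ * (g * (u : G) * (k : G) * (g * (u : G))⁻¹) * g := by group
          _ = g⁻¹ * (k : G)⁻¹ * g := by rw [h]
          _ = (g⁻¹ * (k : G) * g⁻¹⁻¹)⁻¹ := by group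
    by_cases hc : u * k * u⁻¹ = (⟨g⁻¹ * (k : G) * g⁻¹⁻¹, hN.conj_mem k k.2 g⁻¹⟩ : K)⁻¹
    · simp only [if_pos hc, if_pos (hiff.mp hc)]
    · simp only [if_neg hc, if_neg (fun h => hc (hiff.mpr h))]
  have h2 : ∀ k : K, Nat.card {h : G // h * (k : G) * h⁻¹ = (k : G)⁻¹} =
      ∑ h : G, if h * (k : G) * h⁻¹ = (k : G)⁻¹ then 1 else 0 := by
    intro k
    rw [Nat.card_eq_fintype_card, Fintype.card_subtype, Finset.card_filter]
  simp only [h1, h2]
  rw [Finset.sum_comm, Finset.mul_sum]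
  apply Finset.sum_congr rfl
  intro k _
  rw [Finset.sum_comm]
  have h3 : ∀ u : K, ∑ g : G, (if g * (u : G) * (k : G) * (g * (u : G))⁻¹ = (k : G)⁻¹
      then 1 else 0) = ∑ h : G, if h * (k : G) * h⁻¹ = (k : G)⁻¹ then 1 else 0 := by
    intro u
    exact Equiv.sum_comp (Equiv.mulRight (u : G))
      (fun h => if h * (k : G) * h⁻¹ = (k : G)⁻¹ then 1 else 0)
  simp only [h3]
  rw [Finset.sum_const, Finset.card_univ, smul_eq_mul, Nat.card_eq_fintype_card]

theorem inv_sum {G : Type*} [Group G] [Fintype G] (K : Subgroup G) [hN : K.Normal] [Fintype K]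
    (hodd : Odd K.index) [Fintype (XR K)] :
    ∑ k : K, Nat.card {h : G // h * (k : G) * h⁻¹ = (k : G)⁻¹} =
      ∑ x : XR K, Nat.card {g : G // g * (x.1 : G) * g⁻¹ = (x.1 : G)} := by
  classical
  have h0 : ∀ k : K, ¬ IsConj k k⁻¹ →
      Nat.card {h : G // h * (k : G) * h⁻¹ = (k : G)⁻¹} = 0 := by
    intro k hk
    haveI : IsEmpty {h : G // h * (k : G) * h⁻¹ = (k : G)⁻¹} :=
      ⟨fun ⟨h, hh⟩ => hk (real_of_inverted K hodd k h hh)⟩
    exact Nat.card_of_isEmpty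
  have h1 : ∀ k : K, IsConj k k⁻¹ → Nat.card {h : G // h * (k : G) * h⁻¹ = (k : G)⁻¹} =
      Nat.card {g : G // g * (k : G) * g⁻¹ = (k : G)} := by
    intro k hk
    obtain ⟨v, hv⟩ := isConj_iff.mp hk
    have hv' : (v : G) * (k : G) * (v : G)⁻¹ = (k : G)⁻¹ := congrArg Subtype.val hv
    symm
    apply Nat.card_congr
    refine Equiv.subtypeEquiv (Equiv.mulRight (v : G)) (fun g => ?_)
    show g * (k : G) * g⁻¹ = (k : G) ↔ g * (v : G) * (k : G) * (g * (v : G))⁻¹ = (k : G)⁻¹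
    have e : g * (v : G) * (k : G) * (g * (v : G))⁻¹ = (g * (k : G) * g⁻¹)⁻¹ := by
      calc g * (v : G) * (k : G) * (g * (v : G))⁻¹
          = g * ((v : G) * (k : G) * (v : G)⁻¹) * g⁻¹ := by group
        _ = g * (k : G)⁻¹ * g⁻¹ := by rw [hv']
        _ = (g * (k : G) * g⁻¹)⁻¹ := by group
    rw [e, inv_inj]
  have step1 : ∑ k : K, Nat.card {h : G // h * (k : G) * h⁻¹ = (k : G)⁻¹} =
      ∑ k ∈ Finset.univ.filter (fun k : K => IsConj k k⁻¹),
        Nat.card {h : G // h * (k : G) * h⁻¹ = (k : G)⁻¹} :=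
    (Finset.sum_filter_of_ne (fun k _ hne => by
      by_contra hk
      exact hne (h0 k hk))).symm
  rw [step1, Finset.sum_subtype (F := ‹Fintype (XR K)›)
    (Finset.univ.filter (fun k : K => IsConj k k⁻¹))
    (fun k => by simp)
    (fun k => Nat.card {h : G // h * (k : G) * h⁻¹ = (k : G)⁻¹})]
  apply Finset.sum_congr rfl
  intro x _
  exact h1 x.1 x.2

/-- Let K be a normal subgroup of odd index in the finite group G. Then G has as many orbits on the real-valued irreducible complex characters of K (acting by conjugation) as it has orbits on the conjugacy classes of K that are real in K; equivalently, the number of G-orbits of real-valued irreducible characters of K equals the number of G-conjugacy classes of elements of K that are conjugate in K to their inverses. -/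
theorem result {G : Type*} [Group G] [Finite G] (K : Subgroup G) [K.Normal] (hodd : Odd K.index) : Nat.card (Quot (fun θ η : {θ : Cfsg.IrrCharacter ↥K // (∀ k : ↥K, ((θ : ↥K → ℂ) k).im = 0)} => ∃ g : G, ∀ k k' : ↥K, (k' : G) = g * (k : G) * g⁻¹ → (η.1 : ↥K → ℂ) k' = (θ.1 : ↥K → ℂ) k)) = Nat.card (Quot (fun x y : {x : ↥K // IsConj x x⁻¹} => ∃ g : G, (y.1 : G) = g * x.1 * g⁻¹)) := by
  classical
  have hN : K.Normal := inferInstance
  haveI : Fintype G := Fintype.ofFinite G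
  haveI : Fintype K := Fintype.ofFinite K
  haveI : Fintype (XL K) := Fintype.ofFinite _
  haveI : Fintype (XR K) := Fintype.ofFinite _
  have hLrel : (fun θ η : {θ : Cfsg.IrrCharacter ↥K // (∀ k : ↥K, ((θ : ↥K → ℂ) k).im = 0)} => ∃ g : G, ∀ k k' : ↥K, (k' : G) = g * (k : G) * g⁻¹ → (η.1 : ↥K → ℂ) k' = (θ.1 : ↥K → ℂ) k) =
      (fun θ η : XL K => ∃ g, η = fL K g θ) := by
    funext θ η
    apply propext
    constructor
    · rintro ⟨g, hg⟩
      refine ⟨g, Subtype.ext (Subtype.ext (funext fun k' => ?_))⟩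
      exact hg ⟨g⁻¹ * (k' : G) * g⁻¹⁻¹, hN.conj_mem k' k'.2 g⁻¹⟩ k' (by group)
    · rintro ⟨g, hg⟩
      refine ⟨g, fun k k' hkk' => ?_⟩
      rw [hg]
      show (θ.1 : K → ℂ) ⟨g⁻¹ * (k' : G) * g⁻¹⁻¹, _⟩ = (θ.1 : K → ℂ) k
      refine congrArg (θ.1 : K → ℂ) (Subtype.ext ?_)
      show g⁻¹ * (k' : G) * g⁻¹⁻¹ = (k : G)
      rw [hkk']; group
  have hRrel : (fun x y : {x : ↥K // IsConj x x⁻¹} => ∃ g : G, (y.1 : G) = g * x.1 * g⁻¹) =
      (fun x y : XR K => ∃ g, y = fR K g x) := by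
    funext x y
    apply propext
    constructor
    · rintro ⟨g, hg⟩; exact ⟨g, Subtype.ext (Subtype.ext hg)⟩
    · rintro ⟨g, hg⟩; exact ⟨g, by subst hg; rfl⟩
  rw [hLrel, hRrel]
  have hL := quot_card (fL K) (fL_one K) (fL_mul K)
  have hR := quot_card (fR K) (fR_one K) (fR_mul K)
  have hG0 : 0 < Nat.card G := Nat.card_pos
  have hK0 : 0 < Nat.card K := Nat.card_pos
  suffices hsum : ∑ g : G, Nat.card {θ : XL K // fL K g θ = θ} =
      ∑ g : G, Nat.card {x : XR K // fR K g x = x} by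
    rw [hsum, ← hR] at hL
    exact Nat.eq_of_mul_eq_mul_right hG0 hL
  have h1 : ∀ g : G, Nat.card K * Nat.card {θ : XL K // fL K g θ = θ} =
      ∑ k : K, Nat.card {u : K // u * k * u⁻¹ =
        (⟨g⁻¹ * (k : G) * g⁻¹⁻¹, hN.conj_mem k k.2 g⁻¹⟩ : K)⁻¹} := by
    intro g
    have := fix_count K hodd g
    exact_mod_cast this
  have h2 := pair_count K
  have h3 := inv_sum K hodd
  have h4 : ∑ g : G, Nat.card {x : XR K // fR K g x = x} =
      ∑ x : XR K, Nat.card {g : G // g * (x.1 : G) * g⁻¹ = (x.1 : G)} := by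
    have hfix : ∀ g : G, Nat.card {x : XR K // fR K g x = x} =
        ∑ x : XR K, if g * (x.1 : G) * g⁻¹ = (x.1 : G) then 1 else 0 := by
      intro g
      rw [Nat.card_eq_fintype_card, Fintype.card_subtype, Finset.card_filter]
      apply Finset.sum_congr rfl
      intro x _
      have hiff : fR K g x = x ↔ g * (x.1 : G) * g⁻¹ = (x.1 : G) := by
        constructor
        · intro h; exact congrArg (fun z : XR K => (z.1 : G)) h
        · intro h; exact Subtype.ext (Subtype.ext h)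
      by_cases hc : fR K g x = x
      · simp only [if_pos hc, if_pos (hiff.mp hc)]
      · simp only [if_neg hc, if_neg (fun h => hc (hiff.mpr h))]
    simp only [hfix]
    rw [Finset.sum_comm]
    apply Finset.sum_congr rfl
    intro x _
    rw [Nat.card_eq_fintype_card, Fintype.card_subtype, Finset.card_filter]
  apply Nat.eq_of_mul_eq_mul_left hK0
  rw [Finset.mul_sum]
  simp only [h1]
  rw [h2, h3, h4]

end Cfsg.Agent.S4866
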