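import Cfsg.Statements.S4873
import Cfsg.Agent.Helper24.RealOdd1

set_option autoImplicit false
open Cfsg

namespace Cfsg.Agent.S4873

/-- Let N be a normal subgroup of odd index in the finite group G. Then every irreducible complex character of N with Frobenius–Schur indicator +1 lies under exactly one irreducible character of G with Frobenius–Schur indicator +1. -/
theorem result {G : Type*} [Group G] [Finite G] (N : Subgroup G) [N.Normal] (hodd : Odd N.index) (φ : Cfsg.IrrCharacter ↥N) (hφ : (Nat.card ↥N : ℂ)⁻¹ * ∑ᶠ g : ↥N, (φ : ↥N → ℂ) (g * g) = 1) : ∃! χ : Cfsg.IrrCharacter G, (Nat.card G : ℂ)⁻¹ * ∑ᶠ g : G, (χ : G → ℂ) (g * g) = 1 ∧ (∑ᶠ n : ↥N, (χ : G → ℂ) n * (starRingEnd ℂ) ((φ : ↥N → ℂ) n)) ≠ 0 := by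
  classical
  haveI := Fintype.ofFinite G
  haveI : Fintype N := Fintype.ofFinite N
  rw [finsum_eq_sum_of_fintype] at hφ
  obtain ⟨χ, ⟨h1, h2⟩, h3⟩ := Cfsg.Agent.Helper24.real_odd_exists_unique N hodd φ hφ
  have hN0 : (Nat.card N : ℂ) ≠ 0 := Nat.cast_ne_zero.mpr Nat.card_pos.ne'
  have key : ∀ χ' : Cfsg.IrrCharacter G,
      (∑ᶠ n : ↥N, (χ' : G → ℂ) n * (starRingEnd ℂ) ((φ : ↥N → ℂ) n)) ≠ 0 ↔
        Cfsg.classInner (fun n : N => (χ' : G → ℂ) n) (φ : N → ℂ) ≠ 0 := by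
    intro χ'
    rw [finsum_eq_sum_of_fintype, Cfsg.Agent.Helper24.classInner_def']
    constructor
    · intro h; exact mul_ne_zero (inv_ne_zero hN0) h
    · intro h h0; exact h (by rw [h0, mul_zero])
  refine ⟨χ, ⟨?_, (key χ).mpr h2⟩, ?_⟩
  · rw [finsum_eq_sum_of_fintype]; exact h1
  · rintro χ' ⟨h1', h2'⟩
    rw [finsum_eq_sum_of_fintype] at h1'
    exact h3 χ' h1' ((key χ').mp h2')

end Cfsg.Agent.S4873
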