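import Cfsg.Statements.S4911
import Cfsg.Agent.Helper5.GlReal

set_option autoImplicit false
open Cfsg

namespace Cfsg.Agent.S4911

/-- Let P and K be subgroups of a finite group with P a p-group normalizing K and K of order prime to p. Then the number of P-invariant real-valued irreducible complex characters of K equals the number of conjugacy classes of K that are real (closed under inversion) and P-invariant. Moreover, if every real-valued irreducible character of K is P-invariant, then every real element of K (one conjugate in K to its inverse) is conjugate in K to an element centralized by P. -/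
theorem result {G : Type*} [Group G] [Finite G] (p : ℕ) [Fact p.Prime] (P K : Subgroup G) (hP : IsPGroup p ↥P) (hK : ¬ p ∣ Nat.card ↥K) (hPK : P ≤ Subgroup.normalizer (K : Set G)) : Nat.card {θ : Cfsg.IrrCharacter ↥K // (∀ k : ↥K, ((θ : ↥K → ℂ) k).im = 0) ∧ (∀ x ∈ P, ∀ k k' : ↥K, (k' : G) = x * (k : G) * x⁻¹ → (θ : ↥K → ℂ) k' = (θ : ↥K → ℂ) k)} = Nat.card {c : ConjClasses ↥K // (∀ k : ↥K, ConjClasses.mk k = c → IsConj k k⁻¹) ∧ ∀ k : ↥K, ConjClasses.mk k = c → ∀ x ∈ P, ∀ k' : ↥K, (k' : G) = x * (k : G) * x⁻¹ → ConjClasses.mk k' = c} ∧ ((∀ θ : Cfsg.IrrCharacter ↥K, (∀ k : ↥K, ((θ : ↥K → ℂ) k).im = 0) → (∀ x ∈ P, ∀ k k' : ↥K, (k' : G) = x * (k : G) * x⁻¹ → (θ : ↥K → ℂ) k' = (θ : ↥K → ℂ) k)) → ∀ k : ↥K, IsConj k k⁻¹ → ∃ k' : ↥K, IsConj k k' ∧ ∀ x ∈ P, x * (k' : G) * x⁻¹ = (k' : G)) := by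
  classical
  have instG : Fintype G := Fintype.ofFinite G
  have hnorm : ∀ y ∈ P, ∀ g ∈ K, y * g * y⁻¹ ∈ K := fun y hy g hg =>
    ((Subgroup.mem_normalizer_iff).mp (hPK hy) g).mp hg
  obtain ⟨C, hC⟩ : ∃ C : Subgroup G, C = K ⊓ Subgroup.centralizer (P : Set G) := ⟨_, rfl⟩
  have hCK : C ≤ K := by rw [hC]; exact inf_le_left
  have hCcent : ∀ c ∈ C, ∀ s ∈ P, s * c = c * s := by
    intro c hc s hs
    rw [hC] at hc
    exact (Subgroup.mem_centralizer_iff.mp hc.2) s hs
  refine ⟨?_, ?_⟩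
  · exact (Cfsg.Agent.Helper5.real_irr_count p K P hP hnorm hK C hC).trans
      ((Cfsg.Agent.Helper24.card_real_irr (G := C)).trans
        (Cfsg.Agent.Helper5.real_class_count K P C hCK hCcent hnorm
          (Cfsg.Agent.Helper5.CC_pgroup p K P hP hnorm hK C hC)))
  · intro hall
    exact Cfsg.Agent.Helper5.real_central p K P hP hnorm hK hall

end Cfsg.Agent.S4911
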