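import Cfsg.Statements.S4969
import Cfsg.Agent.Helper24.CharComplete

set_option autoImplicit false
open Cfsg
open Cfsg.Agent.Helper24

namespace Cfsg.Agent.S4969

/-- Let G be a finite group with k conjugacy classes, g ∈ G, and N > 0. Then the sum over the irreducible complex characters χ of G with χ(1) ≥ N of |χ(g)|/χ(1) is at most √(k · #C_G(g)) / N. -/
theorem result {G : Type*} [Group G] [Finite G] (g : G) (N : ℝ) (hN : 0 < N) :
    ∑ᶠ χ : Cfsg.IrrCharacter G, (if N ≤ ‖(χ : G → ℂ) 1‖ then ‖(χ : G → ℂ) g‖ / ‖(χ : G → ℂ) 1‖ else 0) ≤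
      Real.sqrt ((Nat.card (ConjClasses G) : ℝ) * (Nat.card ↥(Subgroup.centralizer ({g} : Set G)) : ℝ)) / N := by
  classical
  rw [finsum_irr_eq_sum]
  have h1 : ∀ χ : IrrCharacter G,
      (if N ≤ ‖(χ : G → ℂ) 1‖ then ‖(χ : G → ℂ) g‖ / ‖(χ : G → ℂ) 1‖ else 0) ≤
        ‖(χ : G → ℂ) g‖ / N := by
    intro χ
    split_ifs with hle
    · exact div_le_div_of_nonneg_left (norm_nonneg _) hN hle
    · exact div_nonneg (norm_nonneg _) hN.le
  have h2 : ∑ χ : IrrCharacter G, ‖(χ : G → ℂ) g‖ ^ 2 =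
      (Nat.card (Subgroup.centralizer ({g} : Set G)) : ℝ) := by
    have h := (sum_irr_mul_conj g g).1 (IsConj.refl g)
    apply Complex.ofReal_injective
    rw [Complex.ofReal_sum, Complex.ofReal_natCast, ← h]
    refine Finset.sum_congr rfl fun χ _ => ?_
    rw [Complex.mul_conj, Complex.normSq_eq_norm_sq]
  have h3 : (∑ χ : IrrCharacter G, ‖(χ : G → ℂ) g‖) ^ 2 ≤
      (Nat.card (ConjClasses G) : ℝ) *
        (Nat.card (Subgroup.centralizer ({g} : Set G)) : ℝ) := by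
    have h := sq_sum_le_card_mul_sum_sq (s := (Finset.univ : Finset (IrrCharacter G)))
      (f := fun χ => ‖(χ : G → ℂ) g‖)
    rw [h2, Finset.card_univ, ← Nat.card_eq_fintype_card, card_irr_eq_card_conjClasses] at h
    exact h
  have h4 : ∑ χ : IrrCharacter G, ‖(χ : G → ℂ) g‖ ≤
      Real.sqrt ((Nat.card (ConjClasses G) : ℝ) *
        (Nat.card (Subgroup.centralizer ({g} : Set G)) : ℝ)) :=
    (le_abs_self _).trans (Real.abs_le_sqrt h3)
  calc ∑ χ : IrrCharacter G,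
        (if N ≤ ‖(χ : G → ℂ) 1‖ then ‖(χ : G → ℂ) g‖ / ‖(χ : G → ℂ) 1‖ else 0)
      ≤ ∑ χ : IrrCharacter G, ‖(χ : G → ℂ) g‖ / N := Finset.sum_le_sum fun χ _ => h1 χ
    _ = (∑ χ : IrrCharacter G, ‖(χ : G → ℂ) g‖) / N := by rw [Finset.sum_div]
    _ ≤ _ := div_le_div_of_nonneg_right h4 hN.le

end Cfsg.Agent.S4969
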