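import Cfsg.Statements.S4989
import Cfsg.Agent.Helper22.GalChar2

set_option autoImplicit false
open Cfsg
open Cfsg.Agent.Helper22 Cfsg.Agent.Helper24

namespace Cfsg.Agent.S4989

/-- Let H be a subgroup of the finite group G and χ an irreducible complex character of G. Then the inner product of the restriction of χ to H with itself, (1/#H)·Σ_{h ∈ H} |χ(h)|², is at most 1 + #(Z ∖ H)/#H, where Z is the set of zeros of χ in G. -/
theorem result {G : Type*} [Group G] [Finite G] (H : Subgroup G) (χ : Cfsg.IrrCharacter G) : (Nat.card ↥H : ℝ)⁻¹ * ∑ᶠ h : ↥H, ‖(χ : G → ℂ) h‖ ^ 2 ≤ 1 + (Set.ncard ({x : G | (χ : G → ℂ) x = 0} \ (H : Set G)) : ℝ) / (Nat.card ↥H : ℝ) := by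
  classical
  have := Fintype.ofFinite G
  have hchar : IsCharacter G (χ : G → ℂ) := isCharacter_of_isIrrCharacter χ.2
  have hsum := irr_sum_normSq χ
  obtain ⟨B, hB⟩ : ∃ B : Finset G, B = Finset.univ.filter (fun g => g ∈ H) := ⟨_, rfl⟩
  obtain ⟨A, hA⟩ : ∃ A : Finset G,
      A = Finset.univ.filter (fun g => g ∉ H ∧ (χ : G → ℂ) g ≠ 0) := ⟨_, rfl⟩
  obtain ⟨Z', hZ'⟩ : ∃ Z' : Finset G,
      Z' = Finset.univ.filter (fun g => (χ : G → ℂ) g = 0 ∧ g ∉ H) := ⟨_, rfl⟩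
  have hBmem : ∀ g, g ∈ B ↔ g ∈ H := fun g => by rw [hB]; simp
  have hAmem : ∀ g, g ∈ A ↔ g ∉ H ∧ (χ : G → ℂ) g ≠ 0 := fun g => by rw [hA]; simp
  have hZmem : ∀ g, g ∈ Z' ↔ (χ : G → ℂ) g = 0 ∧ g ∉ H := fun g => by rw [hZ']; simp
  have hfin : ∑ᶠ h : ↥H, ‖(χ : G → ℂ) h‖ ^ 2 = ∑ g ∈ B, ‖(χ : G → ℂ) g‖ ^ 2 := by
    rw [finsum_eq_sum_of_fintype]
    exact (Finset.sum_subtype B hBmem (fun g => ‖(χ : G → ℂ) g‖ ^ 2)).symm
  have hBcard : (B.card : ℝ) = (Nat.card H : ℝ) := by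
    rw [Nat.card_eq_fintype_card, Fintype.card_of_subtype B hBmem]
  have hncard : Set.ncard ({x : G | (χ : G → ℂ) x = 0} \ (H : Set G)) = Z'.card := by
    rw [← Set.ncard_coe_finset Z']
    congr 1
    ext g
    simp [hZmem]
  have hpart : ∀ g : G, ‖(χ : G → ℂ) g‖ ^ 2 =
      (if g ∈ H then ‖(χ : G → ℂ) g‖ ^ 2 else 0) +
      (if g ∉ H ∧ (χ : G → ℂ) g ≠ 0 then ‖(χ : G → ℂ) g‖ ^ 2 else 0) := by
    intro g
    by_cases h1 : g ∈ H
    · simp [h1]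
    · by_cases h2 : (χ : G → ℂ) g = 0
      · simp [h1, h2]
      · simp [h1, h2]
  have hsplit : ∑ g : G, ‖(χ : G → ℂ) g‖ ^ 2 =
      ∑ g ∈ B, ‖(χ : G → ℂ) g‖ ^ 2 + ∑ g ∈ A, ‖(χ : G → ℂ) g‖ ^ 2 := by
    rw [hB, hA, Finset.sum_filter, Finset.sum_filter, ← Finset.sum_add_distrib]
    exact Finset.sum_congr rfl fun g _ => hpart g
  have hcount : (Fintype.card G : ℝ) = (B.card : ℝ) + (A.card : ℝ) + (Z'.card : ℝ) := by
    have h1 : ∀ g : G, (1 : ℝ) = (if g ∈ H then 1 else 0) +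
        (if g ∉ H ∧ (χ : G → ℂ) g ≠ 0 then 1 else 0) +
        (if (χ : G → ℂ) g = 0 ∧ g ∉ H then 1 else 0) := by
      intro g
      by_cases h1 : g ∈ H
      · simp [h1]
      · by_cases h2 : (χ : G → ℂ) g = 0
        · simp [h1, h2]
        · simp [h1, h2]
    have h2 : (Fintype.card G : ℝ) = ∑ _g : G, (1 : ℝ) := by simp
    rw [hB, hA, hZ', Finset.natCast_card_filter, Finset.natCast_card_filter,
      Finset.natCast_card_filter, ← Finset.sum_add_distrib, ← Finset.sum_add_distrib, h2]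
    exact Finset.sum_congr rfl fun g _ => h1 g
  have hstab : ∀ g ∈ A, ∀ k : (ZMod (Nat.card G))ˣ,
      g ^ (k : ZMod (Nat.card G)).val ∈ A := by
    intro g hg k
    rw [hAmem] at hg ⊢
    refine ⟨fun h => hg.1 ?_, fun h => hg.2 ((char_pow_eq_zero_iff hchar g k).mp h)⟩
    have h2 := H.pow_mem h ((k⁻¹ : (ZMod (Nat.card G))ˣ) : ZMod (Nat.card G)).val
    rw [pow_unit_inv] at h2
    exact h2
  have hge := sum_normSq_ge_card_of_stable hchar A hstab (fun g hg => ((hAmem g).mp hg).2)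
  have hBpos : (0 : ℝ) < (B.card : ℝ) := by
    rw [Nat.cast_pos, Finset.card_pos]; exact ⟨1, (hBmem 1).mpr H.one_mem⟩
  have hB0 : (B.card : ℝ) ≠ 0 := hBpos.ne'
  have hSB : ∑ g ∈ B, ‖(χ : G → ℂ) g‖ ^ 2 ≤ (B.card : ℝ) + (Z'.card : ℝ) := by
    rw [Nat.card_eq_fintype_card] at hsum
    linarith
  rw [hfin, hncard, ← hBcard]
  calc (B.card : ℝ)⁻¹ * ∑ g ∈ B, ‖(χ : G → ℂ) g‖ ^ 2
      ≤ (B.card : ℝ)⁻¹ * ((B.card : ℝ) + (Z'.card : ℝ)) :=
        mul_le_mul_of_nonneg_left hSB (inv_nonneg.mpr hBpos.le)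
    _ = 1 + (Z'.card : ℝ) / (B.card : ℝ) := by
        rw [mul_add, inv_mul_cancel₀ hB0, div_eq_inv_mul]

end Cfsg.Agent.S4989
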