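import Cfsg.Statements.S4996
import Cfsg.Agent.Helper22.GalChar3
import Cfsg.Agent.Helper5.Shift
import Cfsg.Agent.Helper5.Isom
import Cfsg.Agent.Helper5.Cliff
import Cfsg.Agent.S0868

set_option autoImplicit false
open Cfsg
open Cfsg.Agent.Helper24 Cfsg.Agent.Helper22

namespace Cfsg.Agent.S4996

/-- Let N be a normal subgroup of the finite group G and χ an irreducible complex character of G. Then the restriction of χ to N is not irreducible if and only if χ vanishes on some whole coset Nx of N in G. -/
theorem result {G : Type*} [Group G] [Finite G] (N : Subgroup G) [N.Normal] (χ : Cfsg.IrrCharacter G) : ¬ Cfsg.IsIrrCharacter ↥N (fun n : ↥N => (χ : G → ℂ) n) ↔ ∃ x : G, ∀ n : ↥N, (χ : G → ℂ) ((n : G) * x) = 0 := by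
  classical
  haveI := Fintype.ofFinite G
  haveI : Fintype N := Fintype.ofFinite N
  have hχc : IsCharacter G (χ : G → ℂ) := isCharacter_of_isIrrCharacter χ.2
  have hN0 : (Nat.card N : ℂ) ≠ 0 := Nat.cast_ne_zero.mpr Nat.card_pos.ne'
  have hG0 : (Nat.card G : ℂ) ≠ 0 := Nat.cast_ne_zero.mpr Nat.card_pos.ne'
  constructor
  · intro hred
    obtain ⟨η, hη⟩ : ∃ η : G → ℂ, η = fun g => (Nat.card N : ℂ)⁻¹ * ∑ n : N,
        (χ : G → ℂ) ((n : G) * g) * starRingEnd ℂ ((χ : G → ℂ) ((n : G) * g)) := ⟨_, rfl⟩
    have hηg : ∀ g : G, η g = (Nat.card N : ℂ)⁻¹ * ∑ n : N,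
        (χ : G → ℂ) ((n : G) * g) * starRingEnd ℂ ((χ : G → ℂ) ((n : G) * g)) :=
      fun g => by rw [hη]
    have hre : ∀ g, ∃ r : ℝ, 0 ≤ r ∧ η g = (r : ℂ) := by
      intro g
      refine ⟨(Nat.card N : ℝ)⁻¹ * ∑ n : N, ‖(χ : G → ℂ) ((n : G) * g)‖ ^ 2, by positivity, ?_⟩
      rw [hηg g]
      push_cast
      congr 1
      refine Finset.sum_congr rfl fun n _ => ?_
      rw [Complex.mul_conj, Complex.normSq_eq_norm_sq]
      push_cast
      rfl
    have hΘc : IsCharacter G (fun g => (χ : G → ℂ) g * starRingEnd ℂ ((χ : G → ℂ) g)) :=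
      Cfsg.Agent.Helper5.isCharacter_mul hχc (isCharacter_star hχc)
    have hdec := classFunction_eq_sum_irr _ (isCharacter_isClassFunction hΘc)
    choose m hm using fun β : IrrCharacter G => isCharacter_inner_irr hΘc β
    have hΘx : ∀ x : G, (χ : G → ℂ) x * starRingEnd ℂ ((χ : G → ℂ) x) =
        ∑ β : IrrCharacter G, (m β : ℂ) * (β : G → ℂ) x := by
      intro x
      have h0 := congrFun hdec x
      simp only [Finset.sum_apply, Pi.smul_apply, smul_eq_mul, hm] at h0
      exact h0
    have hηx : ∀ g : G, η g = ∑ β : IrrCharacter G, (m β : ℂ) *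
        (if classInner (fun n : N => (β : G → ℂ) n) (fun _ => 1) ≠ 0 then (β : G → ℂ) g
          else 0) := by
      intro g
      rw [hηg g]
      simp only [hΘx]
      rw [Finset.sum_comm, Finset.mul_sum]
      refine Finset.sum_congr rfl fun β _ => ?_
      rw [← Finset.mul_sum, ← Cfsg.Agent.Helper5.avg_shift_irr N β g]
      ring
    have hηc : IsCharacter G η := by
      have e : η = ∑ β : IrrCharacter G,
          (if classInner (fun n : N => (β : G → ℂ) n) (fun _ => 1) ≠ 0
            then (m β : ℂ) • (β : G → ℂ) else 0) := by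
        funext g
        rw [hηx g, Finset.sum_apply]
        refine Finset.sum_congr rfl fun β _ => ?_
        split_ifs <;> simp
      rw [e]
      apply isCharacter_sum
      intro β _
      split_ifs
      · exact isCharacter_natCast_smul (m β) (isCharacter_of_isIrrCharacter β.2)
      · exact isCharacter_zero
    have hsumC : ∑ g : G, η g = (Nat.card G : ℂ) := by
      have h1 : ∀ n : N, ∑ g : G, (χ : G → ℂ) ((n : G) * g) *
          starRingEnd ℂ ((χ : G → ℂ) ((n : G) * g)) = (Nat.card G : ℂ) := by
        intro n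
        have h2 : ∑ g : G, (χ : G → ℂ) g * starRingEnd ℂ ((χ : G → ℂ) g) =
            (Nat.card G : ℂ) := by
          have h3 := irr_inner_self χ
          rw [classInner_def', inv_mul_eq_one₀ hG0] at h3
          exact h3.symm
        rw [← h2]
        exact Fintype.sum_equiv (Equiv.mulLeft (n : G)) _ _ (fun g => rfl)
      rw [Finset.sum_congr rfl (fun g _ => hηg g), ← Finset.mul_sum, Finset.sum_comm,
        Finset.sum_congr rfl (fun n _ => h1 n), Finset.sum_const, Finset.card_univ,
        nsmul_eq_mul, ← Nat.card_eq_fintype_card]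
      field_simp
    have hsum : ∑ g : G, (η g).re = (Nat.card G : ℝ) := by
      have h := congrArg Complex.re hsumC
      rw [Complex.re_sum] at h
      simpa using h
    have hres : IsCharacter N (fun n : N => (χ : G → ℂ) n) := isCharacter_restrict N hχc
    obtain ⟨k, hk⟩ := classInner_isCharacter_natCast hres hres
    have hk1 : k ≠ 1 := by
      intro h1
      apply hred
      apply isIrrCharacter_of_inner_self hres
      rw [hk, h1]
      simp
    have hk0 : k ≠ 0 := by
      intro h0
      rw [h0, Nat.cast_zero] at hk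
      have hz := Cfsg.Agent.Helper5.classInner_self_eq_zero hk
      have h1 := congrFun hz 1
      exact Cfsg.Agent.Helper24.irr_one_ne_zero χ h1
    have hη1 : η 1 = (k : ℂ) := by
      rw [← hk, classInner_def', hηg 1]
      congr 1
      refine Finset.sum_congr rfl fun n _ => ?_
      rw [mul_one]
    have h1lt : 1 < (η 1).re := by
      rw [hη1, Complex.natCast_re]
      have h2 : 1 < k := by omega
      exact_mod_cast h2
    obtain ⟨x, hx⟩ := exists_zero_of_sum_re hηc hre hsum h1lt
    refine ⟨x, fun n => ?_⟩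
    have h0 : ∑ n : N, (χ : G → ℂ) ((n : G) * x) *
        starRingEnd ℂ ((χ : G → ℂ) ((n : G) * x)) = 0 := by
      have h3 := hx
      rw [hηg x] at h3
      rcases mul_eq_zero.mp h3 with h | h
      · exact absurd (inv_eq_zero.mp h) hN0
      · exact h
    have h1 : ∑ n : N, Complex.normSq ((χ : G → ℂ) ((n : G) * x)) = 0 := by
      have h4 : ((∑ n : N, Complex.normSq ((χ : G → ℂ) ((n : G) * x)) : ℝ) : ℂ) = 0 := by
        rw [Complex.ofReal_sum]
        simp only [← Complex.mul_conj]
        exact h0
      exact_mod_cast h4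
    have h2 := (Finset.sum_eq_zero_iff_of_nonneg
      (fun n _ => Complex.normSq_nonneg _)).mp h1 n (Finset.mem_univ n)
    exact Complex.normSq_eq_zero.mp h2
  · rintro ⟨x, hx⟩ hirr
    have h := (Cfsg.Agent.S0868.result N (χ : G → ℂ) χ.2 hirr (χ : G → ℂ) χ.2 _ rfl).2.2 rfl
    have h1 := congrFun h x
    simp [hx] at h1

end Cfsg.Agent.S4996
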