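import Cfsg.Statements.S5011
import Mathlib

set_option autoImplicit false
open Cfsg

namespace Cfsg.Agent.S5011

/-- The elements acting as scalars form a normal subgroup. -/
def scalarSubgroup {G : Type*} [Group G] {V : Type*} [AddCommGroup V] [Module ℂ V] [Nontrivial V]
    (ρ : Representation ℂ G V) : Subgroup G where
  carrier := {x | ∃ μ : ℂ, ρ x = μ • (1 : V →ₗ[ℂ] V)}
  one_mem' := ⟨1, by simp⟩
  mul_mem' := by
    rintro a b ⟨μ, hμ⟩ ⟨ν, hν⟩
    refine ⟨μ * ν, ?_⟩
    rw [map_mul, hμ, hν]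
    simp [smul_smul, mul_comm]
  inv_mem' := by
    rintro a ⟨μ, hμ⟩
    have h1 : ρ a * ρ a⁻¹ = 1 := by rw [← map_mul, mul_inv_cancel, map_one]
    rw [hμ] at h1
    have hμ0 : μ ≠ 0 := by
      rintro rfl
      simp at h1
    refine ⟨μ⁻¹, ?_⟩
    have h2 : μ • ρ a⁻¹ = 1 := by simpa using h1
    calc ρ a⁻¹ = μ⁻¹ • (μ • ρ a⁻¹) := by rw [smul_smul, inv_mul_cancel₀ hμ0, one_smul]
      _ = μ⁻¹ • (1 : V →ₗ[ℂ] V) := by rw [h2]

theorem scalarSubgroup_normal {G : Type*} [Group G] {V : Type*} [AddCommGroup V] [Module ℂ V] [Nontrivial V]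
    (ρ : Representation ℂ G V) : (scalarSubgroup ρ).Normal where
  conj_mem := by
    rintro a ⟨μ, hμ⟩ y
    refine ⟨μ, ?_⟩
    have h1 : ρ y * ρ y⁻¹ = 1 := by rw [← map_mul, mul_inv_cancel, map_one]
    rw [map_mul, map_mul, hμ]
    rw [mul_smul_comm, mul_one, smul_mul_assoc, h1]

/-- Let G be a finite non-abelian simple group and ρ an irreducible complex representation of G on a space of dimension greater than one (irreducible in the sense that the only subspaces invariant under every ρ(x) are 0 and the whole space). Then for every non-identity element g of G, the centralizer of g does not act irreducibly: there is a non-zero proper subspace invariant under ρ(c) for every c commuting with g. -/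
theorem result {G : Type*} [Group G] [Finite G] [IsSimpleGroup G]
    (hG : ¬ IsMulCommutative G) {V : Type*} [AddCommGroup V] [Module ℂ V] [FiniteDimensional ℂ V]
    (ρ : Representation ℂ G V)
    (hirr : ∀ W : Submodule ℂ V, (∀ x : G, ∀ v ∈ W, ρ x v ∈ W) → W = ⊥ ∨ W = ⊤)
    (hdim : 1 < Module.finrank ℂ V) (g : G) (hg : g ≠ 1) :
    ∃ W : Submodule ℂ V, W ≠ ⊥ ∧ W ≠ ⊤ ∧ ∀ c ∈ Subgroup.centralizer ({g} : Set G), ∀ v ∈ W, ρ c v ∈ W := by
  by_contra hcon
  have hcon' : ∀ W : Submodule ℂ V,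
      (∀ c ∈ Subgroup.centralizer ({g} : Set G), ∀ v ∈ W, ρ c v ∈ W) → W = ⊥ ∨ W = ⊤ := by
    intro W hW
    by_contra h
    push Not at h
    exact hcon ⟨W, h.1, h.2, hW⟩
  have : Nontrivial V := Module.nontrivial_of_finrank_pos (R := ℂ) (by omega)
  obtain ⟨μ, hμ⟩ := Module.End.exists_eigenvalue (ρ g)
  have hinv : ∀ c ∈ Subgroup.centralizer ({g} : Set G),
      ∀ v ∈ Module.End.eigenspace (ρ g) μ, ρ c v ∈ Module.End.eigenspace (ρ g) μ := by
    intro c hc v hv
    rw [Module.End.mem_eigenspace_iff] at hv ⊢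
    have hcomm : g * c = c * g := Subgroup.mem_centralizer_iff.mp hc g (Set.mem_singleton g)
    calc ρ g (ρ c v) = (ρ g * ρ c) v := rfl
      _ = ρ (g * c) v := by rw [map_mul]
      _ = ρ (c * g) v := by rw [hcomm]
      _ = ρ c (ρ g v) := by rw [map_mul]; rfl
      _ = ρ c (μ • v) := by rw [hv]
      _ = μ • ρ c v := by rw [map_smul]
  have hE : Module.End.eigenspace (ρ g) μ = ⊤ := by
    rcases hcon' _ hinv with h | h
    · exact absurd h hμ
    · exact h
  have hgN : g ∈ scalarSubgroup ρ := by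
    refine ⟨μ, ?_⟩
    ext v
    have hv : v ∈ Module.End.eigenspace (ρ g) μ := by rw [hE]; exact Submodule.mem_top
    rw [Module.End.mem_eigenspace_iff] at hv
    simpa using hv
  have hN : scalarSubgroup ρ = ⊤ := by
    rcases (scalarSubgroup_normal ρ).eq_bot_or_eq_top with h | h
    · rw [h, Subgroup.mem_bot] at hgN
      exact absurd hgN hg
    · exact h
  obtain ⟨v, hv⟩ := exists_ne (0 : V)
  have hspan : ∀ c : G, ∀ w ∈ Submodule.span ℂ ({v} : Set V), ρ c w ∈ Submodule.span ℂ ({v} : Set V) := by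
    intro c w hw
    have hc : c ∈ scalarSubgroup ρ := by rw [hN]; exact Subgroup.mem_top c
    obtain ⟨ν, hν⟩ := hc
    rw [hν]
    simpa using Submodule.smul_mem _ ν hw
  rcases hcon' _ (fun c _ => hspan c) with h | h
  · rw [Submodule.span_singleton_eq_bot] at h
    exact hv h
  · have h1 : Module.finrank ℂ (Submodule.span ℂ ({v} : Set V)) = 1 :=
      finrank_span_singleton hv
    rw [h, finrank_top] at h1
    omega

end Cfsg.Agent.S5011
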