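import Mathlib
import Cfsg.Statements.S5083
import Cfsg.Agent.Helper26.Alperin
-- import your own Cfsg.Agent.* helpers here

set_option autoImplicit false
open Cfsg

namespace Cfsg.Agent.S5083

/-- If F is a saturated fusion system over a finite p-group S in which Aut_F(P) is a p-group for every P ≤ S, then F is the inner fusion system of S (all its maps are conjugations by elements of S). -/
theorem result {Ω : Type*} [Group Ω] {S : Subgroup Ω} [Finite S] (p : ℕ) [Fact p.Prime] (hS : IsPGroup p S) (F : Cfsg.FusionSystem S) (hF : F.IsSaturated p) (h : ∀ P : Subgroup Ω, P ≤ S → IsPGroup p (F.autGroup P)) : F = Cfsg.innerFusionSystem S := by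
  apply Helper26.fs_ext
  intro P
  apply Set.Subset.antisymm
  · refine Helper26.alperin hS F hF (Cfsg.innerFusionSystem S) ?_ P
    intro Q _ hQa hQr _ _ α hα
    have hQS := hQr.1
    obtain ⟨β, hβ, hβA⟩ := Helper26.fullyAutomized_conj F hQa (F.autGroup Q) le_rfl (h Q hQS)
    have h1 : β⁻¹ * α * β ∈ F.autGroup Q :=
      Subgroup.mul_mem _ (Subgroup.mul_mem _ (Subgroup.inv_mem _ hβ) hα) hβ
    have h2 := hβA _ h1
    have h3 : β * (β⁻¹ * α * β) * β⁻¹ = α := by group
    rw [h3] at h2
    obtain ⟨g, hg, hgα⟩ := (Helper26.mem_autInducedBy_iff S Q α).1 h2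
    rw [Helper26.mem_autGroup_iff _ hQS]
    exact ⟨hQS, g, hg, hgα⟩
  · rintro φ ⟨hP, g, hg, hφ⟩
    exact Helper26.fs_conj F hP hg hφ

end Cfsg.Agent.S5083
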