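import Cfsg.Statements.S5084
import Cfsg.Agent.Helper26.FusNormal2

set_option autoImplicit false
open Cfsg

namespace Cfsg.Agent.S5084

open Cfsg.FusionSystem Cfsg.Agent.Helper26

variable {Ω : Type*} [Group Ω] {S : Subgroup Ω}

/-- `φ` extends to `P ⊔ Q` fixing `Q` elementwise. -/
def CentExt (F : Cfsg.FusionSystem S) (Q P : Subgroup Ω) (φ : P →* Ω) : Prop :=
  ∃ ψ ∈ F.Hom (P ⊔ Q), (∀ x : P, ψ (Subgroup.inclusion le_sup_left x) = φ x) ∧
    ∀ x : Q, ψ (Subgroup.inclusion le_sup_right x) = x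

/-- The subsystem of maps of `F` that extend to `P ⊔ Q` fixing `Q` elementwise (for `Q ≤ Z(S)`). -/
def centSys (F : Cfsg.FusionSystem S) (Q : Subgroup Ω) (hQ : Q ≤ S)
    (hQc : ∀ g ∈ S, ∀ x ∈ Q, g * x * g⁻¹ = x) : Cfsg.FusionSystem S :=
  subSys F (CentExt F Q)
    (by
      intro P g hP hg
      refine ⟨conjHom (P ⊔ Q) g, F.conj_mem (sup_le hP hQ) hg, fun x => rfl, fun x => ?_⟩
      exact hQc g hg x x.2)
    (by
      rintro P P' φ ψ hφ hψ ⟨ψ1, hψ1, hψ1a, hψ1Q⟩ ⟨ψ2, hψ2, hψ2a, hψ2Q⟩ h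
      have hmap : ∀ z : ↥(P ⊔ Q), ψ1 z ∈ P' ⊔ Q := by
        intro z
        refine sup_map_mem ψ1 (fun x hx => ?_) (fun x hx => ?_) z
        · have : ψ1 x = φ ⟨x, hx⟩ := hψ1a ⟨x, hx⟩
          rw [this]; exact Subgroup.mem_sup_left (h _)
        · have : ψ1 x = x := hψ1Q ⟨x, hx⟩
          rw [this]; exact Subgroup.mem_sup_right hx
      refine ⟨ψ2.comp (ψ1.codRestrict (P' ⊔ Q) hmap), F.comp_mem hψ1 hψ2 hmap,
        fun x => ?_, fun x => ?_⟩
      · have e : (⟨ψ1 (Subgroup.inclusion le_sup_left x), hmap _⟩ : ↥(P' ⊔ Q)) =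
            Subgroup.inclusion le_sup_left (⟨φ x, h x⟩ : P') := Subtype.ext (hψ1a x)
        exact (congrArg ψ2 e).trans (hψ2a ⟨φ x, h x⟩)
      · have e : (⟨ψ1 (Subgroup.inclusion le_sup_right x), hmap _⟩ : ↥(P' ⊔ Q)) =
            Subgroup.inclusion le_sup_right x := Subtype.ext (hψ1Q x)
        exact (congrArg ψ2 e).trans (hψ2Q x))
    (by
      rintro P φ hφ ⟨ψ1, hψ1, hψ1a, hψ1Q⟩ ψ hψ hψx
      have hrange : ψ1.range = φ.range ⊔ Q := by
        apply le_antisymm
        · rintro _ ⟨z, rfl⟩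
          refine sup_map_mem ψ1 (fun x hx => ?_) (fun x hx => ?_) z
          · have : ψ1 x = φ ⟨x, hx⟩ := hψ1a ⟨x, hx⟩
            rw [this]; exact Subgroup.mem_sup_left ⟨_, rfl⟩
          · have : ψ1 x = x := hψ1Q ⟨x, hx⟩
            rw [this]; exact Subgroup.mem_sup_right hx
        · refine sup_le ?_ ?_
          · rintro _ ⟨x, rfl⟩
            exact ⟨Subgroup.inclusion le_sup_left x, hψ1a x⟩
          · intro y hy
            exact ⟨Subgroup.inclusion le_sup_right ⟨y, hy⟩, hψ1Q ⟨y, hy⟩⟩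
      obtain ⟨Ψ, hΨ, hΨx⟩ := exists_inv_hom F hψ1 hrange
      refine ⟨Ψ, hΨ, ?_, ?_⟩
      · rintro ⟨_, x, rfl⟩
        have hmem : ψ1 (Subgroup.inclusion le_sup_left x) ∈ φ.range ⊔ Q := by
          rw [hψ1a]; exact Subgroup.mem_sup_left ⟨x, rfl⟩
        have h1 := hΨx (Subgroup.inclusion le_sup_left x) hmem
        have h2 : (Subgroup.inclusion le_sup_left (⟨φ x, ⟨x, rfl⟩⟩ : φ.range) : ↥(φ.range ⊔ Q))
            = ⟨ψ1 (Subgroup.inclusion le_sup_left x), hmem⟩ := Subtype.ext (hψ1a x).symm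
        exact ((congrArg Ψ h2).trans h1).trans (hψx x).symm
      · intro q
        have hmem : ψ1 (Subgroup.inclusion le_sup_right q) ∈ φ.range ⊔ Q := by
          rw [hψ1Q]; exact Subgroup.mem_sup_right q.2
        have h1 := hΨx (Subgroup.inclusion le_sup_right q) hmem
        have h2 : (Subgroup.inclusion le_sup_right q : ↥(φ.range ⊔ Q))
            = ⟨ψ1 (Subgroup.inclusion le_sup_right q), hmem⟩ := Subtype.ext (hψ1Q q).symm
        exact (congrArg Ψ h2).trans h1)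

/-- In a saturated fusion system over a finite p-group S, a subgroup Q is central in the system if and only if Q ≤ S and no element of Q is conjugate in the system to any element other than itself. -/
theorem result {Ω : Type*} [Group Ω] {S : Subgroup Ω} [Finite S] (p : ℕ) [Fact p.Prime] (hS : IsPGroup p S) (F : Cfsg.FusionSystem S) (hF : F.IsSaturated p) (Q : Subgroup Ω) : F.IsCentral Q ↔ (Q ≤ S ∧ ∀ x ∈ Q, ∀ y : Ω, F.IsConjElt x y → y = x) := by
  constructor
  · intro hC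
    refine ⟨hC.1, fun x hx y hxy => ?_⟩
    obtain ⟨φ, hφ, hφx⟩ := hxy
    obtain ⟨ψ, hψ, hψa, hψQ⟩ := hC.2 _ φ hφ
    have h1 := hψQ ⟨x, hx⟩
    have h2 := hψa ⟨x, Subgroup.mem_zpowers x⟩
    rw [← hφx, ← h2]
    exact h1
  · rintro ⟨hQS, hfix⟩
    have hQc : ∀ g ∈ S, ∀ x ∈ Q, g * x * g⁻¹ = x := by
      intro g hg x hx
      have hz : Subgroup.zpowers x ≤ S := by
        rw [Subgroup.zpowers_le]; exact hQS hx
      exact hfix x hx _ ⟨conjHom (Subgroup.zpowers x) g, F.conj_mem hz hg, rfl⟩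
    have hle : F ≤ centSys F Q hQS hQc := by
      apply alperin hS F hF
      intro P hn ha hr hc hrad α hα
      have hPS := hc.1
      have hα' := (mem_autGroup_iff F hPS α).1 hα
      have hQP : Q ≤ P := by
        intro q hq
        apply hc.2 P (isConj_refl F hPS)
        rw [mem_centralizerIn_iff]
        refine ⟨hQS hq, fun x hx => ?_⟩
        have := hQc x (hPS hx) q hq
        exact mul_inv_eq_iff_eq_mul.1 this
      apply Subgroup.subset_closure
      show P.subtype.comp α.toMonoidHom ∈ F.Hom P ∧ CentExt F Q P (P.subtype.comp α.toMonoidHom)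
      refine ⟨hα', (P.subtype.comp α.toMonoidHom).comp (Subgroup.inclusion (sup_le le_rfl hQP)),
        fs_restrict F (sup_le le_rfl hQP) hα', fun x => rfl, fun q => ?_⟩
      have hz : Subgroup.zpowers (q : Ω) ≤ P := by
        rw [Subgroup.zpowers_le]; exact hQP q.2
      exact hfix q q.2 _ ⟨(P.subtype.comp α.toMonoidHom).comp (Subgroup.inclusion hz),
        fs_restrict F hz hα', rfl⟩
    exact ⟨hQS, fun P φ hφ => (show φ ∈ F.Hom P ∧ CentExt F Q P φ from hle P hφ).2⟩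

end Cfsg.Agent.S5084
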