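import Cfsg.Statements.S5098
import Cfsg.Agent.Helper25.KNorm3

set_option autoImplicit false
open Cfsg

namespace Cfsg.Agent.S5098

open Cfsg.FusionSystem Cfsg.Agent.Helper26

variable {Ω : Type*} [Group Ω] {S : Subgroup Ω}

theorem normalizerIn_eq_nK (Q : Subgroup Ω) :
    normalizerIn S Q = Helper25.nK S (⊤ : Subgroup (MulAut Q)) Q.subtype := by
  ext g
  constructor
  · rintro ⟨hgS, hgN⟩
    refine ⟨hgS, conjAut Q g hgN, Subgroup.mem_top _, fun x => ?_⟩
    exact (conjAut_apply Q g hgN x).symm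
  · intro hg
    exact ⟨hg.1, Helper25.nK_normalizes hg⟩

theorem nK_top_le (Q : Subgroup Ω) (φ : Q →* Ω) :
    Helper25.nK S (⊤ : Subgroup (MulAut Q)) φ ≤ normalizerIn S φ.range := by
  intro g hg
  refine ⟨hg.1, ?_⟩
  refine Subgroup.mem_normalizer_iff.2 ?_
  intro h
  constructor
  · rintro ⟨x, rfl⟩
    obtain ⟨-, k, -, hk⟩ := hg
    rw [hk x]; exact ⟨_, rfl⟩
  · rintro ⟨y, hy⟩
    obtain ⟨-, k, -, hk⟩ := hg
    have h1 := hk (k⁻¹ y)
    rw [MulAut.apply_inv_self, hy] at h1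
    have h2 : h = φ (k⁻¹ y) := by
      have h3 : g⁻¹ * (g * φ (k⁻¹ y) * g⁻¹) * g = g⁻¹ * (g * h * g⁻¹) * g := by rw [h1]
      have h4 : g⁻¹ * (g * φ (k⁻¹ y) * g⁻¹) * g = φ (k⁻¹ y) := by group
      have h5 : g⁻¹ * (g * h * g⁻¹) * g = h := by group
      rw [h4, h5] at h3
      exact h3.symm
    rw [h2]; exact ⟨_, rfl⟩

theorem fullK_top [Finite S] (F : FusionSystem S) {Q : Subgroup Ω} (hQ : F.IsFullyNormalized Q) :
    Helper25.FullK F (⊤ : Subgroup (MulAut Q)) := by
  refine ⟨hQ.1, fun φ hφ => ?_⟩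
  have h1 := hQ.2 φ.range ⟨φ, hφ, rfl⟩
  haveI : Finite ↥(normalizerIn S φ.range) :=
    Finite.of_injective (Subgroup.inclusion (inf_le_left : normalizerIn S φ.range ≤ S))
      (Subgroup.inclusion_injective _)
  have h2 : Nat.card (Helper25.nK S (⊤ : Subgroup (MulAut Q)) φ)
      ≤ Nat.card (normalizerIn S φ.range) :=
    Nat.card_le_card_of_injective (Subgroup.inclusion (nK_top_le Q φ))
      (Subgroup.inclusion_injective _)
  rw [← normalizerIn_eq_nK]
  exact h2.trans h1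

theorem khom_iff (F : FusionSystem S) (Q P : Subgroup Ω) (φ : P →* Ω) :
    φ ∈ F.normalizerHom Q P ↔ Helper25.KHom F (⊤ : Subgroup (MulAut Q)) P φ := by
  constructor
  · rintro ⟨hφ, hPN, hφN, ψ, hψ, hψP, hψQ⟩
    refine ⟨hφ, ?_, ?_, ψ, hψ, hψP, ?_⟩
    · rw [← normalizerIn_eq_nK]; exact hPN
    · intro x; rw [← normalizerIn_eq_nK]; exact hφN x
    · have hinj := F.injective_of_mem hψ
      have hmem : ∀ x : Q, ψ (Subgroup.inclusion le_sup_right x) ∈ Q := by
        intro x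
        have h0 : ψ (Subgroup.inclusion le_sup_right x) ∈ (Q.subgroupOf (P ⊔ Q)).map ψ :=
          ⟨Subgroup.inclusion le_sup_right x, Subgroup.mem_subgroupOf.2 x.2, rfl⟩
        rw [hψQ] at h0
        exact h0
      have hbij : Function.Bijective
          ((ψ.comp (Subgroup.inclusion (le_sup_right : Q ≤ P ⊔ Q))).codRestrict Q hmem) := by
        constructor
        · intro a b hab
          have h1 := Subtype.ext_iff.1 hab
          have h2 : ψ (Subgroup.inclusion le_sup_right a)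
              = ψ (Subgroup.inclusion le_sup_right b) := h1
          exact Subgroup.inclusion_injective _ (hinj h2)
        · intro y
          have hy : (y : Ω) ∈ (Q.subgroupOf (P ⊔ Q)).map ψ := by rw [hψQ]; exact y.2
          obtain ⟨z, hz, hzy⟩ := hy
          refine ⟨⟨(z : Ω), Subgroup.mem_subgroupOf.1 hz⟩, Subtype.ext ?_⟩
          show ψ (Subgroup.inclusion le_sup_right ⟨(z : Ω), _⟩) = y
          rw [← hzy]; rfl
      refine ⟨MulEquiv.ofBijective _ hbij, Subgroup.mem_top _, fun x => rfl⟩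
  · rintro ⟨hφ, hPN, hφN, ψ, hψ, hψP, k, -, hk⟩
    refine ⟨hφ, ?_, ?_, ψ, hψ, hψP, ?_⟩
    · rw [normalizerIn_eq_nK]; exact hPN
    · intro x; rw [normalizerIn_eq_nK]; exact hφN x
    · ext y
      constructor
      · rintro ⟨z, hz, rfl⟩
        have hz' : (z : Ω) ∈ Q := Subgroup.mem_subgroupOf.1 hz
        have h1 := hk ⟨(z : Ω), hz'⟩
        have h2 : z = Subgroup.inclusion le_sup_right ⟨(z : Ω), hz'⟩ := rfl
        rw [h2, h1]; exact (k _).2
      · intro hy
        refine ⟨Subgroup.inclusion le_sup_right (k⁻¹ ⟨y, hy⟩), Subgroup.mem_subgroupOf.2 (k⁻¹ ⟨y, hy⟩).2, ?_⟩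
        rw [hk, MulAut.apply_inv_self]

/-- If F is a saturated fusion system over a finite p-group S and Q is fully normalized in F, then the normalizer system N_F(Q) is a saturated fusion system over N_S(Q). -/
theorem result {Ω : Type*} [Group Ω] {S : Subgroup Ω} [Finite S] (p : ℕ) [Fact p.Prime] (hS : IsPGroup p S) (F : Cfsg.FusionSystem S) (hF : F.IsSaturated p) (Q : Subgroup Ω) (hQ : F.IsFullyNormalized Q) (E : Cfsg.FusionSystem (Cfsg.FusionSystem.normalizerIn S Q)) (hE : F.IsNormalizerSystem Q E) : E.IsSaturated p := by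
  refine Helper25.kNorm_saturated' hS F hF (⊤ : Subgroup (MulAut Q)) (fullK_top F hQ)
    (normalizerIn S Q) (normalizerIn_eq_nK Q) E (fun P φ => ?_)
  rw [hE P]
  exact khom_iff F Q P φ

end Cfsg.Agent.S5098
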