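import Cfsg.Statements.S5125
import Cfsg.Agent.Helper26.FusNormal3

set_option autoImplicit false
open Cfsg

namespace Cfsg.Agent.S5125

open Cfsg.FusionSystem Cfsg.Agent.Helper26
open scoped commutatorElement

variable {Ω : Type*} [Group Ω] {S : Subgroup Ω}

/-- If `Q₁` is normal in the saturated system and `Aut_F(Q₁)` is a `p`-group, then every
automorphism of `Q₁` in the system is induced by an element of `S`. -/
theorem aut_le_induced {p : ℕ} [Fact p.Prime] [Finite S] (hS : IsPGroup p S)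
    (F : Cfsg.FusionSystem S) (hF : F.IsSaturated p) {Q₁ : Subgroup Ω} (hQ₁ : F.IsNormal Q₁)
    (hAut : IsPGroup p ↥(F.autGroup Q₁)) : F.autGroup Q₁ ≤ autInducedBy S Q₁ := by
  have hQ₁S := hQ₁.1
  have hwc := weaklyClosed_of_stronglyClosed F (stronglyClosed_of_normal F hQ₁)
  have hfn : F.IsFullyNormalized Q₁ := by
    refine ⟨hQ₁S, fun Q' hconj => ?_⟩
    obtain ⟨φ, hφ, hr⟩ := hconj
    have h1 := hwc.2 φ hφ
    have h2 : Q' = Q₁ := hr.symm.trans h1
    rw [h2]
  obtain ⟨-, R, hR⟩ := (sat_of_fullyNormalized hS F hF hfn).2.1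
  have htop : (⊤ : Subgroup (F.autGroup Q₁)) = R :=
    R.is_maximal' (hAut.to_subgroup ⊤) le_top
  intro α hα
  have h1 : (⟨α, hα⟩ : F.autGroup Q₁) ∈ (R : Subgroup (F.autGroup Q₁)) := by
    rw [← htop]; exact Subgroup.mem_top _
  rw [hR] at h1
  exact Subgroup.mem_subgroupOf.1 h1

/-- Under the same hypotheses, a subgroup of `Q₁` normalized by `S` is weakly closed. -/
theorem weaklyClosed_of_le {p : ℕ} [Fact p.Prime] [Finite S] (hS : IsPGroup p S)
    (F : Cfsg.FusionSystem S) (hF : F.IsSaturated p) {Q₁ : Subgroup Ω} (hQ₁ : F.IsNormal Q₁)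
    (hAut : IsPGroup p ↥(F.autGroup Q₁)) {U : Subgroup Ω} (hU : U ≤ Q₁)
    (hUn : ∀ s ∈ S, ∀ x ∈ U, s * x * s⁻¹ ∈ U) : F.WeaklyClosed U := by
  have hQ₁S := hQ₁.1
  have : Finite Q₁ := finite_of_le hQ₁S
  refine ⟨hU.trans hQ₁S, fun φ hφ => range_eq_of_forall_mem F hφ (fun x => ?_)⟩
  obtain ⟨ψ, hψ, hψa, hψQ⟩ := hQ₁.2 U φ hφ
  have hψ' : ψ.comp (Subgroup.inclusion (le_sup_right : Q₁ ≤ U ⊔ Q₁)) ∈ F.Hom Q₁ :=
    fs_restrict F le_sup_right hψ
  obtain ⟨e, he, hex⟩ := exists_iso_of_hom_of_card F hψ' (Q := Q₁)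
    (fun y => normExt_mem_Q hψQ _ y.2) le_rfl
  have he' : e ∈ autInducedBy S Q₁ :=
    aut_le_induced hS F hF hQ₁ hAut ((mem_autGroup_iff F hQ₁S e).2 he)
  obtain ⟨s, hs, hse⟩ := (mem_autInducedBy_iff S Q₁ e).1 he'
  have h1 : φ x = s * (x : Ω) * s⁻¹ := by
    have h2 := hse ⟨x, hU x.2⟩
    rw [hex] at h2
    rw [← hψa x]
    exact h2
  rw [h1]
  exact hUn s hs x x.2

/-- Let F be a saturated fusion system over a finite p-group S and Q a subgroup strongly closed in F. If Q has a subgroup Q₁ that is normal in F, with Q/Q₁ abelian and Aut_F(Q₁) a p-group, then Q is normal in F. -/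
theorem result {Ω : Type*} [Group Ω] {S : Subgroup Ω} [Finite S] (p : ℕ) [Fact p.Prime] (hS : IsPGroup p S) (F : Cfsg.FusionSystem S) (hF : F.IsSaturated p) (Q Q₁ : Subgroup Ω) (hQ : F.StronglyClosed Q) (hQ₁Q : Q₁ ≤ Q) (hQ₁ : F.IsNormal Q₁) (hab : ⁅Q, Q⁆ ≤ Q₁) (hAut : IsPGroup p ↥(F.autGroup Q₁)) : F.IsNormal Q := by
  have hQS := hQ.1
  have hQ₁S := hQ₁.1
  have : Finite Q := finite_of_le hQS
  have hnil : Group.IsNilpotent Q := (isPGroup_of_le hS hQS).isNilpotent
  have hQn := stronglyClosed_conj F hQ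
  have hQ₁n := stronglyClosed_conj F (stronglyClosed_of_normal F hQ₁)
  have hnorm : ∀ s ∈ S, s ∈ Subgroup.normalizer (Q : Set Ω) := by
    intro s hs
    rw [Subgroup.mem_normalizer_iff]
    intro x
    refine ⟨hQn s hs x, fun hx => ?_⟩
    have h1 := hQn s⁻¹ (S.inv_mem hs) _ hx
    have h2 : s⁻¹ * (s * x * s⁻¹) * s⁻¹⁻¹ = x := by group
    rw [h2] at h1
    exact h1
  have hcomm₁ : ⁅Q₁, Q⁆ ≤ Q₁ := by
    rw [Subgroup.commutator_le]
    intro a ha b hb
    have h1 : b * a⁻¹ * b⁻¹ ∈ Q₁ := hQ₁n b (hQS hb) _ (Q₁.inv_mem ha)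
    have h2 : ⁅a, b⁆ = a * (b * a⁻¹ * b⁻¹) := by
      rw [commutatorElement_def]; group
    rw [h2]
    exact Q₁.mul_mem ha h1
  have hZn : ∀ (i : ℕ) (s : Ω), s ∈ S →
      ∀ x ∈ (Subgroup.upperCentralSeries Q i).map Q.subtype,
        s * x * s⁻¹ ∈ (Subgroup.upperCentralSeries Q i).map Q.subtype := by
    rintro i s hs _ ⟨u, hu, rfl⟩
    have h1 := (inferInstance : (Subgroup.upperCentralSeries Q i).Characteristic).fixed
      (conjAut Q s (hnorm s hs))
    have h2 : conjAut Q s (hnorm s hs) u ∈ Subgroup.upperCentralSeries Q i := by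
      have hu' : u ∈ Subgroup.upperCentralSeries Q i := hu
      rw [← h1] at hu'
      exact Subgroup.mem_comap.1 hu'
    exact ⟨conjAut Q s (hnorm s hs) u, h2, rfl⟩
  have hclass : (Subgroup.upperCentralSeries Q (Group.nilpotencyClass Q)).map Q.subtype = Q := by
    rw [Subgroup.upperCentralSeries_nilpotencyClass, ← MonoidHom.range_eq_map,
      Subgroup.range_subtype]
  refine normal_of_chain hS F hF hQ (Group.nilpotencyClass Q + 1)
    (fun i => if (i : ℕ) ≤ Group.nilpotencyClass Q then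
      Q₁ ⊓ (Subgroup.upperCentralSeries Q (i : ℕ)).map Q.subtype else Q) ?_ ?_ ?_ ?_ ?_
  · show (if ((0 : Fin (Group.nilpotencyClass Q + 1 + 1)) : ℕ) ≤ Group.nilpotencyClass Q then
      Q₁ ⊓ (Subgroup.upperCentralSeries Q ((0 : Fin (Group.nilpotencyClass Q + 1 + 1)) : ℕ)).map
        Q.subtype else Q) = ⊥
    rw [Fin.val_zero, if_pos (Nat.zero_le _), Subgroup.upperCentralSeries_zero, Subgroup.map_bot,
      inf_bot_eq]
  · show (if ((Fin.last (Group.nilpotencyClass Q + 1)) : ℕ) ≤ Group.nilpotencyClass Q then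
      Q₁ ⊓ (Subgroup.upperCentralSeries Q ((Fin.last (Group.nilpotencyClass Q + 1)) : ℕ)).map
        Q.subtype else Q) = Q
    rw [Fin.val_last, if_neg (by omega)]
  · intro i j hij
    have hij' : (i : ℕ) ≤ (j : ℕ) := Fin.le_def.1 hij
    show (if (i : ℕ) ≤ Group.nilpotencyClass Q then
      Q₁ ⊓ (Subgroup.upperCentralSeries Q (i : ℕ)).map Q.subtype else Q) ≤
      (if (j : ℕ) ≤ Group.nilpotencyClass Q then
      Q₁ ⊓ (Subgroup.upperCentralSeries Q (j : ℕ)).map Q.subtype else Q)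
    by_cases hj : (j : ℕ) ≤ Group.nilpotencyClass Q
    · rw [if_pos hj, if_pos (hij'.trans hj)]
      exact inf_le_inf_left _ (Subgroup.map_mono (Subgroup.upperCentralSeries_mono Q hij'))
    · rw [if_neg hj]
      by_cases hi : (i : ℕ) ≤ Group.nilpotencyClass Q
      · rw [if_pos hi]; exact inf_le_left.trans hQ₁Q
      · rw [if_neg hi]
  · intro i
    have hi : (i : ℕ) ≤ Group.nilpotencyClass Q := Nat.lt_succ_iff.1 i.2
    show ⁅(if ((i.succ : Fin (Group.nilpotencyClass Q + 1 + 1)) : ℕ) ≤ Group.nilpotencyClass Q then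
      Q₁ ⊓ (Subgroup.upperCentralSeries Q ((i.succ : Fin (Group.nilpotencyClass Q + 1 + 1)) : ℕ)).map
        Q.subtype else Q), Q⁆ ≤
      (if ((i.castSucc : Fin (Group.nilpotencyClass Q + 1 + 1)) : ℕ) ≤ Group.nilpotencyClass Q then
      Q₁ ⊓ (Subgroup.upperCentralSeries Q ((i.castSucc : Fin (Group.nilpotencyClass Q + 1 + 1)) : ℕ)).map
        Q.subtype else Q)
    rw [Fin.val_succ, Fin.val_castSucc, if_pos hi]
    by_cases hi1 : (i : ℕ) + 1 ≤ Group.nilpotencyClass Q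
    · rw [if_pos hi1]
      refine le_inf ?_ ?_
      · exact (Subgroup.commutator_mono inf_le_left le_rfl).trans hcomm₁
      · have h2 : ⁅(Subgroup.upperCentralSeries Q ((i : ℕ) + 1)).map Q.subtype, Q⁆
            = Subgroup.map Q.subtype
              ⁅Subgroup.upperCentralSeries Q ((i : ℕ) + 1), (⊤ : Subgroup Q)⁆ := by
          rw [Subgroup.map_commutator, ← MonoidHom.range_eq_map, Subgroup.range_subtype]
        refine (Subgroup.commutator_mono inf_le_right le_rfl).trans ?_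
        rw [h2]
        exact Subgroup.map_mono (Subgroup.commutator_upperCentralSeries_top_le Q (i : ℕ))
    · rw [if_neg hi1]
      have hieq : (i : ℕ) = Group.nilpotencyClass Q := by omega
      rw [hieq, hclass]
      exact le_inf hab (hab.trans hQ₁Q)
  · intro i
    have hi : (i : ℕ) ≤ Group.nilpotencyClass Q := Nat.lt_succ_iff.1 i.2
    show F.WeaklyClosed
      (if ((i.castSucc : Fin (Group.nilpotencyClass Q + 1 + 1)) : ℕ) ≤ Group.nilpotencyClass Q then
      Q₁ ⊓ (Subgroup.upperCentralSeries Q ((i.castSucc : Fin (Group.nilpotencyClass Q + 1 + 1)) : ℕ)).map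
        Q.subtype else Q)
    rw [Fin.val_castSucc, if_pos hi]
    refine weaklyClosed_of_le hS F hF hQ₁ hAut inf_le_left (fun s hs x hx => ?_)
    exact ⟨hQ₁n s hs x hx.1, hZn _ s hs x hx.2⟩

end Cfsg.Agent.S5125
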