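import Mathlib
import Cfsg.Statements.S5126
import Cfsg.Agent.S5098
import Cfsg.Agent.Helper25.Realized2
import Cfsg.Agent.Helper26.FusNormal2
import Cfsg.Agent.Helper26.Alperin
-- import your own Cfsg.Agent.* helpers here

set_option autoImplicit false
open Cfsg

namespace Cfsg.Agent.S5126


open Cfsg.FusionSystem Cfsg.Agent.Helper26

theorem normal_in_normalizer {Ω : Type*} [Group Ω] {S : Subgroup Ω} (F : FusionSystem S)
    {R : Subgroup Ω} (hRS : R ≤ S) (E : FusionSystem (normalizerIn S R))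
    (hE : F.IsNormalizerSystem R E) : E.IsNormal R := by
  have hRN : R ≤ normalizerIn S R := le_normalizerIn hRS
  refine ⟨hRN, fun P φ hφ => ?_⟩
  rw [hE P] at hφ
  obtain ⟨hφF, hPN, hφN, ψ, hψ, hψa, hψR⟩ := hφ
  have hle : (P ⊔ R) ⊔ R ≤ P ⊔ R := sup_le le_rfl le_sup_right
  have hψN : ∀ z : ↥(P ⊔ R), ψ z ∈ normalizerIn S R := by
    apply sup_map_mem ψ
    · intro x hx
      have e : x = Subgroup.inclusion le_sup_left ⟨(x : Ω), hx⟩ := Subtype.ext rfl
      rw [e, hψa]; exact hφN _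
    · intro x hx
      exact hRN (normExt_mem_Q hψR x hx)
  refine ⟨ψ, ?_, hψa, hψR⟩
  rw [hE (P ⊔ R)]
  refine ⟨hψ, sup_le hPN hRN, hψN, ψ.comp (Subgroup.inclusion hle), fs_restrict F hle hψ,
    fun z => rfl, ?_⟩
  ext y
  constructor
  · rintro ⟨z, hz, rfl⟩
    exact normExt_mem_Q hψR _ (Subgroup.mem_subgroupOf.1 hz)
  · intro hy
    obtain ⟨x, hx, rfl⟩ := normExt_surj hψR hy
    exact ⟨Subgroup.inclusion le_sup_left x, Subgroup.mem_subgroupOf.2 hx, rfl⟩

theorem autGroup_le_normalizer {Ω : Type*} [Group Ω] {S : Subgroup Ω} (F : FusionSystem S)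
    {R : Subgroup Ω} (hRS : R ≤ S) (E : FusionSystem (normalizerIn S R))
    (hE : F.IsNormalizerSystem R E) : F.autGroup R ≤ E.autGroup R := by
  intro β hβ
  have hRN : R ≤ normalizerIn S R := le_normalizerIn hRS
  have hβF : R.subtype.comp β.toMonoidHom ∈ F.Hom R := (mem_autGroup_iff F hRS β).1 hβ
  apply (mem_autGroup_iff E hRN β).2
  show R.subtype.comp β.toMonoidHom ∈ E.Hom R
  rw [hE R]
  have hle : R ⊔ R ≤ R := sup_le le_rfl le_rfl
  refine ⟨hβF, hRN, fun x => hRN (β x).2,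
    (R.subtype.comp β.toMonoidHom).comp (Subgroup.inclusion hle), fs_restrict F hle hβF,
    fun x => rfl, ?_⟩
  ext y
  constructor
  · rintro ⟨z, hz, rfl⟩
    exact (β _).2
  · intro hy
    refine ⟨Subgroup.inclusion le_sup_left (β⁻¹ ⟨y, hy⟩),
      Subgroup.mem_subgroupOf.2 (β⁻¹ ⟨y, hy⟩).2, ?_⟩
    show ((β (Subgroup.inclusion hle (Subgroup.inclusion le_sup_left (β⁻¹ ⟨y, hy⟩))) : R) : Ω)
      = y
    have e : Subgroup.inclusion hle (Subgroup.inclusion le_sup_left (β⁻¹ ⟨y, hy⟩))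
        = β⁻¹ ⟨y, hy⟩ := Subtype.ext rfl
    rw [e, MulAut.apply_inv_self]

/-- In a saturated fusion system over a finite p-group S, the normalizer system of a fully normalized, centric, radical subgroup R is constrained, and in every model of that normalizer system the largest normal p-subgroup is the image of R. -/
theorem result {Ω : Type*} [Group Ω] {S : Subgroup Ω} [Finite S] (p : ℕ) [Fact p.Prime] (hS : IsPGroup p S) (F : Cfsg.FusionSystem S) (hF : F.IsSaturated p) (R : Subgroup Ω) (hRn : F.IsFullyNormalized R) (hRc : F.IsCentric R) (hRr : F.IsRadical p R) (E : Cfsg.FusionSystem (Cfsg.FusionSystem.normalizerIn S R)) (hE : F.IsNormalizerSystem R E) {G : Type*} [Group G] (ι : ↥(Cfsg.FusionSystem.normalizerIn S R) →* G) : E.IsConstrained p ∧ (E.IsModel p G ι → (Cfsg.pCore p G : Subgroup G) = (R.subgroupOf (Cfsg.FusionSystem.normalizerIn S R)).map ι) := by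
  have hRS := hRc.1
  have hRN : R ≤ normalizerIn S R := le_normalizerIn hRS
  have hNS : normalizerIn S R ≤ S := inf_le_left
  have : Finite ↥(normalizerIn S R) := finite_of_le hNS
  have hNp : IsPGroup p ↥(normalizerIn S R) := isPGroup_of_le hS hNS
  have hEsat : E.IsSaturated p := Cfsg.Agent.S5098.result p hS F hF R hRn E hE
  have hRnE : E.IsNormal R := normal_in_normalizer F hRS E hE
  have hRcent : centralizerIn S R ≤ R := hRc.2 _ (isConj_refl F hRS)
  have hRcE : E.IsCentric R := by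
    refine ⟨hRN, ?_⟩
    rintro Q' ⟨φ, hφ, rfl⟩
    rw [(weaklyClosed_of_stronglyClosed E (stronglyClosed_of_normal E hRnE)).2 φ hφ]
    intro x hx
    have hx' := mem_centralizerIn_iff.1 hx
    exact hRcent (mem_centralizerIn_iff.2 ⟨hNS hx'.1, hx'.2⟩)
  refine ⟨⟨hEsat, R, hRnE, hRcE⟩, ?_⟩
  rintro ⟨hfin, hreal, ⟨T, hT⟩, hcent⟩
  haveI := hfin
  have hOn : (pCore p G).Normal := pCore_normal' p G
  have hOT : pCore p G ≤ ι.range := by rw [← hT]; exact pCore_le_sylow' T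
  have hOp : IsPGroup p (pCore p G) := (T.isPGroup').to_le (pCore_le_sylow' T)
  apply le_antisymm
  · intro o ho
    obtain ⟨n, rfl⟩ := hOT ho
    refine ⟨n, ?_, rfl⟩
    show (n : Ω) ∈ R
    have hnN : (n : Ω) ∈ normalizerIn S R := n.2
    have hcg : conjAut R (n : Ω) hnN.2 ∈ F.autGroup R :=
      autInducedBy_le_autGroup F hRS (conjAut_mem S R _ hnN.1 hnN.2)
    let B : Subgroup (F.autGroup R) :=
      { carrier := {β | ∃ o ∈ pCore p G, ∀ x : R,
          ι ⟨((β : MulAut R) x : R), hRN ((β : MulAut R) x).2⟩ = o * ι ⟨x, hRN x.2⟩ * o⁻¹}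
        one_mem' := ⟨1, Subgroup.one_mem _, fun x => by
          rw [one_mul, inv_one, mul_one]; rfl⟩
        mul_mem' := by
          rintro α β ⟨o₁, ho₁, h₁⟩ ⟨o₂, ho₂, h₂⟩
          refine ⟨o₁ * o₂, Subgroup.mul_mem _ ho₁ ho₂, fun x => ?_⟩
          have h3 := h₁ ((β : MulAut R) x)
          rw [h₂] at h3
          show ι ⟨((α : MulAut R) ((β : MulAut R) x) : R), _⟩ = _
          rw [h3]; group
        inv_mem' := by
          rintro β ⟨o, ho, h⟩
          refine ⟨o⁻¹, Subgroup.inv_mem _ ho, fun x => ?_⟩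
          have h3 := h ((β : MulAut R)⁻¹ x)
          simp only [MulAut.apply_inv_self] at h3
          show ι ⟨((β : MulAut R)⁻¹ x : R), _⟩ = _
          rw [h3]; group }
    have hBn : B.Normal := by
      constructor
      rintro α ⟨o, ho, h⟩ γ
      have hγE : (γ : MulAut R) ∈ E.autGroup R := autGroup_le_normalizer F hRS E hE γ.2
      obtain ⟨g, hg⟩ := (Cfsg.Agent.Helper25.realized_mem_autGroup hreal hRN).1 hγE
      refine ⟨g * o * g⁻¹, hOn.conj_mem o ho g, fun x => ?_⟩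
      have h3 := hg ((α : MulAut R) ((γ : MulAut R)⁻¹ x))
      rw [h] at h3
      have h4 := hg ((γ : MulAut R)⁻¹ x)
      simp only [MulAut.apply_inv_self] at h4
      show ι ⟨((γ : MulAut R) ((α : MulAut R) ((γ : MulAut R)⁻¹ x)) : R), _⟩ = _
      rw [h3, h4]; group
    have hBp : IsPGroup p B := by
      rintro ⟨β, o, ho, h⟩
      obtain ⟨k, hk⟩ := hOp ⟨o, ho⟩
      have hk' : o ^ p ^ k = 1 := congrArg Subtype.val hk
      have hpow : ∀ (m : ℕ) (x : R), ι ⟨(((β : MulAut R) ^ m) x : R),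
          hRN (((β : MulAut R) ^ m) x).2⟩ = o ^ m * ι ⟨x, hRN x.2⟩ * (o ^ m)⁻¹ := by
        intro m
        induction m with
        | zero => intro x; rw [pow_zero, pow_zero, one_mul, inv_one, mul_one]; rfl
        | succ m ih =>
          intro x
          have h3 := h (((β : MulAut R) ^ m) x)
          rw [ih] at h3
          show ι ⟨((β : MulAut R) ^ (m + 1)) x, _⟩ = _
          have e : ((β : MulAut R) ^ (m + 1)) x = (β : MulAut R) (((β : MulAut R) ^ m) x) := by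
            rw [pow_succ']; rfl
          simp only [e]
          rw [h3, pow_succ']; group
      refine ⟨k, Subtype.ext (Subtype.ext ?_)⟩
      show (β : MulAut R) ^ p ^ k = 1
      apply MulEquiv.ext
      intro x
      show ((β : MulAut R) ^ p ^ k) x = x
      have h3 := hpow (p ^ k) x
      rw [hk', one_mul, inv_one, mul_one] at h3
      have h5 : ((((β : MulAut R) ^ p ^ k) x : R) : Ω) = (x : Ω) :=
        congrArg (fun z : ↥(normalizerIn S R) => (z : Ω)) (hreal.1 h3)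
      exact Subtype.ext h5
    have hmemB : (⟨conjAut R (n : Ω) hnN.2, hcg⟩ : F.autGroup R) ∈ B := by
      refine ⟨ι n, ho, fun x => ?_⟩
      have e : (⟨((conjAut R (n : Ω) hnN.2 x : R) : Ω), hRN (conjAut R (n : Ω) hnN.2 x).2⟩ :
          ↥(normalizerIn S R)) = n * ⟨x, hRN x.2⟩ * n⁻¹ := Subtype.ext rfl
      show ι ⟨((conjAut R (n : Ω) hnN.2 x : R) : Ω), _⟩ = _
      rw [e, map_mul, map_mul, map_inv]
    have hle := le_pCore' hBn hBp
    have h1 : conjAut R (n : Ω) hnN.2 ∈ (pCore p (F.autGroup R)).map (F.autGroup R).subtype :=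
      ⟨_, hle hmemB, rfl⟩
    rw [hRr.2] at h1
    exact mem_of_conjAut_mem_inn F hRc hnN h1
  · apply le_pCore' (N := (R.subgroupOf (normalizerIn S R)).map ι) ?_
      ((hNp.to_subgroup _).map ι)
    constructor
    rintro y ⟨r, hr, rfl⟩ g
    obtain ⟨Q, hQdef⟩ : ∃ Q : Subgroup Ω,
        Q = ((pCore p G).comap ι).map (normalizerIn S R).subtype := ⟨_, rfl⟩
    have hQN : Q ≤ normalizerIn S R := by rw [hQdef]; exact Subgroup.map_subtype_le _
    have hQle : ∀ y ∈ Q, y ∈ ((pCore p G).comap ι).map (normalizerIn S R).subtype := by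
      rw [hQdef]; exact fun y hy => hy
    have hQmem : ∀ x : Q, ι ⟨x, hQN x.2⟩ ∈ pCore p G := by
      intro x
      obtain ⟨n, hn, hnx⟩ := hQle _ x.2
      have e : (⟨(x : Ω), hQN x.2⟩ : ↥(normalizerIn S R)) = n := Subtype.ext hnx.symm
      rw [e]; exact hn
    have hg : ∀ x : Q, g * ι ⟨x, hQN x.2⟩ * g⁻¹ ∈ ι.range :=
      fun x => hOT (hOn.conj_mem _ (hQmem x) g)
    obtain ⟨φ, hφS, hφ, hφg⟩ := Cfsg.Agent.Helper25.realized_hom_of_conj hreal hQN g hg
    obtain ⟨ψ, hψ, hψa, hψR⟩ := hRnE.2 Q φ hφ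
    have hψN : ∀ z, ψ z ∈ normalizerIn S R := (E.le_of_mem hψ).2
    have hQR : Q ⊔ R ≤ normalizerIn S R := (E.le_of_mem hψ).1
    obtain ⟨h, hh⟩ := (hreal.2 (Q ⊔ R) hQR ψ hψN).1 hψ
    have hc : h⁻¹ * g ∈ pCore p G := by
      apply hcent
      rw [Subgroup.mem_centralizer_iff]
      intro o ho
      obtain ⟨n, rfl⟩ := hOT ho
      have hnQ : (n : Ω) ∈ Q := by rw [hQdef]; exact ⟨n, ho, rfl⟩
      have h1 : ι ⟨ψ (Subgroup.inclusion le_sup_left ⟨(n : Ω), hnQ⟩), hψN _⟩ = h * ι n * h⁻¹ :=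
        hh _
      have h2 : ι ⟨φ ⟨(n : Ω), hnQ⟩, hφS _⟩ = g * ι n * g⁻¹ := hφg _
      have e : (⟨ψ (Subgroup.inclusion le_sup_left ⟨(n : Ω), hnQ⟩), hψN _⟩ :
          ↥(normalizerIn S R)) = ⟨φ ⟨(n : Ω), hnQ⟩, hφS _⟩ := Subtype.ext (hψa _)
      have h3 : h * ι n * h⁻¹ = g * ι n * g⁻¹ := by rw [← h1, e, h2]
      calc ι n * (h⁻¹ * g) = h⁻¹ * (h * ι n * h⁻¹) * g := by group
        _ = h⁻¹ * (g * ι n * g⁻¹) * g := by rw [h3]
        _ = h⁻¹ * g * ι n := by group
    obtain ⟨c, hcdef⟩ := hOT hc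
    have hr' : ((c * r * c⁻¹ : ↥(normalizerIn S R)) : Ω) ∈ R :=
      ((mem_normalizerIn_iff.1 c.2).2 (r : Ω)).1 (Subgroup.mem_subgroupOf.1 hr)
    have h4 : ι ⟨ψ ⟨((c * r * c⁻¹ : ↥(normalizerIn S R)) : Ω), Subgroup.mem_sup_right hr'⟩,
        hψN _⟩ = h * ι (c * r * c⁻¹) * h⁻¹ := hh _
    have h5 : g * ι r * g⁻¹ = h * ι (c * r * c⁻¹) * h⁻¹ := by
      rw [map_mul, map_mul, map_inv, hcdef]; group
    rw [h5]
    exact ⟨⟨ψ ⟨_, Subgroup.mem_sup_right hr'⟩, hψN _⟩,
      Subgroup.mem_subgroupOf.2 (normExt_mem_Q hψR _ hr'), h4⟩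

end Cfsg.Agent.S5126
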