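import Mathlib
import Cfsg.Statements.S5135
import Cfsg.Agent.Helper26.FusImage
-- import your own Cfsg.Agent.* helpers here

set_option autoImplicit false
open Cfsg

namespace Cfsg.Agent.S5135

/-- Let G be a finite group, S a Sylow p-subgroup and H a normal subgroup of G. Then the fusion system of G/H on the image SH/H of S is the factor system of the fusion system of G on S modulo S ∩ H, read through the quotient map restricted to S: for each subgroup P' of SH/H, the conjugation maps by elements of G/H defined on P' with values in SH/H are exactly the homomorphisms induced by the conjugation maps by elements of G defined on the full preimage of P' in S with values in S. -/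
theorem result {G : Type*} [Group G] [Finite G] (p : ℕ) [Fact p.Prime] (S : Sylow p G) (H : Subgroup G) [H.Normal] : (Cfsg.groupFusionSystem (S : Subgroup G)).IsFactorSystem ((S : Subgroup G) ⊓ H) ((QuotientGroup.mk' H).comp (S : Subgroup G).subtype) (Cfsg.groupFusionSystem ((S : Subgroup G).map (QuotientGroup.mk' H))) := by
  have hrange : ((QuotientGroup.mk' H).comp (S : Subgroup G).subtype).range
      = (S : Subgroup G).map (QuotientGroup.mk' H) := by
    rw [MonoidHom.range_comp, Subgroup.range_subtype]
  refine ⟨inf_le_left, fun s => ?_, hrange, fun P' φ' => ?_⟩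
  · show (QuotientGroup.mk' H) (s : G) = 1 ↔ (s : G) ∈ (S : Subgroup G) ⊓ H
    rw [QuotientGroup.mk'_apply, QuotientGroup.eq_one_iff, Subgroup.mem_inf]
    exact ⟨fun h => ⟨s.2, h⟩, fun h => h.2⟩
  constructor
  · rintro ⟨hP', hφ'S, gbar, hg⟩
    refine ⟨hP', ?_⟩
    obtain ⟨g, rfl⟩ := QuotientGroup.mk'_surjective H gbar
    have hPS : Cfsg.FusionSystem.preimageAlong
        ((QuotientGroup.mk' H).comp (S : Subgroup G).subtype) P' ≤ S :=
      Helper26.preimageAlong_le _ P'
    have hAK : (Cfsg.FusionSystem.preimageAlong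
        ((QuotientGroup.mk' H).comp (S : Subgroup G).subtype) P').map (MulAut.conj g).toMonoidHom
        ≤ (S : Subgroup G) ⊔ H := by
      rintro _ ⟨x, hx, rfl⟩
      obtain ⟨hxS, hxP'⟩ := (Helper26.mem_preimageAlong _ P').1 hx
      have h1 := hφ'S ⟨_, hxP'⟩
      rw [hg] at h1
      obtain ⟨s, hs, hs'⟩ := h1
      have h4 : QuotientGroup.mk' H (s⁻¹ * (g * x * g⁻¹)) = 1 := by
        rw [map_mul, map_inv, hs', map_mul, map_mul, map_inv]
        exact inv_mul_cancel _
      have h2 : s⁻¹ * (g * x * g⁻¹) ∈ H := (QuotientGroup.eq_one_iff _).1 h4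
      have h3 : (MulAut.conj g).toMonoidHom x = s * (s⁻¹ * (g * x * g⁻¹)) := by
        show g * x * g⁻¹ = _
        group
      rw [h3]
      exact Subgroup.mul_mem _ (Subgroup.mem_sup_left hs) (Subgroup.mem_sup_right h2)
    have hAp : IsPGroup p ((Cfsg.FusionSystem.preimageAlong
        ((QuotientGroup.mk' H).comp (S : Subgroup G).subtype) P').map
          (MulAut.conj g).toMonoidHom) := (S.isPGroup'.to_le hPS).map _
    obtain ⟨k, hk, hkA⟩ := Helper26.exists_conj_mem_sylow_of_normal' S H _
      (fun g k hk => (inferInstance : H.Normal).conj_mem k hk g) hAK hAp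
    have hφS : ∀ x : Cfsg.FusionSystem.preimageAlong
        ((QuotientGroup.mk' H).comp (S : Subgroup G).subtype) P',
        Cfsg.conjHom _ (k * g) x ∈ (S : Subgroup G) := by
      intro x
      have := hkA _ ⟨x, x.2, rfl⟩
      have e : Cfsg.conjHom (Cfsg.FusionSystem.preimageAlong
          ((QuotientGroup.mk' H).comp (S : Subgroup G).subtype) P') (k * g) x
          = k * ((MulAut.conj g).toMonoidHom (x : G)) * k⁻¹ := by
        show k * g * x * (k * g)⁻¹ = k * (g * x * g⁻¹) * k⁻¹
        group
      rw [e]; exact this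
    refine ⟨Cfsg.conjHom _ (k * g), ⟨hPS, hφS, k * g, fun x => rfl⟩, hPS, hφS,
      fun x => ((Helper26.mem_preimageAlong _ P').1 x.2).2, fun x => ?_⟩
    rw [hg]
    show QuotientGroup.mk' H g * QuotientGroup.mk' H (x : G) * (QuotientGroup.mk' H g)⁻¹
      = QuotientGroup.mk' H (k * g * x * (k * g)⁻¹)
    have hk1 : QuotientGroup.mk' H k = 1 := (QuotientGroup.eq_one_iff k).2 hk
    rw [map_mul, map_mul, map_mul, map_inv, map_mul, hk1]
    group
  · rintro ⟨hP', φ, ⟨hP, hφS, g, hg⟩, hPS, hφS', hPP', hind⟩
    refine ⟨hP', fun y => ?_, QuotientGroup.mk' H g, fun y => ?_⟩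
    · obtain ⟨x, hx⟩ := Helper26.exists_preimage _ (le_of_le_of_eq hP' hrange.symm) y.2
      have e1 : y = ⟨_, hPP' x⟩ := Subtype.ext hx.symm
      rw [e1, hind x]
      exact Subgroup.mem_map_of_mem _ (hφS' x)
    · obtain ⟨x, hx⟩ := Helper26.exists_preimage _ (le_of_le_of_eq hP' hrange.symm) y.2
      have e1 : y = ⟨_, hPP' x⟩ := Subtype.ext hx.symm
      rw [e1, hind x]
      show QuotientGroup.mk' H (φ x)
        = QuotientGroup.mk' H g * QuotientGroup.mk' H (x : G) * (QuotientGroup.mk' H g)⁻¹
      rw [hg x, map_mul, map_mul, map_inv]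

end Cfsg.Agent.S5135
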