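import Mathlib
import Cfsg.Statements.S5136
import Cfsg.Agent.Helper26.FusNormal
-- import your own Cfsg.Agent.* helpers here

set_option autoImplicit false
open Cfsg

namespace Cfsg.Agent.S5136

variable {Ω₁ Ω₂ : Type*} [Group Ω₁] [Group Ω₂] {S₁ : Subgroup Ω₁} {S₂ : Subgroup Ω₂}

theorem fst_mem {P : Subgroup (Ω₁ × Ω₂)} (x : P) :
    (x : Ω₁ × Ω₂).1 ∈ P.map (MonoidHom.fst Ω₁ Ω₂) := Subgroup.mem_map.mpr ⟨_, x.2, rfl⟩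

theorem snd_mem {P : Subgroup (Ω₁ × Ω₂)} (x : P) :
    (x : Ω₁ × Ω₂).2 ∈ P.map (MonoidHom.snd Ω₁ Ω₂) := Subgroup.mem_map.mpr ⟨_, x.2, rfl⟩

def PrHom (F₁ : FusionSystem S₁) (F₂ : FusionSystem S₂) (P : Subgroup (Ω₁ × Ω₂))
    (φ : P →* Ω₁ × Ω₂) : Prop :=
  P ≤ S₁.prod S₂ ∧
      ∃ φ₁ ∈ F₁.Hom (P.map (MonoidHom.fst Ω₁ Ω₂)), ∃ φ₂ ∈ F₂.Hom (P.map (MonoidHom.snd Ω₁ Ω₂)),
        ∀ (x : P) (h₁ : (x : Ω₁ × Ω₂).1 ∈ P.map (MonoidHom.fst Ω₁ Ω₂))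
          (h₂ : (x : Ω₁ × Ω₂).2 ∈ P.map (MonoidHom.snd Ω₁ Ω₂)),
          φ x = (φ₁ ⟨(x : Ω₁ × Ω₂).1, h₁⟩, φ₂ ⟨(x : Ω₁ × Ω₂).2, h₂⟩)

def prodSys (F₁ : FusionSystem S₁) (F₂ : FusionSystem S₂) : FusionSystem (S₁.prod S₂) where
  Hom P := {φ | PrHom F₁ F₂ P φ}
  le_of_mem := by
    rintro P φ ⟨hP, φ₁, hφ₁, φ₂, hφ₂, h⟩
    refine ⟨hP, fun x => ?_⟩
    rw [h x (fst_mem x) (snd_mem x)]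
    exact Subgroup.mem_prod.mpr ⟨(F₁.le_of_mem hφ₁).2 _, (F₂.le_of_mem hφ₂).2 _⟩
  injective_of_mem := by
    rintro P φ ⟨hP, φ₁, hφ₁, φ₂, hφ₂, h⟩ a b hab
    rw [h a (fst_mem a) (snd_mem a), h b (fst_mem b) (snd_mem b)] at hab
    have e₁ := F₁.injective_of_mem hφ₁ (congrArg Prod.fst hab)
    have e₂ := F₂.injective_of_mem hφ₂ (congrArg Prod.snd hab)
    exact Subtype.ext (Prod.ext (congrArg Subtype.val e₁) (congrArg Subtype.val e₂))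
  conj_mem := by
    intro P g hP hg
    have hg' := Subgroup.mem_prod.mp hg
    refine ⟨hP, conjHom _ g.1, F₁.conj_mem ?_ hg'.1, conjHom _ g.2, F₂.conj_mem ?_ hg'.2,
      fun x h₁ h₂ => rfl⟩
    · rintro _ ⟨x, hx, rfl⟩
      exact (Subgroup.mem_prod.mp (hP hx)).1
    · rintro _ ⟨x, hx, rfl⟩
      exact (Subgroup.mem_prod.mp (hP hx)).2
  comp_mem := by
    rintro P Q φ ψ ⟨hP, φ₁, hφ₁, φ₂, hφ₂, hφ⟩ ⟨hQ, ψ₁, hψ₁, ψ₂, hψ₂, hψ⟩ h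
    have e₁ : ∀ x : P, (φ x).1 = φ₁ ⟨(x : Ω₁ × Ω₂).1, fst_mem x⟩ := fun x =>
      congrArg Prod.fst (hφ x (fst_mem x) (snd_mem x))
    have e₂ : ∀ x : P, (φ x).2 = φ₂ ⟨(x : Ω₁ × Ω₂).2, snd_mem x⟩ := fun x =>
      congrArg Prod.snd (hφ x (fst_mem x) (snd_mem x))
    have h₁' : ∀ y : ↥(P.map (MonoidHom.fst Ω₁ Ω₂)), φ₁ y ∈ Q.map (MonoidHom.fst Ω₁ Ω₂) := by
      rintro ⟨_, x, hx, rfl⟩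
      exact Subgroup.mem_map.mpr ⟨φ ⟨x, hx⟩, h ⟨x, hx⟩, e₁ ⟨x, hx⟩⟩
    have h₂' : ∀ y : ↥(P.map (MonoidHom.snd Ω₁ Ω₂)), φ₂ y ∈ Q.map (MonoidHom.snd Ω₁ Ω₂) := by
      rintro ⟨_, x, hx, rfl⟩
      exact Subgroup.mem_map.mpr ⟨φ ⟨x, hx⟩, h ⟨x, hx⟩, e₂ ⟨x, hx⟩⟩
    refine ⟨hP, _, F₁.comp_mem hφ₁ hψ₁ h₁', _, F₂.comp_mem hφ₂ hψ₂ h₂', fun x k₁ k₂ => ?_⟩
    have q₁ : ψ₁ ⟨(φ x).1, fst_mem (⟨φ x, h x⟩ : Q)⟩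
        = ψ₁ ⟨φ₁ ⟨(x : Ω₁ × Ω₂).1, k₁⟩, h₁' _⟩ := congrArg ψ₁ (Subtype.ext (e₁ x))
    have q₂ : ψ₂ ⟨(φ x).2, snd_mem (⟨φ x, h x⟩ : Q)⟩
        = ψ₂ ⟨φ₂ ⟨(x : Ω₁ × Ω₂).2, k₂⟩, h₂' _⟩ := congrArg ψ₂ (Subtype.ext (e₂ x))
    show ψ ⟨φ x, h x⟩ = _
    rw [hψ ⟨φ x, h x⟩ (fst_mem _) (snd_mem _)]
    exact Prod.ext q₁ q₂
  inv_mem := by
    rintro P φ ⟨hP, φ₁, hφ₁, φ₂, hφ₂, hφ⟩
    have e₁ : ∀ x : P, (φ x).1 = φ₁ ⟨(x : Ω₁ × Ω₂).1, fst_mem x⟩ := fun x =>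
      congrArg Prod.fst (hφ x (fst_mem x) (snd_mem x))
    have e₂ : ∀ x : P, (φ x).2 = φ₂ ⟨(x : Ω₁ × Ω₂).2, snd_mem x⟩ := fun x =>
      congrArg Prod.snd (hφ x (fst_mem x) (snd_mem x))
    have hN₁ : φ₁.range = φ.range.map (MonoidHom.fst Ω₁ Ω₂) := by
      ext y
      constructor
      · rintro ⟨⟨_, x, hx, rfl⟩, rfl⟩
        exact Subgroup.mem_map.mpr ⟨φ ⟨x, hx⟩, ⟨⟨x, hx⟩, rfl⟩, e₁ ⟨x, hx⟩⟩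
      · rintro ⟨_, ⟨x, rfl⟩, rfl⟩
        exact ⟨⟨(x : Ω₁ × Ω₂).1, fst_mem x⟩, (e₁ x).symm⟩
    have hN₂ : φ₂.range = φ.range.map (MonoidHom.snd Ω₁ Ω₂) := by
      ext y
      constructor
      · rintro ⟨⟨_, x, hx, rfl⟩, rfl⟩
        exact Subgroup.mem_map.mpr ⟨φ ⟨x, hx⟩, ⟨⟨x, hx⟩, rfl⟩, e₂ ⟨x, hx⟩⟩
      · rintro ⟨_, ⟨x, rfl⟩, rfl⟩
        exact ⟨⟨(x : Ω₁ × Ω₂).2, snd_mem x⟩, (e₂ x).symm⟩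
    obtain ⟨χ₁, hχ₁, hχ₁'⟩ := Helper26.exists_inv_hom F₁ hφ₁ hN₁
    obtain ⟨χ₂, hχ₂, hχ₂'⟩ := Helper26.exists_inv_hom F₂ hφ₂ hN₂
    let π₁ : φ.range →* ↥(φ.range.map (MonoidHom.fst Ω₁ Ω₂)) :=
      ((MonoidHom.fst Ω₁ Ω₂).comp φ.range.subtype).codRestrict _ (fun y => fst_mem y)
    let π₂ : φ.range →* ↥(φ.range.map (MonoidHom.snd Ω₁ Ω₂)) :=
      ((MonoidHom.snd Ω₁ Ω₂).comp φ.range.subtype).codRestrict _ (fun y => snd_mem y)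
    refine ⟨(χ₁.comp π₁).prod (χ₂.comp π₂), ⟨?_, χ₁, hχ₁, χ₂, hχ₂, fun y k₁ k₂ => rfl⟩,
      fun x => ?_⟩
    · rintro _ ⟨x, rfl⟩
      rw [hφ x (fst_mem x) (snd_mem x)]
      exact Subgroup.mem_prod.mpr ⟨(F₁.le_of_mem hφ₁).2 _, (F₂.le_of_mem hφ₂).2 _⟩
    · have q₁ : χ₁ (π₁ ⟨φ x, ⟨x, rfl⟩⟩) = (x : Ω₁ × Ω₂).1 := by
        have hm : φ₁ ⟨(x : Ω₁ × Ω₂).1, fst_mem x⟩ ∈ φ.range.map (MonoidHom.fst Ω₁ Ω₂) := by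
          rw [← e₁ x]; exact fst_mem (⟨φ x, ⟨x, rfl⟩⟩ : φ.range)
        have t := hχ₁' ⟨(x : Ω₁ × Ω₂).1, fst_mem x⟩ hm
        have u : π₁ ⟨φ x, ⟨x, rfl⟩⟩ = ⟨φ₁ ⟨(x : Ω₁ × Ω₂).1, fst_mem x⟩, hm⟩ :=
          Subtype.ext (e₁ x)
        rw [u]; exact t
      have q₂ : χ₂ (π₂ ⟨φ x, ⟨x, rfl⟩⟩) = (x : Ω₁ × Ω₂).2 := by
        have hm : φ₂ ⟨(x : Ω₁ × Ω₂).2, snd_mem x⟩ ∈ φ.range.map (MonoidHom.snd Ω₁ Ω₂) := by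
          rw [← e₂ x]; exact snd_mem (⟨φ x, ⟨x, rfl⟩⟩ : φ.range)
        have t := hχ₂' ⟨(x : Ω₁ × Ω₂).2, snd_mem x⟩ hm
        have u : π₂ ⟨φ x, ⟨x, rfl⟩⟩ = ⟨φ₂ ⟨(x : Ω₁ × Ω₂).2, snd_mem x⟩, hm⟩ :=
          Subtype.ext (e₂ x)
        rw [u]; exact t
      exact Prod.ext q₁ q₂

/-- Let F₁ and F₂ be fusion systems over finite p-groups S₁ and S₂ (inside ambient groups Ω₁ and Ω₂). Then their direct product exists: there is a fusion system over S₁ × S₂ inside Ω₁ × Ω₂ whose maps with source P ≤ S₁ × S₂ are exactly the restrictions to P of the homomorphisms (x₁, x₂) ↦ (φ₁ x₁, φ₂ x₂) with φ₁ a map of F₁ on the first projection of P and φ₂ a map of F₂ on the second projection. -/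
theorem result {Ω₁ Ω₂ : Type*} [Group Ω₁] [Group Ω₂] {S₁ : Subgroup Ω₁} {S₂ : Subgroup Ω₂} [Finite S₁] [Finite S₂] (p : ℕ) [Fact p.Prime] (h₁ : IsPGroup p S₁) (h₂ : IsPGroup p S₂) (F₁ : Cfsg.FusionSystem S₁) (F₂ : Cfsg.FusionSystem S₂) : ∃ E : Cfsg.FusionSystem (S₁.prod S₂), Cfsg.FusionSystem.IsProductSystem F₁ F₂ E := by
  exact ⟨prodSys F₁ F₂, fun P φ => Iff.rfl⟩

end Cfsg.Agent.S5136
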