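import Cfsg.Statements.S5137
import Cfsg.Agent.Helper25.ProdSat

set_option autoImplicit false
open Cfsg

namespace Cfsg.Agent.S5137

open Cfsg.FusionSystem Cfsg.Agent.Helper26

/-- Let F₁ and F₂ be saturated fusion systems over finite p-groups S₁ and S₂. Then their direct product (the fusion system over S₁ × S₂ whose maps are the restrictions of the product maps (φ₁, φ₂)) is saturated. -/
theorem result {Ω₁ Ω₂ : Type*} [Group Ω₁] [Group Ω₂] {S₁ : Subgroup Ω₁} {S₂ : Subgroup Ω₂} [Finite S₁] [Finite S₂] (p : ℕ) [Fact p.Prime] (h₁ : IsPGroup p S₁) (h₂ : IsPGroup p S₂) (F₁ : Cfsg.FusionSystem S₁) (F₂ : Cfsg.FusionSystem S₂) (hF₁ : F₁.IsSaturated p) (hF₂ : F₂.IsSaturated p) (E : Cfsg.FusionSystem (S₁.prod S₂)) (hE : Cfsg.FusionSystem.IsProductSystem F₁ F₂ E) : E.IsSaturated p := by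
  intro P hP
  have hP₁ : P.map (MonoidHom.fst Ω₁ Ω₂) ≤ S₁ := by
    rintro _ ⟨x, hx, rfl⟩
    exact (hP hx).1
  have hP₂ : P.map (MonoidHom.snd Ω₁ Ω₂) ≤ S₂ := by
    rintro _ ⟨x, hx, rfl⟩
    exact (hP hx).2
  obtain ⟨Q₁, hc₁, hfa₁, hr₁⟩ := hF₁ _ hP₁
  obtain ⟨Q₂, hc₂, hfa₂, hr₂⟩ := hF₂ _ hP₂
  obtain ⟨D, hD, hPD⟩ := Helper25.exists_embD_conj hE hP hc₁ hc₂
  have hQ₁ := hr₁.1
  have hQ₂ := hr₂.1
  haveI : Finite Q₁ := finite_of_le hQ₁
  haveI : Finite Q₂ := finite_of_le hQ₂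
  have hTA : (autInducedBy S₁ Q₁).prod (autInducedBy S₂ Q₂)
      ≤ (F₁.autGroup Q₁).prod (F₂.autGroup Q₂) :=
    Subgroup.prod_mono (autInducedBy_le_autGroup F₁ hQ₁) (autInducedBy_le_autGroup F₂ hQ₂)
  have hTp : IsPGroup p ((autInducedBy S₁ Q₁).prod (autInducedBy S₂ Q₂)) :=
    Helper25.isPGroup_prod (isPGroup_autInducedBy h₁ Q₁) (isPGroup_autInducedBy h₂ Q₂)
  have hc1 := (Helper25.isSylowIn_iff_card (autInducedBy_le_autGroup F₁ hQ₁)).1 hfa₁.2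
  have hc2 := (Helper25.isSylowIn_iff_card (autInducedBy_le_autGroup F₂ hQ₂)).1 hfa₂.2
  have hT : Nat.card ((autInducedBy S₁ Q₁).prod (autInducedBy S₂ Q₂))
      = p ^ (Nat.card ((F₁.autGroup Q₁).prod (F₂.autGroup Q₂))).factorization p := by
    rw [Nat.card_congr (Subgroup.prodEquiv _ _).toEquiv, Nat.card_prod,
      Nat.card_congr (Subgroup.prodEquiv (F₁.autGroup Q₁) (F₂.autGroup Q₂)).toEquiv, Nat.card_prod,
      Nat.factorization_mul Nat.card_pos.ne' Nat.card_pos.ne', Finsupp.add_apply, pow_add,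
      hc1, hc2]
  obtain ⟨a, haA, hcard⟩ := Helper25.exists_aD_sylow hTA hTp hT D
  exact ⟨Helper25.embD (Helper25.aD a D),
    isConj_trans E hPD (Helper25.isConj_aD hE hQ₁ hQ₂ D hD haA),
    Helper25.embD_fullyAutomized h₁ h₂ hE hQ₁ hQ₂ _ (Helper25.fullProj_aD hD) hcard,
    Helper25.embD_receptive hE hr₁ hr₂ _ (Helper25.fullProj_aD hD)⟩

end Cfsg.Agent.S5137
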