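import Cfsg.Statements.S5139
import Cfsg.Agent.S5093

set_option autoImplicit false
open Cfsg

namespace Cfsg.Agent.S5139

open Cfsg.FusionSystem Cfsg.Agent.Helper26

/-- A saturated subsystem of `F` over `T` lies in every subsystem of `p`-power index over `T`. -/
theorem ppower_le {Ω : Type*} [Group Ω] {S : Subgroup Ω} [Finite S] {p : ℕ} [Fact p.Prime]
    (hS : IsPGroup p S) (F : FusionSystem S) {T : Subgroup Ω} (hTS : T ≤ S)
    (E E' : FusionSystem T) (hEs : E.IsSaturated p) (hEF : E.IsSubsystemOf F)
    (hE' : E'.HasPPowerIndexIn F p) : E ≤ E' := by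
  have hfT : Finite T := finite_of_le hTS
  have hTp := isPGroup_of_le hS hTS
  apply alperin hTp E hEs
  intro Q hn ha hr hc hrad γ hγ
  have hQT := hr.1
  have : Finite Q := finite_of_le (hQT.trans hTS)
  obtain ⟨-, R, hR⟩ := ha
  obtain ⟨β, hβ, c, hc', hγβc⟩ := exists_mul_pResidual_sylow R ⟨γ, hγ⟩
  rw [hR] at hc'
  have hc'' : (c : MulAut Q) ∈ autInducedBy T Q := Subgroup.mem_subgroupOf.1 hc'
  have hγeq0 := Subtype.ext_iff.1 hγβc
  have hγeq : γ = (β : MulAut Q) * (c : MulAut Q) := hγeq0
  rw [hγeq]
  refine Subgroup.mul_mem _ ?_ (autInducedBy_le_autGroup E' hQT hc'')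
  have hAut : E.autGroup Q ≤ F.autGroup Q := by
    apply Subgroup.closure_mono
    intro δ hδ
    exact hEF Q hδ
  have h1 := S5124.map_pResidual_mem p (Subgroup.inclusion hAut) hβ
  exact hE'.2.2 Q hQT ⟨_, h1, rfl⟩

/-- `F_{S ∩ O^p(G)}(O^p(G))` has `p`-power index in `F_S(G)`. -/
theorem sub_ppower {G : Type*} [Group G] [Finite G] (p : ℕ) [Fact p.Prime] (S : Sylow p G)
    (h : (S : Subgroup G) ⊓ pResidual p G ≤ pResidual p G) :
    (fusionSystemOfSubgroup (pResidual p G) ((S : Subgroup G) ⊓ pResidual p G) h).HasPPowerIndexIn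
      (groupFusionSystem (S : Subgroup G)) p := by
  refine ⟨?_, S5093.fwd p S, ?_⟩
  · rintro P φ ⟨h1, h2, g, -, hg⟩
    exact ⟨h1.trans inf_le_left, fun x => (h2 x).1, g, hg⟩
  · intro P hP
    have hPS : P ≤ (S : Subgroup G) := hP.trans inf_le_left
    rintro _ ⟨α, hα, rfl⟩
    have hle : pResidual p ((groupFusionSystem (S : Subgroup G)).autGroup P) ≤
        ((fusionSystemOfSubgroup (pResidual p G) ((S : Subgroup G) ⊓ pResidual p G) h).autGroup
          P).comap ((groupFusionSystem (S : Subgroup G)).autGroup P).subtype := by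
      show Subgroup.closure _ ≤ _
      rw [Subgroup.closure_le]
      intro a ha
      have hco : Nat.Coprime (orderOf (a : MulAut P)) p := by
        rw [Subgroup.orderOf_coe]; exact ha
      have ha' : (a : MulAut P) ∈ autInducedBy ⊤ P := by
        rw [← Helper25.autGroup_groupFusionSystem hPS]; exact a.2
      obtain ⟨g, -, hg⟩ := Helper25.mem_autInducedBy_iff.1 ha'
      obtain ⟨N, haN, hNco⟩ := S5120.exists_pow_coprime p g (a : MulAut P) hco
      have hgN : g ^ N ∈ pResidual p G := Subgroup.subset_closure hNco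
      show (a : MulAut P) ∈ (fusionSystemOfSubgroup (pResidual p G)
        ((S : Subgroup G) ⊓ pResidual p G) h).autGroup P
      apply Subgroup.subset_closure
      refine ⟨hP, fun x => hP ((a : MulAut P) x).2, g ^ N, hgN, fun x => ?_⟩
      have h1 := autInducedBy_pow hg N x
      rw [haN] at h1
      exact h1
    exact hle hα

theorem key {G : Type*} [Group G] [Finite G] (p : ℕ) [Fact p.Prime] (S : Sylow p G)
    (T : Subgroup G) (hT : T = (S : Subgroup G) ⊓ pResidual p G)
    (h : (S : Subgroup G) ⊓ pResidual p G ≤ pResidual p G) (E : FusionSystem T)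
    (hEs : E.IsSaturated p) (hEi : E.HasPPowerIndexIn (groupFusionSystem (S : Subgroup G)) p) :
    ∀ P : Subgroup G, E.Hom P
      = (fusionSystemOfSubgroup (pResidual p G) ((S : Subgroup G) ⊓ pResidual p G) h).Hom P := by
  subst hT
  haveI hN : (pResidual p G).Normal := pResidual_normal'' p G
  have hSp : IsPGroup p (S : Subgroup G) := S.isPGroup'
  have hF₀s := Helper25.fusionSystemOfSubgroup_isSaturated p (pResidual p G)
    ((S : Subgroup G) ⊓ pResidual p G) h (Helper25.card_sylow_inf_normal S (pResidual p G))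
  have hF₀i := sub_ppower p S h
  have h1 := ppower_le hSp (groupFusionSystem (S : Subgroup G)) inf_le_left E _ hEs hEi.1 hF₀i
  have h2 := ppower_le hSp (groupFusionSystem (S : Subgroup G)) inf_le_left _ E hF₀s hF₀i.1 hEi
  intro P
  exact Set.Subset.antisymm (h1 P) (h2 P)

/-- Let G be a finite group with Sylow p-subgroup S and O^p(G) the subgroup generated by the elements of order prime to p. Then the p-residual subsystem of the fusion system of G on S — the saturated subsystem of p-power index over the hyperfocal subgroup — is the fusion system of O^p(G) on S ∩ O^p(G): its maps are exactly the conjugation maps by elements of O^p(G) between subgroups of S ∩ O^p(G). -/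
theorem result {G : Type*} [Group G] [Finite G] (p : ℕ) [Fact p.Prime] (S : Sylow p G) (E : Cfsg.FusionSystem ((Cfsg.groupFusionSystem (S : Subgroup G)).hyperfocalSubgroup p)) (hE : (Cfsg.groupFusionSystem (S : Subgroup G)).IsPResidual p E) : ∃ h : (S : Subgroup G) ⊓ Cfsg.pResidual p G ≤ Cfsg.pResidual p G, ∀ P : Subgroup G, E.Hom P = (Cfsg.fusionSystemOfSubgroup (Cfsg.pResidual p G) ((S : Subgroup G) ⊓ Cfsg.pResidual p G) h).Hom P := by
  exact ⟨inf_le_right, key p S _ (S5093.result p S) inf_le_right E hE.1 hE.2⟩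

end Cfsg.Agent.S5139
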