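import Cfsg.Statements.S5153
import Cfsg.Agent.Helper26.FusSat

set_option autoImplicit false
open Cfsg

namespace Cfsg.Agent.S5153

open Cfsg.FusionSystem Cfsg.Agent.Helper26

/-- A subgroup of a strongly closed `T` that is fully normalized in the saturated system `F` is fully
normalized in every subsystem of `F` over `T`. -/
theorem fn_sub {Ω : Type*} [Group Ω] {S : Subgroup Ω} [Finite S] {p : ℕ} [Fact p.Prime]
    (hS : IsPGroup p S) (F : FusionSystem S) (hF : F.IsSaturated p) {T : Subgroup Ω}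
    (E : FusionSystem T) (hE : E.IsSubsystemOf F) (hT : F.StronglyClosed T) {P : Subgroup Ω}
    (hPT : P ≤ T) (hP : F.IsFullyNormalized P) : E.IsFullyNormalized P := by
  refine ⟨hPT, fun Q hQ => ?_⟩
  obtain ⟨φ, hφ, hφQ⟩ := hQ
  have hconj : F.IsConj Q P := isConj_symm F ⟨φ, hE P hφ, hφQ⟩
  obtain ⟨-, hPa, hPr⟩ := sat_of_fullyNormalized hS F hF hP
  obtain ⟨ψ, hψ, e, he, hψe, hψN⟩ := exists_normalizer_map hS F hPa hPr hconj
  have hTS : T ≤ S := hT.1
  have hle : normalizerIn T Q ≤ normalizerIn S Q := inf_le_inf_right _ hTS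
  have hleT : normalizerIn T Q ≤ T := inf_le_left
  have hmem : ∀ x : normalizerIn T Q, ψ (Subgroup.inclusion hle x) ∈ normalizerIn T P := by
    intro x
    rw [mem_normalizerIn_iff]
    exact ⟨hT.2 (normalizerIn T Q) hleT _ (fs_restrict F hle hψ) x,
      (mem_normalizerIn_iff.1 (hψN _)).2⟩
  have : Finite (normalizerIn T P) := finite_of_le (S := S) ((inf_le_left : normalizerIn T P ≤ T).trans hTS)
  refine Nat.card_le_card_of_injective
    (fun x => (⟨ψ (Subgroup.inclusion hle x), hmem x⟩ : normalizerIn T P)) ?_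
  intro a b hab
  have h1 : ψ (Subgroup.inclusion hle a) = ψ (Subgroup.inclusion hle b) := congrArg Subtype.val hab
  exact Subgroup.inclusion_injective hle (F.injective_of_mem hψ h1)

theorem sub_aux {Ω : Type*} [Group Ω] {T : Subgroup Ω} {E : FusionSystem T} {S : Subgroup Ω}
    {F : FusionSystem S} {p : ℕ} (h : E.IsSubnormalIn F p) :
    T ≤ S ∧ ∀ [Fact p.Prime], Finite S → IsPGroup p S → F.IsSaturated p →
      ∀ P : Subgroup Ω, P ≤ T → F.IsFullyNormalized P → E.IsFullyNormalized P := by
  induction h with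
  | @refl F p => exact ⟨le_rfl, fun _ _ _ _ _ h => h⟩
  | @step U S E D F p hED hDF ih =>
    obtain ⟨hTU, ih⟩ := ih
    have hUS : U ≤ S := hDF.1.2.2.2.1.1
    refine ⟨hTU.trans hUS, fun hfin hS hF P hPT hP => ?_⟩
    have := hfin
    have : Finite U := finite_of_le hUS
    exact ih (finite_of_le hUS) (isPGroup_of_le hS hUS) hDF.1.1 P hPT
      (fn_sub hS F hF D hDF.1.2.2.1 hDF.1.2.2.2.1 (hPT.trans hTU) hP)

/-- Let F be a saturated fusion system over a finite p-group S and E a subnormal subsystem of F over T. Then every subgroup of T that is fully normalized in F is fully normalized in E. -/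
theorem result {Ω : Type*} [Group Ω] {S : Subgroup Ω} [Finite S] (p : ℕ) [Fact p.Prime] (hS : IsPGroup p S) (F : Cfsg.FusionSystem S) (hF : F.IsSaturated p) {T : Subgroup Ω} (E : Cfsg.FusionSystem T) (hE : E.IsSubnormalIn F p) (P : Subgroup Ω) (hPT : P ≤ T) (hP : F.IsFullyNormalized P) : E.IsFullyNormalized P :=
  (sub_aux hE).2 ‹Finite S› hS hF P hPT hP

end Cfsg.Agent.S5153
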