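import Mathlib
import Cfsg.Statements.S5199
import Cfsg.Agent.Helper26.FusRes
-- import your own Cfsg.Agent.* helpers here

set_option autoImplicit false
open Cfsg

namespace Cfsg.Agent.S5199

/-- Let F be a saturated fusion system over a finite p-group S, E a normal subsystem of F over T, and F₀ a normal subsystem of F over a subgroup U containing both T and the hyperfocal subgroup of F, such that F₀ has p-power index in F. Then E is a subsystem of F₀. -/
theorem result {Ω : Type*} [Group Ω] {S : Subgroup Ω} [Finite S] (p : ℕ) [Fact p.Prime] (hS : IsPGroup p S) (F : Cfsg.FusionSystem S) (hF : F.IsSaturated p) {T U : Subgroup Ω} (E : Cfsg.FusionSystem T) (hE : E.IsNormalIn F p) (F₀ : Cfsg.FusionSystem U) (hF₀ : F₀.IsNormalIn F p) (hU : T ⊔ F.hyperfocalSubgroup p ≤ U) (hidx : F₀.HasPPowerIndexIn F p) : E.IsSubsystemOf F₀ := by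
  obtain ⟨⟨hEsat, -, hEF, hTsc, -, -⟩, -⟩ := hE
  obtain ⟨hF₀F, -, hidx'⟩ := hidx
  have hTS : T ≤ S := hTsc.1
  have hTU : T ≤ U := le_sup_left.trans hU
  have hT₀ : F₀.StronglyClosed T := ⟨hTU, fun R hR φ hφ x => hTsc.2 R hR φ (hF₀F R hφ) x⟩
  haveI : Finite T := Helper26.finite_of_le hTS
  refine Helper26.le_of_pResidual_le (Helper26.isPGroup_of_le hS hTS) E hEsat F₀ hT₀ ?_
  intro Q hQT b hb
  have hbE : Helper26.IsIso E (b : MulAut Q) := (Helper26.mem_autGroup_iff E hQT _).1 b.2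
  have hbF : (b : MulAut Q) ∈ F.autGroup Q := Subgroup.subset_closure (hEF Q hbE)
  refine hidx' Q (hQT.trans hTU) ⟨⟨b, hbF⟩, Subgroup.subset_closure ?_, rfl⟩
  show Nat.Coprime (orderOf (⟨(b : MulAut Q), hbF⟩ : F.autGroup Q)) p
  have h1 : orderOf (⟨(b : MulAut Q), hbF⟩ : F.autGroup Q) = orderOf b := by
    rw [← Subgroup.orderOf_coe, ← Subgroup.orderOf_coe b]
  rw [h1]; exact hb

end Cfsg.Agent.S5199
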