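import Mathlib
import Cfsg.Statements.S5222
import Cfsg.Agent.Helper26.NormInner
-- import your own Cfsg.Agent.* helpers here

set_option autoImplicit false
open Cfsg

namespace Cfsg.Agent.S5222

open Cfsg.FusionSystem Cfsg.Agent.Helper26

/-- Let F be a saturated fusion system over a finite p-group S whose normalizer fusion system of S is the inner fusion system of S (Aut_F(S) is a p-group). Then for every subgroup Q of S with [S, S] ≤ Q ≤ Φ(S), the normalizer fusion system of Q in F is the inner fusion system of N_S(Q) = S. -/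
theorem result {Ω : Type*} [Group Ω] {S : Subgroup Ω} [Finite S] (p : ℕ) [Fact p.Prime] (hS : IsPGroup p S) (F : Cfsg.FusionSystem S) (hF : F.IsSaturated p) (hN : ∀ N : Cfsg.FusionSystem (Cfsg.FusionSystem.normalizerIn S S), F.IsNormalizerSystem S N → ∀ P : Subgroup Ω, N.Hom P = (Cfsg.innerFusionSystem (Cfsg.FusionSystem.normalizerIn S S)).Hom P) (Q : Subgroup Ω) (h1 : (commutator ↥S).map S.subtype ≤ Q) (h2 : Q ≤ (frattini ↥S).map S.subtype) : ∀ N : Cfsg.FusionSystem (Cfsg.FusionSystem.normalizerIn S Q), F.IsNormalizerSystem Q N → ∀ P : Subgroup Ω, N.Hom P = (Cfsg.innerFusionSystem (Cfsg.FusionSystem.normalizerIn S Q)).Hom P := by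
  classical
  have hSn : ∀ g ∈ S, ∀ x ∈ S, g * x * g⁻¹ ∈ S :=
    fun g hg x hx => S.mul_mem (S.mul_mem hg hx) (S.inv_mem hg)
  have H0 : ∀ θ ∈ F.Hom S, ∃ g ∈ S, ∀ x : S, θ x = g * (x : Ω) * g⁻¹ := by
    intro θ hθ
    have hN0 := hN (normalizerSys F S le_rfl hSn)
      (isNormalizerSystem_normalizerSys F S le_rfl hSn) S
    have hmem : θ ∈ (normalizerSys F S le_rfl hSn).Hom S := by
      show θ ∈ F.normalizerHom S S
      have hθS : ∀ x : S, θ x ∈ S := (F.le_of_mem hθ).2
      have hle : S ⊔ S ≤ S := sup_le le_rfl le_rfl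
      refine ⟨hθ, le_normalizerIn le_rfl, fun x => le_normalizerIn le_rfl (hθS x),
        θ.comp (Subgroup.inclusion hle), fs_restrict F hle hθ, fun x => rfl, ?_⟩
      ext y
      constructor
      · rintro ⟨z, -, rfl⟩
        exact hθS _
      · intro hy
        have hinj : Function.Injective (fun s : ↥S => (⟨θ s, hθS s⟩ : ↥S)) :=
          fun a b hab => F.injective_of_mem hθ (congrArg Subtype.val hab)
        obtain ⟨s, hs⟩ := Finite.surjective_of_injective hinj ⟨y, hy⟩
        refine ⟨⟨s, Subgroup.mem_sup_left s.2⟩, Subgroup.mem_subgroupOf.mpr s.2, ?_⟩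
        exact congrArg Subtype.val hs
    rw [hN0] at hmem
    obtain ⟨-, g, hg, hgx⟩ := hmem
    exact ⟨g, (mem_normalizerIn_iff.mp hg).1, hgx⟩
  intro N hNQ P
  have hQS : Q ≤ S := h2.trans (Subgroup.map_subtype_le _)
  have hQn : ∀ g ∈ S, ∀ x ∈ Q, g * x * g⁻¹ ∈ Q := normal_of_commutator_le hQS h1
  have hSN : S ≤ normalizerIn S Q := le_normalizerIn_of_normal hQn
  ext φ
  constructor
  · intro hφ
    rw [hNQ P] at hφ
    obtain ⟨hφF, hPN, hφN, ψ, hψ, hψa, hψQ⟩ := hφ
    have hPS : P ≤ S := hPN.trans inf_le_left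
    obtain ⟨g, hg, hgx⟩ := hom_inner_of_frattini hS F hF H0 Q h1 h2 _ (P ⊔ Q) rfl le_sup_right
      (sup_le hPS hQS) ψ hψ (fun x hx => normExt_mem_Q hψQ x hx)
    exact ⟨hPN, g, hSN hg, fun x => (hψa x).symm.trans (hgx _)⟩
  · rintro ⟨hPN, g, hg, hgx⟩
    exact fs_conj N hPN hg hgx

end Cfsg.Agent.S5222
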