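import Mathlib
import Cfsg.Statements.S5223
import Cfsg.Agent.Helper26.FusNormal
import Cfsg.Agent.S5083
-- import your own Cfsg.Agent.* helpers here

set_option autoImplicit false
open Cfsg

namespace Cfsg.Agent.S5223

theorem key {Ω : Type*} [Group Ω] {S : Subgroup Ω} [Finite S] (p : ℕ) [Fact p.Prime]
    (hS : IsPGroup p S) (F : Cfsg.FusionSystem S) (n : ℕ) (Q : Fin (n + 1) → Subgroup Ω)
    (hQ0 : Q 0 = S) (hQn : Q (Fin.last n) = ⊥)
    (hstep : ∀ i : Fin n, Subgroup.closure {y : Ω | ∃ x ∈ Q i.castSucc,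
      ∃ φ ∈ F.Hom (Subgroup.zpowers x), y = x⁻¹ * φ ⟨x, Subgroup.mem_zpowers x⟩} ≤ Q i.succ)
    (P : Subgroup Ω) (hP : P ≤ S) (β : MulAut P) (hβ : β ∈ F.autGroup P) (m : ℕ)
    (hm : Nat.Coprime m p) (hβm : β ^ m = 1) : β = 1 := by
  have hβ' := (Helper26.mem_autGroup_iff F hP β).1 hβ
  have main : ∀ i : Fin (n + 1), ∀ x : P, (x : Ω) ∈ Q i → β x = x := by
    intro i
    induction i using Fin.reverseInduction with
    | last =>
      intro x hx
      rw [hQn, Subgroup.mem_bot] at hx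
      have : x = 1 := Subtype.ext hx
      rw [this, map_one]
    | cast i ih =>
      intro x hx
      have hzP : Subgroup.zpowers (x : Ω) ≤ P := by
        rw [Subgroup.zpowers_le]; exact x.2
      have hφ : (P.subtype.comp β.toMonoidHom).comp (Subgroup.inclusion hzP)
          ∈ F.Hom (Subgroup.zpowers (x : Ω)) := Helper26.fs_restrict F hzP hβ'
      have hy : (x : Ω)⁻¹ * ((β x : P) : Ω) ∈ Q i.succ := by
        apply hstep i
        apply Subgroup.subset_closure
        exact ⟨x, hx, _, hφ, rfl⟩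
      obtain ⟨y, hydef⟩ : ∃ y : P, y = x⁻¹ * β x := ⟨_, rfl⟩
      have hyQ : (y : Ω) ∈ Q i.succ := by rw [hydef]; exact hy
      have hβy : β y = y := ih y hyQ
      have hβx : β x = x * y := by rw [hydef]; group
      have h1 := Helper26.aut_pow_apply_of_fixed β x y hβx hβy m
      rw [hβm, MulAut.one_apply] at h1
      have hym : y ^ m = 1 := mul_left_cancel (h1.symm.trans (mul_one x).symm)
      obtain ⟨j, hj⟩ := (Helper26.isPGroup_of_le hS hP) y
      have h2 : orderOf y ∣ m := orderOf_dvd_of_pow_eq_one hym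
      have h3 : orderOf y ∣ p ^ j := orderOf_dvd_of_pow_eq_one hj
      have h4 : orderOf y = 1 :=
        Nat.Coprime.eq_one_of_dvd (Nat.Coprime.coprime_dvd_left h2 (Nat.Coprime.pow_right j hm)) h3
      have hy1 : y = 1 := orderOf_eq_one_iff.1 h4
      rw [hβx, hy1, mul_one]
  ext x
  have := main 0 x (by rw [hQ0]; exact hP x.2)
  rw [this]; rfl

/-- Let F be a saturated fusion system over a finite p-group S. Suppose there are subgroups Q₀ = S, Q₁, …, Qₙ = 1 (not required to be nested) such that for each i < n the focal subgroup of Qᵢ (generated by the elements x⁻¹φ(x), x ∈ Qᵢ, φ a map of F defined on the cyclic group generated by x) lies in Qᵢ₊₁. Then F is the inner fusion system of S. -/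
theorem result {Ω : Type*} [Group Ω] {S : Subgroup Ω} [Finite S] (p : ℕ) [Fact p.Prime] (hS : IsPGroup p S) (F : Cfsg.FusionSystem S) (hF : F.IsSaturated p) (n : ℕ) (Q : Fin (n + 1) → Subgroup Ω) (hQ0 : Q 0 = S) (hQn : Q (Fin.last n) = ⊥) (hstep : ∀ i : Fin n, Subgroup.closure {y : Ω | ∃ x ∈ Q i.castSucc, ∃ φ ∈ F.Hom (Subgroup.zpowers x), y = x⁻¹ * φ ⟨x, Subgroup.mem_zpowers x⟩} ≤ Q i.succ) : ∀ P : Subgroup Ω, F.Hom P = (Cfsg.innerFusionSystem S).Hom P := by
  have hp : ∀ P : Subgroup Ω, P ≤ S → IsPGroup p (F.autGroup P) := by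
    intro P hP
    have : Finite P := Helper26.finite_of_le hP
    rintro ⟨α, hα⟩
    have hpos : orderOf α ≠ 0 := (orderOf_pos α).ne'
    obtain ⟨k, m, hm, hkm⟩ :=
      Nat.exists_eq_pow_mul_and_not_dvd hpos p (Fact.out : p.Prime).ne_one
    refine ⟨k, Subtype.ext ?_⟩
    show α ^ p ^ k = 1
    apply key p hS F n Q hQ0 hQn hstep P hP (α ^ p ^ k) (Subgroup.pow_mem _ hα _) m
    · exact (Nat.Coprime.symm ((Nat.Prime.coprime_iff_not_dvd Fact.out).2 hm))
    · rw [← pow_mul, ← hkm, pow_orderOf_eq_one]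
  have h := Cfsg.Agent.S5083.result p hS F hF hp
  intro P
  rw [h]

end Cfsg.Agent.S5223
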