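import Mathlib
import Cfsg.Statements.S5226
import Cfsg.Agent.Helper26.FusNormal2
-- import your own Cfsg.Agent.* helpers here

set_option autoImplicit false
open Cfsg

namespace Cfsg.Agent.S5226

/-- Let F be a saturated fusion system over a finite p-group S and Q a subgroup of S. Then Q is normal in F (F equals the normalizer system of Q) if and only if Q is strongly closed in F and admits a central series 1 = Q₀ ≤ Q₁ ≤ ⋯ ≤ Qₙ = Q ([Qᵢ₊₁, Q] ≤ Qᵢ) all of whose proper terms are weakly closed in F. -/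
theorem result {Ω : Type*} [Group Ω] {S : Subgroup Ω} [Finite S] (p : ℕ) [Fact p.Prime] (hS : IsPGroup p S) (F : Cfsg.FusionSystem S) (hF : F.IsSaturated p) (Q : Subgroup Ω) : F.IsNormal Q ↔ F.StronglyClosed Q ∧ ∃ (n : ℕ) (C : Fin (n + 1) → Subgroup Ω), C 0 = ⊥ ∧ C (Fin.last n) = Q ∧ Monotone C ∧ (∀ i : Fin n, ⁅C i.succ, Q⁆ ≤ C i.castSucc) ∧ ∀ i : Fin n, F.WeaklyClosed (C i.castSucc) := by
  constructor
  · intro hQ
    obtain ⟨n, C, h0, hn, hmono, hcomm, hsc⟩ := Helper26.exists_central_chain hS F hQ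
    exact ⟨Helper26.stronglyClosed_of_normal F hQ, n, C, h0, hn, hmono, hcomm,
      fun i => Helper26.weaklyClosed_of_stronglyClosed F (hsc i.castSucc)⟩
  · rintro ⟨hQ, n, C, h0, hn, hmono, hcomm, hwc⟩
    exact Helper26.normal_of_chain hS F hF hQ n C h0 hn hmono hcomm hwc

end Cfsg.Agent.S5226
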