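import Mathlib
import Cfsg.Statements.S5247
import Cfsg.Agent.Helper25.PStable
import Cfsg.Agent.S5096

set_option autoImplicit false
open Cfsg

namespace Cfsg.Agent.S5247

open Cfsg.FusionSystem Cfsg.Agent.Helper25

/-- Let p be an odd prime and F a saturated fusion system over a finite p-group S. Call a fusion system E (over any subgroup) p-stable when, for every fully E-normalized subgroup Q and every χ ∈ Aut_E(Q) with χ(a⁻¹)·a·χ(a⁻¹)·χ(χ(a)) = 1 for all a ∈ Q (χ acts quadratically), χ lies in O_p(Aut_E(Q)). Then F is p-stable if and only if every normalizer fusion system N_F(R) of every non-cyclic fully F-normalized subgroup R of S is p-stable. -/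
theorem result {Ω : Type*} [Group Ω] {S : Subgroup Ω} [Finite S] (p : ℕ) [Fact p.Prime] (hS : IsPGroup p S) (F : Cfsg.FusionSystem S) (hF : F.IsSaturated p) (hp : p ≠ 2) : (∀ Q : Subgroup Ω, F.IsFullyNormalized Q → ∀ χ : MulAut ↥Q, χ ∈ F.autGroup Q → (∀ a : ↥Q, (χ a⁻¹) * a * (χ a⁻¹) * (χ (χ a)) = 1) → χ ∈ ((Cfsg.pCore p ↥(F.autGroup Q)).map (F.autGroup Q).subtype : Subgroup (MulAut ↥Q))) ↔ ∀ R : Subgroup Ω, F.IsFullyNormalized R → ¬ IsCyclic ↥R → ∀ N : Cfsg.FusionSystem (Cfsg.FusionSystem.normalizerIn S R), F.IsNormalizerSystem R N → (∀ Q : Subgroup Ω, N.IsFullyNormalized Q → ∀ χ : MulAut ↥Q, χ ∈ N.autGroup Q → (∀ a : ↥Q, (χ a⁻¹) * a * (χ a⁻¹) * (χ (χ a)) = 1) → χ ∈ ((Cfsg.pCore p ↥(N.autGroup Q)).map (N.autGroup Q).subtype : Subgroup (MulAut ↥Q))) := by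
  constructor
  · intro hst R hR hRnc N hN Q hQ χ hχ hq
    have hQN : Q ≤ normalizerIn S R := hQ.1
    have hQS : Q ≤ S := hQN.trans inf_le_left
    have hle : N.autGroup Q ≤ F.autGroup Q := by
      apply Subgroup.closure_mono
      intro α hα
      have h1 : Q.subtype.comp α.toMonoidHom ∈ N.Hom Q := hα
      rw [hN Q] at h1
      exact h1.1
    have h1 := fstable_all (F := F) (p := p) hst hQS (hle hχ) hq
    exact mem_pCoreMap_of_le hle hχ h1
  · intro h Q hQ χ hχ hq
    have hQS : Q ≤ S := hQ.1
    haveI : Finite Q := Finite.of_injective (Subgroup.inclusion hQS) (Subgroup.inclusion_injective hQS)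
    by_cases hcyc : IsCyclic Q
    · have hcomm : ∀ a b : ↥(F.autGroup Q), a * b = b * a := by
        intro a b
        apply Subtype.ext
        show (a : MulAut Q) * (b : MulAut Q) = (b : MulAut Q) * (a : MulAut Q)
        apply (IsCyclic.mulAutMulEquiv Q).injective
        rw [map_mul, map_mul, mul_comm]
      obtain ⟨n, hn⟩ := IsPGroup.iff_card.1 (hS.to_le hQS)
      have hpow : (⟨χ, hχ⟩ : F.autGroup Q) ^ (p ^ n) = 1 := by
        apply Subtype.ext
        show χ ^ (p ^ n) = 1
        rw [← hn]; exact quad_pow_card hq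
      exact ⟨⟨χ, hχ⟩, mem_pCore_of_comm hcomm hpow, rfl⟩
    · have hNsys : F.IsNormalizerSystem Q (S5096.normalizerSystem F Q hQS) := fun _ => rfl
      have hQN : Q ≤ normalizerIn S Q := fun x hx => ⟨hQS hx, Subgroup.le_normalizer hx⟩
      haveI : Finite ↥(normalizerIn S Q) :=
        Finite.of_injective (Subgroup.inclusion (inf_le_left : normalizerIn S Q ≤ S))
          (Subgroup.inclusion_injective _)
      have hfn : (S5096.normalizerSystem F Q hQS).IsFullyNormalized Q := by
        refine ⟨hQN, fun Q' _ => ?_⟩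
        have e : normalizerIn (normalizerIn S Q) Q = normalizerIn S Q := by
          apply le_antisymm inf_le_left
          intro x hx; exact ⟨hx, hx.2⟩
        rw [e]
        exact Subgroup.card_le_of_le inf_le_left
      have heq : (S5096.normalizerSystem F Q hQS).autGroup Q = F.autGroup Q := by
        apply le_antisymm
        · apply Subgroup.closure_mono
          intro α hα
          have h1 : Q.subtype.comp α.toMonoidHom ∈ (S5096.normalizerSystem F Q hQS).Hom Q := hα
          rw [hNsys Q] at h1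
          exact h1.1
        · intro α hα
          have hα' : Q.subtype.comp α.toMonoidHom ∈ F.Hom Q :=
            (Helper26.mem_autGroup_iff F hQS α).1 hα
          apply Subgroup.subset_closure
          show Q.subtype.comp α.toMonoidHom ∈ (S5096.normalizerSystem F Q hQS).Hom Q
          rw [hNsys Q]
          refine ⟨hα', hQN, fun x => hQN (α x).2, ?_⟩
          refine ⟨(Q.subtype.comp α.toMonoidHom).comp
            (Subgroup.inclusion (sup_le le_rfl le_rfl : Q ⊔ Q ≤ Q)),
            Helper26.fs_restrict F _ hα', fun x => rfl, ?_⟩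
          ext y
          constructor
          · rintro ⟨x, -, rfl⟩
            exact (α _).2
          · intro hy
            refine ⟨⟨(α.symm ⟨y, hy⟩ : Q), (le_sup_left : Q ≤ Q ⊔ Q) (α.symm ⟨y, hy⟩).2⟩,
              Subgroup.mem_subgroupOf.2 (α.symm ⟨y, hy⟩).2, ?_⟩
            show ((α (α.symm ⟨y, hy⟩) : Q) : Ω) = y
            rw [MulEquiv.apply_symm_apply]
      have hχN : χ ∈ (S5096.normalizerSystem F Q hQS).autGroup Q := by rw [heq]; exact hχ
      have h1 := h Q hQ hcyc _ hNsys Q hfn χ hχN hq
      rw [pCoreMap_congr heq] at h1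
      exact h1

end Cfsg.Agent.S5247
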