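import Mathlib
import Cfsg.Statements.S5251
import Cfsg.Agent.Helper26.FusCentric
-- import your own Cfsg.Agent.* helpers here

set_option autoImplicit false
open Cfsg

namespace Cfsg.Agent.S5251

/-- Let F be a saturated fusion system over a finite p-group S, E a normal subsystem of F over T, and P an F-centric subgroup of S such that P ∩ T is not E-centric. Then some F-conjugate P* of P satisfies Out_S(P*) ∩ O_p(Out_F(P*)) ≠ 1: there is an element of N_S(P*) outside P* whose conjugation action on P* lies in O_p(Aut_F(P*)). In particular P is not both centric and radical in F. -/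
theorem result {Ω : Type*} [Group Ω] {S : Subgroup Ω} [Finite S] (p : ℕ) [Fact p.Prime] (hS : IsPGroup p S) (F : Cfsg.FusionSystem S) (hF : F.IsSaturated p) {T : Subgroup Ω} (E : Cfsg.FusionSystem T) (hE : E.IsNormalIn F p) (P : Subgroup Ω) (hP : F.IsCentric P) (hPT : ¬ E.IsCentric (P ⊓ T)) : (∃ φ ∈ F.Hom P, ∃ x ∈ S ⊓ Subgroup.normalizer (φ.range : Set Ω), x ∉ φ.range ∧ ∃ α ∈ ((Cfsg.pCore p ↥(F.autGroup φ.range)).map (F.autGroup φ.range).subtype : Subgroup (MulAut ↥φ.range)), ∀ y : ↥φ.range, ((α y : ↥φ.range) : Ω) = x * (y : Ω) * x⁻¹) ∧ ¬ F.IsRadical p P := by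
  obtain ⟨⟨hEs, -, hsub, hT, -, -⟩, -⟩ := hE
  obtain ⟨φ, hφ, x, hxN, hxP, hxT, hxc⟩ := Helper26.centric_aux hS F hF E hsub hT P hP hPT
  have hPsS : φ.range ≤ S := by rintro _ ⟨y, rfl⟩; exact (F.le_of_mem hφ).2 y
  have hTn := Helper26.stronglyClosed_conj F hT
  have hα : Helper26.conjAut φ.range x hxN.2 ∈ F.autGroup φ.range :=
    Helper26.autInducedBy_le_autGroup F hPsS (Helper26.conjAut_mem S φ.range x hxN.1 hxN.2)
  have hαcore : Helper26.conjAut φ.range x hxN.2 ∈
      ((Cfsg.pCore p ↥(F.autGroup φ.range)).map (F.autGroup φ.range).subtype :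
        Subgroup (MulAut ↥φ.range)) := by
    apply Helper26.mem_pCore_of_stab hS F hT hPsS hα
    · intro y hy
      exact Subtype.ext (hxc y y.2 hy)
    · intro y
      show (y : Ω)⁻¹ * (x * (y : Ω) * x⁻¹) ∈ T
      have e : (y : Ω)⁻¹ * (x * (y : Ω) * x⁻¹) = ((y : Ω)⁻¹ * x * (y : Ω)⁻¹⁻¹) * x⁻¹ := by group
      rw [e]
      exact T.mul_mem (hTn _ (S.inv_mem (hPsS y.2)) x hxT) (T.inv_mem hxT)
  refine ⟨⟨φ, hφ, x, hxN, hxP, _, hαcore, fun y => rfl⟩, ?_⟩
  intro hrad
  obtain ⟨e, he, hex⟩ := Helper26.exists_iso_of_hom F hφ rfl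
  have haF : (e.trans (Helper26.conjAut φ.range x hxN.2)).trans e.symm ∈ F.autGroup P := by
    rw [Helper26.mem_autGroup_iff F hP.1]
    exact (he.trans ((Helper26.mem_autGroup_iff F hPsS _).1 hα)).trans he.symm
  have hacore : (e.trans (Helper26.conjAut φ.range x hxN.2)).trans e.symm ∈
      ((Cfsg.pCore p ↥(F.autGroup P)).map (F.autGroup P).subtype : Subgroup (MulAut P)) := by
    apply Helper26.mem_pCore_of_stab hS F hT hP.1 haF
    · intro y hy
      have h1 : ((e y : φ.range) : Ω) ∈ T := Helper26.stronglyClosed_iso F hT he y hy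
      have h2 : Helper26.conjAut φ.range x hxN.2 (e y) = e y := Subtype.ext (hxc _ (e y).2 h1)
      show e.symm (Helper26.conjAut φ.range x hxN.2 (e y)) = y
      rw [h2, MulEquiv.symm_apply_apply]
    · intro y
      have h1 : (((e y)⁻¹ * Helper26.conjAut φ.range x hxN.2 (e y) : φ.range) : Ω) ∈ T := by
        show ((e y : φ.range) : Ω)⁻¹ * (x * ((e y : φ.range) : Ω) * x⁻¹) ∈ T
        have e' : ((e y : φ.range) : Ω)⁻¹ * (x * ((e y : φ.range) : Ω) * x⁻¹)
            = (((e y : φ.range) : Ω)⁻¹ * x * ((e y : φ.range) : Ω)⁻¹⁻¹) * x⁻¹ := by group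
        rw [e']
        exact T.mul_mem (hTn _ (S.inv_mem (hPsS (e y).2)) x hxT) (T.inv_mem hxT)
      have h2 := Helper26.stronglyClosed_iso F hT he.symm _ h1
      have e'' : (y : Ω)⁻¹ * ((e.symm (Helper26.conjAut φ.range x hxN.2 (e y)) : P) : Ω)
          = ((e.symm ((e y)⁻¹ * Helper26.conjAut φ.range x hxN.2 (e y)) : P) : Ω) := by
        rw [map_mul, map_inv, MulEquiv.symm_apply_apply, Subgroup.coe_mul, Subgroup.coe_inv]
      show (y : Ω)⁻¹ * ((e.symm (Helper26.conjAut φ.range x hxN.2 (e y)) : P) : Ω) ∈ T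
      rw [e'']; exact h2
  rw [hrad.2] at hacore
  obtain ⟨u, hu⟩ := hacore
  have hinn : Helper26.conjAut φ.range x hxN.2 ∈ Cfsg.Inn φ.range := by
    refine ⟨e u, ?_⟩
    apply MulEquiv.ext
    intro y
    have h1 : ((e.trans (Helper26.conjAut φ.range x hxN.2)).trans e.symm) (e.symm y)
        = MulAut.conj u (e.symm y) := by rw [hu]
    have h2 : e.symm (Helper26.conjAut φ.range x hxN.2 (e (e.symm y))) = u * e.symm y * u⁻¹ := h1
    rw [MulEquiv.apply_symm_apply] at h2
    have h3 := congrArg e h2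
    rw [MulEquiv.apply_symm_apply, map_mul, map_mul, map_inv, MulEquiv.apply_symm_apply] at h3
    show e u * y * (e u)⁻¹ = _
    exact h3.symm
  have hcen : F.IsCentric φ.range :=
    ⟨hPsS, fun Q hQ => hP.2 Q (Helper26.isConj_trans F he.isConj hQ)⟩
  exact hxP (Helper26.mem_of_conjAut_mem_inn F hcen hxN hinn)

end Cfsg.Agent.S5251
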