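import Mathlib
import Cfsg.Statements.S5255
import Cfsg.Agent.Helper26.FusCover
-- import your own Cfsg.Agent.* helpers here

set_option autoImplicit false
open Cfsg

namespace Cfsg.Agent.S5255

/-- Let F be a saturated fusion system over a finite p-group S and T a subgroup of S strongly closed in F. Then T·C_S(T) is strongly closed in F. -/
theorem result {Ω : Type*} [Group Ω] {S : Subgroup Ω} [Finite S] (p : ℕ) [Fact p.Prime] (hS : IsPGroup p S) (F : Cfsg.FusionSystem S) (hF : F.IsSaturated p) (T : Subgroup Ω) (hT : F.StronglyClosed T) : F.StronglyClosed (T ⊔ Cfsg.FusionSystem.centralizerIn S T) := by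
  refine ⟨sup_le hT.1 inf_le_left, fun R hR φ hφ x => ?_⟩
  obtain ⟨ψ, hψ, hc⟩ := Helper26.cover hS F hF hT hφ
  have hnorm : ∀ a ∈ T, ∀ q ∈ FusionSystem.centralizerIn S T,
      a * q * a⁻¹ ∈ FusionSystem.centralizerIn S T := by
    intro a ha q hq
    rw [(Helper26.mem_centralizerIn_iff.1 hq).2 a ha, mul_inv_cancel_right]
    exact hq
  obtain ⟨t, ht, c, hcc, hxtc⟩ := Helper26.mem_sup_of_normalizes (P := T)
    (Q := FusionSystem.centralizerIn S T) hnorm (hR x.2)
  have hcent : (ψ ⟨t, Subgroup.mem_sup_right ht⟩)⁻¹ * ψ (Subgroup.inclusion le_sup_left x) ∈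
      FusionSystem.centralizerIn S T := by
    rw [Helper26.mem_centralizerIn_iff]
    refine ⟨S.mul_mem (S.inv_mem ((F.le_of_mem hψ).2 _)) ((F.le_of_mem hψ).2 _), fun w hw => ?_⟩
    obtain ⟨s, hs, rfl⟩ := Helper26.sc_map_surj F hT hψ hw
    have e : Subgroup.inclusion le_sup_left x * s * (Subgroup.inclusion le_sup_left x)⁻¹ =
        (⟨t, Subgroup.mem_sup_right ht⟩ : ↥(R ⊔ T)) * s * (⟨t, Subgroup.mem_sup_right ht⟩)⁻¹ := by
      apply Subtype.ext
      show (x : Ω) * s * (x : Ω)⁻¹ = t * s * t⁻¹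
      rw [hxtc]
      have hcs : (s : Ω) * c = c * s := (Helper26.mem_centralizerIn_iff.1 hcc).2 s hs
      calc t * c * s * (t * c)⁻¹ = t * (c * s) * c⁻¹ * t⁻¹ := by group
        _ = t * (s * c) * c⁻¹ * t⁻¹ := by rw [hcs]
        _ = t * s * t⁻¹ := by group
    have e2 := congrArg ψ e
    simp only [map_mul, map_inv] at e2
    calc ψ s * ((ψ ⟨t, Subgroup.mem_sup_right ht⟩)⁻¹ * ψ (Subgroup.inclusion le_sup_left x))
        = (ψ ⟨t, Subgroup.mem_sup_right ht⟩)⁻¹ * (ψ ⟨t, Subgroup.mem_sup_right ht⟩ * ψ s *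
            (ψ ⟨t, Subgroup.mem_sup_right ht⟩)⁻¹) * ψ (Subgroup.inclusion le_sup_left x) := by
          group
      _ = (ψ ⟨t, Subgroup.mem_sup_right ht⟩)⁻¹ * (ψ (Subgroup.inclusion le_sup_left x) * ψ s *
            (ψ (Subgroup.inclusion le_sup_left x))⁻¹) * ψ (Subgroup.inclusion le_sup_left x) := by
          rw [e2]
      _ = (ψ ⟨t, Subgroup.mem_sup_right ht⟩)⁻¹ * ψ (Subgroup.inclusion le_sup_left x) * ψ s := by
          group
  have hy : ψ (Subgroup.inclusion le_sup_left x) ∈ T ⊔ FusionSystem.centralizerIn S T := by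
    have h1 : ψ (Subgroup.inclusion le_sup_left x) = ψ ⟨t, Subgroup.mem_sup_right ht⟩ *
        ((ψ ⟨t, Subgroup.mem_sup_right ht⟩)⁻¹ * ψ (Subgroup.inclusion le_sup_left x)) := by
      rw [mul_inv_cancel_left]
    rw [h1]
    exact Subgroup.mul_mem _ (Subgroup.mem_sup_left (Helper26.sc_map_mem F hT hψ _ ht))
      (Subgroup.mem_sup_right hcent)
  have h2 : φ x = ψ (Subgroup.inclusion le_sup_left x) *
      ((φ x)⁻¹ * ψ (Subgroup.inclusion le_sup_left x))⁻¹ := by group
  rw [h2]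
  exact Subgroup.mul_mem _ hy (Subgroup.mem_sup_left (T.inv_mem (hc x)))

end Cfsg.Agent.S5255
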