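import Mathlib
import Cfsg.Statements.S5274
import Cfsg.Agent.Helper26.CamHerz
-- import your own Cfsg.Agent.* helpers here

set_option autoImplicit false
open Cfsg

namespace Cfsg.Agent.S5274

open Cfsg.FusionSystem Cfsg.Agent.Helper26

/-- Let F be a saturated fusion system over a finite 2-group S. Suppose that every element of S is F-conjugate to an element of the centre Z(S) (some map of F defined on the cyclic subgroup it generates sends it into Z(S)). Then S is abelian. -/
theorem result {Ω : Type*} [Group Ω] {S : Subgroup Ω} [Finite S] (hS : IsPGroup 2 ↥S) (F : Cfsg.FusionSystem S) (hF : F.IsSaturated 2) (h : ∀ x ∈ S, ∃ z ∈ S ⊓ Subgroup.centralizer (S : Set Ω), F.IsConjElt x z) : IsMulCommutative ↥S := by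
  have h' : ∀ x ∈ S, ∃ z ∈ centralizerIn S S, F.IsConjElt x z := h
  have hK := ch_all_invCen hS F hF h'
  have hic : ∀ x ∈ S, x ^ 2 = 1 → x ∈ centralizerIn S S := by
    intro x hx hx2
    refine mem_centralizerIn_iff.2 ⟨hx, fun s hs => ?_⟩
    obtain ⟨k, hk⟩ := hS ⟨s, hs⟩
    have hsk : s ^ 2 ^ k = 1 := congrArg Subtype.val hk
    exact ((mem_invCen.1 (hK k s hs hsk)).2 x hx hx2).symm
  have hab := ch_abelian hS F hF h' hic
  refine ⟨⟨fun a b => ?_⟩⟩
  apply Subtype.ext
  exact (mem_centralizerIn_iff.1 (hab b b.2)).2 a a.2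

end Cfsg.Agent.S5274
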