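import Cfsg.Statements.S5281
import Mathlib
import Cfsg.Agent.Helper25.PStableCR
import Cfsg.Agent.S5096

set_option autoImplicit false
open Cfsg

namespace Cfsg.Agent.S5281

open Cfsg.FusionSystem Cfsg.Agent.Helper25

theorem stable_of_cr {Ω : Type*} [Group Ω] {S : Subgroup Ω} [Finite S] (p : ℕ) [Fact p.Prime]
    (hS : IsPGroup p ↥S) (F : Cfsg.FusionSystem S) (hF : F.IsSaturated p)
    (H : ∀ R : Subgroup Ω, F.IsFullyNormalized R → F.IsCentric R → F.IsRadical p R →
      ∀ N : Cfsg.FusionSystem (Cfsg.FusionSystem.normalizerIn S R), F.IsNormalizerSystem R N →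
        FStable N p) :
    ∀ n : ℕ, ∀ Q R : Subgroup Ω, R ≤ S → Nat.card S - Nat.card R = n → ExtAut F Q R →
      ∀ χ : MulAut Q, χ ∈ F.autGroup Q → Quad χ →
        χ ∈ (Cfsg.pCore p ↥(F.autGroup Q)).map (F.autGroup Q).subtype := by
  intro n
  induction n using Nat.strong_induction_on with
  | _ n ih =>
    intro Q R hRS hn hExt χ hχ hq
    obtain ⟨R₁, hconj, hfn⟩ := Helper26.exists_fullyNormalized_conj F hRS
    obtain ⟨e, he⟩ := (Helper26.isConj_iff F).1 hconj
    have hR₁S : R₁ ≤ S := hfn.1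
    obtain ⟨Q₁, θ, hθ, hExt₁⟩ := extAut_transport F hExt e he
    have hχ₁ := autGroup_congr_mem F hθ hχ
    have hq₁ := quad_congr θ hq
    suffices h1 : MulAut.congr θ χ ∈ (Cfsg.pCore p ↥(F.autGroup Q₁)).map (F.autGroup Q₁).subtype by
      obtain ⟨b, hb, hbχ⟩ := h1
      have eb : b = autGroupEquiv F hθ ⟨χ, hχ⟩ := Subtype.ext hbχ
      rw [eb] at hb
      exact ⟨⟨χ, hχ⟩, (mem_pCore_of_equiv _).1 hb, rfl⟩
    obtain ⟨-, hRa, hRr⟩ := Helper26.sat_of_fullyNormalized hS F hF hfn
    by_cases hplus : plusSub F p R₁ = R₁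
    · obtain ⟨hc, hr⟩ := centric_radical_of_plusSub_eq hS F hRa hRr hplus
      have hNsys : F.IsNormalizerSystem R₁ (S5096.normalizerSystem F R₁ hR₁S) := fun _ => rfl
      have hst := H R₁ hfn hc hr _ hNsys
      obtain ⟨hQR, hext⟩ := hExt₁
      have hRN : R₁ ≤ normalizerIn S R₁ := fun x hx => ⟨hR₁S hx, Subgroup.le_normalizer hx⟩
      have hQN : Q₁ ≤ normalizerIn S R₁ := hQR.trans hRN
      have hQS : Q₁ ≤ S := hQR.trans hR₁S
      haveI : Finite ↥(normalizerIn S R₁) :=
        Finite.of_injective (Subgroup.inclusion (inf_le_left : normalizerIn S R₁ ≤ S))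
          (Subgroup.inclusion_injective _)
      have heq : (S5096.normalizerSystem F R₁ hR₁S).autGroup Q₁ = F.autGroup Q₁ := by
        apply le_antisymm
        · apply Subgroup.closure_mono
          intro α hα
          have h1 : Q₁.subtype.comp α.toMonoidHom ∈ (S5096.normalizerSystem F R₁ hR₁S).Hom Q₁ := hα
          rw [hNsys Q₁] at h1
          exact h1.1
        · intro α hα
          have hα' : Q₁.subtype.comp α.toMonoidHom ∈ F.Hom Q₁ :=
            (Helper26.mem_autGroup_iff F hQS α).1 hα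
          obtain ⟨β, hβ, hβα⟩ := hext α hα
          have hβ' : R₁.subtype.comp β.toMonoidHom ∈ F.Hom R₁ :=
            (Helper26.mem_autGroup_iff F hR₁S β).1 hβ
          apply Subgroup.subset_closure
          show Q₁.subtype.comp α.toMonoidHom ∈ (S5096.normalizerSystem F R₁ hR₁S).Hom Q₁
          rw [hNsys Q₁]
          refine ⟨hα', hQN, fun x => hQN (α x).2, ?_⟩
          refine ⟨(R₁.subtype.comp β.toMonoidHom).comp
            (Subgroup.inclusion (sup_le hQR le_rfl : Q₁ ⊔ R₁ ≤ R₁)),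
            Helper26.fs_restrict F _ hβ', fun x => hβα x, ?_⟩
          ext y
          constructor
          · rintro ⟨x, -, rfl⟩
            exact (β _).2
          · intro hy
            refine ⟨⟨(β.symm ⟨y, hy⟩ : R₁), (le_sup_right : R₁ ≤ Q₁ ⊔ R₁) (β.symm ⟨y, hy⟩).2⟩,
              Subgroup.mem_subgroupOf.2 (β.symm ⟨y, hy⟩).2, ?_⟩
            show ((β (β.symm ⟨y, hy⟩) : R₁) : Ω) = y
            rw [MulEquiv.apply_symm_apply]
      have hχN : MulAut.congr θ χ ∈ (S5096.normalizerSystem F R₁ hR₁S).autGroup Q₁ := by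
        rw [heq]; exact hχ₁
      have h1 := fstable_all hst hQN hχN hq₁
      rw [pCoreMap_congr heq] at h1
      exact h1
    · have hle := le_plusSub hS F (p := p) hR₁S
      obtain ⟨u, hu, hun⟩ := SetLike.exists_of_lt (lt_of_le_of_ne hle (Ne.symm hplus))
      have hlt := Helper26.card_lt_of_mem_not_mem (plusSub_le F p R₁) hle hu hun
      haveI : Finite R := Helper26.finite_of_le hRS
      have hcard : Nat.card R = Nat.card R₁ := Nat.card_congr e.toEquiv
      have hle2 : Nat.card (plusSub F p R₁) ≤ Nat.card S := Subgroup.card_le_of_le (plusSub_le F p R₁)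
      exact ih (Nat.card S - Nat.card (plusSub F p R₁)) (by omega) Q₁ (plusSub F p R₁)
        (plusSub_le F p R₁) rfl (hExt₁.trans (extAut_plusSub hS F hRa hRr)) _ hχ₁ hq₁

/-- Let p be an odd prime and F a saturated fusion system over a finite p-group S. Call a fusion system E (over any subgroup) p-stable when, for every fully E-normalized subgroup Q and every χ in Aut_E(Q) with χ(a⁻¹)·a·χ(a⁻¹)·χ(χ(a)) = 1 for all a in Q (χ acts quadratically), χ lies in O_p(Aut_E(Q)). Then F is p-stable if and only if the normalizer fusion system of R in F is p-stable for every fully F-normalized, F-centric, F-radical subgroup R of S. -/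
theorem result {Ω : Type*} [Group Ω] {S : Subgroup Ω} [Finite S] (p : ℕ) [Fact p.Prime] (hS : IsPGroup p ↥S) (F : Cfsg.FusionSystem S) (hF : F.IsSaturated p) (hp : p ≠ 2) : (∀ Q : Subgroup Ω, F.IsFullyNormalized Q → ∀ χ : MulAut ↥Q, χ ∈ F.autGroup Q → (∀ a : ↥Q, (χ a⁻¹) * a * (χ a⁻¹) * (χ (χ a)) = 1) → χ ∈ ((Cfsg.pCore p ↥(F.autGroup Q)).map (F.autGroup Q).subtype : Subgroup (MulAut ↥Q))) ↔ ∀ R : Subgroup Ω, F.IsFullyNormalized R → F.IsCentric R → F.IsRadical p R → ∀ N : Cfsg.FusionSystem (Cfsg.FusionSystem.normalizerIn S R), F.IsNormalizerSystem R N → (∀ Q : Subgroup Ω, N.IsFullyNormalized Q → ∀ χ : MulAut ↥Q, χ ∈ N.autGroup Q → (∀ a : ↥Q, (χ a⁻¹) * a * (χ a⁻¹) * (χ (χ a)) = 1) → χ ∈ ((Cfsg.pCore p ↥(N.autGroup Q)).map (N.autGroup Q).subtype : Subgroup (MulAut ↥Q))) := by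
  constructor
  · intro hst R hR _ _ N hN Q hQ χ hχ hq
    have hQN : Q ≤ normalizerIn S R := hQ.1
    have hQS : Q ≤ S := hQN.trans inf_le_left
    have hle : N.autGroup Q ≤ F.autGroup Q := by
      apply Subgroup.closure_mono
      intro α hα
      have h1 : Q.subtype.comp α.toMonoidHom ∈ N.Hom Q := hα
      rw [hN Q] at h1
      exact h1.1
    have h1 := fstable_all (F := F) (p := p) hst hQS (hle hχ) hq
    exact mem_pCoreMap_of_le hle hχ h1
  · intro h Q hQ χ hχ hq
    exact stable_of_cr p hS F hF (fun R hR hc hr N hN => h R hR hc hr N hN) _ Q Q hQ.1 rfl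
      (extAut_refl F Q) χ hχ hq

end Cfsg.Agent.S5281
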