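import Mathlib
import Cfsg.Statements.S5290
import Cfsg.Agent.Helper26.FusNormal3
-- import your own Cfsg.Agent.* helpers here

set_option autoImplicit false
open Cfsg

namespace Cfsg.Agent.S5290

/-- Let F be a saturated fusion system over a finite p-group S and Q a subgroup of S. Then Q is normal in F (F = N_F(Q)) if and only if the inner fusion system of Q, consisting of the conjugations by elements of Q on subgroups of Q, is a weakly normal subsystem of F (both saturated, Q strongly closed, invariant under F-conjugation, with the Frattini property). -/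
theorem result {Ω : Type*} [Group Ω] {S : Subgroup Ω} [Finite S] (p : ℕ) [Fact p.Prime] (hS : IsPGroup p S)
    (F : Cfsg.FusionSystem S) (hF : F.IsSaturated p)
    (Q : Subgroup Ω) (hQ : Q ≤ S) :
    F.IsNormal Q ↔ (Cfsg.innerFusionSystem Q).IsWeaklyNormalIn F p := by
  constructor
  · intro hQn
    have hQp := Helper26.isPGroup_of_le hS hQ
    have hsc := Helper26.stronglyClosed_of_normal F hQn
    refine ⟨Helper26.inner_isSaturated hQp, hF, ?_, hsc, ?_, ?_⟩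
    · rintro P φ ⟨hPQ, g, hg, h⟩
      exact Helper26.fs_conj F (hPQ.trans hQ) (hQ hg) h
    · rintro P hPT φ ⟨-, g, hg, hφ⟩ α hα
      refine ⟨Cfsg.conjHom _ ((α ⟨g, hg⟩ : Q) : Ω),
        ⟨?_, ((α ⟨g, hg⟩ : Q) : Ω), (α ⟨g, hg⟩).2, fun _ => rfl⟩, ?_⟩
      · rintro _ ⟨y, -, rfl⟩
        exact (α y).2
      · intro x hφx hαx
        show ((α ⟨g, hg⟩ : Q) : Ω) * ((α ⟨x, hPT x.2⟩ : Q) : Ω) * ((α ⟨g, hg⟩ : Q) : Ω)⁻¹
          = ((α ⟨φ x, hφx⟩ : Q) : Ω)
        have e : (⟨φ x, hφx⟩ : Q) = ⟨g, hg⟩ * ⟨x, hPT x.2⟩ * ⟨g, hg⟩⁻¹ := Subtype.ext (hφ x)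
        rw [e, map_mul, map_mul, map_inv]; rfl
    · intro P hPQ φ hφ
      obtain ⟨ψ, hψ, hψa, hψQ⟩ := hQn.2 P φ hφ
      have hψ' : ψ.comp (Subgroup.inclusion (le_sup_right : Q ≤ P ⊔ Q)) ∈ F.Hom Q :=
        Helper26.fs_restrict F le_sup_right hψ
      have : Finite Q := Helper26.finite_of_le hQ
      obtain ⟨e, he, hex⟩ := Helper26.exists_iso_of_hom_of_card F hψ' (Q := Q)
        (fun y => Helper26.normExt_mem_Q hψQ _ y.2) le_rfl
      refine ⟨e, (Helper26.mem_autGroup_iff F hQ e).2 he, P.subtype,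
        ⟨hPQ, 1, Q.one_mem, fun x => by simp⟩, ?_⟩
      intro x hx
      rw [hex, ← hψa x]
      rfl
  · rintro ⟨hEsat, -, hsub, hsc, hinv, hfrat⟩
    obtain ⟨n, C, h0, hn, hmono, hcomm, hchar⟩ := Helper26.upper_chain hS hQ
    refine Helper26.normal_of_chain hS F hF hsc n C h0 hn hmono hcomm (fun i => ?_)
    obtain ⟨U, hU, hCU⟩ := hchar i.castSucc
    have hCQ : C i.castSucc ≤ Q := by rw [hCU]; exact Subgroup.map_subtype_le U
    refine ⟨hCQ.trans hQ, fun φ hφ => ?_⟩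
    apply Helper26.range_eq_of_forall_mem F hφ
    intro x
    obtain ⟨α, hα, φ₀, hφ₀, hx⟩ := hfrat (C i.castSucc) hCQ φ hφ
    obtain ⟨-, q, hq, hφ₀q⟩ := hφ₀
    have hxU : (x : Ω) ∈ U.map Q.subtype := by rw [← hCU]; exact x.2
    obtain ⟨u, hu, hux⟩ := hxU
    have hmem : φ₀ x ∈ Q := by
      rw [hφ₀q]; exact Q.mul_mem (Q.mul_mem hq (hCQ x.2)) (Q.inv_mem hq)
    have h1 := hx x hmem
    have h2 : (⟨φ₀ x, hmem⟩ : Q) = ⟨q, hq⟩ * u * ⟨q, hq⟩⁻¹ := by
      apply Subtype.ext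
      show φ₀ x = q * (u : Ω) * q⁻¹
      rw [hφ₀q, ← hux]; rfl
    have hnorm : U.Normal := Subgroup.normal_of_characteristic U
    have h3 : ⟨q, hq⟩ * u * ⟨q, hq⟩⁻¹ ∈ U := hnorm.conj_mem u hu ⟨q, hq⟩
    have h4 : α (⟨q, hq⟩ * u * ⟨q, hq⟩⁻¹) ∈ U := by
      have h5 := hU.fixed α
      rw [← h5] at h3
      exact Subgroup.mem_comap.1 h3
    rw [h1, h2, hCU]
    exact ⟨_, h4, rfl⟩

end Cfsg.Agent.S5290
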