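import Mathlib
import Cfsg.Statements.S5291
import Cfsg.Agent.Helper26.FusWeak
-- import your own Cfsg.Agent.* helpers here

set_option autoImplicit false
open Cfsg

namespace Cfsg.Agent.S5291

/-- Let F be a saturated fusion system over a finite p-group S and E a weakly normal subsystem of F over a subgroup T. Suppose a subgroup R of T is normal in E (E = N_E(R)), and let R* be the subgroup of T generated by the images of R under all maps of F with source R. Then R* is normal in F (F = N_F(R*)). -/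
theorem result {Ω : Type*} [Group Ω] {S : Subgroup Ω} [Finite S] (p : ℕ) [Fact p.Prime] (hS : IsPGroup p S)
    (F : Cfsg.FusionSystem S) (hF : F.IsSaturated p)
    {T : Subgroup Ω} (E : Cfsg.FusionSystem T) (hE : E.IsWeaklyNormalIn F p)
    (R : Subgroup Ω) (hR : E.IsNormal R) :
    F.IsNormal (Subgroup.closure {x : Ω | ∃ φ ∈ F.Hom R, ∃ r : R, x = φ r}) := by
  obtain ⟨hEs, -, hEinv⟩ := hE
  have hTS : T ≤ S := hEinv.2.1.1
  have : Finite T := Helper26.finite_of_le hTS
  have hO : F.IsNormal E.core := Helper26.core_normal_of_invariant hS hF hEinv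
  have hOsc := Helper26.stronglyClosed_of_normal F hO
  have hRO : R ≤ E.core := le_sSup hR
  let Rs : Subgroup Ω := Subgroup.closure {x : Ω | ∃ φ ∈ F.Hom R, ∃ r : R, x = φ r}
  show F.IsNormal Rs
  have hgen : ∀ φ ∈ F.Hom R, ∀ r : R, φ r ∈ Rs :=
    fun φ hφ r => Subgroup.subset_closure ⟨φ, hφ, r, rfl⟩
  have hRsO : Rs ≤ E.core := (Subgroup.closure_le _).2 (by
    rintro x ⟨φ, hφ, r, rfl⟩
    exact hOsc.2 R hRO φ hφ r)
  apply Helper26.normal_of_stronglyClosed_le F hO hRsO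
  refine ⟨hRsO.trans hO.1, ?_⟩
  intro P hP φ hφ x
  obtain ⟨ψ, hψ, hψa, -⟩ := hO.2 P φ hφ
  have hK : Rs ≤ (Rs.comap ψ).map (P ⊔ E.core).subtype := by
    refine (Subgroup.closure_le _).2 ?_
    rintro y ⟨φ₁, hφ₁, r, rfl⟩
    have hmem : ∀ r : R, φ₁ r ∈ P ⊔ E.core :=
      fun r => Subgroup.mem_sup_right (hOsc.2 R hRO φ₁ hφ₁ r)
    refine Subgroup.mem_map.2 ⟨⟨φ₁ r, hmem r⟩, ?_, rfl⟩
    refine Subgroup.mem_comap.2 ?_
    exact hgen (ψ.comp (φ₁.codRestrict (P ⊔ E.core) hmem)) (F.comp_mem hφ₁ hψ hmem) r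
  obtain ⟨y, hy, hyx⟩ := hK (hP x.2)
  have hyx' : y = Subgroup.inclusion le_sup_left x := Subtype.ext hyx
  rw [← hψa x, ← hyx']
  exact hy

end Cfsg.Agent.S5291
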