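import Mathlib
import Cfsg.Statements.S5294
import Cfsg.Agent.Helper26.FixFactor
import Cfsg.Agent.Helper26.FusNormal2
import Cfsg.Agent.S5145
-- import your own Cfsg.Agent.* helpers here

set_option autoImplicit false
universe u
open Cfsg

namespace Cfsg.Agent.S5294

/-- Let F be a saturated fusion system over a finite p-group S whose centre Z(S) lies in the largest subgroup O_p(F) normal in F. Then the centre Z(F) of F is a direct factor of Z(S): there is a subgroup K of Z(S) with Z(F) ∩ K = 1 and Z(F)K = Z(S). -/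
theorem result {Ω : Type u} [Group Ω] {S : Subgroup Ω} [Finite S] (p : ℕ) [Fact p.Prime] (hS : IsPGroup p S)
    (F : Cfsg.FusionSystem S) (hF : F.IsSaturated p) (hZ : (S ⊓ Subgroup.centralizer (S : Set Ω)) ≤ F.core) :
    ∃ K : Subgroup Ω, K ≤ (S ⊓ Subgroup.centralizer (S : Set Ω)) ∧ F.center ⊓ K = ⊥ ∧ F.center ⊔ K = (S ⊓ Subgroup.centralizer (S : Set Ω)) := by
  classical
  have hQn : F.IsNormal F.core := Cfsg.Agent.S5145.result F
  have hQS : F.core ≤ S := hQn.1
  have hsc : F.StronglyClosed ((Subgroup.center ↥F.core).map F.core.subtype) :=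
    Helper26.stronglyClosed_of_char F hQn (Subgroup.center ↥F.core)
  have hVQ : (Subgroup.center ↥F.core).map F.core.subtype ≤ F.core := Subgroup.map_subtype_le _
  have hVS : (Subgroup.center ↥F.core).map F.core.subtype ≤ S := hsc.1
  have hZV : S ⊓ Subgroup.centralizer (S : Set Ω) ≤
      (Subgroup.center ↥F.core).map F.core.subtype := by
    intro x hx
    refine ⟨⟨x, hZ hx⟩, ?_, rfl⟩
    rw [SetLike.mem_coe, Subgroup.mem_center_iff]
    intro g
    apply Subtype.ext
    exact (Subgroup.mem_centralizer_iff.1 hx.2) g (hQS g.2)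
  have hVcomm : IsMulCommutative ↥((Subgroup.center ↥F.core).map F.core.subtype) := by
    refine ⟨⟨fun a b => ?_⟩⟩
    apply Subtype.ext
    obtain ⟨a', ha', haa⟩ := a.2
    obtain ⟨b', hb', hbb⟩ := b.2
    show (a : Ω) * (b : Ω) = (b : Ω) * (a : Ω)
    rw [← haa, ← hbb]
    have h1 := Subgroup.mem_center_iff.1 ha' b'
    exact (congrArg Subtype.val h1).symm
  have hfinV : Finite ↥((Subgroup.center ↥F.core).map F.core.subtype) :=
    Helper26.finite_of_le hVS
  have hVfn : F.IsFullyNormalized ((Subgroup.center ↥F.core).map F.core.subtype) := by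
    refine ⟨hVS, fun Q' hQ' => ?_⟩
    obtain ⟨φ, hφ, hφr⟩ := hQ'
    have h1 := (Helper26.weaklyClosed_of_stronglyClosed F hsc).2 φ hφ
    rw [← hφr, h1]
  obtain ⟨-, R, hR⟩ := (Helper26.sat_of_fullyNormalized hS F hF hVfn).2.1
  have hPG : autInducedBy S ((Subgroup.center ↥F.core).map F.core.subtype) ≤
      F.autGroup ((Subgroup.center ↥F.core).map F.core.subtype) :=
    Helper26.autInducedBy_le_autGroup F hVS
  have hcop : (Nat.card (F.autGroup ((Subgroup.center ↥F.core).map F.core.subtype) ⧸
      (autInducedBy S ((Subgroup.center ↥F.core).map F.core.subtype)).subgroupOf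
        (F.autGroup ((Subgroup.center ↥F.core).map F.core.subtype)))).Coprime
      (Nat.card ↥((Subgroup.center ↥F.core).map F.core.subtype)) := by
    obtain ⟨n, hn⟩ := (IsPGroup.iff_card).1 (Helper26.isPGroup_of_le hS hVS)
    rw [hn, ← hR, ← Subgroup.index_eq_card]
    exact Nat.Coprime.pow_right n ((Nat.Prime.coprime_iff_not_dvd Fact.out).2 R.not_dvd_index).symm
  obtain ⟨K', hK'P, hK'1, hK'2⟩ := Helper26.fixed_direct_factor
    (F.autGroup ((Subgroup.center ↥F.core).map F.core.subtype))
    (autInducedBy S ((Subgroup.center ↥F.core).map F.core.subtype)) hPG hcop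
  have hVnorm : ∀ g ∈ S, g ∈ Subgroup.normalizer
      (((Subgroup.center ↥F.core).map F.core.subtype : Subgroup Ω) : Set Ω) := by
    intro g hg
    rw [Subgroup.mem_normalizer_iff]
    intro h
    constructor
    · exact Helper26.stronglyClosed_conj F hsc g hg h
    · intro hh
      have h1 := Helper26.stronglyClosed_conj F hsc g⁻¹ (S.inv_mem hg) _ hh
      have e : g⁻¹ * (g * h * g⁻¹) * g⁻¹⁻¹ = h := by group
      rwa [e] at h1
  have hB : (Helper26.fixedSub (autInducedBy S ((Subgroup.center ↥F.core).map F.core.subtype))).map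
      (Subgroup.subtype _) = S ⊓ Subgroup.centralizer (S : Set Ω) := by
    apply le_antisymm
    · rintro _ ⟨v, hv, rfl⟩
      refine ⟨hVS v.2, Subgroup.mem_centralizer_iff.2 ?_⟩
      intro g hg
      have h1 := hv _ (Helper26.conjAut_mem S _ g hg (hVnorm g hg))
      have h2 : g * (v : Ω) * g⁻¹ = v := by
        rw [← Helper26.conjAut_apply _ g (hVnorm g hg) v, h1]
      calc g * (v : Ω) = g * v * g⁻¹ * g := by group
        _ = v * g := by rw [h2]
    · intro x hx
      refine ⟨⟨x, hZV hx⟩, ?_, rfl⟩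
      intro a ha
      obtain ⟨g, hg, hga⟩ := (Helper26.mem_autInducedBy_iff S _ a).1 ha
      apply Subtype.ext
      rw [hga]
      show g * x * g⁻¹ = x
      rw [(Subgroup.mem_centralizer_iff.1 hx.2) g hg, mul_inv_cancel_right]
  have hA : F.center = (Helper26.fixedSub
      (F.autGroup ((Subgroup.center ↥F.core).map F.core.subtype))).map (Subgroup.subtype _) := by
    apply le_antisymm
    · refine sSup_le fun Q₀ hQ₀ => ?_
      intro q hq
      have hqc : q ∈ F.center := (le_sSup (α := Subgroup Ω) hQ₀ : Q₀ ≤ F.center) hq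
      have hqZ : q ∈ S ⊓ Subgroup.centralizer (S : Set Ω) :=
        ⟨hQ₀.1 hq, FusionSystem.center_le_centralizer F hqc⟩
      refine ⟨⟨q, hZV hqZ⟩, ?_, rfl⟩
      intro a ha
      obtain ⟨ψ, -, hψV, hψQ⟩ := hQ₀.2 _ _ ((Helper26.mem_autGroup_iff F hVS a).1 ha)
      have h1 := hψV ⟨q, hZV hqZ⟩
      have h2 := hψQ ⟨q, hq⟩
      have h12 : (Subgroup.inclusion (le_sup_left :
          (Subgroup.center ↥F.core).map F.core.subtype ≤
            (Subgroup.center ↥F.core).map F.core.subtype ⊔ Q₀) ⟨q, hZV hqZ⟩) =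
          Subgroup.inclusion (le_sup_right : Q₀ ≤
            (Subgroup.center ↥F.core).map F.core.subtype ⊔ Q₀) ⟨q, hq⟩ := Subtype.ext rfl
      rw [h12, h2] at h1
      exact Subtype.ext h1.symm
    · refine le_sSup ⟨(Subgroup.map_subtype_le _).trans hVS, fun P φ hφ => ?_⟩
      obtain ⟨ψ, hψ, hψP, -⟩ := hQn.2 P φ hφ
      have hFV : (Helper26.fixedSub (F.autGroup ((Subgroup.center ↥F.core).map
          F.core.subtype))).map (Subgroup.subtype _) ≤
          (Subgroup.center ↥F.core).map F.core.subtype := Subgroup.map_subtype_le _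
      have hle : P ⊔ (Helper26.fixedSub (F.autGroup ((Subgroup.center ↥F.core).map
          F.core.subtype))).map (Subgroup.subtype _) ≤ P ⊔ F.core :=
        sup_le_sup_left (hFV.trans hVQ) P
      refine ⟨ψ.comp (Subgroup.inclusion hle), Helper26.fs_restrict F hle hψ,
        fun x => hψP x, fun z => ?_⟩
      obtain ⟨v, hv, hvz⟩ := z.2
      have hVle : (Subgroup.center ↥F.core).map F.core.subtype ≤ P ⊔ F.core :=
        hVQ.trans le_sup_right
      have hχ := Helper26.fs_restrict F hVle hψ
      obtain ⟨e, he, hex⟩ := Helper26.exists_iso_of_hom_of_card F hχ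
        (fun x => hsc.2 _ le_rfl _ hχ x) le_rfl
      have hea : e ∈ F.autGroup ((Subgroup.center ↥F.core).map F.core.subtype) :=
        (Helper26.mem_autGroup_iff F hVS e).2 he
      have h1 := hex v
      rw [hv e hea] at h1
      have e2 : (Subgroup.inclusion hle (Subgroup.inclusion le_sup_right z) : ↥(P ⊔ F.core)) =
          Subgroup.inclusion hVle v := Subtype.ext hvz.symm
      calc (ψ.comp (Subgroup.inclusion hle)) (Subgroup.inclusion le_sup_right z)
          = ψ (Subgroup.inclusion hVle v) := congrArg ψ e2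
        _ = (v : Ω) := h1.symm
        _ = z := hvz
  refine ⟨K'.map (Subgroup.subtype _), ?_, ?_, ?_⟩
  · rw [← hB]; exact Subgroup.map_mono hK'P
  · rw [hA, Subgroup.eq_bot_iff_forall]
    rintro x ⟨⟨v, hv, rfl⟩, ⟨k, hk, hkv⟩⟩
    have hkv' : k = v := Subtype.ext hkv
    subst hkv'
    have h3 : k ∈ Helper26.fixedSub (F.autGroup ((Subgroup.center ↥F.core).map
        F.core.subtype)) ⊓ K' := ⟨hv, hk⟩
    rw [hK'1, Subgroup.mem_bot] at h3
    rw [h3]; rfl
  · rw [hA, ← hB, ← hK'2]
    exact (Subgroup.map_sup _ _ _).symm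

end Cfsg.Agent.S5294
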