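import Mathlib
import Cfsg.Statements.S5301
import Cfsg.Agent.Helper26.FusNormal2
-- import your own Cfsg.Agent.* helpers here

set_option autoImplicit false
universe u
open Cfsg

namespace Cfsg.Agent.S5301

/-- Let F be a saturated fusion system over a finite p-group S. If for every subgroup P of S that is fully normalized, centric and radical in F the automorphism group that F induces on P has a normal Sylow p-subgroup, then S is normal in F. -/
theorem result {Ω : Type u} [Group Ω] {S : Subgroup Ω} [Finite S] (p : ℕ) [Fact p.Prime] (hS : IsPGroup p S)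
    (F : Cfsg.FusionSystem S) (hF : F.IsSaturated p)
    (hcl : ∀ P : Subgroup Ω, F.IsFullyNormalized P → F.IsCentric P → F.IsRadical p P →
      ∃ R : Sylow p ↥(F.autGroup P), (R : Subgroup ↥(F.autGroup P)).Normal) :
    F.IsNormal S := by
  have hSsc : F.StronglyClosed S := ⟨le_rfl, fun R hR φ hφ x => (F.le_of_mem hφ).2 x⟩
  apply Helper26.normal_of_frc hS F hF hSsc
  intro P hPn hPa hPr hPc hPrad
  have hPS := hPr.1
  by_contra hcon
  have hne : P ≠ S := fun h => hcon (h ▸ le_rfl)
  obtain ⟨g, hgN, hgP⟩ := Helper26.exists_normalizerIn_not_mem hS hPS hne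
  obtain ⟨R, hRn⟩ := hcl P hPn hPc hPrad
  obtain ⟨-, R', hR'⟩ := hPa
  have : Finite P := Helper26.finite_of_le hPS
  have h1 : (R : Subgroup (F.autGroup P)) ≤ R' := R.isPGroup'.le_sylow_of_normal R'
  have h2 : (R' : Subgroup (F.autGroup P)) = R := R.is_maximal' R'.isPGroup' h1
  have hR'n : (R' : Subgroup (F.autGroup P)).Normal := h2 ▸ hRn
  have hle : (R' : Subgroup (F.autGroup P)) ≤ pCore p (F.autGroup P) :=
    Helper26.le_pCore' hR'n R'.isPGroup'
  have hcg : Helper26.conjAut P g hgN.2 ∈ F.autGroup P :=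
    Helper26.autInducedBy_le_autGroup F hPS (Helper26.conjAut_mem S P g hgN.1 hgN.2)
  have hmem : (⟨Helper26.conjAut P g hgN.2, hcg⟩ : F.autGroup P)
      ∈ (R' : Subgroup (F.autGroup P)) := by
    rw [hR']
    exact Subgroup.mem_subgroupOf.2 (Helper26.conjAut_mem S P g hgN.1 hgN.2)
  have h3 : Helper26.conjAut P g hgN.2 ∈ (pCore p (F.autGroup P)).map (F.autGroup P).subtype :=
    ⟨_, hle hmem, rfl⟩
  rw [hPrad.2] at h3
  exact hgP (Helper26.mem_of_conjAut_mem_inn F hPc hgN h3)

end Cfsg.Agent.S5301
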