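import Cfsg.Statements.S5317
import Cfsg.Agent.Helper25.PSL2Inv
import Cfsg.Agent.Helper25.DihedralFusion
import Cfsg.Agent.Helper25.SylowIn
import Cfsg.Agent.Helper25.FusAut

set_option autoImplicit false
open Cfsg

namespace Cfsg.Agent.S5317

open Cfsg.Agent.Helper12 Cfsg.Agent.Helper25

/-- Let F be a finite field of odd order q with q² ≡ 1 mod 16 (so that a Sylow 2-subgroup of PSL(2,q), dihedral of order the 2-part of (q²−1)/2, has order at least 8). Then the 2-fusion system of PSL(2,F) on a Sylow 2-subgroup is simple: saturated, over a nontrivial 2-group, with no normal subsystem other than the trivial one and itself. -/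
theorem result {F : Type*} [Field F] [Fintype F] (hodd : Fintype.card F % 2 = 1) (h16 : 16 ∣ Fintype.card F ^ 2 - 1)
    (S : Sylow 2 (Matrix.ProjectiveSpecialLinearGroup (Fin 2) F)) :
    (Cfsg.groupFusionSystem (S : Subgroup (Matrix.ProjectiveSpecialLinearGroup (Fin 2) F))).IsSimple 2 := by
  have hodd' : Odd (Fintype.card F) := Nat.odd_iff.2 hodd
  have h2 : (2 : F) ≠ 0 := two_ne_zero_of_odd hodd'
  obtain ⟨x₀, y₀, hx₀, hy₀, hxy, hne1, hne2⟩ := exists_klein hodd'
  have hNc : (QuotientGroup.mk sl2NegOne : Matrix.ProjectiveSpecialLinearGroup (Fin 2) F) = 1 :=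
    (QuotientGroup.eq_one_iff _).2 sl2NegOne_mem_center
  have hconj : ∀ x y : Matrix.ProjectiveSpecialLinearGroup (Fin 2) F, orderOf x = 2 →
      orderOf y = 2 → IsConj x y := by
    have hA : Nat.card (Subgroup.zpowers x₀) = 4 := by
      rw [Nat.card_zpowers]
      exact Cfsg.Agent.S0809.orderOf_eq_four_of_trace hodd' x₀
        (Cfsg.Agent.S0809.trace_of_sq_eq_negOne x₀ hx₀)
    exact (Cfsg.Agent.S0809.result rfl hodd' _ hA).2.2.2
  have h8 : 2 ^ 3 ∣ Nat.card (Matrix.ProjectiveSpecialLinearGroup (Fin 2) F) := by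
    have h1 := psl2_card_odd (F := F) h2
    obtain ⟨k, hk⟩ := h16
    rw [hk] at h1
    refine ⟨Fintype.card F * k, ?_⟩
    have h3 : Nat.card (Matrix.ProjectiveSpecialLinearGroup (Fin 2) F) * 2 =
        (2 ^ 3 * (Fintype.card F * k)) * 2 := by rw [h1]; ring
    exact Nat.eq_of_mul_eq_mul_right (by norm_num) h3
  have hfinSL : Finite (Matrix.SpecialLinearGroup (Fin 2) F) := Subtype.finite
  have hfin : Finite (Matrix.ProjectiveSpecialLinearGroup (Fin 2) F) :=
    Finite.of_surjective (QuotientGroup.mk : Matrix.SpecialLinearGroup (Fin 2) F →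
      Matrix.ProjectiveSpecialLinearGroup (Fin 2) F) QuotientGroup.mk_surjective
  have hS8 : 2 ^ 3 ∣ Nat.card (S : Subgroup (Matrix.ProjectiveSpecialLinearGroup (Fin 2) F)) :=
    S.pow_dvd_card_of_pow_dvd_card h8
  have hSpos : 0 < Nat.card (S : Subgroup (Matrix.ProjectiveSpecialLinearGroup (Fin 2) F)) :=
    Nat.card_pos
  have hS8' : 8 ≤ Nat.card (S : Subgroup (Matrix.ProjectiveSpecialLinearGroup (Fin 2) F)) :=
    Nat.le_of_dvd hSpos hS8
  have hSp : IsPGroup 2 (S : Subgroup (Matrix.ProjectiveSpecialLinearGroup (Fin 2) F)) :=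
    S.isPGroup'
  have hnt : Nontrivial (S : Subgroup (Matrix.ProjectiveSpecialLinearGroup (Fin 2) F)) :=
    Finite.one_lt_card_iff_nontrivial.1 (by omega)
  have hcnt := hSp.center_nontrivial
  have hcp : IsPGroup 2 (Subgroup.center (S : Subgroup (Matrix.ProjectiveSpecialLinearGroup (Fin 2) F))) :=
    hSp.to_subgroup _
  obtain ⟨n, hn⟩ := IsPGroup.iff_card.1 hcp
  have hn0 : n ≠ 0 := by
    rintro rfl
    rw [pow_zero] at hn
    have := Finite.one_lt_card_iff_nontrivial.2 hcnt
    omega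
  have hdvd : 2 ∣ Nat.card (Subgroup.center (S : Subgroup (Matrix.ProjectiveSpecialLinearGroup (Fin 2) F))) := by
    rw [hn]; exact dvd_pow_self 2 hn0
  obtain ⟨ζ, hζ⟩ := exists_prime_orderOf_dvd_card' 2 hdvd
  have hζ1 : ζ ≠ 1 := by
    rintro rfl
    rw [orderOf_one] at hζ
    omega
  have hζ2 : ζ * ζ = 1 := by
    have h0 := pow_orderOf_eq_one ζ
    rw [hζ, pow_two] at h0
    exact h0
  obtain ⟨z, hzdef⟩ : ∃ z : Matrix.ProjectiveSpecialLinearGroup (Fin 2) F,
      z = ((ζ : (S : Subgroup (Matrix.ProjectiveSpecialLinearGroup (Fin 2) F))) :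
        Matrix.ProjectiveSpecialLinearGroup (Fin 2) F) := ⟨_, rfl⟩
  have hzS : z ∈ (S : Subgroup (Matrix.ProjectiveSpecialLinearGroup (Fin 2) F)) := by
    rw [hzdef]; exact (ζ : (S : Subgroup (Matrix.ProjectiveSpecialLinearGroup (Fin 2) F))).2
  have hz1 : z ≠ 1 := by
    rw [hzdef]
    intro h
    apply hζ1
    apply Subtype.ext
    apply Subtype.ext
    exact h
  have hz2 : z * z = 1 := by
    rw [hzdef]
    have h0 := congrArg (fun y : Subgroup.center (S : Subgroup (Matrix.ProjectiveSpecialLinearGroup (Fin 2) F)) =>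
      ((y : (S : Subgroup (Matrix.ProjectiveSpecialLinearGroup (Fin 2) F))) :
        Matrix.ProjectiveSpecialLinearGroup (Fin 2) F)) hζ2
    exact h0
  have hzc : ∀ s ∈ (S : Subgroup (Matrix.ProjectiveSpecialLinearGroup (Fin 2) F)), s * z = z * s := by
    intro s hs
    have h0 := Subgroup.mem_center_iff.1 ζ.2 ⟨s, hs⟩
    rw [hzdef]
    exact congrArg Subtype.val h0
  obtain ⟨x, hxz⟩ := QuotientGroup.mk_surjective z
  have hx : x * x = sl2NegOne := by
    have h1 : (QuotientGroup.mk (x * x) : Matrix.ProjectiveSpecialLinearGroup (Fin 2) F) = 1 := by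
      rw [QuotientGroup.mk_mul, hxz, hz2]
    rw [QuotientGroup.eq_one_iff] at h1
    rcases sl2_center_cases _ h1 with h | h
    · exfalso
      apply hz1
      rw [← hxz]
      by_cases hx1 : x = 1
      · rw [hx1]; rfl
      · have h3 := Cfsg.Agent.S0268.result hodd' x hx1 h
        have h4 : x = sl2NegOne := by
          apply Subtype.ext
          rw [h3, Cfsg.Agent.S0809.negOne_val]
        rw [h4]; exact hNc
    · exact h
  obtain ⟨C, hCdef⟩ : ∃ C : Subgroup (Matrix.ProjectiveSpecialLinearGroup (Fin 2) F),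
      C = (Subgroup.centralizer ({x} : Set (Matrix.SpecialLinearGroup (Fin 2) F))).map
        (QuotientGroup.mk' (Subgroup.center (Matrix.SpecialLinearGroup (Fin 2) F))) := ⟨_, rfl⟩
  have hCmem : ∀ c : Matrix.ProjectiveSpecialLinearGroup (Fin 2) F, c ∈ C ↔
      ∃ c' : Matrix.SpecialLinearGroup (Fin 2) F, x * c' = c' * x ∧
        (QuotientGroup.mk c' : Matrix.ProjectiveSpecialLinearGroup (Fin 2) F) = c := by
    intro c
    rw [hCdef]
    constructor
    · rintro ⟨c', hc', rfl⟩
      exact ⟨c', Subgroup.mem_centralizer_iff.1 hc' x rfl, rfl⟩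
    · rintro ⟨c', hc', rfl⟩
      refine ⟨c', Subgroup.mem_centralizer_iff.2 ?_, rfl⟩
      rintro _ rfl
      exact hc'
  have hanti : ∀ g' : Matrix.SpecialLinearGroup (Fin 2) F,
      (QuotientGroup.mk g' : Matrix.ProjectiveSpecialLinearGroup (Fin 2) F) * z =
        z * QuotientGroup.mk g' →
      (QuotientGroup.mk g' : Matrix.ProjectiveSpecialLinearGroup (Fin 2) F) ∉ C →
      g' * x = sl2NegOne * (x * g') := by
    intro g' hgz hgC
    rcases psl2_comm_cases g' x (by rw [hxz]; exact hgz) with h | h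
    · exact absurd ((hCmem _).2 ⟨g', h.symm, rfl⟩) hgC
    · exact h
  have hC3 : ∀ g : Matrix.ProjectiveSpecialLinearGroup (Fin 2) F, g * z = z * g → g ∉ C →
      g * g = 1 ∧ ∀ c ∈ C, g * c * g⁻¹ = c⁻¹ := by
    intro g hgz hgC
    obtain ⟨g', rfl⟩ := QuotientGroup.mk_surjective g
    have h := hanti g' hgz hgC
    refine ⟨?_, ?_⟩
    · rw [← QuotientGroup.mk_mul, sl2_anti_sq h2 x g' hx h]
      exact hNc
    · intro c hc
      obtain ⟨c', hc', rfl⟩ := (hCmem c).1 hc
      have h3 := sl2_anti_inv h2 x g' c' hx h hc'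
      rw [← QuotientGroup.mk_inv, ← QuotientGroup.mk_inv, ← QuotientGroup.mk_mul,
        ← QuotientGroup.mk_mul, h3, mul_inv_cancel_right]
  have hC4 : ∀ c ∈ C, c * c = 1 → c = 1 ∨ c = z := by
    intro c hc hcc
    obtain ⟨c', hc', rfl⟩ := (hCmem c).1 hc
    have h1 : (QuotientGroup.mk (c' * c') : Matrix.ProjectiveSpecialLinearGroup (Fin 2) F) = 1 := by
      rw [QuotientGroup.mk_mul, hcc]
    rw [QuotientGroup.eq_one_iff] at h1
    rcases sl2_center_cases _ h1 with h | h
    · left
      by_cases hc1 : c' = 1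
      · rw [hc1]; rfl
      · have h3 := Cfsg.Agent.S0268.result hodd' c' hc1 h
        have h4 : c' = sl2NegOne := by
          apply Subtype.ext
          rw [h3, Cfsg.Agent.S0809.negOne_val]
        rw [h4]; exact hNc
    · right
      rcases sl2_comm_sq_neg h2 x c' hx hc' h with h3 | h3
      · rw [h3, hxz]
      · rw [h3, QuotientGroup.mk_mul, hNc, one_mul, hxz]
  -- two distinct involutions in `S`
  have hab : ∃ s₁ ∈ (S : Subgroup (Matrix.ProjectiveSpecialLinearGroup (Fin 2) F)),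
      ∃ s₂ ∈ (S : Subgroup (Matrix.ProjectiveSpecialLinearGroup (Fin 2) F)),
      s₁ ≠ s₂ ∧ s₁ ≠ 1 ∧ s₂ ≠ 1 ∧ s₁ * s₁ = 1 ∧ s₂ * s₂ = 1 := by
    obtain ⟨a, hadef⟩ : ∃ a : Matrix.ProjectiveSpecialLinearGroup (Fin 2) F,
        a = QuotientGroup.mk x₀ := ⟨_, rfl⟩
    obtain ⟨b, hbdef⟩ : ∃ b : Matrix.ProjectiveSpecialLinearGroup (Fin 2) F,
        b = QuotientGroup.mk y₀ := ⟨_, rfl⟩
    have haa : a * a = 1 := by rw [hadef, ← QuotientGroup.mk_mul, hx₀]; exact hNc
    have hbb : b * b = 1 := by rw [hbdef, ← QuotientGroup.mk_mul, hy₀]; exact hNc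
    have hcomm : Commute a b := by
      show a * b = b * a
      rw [hadef, hbdef, ← QuotientGroup.mk_mul, ← QuotientGroup.mk_mul, hxy,
        QuotientGroup.mk_mul, hNc, one_mul]
    have ha1 : a ≠ 1 := by
      rw [hadef]
      intro h
      rw [QuotientGroup.eq_one_iff] at h
      rcases sl2_center_cases _ h with h' | h'
      · rw [h', mul_one] at hx₀; exact sl2NegOne_ne_one h2 hx₀.symm
      · rw [h', sl2NegOne_mul_self] at hx₀; exact sl2NegOne_ne_one h2 hx₀.symm
    have hb1 : b ≠ 1 := by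
      rw [hbdef]
      intro h
      rw [QuotientGroup.eq_one_iff] at h
      rcases sl2_center_cases _ h with h' | h'
      · rw [h', mul_one] at hy₀; exact sl2NegOne_ne_one h2 hy₀.symm
      · rw [h', sl2NegOne_mul_self] at hy₀; exact sl2NegOne_ne_one h2 hy₀.symm
    have hab : a ≠ b := by
      rw [hadef, hbdef]
      intro h
      have h' : (QuotientGroup.mk y₀ : Matrix.ProjectiveSpecialLinearGroup (Fin 2) F) =
          QuotientGroup.mk x₀ := h.symm
      rw [QuotientGroup.eq] at h'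
      rcases sl2_center_cases _ h' with h3 | h3
      · rw [inv_mul_eq_one] at h3
        exact hne1 h3.symm
      · rw [inv_mul_eq_iff_eq_mul] at h3
        apply hne2
        rw [h3, sl2NegOne_comm]
    have hle : Subgroup.zpowers a ≤ Subgroup.normalizer ((Subgroup.zpowers b : Subgroup (Matrix.ProjectiveSpecialLinearGroup (Fin 2) F)) : Set (Matrix.ProjectiveSpecialLinearGroup (Fin 2) F)) := by
      refine (Subgroup.zpowers_le).2 (Subgroup.centralizer_le_normalizer _
        (Subgroup.mem_centralizer_iff.2 ?_))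
      rintro _ ⟨i, rfl⟩
      exact (hcomm.symm.zpow_left i).eq
    have hV : IsPGroup 2 (Subgroup.zpowers a ⊔ Subgroup.zpowers b :
        Subgroup (Matrix.ProjectiveSpecialLinearGroup (Fin 2) F)) :=
      IsPGroup.to_sup_of_normal_right'
        (isPGroup_zpowers_of_pow (k := 1) (by rw [pow_one, pow_two]; exact haa))
        (isPGroup_zpowers_of_pow (k := 1) (by rw [pow_one, pow_two]; exact hbb)) hle
    obtain ⟨g, hg⟩ := exists_conj_le_sylow S hV
    have hmem : ∀ y ∈ (Subgroup.zpowers a ⊔ Subgroup.zpowers b :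
        Subgroup (Matrix.ProjectiveSpecialLinearGroup (Fin 2) F)),
        g * y * g⁻¹ ∈ (S : Subgroup (Matrix.ProjectiveSpecialLinearGroup (Fin 2) F)) := by
      intro y hy
      apply hg
      rw [mem_conjBy]
      have h0 : g⁻¹ * (g * y * g⁻¹) * g = y := by group
      rw [h0]; exact hy
    refine ⟨g * a * g⁻¹, hmem a (Subgroup.mem_sup_left (Subgroup.mem_zpowers a)),
      g * b * g⁻¹, hmem b (Subgroup.mem_sup_right (Subgroup.mem_zpowers b)), ?_, ?_, ?_, ?_, ?_⟩
    · intro h
      exact hab (mul_left_cancel (mul_right_cancel h))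
    · intro h
      apply ha1
      have h0 : a = g⁻¹ * (g * a * g⁻¹) * g := by group
      rw [h0, h]; group
    · intro h
      apply hb1
      have h0 : b = g⁻¹ * (g * b * g⁻¹) * g := by group
      rw [h0, h]; group
    · calc g * a * g⁻¹ * (g * a * g⁻¹) = g * (a * a) * g⁻¹ := by group
        _ = 1 := by rw [haa]; group
    · calc g * b * g⁻¹ * (g * b * g⁻¹) = g * (b * b) * g⁻¹ := by group
        _ = 1 := by rw [hbb]; group
  have hC5 : ∃ s ∈ (S : Subgroup (Matrix.ProjectiveSpecialLinearGroup (Fin 2) F)), s ∉ C := by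
    obtain ⟨s₁, hs₁, s₂, hs₂, h12, h11, h21, h1s, h2s⟩ := hab
    by_contra hcon
    push Not at hcon
    rcases hC4 s₁ (hcon s₁ hs₁) h1s with h | h
    · exact h11 h
    · rcases hC4 s₂ (hcon s₂ hs₂) h2s with h' | h'
      · exact h21 h'
      · exact h12 (h.trans h'.symm)
  have hC6 : ∃ a ∈ (S : Subgroup (Matrix.ProjectiveSpecialLinearGroup (Fin 2) F)),
      a ∈ C ∧ a * a ≠ 1 := by
    by_contra hcon
    push Not at hcon
    obtain ⟨s₀, hs₀S, hs₀C⟩ := hC5
    have hs₀ := (hC3 s₀ (hzc s₀ hs₀S) hs₀C).1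
    have hsub : ((S : Subgroup (Matrix.ProjectiveSpecialLinearGroup (Fin 2) F)) :
        Set (Matrix.ProjectiveSpecialLinearGroup (Fin 2) F)) ⊆ {1, z, s₀, s₀ * z} := by
      intro s hs
      by_cases hsC : s ∈ C
      · rcases hC4 s hsC (hcon s hs hsC) with h | h
        · rw [h]; simp
        · rw [h]; simp
      · have hprod : s₀ * s ∈ C := by
          obtain ⟨g₀, hg₀⟩ := QuotientGroup.mk_surjective s₀
          obtain ⟨g₁, hg₁⟩ := QuotientGroup.mk_surjective s
          have h0 := hanti g₀ (by rw [hg₀]; exact hzc s₀ hs₀S) (by rw [hg₀]; exact hs₀C)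
          have h1 := hanti g₁ (by rw [hg₁]; exact hzc s hs) (by rw [hg₁]; exact hsC)
          refine (hCmem _).2 ⟨g₀ * g₁, sl2_anti_mul x g₀ g₁ h0 h1, ?_⟩
          rw [QuotientGroup.mk_mul, hg₀, hg₁]
        have hprodS : s₀ * s ∈ (S : Subgroup (Matrix.ProjectiveSpecialLinearGroup (Fin 2) F)) :=
          Subgroup.mul_mem _ hs₀S hs
        rcases hC4 _ hprod (hcon _ hprodS hprod) with h | h
        · have h3 : s = s₀ := by
            calc s = s₀ * s₀ * s := by rw [hs₀, one_mul]
              _ = s₀ * (s₀ * s) := mul_assoc _ _ _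
              _ = s₀ := by rw [h, mul_one]
          rw [h3]; simp
        · have h3 : s = s₀ * z := by
            calc s = s₀ * s₀ * s := by rw [hs₀, one_mul]
              _ = s₀ * (s₀ * s) := mul_assoc _ _ _
              _ = s₀ * z := by rw [h]
          rw [h3]; simp
    have hcard : Nat.card (S : Subgroup (Matrix.ProjectiveSpecialLinearGroup (Fin 2) F)) =
        Set.ncard ((S : Subgroup (Matrix.ProjectiveSpecialLinearGroup (Fin 2) F)) :
          Set (Matrix.ProjectiveSpecialLinearGroup (Fin 2) F)) :=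
      (Nat.card_coe_set_eq _)
    have h4 : Set.ncard ({1, z, s₀, s₀ * z} : Set (Matrix.ProjectiveSpecialLinearGroup (Fin 2) F)) ≤ 4 := by
      have h1 := Set.ncard_insert_le (1 : Matrix.ProjectiveSpecialLinearGroup (Fin 2) F) {z, s₀, s₀ * z}
      have h2 := Set.ncard_insert_le z ({s₀, s₀ * z} : Set (Matrix.ProjectiveSpecialLinearGroup (Fin 2) F))
      have h3 := Set.ncard_insert_le s₀ ({s₀ * z} : Set (Matrix.ProjectiveSpecialLinearGroup (Fin 2) F))
      have h5 : ({s₀ * z} : Set (Matrix.ProjectiveSpecialLinearGroup (Fin 2) F)).ncard = 1 :=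
        Set.ncard_singleton _
      omega
    have h5 := Set.ncard_le_ncard hsub (Set.toFinite _)
    omega
  exact simple_of_dihedral_type S z C hconj hzS hz1 hz2 hzc hC3 hC4 hC5 hC6

end Cfsg.Agent.S5317
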