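import Mathlib
import Cfsg.Statements.S5330
import Cfsg.Agent.Helper26.FusAbelian
-- import your own Cfsg.Agent.* helpers here

set_option autoImplicit false
open Cfsg

namespace Cfsg.Agent.S5330

/-- Let F be a saturated fusion system over a finite abelian p-group S. Then S is the internal direct product of the centre of the system and the focal subgroup: Z(F) ∩ foc(F) = 1 and Z(F)·foc(F) = S. -/
theorem result {Ω : Type*} [Group Ω] {S : Subgroup Ω} [Finite S] (p : ℕ) [Fact p.Prime] (hS : IsPGroup p S) (F : Cfsg.FusionSystem S) (hF : F.IsSaturated p) (hab : ∀ x ∈ S, ∀ y ∈ S, x * y = y * x) : F.center ⊓ F.focalSubgroup = ⊥ ∧ F.center ⊔ F.focalSubgroup = S := by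
  have hIMC : IsMulCommutative S := ⟨⟨fun a b => Subtype.ext (hab a a.2 b b.2)⟩⟩
  have hnd := Helper26.abelian_not_dvd hS F hF hab
  obtain ⟨n, hn⟩ := (IsPGroup.iff_card).1 hS
  have hcop : (Nat.card (F.autGroup S)).Coprime (Nat.card S) := by
    rw [hn]
    exact Nat.Coprime.pow_right n ((Nat.Prime.coprime_iff_not_dvd Fact.out).2 hnd).symm
  have hfocS : F.focalSubgroup ≤ S := by
    refine (Subgroup.closure_le _).2 ?_
    rintro _ ⟨P, φ, x, hφ, rfl⟩
    exact S.mul_mem (S.inv_mem ((F.le_of_mem hφ).1 x.2)) ((F.le_of_mem hφ).2 x)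
  have hC1 : (F.focalSubgroup).subgroupOf S ≤
      Subgroup.closure {y : S | ∃ a ∈ F.autGroup S, ∃ v : S, y = v⁻¹ * a v} := by
    have h1 : F.focalSubgroup ≤ (Subgroup.closure
        {y : S | ∃ a ∈ F.autGroup S, ∃ v : S, y = v⁻¹ * a v}).map S.subtype := by
      refine (Subgroup.closure_le _).2 ?_
      rintro _ ⟨P, φ, x, hφ, rfl⟩
      have hPS := (F.le_of_mem hφ).1
      obtain ⟨α, hα, hαx⟩ := Helper26.abelian_extend hS F hF hab P hPS φ hφ
      refine ⟨(⟨x, hPS x.2⟩ : S)⁻¹ * α ⟨x, hPS x.2⟩,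
        Subgroup.subset_closure ⟨α, hα, _, rfl⟩, ?_⟩
      rw [hαx x (hPS x.2)]; rfl
    intro y hy
    obtain ⟨c, hc, hcy⟩ := h1 (Subgroup.mem_subgroupOf.1 hy)
    have : c = y := Subtype.ext hcy
    rw [← this]; exact hc
  have hC2 : ∀ a ∈ F.autGroup S, ∀ v : S, v⁻¹ * a v ∈ (F.focalSubgroup).subgroupOf S := by
    intro a ha v
    rw [Subgroup.mem_subgroupOf]
    exact Subgroup.subset_closure ⟨S, S.subtype.comp a.toMonoidHom, v,
      (Helper26.mem_autGroup_iff F le_rfl a).1 ha, rfl⟩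
  obtain ⟨h1, h2⟩ := Helper26.coprime_abelian_decomp (F.autGroup S) hcop _ hC1 hC2
  rw [Helper26.abelian_center hS F hF hab]
  constructor
  · rw [Subgroup.eq_bot_iff_forall]
    rintro x ⟨⟨v, hv, rfl⟩, hx2⟩
    have h3 : v ∈ Helper26.fixedSub (F.autGroup S) ⊓ (F.focalSubgroup).subgroupOf S :=
      ⟨hv, Subgroup.mem_subgroupOf.2 hx2⟩
    rw [h1, Subgroup.mem_bot] at h3
    rw [h3]; rfl
  · apply le_antisymm (sup_le (Subgroup.map_subtype_le _) hfocS)
    intro x hx
    have h3 : (⟨x, hx⟩ : S) ∈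
        Helper26.fixedSub (F.autGroup S) ⊔ (F.focalSubgroup).subgroupOf S := by
      rw [h2]; exact Subgroup.mem_top _
    obtain ⟨y, hy, z, hz, hyz⟩ := Helper26.mem_sup_of_normalizes
      (P := Helper26.fixedSub (F.autGroup S)) (Q := (F.focalSubgroup).subgroupOf S)
      (fun a _ q hq => by
        have hc : a * q = q * a := Subtype.ext (hab a a.2 q q.2)
        rw [hc, mul_inv_cancel_right]; exact hq) h3
    have e : x = (y : Ω) * (z : Ω) := congrArg Subtype.val hyz
    rw [e]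
    exact Subgroup.mul_mem _ (Subgroup.mem_sup_left ⟨y, hy, rfl⟩)
      (Subgroup.mem_sup_right (Subgroup.mem_subgroupOf.1 hz))

end Cfsg.Agent.S5330
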