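import Mathlib
import Cfsg.Statements.S5331
import Cfsg.Agent.Helper26.OddAut
import Cfsg.Agent.Helper26.FusAbelian
-- import your own Cfsg.Agent.* helpers here

set_option autoImplicit false
open Cfsg

namespace Cfsg.Agent.S5331

/-- Let S be a finite abelian 2-group that is a direct product of cyclic groups of pairwise distinct orders 2^{a_1} < 2^{a_2} < ⋯ < 2^{a_n} (all a_i ≥ 1). Then every saturated fusion system over S is the inner one: its maps are exactly the conjugations by elements of S. -/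
theorem result {Ω : Type*} [Group Ω] {S : Subgroup Ω} [Finite S] (n : ℕ) (a : Fin n → ℕ) (ha : StrictMono a) (ha1 : ∀ i, 1 ≤ a i) (e : ↥S ≃* Multiplicative ((i : Fin n) → ZMod (2 ^ a i))) (F : Cfsg.FusionSystem S) (hF : F.IsSaturated 2) (P : Subgroup Ω) : F.Hom P = (Cfsg.innerFusionSystem S).Hom P := by
  have hcard : Nat.card S = 2 ^ (∑ i, a i) := by
    rw [Nat.card_congr (e.toEquiv.trans Multiplicative.toAdd), Nat.card_pi]
    simp only [Nat.card_zmod]
    exact Finset.prod_pow_eq_pow_sum _ _ _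
  have hS : IsPGroup 2 S := IsPGroup.of_card hcard
  have hab : ∀ x ∈ S, ∀ y ∈ S, x * y = y * x := by
    intro x hx y hy
    have h1 : e (⟨x, hx⟩ * ⟨y, hy⟩) = e (⟨y, hy⟩ * ⟨x, hx⟩) := by
      rw [map_mul, map_mul, mul_comm]
    exact congrArg Subtype.val (e.injective h1)
  have hodd : ¬ 2 ∣ Nat.card (F.autGroup S) := Helper26.abelian_not_dvd hS F hF hab
  have htriv : ∀ α ∈ F.autGroup S, α = 1 := by
    intro α hα
    refine Helper26.mulAut_eq_one_of_odd a ha ha1 e α (Nat.card (F.autGroup S))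
      (Nat.not_even_iff_odd.1 (fun h => hodd (even_iff_two_dvd.1 h))) ?_
    have h1 : (⟨α, hα⟩ : F.autGroup S) ^ Nat.card (F.autGroup S) = 1 := pow_card_eq_one'
    exact congrArg Subtype.val h1
  ext φ
  constructor
  · intro hφ
    have hPS : P ≤ S := (F.le_of_mem hφ).1
    obtain ⟨α, hα, hαx⟩ := Helper26.abelian_extend hS F hF hab P hPS φ hφ
    refine ⟨hPS, 1, S.one_mem, fun x => ?_⟩
    rw [hαx x (hPS x.2), htriv α hα]
    simp
  · rintro ⟨hPS, g, hg, hφ⟩
    exact Helper26.fs_conj F hPS hg hφ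

end Cfsg.Agent.S5331
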