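import Mathlib
import Cfsg.Statements.S5396
import Cfsg.Agent.Helper19.ES2Rank
import Cfsg.Agent.S3763
import Cfsg.Agent.S4208
import Cfsg.Agent.S4056

set_option autoImplicit false

open Cfsg

namespace Cfsg.Agent.S5396

open Cfsg.Agent.Helper19.ES2

/-- The cocycle: a bilinear form on `(F₂²)ⁿ` whose diagonal is a quadratic form of plus or minus
type according to `ε`. -/
def bet {n : ℕ} (ε : Fin n → ZMod 2) (u v : Fin n → ZMod 2 × ZMod 2) : ZMod 2 :=
  ∑ i, ((u i).1 * (v i).2 + ε i * ((u i).1 * (v i).1 + (u i).2 * (v i).2))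

theorem bet_add_left {n : ℕ} (ε : Fin n → ZMod 2) (u u' v : Fin n → ZMod 2 × ZMod 2) :
    bet ε (u + u') v = bet ε u v + bet ε u' v := by
  unfold bet
  rw [← Finset.sum_add_distrib]
  apply Finset.sum_congr rfl
  intro i _
  simp only [Pi.add_apply, Prod.fst_add, Prod.snd_add]
  ring

theorem bet_add_right {n : ℕ} (ε : Fin n → ZMod 2) (u v v' : Fin n → ZMod 2 × ZMod 2) :
    bet ε u (v + v') = bet ε u v + bet ε u v' := by
  unfold bet
  rw [← Finset.sum_add_distrib]
  apply Finset.sum_congr rfl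
  intro i _
  simp only [Pi.add_apply, Prod.fst_add, Prod.snd_add]
  ring

theorem bet_zero_left {n : ℕ} (ε : Fin n → ZMod 2) (v : Fin n → ZMod 2 × ZMod 2) :
    bet ε 0 v = 0 := by
  unfold bet; simp

theorem bet_zero_right {n : ℕ} (ε : Fin n → ZMod 2) (u : Fin n → ZMod 2 × ZMod 2) :
    bet ε u 0 = 0 := by
  unfold bet; simp

theorem bet_single_right {n : ℕ} (ε : Fin n → ZMod 2) (u : Fin n → ZMod 2 × ZMod 2) (i : Fin n)
    (p : ZMod 2 × ZMod 2) :
    bet ε u (Pi.single i p) = (u i).1 * p.2 + ε i * ((u i).1 * p.1 + (u i).2 * p.2) := by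
  unfold bet
  rw [Finset.sum_eq_single i]
  · rw [Pi.single_eq_same]
  · intro j _ hj
    rw [Pi.single_eq_of_ne hj]
    simp
  · intro h; exact absurd (Finset.mem_univ i) h

theorem bet_single_left {n : ℕ} (ε : Fin n → ZMod 2) (v : Fin n → ZMod 2 × ZMod 2) (i : Fin n)
    (p : ZMod 2 × ZMod 2) :
    bet ε (Pi.single i p) v = p.1 * (v i).2 + ε i * (p.1 * (v i).1 + p.2 * (v i).2) := by
  unfold bet
  rw [Finset.sum_eq_single i]
  · rw [Pi.single_eq_same]
  · intro j _ hj
    rw [Pi.single_eq_of_ne hj]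
    simp
  · intro h; exact absurd (Finset.mem_univ i) h

/-- The central extension of `(F₂²)ⁿ` by `F₂` defined by the cocycle `bet ε`. -/
@[ext] structure HE (n : ℕ) (ε : Fin n → ZMod 2) where
  c : ZMod 2
  w : Fin n → ZMod 2 × ZMod 2

variable {n : ℕ} {ε : Fin n → ZMod 2}

instance : Mul (HE n ε) := ⟨fun x y => ⟨x.c + y.c + bet ε x.w y.w, x.w + y.w⟩⟩

instance : One (HE n ε) := ⟨⟨0, 0⟩⟩

instance : Inv (HE n ε) := ⟨fun x => ⟨x.c + bet ε x.w x.w, x.w⟩⟩

theorem add_self_w (u : Fin n → ZMod 2 × ZMod 2) : u + u = 0 := by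
  funext i
  exact Prod.ext (CharTwo.add_self_eq_zero _) (CharTwo.add_self_eq_zero _)

instance : Group (HE n ε) :=
  Group.ofLeftAxioms
    (fun x y z => by
      apply HE.ext
      · show x.c + y.c + bet ε x.w y.w + z.c + bet ε (x.w + y.w) z.w
          = x.c + (y.c + z.c + bet ε y.w z.w) + bet ε x.w (y.w + z.w)
        rw [bet_add_left, bet_add_right]; ring
      · show x.w + y.w + z.w = x.w + (y.w + z.w)
        rw [add_assoc])
    (fun x => by
      apply HE.ext
      · show (0 : ZMod 2) + x.c + bet ε 0 x.w = x.c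
        rw [bet_zero_left]; ring
      · show (0 : Fin n → ZMod 2 × ZMod 2) + x.w = x.w
        rw [zero_add])
    (fun x => by
      apply HE.ext
      · show x.c + bet ε x.w x.w + x.c + bet ε x.w x.w = 0
        have : x.c + bet ε x.w x.w + x.c + bet ε x.w x.w
            = (x.c + bet ε x.w x.w) + (x.c + bet ε x.w x.w) := by ring
        rw [this, CharTwo.add_self_eq_zero]
      · show x.w + x.w = 0
        exact add_self_w x.w)

theorem mul_c (x y : HE n ε) : (x * y).c = x.c + y.c + bet ε x.w y.w := rfl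

theorem mul_w (x y : HE n ε) : (x * y).w = x.w + y.w := rfl

theorem one_c : (1 : HE n ε).c = 0 := rfl

theorem one_w : (1 : HE n ε).w = 0 := rfl

theorem inv_w (x : HE n ε) : x⁻¹.w = x.w := rfl

/-- The underlying set. -/
def equivProd (n : ℕ) (ε : Fin n → ZMod 2) : HE n ε ≃ ZMod 2 × (Fin n → ZMod 2 × ZMod 2) where
  toFun x := (x.c, x.w)
  invFun p := ⟨p.1, p.2⟩
  left_inv _ := rfl
  right_inv _ := rfl

noncomputable instance : Fintype (HE n ε) := Fintype.ofEquiv _ (equivProd n ε).symm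

theorem card_HE : Nat.card (HE n ε) = 2 ^ (2 * n + 1) := by
  rw [Nat.card_congr (equivProd n ε), Nat.card_prod, Nat.card_fun, Nat.card_prod, Nat.card_zmod,
    Nat.card_fin, pow_succ, pow_mul]
  ring

/-- The central involution. -/
def zz (n : ℕ) (ε : Fin n → ZMod 2) : HE n ε := ⟨1, 0⟩

theorem c_cases : ∀ t : ZMod 2, t = 0 ∨ t = 1 := by decide

theorem one_ne_zero2 : (1 : ZMod 2) ≠ 0 := by decide

theorem one_add_one2 : (1 : ZMod 2) + 1 = 0 := by decide

theorem eq_one_or_zz (x : HE n ε) (hw : x.w = 0) : x = 1 ∨ x = zz n ε := by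
  rcases c_cases x.c with h | h
  · left; exact HE.ext h hw
  · right; exact HE.ext h hw

theorem sq_eq (x : HE n ε) : x * x = ⟨bet ε x.w x.w, 0⟩ := by
  apply HE.ext
  · rw [mul_c, CharTwo.add_self_eq_zero, zero_add]
  · rw [mul_w, add_self_w]

theorem amb : Amb (zz n ε) := by
  refine ⟨?_, ?_, ?_, ?_, ?_⟩
  · intro h
    have h' : (1 : ZMod 2) = 0 := congrArg HE.c h
    exact one_ne_zero2 h'
  · apply HE.ext
    · show (1 : ZMod 2) + 1 + bet ε 0 0 = 0
      rw [bet_zero_left, one_add_one2, add_zero]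
    · show (0 : Fin n → ZMod 2 × ZMod 2) + 0 = 0
      rw [add_zero]
  · intro g
    apply HE.ext
    · show g.c + 1 + bet ε g.w 0 = 1 + g.c + bet ε 0 g.w
      rw [bet_zero_left, bet_zero_right]; ring
    · show g.w + 0 = 0 + g.w
      rw [add_zero, zero_add]
  · intro x
    apply eq_one_or_zz
    rw [mul_w, add_self_w]
  · intro x y
    apply eq_one_or_zz
    rw [mul_w, mul_w, mul_w, inv_w, inv_w]
    have : x.w + y.w + x.w + y.w = (x.w + y.w) + (x.w + y.w) := by abel
    rw [this, add_self_w]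

theorem nd : ND (zz n ε) (⊤ : Subgroup (HE n ε)) := by
  refine ⟨Subgroup.mem_top _, ?_⟩
  intro g _ hg
  apply eq_one_or_zz
  funext i
  have h1 := hg ⟨0, Pi.single i (0, 1)⟩ (Subgroup.mem_top _)
  have h2 := hg ⟨0, Pi.single i (1, 0)⟩ (Subgroup.mem_top _)
  have h1c := congrArg HE.c h1
  have h2c := congrArg HE.c h2
  rw [mul_c, mul_c, bet_single_right, bet_single_left] at h1c h2c
  dsimp only at h1c h2c
  have ha : (g.w i).1 = 0 := by linear_combination h1c
  have hb : (g.w i).2 = 0 := by linear_combination (-1 : ZMod 2) * h2c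
  exact Prod.ext ha hb

theorem extraspecial (i₀ : Fin n) : Cfsg.IsExtraspecial 2 (HE n ε) := by
  have hz := amb (n := n) (ε := ε)
  have hnd := nd (n := n) (ε := ε)
  haveI : Fact (Nat.Prime 2) := ⟨Nat.prime_two⟩
  have hcard := card_HE (n := n) (ε := ε)
  obtain ⟨hcomm, -⟩ := Cfsg.Agent.S4208.frattini_quot 2 hcard
  have hcen : ∀ g : HE n ε, g ∈ Subgroup.center (HE n ε) ↔ (g = 1 ∨ g = zz n ε) := by
    intro g
    constructor
    · intro hg
      exact hnd.2 g (Subgroup.mem_top _) (fun h _ => (Subgroup.mem_center_iff.mp hg h).symm)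
    · rintro (h | h)
      · rw [h]; exact Subgroup.one_mem _
      · rw [h, Subgroup.mem_center_iff]; exact fun g => hz.z_c g
  have hzcomm : ∃ x y : HE n ε, x * y * x⁻¹ * y⁻¹ = zz n ε := by
    refine ⟨⟨0, Pi.single i₀ (0, 1)⟩, ⟨0, Pi.single i₀ (1, 0)⟩, ?_⟩
    apply comm_eq_z hz
    rw [kap_eq_neg_one_iff hz]
    intro h
    have hc := congrArg HE.c h
    rw [mul_c, mul_c, bet_single_right, bet_single_right] at hc
    dsimp only at hc
    simp only [Pi.single_eq_same] at hc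
    have h10 : (1 : ZMod 2) = 0 := by linear_combination (-1 : ZMod 2) * hc
    exact one_ne_zero2 h10
  refine ⟨⟨IsPGroup.of_card hcard, ?_, ?_⟩, ?_⟩
  · apply le_antisymm
    · apply Cfsg.Agent.S4056.frattini_le_of_sq_mem
      intro x
      rw [hcen, pow_two]
      exact hz.sq x
    · intro g hg
      rcases (hcen g).mp hg with h | h
      · rw [h]; exact Subgroup.one_mem _
      · obtain ⟨x, y, hxy⟩ := hzcomm
        rw [h, ← hxy]; exact hcomm x y
  · apply le_antisymm
    · rw [commutator_def, Subgroup.commutator_le]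
      intro g₁ _ g₂ _
      rw [hcen, commutatorElement_def]
      exact hz.cm g₁ g₂
    · intro g hg
      rcases (hcen g).mp hg with h | h
      · rw [h]; exact Subgroup.one_mem _
      · obtain ⟨x, y, hxy⟩ := hzcomm
        rw [h, ← hxy, commutator_def, ← commutatorElement_def]
        exact Subgroup.commutator_mem_commutator (Subgroup.mem_top x) (Subgroup.mem_top y)
  · rw [Nat.card_eq_two_iff]
    refine ⟨1, ⟨zz n ε, (hcen _).mpr (Or.inr rfl)⟩, ?_, ?_⟩
    · intro h
      have h' := congrArg Subtype.val h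
      exact hz.z_ne h'.symm
    · ext u
      simp only [Set.mem_insert_iff, Set.mem_singleton_iff, Set.mem_univ, iff_true]
      rcases (hcen u.1).mp u.2 with h | h
      · left; exact Subtype.ext h
      · right; exact Subtype.ext h

/-- The sign function on `ZMod 2`. -/
def chi (t : ZMod 2) : ℤ := if t = 0 then 1 else -1

theorem chi_add : ∀ s t : ZMod 2, chi (s + t) = chi s * chi t := by decide

theorem chi_zero : chi 0 = 1 := by decide

theorem chi_one : chi 1 = -1 := by decide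

theorem chi_sum {ι : Type*} (s : Finset ι) (f : ι → ZMod 2) :
    chi (∑ i ∈ s, f i) = ∏ i ∈ s, chi (f i) := by
  classical
  induction s using Finset.induction_on with
  | empty => simp [chi_zero]
  | insert a s ha ih => rw [Finset.sum_insert ha, Finset.prod_insert ha, chi_add, ih]

theorem local_sum : ∀ e : ZMod 2,
    ∑ p : ZMod 2 × ZMod 2, chi (p.1 * p.2 + e * (p.1 * p.1 + p.2 * p.2))
      = if e = 0 then 2 else -2 := by decide

theorem Q_eq_chi (x : HE n ε) : ((Q (zz n ε) x : ℤˣ) : ℤ) = chi (bet ε x.w x.w) := by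
  have hz := amb (n := n) (ε := ε)
  rcases c_cases (bet ε x.w x.w) with h | h
  · have : x * x = 1 := by rw [sq_eq, h]; rfl
    rw [(Q_eq_one_iff hz x).mpr this, h, chi_zero]; rfl
  · have : x * x = zz n ε := by rw [sq_eq, h]; rfl
    rw [(Q_eq_neg_one_iff hz x).mpr this, h, chi_one]; rfl

theorem T_eq : T (zz n ε) (⊤ : Subgroup (HE n ε))
    = 2 * ∏ i : Fin n, (if ε i = 0 then (2 : ℤ) else -2) := by
  have h1 : T (zz n ε) (⊤ : Subgroup (HE n ε)) = ∑ g : HE n ε, chi (bet ε g.w g.w) := by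
    unfold T sumOn
    apply Finset.sum_congr rfl
    intro g _
    rw [Set.indicator_of_mem (Subgroup.mem_top g)]
    exact Q_eq_chi g
  rw [h1, ← Equiv.sum_comp (equivProd n ε).symm (fun g : HE n ε => chi (bet ε g.w g.w))]
  have h2 : ∀ p : ZMod 2 × (Fin n → ZMod 2 × ZMod 2),
      chi (bet ε ((equivProd n ε).symm p).w ((equivProd n ε).symm p).w)
        = ∏ i, chi ((p.2 i).1 * (p.2 i).2
            + ε i * ((p.2 i).1 * (p.2 i).1 + (p.2 i).2 * (p.2 i).2)) := by
    intro p
    show chi (bet ε p.2 p.2) = _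
    unfold bet
    rw [chi_sum]
  rw [Finset.sum_congr rfl (fun p _ => h2 p), Fintype.sum_prod_type]
  dsimp only
  rw [Finset.sum_const, Finset.card_univ, ZMod.card, nsmul_eq_mul]
  have h3 : ∑ w : Fin n → ZMod 2 × ZMod 2,
      ∏ i, chi ((w i).1 * (w i).2 + ε i * ((w i).1 * (w i).1 + (w i).2 * (w i).2))
      = ∏ i : Fin n, ∑ p : ZMod 2 × ZMod 2,
          chi (p.1 * p.2 + ε i * (p.1 * p.1 + p.2 * p.2)) := by
    have h := Finset.sum_prod_piFinset (Finset.univ : Finset (ZMod 2 × ZMod 2))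
      (fun (i : Fin n) (p : ZMod 2 × ZMod 2) =>
        chi (p.1 * p.2 + ε i * (p.1 * p.1 + p.2 * p.2)))
    rw [Fintype.piFinset_univ] at h
    exact h
  rw [h3]
  have h4 : ∀ i : Fin n, ∑ p : ZMod 2 × ZMod 2,
      chi (p.1 * p.2 + ε i * (p.1 * p.1 + p.2 * p.2)) = if ε i = 0 then (2 : ℤ) else -2 :=
    fun i => local_sum (ε i)
  rw [Finset.prod_congr rfl (fun i _ => h4 i)]
  norm_num

theorem rank_sup {E : Type*} [Group E] [Finite E] (N r : ℕ) (hcard : Nat.card E = 2 ^ N)
    (h1 : Cfsg.PRankLE 2 r E) (h2 : ¬ Cfsg.PRankLE 2 (r - 1) E) (hr1 : 1 ≤ r) :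
    sSup {k : ℕ | ∃ A : Subgroup E, Cfsg.IsElementaryAbelian 2 A ∧ Nat.card A = 2 ^ k} = r := by
  have hmem : r ∈ {k : ℕ | ∃ A : Subgroup E, Cfsg.IsElementaryAbelian 2 A
      ∧ Nat.card A = 2 ^ k} := by
    unfold Cfsg.PRankLE at h2
    push Not at h2
    obtain ⟨A, hA1, hA2, hA3⟩ := h2
    have hle := h1 A hA1 hA2
    have hdvd : Nat.card A ∣ 2 ^ N := by rw [← hcard]; exact Subgroup.card_subgroup_dvd_card A
    obtain ⟨j, -, hj⟩ := (Nat.dvd_prime_pow Nat.prime_two).mp hdvd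
    rw [hj] at hle hA3
    have hj1 : j ≤ r := (Nat.pow_le_pow_iff_right (by norm_num)).mp hle
    have hj2 : r - 1 < j := (Nat.pow_lt_pow_iff_right (by norm_num)).mp hA3
    have hjr : j = r := by omega
    exact ⟨A, ⟨hA1, hA2⟩, by rw [hj, hjr]⟩
  have hbd : ∀ k ∈ {k : ℕ | ∃ A : Subgroup E, Cfsg.IsElementaryAbelian 2 A
      ∧ Nat.card A = 2 ^ k}, k ≤ r := by
    rintro k ⟨A, ⟨hA1, hA2⟩, hA3⟩
    have hle := h1 A hA1 hA2
    rw [hA3] at hle
    exact (Nat.pow_le_pow_iff_right (by norm_num)).mp hle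
  apply le_antisymm
  · exact csSup_le ⟨r, hmem⟩ hbd
  · exact le_csSup ⟨r, hbd⟩ hmem

theorem result (n : ℕ) (hn : 1 ≤ n) : ∀ r ∈ ({n, n + 1} : Set ℕ), ∃ (E : Type) (_ : Group E) (_ : Finite E), Cfsg.IsExtraspecial 2 E ∧ Nat.card E = 2 ^ (2 * n + 1) ∧ sSup {k : ℕ | ∃ A : Subgroup E, Cfsg.IsElementaryAbelian 2 A ∧ Nat.card A = 2 ^ k} = r := by
  intro r hr
  obtain ⟨m, rfl⟩ : ∃ m, n = m + 1 := ⟨n - 1, by omega⟩
  rcases hr with rfl | hr
  · let ε : Fin (m + 1) → ZMod 2 := fun i => if i = 0 then 1 else 0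
    refine ⟨HE (m + 1) ε, inferInstance, inferInstance, extraspecial 0, card_HE, ?_⟩
    have hT : T (zz (m + 1) ε) (⊤ : Subgroup (HE (m + 1) ε)) < 0 := by
      rw [T_eq, Fin.prod_univ_succ]
      have h0 : (if ε 0 = 0 then (2 : ℤ) else -2) = -2 := by
        have : ε 0 = 1 := if_pos rfl
        rw [this, if_neg one_ne_zero2]
      have h1 : ∀ i : Fin m, (if ε i.succ = 0 then (2 : ℤ) else -2) = 2 := by
        intro i
        have : ε i.succ = 0 := if_neg (Fin.succ_ne_zero i)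
        rw [this, if_pos rfl]
      rw [h0, Finset.prod_congr rfl (fun i _ => h1 i), Finset.prod_const, Finset.card_univ,
        Fintype.card_fin]
      have : (0 : ℤ) < 2 ^ m := by positivity
      linarith
    obtain ⟨-, -, hr2, -, hr4⟩ := Cfsg.Agent.S3763.key (amb (n := m + 1) (ε := ε)) nd (m + 1)
      card_HE
    exact rank_sup (2 * (m + 1) + 1) (m + 1) card_HE (hr2 hT) (hr4 hT (by omega)) (by omega)
  · have hr' : r = m + 1 + 1 := hr
    subst hr'
    refine ⟨HE (m + 1) 0, inferInstance, inferInstance, extraspecial 0, card_HE, ?_⟩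
    have hT : 0 < T (zz (m + 1) (0 : Fin (m + 1) → ZMod 2))
        (⊤ : Subgroup (HE (m + 1) (0 : Fin (m + 1) → ZMod 2))) := by
      rw [T_eq]
      have h1 : ∀ i : Fin (m + 1),
          (if (0 : Fin (m + 1) → ZMod 2) i = 0 then (2 : ℤ) else -2) = 2 := fun i => if_pos rfl
      rw [Finset.prod_congr rfl (fun i _ => h1 i), Finset.prod_const]
      positivity
    obtain ⟨-, hr1, -, hr3, -⟩ := Cfsg.Agent.S3763.key
      (amb (n := m + 1) (ε := (0 : Fin (m + 1) → ZMod 2))) nd (m + 1) card_HE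
    exact rank_sup (2 * (m + 1) + 1) (m + 1 + 1) card_HE hr1 (hr3 hT) (by omega)

end Cfsg.Agent.S5396
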