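import Cfsg.Statements.S5521
import Cfsg.Agent.Helper28.M24Trans

set_option autoImplicit false
open Cfsg

namespace Cfsg.Agent.S5521

open Cfsg.Agent.Helper28 Cfsg.Agent.Helper28.Golay

theorem exists_emb5_onto (s : Finset GolayPt) (hs : s.card = 5) :
    ∃ x : Fin 5 ↪ GolayPt, (∀ i, x i ∈ s) ∧ ∀ p ∈ s, ∃ i, x i = p := by
  refine ⟨(Finset.equivFinOfCardEq hs).symm.toEmbedding.trans (Function.Embedding.subtype _),
    fun i => ((Finset.equivFinOfCardEq hs).symm i).2,
    fun p hp => ⟨Finset.equivFinOfCardEq hs ⟨p, hp⟩, ?_⟩⟩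
  show (((Finset.equivFinOfCardEq hs).symm (Finset.equivFinOfCardEq hs ⟨p, hp⟩) : s) : GolayPt) = p
  rw [Equiv.symm_apply_apply]

theorem base5_mem : ∀ i : Fin 5, ∃ j ∈ [5, 4, 2, 0, 23], base5 i = pt j := by decide +kernel

theorem base7_mem : ∀ i ∈ [6, 1, 5, 4, 2, 0, 23], pt i ∈ toSet 8388727 := by decide +kernel

theorem card_base7 : (toSet 8388727).card = 7 := by decide +kernel

theorem card_univ_ge : 6 ≤ (Finset.univ : Finset GolayPt).card := by decide +kernel

/-- The Mathieu group M₂₄ in its natural action on the 24 coordinate positions of the binary Golay code has minimal base size exactly 7: every set of at most 6 positions is fixed pointwise by some non-identity element of M₂₄, while some set of 7 positions is fixed pointwise only by the identity. -/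
theorem result :
    (∀ B : Finset Cfsg.GolayPt, B.card ≤ 6 → ∃ g ∈ Cfsg.M24, g ≠ 1 ∧ ∀ b ∈ B, g b = b) ∧
    (∃ B : Finset Cfsg.GolayPt, B.card = 7 ∧ ∀ g ∈ Cfsg.M24, (∀ b ∈ B, g b = b) → g = 1) := by
  constructor
  · intro B hB
    obtain ⟨B', hBB', -, hB'⟩ := Finset.exists_subsuperset_card_eq (Finset.subset_univ B) hB
      card_univ_ge
    have hne : B'.Nonempty := by
      rw [← Finset.card_pos, hB']
      norm_num
    obtain ⟨y, hy⟩ := hne
    have h5 : (B'.erase y).card = 5 := by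
      rw [Finset.card_erase_of_mem hy, hB']
    obtain ⟨x, hx, hx'⟩ := exists_emb5_onto (B'.erase y) h5
    obtain ⟨σ, hσ, hσx⟩ := exists_map_base x
    have h1 := card_eq_orbit_mul_stab (Gfix [5, 4, 2, 0, 23]) (σ⁻¹ y)
    have h2 : (MulAction.orbit ↥(Gfix [5, 4, 2, 0, 23]) (σ⁻¹ y)).ncard ≤ 24 := by
      have := Set.ncard_le_card (MulAction.orbit ↥(Gfix [5, 4, 2, 0, 23]) (σ⁻¹ y))
      rwa [card_GolayPt] at this
    have h3 : Gfix [5, 4, 2, 0, 23] ⊓ MulAction.stabilizer (Equiv.Perm GolayPt) (σ⁻¹ y) ≠ ⊥ := by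
      intro hbot
      rw [hbot, Subgroup.card_bot, mul_one, card_Gfix5] at h1
      omega
    rw [Ne, Subgroup.eq_bot_iff_forall] at h3
    push_neg at h3
    obtain ⟨k, ⟨hk, hky⟩, hk1⟩ := h3
    have hky' : k (σ⁻¹ y) = σ⁻¹ y := hky
    refine ⟨σ * k * σ⁻¹, M24.mul_mem (M24.mul_mem hσ hk.1) (M24.inv_mem hσ), ?_, ?_⟩
    · intro h
      exact hk1 (conj_eq_one_iff.1 h)
    · intro b hb
      have hb' := hBB' hb
      by_cases hby : b = y
      · rw [hby, Equiv.Perm.mul_apply, Equiv.Perm.mul_apply, hky', perm_apply_inv]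
      · obtain ⟨i, rfl⟩ := hx' b (Finset.mem_erase.2 ⟨hby, hb'⟩)
        obtain ⟨j, hj, e⟩ := base5_mem i
        rw [← hσx i, Equiv.Perm.mul_apply, Equiv.Perm.mul_apply, perm_inv_apply, e, hk.2 j hj]
  · refine ⟨toSet 8388727, card_base7, fun g hg hfix => ?_⟩
    have h1 : g ∈ Gfix [6, 1, 5, 4, 2, 0, 23] :=
      mem_Gfix.2 ⟨hg, fun i hi => hfix (pt i) (base7_mem i hi)⟩
    rw [triv_sound lvT] at h1
    exact Subgroup.mem_bot.1 h1

end Cfsg.Agent.S5521
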