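import Cfsg.Statements.S5562
-- import your own Cfsg.Agent.* helpers here

set_option autoImplicit false
open Cfsg

namespace Cfsg.Agent.S5562

lemma mem_conj_iff {G : Type*} [Group G] {a b : G} : a ∈ conjugatesOf b ↔ IsConj b a := Iff.rfl

/-- Let G be a finite group, d an involution of G whose conjugates pairwise have products of odd order, and x any involution of G. Then the conjugacy class of d is the disjoint union, over the conjugates a of d commuting with x, of the sets of conjugates of d commuting with ax: every conjugate of d commutes with ax for exactly one conjugate a of d that commutes with x. -/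
theorem result {G : Type*} [Group G] [Finite G] (d : G) (hd : orderOf d = 2)
    (hodd : ∀ a ∈ conjugatesOf d, ∀ b ∈ conjugatesOf d, Odd (orderOf (a * b)))
    (x : G) (hx : orderOf x = 2) :
    ∀ e ∈ conjugatesOf d,
      ∃! a : G, a ∈ conjugatesOf d ∧ Commute a x ∧ Commute e (a * x) := by
  intro e he
  have hdd : d * d = 1 := by rw [← pow_two, ← hd]; exact pow_orderOf_eq_one d
  have hxx : x * x = 1 := by rw [← pow_two, ← hx]; exact pow_orderOf_eq_one x
  have hinv : ∀ t ∈ conjugatesOf d, t * t = 1 := by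
    intro t ht
    rw [mem_conj_iff, isConj_iff] at ht
    obtain ⟨c, rfl⟩ := ht
    calc c * d * c⁻¹ * (c * d * c⁻¹) = c * (d * d) * c⁻¹ := by group
      _ = 1 := by rw [hdd]; group
  have hee : e * e = 1 := hinv e he
  have hxinv : x⁻¹ = x := inv_eq_of_mul_eq_one_left hxx
  obtain ⟨f, hf⟩ : ∃ f : G, f = x * e * x⁻¹ := ⟨_, rfl⟩
  have hfc : f ∈ conjugatesOf d := by
    rw [mem_conj_iff] at he ⊢
    exact he.trans (isConj_iff.mpr ⟨x, hf.symm⟩)
  have hff : f * f = 1 := hinv f hfc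
  obtain ⟨r, hr⟩ : ∃ r : G, r = f * e := ⟨_, rfl⟩
  have hrinv : r⁻¹ = e * f := by
    rw [hr, mul_inv_rev, inv_eq_of_mul_eq_one_left hee, inv_eq_of_mul_eq_one_left hff]
  obtain ⟨k, hk⟩ := hodd f hfc e he
  have hrk : r ^ (2 * k + 1) = 1 := by rw [hr, ← hk]; exact pow_orderOf_eq_one _
  have hs : SemiconjBy e r r⁻¹ := by
    show e * r = r⁻¹ * e
    rw [hrinv, hr, ← mul_assoc]
  have hsx : SemiconjBy x r r⁻¹ := by
    show x * r = r⁻¹ * x
    rw [hrinv, hr, hf]
    calc x * (x * e * x⁻¹ * e) = (x * x) * e * x⁻¹ * e := by group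
      _ = e * x⁻¹ * e := by rw [hxx, one_mul]
      _ = e * x * e := by rw [hxinv]
      _ = e * (x * e * x⁻¹) * x := by group
  have hr2 : r ^ (2 * (k + 1)) = r := by
    have h0 : 2 * (k + 1) = (2 * k + 1) + 1 := by ring
    rw [h0, pow_succ, hrk, one_mul]
  have hrr : (r⁻¹) ^ (k + 1) * r ^ (2 * (k + 1)) = r ^ (k + 1) := by
    rw [two_mul, pow_add r, ← mul_assoc, inv_pow, inv_mul_cancel, one_mul]
  have h2 : x * e = f * x := by rw [hf]; group
  refine ⟨r ^ (k + 1) * e, ⟨?_, ?_, ?_⟩, ?_⟩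
  · rw [mem_conj_iff] at he ⊢
    refine he.trans (isConj_iff.mpr ⟨r ^ ((k + 1) * (k + 1)), ?_⟩)
    have h1 : e * (r ^ ((k + 1) * (k + 1)))⁻¹ = r ^ ((k + 1) * (k + 1)) * e := by
      have h2 := (hs.pow_right ((k + 1) * (k + 1))).inv_right
      have h3 : ((r⁻¹) ^ ((k + 1) * (k + 1)))⁻¹ = r ^ ((k + 1) * (k + 1)) := by
        rw [inv_pow, inv_inv]
      rw [h3] at h2
      exact h2.eq
    rw [mul_assoc, h1, ← mul_assoc, ← pow_add, ← two_mul, ← mul_assoc, pow_mul, hr2]
  · show r ^ (k + 1) * e * x = x * (r ^ (k + 1) * e)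
    have h1 : x * r ^ (k + 1) = (r⁻¹) ^ (k + 1) * x := (hsx.pow_right (k + 1)).eq
    have h3 : f = r * e := by rw [hr, mul_assoc, hee, mul_one]
    calc r ^ (k + 1) * e * x = (r⁻¹) ^ (k + 1) * r ^ (2 * (k + 1)) * e * x := by rw [hrr]
      _ = (r⁻¹) ^ (k + 1) * (r * e) * x := by rw [hr2, mul_assoc ((r⁻¹) ^ (k + 1))]
      _ = (r⁻¹) ^ (k + 1) * f * x := by rw [← h3]
      _ = (r⁻¹) ^ (k + 1) * (x * e) := by rw [h2, mul_assoc]
      _ = x * (r ^ (k + 1) * e) := by rw [← mul_assoc, ← h1, mul_assoc]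
  · show e * (r ^ (k + 1) * e * x) = r ^ (k + 1) * e * x * e
    have h1 : e * r ^ (k + 1) = (r⁻¹) ^ (k + 1) * e := (hs.pow_right (k + 1)).eq
    have h4 : e * f = r⁻¹ := hrinv.symm
    have h5 : (r⁻¹) ^ (k + 1) = r ^ k := by
      rw [inv_pow, inv_eq_iff_eq_inv, eq_inv_iff_mul_eq_one, ← pow_add]
      have h0 : k + 1 + k = 2 * k + 1 := by ring
      rw [h0, hrk]
    calc e * (r ^ (k + 1) * e * x) = (e * r ^ (k + 1)) * e * x := by group
      _ = (r⁻¹) ^ (k + 1) * (e * e) * x := by rw [h1]; group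
      _ = r ^ k * x := by rw [hee, mul_one, h5]
      _ = r ^ (k + 1) * r⁻¹ * x := by rw [pow_succ, mul_assoc (r ^ k), mul_inv_cancel, mul_one]
      _ = r ^ (k + 1) * (e * f) * x := by rw [h4]
      _ = r ^ (k + 1) * e * (f * x) := by group
      _ = r ^ (k + 1) * e * x * e := by rw [← h2]; group
  · rintro a' ⟨ha'c, ha'x, ha'e⟩
    have haa : a' * a' = 1 := hinv a' ha'c
    obtain ⟨l, hl⟩ := hodd a' ha'c e he
    have hvl : (a' * e) ^ (2 * l + 1) = 1 := by rw [← hl]; exact pow_orderOf_eq_one _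
    have h6 : e * a' = a' * f := by
      have h7 : e * (a' * x) = a' * x * e := ha'e.eq
      have h8 : e * a' * x = a' * f * x := by rw [mul_assoc, h7, mul_assoc, h2, mul_assoc]
      exact mul_right_cancel h8
    have hvv : (a' * e) * (a' * e) = r := by
      calc (a' * e) * (a' * e) = a' * (e * a') * e := by group
        _ = (a' * a') * (f * e) := by rw [h6]; group
        _ = r := by rw [haa, one_mul, hr]
    have hv : a' * e = r ^ (l + 1) := by
      calc a' * e = (a' * e) ^ (2 * l + 1) * (a' * e) := by rw [hvl, one_mul]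
        _ = ((a' * e) * (a' * e)) ^ (l + 1) := by
            rw [← pow_succ, ← pow_two, ← pow_mul]
            have h0 : 2 * l + 1 + 1 = 2 * (l + 1) := by ring
            rw [h0]
        _ = r ^ (l + 1) := by rw [hvv]
    have ha' : a' = r ^ (l + 1) * e := by
      rw [← hv, mul_assoc, hee, mul_one]
    have hrl : r ^ (2 * l + 1) = 1 := by
      rw [← hvv, ← pow_two, ← pow_mul, mul_comm, pow_mul, hvl, one_pow]
    have hr2l : r ^ (2 * (l + 1)) = r := by
      have h0 : 2 * (l + 1) = (2 * l + 1) + 1 := by ring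
      rw [h0, pow_succ, hrl, one_mul]
    have hfin : r ^ (l + 1) = r ^ (k + 1) := by
      calc r ^ (l + 1) = (r ^ (2 * (k + 1))) ^ (l + 1) := by rw [hr2]
        _ = (r ^ (2 * (l + 1))) ^ (k + 1) := by
            rw [← pow_mul, ← pow_mul]; congr 1; ring
        _ = r ^ (k + 1) := by rw [hr2l]
    rw [ha', hfin]

end Cfsg.Agent.S5562
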