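import Mathlib
import Cfsg.Statements.S5595
import Cfsg.Agent.Helper26.LargeXS
-- import your own Cfsg.Agent.* helpers here

set_option autoImplicit false
open Cfsg

namespace Cfsg.Agent.S5595

/-- Setting: `z` is an involution of the finite group `G`; for each element `x`, `Q x` denotes the largest normal 2-subgroup of the centralizer of `x`; `Q z` is extraspecial and contains its own centralizer in `G` (a large extraspecial 2-subgroup in this sense). Call the conjugates of `z` singular, and say that singular `x` is orthogonal to singular `y` when `x ∈ Q y`. Then orthogonality is symmetric: if a conjugate `x` of `z` lies in `Q z`, then `z` lies in `Q x`. -/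
theorem result {G : Type*} [Group G] [Finite G]
    (Q : G → Subgroup G)
    (hQ : ∀ x : G, Q x = (Cfsg.pCore 2 ↥(Subgroup.centralizer ({x} : Set G))).map (Subgroup.centralizer ({x} : Set G)).subtype)
    (z : G) (hz : orderOf z = 2) (hE : Cfsg.IsExtraspecial 2 ↥(Q z))
    (hC : Subgroup.centralizer ((Q z : Subgroup G) : Set G) ≤ Q z)
    (g : G) (hx : g * z * g⁻¹ ∈ Q z) : z ∈ Q (g * z * g⁻¹) := by
  classical
  have hQle : ∀ b ∈ Q z, b * z = z * b := by
    intro b hb
    rw [hQ z] at hb
    obtain ⟨b', _, rfl⟩ := Subgroup.mem_map.mp hb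
    exact (Subgroup.mem_centralizer_iff.mp b'.2 z (Set.mem_singleton z)).symm
  have hz1 : z ≠ 1 := by
    intro h
    rw [h, orderOf_one] at hz
    exact absurd hz (by norm_num)
  have hzQ : z ∈ Q z := by
    apply hC
    rw [Subgroup.mem_centralizer_iff]
    intro b hb
    exact hQle b hb
  obtain ⟨z0, d, hcenter⟩ := Cfsg.Agent.Helper14.XS.of_extraspecial (Q z) hE
  have hz0 : z0 = z := by
    obtain ⟨-, -, -, -, -, -, hrad⟩ := id d
    rcases hrad z hzQ (fun b hb => hQle b hb) with h | h
    · exact absurd h hz1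
    · exact h.symm
  rw [hz0] at d
  have hCQ : ∀ c : G, (∀ b ∈ Q z, c * b = b * c) → c ∈ Q z := by
    intro c hc
    apply hC
    rw [Subgroup.mem_centralizer_iff]
    intro b hb
    exact (hc b hb).symm
  have hN : ∀ c : G, c * z = z * c → ∀ b ∈ Q z, c * b * c⁻¹ ∈ Q z := by
    intro c hc b hb
    rw [hQ z] at hb ⊢
    obtain ⟨b', hb', rfl⟩ := Subgroup.mem_map.mp hb
    have hcC : c ∈ Subgroup.centralizer ({z} : Set G) := by
      rw [Subgroup.mem_centralizer_iff]
      intro y hy
      rw [Set.mem_singleton_iff] at hy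
      rw [hy]; exact hc.symm
    have hnormal : (Cfsg.pCore 2 ↥(Subgroup.centralizer ({z} : Set G))).Normal :=
      Subgroup.sSup_normal _ (fun _ hH => hH.1)
    exact Subgroup.mem_map.mpr
      ⟨⟨c, hcC⟩ * b' * ⟨c, hcC⟩⁻¹, hnormal.conj_mem b' hb' ⟨c, hcC⟩, rfl⟩
  have hres := Cfsg.Agent.Helper26.LargeXS.key_pCore d hE.1.1 hCQ hN g hx
  rw [hQ (g * z * g⁻¹)]
  exact hres

end Cfsg.Agent.S5595
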