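import Mathlib
import Cfsg.Statements.S5596
import Cfsg.Agent.Helper26.Singular
-- import your own Cfsg.Agent.* helpers here

set_option autoImplicit false
open Cfsg

namespace Cfsg.Agent.S5596

/-- Setting: `z` is an involution of the finite group `G`; for each element `x`, `Q x` is the largest normal 2-subgroup of the centralizer of `x`; `Q z` is extraspecial and contains its own centralizer in `G`. A subgroup `U` is singular when it is elementary abelian, every non-identity element of `U` is conjugate to `z`, and any two non-identity elements `u`, `v` of `U` are orthogonal (`v ∈ Q u`). Write `QU` for the intersection of the `Q u` and `LU` for the join of the `Q u` over the non-identity `u` in `U`. If `U` is singular of order `2 ^ n` with `n ≥ 2`, then `U ≤ QU ≤ LU`, `LU` normalizes `U`, and `LU` induces on `U` its full automorphism group (the general linear group of dimension `n` over the field with two elements): every automorphism of `U` is conjugation by some element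 of `LU`. -/
theorem result {G : Type*} [Group G] [Finite G]
    (Q : G → Subgroup G)
    (hQ : ∀ x : G, Q x = (Cfsg.pCore 2 ↥(Subgroup.centralizer ({x} : Set G))).map (Subgroup.centralizer ({x} : Set G)).subtype)
    (z : G) (hz : orderOf z = 2) (hE : Cfsg.IsExtraspecial 2 ↥(Q z))
    (hC : Subgroup.centralizer ((Q z : Subgroup G) : Set G) ≤ Q z)
    (U : Subgroup G) (hU2 : ∀ u ∈ U, u * u = 1)
    (hS : ∀ u ∈ U, u ≠ 1 → ∃ g : G, g * z * g⁻¹ = u)
    (hO : ∀ u ∈ U, ∀ v ∈ U, u ≠ 1 → v ≠ 1 → v ∈ Q u)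
    (QU LU : Subgroup G) (hQU : QU = ⨅ u ∈ ((U : Set G) \ {1}), Q u) (hLU : LU = ⨆ u ∈ ((U : Set G) \ {1}), Q u)
    (n : ℕ) (hn : 2 ≤ n) (hcard : Nat.card ↥U = 2 ^ n) :
    U ≤ QU ∧ QU ≤ LU ∧ LU ≤ Subgroup.normalizer (U : Set G) ∧
      ∀ φ : ↥U ≃* ↥U, ∃ g ∈ LU, ∀ u : ↥U, g * (u : G) * g⁻¹ = ((φ u : ↥U) : G) := by
  classical
  have hD : ∀ u ∈ U, u ≠ 1 → Cfsg.Agent.Helper14.XS.Data (Q u) u := by
    intro u hu hu1
    obtain ⟨g, rfl⟩ := hS u hu hu1
    exact Cfsg.Agent.Helper26.Singular.data_Qconj Q hQ z hz hE hC g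
  obtain ⟨u₀, hu₀, hu₀1⟩ : ∃ u ∈ U, u ≠ 1 := by
    by_contra hcon
    push Not at hcon
    have hbot : U = ⊥ := (Subgroup.eq_bot_iff_forall U).mpr hcon
    rw [hbot, Subgroup.card_bot] at hcard
    have h4 : 2 ^ 2 ≤ 2 ^ n := Nat.pow_le_pow_right (by norm_num) hn
    omega
  subst hQU
  subst hLU
  have hu₀' : u₀ ∈ (U : Set G) \ {1} := ⟨hu₀, fun h => hu₀1 (Set.mem_singleton_iff.mp h)⟩
  refine ⟨?_, ?_, ?_, ?_⟩
  · intro v hv
    simp only [Subgroup.mem_iInf]
    intro u hu
    exact Cfsg.Agent.Helper26.Singular.singular_mem hO hu.1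
      (fun h => hu.2 (Set.mem_singleton_iff.mpr h)) hv
  · exact (iInf₂_le (f := fun u (_ : u ∈ (U : Set G) \ {1}) => Q u) u₀ hu₀').trans
      (le_iSup₂ (f := fun u (_ : u ∈ (U : Set G) \ {1}) => Q u) u₀ hu₀')
  · intro g hg
    exact Cfsg.Agent.Helper26.LargeXS.mem_normalizer_of_conj
      (Cfsg.Agent.Helper26.Singular.LU_props hD hO hg).1
  · intro φ
    obtain ⟨g, hgL, hg⟩ := Cfsg.Agent.Helper26.Singular.aut_induced hU2 hD hO φ
      (Set.toFinite (U : Set G)).toFinset (fun a ha => (Set.Finite.mem_toFinset _).mp ha)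
    refine ⟨g, hgL, fun u => ?_⟩
    exact hg u u.2 (Subgroup.subset_closure (by rw [Set.Finite.coe_toFinset]; exact u.2))

end Cfsg.Agent.S5596
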