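import Mathlib
import Cfsg.Statements.S5597
import Cfsg.Agent.Helper26.Singular
-- import your own Cfsg.Agent.* helpers here

set_option autoImplicit false
open Cfsg

namespace Cfsg.Agent.S5597

/-- Setting: `z` is an involution of the finite group `G`; for each element `x`, `Q x` is the largest normal 2-subgroup of the centralizer of `x`; `Q z` is extraspecial and contains its own centralizer in `G`. A subgroup `U` is singular when it is elementary abelian, every non-identity element of `U` is conjugate to `z`, and any two non-identity elements `u`, `v` of `U` are orthogonal (`v ∈ Q u`). Write `QU` for the intersection of the `Q u` and `LU` for the join of the `Q u` over the non-identity `u` in `U`. If `U` is a non-trivial singular subgroup, then `LU` acts trivially on `QU / U` (every commutator of an element of `LU` with an element of `QU` lies in `U`), and for every `x` in `QU` outside `U` the centralizer of `U` in `LU` permutes the coset `x U` transitively: each `x u` with `u ∈ U` is a conjugate of `x` by an element of `LU`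 centralizing `U`. -/
theorem result {G : Type*} [Group G] [Finite G]
    (Q : G → Subgroup G)
    (hQ : ∀ x : G, Q x = (Cfsg.pCore 2 ↥(Subgroup.centralizer ({x} : Set G))).map (Subgroup.centralizer ({x} : Set G)).subtype)
    (z : G) (hz : orderOf z = 2) (hE : Cfsg.IsExtraspecial 2 ↥(Q z))
    (hC : Subgroup.centralizer ((Q z : Subgroup G) : Set G) ≤ Q z)
    (U : Subgroup G) (hU2 : ∀ u ∈ U, u * u = 1)
    (hS : ∀ u ∈ U, u ≠ 1 → ∃ g : G, g * z * g⁻¹ = u)
    (hO : ∀ u ∈ U, ∀ v ∈ U, u ≠ 1 → v ≠ 1 → v ∈ Q u)
    (QU LU : Subgroup G) (hQU : QU = ⨅ u ∈ ((U : Set G) \ {1}), Q u) (hLU : LU = ⨆ u ∈ ((U : Set G) \ {1}), Q u)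
    (hU : U ≠ ⊥) :
    (∀ g ∈ LU, ∀ x ∈ QU, g * x * g⁻¹ * x⁻¹ ∈ U) ∧
      ∀ x ∈ QU, x ∉ U → ∀ u ∈ U, ∃ g ∈ LU ⊓ Subgroup.centralizer (U : Set G), g * x * g⁻¹ = x * u := by
  classical
  have hD : ∀ u ∈ U, u ≠ 1 → Cfsg.Agent.Helper14.XS.Data (Q u) u := by
    intro u hu hu1
    obtain ⟨g, rfl⟩ := hS u hu hu1
    exact Cfsg.Agent.Helper26.Singular.data_Qconj Q hQ z hz hE hC g
  subst hQU
  subst hLU
  refine ⟨?_, ?_⟩
  · intro g hg x hx
    exact (Cfsg.Agent.Helper26.Singular.LU_props hD hO hg).2 x hx
  · intro x hx hxU u hu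
    by_cases hu1 : u = 1
    · refine ⟨1, Subgroup.one_mem _, ?_⟩
      rw [hu1, one_mul, inv_one, mul_one]
    · have d := hD u hu hu1
      have hxQ : x ∈ Q u := by
        simp only [Subgroup.mem_iInf] at hx
        exact hx u ⟨hu, fun h => hu1 (Set.mem_singleton_iff.mp h)⟩
      have hnot : x ∉ Subgroup.closure
          (insert u (((Set.toFinite (U : Set G)).toFinset : Finset G) : Set G)) := by
        intro h
        apply hxU
        have hle : Subgroup.closure
            (insert u (((Set.toFinite (U : Set G)).toFinset : Finset G) : Set G)) ≤ U := by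
          rw [Subgroup.closure_le, Set.Finite.coe_toFinset]
          exact Set.insert_subset hu (subset_refl _)
        exact hle h
      obtain ⟨g, hgQ, hgs, hgx⟩ := Cfsg.Agent.Helper26.Singular.exists_comm d
        (Set.toFinite (U : Set G)).toFinset
        (fun a ha => Cfsg.Agent.Helper26.Singular.singular_mem hO hu hu1
          ((Set.Finite.mem_toFinset _).mp ha)) x hxQ hnot
      refine ⟨g, Subgroup.mem_inf.mpr ⟨?_, ?_⟩, ?_⟩
      · exact (le_iSup₂ (f := fun u (_ : u ∈ (U : Set G) \ {1}) => Q u) u
          ⟨hu, fun h => hu1 (Set.mem_singleton_iff.mp h)⟩) hgQ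
      · rw [Subgroup.mem_centralizer_iff]
        intro a ha
        exact (hgs a ((Set.Finite.mem_toFinset _).mpr ha)).symm
      · obtain ⟨-, -, -, hcen, -, -, -⟩ := id d
        rw [hgx.eq, mul_inv_cancel_right]
        exact (hcen x hxQ).symm

end Cfsg.Agent.S5597
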