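import Mathlib
import Cfsg.Statements.S5598
import Cfsg.Agent.Helper26.Singular
-- import your own Cfsg.Agent.* helpers here

set_option autoImplicit false
open Cfsg

namespace Cfsg.Agent.S5598

/-- Setting: `z` is an involution of the finite group `G`; for each element `x`, `Q x` is the largest normal 2-subgroup of the centralizer of `x`; `Q z` is extraspecial and contains its own centralizer in `G`. A subgroup `U` is singular when it is elementary abelian, every non-identity element of `U` is conjugate to `z`, and any two non-identity elements `u`, `v` of `U` are orthogonal (`v ∈ Q u`). Write `QU` for the intersection of the `Q u` and `LU` for the join of the `Q u` over the non-identity `u` in `U`. If the singular subgroup `U` is generated by a set `T` of non-identity elements, then `QU` is already the intersection of the `Q t` over `t ∈ T`. -/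
theorem result {G : Type*} [Group G] [Finite G]
    (Q : G → Subgroup G)
    (hQ : ∀ x : G, Q x = (Cfsg.pCore 2 ↥(Subgroup.centralizer ({x} : Set G))).map (Subgroup.centralizer ({x} : Set G)).subtype)
    (z : G) (hz : orderOf z = 2) (hE : Cfsg.IsExtraspecial 2 ↥(Q z))
    (hC : Subgroup.centralizer ((Q z : Subgroup G) : Set G) ≤ Q z)
    (U : Subgroup G) (hU2 : ∀ u ∈ U, u * u = 1)
    (hS : ∀ u ∈ U, u ≠ 1 → ∃ g : G, g * z * g⁻¹ = u)
    (hO : ∀ u ∈ U, ∀ v ∈ U, u ≠ 1 → v ≠ 1 → v ∈ Q u)
    (QU LU : Subgroup G) (hQU : QU = ⨅ u ∈ ((U : Set G) \ {1}), Q u) (hLU : LU = ⨆ u ∈ ((U : Set G) \ {1}), Q u)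
    (T : Set G) (hT : Subgroup.closure T = U) (hT1 : (1 : G) ∉ T) :
    QU = ⨅ t ∈ T, Q t := by
  classical
  have hD : ∀ u ∈ U, u ≠ 1 → Cfsg.Agent.Helper14.XS.Data (Q u) u := by
    intro u hu hu1
    obtain ⟨g, rfl⟩ := hS u hu hu1
    exact Cfsg.Agent.Helper26.Singular.data_Qconj Q hQ z hz hE hC g
  subst hQU
  apply le_antisymm
  · apply le_iInf₂
    intro t ht
    have htU : t ∈ U := by rw [← hT]; exact Subgroup.subset_closure ht
    have ht1 : t ≠ 1 := fun h => hT1 (h ▸ ht)
    exact iInf₂_le (f := fun u (_ : u ∈ (U : Set G) \ {1}) => Q u) t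
      ⟨htU, fun h => ht1 (Set.mem_singleton_iff.mp h)⟩
  · intro y hy
    simp only [Subgroup.mem_iInf] at hy ⊢
    have key : ∀ u, u ∈ Subgroup.closure T → u ≠ 1 → y ∈ Q u := by
      intro u hu
      induction hu using Subgroup.closure_induction with
      | mem t ht => intro _; exact hy t ht
      | one => intro h; exact absurd rfl h
      | mul a b ha hb iha ihb =>
        intro hab1
        by_cases ha1 : a = 1
        · rw [ha1, one_mul]; rw [ha1, one_mul] at hab1; exact ihb hab1
        by_cases hb1 : b = 1
        · rw [hb1, mul_one]; exact iha ha1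
        have haU : a ∈ U := by rw [← hT]; exact ha
        have hbU : b ∈ U := by rw [← hT]; exact hb
        have hba : b ≠ a := by
          intro h
          apply hab1
          rw [h]; exact hU2 a haU
        exact Cfsg.Agent.Helper26.Singular.mem_Q_mul Q hQ (hD a haU ha1)
          (hO a haU b hbU ha1 hb1) (hO b hbU a haU hb1 ha1) hb1 hba (iha ha1) (ihb hb1)
      | inv a ha iha =>
        intro h
        have haU : a ∈ U := by rw [← hT]; exact ha
        have e : a⁻¹ = a := inv_eq_of_mul_eq_one_left (hU2 a haU)
        rw [e] at h ⊢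
        exact iha h
    intro u hu
    exact key u (by rw [hT]; exact hu.1) (fun h => hu.2 (Set.mem_singleton_iff.mpr h))

end Cfsg.Agent.S5598
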