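import Cfsg.Statements.S5729

set_option autoImplicit false
open Cfsg

namespace Cfsg.Agent.S5729

open MulAction

/-- Burnside's lemma for a transitive action, in terms of `Nat.card`. -/
theorem sum_fixed_eq {G Ω : Type*} [Group G] [Fintype G] [MulAction G Ω] [Fintype Ω] [Nonempty Ω]
    [IsPretransitive G Ω] : ∑ g : G, Nat.card (fixedBy Ω g) = Fintype.card G := by
  classical
  have hB := sum_card_fixedBy_eq_card_orbits_mul_card_group G Ω
  haveI : Unique (orbitRel.Quotient G Ω) :=
    ((pretransitive_iff_unique_quotient_of_nonempty G Ω).1 inferInstance).some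
  rw [Fintype.card_unique, one_mul] at hB
  rw [← hB]
  exact Finset.sum_congr rfl fun g _ => Nat.card_eq_fintype_card

/-- Burnside's lemma on pairs: the sum of squares of fixed point numbers is at least `2 |G|`
when there are at least two points. -/
theorem two_mul_le_sum_sq {G Ω : Type*} [Group G] [Fintype G] [MulAction G Ω] [Fintype Ω]
    (h2 : 2 ≤ Fintype.card Ω) :
    2 * Fintype.card G ≤ ∑ g : G, Nat.card (fixedBy Ω g) ^ 2 := by
  classical
  have hB := sum_card_fixedBy_eq_card_orbits_mul_card_group G (Ω × Ω)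
  have hsq : ∀ g : G, Fintype.card (fixedBy (Ω × Ω) g) = Nat.card (fixedBy Ω g) ^ 2 := by
    intro g
    have hset : fixedBy (Ω × Ω) g = (fixedBy Ω g) ×ˢ (fixedBy Ω g) := by
      ext ⟨x, y⟩
      simp [mem_fixedBy, Prod.ext_iff]
    rw [← Nat.card_eq_fintype_card, hset, Nat.card_congr (Equiv.Set.prod _ _), Nat.card_prod, sq]
  have hnt : 2 ≤ Fintype.card (orbitRel.Quotient G (Ω × Ω)) := by
    obtain ⟨a, b, hab⟩ := Fintype.exists_pair_of_one_lt_card (by omega : 1 < Fintype.card Ω)
    have : (Quotient.mk'' (a, a) : orbitRel.Quotient G (Ω × Ω)) ≠ Quotient.mk'' (a, b) := by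
      intro h
      have h' := Quotient.exact' h
      change (a, a) ∈ orbit G (a, b) at h'
      obtain ⟨g, hg⟩ := h'
      simp only [Prod.smul_mk, Prod.mk.injEq] at hg
      exact hab (smul_left_cancel g (hg.1.trans hg.2.symm))
    exact Fintype.one_lt_card_iff.2 ⟨_, _, this⟩
  calc 2 * Fintype.card G ≤ Fintype.card (orbitRel.Quotient G (Ω × Ω)) * Fintype.card G :=
        Nat.mul_le_mul_right _ hnt
    _ = ∑ g : G, Fintype.card (fixedBy (Ω × Ω) g) := hB.symm
    _ = ∑ g : G, Nat.card (fixedBy Ω g) ^ 2 := Finset.sum_congr rfl fun g _ => hsq g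

/-- Let a finite group G act faithfully and transitively on a set with n ≥ 3 points. Then either G is a Frobenius permutation group (Frobenius as a permutation group: transitive, some non-identity element fixes a point, and no non-identity element fixes two points) of order n(n − 1) and exactly |G|/n of its elements are derangements (fix no point), or the number of derangements is greater than |G|/n. -/
theorem result {G Ω : Type*} [Group G] [Finite G] [MulAction G Ω] [FaithfulSMul G Ω] [Fintype Ω] (htr : MulAction.IsPretransitive G Ω) (hn : 3 ≤ Fintype.card Ω) :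
    ((MulAction.IsPretransitive G Ω ∧ (∃ g : G, g ≠ 1 ∧ ∃ ω : Ω, g • ω = ω) ∧ ∀ g : G, g ≠ 1 → Nat.card (MulAction.fixedBy Ω g) ≤ 1) ∧ Nat.card G = Fintype.card Ω * (Fintype.card Ω - 1) ∧ Fintype.card Ω * Nat.card {g : G // ∀ ω : Ω, g • ω ≠ ω} = Nat.card G) ∨
    Nat.card G < Fintype.card Ω * Nat.card {g : G // ∀ ω : Ω, g • ω ≠ ω} := by
  classical
  haveI : Fintype G := Fintype.ofFinite G
  haveI : Nonempty Ω := Fintype.card_pos_iff.1 (by omega)
  set n := Fintype.card Ω with hn_def
  set N := Fintype.card G with hN_def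
  have hNcard : Nat.card G = N := Nat.card_eq_fintype_card
  set fx : G → ℕ := fun g => Nat.card (fixedBy Ω g) with hfx
  set D : Finset G := Finset.univ.filter (fun g : G => ∀ ω : Ω, g • ω ≠ ω) with hD
  have hdcard : Nat.card {g : G // ∀ ω : Ω, g • ω ≠ ω} = D.card := by
    rw [Nat.card_eq_fintype_card, Fintype.card_subtype]
  rw [hdcard, hNcard]
  have hS1 : ∑ g : G, fx g = N := sum_fixed_eq
  have hS2 : 2 * N ≤ ∑ g : G, fx g ^ 2 := two_mul_le_sum_sq (by omega)
  -- basic facts on fx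
  have hfxle : ∀ g : G, fx g ≤ n := by
    intro g
    show Nat.card (fixedBy Ω g) ≤ n
    rw [hn_def, ← Nat.card_eq_fintype_card (α := Ω), Nat.card_coe_set_eq]
    exact Set.ncard_le_card _
  have hD0 : ∀ g ∈ D, fx g = 0 := by
    intro g hg
    have hg' : ∀ ω : Ω, g • ω ≠ ω := (Finset.mem_filter.1 hg).2
    show Nat.card (fixedBy Ω g) = 0
    have : fixedBy Ω g = ∅ := by
      ext ω
      simp [mem_fixedBy, hg' ω]
    rw [this]
    simp
  have hDc : ∀ g ∉ D, 1 ≤ fx g := by
    intro g hg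
    have : ∃ ω : Ω, g • ω = ω := by
      by_contra h
      push_neg at h
      exact hg (Finset.mem_filter.2 ⟨Finset.mem_univ g, h⟩)
    obtain ⟨ω, hω⟩ := this
    show 1 ≤ Nat.card (fixedBy Ω g)
    rw [Nat.card_coe_set_eq, Nat.succ_le_iff, Set.ncard_pos]
    exact ⟨ω, hω⟩
  have hfxn : ∀ g : G, fx g = n → g = 1 := by
    intro g hg
    have huniv : fixedBy Ω g = Set.univ := by
      apply Set.eq_of_subset_of_ncard_le (Set.subset_univ _)
      rw [Set.ncard_univ, Nat.card_eq_fintype_card, ← hn_def, ← hg, hfx]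
      simp only [Nat.card_coe_set_eq]
      exact le_rfl
    apply FaithfulSMul.eq_of_smul_eq_smul (α := Ω)
    intro ω
    rw [one_smul]
    have : ω ∈ fixedBy Ω g := by rw [huniv]; trivial
    exact this
  -- sums over the complement of D
  have hsum1 : ∑ g ∈ Dᶜ, fx g = N := by
    rw [← hS1, ← Finset.sum_add_sum_compl D fx, Finset.sum_eq_zero hD0, zero_add]
  have hsum2 : ∑ g ∈ Dᶜ, fx g ^ 2 = ∑ g : G, fx g ^ 2 := by
    have h0 : ∑ g ∈ D, fx g ^ 2 = 0 :=
      Finset.sum_eq_zero (fun g hg => by rw [hD0 g hg]; rfl)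
    rw [← Finset.sum_add_sum_compl D (fun g => fx g ^ 2), h0, zero_add]
  have hterm : ∀ g ∈ Dᶜ, fx g ^ 2 + n ≤ (n + 1) * fx g := by
    intro g hg
    have h1 := hDc g (Finset.mem_compl.1 hg)
    have h2 := hfxle g
    obtain ⟨a, ha⟩ := Nat.exists_eq_add_of_le h1
    obtain ⟨b, hb⟩ := Nat.exists_eq_add_of_le h2
    rw [ha, hb, ha]
    nlinarith [Nat.zero_le (a * b)]
  have hsumle : ∑ g ∈ Dᶜ, (fx g ^ 2 + n) ≤ ∑ g ∈ Dᶜ, (n + 1) * fx g :=
    Finset.sum_le_sum hterm
  have hcompl : (Dᶜ).card = N - D.card := by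
    rw [Finset.card_compl]
  have hDle : D.card ≤ N := Finset.card_le_univ D
  have hL : ∑ g ∈ Dᶜ, (fx g ^ 2 + n) = (∑ g : G, fx g ^ 2) + (N - D.card) * n := by
    rw [Finset.sum_add_distrib, hsum2, Finset.sum_const, hcompl, smul_eq_mul]
  have hR : ∑ g ∈ Dᶜ, (n + 1) * fx g = (n + 1) * N := by
    rw [← Finset.mul_sum, hsum1]
  rw [hL, hR] at hsumle
  -- main inequality: N ≤ n * d
  by_cases hlt : N < n * D.card
  · right; exact hlt
  left
  push_neg at hlt
  obtain ⟨c, hc⟩ := Nat.exists_eq_add_of_le hDle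
  have hcsub : N - D.card = c := by omega
  rw [hcsub] at hsumle hL
  have hexp : (n + 1) * N = n * D.card + n * c + D.card + c := by rw [hc]; ring
  have hNd : N = n * D.card := by
    have h1 : D.card + c ≤ n * D.card := by nlinarith
    omega
  have hS2eq : ∑ g : G, fx g ^ 2 = 2 * N := by
    have h1 : ∑ g : G, fx g ^ 2 ≤ 2 * N := by nlinarith
    omega
  -- termwise equality
  have hsumeq : ∑ g ∈ Dᶜ, (fx g ^ 2 + n) = ∑ g ∈ Dᶜ, (n + 1) * fx g := by
    rw [hL, hR, hS2eq]
    nlinarith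
  have htermeq := (Finset.sum_eq_sum_iff_of_le hterm).1 hsumeq
  have hfx1 : ∀ g : G, g ≠ 1 → fx g ≤ 1 := by
    intro g hg1
    by_cases hgD : g ∈ D
    · rw [hD0 g hgD]; exact Nat.zero_le _
    · have h1 := htermeq g (Finset.mem_compl.2 hgD)
      have h2 := hDc g hgD
      have h3 := hfxle g
      by_contra hcon
      push_neg at hcon
      have hne : fx g ≠ n := fun h => hg1 (hfxn g h)
      have h4 : fx g < n := lt_of_le_of_ne h3 hne
      obtain ⟨a, ha⟩ := Nat.exists_eq_add_of_lt hcon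
      obtain ⟨b, hb⟩ := Nat.exists_eq_add_of_lt h4
      rw [hb, ha] at h1
      nlinarith [Nat.zero_le (a * b), Nat.zero_le a, Nat.zero_le b]
  -- the identity has n fixed points
  have hfx_one : fx 1 = n := by
    show Nat.card (fixedBy Ω (1 : G)) = n
    have : fixedBy Ω (1 : G) = Set.univ := by
      ext ω; simp
    rw [this, Nat.card_coe_set_eq, Set.ncard_univ, Nat.card_eq_fintype_card]
  have h1D : (1 : G) ∈ Dᶜ := by
    rw [Finset.mem_compl]
    intro h
    have := hD0 1 h
    rw [hfx_one] at this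
    omega
  -- E = Dᶜ \ {1}
  have hsplit : ∑ g ∈ Dᶜ, fx g = fx 1 + ∑ g ∈ Dᶜ.erase 1, fx g :=
    (Finset.add_sum_erase _ fx h1D).symm
  have hE : ∑ g ∈ Dᶜ.erase 1, fx g = (Dᶜ.erase 1).card := by
    rw [Finset.card_eq_sum_ones]
    apply Finset.sum_congr rfl
    intro g hg
    obtain ⟨hg1, hgD⟩ := Finset.mem_erase.1 hg
    have := hfx1 g hg1
    have := hDc g (Finset.mem_compl.1 hgD)
    omega
  have hEcard : (Dᶜ.erase 1).card = N - D.card - 1 := by
    rw [Finset.card_erase_of_mem h1D, hcompl]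
  rw [hsum1, hfx_one, hE, hEcard] at hsplit
  -- hsplit : N = n + (N - D.card - 1)
  have hNpos : 0 < N := Fintype.card_pos
  have hdpos : 0 < D.card := by
    rcases Nat.eq_zero_or_pos D.card with h | h
    · rw [h, mul_zero] at hNd; omega
    · exact h
  have hDlt : D.card < N := by
    have : (Dᶜ).card ≠ 0 := Finset.card_ne_zero_of_mem h1D
    omega
  have hd : D.card + 1 = n := by omega
  have hNn : N = n * (n - 1) := by
    rw [hNd, ← hd]; simp
  refine ⟨⟨htr, ?_, fun g hg => hfx1 g hg⟩, hNn, hNd.symm⟩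
  -- a non-identity element with a fixed point
  have hEpos : 0 < (Dᶜ.erase 1).card := by
    have h3 : 2 ≤ D.card := by omega
    have h4 : 3 * D.card ≤ N := by
      rw [hNd]
      exact Nat.mul_le_mul_right _ hn
    rw [hEcard]
    omega
  obtain ⟨g, hg⟩ := Finset.card_pos.1 hEpos
  obtain ⟨hg1, hgD⟩ := Finset.mem_erase.1 hg
  refine ⟨g, hg1, ?_⟩
  by_contra h
  push_neg at h
  exact (Finset.mem_compl.1 hgD) (Finset.mem_filter.2 ⟨Finset.mem_univ g, h⟩)

end Cfsg.Agent.S5729
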