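import Cfsg.Statements.S5738
import Mathlib
import Cfsg.Agent.S5739

set_option autoImplicit false
open Cfsg

namespace Cfsg.Agent.S5738
open Cfsg.Agent.S5739

section aux

variable {F K : Type*} [Field F] [Field K] [Algebra F K]

/-- a field automorphism as an element of the general linear group -/
noncomputable def gl (σ : K ≃ₐ[F] K) : (Module.End F K)ˣ :=
  LinearMap.GeneralLinearGroup.ofLinearEquiv σ.toLinearEquiv

theorem gl_apply (σ : K ≃ₐ[F] K) (v : K) : ((gl σ : (Module.End F K)ˣ) : Module.End F K) v = σ v := rfl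

/-- the semilinear element `v ↦ a * σ v` -/
noncomputable def sl (p : Kˣ × (K ≃ₐ[F] K)) : (Module.End F K)ˣ := mu F K p.1 * gl p.2

theorem sl_apply (p : Kˣ × (K ≃ₐ[F] K)) (v : K) :
    ((sl p : (Module.End F K)ˣ) : Module.End F K) v = (p.1 : K) * p.2 v := by
  rw [sl, mul_apply', mu_apply, gl_apply]

theorem sl_conj (p : Kˣ × (K ≃ₐ[F] K)) (u : Kˣ) :
    sl p * mu F K u * (sl p)⁻¹ = mu F K (Units.map (p.2 : K →* K) u) := by
  rw [mul_inv_eq_iff_eq_mul]
  apply unit_ext
  intro v
  rw [mul_apply', mul_apply', mu_apply, mu_apply, sl_apply, sl_apply, map_mul]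
  show (p.1 : K) * (p.2 (u : K) * p.2 v) = p.2 (u : K) * ((p.1 : K) * p.2 v)
  ring

theorem sl_mem (p : Kˣ × (K ≃ₐ[F] K)) :
    sl p ∈ Subgroup.normalizer (((mu F K).range : Subgroup (Module.End F K)ˣ) : Set (Module.End F K)ˣ) := by
  rw [Subgroup.mem_normalizer_iff]
  intro h
  constructor
  · rintro ⟨u, rfl⟩
    rw [sl_conj]
    exact ⟨_, rfl⟩
  · rintro ⟨w, hw⟩
    refine ⟨Units.map (p.2.symm : K →* K) w, ?_⟩
    have h1 := sl_conj p (Units.map (p.2.symm : K →* K) w)
    have h2 : Units.map (p.2 : K →* K) (Units.map (p.2.symm : K →* K) w) = w := by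
      apply Units.ext
      show p.2 (p.2.symm (w : K)) = (w : K)
      exact p.2.apply_symm_apply _
    rw [h2, hw] at h1
    have h3 := mul_right_cancel h1
    exact mul_left_cancel h3

theorem sl_inj : Function.Injective (sl : Kˣ × (K ≃ₐ[F] K) → (Module.End F K)ˣ) := by
  rintro ⟨a, σ⟩ ⟨b, τ⟩ h
  have h1 : ∀ v, (a : K) * σ v = (b : K) * τ v := by
    intro v
    have := congrArg (fun f : (Module.End F K)ˣ => (f : Module.End F K) v) h
    simpa only [sl_apply] using this
  have hab : a = b := by
    apply Units.ext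
    have := h1 1
    rwa [map_one, map_one, mul_one, mul_one] at this
  subst hab
  have hστ : σ = τ := by
    apply AlgEquiv.ext
    intro v
    exact mul_left_cancel₀ a.ne_zero (h1 v)
  rw [hστ]

theorem sl_surj (g : (Module.End F K)ˣ)
    (hg : g ∈ Subgroup.normalizer (((mu F K).range : Subgroup (Module.End F K)ˣ) : Set (Module.End F K)ˣ)) :
    ∃ p : Kˣ × (K ≃ₐ[F] K), sl p = g := by
  rw [Subgroup.mem_normalizer_iff] at hg
  have hu0 : (g : Module.End F K) 1 ≠ 0 := by
    intro h
    have : (1 : K) = 0 := unit_inj g (by rw [h, map_zero])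
    exact one_ne_zero this
  have hmul : ∀ a v : K, (g : Module.End F K) (a * v) =
      (g : Module.End F K) a * ((g : Module.End F K) 1)⁻¹ * (g : Module.End F K) v := by
    intro a v
    by_cases ha : a = 0
    · rw [ha, zero_mul, map_zero, zero_mul, zero_mul]
    · obtain ⟨a', ha'⟩ := (hg (mu F K (Units.mk0 a ha))).mp ⟨_, rfl⟩
      have h2 : mu F K a' * g = g * mu F K (Units.mk0 a ha) := by
        rw [ha', inv_mul_cancel_right]
      have h3 : ∀ w, (a' : K) * (g : Module.End F K) w = (g : Module.End F K) (a * w) := by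
        intro w
        have := congrArg (fun f : (Module.End F K)ˣ => (f : Module.End F K) w) h2
        simpa only [mul_apply', mu_apply, Units.val_mk0] using this
      have h4 := h3 1
      rw [mul_one] at h4
      rw [← h3 v, ← h4, mul_assoc (a' : K), mul_inv_cancel₀ hu0, mul_one]
  obtain ⟨l, hl⟩ : ∃ l : K ≃ₗ[F] K, ∀ v, l v = ((g : Module.End F K) 1)⁻¹ * (g : Module.End F K) v :=
    ⟨LinearMap.GeneralLinearGroup.toLinearEquiv (mu F K (Units.mk0 _ hu0)⁻¹ * g), fun v => by
      show ((mu F K (Units.mk0 _ hu0)⁻¹ * g : (Module.End F K)ˣ) : Module.End F K) v = _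
      rw [mul_apply', mu_apply]
      rfl⟩
  have hl1 : l 1 = 1 := by rw [hl, inv_mul_cancel₀ hu0]
  have hlmul : ∀ x y, l (x * y) = l x * l y := by
    intro x y
    rw [hl, hl, hl, hmul x y]
    ring
  refine ⟨(Units.mk0 _ hu0, AlgEquiv.ofLinearEquiv l hl1 hlmul), ?_⟩
  apply unit_ext
  intro v
  rw [sl_apply]
  show (g : Module.End F K) 1 * l v = _
  rw [hl, ← mul_assoc, mul_inv_cancel₀ hu0, one_mul]

end aux


/-- Let F ⊆ K be finite fields with |F| = q and [K : F] = n ≥ 2, so |K| = q^n. Regard K as an n-dimensional F-vector space; the multiplications by non-zero elements of K form a cyclic subgroup of GL_F(K) of order q^n − 1 acting regularly on the non-zero vectors (a Singer group). Its normaliser in GL_F(K) has order n·(q^n − 1). -/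
theorem result {F K : Type*} [Field F] [Fintype F] [Field K] [Fintype K] [Algebra F K] (n : ℕ) (hn : 2 ≤ n) (hdim : Module.finrank F K = n) :
    Nat.card (Subgroup.normalizer (((Units.map ((Algebra.lmul F K : K →ₐ[F] Module.End F K) : K →* Module.End F K)).range : Subgroup (Module.End F K)ˣ) : Set (Module.End F K)ˣ)) = n * (Fintype.card K - 1) := by
  classical
  show Nat.card (Subgroup.normalizer (((mu F K).range : Subgroup (Module.End F K)ˣ) : Set (Module.End F K)ˣ)) = _
  have hbij : Function.Bijective (fun p : Kˣ × (K ≃ₐ[F] K) =>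
      (⟨sl p, sl_mem p⟩ : Subgroup.normalizer (((mu F K).range : Subgroup (Module.End F K)ˣ) : Set (Module.End F K)ˣ))) := by
    constructor
    · intro p q h
      exact sl_inj (congrArg Subtype.val h)
    · rintro ⟨g, hg⟩
      obtain ⟨p, hp⟩ := sl_surj g hg
      exact ⟨p, Subtype.ext hp⟩
  rw [← Nat.card_congr (Equiv.ofBijective _ hbij), Nat.card_prod, Nat.card_units,
    IsGalois.card_aut_eq_finrank F K, hdim, Nat.card_eq_fintype_card, mul_comm]

end Cfsg.Agent.S5738
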