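import Cfsg.Statements.S5747

set_option autoImplicit false
open Cfsg

namespace Cfsg.Agent.S5747

section aux

variable (G : Type*) {Ω : Type*} [Group G] [MulAction G Ω]

/-- Irredundant base, as a sequence (exactly the expression used in the statement). -/
def IB {t : ℕ} (f : Fin t → Ω) : Prop :=
  (∀ g : G, (∀ i : Fin t, g • f i = f i) → g = 1) ∧
    ∀ i : Fin t, ∃ g : G, (∀ j : Fin t, j < i → g • f j = f j) ∧ g • f i ≠ f i

/-- A finite set that is a base. -/
def SBase (S : Finset Ω) : Prop := ∀ g : G, (∀ x ∈ S, g • x = x) → g = 1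

/-- A finite set each of whose points is moved by an element fixing all the others. -/
def SInd (S : Finset Ω) : Prop :=
  ∀ x ∈ S, ∃ g : G, (∀ y ∈ S, y ≠ x → g • y = y) ∧ g • x ≠ x

theorem injective_of_IB {t : ℕ} (f : Fin t → Ω) (hf : IB G f) : Function.Injective f := by
  intro i j hij
  by_contra hne
  rcases lt_or_gt_of_ne hne with h | h
  · obtain ⟨g, hg, hgj⟩ := hf.2 j
    exact hgj (by rw [← hij]; exact hg i h)
  · obtain ⟨g, hg, hgi⟩ := hf.2 i
    exact hgi (by rw [hij]; exact hg j h)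

theorem sInd_subset {S S' : Finset Ω} (h : SInd G S) (hs : S' ⊆ S) : SInd G S' := by
  intro x hx
  obtain ⟨g, hg, hgx⟩ := h x (hs hx)
  exact ⟨g, fun y hy hyx => hg y (hs hy) hyx, hgx⟩

/-- From any base sequence one can extract an irredundant base; if nothing is dropped the sequence
was irredundant. -/
theorem exists_IB_of_base : ∀ (t : ℕ) (h : Fin t → Ω),
    (∀ g : G, (∀ i, g • h i = h i) → g = 1) →
    ∃ (t' : ℕ) (h' : Fin t' → Ω), IB G h' ∧ t' ≤ t ∧
      (t' = t → ∀ i : Fin t, ∃ g : G, (∀ j : Fin t, j < i → g • h j = h j) ∧ g • h i ≠ h i) := by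
  intro t
  induction t with
  | zero =>
    intro h hb
    exact ⟨0, h, ⟨hb, fun i => i.elim0⟩, le_rfl, fun _ i => i.elim0⟩
  | succ t ih =>
    intro h hb
    by_cases hirr : ∀ i : Fin (t + 1), ∃ g : G, (∀ j, j < i → g • h j = h j) ∧ g • h i ≠ h i
    · exact ⟨t + 1, h, ⟨hb, hirr⟩, le_rfl, fun _ => hirr⟩
    · push_neg at hirr
      obtain ⟨i, hi⟩ := hirr
      have hb' : ∀ g : G, (∀ k : Fin t, g • h (i.succAbove k) = h (i.succAbove k)) → g = 1 := by
        intro g hg
        apply hb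
        have hall : ∀ j, j ≠ i → g • h j = h j := by
          intro j hj
          obtain ⟨k, rfl⟩ := Fin.exists_succAbove_eq hj
          exact hg k
        intro j
        by_cases hj : j = i
        · rw [hj]
          exact hi g (fun j' hj' => hall j' (ne_of_lt hj'))
        · exact hall j hj
      obtain ⟨t', h', hIB, hle, -⟩ := ih (fun k => h (i.succAbove k)) hb'
      exact ⟨t', h', hIB, by omega, fun heq => by omega⟩

variable [DecidableEq Ω]

/-- The set has an ordering in which each point is moved by an element fixing the earlier ones. -/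
def HasIrrOrder (S : Finset Ω) : Prop :=
  ∃ (t : ℕ) (f : Fin t → Ω),
    (∀ i : Fin t, ∃ g : G, (∀ j : Fin t, j < i → g • f j = f j) ∧ g • f i ≠ f i) ∧
      Finset.univ.image f = S

theorem hasIrrOrder_empty : HasIrrOrder G (∅ : Finset Ω) :=
  ⟨0, Fin.elim0, fun i => i.elim0, by simp⟩

theorem hasIrrOrder_insert {T : Finset Ω} (hT : HasIrrOrder G T) (y : Ω)
    (hy : ∃ g : G, (∀ z ∈ T, g • z = z) ∧ g • y ≠ y) : HasIrrOrder G (insert y T) := by
  obtain ⟨t, f, hf, him⟩ := hT
  obtain ⟨g₀, hg₀, hg₀y⟩ := hy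
  have hcast : ∀ j : Fin (t + 1), j ≠ Fin.last t → ∃ j' : Fin t, j = Fin.castSucc j' :=
    fun j hj => ⟨j.castPred hj, by simp⟩
  refine ⟨t + 1, Fin.snoc f y, ?_, ?_⟩
  · intro i
    induction i using Fin.lastCases with
    | last =>
      refine ⟨g₀, fun j hj => ?_, by simpa using hg₀y⟩
      obtain ⟨j', rfl⟩ := hcast j (ne_of_lt hj)
      rw [Fin.snoc_castSucc]
      exact hg₀ _ (him ▸ Finset.mem_image_of_mem f (Finset.mem_univ _))
    | cast i' =>
      obtain ⟨g, hg, hgi⟩ := hf i'
      refine ⟨g, fun j hj => ?_, by simpa using hgi⟩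
      have hjlast : j ≠ Fin.last t := ne_of_lt (lt_of_lt_of_le hj (Fin.le_last _))
      obtain ⟨j', rfl⟩ := hcast j hjlast
      rw [Fin.snoc_castSucc]
      exact hg j' (Fin.castSucc_lt_castSucc_iff.1 hj)
  · ext z
    simp only [Finset.mem_image, Finset.mem_univ, true_and, Finset.mem_insert, ← him]
    constructor
    · rintro ⟨i, rfl⟩
      induction i using Fin.lastCases with
      | last => left; simp
      | cast i' => right; exact ⟨i', by simp⟩
    · rintro (rfl | ⟨i, rfl⟩)
      · exact ⟨Fin.last t, by simp⟩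
      · exact ⟨Fin.castSucc i, by simp⟩

theorem hasIrrOrder_of_sInd {S : Finset Ω} (h : SInd G S) : HasIrrOrder G S := by
  induction S using Finset.induction_on with
  | empty => exact hasIrrOrder_empty G
  | insert a T ha ih =>
    apply hasIrrOrder_insert G (ih (sInd_subset G h (Finset.subset_insert a T)))
    obtain ⟨g, hg, hga⟩ := h a (Finset.mem_insert_self a T)
    exact ⟨g, fun z hz => hg z (Finset.mem_insert_of_mem hz) (by rintro rfl; exact ha hz), hga⟩

section reorder

variable (hb : ∀ (t : ℕ) (f : Fin t → Ω) (σ : Equiv.Perm (Fin t)), IB G f → IB G (f ∘ σ))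
include hb

theorem sInd_image_of_IB {t : ℕ} (f : Fin t → Ω) (hf : IB G f) :
    SInd G (Finset.univ.image f) := by
  intro x hx
  obtain ⟨i, -, rfl⟩ := Finset.mem_image.1 hx
  obtain ⟨t0, rfl⟩ : ∃ t0, t = t0 + 1 := ⟨t - 1, by have := i.pos; omega⟩
  obtain ⟨g, hg, hgi⟩ := (hb _ f (Equiv.swap i (Fin.last t0)) hf).2 (Fin.last t0)
  simp only [Function.comp_apply, Equiv.swap_apply_right] at hgi
  refine ⟨g, fun y hy hyx => ?_, hgi⟩
  obtain ⟨j, -, rfl⟩ := Finset.mem_image.1 hy
  have hji : j ≠ i := fun h => hyx (by rw [h])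
  have hlt : Equiv.swap i (Fin.last t0) j < Fin.last t0 := by
    apply lt_of_le_of_ne (Fin.le_last _)
    intro h
    apply hji
    have := congrArg (Equiv.swap i (Fin.last t0)) h
    simpa using this
  have := hg (Equiv.swap i (Fin.last t0) j) hlt
  simpa using this

theorem sInd_of_hasIrrOrder {S : Finset Ω} (h : HasIrrOrder G S) (hS : SBase G S) : SInd G S := by
  obtain ⟨t, f, hf, rfl⟩ := h
  refine sInd_image_of_IB G hb f ⟨fun g hg => hS g (fun x hx => ?_), hf⟩
  obtain ⟨i, -, rfl⟩ := Finset.mem_image.1 hx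
  exact hg i

theorem exchange {S₁ S₂ : Finset Ω} (h1b : SBase G S₁) (h1i : SInd G S₁) (h2b : SBase G S₂)
    {x : Ω} (hx1 : x ∈ S₁) (hx2 : x ∉ S₂) :
    ∃ y ∈ S₂, y ∉ S₁ ∧ SBase G (insert y (S₁.erase x)) ∧ SInd G (insert y (S₁.erase x)) := by
  obtain ⟨g₀, hg₀, hg₀x⟩ := h1i x hx1
  have hg₀T : ∀ z ∈ S₁.erase x, g₀ • z = z :=
    fun z hz => hg₀ z (Finset.mem_of_mem_erase hz) (Finset.ne_of_mem_erase hz)
  have hg₀1 : g₀ ≠ 1 := by
    rintro rfl
    exact hg₀x (one_smul _ _)
  have hex : ∃ y ∈ S₂, g₀ • y ≠ y := by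
    by_contra h
    push_neg at h
    exact hg₀1 (h2b g₀ h)
  obtain ⟨y, hy2, hgy⟩ := hex
  have hyT : y ∉ S₁.erase x := fun h => hgy (hg₀T y h)
  have hyx : y ≠ x := by
    rintro rfl
    exact hx2 hy2
  have hy1 : y ∉ S₁ := fun h => hyT (Finset.mem_erase.2 ⟨hyx, h⟩)
  have hT : HasIrrOrder G (S₁.erase x) :=
    hasIrrOrder_of_sInd G (sInd_subset G h1i (Finset.erase_subset _ _))
  have hU : HasIrrOrder G (insert y (S₁.erase x)) := hasIrrOrder_insert G hT y ⟨g₀, hg₀T, hgy⟩
  have hUb : SBase G (insert y (S₁.erase x)) := by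
    intro k hk
    by_contra hk1
    have hkx : k • x ≠ x := by
      intro hkx
      apply hk1
      apply h1b
      intro z hz
      by_cases hzx : z = x
      · rw [hzx]; exact hkx
      · exact hk z (Finset.mem_insert_of_mem (Finset.mem_erase.2 ⟨hzx, hz⟩))
    have hV : HasIrrOrder G (insert x (insert y (S₁.erase x))) :=
      hasIrrOrder_insert G hU x ⟨k, hk, hkx⟩
    have hVb : SBase G (insert x (insert y (S₁.erase x))) := by
      intro g hg
      apply h1b
      intro z hz
      by_cases hzx : z = x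
      · rw [hzx]; exact hg x (Finset.mem_insert_self _ _)
      · exact hg z (Finset.mem_insert_of_mem
          (Finset.mem_insert_of_mem (Finset.mem_erase.2 ⟨hzx, hz⟩)))
    have hVi := sInd_of_hasIrrOrder G hb hV hVb
    obtain ⟨g, hg, hgy'⟩ := hVi y (Finset.mem_insert_of_mem (Finset.mem_insert_self _ _))
    apply hgy'
    have hg1 : g = 1 := by
      apply h1b
      intro z hz
      have hzy : z ≠ y := by
        rintro rfl
        exact hy1 hz
      by_cases hzx : z = x
      · rw [hzx]; exact hg x (Finset.mem_insert_self _ _) (Ne.symm hyx)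
      · exact hg z (Finset.mem_insert_of_mem
          (Finset.mem_insert_of_mem (Finset.mem_erase.2 ⟨hzx, hz⟩))) hzy
    rw [hg1, one_smul]
  exact ⟨y, hy2, hy1, hUb, sInd_of_hasIrrOrder G hb hU hUb⟩

theorem card_le : ∀ (n : ℕ) (S₁ S₂ : Finset Ω), (S₁ \ S₂).card = n →
    SBase G S₁ → SInd G S₁ → SBase G S₂ → S₁.card ≤ S₂.card := by
  intro n
  induction n with
  | zero =>
    intro S₁ S₂ h _ _ _
    have : S₁ ⊆ S₂ := Finset.sdiff_eq_empty_iff_subset.1 (Finset.card_eq_zero.1 h)
    exact Finset.card_le_card this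
  | succ n ih =>
    intro S₁ S₂ h h1b h1i h2b
    have hne : (S₁ \ S₂).Nonempty := Finset.card_pos.1 (by omega)
    obtain ⟨x, hx⟩ := hne
    obtain ⟨hx1, hx2⟩ := Finset.mem_sdiff.1 hx
    obtain ⟨y, hy2, hy1, hUb, hUi⟩ := exchange G hb h1b h1i h2b hx1 hx2
    have hcard : (insert y (S₁.erase x)).card = S₁.card := by
      rw [Finset.card_insert_of_notMem (fun h => hy1 (Finset.mem_of_mem_erase h)),
        Finset.card_erase_of_mem hx1]
      have := Finset.card_pos.2 ⟨x, hx1⟩
      omega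
    have hsd : (insert y (S₁.erase x)) \ S₂ = (S₁ \ S₂).erase x := by
      ext z
      simp only [Finset.mem_sdiff, Finset.mem_insert, Finset.mem_erase]
      constructor
      · rintro ⟨rfl | ⟨hzx, hz1⟩, hz2⟩
        · exact absurd hy2 hz2
        · exact ⟨hzx, hz1, hz2⟩
      · rintro ⟨hzx, hz1, hz2⟩
        exact ⟨Or.inr ⟨hzx, hz1⟩, hz2⟩
    have hcard2 : ((insert y (S₁.erase x)) \ S₂).card = n := by
      rw [hsd, Finset.card_erase_of_mem hx, h]
      rfl
    have := ih (insert y (S₁.erase x)) S₂ hcard2 hUb hUi h2b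
    omega

end reorder

end aux

/-- Let a finite group G act on a finite set Ω. An irredundant base is a sequence of points ω₁, …, ω_t whose pointwise stabiliser is trivial and in which each ω_i is moved by some element fixing ω₁, …, ω_{i−1}. Then all irredundant bases have the same length if and only if every reordering of an irredundant base is again an irredundant base. -/
theorem result {G Ω : Type*} [Group G] [Finite G] [MulAction G Ω] [Fintype Ω] :
    (∀ (t t' : ℕ) (f : Fin t → Ω) (f' : Fin t' → Ω), ((∀ g : G, (∀ i : Fin t, g • f i = f i) → g = 1) ∧ ∀ i : Fin t, ∃ g : G, (∀ j : Fin t, j < i → g • f j = f j) ∧ g • f i ≠ f i) → ((∀ g : G, (∀ i : Fin t', g • f' i = f' i) → g = 1) ∧ ∀ i : Fin t', ∃ g : G, (∀ j : Fin t', j < i → g • f' j = f' j) ∧ g • f' i ≠ f' i) → t = t') ↔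
    (∀ (t : ℕ) (f : Fin t → Ω) (σ : Equiv.Perm (Fin t)), ((∀ g : G, (∀ i : Fin t, g • f i = f i) → g = 1) ∧ ∀ i : Fin t, ∃ g : G, (∀ j : Fin t, j < i → g • f j = f j) ∧ g • f i ≠ f i) → ((∀ g : G, (∀ i : Fin t, g • (f ∘ σ) i = (f ∘ σ) i) → g = 1) ∧ ∀ i : Fin t, ∃ g : G, (∀ j : Fin t, j < i → g • (f ∘ σ) j = (f ∘ σ) j) ∧ g • (f ∘ σ) i ≠ (f ∘ σ) i)) := by
  classical
  constructor
  · intro ha t f σ hf
    have hbase : ∀ g : G, (∀ i, g • (f ∘ σ) i = (f ∘ σ) i) → g = 1 :=
      fun g hg => hf.1 g (fun i => by simpa using hg (σ.symm i))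
    refine ⟨hbase, ?_⟩
    obtain ⟨t', h', hIB, hle, himp⟩ := exists_IB_of_base G t (f ∘ σ) hbase
    exact himp (ha t' t h' f hIB hf)
  · intro hb t t' f f' hf hf'
    have hb' : ∀ (t : ℕ) (f : Fin t → Ω) (σ : Equiv.Perm (Fin t)), IB G f → IB G (f ∘ σ) := hb
    have e1 : (Finset.univ.image f).card = t := by
      rw [Finset.card_image_of_injective _ (injective_of_IB G f hf)]
      simp
    have e2 : (Finset.univ.image f').card = t' := by
      rw [Finset.card_image_of_injective _ (injective_of_IB G f' hf')]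
      simp
    have b1 : SBase G (Finset.univ.image f) :=
      fun g hg => hf.1 g (fun i => hg _ (Finset.mem_image_of_mem f (Finset.mem_univ i)))
    have b2 : SBase G (Finset.univ.image f') :=
      fun g hg => hf'.1 g (fun i => hg _ (Finset.mem_image_of_mem f' (Finset.mem_univ i)))
    have i1 := sInd_image_of_IB G hb' f hf
    have i2 := sInd_image_of_IB G hb' f' hf'
    have l1 := card_le G hb' _ _ _ rfl b1 i1 b2
    have l2 := card_le G hb' _ _ _ rfl b2 i2 b1
    omega

end Cfsg.Agent.S5747
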