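import Cfsg.Statements.S5754

set_option autoImplicit false
open Cfsg

namespace Cfsg.Agent.S5754

section aux

variable {F V : Type*} [Field F] [AddCommGroup V] [Module F V]

open QuadraticMap

/-- the functional `y ↦ (Q a)⁻¹ * polar Q a y`. -/
noncomputable def reflFun (Q : QuadraticForm F V) (a : V) : Module.Dual F V :=
  (Q a)⁻¹ • (QuadraticMap.polarBilin Q a)

theorem reflFun_apply (Q : QuadraticForm F V) (a y : V) :
    reflFun Q a y = (Q a)⁻¹ * polar Q a y := by
  simp [reflFun]

theorem reflFun_self (Q : QuadraticForm F V) (a : V) (ha : Q a ≠ 0) :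
    reflFun Q a a = 2 := by
  rw [reflFun_apply, QuadraticMap.polar_self, two_smul]
  field_simp
  ring

/-- The reflection along a non-singular vector, as an isometry. -/
noncomputable def reflIso (Q : QuadraticForm F V) (a : V) (ha : Q a ≠ 0) : Q.IsometryEquiv Q :=
  { Module.reflection (reflFun_self Q a ha) with
    map_app' := by
      intro y
      show Q (Module.reflection (reflFun_self Q a ha) y) = Q y
      rw [Module.reflection_apply, sub_eq_add_neg, ← neg_smul, QuadraticMap.map_add (⇑Q),
        QuadraticMap.map_smul, QuadraticMap.polar_smul_right, reflFun_apply,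
        QuadraticMap.polar_comm Q y a]
      simp only [smul_eq_mul]
      field_simp
      ring }

theorem reflIso_apply (Q : QuadraticForm F V) (a : V) (ha : Q a ≠ 0) (y : V) :
    reflIso Q a ha y = y - ((Q a)⁻¹ * polar Q a y) • a := by
  show Module.reflection (reflFun_self Q a ha) y = _
  rw [Module.reflection_apply, reflFun_apply]

theorem polar_isometry (Q : QuadraticForm F V) (φ : Q.IsometryEquiv Q) (x y : V) :
    polar Q (φ x) (φ y) = polar Q x y := by
  unfold QuadraticMap.polar
  rw [← map_add, φ.map_app, φ.map_app, φ.map_app]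

theorem witt {ι : Type*} [DecidableEq ι] (Q : QuadraticForm F V) (hQ : Q.Anisotropic) (v v' : ι → V)
    (hq : ∀ i, Q (v i) = Q (v' i)) (hp : ∀ i j, polar Q (v i) (v j) = polar Q (v' i) (v' j))
    (s : Finset ι) : ∃ φ : Q.IsometryEquiv Q, ∀ i ∈ s, φ (v i) = v' i := by
  induction s using Finset.induction_on with
  | empty => exact ⟨QuadraticMap.IsometryEquiv.refl Q, by simp⟩
  | insert k s hk ih =>
    obtain ⟨φ, hφ⟩ := ih
    by_cases hw : φ (v k) = v' k
    · refine ⟨φ, fun i hi => ?_⟩
      rcases Finset.mem_insert.1 hi with rfl | hi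
      · exact hw
      · exact hφ i hi
    · set w := φ (v k) with hwdef
      set a := w - v' k with hadef
      have ha0 : a ≠ 0 := sub_ne_zero.2 hw
      have ha : Q a ≠ 0 := fun h => ha0 (hQ a h)
      have hQw : Q w = Q (v' k) := by rw [hwdef, φ.map_app, hq]
      have hQa : Q a = 2 * Q w - polar Q w (v' k) := by
        rw [hadef, sub_eq_add_neg, QuadraticMap.map_add (⇑Q), QuadraticMap.map_neg,
          QuadraticMap.polar_neg_right, ← hQw]
        ring
      refine ⟨φ.trans (reflIso Q a ha), fun i hi => ?_⟩
      show reflIso Q a ha (φ (v i)) = v' i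
      rcases Finset.mem_insert.1 hi with rfl | hi
      · rw [reflIso_apply]
        have h1 : polar Q a w = Q a := by
          rw [hQa, hadef, QuadraticMap.polar_sub_left, QuadraticMap.polar_self,
            QuadraticMap.polar_comm Q (v' i) w, two_smul, two_mul]
        rw [h1, inv_mul_cancel₀ ha, one_smul, hadef]
        abel
      · rw [hφ i hi, reflIso_apply]
        have h1 : polar Q a (v' i) = 0 := by
          have h2 : polar Q w (v' i) = polar Q (v' k) (v' i) := by
            rw [← hp k i, ← hφ i hi, hwdef, polar_isometry]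
          rw [hadef, QuadraticMap.polar_sub_left, h2, sub_self]
        rw [h1, mul_zero, zero_smul, sub_zero]

end aux

/-- Let V be a finite-dimensional vector space over a finite field F carrying an anisotropic quadratic form Q (Q(v) = 0 only for v = 0). Then the group of all maps v ↦ φ(v) + c, with φ an isometry of Q and c ∈ V, acts on V as a binary permutation group: given n ≥ 2 and two n-tuples u, u' of vectors such that every pair of corresponding entries of u is carried to that of u' by such a map, one such map carries u to u'. -/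
theorem result {F V : Type*} [Field F] [Finite F] [AddCommGroup V] [Module F V] [Module.Finite F V]
    (Q : QuadraticForm F V) (hQ : Q.Anisotropic) (n : ℕ) (hn : 2 ≤ n) (u u' : Fin n → V)
    (h2 : ∀ i j : Fin n, i ≠ j → ∃ (φ : Q.IsometryEquiv Q) (c : V), φ (u i) + c = u' i ∧ φ (u j) + c = u' j) :
    ∃ (φ : Q.IsometryEquiv Q) (c : V), ∀ i, φ (u i) + c = u' i := by
  classical
  have hD : ∀ i j : Fin n, Q (u i - u j) = Q (u' i - u' j) := by
    intro i j
    by_cases hij : i = j
    · subst hij; simp
    · obtain ⟨φ, c, h1, h2'⟩ := h2 i j hij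
      rw [← h1, ← h2', add_sub_add_right_eq_sub, ← map_sub, φ.map_app]
  let i0 : Fin n := ⟨0, by omega⟩
  have hq : ∀ i, Q (u i - u i0) = Q (u' i - u' i0) := fun i => hD i i0
  have hp : ∀ i j, QuadraticMap.polar Q (u i - u i0) (u j - u i0)
      = QuadraticMap.polar Q (u' i - u' i0) (u' j - u' i0) := by
    intro i j
    have e1 : QuadraticMap.polar Q (u i - u i0) (u j - u i0)
        = Q (u i - u i0) + Q (u j - u i0) - Q (u i - u j) := by
      have : u i - u j = (u i - u i0) + -(u j - u i0) := by abel
      rw [this, QuadraticMap.map_add (⇑Q), QuadraticMap.map_neg, QuadraticMap.polar_neg_right]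
      ring
    have e2 : QuadraticMap.polar Q (u' i - u' i0) (u' j - u' i0)
        = Q (u' i - u' i0) + Q (u' j - u' i0) - Q (u' i - u' j) := by
      have : u' i - u' j = (u' i - u' i0) + -(u' j - u' i0) := by abel
      rw [this, QuadraticMap.map_add (⇑Q), QuadraticMap.map_neg, QuadraticMap.polar_neg_right]
      ring
    rw [e1, e2, hq i, hq j, hD i j]
  obtain ⟨φ, hφ⟩ := witt Q hQ (fun i => u i - u i0) (fun i => u' i - u' i0) hq hp Finset.univ
  refine ⟨φ, u' i0 - φ (u i0), fun i => ?_⟩
  have h := hφ i (Finset.mem_univ i)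
  simp only [map_sub] at h
  rw [← add_sub_assoc, sub_eq_iff_eq_add, ← sub_eq_iff_eq_add'] at *
  rw [← h]
  abel

end Cfsg.Agent.S5754
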