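import Cfsg.Statements.S5763
import Cfsg.Agent.Helper28.S8Check

set_option autoImplicit false
open Cfsg
open Cfsg.Agent.Helper28.S8Check

namespace Cfsg.Agent.S5763

/-! ### Colourings and their automorphisms -/

def c0 : Fin 8 → Fin 4 := ![0, 0, 1, 1, 2, 2, 3, 3]

def q : Fin 4 → Fin 2 := ![0, 0, 1, 1]

def InAut (c : Fin 8 → Fin 4) (s : Fin 8 → Fin 8) : Prop :=
  ∀ i j : Fin 8, (c i = c j ↔ c (s i) = c (s j)) ∧
    (q (c i) = q (c j) ↔ q (c (s i)) = q (c (s j)))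

instance (c : Fin 8 → Fin 4) (s : Fin 8 → Fin 8) : Decidable (InAut c s) := by
  unfold InAut
  infer_instance

def code (c : Fin 8 → Fin 4) : Nat :=
  (c 0).val + 4 * (c 1).val + 16 * (c 2).val + 64 * (c 3).val + 256 * (c 4).val +
    1024 * (c 5).val + 4096 * (c 6).val + 16384 * (c 7).val

theorem code_lt (c : Fin 8 → Fin 4) : code c < 65536 := by
  unfold code
  have h0 := (c 0).isLt; have h1 := (c 1).isLt; have h2 := (c 2).isLt; have h3 := (c 3).isLt
  have h4 := (c 4).isLt; have h5 := (c 5).isLt; have h6 := (c 6).isLt; have h7 := (c 7).isLt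
  omega

theorem dg_code (c : Fin 8 → Fin 4) (i : Fin 8) : dg (code c) (4 ^ i.val) = (c i).val := by
  have h0 := (c 0).isLt; have h1 := (c 1).isLt; have h2 := (c 2).isLt; have h3 := (c 3).isLt
  have h4 := (c 4).isLt; have h5 := (c 5).isLt; have h6 := (c 6).isLt; have h7 := (c 7).isLt
  unfold dg code
  show ((c 0).val + 4 * (c 1).val + 16 * (c 2).val + 64 * (c 3).val + 256 * (c 4).val +
    1024 * (c 5).val + 4096 * (c 6).val + 16384 * (c 7).val) / 4 ^ i.val % 4 = (c i).val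
  fin_cases i <;> simp <;> omega

theorem bx_iff (a b : Bool) : bx a b = true ↔ (a = true ↔ b = true) := by
  cases a <;> cases b <;> simp [bx]

theorem q_iff : ∀ a b : Fin 4, q a = q b ↔ a.val / 2 = b.val / 2 := by decide

theorem nbeq_iff (a b : Nat) : Nat.beq a b = true ↔ a = b :=
  ⟨Nat.eq_of_beq_eq_true, fun h => h ▸ Nat.beq_refl a⟩

theorem ndiv_eq (a b : Nat) : Nat.div a b = a / b := rfl

theorem pairOK_iff (c : Fin 8 → Fin 4) (i j k l : Fin 8) :
    pairOK (code c) (4 ^ i.val, 4 ^ j.val, 4 ^ k.val, 4 ^ l.val) = true ↔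
      ((c i = c j ↔ c k = c l) ∧ (q (c i) = q (c j) ↔ q (c k) = q (c l))) := by
  unfold pairOK
  simp only [dg_code, Bool.and_eq_true, bx_iff, nbeq_iff, ndiv_eq, q_iff]
  simp only [Fin.ext_iff]

def quadsOf (s : Fin 8 → Fin 8) : List (Nat × Nat × Nat × Nat) :=
  pairs.map fun p => (4 ^ p.1.val, 4 ^ p.2.val, 4 ^ (s p.1).val, 4 ^ (s p.2).val)

theorem candData_eq : candData = cands.map quadsOf := by decide +kernel

theorem mem_pairs : ∀ i j : Fin 8, i < j → (i, j) ∈ pairs := by decide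

theorem inAut_of_candOK (c : Fin 8 → Fin 4) (s : Fin 8 → Fin 8)
    (h : candOK (code c) (quadsOf s) = true) : InAut c s := by
  unfold candOK quadsOf at h
  rw [List.all_map, List.all_eq_true] at h
  have key : ∀ i j : Fin 8, i < j → ((c i = c j ↔ c (s i) = c (s j)) ∧
      (q (c i) = q (c j) ↔ q (c (s i)) = q (c (s j)))) := by
    intro i j hij
    have := h (i, j) (mem_pairs i j hij)
    simpa only [Function.comp_apply, pairOK_iff] using this
  intro i j
  rcases lt_trichotomy i j with hij | hij | hij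
  · exact key i j hij
  · subst hij
    exact ⟨iff_of_true rfl rfl, iff_of_true rfl rfl⟩
  · have := key j i hij
    exact ⟨by rw [eq_comm, this.1, eq_comm], by rw [eq_comm, this.2, eq_comm]⟩

theorem exists_cand (c : Fin 8 → Fin 4) (hbal : ∑ i : Fin 8, 16 ^ (c i).val = 8738) :
    ∃ s ∈ cands, InAut c s := by
  have h := allPow_sound chk 16 0 chk_all (code c) (Nat.zero_le _)
    (by have := code_lt c; norm_num; omega)
  have hb : balN (code c) = true := by
    unfold balN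
    rw [nbeq_iff]
    have e0 := dg_code c 0; have e1 := dg_code c 1; have e2 := dg_code c 2
    have e3 := dg_code c 3; have e4 := dg_code c 4; have e5 := dg_code c 5
    have e6 := dg_code c 6; have e7 := dg_code c 7
    norm_num at e0 e1 e2 e3 e4 e5 e6 e7
    rw [e0, e1, e2, e3, e4, e5, e6, e7]
    rw [Fin.sum_univ_eight] at hbal
    exact hbal
  unfold chk at h
  rw [hb] at h
  simp only [Bool.not_true, Bool.false_or, List.any_eq_true] at h
  obtain ⟨l, hl, hlc⟩ := h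
  rw [candData_eq, List.mem_map] at hl
  obtain ⟨s, hs, rfl⟩ := hl
  exact ⟨s, hs, inAut_of_candOK c s hlc⟩

/-! ### The group `P0` of automorphisms of the standard colouring -/

def P0 : Subgroup (Equiv.Perm (Fin 8)) where
  carrier := {σ | InAut c0 σ}
  one_mem' := fun i j => ⟨Iff.rfl, Iff.rfl⟩
  mul_mem' := by
    intro a b ha hb i j
    have h1 := hb i j
    have h2 := ha (b i) (b j)
    exact ⟨h1.1.trans h2.1, h1.2.trans h2.2⟩
  inv_mem' := by
    intro a ha i j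
    have h := ha (a⁻¹ i) (a⁻¹ j)
    have e1 : a (a⁻¹ i) = i := Equiv.apply_symm_apply a i
    have e2 : a (a⁻¹ j) = j := Equiv.apply_symm_apply a j
    rw [e1, e2] at h
    exact ⟨h.1.symm, h.2.symm⟩

theorem mem_P0 (σ : Equiv.Perm (Fin 8)) : σ ∈ P0 ↔ InAut c0 σ := Iff.rfl

def par : Fin 8 → Fin 8 := ![1, 0, 3, 2, 5, 4, 7, 6]

def F (a b c d : Fin 8) : Fin 8 → Fin 8 := ![a, par a, b, par b, c, par c, d, par d]

theorem par_of : ∀ a b : Fin 8, c0 a = c0 b → a ≠ b → b = par a := by decide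

set_option maxRecDepth 100000 in
theorem F_pow : ∀ a b c d : Fin 8, c0 a ≠ c0 b → q (c0 a) = q (c0 b) → q (c0 a) ≠ q (c0 c) →
    c0 c ≠ c0 d → q (c0 c) = q (c0 d) → ∀ i, (F a b c d)^[8] i = i := by decide +kernel

theorem pow_eight_of_mem (σ : Equiv.Perm (Fin 8)) (hσ : σ ∈ P0) : σ ^ 8 = 1 := by
  rw [mem_P0] at hσ
  have h1 : σ 1 = par (σ 0) :=
    par_of (σ 0) (σ 1) ((hσ 0 1).1.1 (by decide)) (σ.injective.ne (by decide))
  have h3 : σ 3 = par (σ 2) :=
    par_of (σ 2) (σ 3) ((hσ 2 3).1.1 (by decide)) (σ.injective.ne (by decide))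
  have h5 : σ 5 = par (σ 4) :=
    par_of (σ 4) (σ 5) ((hσ 4 5).1.1 (by decide)) (σ.injective.ne (by decide))
  have h7 : σ 7 = par (σ 6) :=
    par_of (σ 6) (σ 7) ((hσ 6 7).1.1 (by decide)) (σ.injective.ne (by decide))
  have hfun : ⇑σ = F (σ 0) (σ 2) (σ 4) (σ 6) := by
    funext i
    fin_cases i
    · rfl
    · exact h1
    · rfl
    · exact h3
    · rfl
    · exact h5
    · rfl
    · exact h7
  have c1 : c0 (σ 0) ≠ c0 (σ 2) := fun h => absurd ((hσ 0 2).1.2 h) (by decide)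
  have c2 : q (c0 (σ 0)) = q (c0 (σ 2)) := (hσ 0 2).2.1 (by decide)
  have c3 : q (c0 (σ 0)) ≠ q (c0 (σ 4)) := fun h => absurd ((hσ 0 4).2.2 h) (by decide)
  have c4 : c0 (σ 4) ≠ c0 (σ 6) := fun h => absurd ((hσ 4 6).1.2 h) (by decide)
  have c5 : q (c0 (σ 4)) = q (c0 (σ 6)) := (hσ 4 6).2.1 (by decide)
  ext i
  rw [← Equiv.Perm.iterate_eq_pow, hfun, F_pow _ _ _ _ c1 c2 c3 c4 c5 i]
  rfl

theorem P0_isPGroup : IsPGroup 2 ↥P0 := by
  intro g
  refine ⟨3, Subtype.ext ?_⟩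
  have := pow_eight_of_mem g.1 g.2
  simpa using this

set_option maxRecDepth 100000 in
theorem cands_all : (cands.all fun s => decide ((∀ i, s (s i) = i) ∧ (∃ i, s i ≠ i) ∧ InAut c0 s))
    = true := by decide +kernel

theorem cands_prop : ∀ s ∈ cands, (∀ i, s (s i) = i) ∧ (∃ i, s i ≠ i) ∧ InAut c0 s := by
  intro s hs
  have := List.all_eq_true.mp cands_all s hs
  exact of_decide_eq_true this

theorem cands_inv : ∀ s ∈ cands, ∀ i, s (s i) = i := fun s hs => (cands_prop s hs).1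

theorem cands_ne : ∀ s ∈ cands, ∃ i, s i ≠ i := fun s hs => (cands_prop s hs).2.1

theorem cands_P0 : ∀ s ∈ cands, InAut c0 s := fun s hs => (cands_prop s hs).2.2

theorem c0_bal : ∑ i : Fin 8, 16 ^ (c0 i).val = 8738 := by decide

/-- Any two conjugates of `P0` meet non-trivially. -/
theorem main (y : Equiv.Perm (Fin 8)) :
    ∃ τ : Equiv.Perm (Fin 8), τ ≠ 1 ∧ τ ∈ P0 ∧ y⁻¹ * τ * y ∈ P0 := by
  have hbal : ∑ i : Fin 8, 16 ^ (c0 (y⁻¹ i)).val = 8738 :=
    (Equiv.sum_comp y⁻¹ (fun i => 16 ^ (c0 i).val)).trans c0_bal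
  obtain ⟨s, hs, hsc⟩ := exists_cand (fun i => c0 (y⁻¹ i)) hbal
  refine ⟨⟨s, s, cands_inv s hs, cands_inv s hs⟩, ?_, cands_P0 s hs, ?_⟩
  · obtain ⟨i, hi⟩ := cands_ne s hs
    intro h
    exact hi (DFunLike.congr_fun h i)
  · intro i j
    have := hsc (y i) (y j)
    have e1 : y⁻¹ (y i) = i := Equiv.symm_apply_apply y i
    have e2 : y⁻¹ (y j) = j := Equiv.symm_apply_apply y j
    simp only [e1, e2] at this
    exact this

/-- In the symmetric group on 8 letters any two Sylow 2-subgroups have non-trivial intersection: for a Sylow 2-subgroup H and every element x, H ∩ xHx⁻¹ ≠ 1. -/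
theorem result (H : Sylow 2 (Equiv.Perm (Fin 8))) (x : Equiv.Perm (Fin 8)) :
    (H : Subgroup (Equiv.Perm (Fin 8))) ⊓ (H : Subgroup (Equiv.Perm (Fin 8))).map (MulAut.conj x).toMonoidHom ≠ ⊥ := by
  obtain ⟨Q, hQ⟩ := P0_isPGroup.exists_le_sylow
  obtain ⟨a, ha⟩ := MulAction.exists_smul_eq (Equiv.Perm (Fin 8)) Q H
  have hmem : ∀ σ ∈ P0, a * σ * a⁻¹ ∈ (H : Subgroup (Equiv.Perm (Fin 8))) := by
    intro σ hσ
    rw [← ha, Sylow.coe_subgroup_smul]
    have := Subgroup.smul_mem_pointwise_smul σ (MulAut.conj a) (Q : Subgroup _) (hQ hσ)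
    simpa [MulAut.smul_def] using this
  obtain ⟨τ, hτ1, hτ, hτ'⟩ := main (a⁻¹ * x * a)
  intro hbot
  have h1 : a * τ * a⁻¹ ∈ (H : Subgroup (Equiv.Perm (Fin 8))) ⊓
      (H : Subgroup (Equiv.Perm (Fin 8))).map (MulAut.conj x).toMonoidHom := by
    refine Subgroup.mem_inf.mpr ⟨hmem τ hτ, ?_⟩
    rw [Subgroup.mem_map]
    refine ⟨a * ((a⁻¹ * x * a)⁻¹ * τ * (a⁻¹ * x * a)) * a⁻¹, hmem _ hτ', ?_⟩
    simp only [MulEquiv.toMonoidHom_eq_coe, MonoidHom.coe_coe, MulAut.conj_apply]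
    group
  rw [hbot, Subgroup.mem_bot] at h1
  apply hτ1
  have h2 : τ = a⁻¹ * (a * τ * a⁻¹) * a := by group
  rw [h2, h1]
  group

end Cfsg.Agent.S5763
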