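import Cfsg.Statements.S5885

set_option autoImplicit false
open Cfsg
open scoped Pointwise

namespace Cfsg.Agent.S5885

theorem interval_of_isCoatom_subgroupOf {G : Type*} [Group G] {H M : Subgroup G}
    (hmax : IsCoatom (H.subgroupOf M)) (J : Subgroup G) (hHJ : H ≤ J) (hJM : J ≤ M) :
    J = H ∨ J = M := by
  by_cases h : H.subgroupOf M = J.subgroupOf M
  · left
    have h2 := Subgroup.subgroupOf_inj.mp h
    apply le_antisymm _ hHJ
    calc J = J ⊓ M := (inf_eq_left.mpr hJM).symm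
      _ = H ⊓ M := h2.symm
      _ ≤ H := inf_le_left
  · right
    have hlt : H.subgroupOf M < J.subgroupOf M :=
      lt_of_le_of_ne (Subgroup.subgroupOf_mono M hHJ) h
    have := hmax.2 _ hlt
    exact le_antisymm hJM (Subgroup.subgroupOf_eq_top.mp this)

theorem isCoatom_subgroupOf_of_interval {G : Type*} [Group G] {H K : Subgroup G} (hHK : H ≤ K)
    (hne : H ≠ K) (hint : ∀ L : Subgroup G, H ≤ L → L ≤ K → L = H ∨ L = K) :
    IsCoatom (H.subgroupOf K) := by
  constructor
  · intro h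
    exact hne (le_antisymm hHK (Subgroup.subgroupOf_eq_top.mp h))
  · intro b hb
    have hbL : H ≤ b.map K.subtype := by
      have := Subgroup.map_mono (f := K.subtype) hb.le
      rwa [Subgroup.map_subgroupOf_eq_of_le hHK] at this
    have hcm : (b.map K.subtype).subgroupOf K = b :=
      Subgroup.comap_map_eq_self_of_injective K.subtype_injective b
    rcases hint (b.map K.subtype) hbL (Subgroup.map_subtype_le b) with h | h
    · exfalso
      rw [h] at hcm
      exact hb.ne hcm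
    · rw [← hcm, h]
      exact Subgroup.subgroupOf_self K

theorem swap_mem_iff {Ω : Type*} [DecidableEq Ω] {B : Set Ω} {a b : Ω} (h : a ∈ B ↔ b ∈ B) (x : Ω) :
    Equiv.swap a b x ∈ B ↔ x ∈ B := by
  by_cases hxa : x = a
  · subst hxa; rw [Equiv.swap_apply_left]; exact h.symm
  · by_cases hxb : x = b
    · subst hxb; rw [Equiv.swap_apply_right]; exact h
    · rw [Equiv.swap_apply_of_ne_of_ne hxa hxb]

theorem key {G Ω : Type*} [Group G] [Fintype Ω] [DecidableEq Ω] [MulAction G Ω]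
    (hodd : Odd (Fintype.card Ω))
    (hAlt : ∀ π : Equiv.Perm Ω, π ∈ alternatingGroup Ω → ∃ g : G, ∀ x, g • x = π x)
    (α : Ω) (hM : IsCoatom (MulAction.stabilizer G α))
    (H : Subgroup G) (hHM : H ≤ MulAction.stabilizer G α)
    (hint : ∀ J : Subgroup G, H ≤ J → J ≤ MulAction.stabilizer G α →
      J = H ∨ J = MulAction.stabilizer G α)
    (K : Subgroup G) (hK : K ≠ ⊤) (hHK : H ≤ K) (L : Subgroup G) (hHL : H ≤ L) (hLK : L ≤ K) :
    L = H ∨ L = K := by
  classical
  set M := MulAction.stabilizer G α with hMdef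
  by_cases hKM : K = M
  · rw [hKM]; exact hint L hHL (hKM ▸ hLK)
  have hKMH : K ⊓ M = H := by
    rcases hint (K ⊓ M) (le_inf hHK hHM) inf_le_right with h | h
    · exact h
    · exfalso
      have hMK : M ≤ K := inf_eq_right.mp h
      rcases eq_or_lt_of_le hMK with h' | h'
      · exact hKM h'.symm
      · exact hK (hM.2 K h')
  by_cases hLH : L = H
  · exact Or.inl hLH
  right
  have hLMH : L ⊓ M = H :=
    le_antisymm ((inf_le_inf_right M hLK).trans hKMH.le) (le_inf hHL hHM)
  obtain ⟨l₀, hl₀L, hl₀H⟩ := SetLike.exists_of_lt (lt_of_le_of_ne hHL (Ne.symm hLH))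
  have hl₀M : l₀ ∉ M := fun h => hl₀H (hLMH ▸ (⟨hl₀L, h⟩ : l₀ ∈ L ⊓ M))
  -- the orbit of α under L
  set B : Set Ω := {x | ∃ l ∈ L, l • α = x} with hB
  have hαB : α ∈ B := ⟨1, L.one_mem, one_smul _ _⟩
  have hLB : ∀ l ∈ L, ∀ x ∈ B, l • x ∈ B := by
    rintro l hl x ⟨l', hl', rfl⟩
    exact ⟨l * l', L.mul_mem hl hl', mul_smul _ _ _⟩
  -- block property
  have hB3 : ∀ k ∈ K, ∀ x ∈ B, k • x ∈ B → k ∈ L := by
    rintro k hk x ⟨l, hl, rfl⟩ ⟨l', hl', hll'⟩
    have h1 : l'⁻¹ * (k * l) ∈ M := by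
      rw [hMdef, MulAction.mem_stabilizer_iff, mul_smul, mul_smul, ← hll', inv_smul_smul]
    have h2 : l'⁻¹ * (k * l) ∈ K :=
      K.mul_mem (K.inv_mem (hLK hl')) (K.mul_mem hk (hLK hl))
    have h3 : l'⁻¹ * (k * l) ∈ L := hHL (hKMH ▸ (⟨h2, h1⟩ : _ ∈ K ⊓ M))
    have h4 : k = l' * (l'⁻¹ * (k * l)) * l⁻¹ := by group
    rw [h4]
    exact L.mul_mem (L.mul_mem hl' h3) (L.inv_mem hl)
  -- it suffices to show K • α ⊆ B
  suffices hsuff : ∀ k ∈ K, k • α ∈ B from
    le_antisymm hLK (fun k hk => hB3 k hk α hαB (hsuff k hk))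
  have hLstab : L ≤ MulAction.stabilizer G B := by
    intro l hl
    rw [MulAction.mem_stabilizer_set]
    intro b
    refine ⟨fun h => ?_, fun h => hLB l hl b h⟩
    have := hLB l⁻¹ (L.inv_mem hl) _ h
    rwa [inv_smul_smul] at this
  rcases hint (M ⊓ MulAction.stabilizer G B) (le_inf hHM (hHL.trans hLstab)) inf_le_left with hJ | hJ
  swap
  · -- M stabilizes B, hence so does all of G
    have hMstab : M ≤ MulAction.stabilizer G B := inf_eq_left.mp hJ
    have hlt : M < M ⊔ L := by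
      refine lt_of_le_of_ne le_sup_left fun h => hl₀M ?_
      rw [h]
      exact (le_sup_right : L ≤ M ⊔ L) hl₀L
    have htop : M ⊔ L = ⊤ := hM.2 _ hlt
    have hall : ∀ g : G, g ∈ MulAction.stabilizer G B := by
      intro g
      have : g ∈ M ⊔ L := htop ▸ Subgroup.mem_top g
      exact (sup_le hMstab hLstab) this
    intro k _
    exact (MulAction.mem_stabilizer_set.mp (hall k) α).mpr hαB
  -- now H is the full stabiliser of α and B
  have hT : ∀ π : Equiv.Perm Ω, π ∈ alternatingGroup Ω → π α = α → (∀ x, π x ∈ B ↔ x ∈ B) →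
      ∃ h ∈ H, ∀ x, h • x = π x := by
    intro π hπ hπα hπB
    obtain ⟨g, hg⟩ := hAlt π hπ
    refine ⟨g, ?_, hg⟩
    rw [← hJ]
    refine Subgroup.mem_inf.mpr ⟨?_, ?_⟩
    · rw [hMdef, MulAction.mem_stabilizer_iff, hg, hπα]
    · rw [MulAction.mem_stabilizer_set]
      intro b
      rw [hg]
      exact hπB b
  by_contra hcon
  push Not at hcon
  obtain ⟨k₀, hk₀K, hδB⟩ := hcon
  set δ := k₀ • α with hδ
  set β := l₀ • α with hβ
  have hβB : β ∈ B := ⟨l₀, hl₀L, rfl⟩
  have hβα : β ≠ α := fun h => hl₀M (by rw [hMdef, MulAction.mem_stabilizer_iff]; exact h)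
  have hαδ : α ≠ δ := fun h => hδB (h ▸ hαB)
  -- Step (i): K is transitive
  have htrans : ∀ ω : Ω, ∃ k ∈ K, k • α = ω := by
    intro ω
    by_contra hω
    push Not at hω
    have hωB : ω ∉ B := fun ⟨l, hl, hlω⟩ => hω l (hLK hl) hlω
    have hδω : δ ≠ ω := fun h => hω k₀ hk₀K h
    have hαω : α ≠ ω := fun h => hωB (h ▸ hαB)
    -- an even permutation fixing α, preserving B, sending δ to ω
    have hex : ∃ π : Equiv.Perm Ω, π ∈ alternatingGroup Ω ∧ π α = α ∧ (∀ x, π x ∈ B ↔ x ∈ B) ∧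
        π δ = ω := by
      by_cases hx : ∃ x, x ∉ B ∧ x ≠ δ ∧ x ≠ ω
      · obtain ⟨x, hxB, hxδ, hxω⟩ := hx
        have hαx : α ≠ x := fun h => hxB (h ▸ hαB)
        refine ⟨Equiv.swap δ ω * Equiv.swap ω x, ?_, ?_, ?_, ?_⟩
        · rw [Equiv.Perm.mem_alternatingGroup, map_mul, Equiv.Perm.sign_swap hδω,
            Equiv.Perm.sign_swap (Ne.symm hxω)]
          rfl
        · rw [Equiv.Perm.mul_apply, Equiv.swap_apply_of_ne_of_ne hαω hαx,
            Equiv.swap_apply_of_ne_of_ne hαδ hαω]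
        · intro y
          rw [Equiv.Perm.mul_apply, swap_mem_iff (by simp [hδB, hωB]),
            swap_mem_iff (by simp [hxB, hωB])]
        · rw [Equiv.Perm.mul_apply, Equiv.swap_apply_of_ne_of_ne hδω (Ne.symm hxδ),
            Equiv.swap_apply_left]
      · push Not at hx
        -- the complement of B is {δ, ω}; B has at least three points
        have hβ' : ∃ β' ∈ B, β' ≠ α ∧ β' ≠ β := by
          by_contra hno
          push Not at hno
          have huniv : (Finset.univ : Finset Ω) = {α, β, δ, ω} := by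
            symm
            apply Finset.eq_univ_of_forall
            intro x
            by_cases hxB : x ∈ B
            · by_cases hxα : x = α
              · simp [hxα]
              · have := hno x hxB hxα
                simp [this]
            · by_cases hxδ : x = δ
              · simp [hxδ]
              · have := hx x hxB hxδ
                simp [this]
          have hcard : Fintype.card Ω = 4 := by
            rw [← Finset.card_univ, huniv]
            have h1 : α ≠ β := Ne.symm hβα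
            have h2 : β ≠ δ := fun h => hδB (h ▸ hβB)
            have h3 : β ≠ ω := fun h => hωB (h ▸ hβB)
            rw [Finset.card_insert_of_notMem (by simp [h1, hαδ, hαω]),
              Finset.card_insert_of_notMem (by simp [h2, h3]),
              Finset.card_insert_of_notMem (by simp [hδω]), Finset.card_singleton]
          rw [hcard] at hodd
          exact absurd hodd (by decide)
        obtain ⟨β', hβ'B, hβ'α, hβ'β⟩ := hβ'
        have hδβ : δ ≠ β := fun h => hδB (h ▸ hβB)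
        have hδβ' : δ ≠ β' := fun h => hδB (h ▸ hβ'B)
        refine ⟨Equiv.swap δ ω * Equiv.swap β β', ?_, ?_, ?_, ?_⟩
        · rw [Equiv.Perm.mem_alternatingGroup, map_mul, Equiv.Perm.sign_swap hδω,
            Equiv.Perm.sign_swap (Ne.symm hβ'β)]
          rfl
        · rw [Equiv.Perm.mul_apply, Equiv.swap_apply_of_ne_of_ne (Ne.symm hβα) (Ne.symm hβ'α),
            Equiv.swap_apply_of_ne_of_ne hαδ hαω]
        · intro y
          rw [Equiv.Perm.mul_apply, swap_mem_iff (by simp [hδB, hωB]),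
            swap_mem_iff (by simp [hβB, hβ'B])]
        · rw [Equiv.Perm.mul_apply, Equiv.swap_apply_of_ne_of_ne hδβ hδβ',
            Equiv.swap_apply_left]
    obtain ⟨π, hπ, hπα, hπB, hπδ⟩ := hex
    obtain ⟨h, hhH, hh⟩ := hT π hπ hπα hπB
    refine hω (h * k₀) (K.mul_mem (hHK hhH) hk₀K) ?_
    rw [mul_smul, hh, hπδ]
  -- Step (ii)
  set y' := k₀ • β with hy'
  have hB' : ∀ x ∈ B, k₀ • x ∉ B := fun x hx h => hδB (hLB k₀ (hB3 k₀ hk₀K x hx h) α hαB)
  -- a point outside B ∪ k₀ • B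
  have hz : ∃ z, z ∉ B ∧ z ∉ (fun x => k₀ • x) '' B := by
    by_contra hno
    push Not at hno
    have hunion : B ∪ (fun x => k₀ • x) '' B = Set.univ := by
      ext x
      simp only [Set.mem_union, Set.mem_univ, iff_true]
      by_cases hx : x ∈ B
      · exact Or.inl hx
      · exact Or.inr (hno x hx)
    have hdisj : Disjoint B ((fun x => k₀ • x) '' B) := by
      rw [Set.disjoint_left]
      rintro x hx ⟨x', hx', rfl⟩
      exact hB' x' hx' hx
    have hcard := Set.ncard_union_eq hdisj (Set.toFinite _) (Set.toFinite _)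
    rw [hunion, Set.ncard_univ, Set.ncard_image_of_injective _ (MulAction.injective k₀),
      Nat.card_eq_fintype_card] at hcard
    rw [hcard] at hodd
    exact (Nat.not_even_iff_odd.mpr hodd) ⟨_, rfl⟩
  obtain ⟨z, hzB, hzB'⟩ := hz
  obtain ⟨k₂, hk₂K, rfl⟩ := htrans z
  set z' := k₂ • β with hz'
  -- the block k₂ • B avoids B and k₀ • B
  have hk₂L : k₂ ∉ L := fun h => hzB (hLB k₂ h α hαB)
  have hk₂B : ∀ x ∈ B, k₂ • x ∉ B := fun x hx h => hk₂L (hB3 k₂ hk₂K x hx h)
  have hk₂B' : ∀ x ∈ B, ∀ x' ∈ B, k₂ • x ≠ k₀ • x' := by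
    intro x hx x' hx' h
    have h1 : (k₀⁻¹ * k₂) • x ∈ B := by
      rw [mul_smul, h, inv_smul_smul]; exact hx'
    have h2 : k₀⁻¹ * k₂ ∈ L := hB3 _ (K.mul_mem (K.inv_mem hk₀K) hk₂K) x hx h1
    apply hzB'
    refine ⟨(k₀⁻¹ * k₂) • α, hLB _ h2 α hαB, ?_⟩
    simp only
    rw [smul_smul, mul_inv_cancel_left]
  have hyy' : δ ≠ y' := fun h => hβα (MulAction.injective k₀ h).symm
  have hzz' : k₂ • α ≠ z' := fun h => hβα (MulAction.injective k₂ h).symm
  have hy'B : y' ∉ B := hB' β hβB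
  have hz'B : z' ∉ B := hk₂B β hβB
  have hy'z : y' ≠ k₂ • α := fun h => hk₂B' α hαB β hβB h.symm
  have hy'z' : y' ≠ z' := fun h => hk₂B' β hβB β hβB h.symm
  have hδz : δ ≠ k₂ • α := fun h => hk₂B' α hαB α hαB h.symm
  have hδz' : δ ≠ z' := fun h => hk₂B' β hβB α hαB h.symm
  have hαy' : α ≠ y' := fun h => hy'B (h ▸ hαB)
  have hαz : α ≠ k₂ • α := fun h => hzB (h ▸ hαB)
  have hαz' : α ≠ z' := fun h => hz'B (h ▸ hαB)
  obtain ⟨h, hhH, hh⟩ := hT (Equiv.swap y' (k₂ • α) * Equiv.swap (k₂ • α) z')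
    (by
      rw [Equiv.Perm.mem_alternatingGroup, map_mul, Equiv.Perm.sign_swap hy'z,
        Equiv.Perm.sign_swap hzz']
      rfl)
    (by
      rw [Equiv.Perm.mul_apply, Equiv.swap_apply_of_ne_of_ne hαz hαz',
        Equiv.swap_apply_of_ne_of_ne hαy' hαz])
    (by
      intro x
      rw [Equiv.Perm.mul_apply, swap_mem_iff (by simp [hy'B, hzB]),
        swap_mem_iff (by simp [hz'B, hzB])])
  -- h fixes δ = k₀ • α and sends y' = k₀ • β to z
  have h1 : h • δ = δ := by
    rw [hh, Equiv.Perm.mul_apply, Equiv.swap_apply_of_ne_of_ne hδz hδz',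
      Equiv.swap_apply_of_ne_of_ne hyy' hδz]
  have h2 : h • y' = k₂ • α := by
    rw [hh, Equiv.Perm.mul_apply, Equiv.swap_apply_of_ne_of_ne hy'z hy'z',
      Equiv.swap_apply_left]
  have h3 : k₀⁻¹ * h * k₀ ∈ M := by
    rw [hMdef, MulAction.mem_stabilizer_iff, mul_smul, mul_smul, ← hδ, h1, hδ, inv_smul_smul]
  have h4 : k₀⁻¹ * h * k₀ ∈ L :=
    hHL (hKMH ▸ (⟨K.mul_mem (K.mul_mem (K.inv_mem hk₀K) (hHK hhH)) hk₀K, h3⟩ : _ ∈ K ⊓ M))
  apply hzB'
  refine ⟨(k₀⁻¹ * h * k₀) • β, hLB _ h4 β hβB, ?_⟩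
  show k₀ • ((k₀⁻¹ * h * k₀) • β) = k₂ • α
  rw [mul_smul, mul_smul, smul_inv_smul, ← hy', h2]

theorem alt_lift {G : Type*} [Group G] [Finite G] (n : ℕ)
    (hA : ∀ P : Subgroup (Equiv.Perm (Fin n)), MulAction.IsPreprimitive P (Fin n) → alternatingGroup (Fin n) ≤ P)
    (M : Subgroup G) (hM : IsCoatom M) [Fintype (G ⧸ M)] [DecidableEq (G ⧸ M)] (hcard : Fintype.card (G ⧸ M) = n)
    (π : Equiv.Perm (G ⧸ M)) (hπ : π ∈ alternatingGroup (G ⧸ M)) :
    ∃ g : G, ∀ x : G ⧸ M, g • x = π x := by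
  have hstab : MulAction.stabilizer G ((1 : G) : G ⧸ M) = M := MulAction.stabilizer_quotient M
  have hnt : Nontrivial (G ⧸ M) := by
    rw [← Fintype.one_lt_card_iff_nontrivial]
    by_contra h
    have h1 : Fintype.card (G ⧸ M) = 1 := by
      have : 0 < Fintype.card (G ⧸ M) := Fintype.card_pos
      omega
    have h2 : M.index = 1 := by
      rw [Subgroup.index, Nat.card_eq_fintype_card, h1]
    exact hM.1 (Subgroup.index_eq_one.mp h2)
  have hprim : MulAction.IsPreprimitive G (G ⧸ M) :=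
    (MulAction.isCoatom_stabilizer_iff_preprimitive G ((1 : G) : G ⧸ M)).mp (hstab.symm ▸ hM)
  let e : (G ⧸ M) ≃ Fin n := Fintype.equivFinOfCardEq hcard
  let ψ : G →* Equiv.Perm (Fin n) :=
    (e.permCongrHom).toMonoidHom.comp (MulAction.toPermHom G (G ⧸ M))
  have hψ : ∀ (g : G) (x : G ⧸ M), ψ g (e x) = e (g • x) := by
    intro g x
    simp [ψ, Equiv.permCongrHom]
  let f : (G ⧸ M) →ₑ[ψ.rangeRestrict] Fin n :=
    { toFun := e
      map_smul' := fun g x => (hψ g x).symm }
  have hprimP : MulAction.IsPreprimitive ψ.range (Fin n) :=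
    MulAction.IsPreprimitive.of_surjective (f := f) e.surjective
  have hAP := hA ψ.range hprimP
  have hπ' : e.permCongr π ∈ alternatingGroup (Fin n) := by
    rw [Equiv.Perm.mem_alternatingGroup] at hπ ⊢
    rw [Equiv.Perm.sign_permCongr, hπ]
  obtain ⟨g, hg⟩ := hAP hπ'
  refine ⟨g, fun x => ?_⟩
  apply e.injective
  rw [← hψ, hg]
  simp

/-- Let n be an odd positive integer such that every primitive permutation group of degree n contains the alternating group (so the symmetric and alternating groups are the only primitive groups of degree n). Let G be a finite group, M a maximal subgroup of G of index n, and H a maximal subgroup of M. Then H is a second maximal subgroup of G: H is maximal in every maximal subgroup K of G containing H. -/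
theorem result {G : Type*} [Group G]
    [Finite G] (n : ℕ) (hodd : Odd n)
    (hA : ∀ P : Subgroup (Equiv.Perm (Fin n)), MulAction.IsPreprimitive P (Fin n) → alternatingGroup (Fin n) ≤ P)
    (M : Subgroup G) (hM : IsCoatom M) (hn : M.index = n) (H : Subgroup G) (hHM : H ≤ M)
    (hmax : IsCoatom (H.subgroupOf M)) (K : Subgroup G) (hK : IsCoatom K) (hHK : H ≤ K) :
    IsCoatom (H.subgroupOf K) := by
  classical
  have hHK' : H ≠ K := by
    rintro rfl
    rcases eq_or_lt_of_le hHM with h | h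
    · apply hmax.1
      rw [h]
      exact Subgroup.subgroupOf_self M
    · exact hM.1 (hK.2 M h)
  apply isCoatom_subgroupOf_of_interval hHK hHK'
  intro L hHL hLK
  have : Fintype (G ⧸ M) := Fintype.ofFinite _
  have hcard : Fintype.card (G ⧸ M) = n := by
    rw [← Nat.card_eq_fintype_card, ← hn]
    rfl
  have hstab : MulAction.stabilizer G ((1 : G) : G ⧸ M) = M := MulAction.stabilizer_quotient M
  refine key (Ω := G ⧸ M) (hcard ▸ hodd) (alt_lift n hA M hM hcard) ((1 : G) : G ⧸ M)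
    (hstab.symm ▸ hM) H (hstab.symm ▸ hHM) ?_ K hK.1 hHK L hHL hLK
  intro J hHJ hJM
  rw [hstab] at hJM ⊢
  exact interval_of_isCoatom_subgroupOf hmax J hHJ hJM

end Cfsg.Agent.S5885
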