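import Cfsg.Statements.S5887
import Mathlib
import Cfsg.Agent.Helper8.FieldSub2

set_option autoImplicit false
open Cfsg

namespace Cfsg.Agent.S5887

/-- Let F be a finite field, n a positive integer and r a composite number (r > 1, not prime) that divides n with r < n. Let K be a subalgebra of the algebra of n × n matrices over F which is a field of degree r over F (commutative, every non-zero element invertible, of dimension r over F). Then the normaliser N of K in GL_n(F) (a group of type ΓL_{n/r}(F_{q^r})) is not a maximal subgroup of GL_n(F), and N ∩ SL_n(F) is not a maximal subgroup of SL_n(F): both lie properly inside the normaliser of an intermediate subfield of prime degree over F. -/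
theorem result {F : Type*} [Field F]
    [Fintype F] (n r : ℕ) (hr1 : 1 < r) (hrp : ¬ r.Prime) (hrn : r ∣ n) (hlt : r < n)
    (K : Subalgebra F (Matrix (Fin n) (Fin n) F)) (hK : Cfsg.Geo.IsFieldSubalgebra r K) :
    ¬ IsCoatom (Cfsg.Geo.subalgebraNormalizer K) ∧
      ¬ Cfsg.Geo.IsMaximalIn (Cfsg.Geo.specialLinear (Fin n) F)
        (Cfsg.Geo.subalgebraNormalizer K ⊓ Cfsg.Geo.specialLinear (Fin n) F) := by
  obtain ⟨K₀, g₁, g₂, hle, h1S, h1N, h1n, h2S, h2n⟩ :=
    Cfsg.Agent.Helper8.FS.main n r hr1 hrp hlt K hK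
  constructor
  · intro hco
    have hlt' : Cfsg.Geo.subalgebraNormalizer K < Cfsg.Geo.subalgebraNormalizer K₀ :=
      lt_of_le_of_ne hle (fun h => h1n (h ▸ h1N))
    have htop := hco.2 _ hlt'
    exact h2n (htop ▸ Subgroup.mem_top g₂)
  · rintro ⟨-, hmax⟩
    rcases hmax (Cfsg.Geo.subalgebraNormalizer K₀ ⊓ Cfsg.Geo.specialLinear (Fin n) F)
      (inf_le_inf_right _ hle) inf_le_right with h | h
    · have hmem : g₁ ∈ Cfsg.Geo.subalgebraNormalizer K ⊓ Cfsg.Geo.specialLinear (Fin n) F :=
        h ▸ (⟨h1N, h1S⟩ : g₁ ∈ Cfsg.Geo.subalgebraNormalizer K₀ ⊓ Cfsg.Geo.specialLinear (Fin n) F)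
      exact h1n hmem.1
    · have hmem : g₂ ∈ Cfsg.Geo.subalgebraNormalizer K₀ ⊓ Cfsg.Geo.specialLinear (Fin n) F :=
        h.symm ▸ h2S
      exact h2n hmem.1

end Cfsg.Agent.S5887
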