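import Cfsg.Statements.S5895
import Cfsg.Agent.S5885

set_option autoImplicit false
open Cfsg

namespace Cfsg.Agent.S5895

open SemidirectProduct

theorem isCoatom_map_subgroupOf_range {G G' : Type*} [Group G] [Group G'] (φ : G →* G')
    (hφ : Function.Injective φ) (S : Subgroup G) (hS : IsCoatom S) :
    IsCoatom ((S.map φ).subgroupOf φ.range) := by
  have hHM : S.map φ ≤ φ.range := by
    rw [MonoidHom.range_eq_map]; exact Subgroup.map_mono le_top
  refine Cfsg.Agent.S5885.isCoatom_subgroupOf_of_interval hHM ?_ ?_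
  · intro h
    rw [MonoidHom.range_eq_map] at h
    exact hS.1 (Subgroup.map_injective hφ h)
  · intro L hHL hLM
    have hL : (L.comap φ).map φ = L := Subgroup.map_comap_eq_self hLM
    have hSL : S ≤ L.comap φ := Subgroup.map_le_iff_le_comap.mp hHL
    rcases eq_or_lt_of_le hSL with h | h
    · left
      exact hL.symm.trans (by rw [← h])
    · right
      exact hL.symm.trans (by rw [hS.2 _ h, ← MonoidHom.range_eq_map])

theorem semidirect_example {N C : Type*} [Group N] [Group C] [Finite N] [Finite C]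
    (φ : C →* MulAut N)
    (hirr : ∀ W : Subgroup N, (∀ c : C, ∀ n ∈ W, φ c n ∈ W) → W = ⊥ ∨ W = ⊤)
    (H : Subgroup C) (hH : IsCoatom H)
    (W : Subgroup N) (hW : ∀ c ∈ H, ∀ n ∈ W, φ c n ∈ W) (hW0 : W ≠ ⊥) (hW1 : W ≠ ⊤) :
    ∃ M H' K : Subgroup (N ⋊[φ] C), IsCoatom M ∧ M.index = Nat.card N ∧ H' ≤ M ∧
      IsCoatom (H'.subgroupOf M) ∧ IsCoatom K ∧ H' ≤ K ∧ ¬ IsCoatom (H'.subgroupOf K) := by
  classical
  obtain ⟨w, hwW, hw1⟩ : ∃ w ∈ W, w ≠ 1 := by
    by_contra hcon
    push Not at hcon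
    exact hW0 ((Subgroup.eq_bot_iff_forall W).mpr hcon)
  obtain ⟨n₀, hn₀⟩ : ∃ n, n ∉ W := by
    by_contra hcon
    push Not at hcon
    exact hW1 (eq_top_iff.mpr fun n _ => hcon n)
  have hMco : IsCoatom (inr : C →* N ⋊[φ] C).range := by
    constructor
    · intro htop
      have h1 : (inl w : N ⋊[φ] C) ∈ (inr : C →* N ⋊[φ] C).range := by rw [htop]; trivial
      obtain ⟨c, hc⟩ := h1
      have h2 := congrArg SemidirectProduct.left hc
      rw [left_inr, left_inl] at h2
      exact hw1 h2.symm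
    · intro L hL
      obtain ⟨g, hgL, hgM⟩ := SetLike.exists_of_lt hL
      have hinr : ∀ c : C, (inr c : N ⋊[φ] C) ∈ L := fun c => hL.le ⟨c, rfl⟩
      have hWL := hirr (L.comap inl) (by
        intro c n hn
        rw [Subgroup.mem_comap] at hn ⊢
        rw [SemidirectProduct.inl_aut]
        exact L.mul_mem (L.mul_mem (hinr c) hn) (hinr _))
      rcases hWL with h | h
      · exfalso
        apply hgM
        have h1 : (inl g.left : N ⋊[φ] C) ∈ L := by
          have h3 : (inl g.left : N ⋊[φ] C) = g * (inr g.right)⁻¹ := by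
            rw [eq_mul_inv_iff_mul_eq, SemidirectProduct.inl_left_mul_inr_right]
          rw [h3]
          exact L.mul_mem hgL (L.inv_mem (hinr _))
        have h2 : g.left ∈ L.comap inl := h1
        rw [h, Subgroup.mem_bot] at h2
        have h4 := SemidirectProduct.inl_left_mul_inr_right g
        rw [h2, map_one, one_mul] at h4
        exact ⟨g.right, h4⟩
      · rw [eq_top_iff]
        intro g _
        have h4 := SemidirectProduct.inl_left_mul_inr_right g
        rw [← h4]
        refine L.mul_mem ?_ (hinr _)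
        have h5 : g.left ∈ L.comap inl := by rw [h]; trivial
        exact h5
  have hMidx : (inr : C →* N ⋊[φ] C).range.index = Nat.card N := by
    have h1 := Subgroup.card_mul_index (inr : C →* N ⋊[φ] C).range
    have h2 : Nat.card (inr : C →* N ⋊[φ] C).range = Nat.card C :=
      (Nat.card_congr (MonoidHom.ofInjective SemidirectProduct.inr_injective).toEquiv).symm
    have h3 : Nat.card (N ⋊[φ] C) = Nat.card N * Nat.card C := SemidirectProduct.card
    rw [h2, h3] at h1
    have hC : 0 < Nat.card C := Nat.card_pos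
    exact Nat.eq_of_mul_eq_mul_left hC (by rw [h1, Nat.mul_comm])
  have hKco : IsCoatom (H.comap (rightHom : N ⋊[φ] C →* C)) :=
    Subgroup.isCoatom_comap_of_surjective SemidirectProduct.rightHom_surjective hH
  have hH'M : H.map (inr : C →* N ⋊[φ] C) ≤ (inr : C →* N ⋊[φ] C).range := by
    rw [MonoidHom.range_eq_map]; exact Subgroup.map_mono le_top
  have hH'max := isCoatom_map_subgroupOf_range (inr : C →* N ⋊[φ] C)
    SemidirectProduct.inr_injective H hH
  let L : Subgroup (N ⋊[φ] C) :=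
    { carrier := {g | g.left ∈ W ∧ g.right ∈ H}
      mul_mem' := by
        intro a b ha hb
        refine ⟨?_, ?_⟩
        · show (a * b).left ∈ W
          rw [SemidirectProduct.mul_left]
          exact W.mul_mem ha.1 (hW _ ha.2 _ hb.1)
        · show (a * b).right ∈ H
          rw [SemidirectProduct.mul_right]
          exact H.mul_mem ha.2 hb.2
      one_mem' := ⟨W.one_mem, H.one_mem⟩
      inv_mem' := by
        intro a ha
        refine ⟨?_, ?_⟩
        · show (a⁻¹).left ∈ W
          rw [SemidirectProduct.inv_left]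
          exact hW _ (H.inv_mem ha.2) _ (W.inv_mem ha.1)
        · show (a⁻¹).right ∈ H
          rw [SemidirectProduct.inv_right]
          exact H.inv_mem ha.2 }
  have hLmem : ∀ g, g ∈ L ↔ g.left ∈ W ∧ g.right ∈ H := fun g => Iff.rfl
  have hH'L : H.map (inr : C →* N ⋊[φ] C) ≤ L := by
    rintro _ ⟨h, hh, rfl⟩
    rw [hLmem, left_inr, right_inr]
    exact ⟨W.one_mem, hh⟩
  have hLK : L ≤ H.comap (rightHom : N ⋊[φ] C →* C) := by
    intro g hg
    rw [Subgroup.mem_comap, SemidirectProduct.rightHom_eq_right]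
    exact hg.2
  refine ⟨(inr : C →* N ⋊[φ] C).range, H.map (inr : C →* N ⋊[φ] C),
    H.comap (rightHom : N ⋊[φ] C →* C), hMco, hMidx, hH'M, hH'max, hKco, hH'L.trans hLK, ?_⟩
  intro hco
  rcases Cfsg.Agent.S5885.interval_of_isCoatom_subgroupOf hco L hH'L hLK with h | h
  · have h1 : (inl w : N ⋊[φ] C) ∈ L := by
      rw [hLmem, left_inl, right_inl]
      exact ⟨hwW, H.one_mem⟩
    rw [h] at h1
    obtain ⟨c, _, hc⟩ := h1
    have h2 := congrArg SemidirectProduct.left hc
    rw [left_inr, left_inl] at h2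
    exact hw1 h2.symm
  · have h1 : (inl n₀ : N ⋊[φ] C) ∈ L := by
      rw [h, Subgroup.mem_comap, SemidirectProduct.rightHom_inl]
      exact H.one_mem
    rw [hLmem, left_inl] at h1
    exact hn₀ h1.1

theorem exists_min_irred {N A : Type*} [Group N] [Group A] [Finite A] (φ : A →* MulAut N)
    (hirr : ∀ W : Subgroup N, (∀ a : A, ∀ n ∈ W, φ a n ∈ W) → W = ⊥ ∨ W = ⊤)
    (W₀ : Subgroup N) (hW0 : W₀ ≠ ⊥) (hW1 : W₀ ≠ ⊤) :
    ∃ (C : Subgroup A) (H : Subgroup C) (W : Subgroup N),
      (∀ W' : Subgroup N, (∀ c : C, ∀ n ∈ W', φ c n ∈ W') → W' = ⊥ ∨ W' = ⊤) ∧ IsCoatom H ∧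
      (∀ c ∈ H, ∀ n ∈ W, φ c n ∈ W) ∧ W ≠ ⊥ ∧ W ≠ ⊤ := by
  have hPtop : ∀ W' : Subgroup N, (∀ c ∈ (⊤ : Subgroup A), ∀ n ∈ W', φ c n ∈ W') →
      W' = ⊥ ∨ W' = ⊤ :=
    fun W' h => hirr W' (fun a n hn => h a (Subgroup.mem_top a) n hn)
  obtain ⟨C, hPC, hmin⟩ := (wellFounded_lt (α := Subgroup A)).has_min
    {C | ∀ W' : Subgroup N, (∀ c ∈ C, ∀ n ∈ W', φ c n ∈ W') → W' = ⊥ ∨ W' = ⊤} ⟨⊤, hPtop⟩
  have hPC' : ∀ W' : Subgroup N, (∀ c ∈ C, ∀ n ∈ W', φ c n ∈ W') → W' = ⊥ ∨ W' = ⊤ := hPC
  have hCne : Nontrivial (Subgroup C) := by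
    by_contra hnt
    rw [not_nontrivial_iff_subsingleton] at hnt
    have hc1 : ∀ c ∈ C, c = 1 := by
      intro c hc
      have h1 : (⊤ : Subgroup C) = ⊥ := Subsingleton.elim _ _
      have h2 : (⟨c, hc⟩ : C) ∈ (⊤ : Subgroup C) := Subgroup.mem_top _
      rw [h1, Subgroup.mem_bot] at h2
      exact congrArg Subtype.val h2
    rcases hPC' W₀ (by intro c hc n hn; rw [hc1 c hc, map_one]; exact hn) with h | h
    · exact hW0 h
    · exact hW1 h
  obtain ⟨H, hH⟩ : ∃ H : Subgroup C, IsCoatom H := by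
    rcases IsCoatomic.eq_top_or_exists_le_coatom (⊥ : Subgroup C) with h | ⟨H, hH, _⟩
    · exact absurd h bot_ne_top
    · exact ⟨H, hH⟩
  have hlt : H.map C.subtype < C := by
    refine lt_of_le_of_ne (Subgroup.map_subtype_le H) ?_
    intro h
    apply hH.1
    rw [eq_top_iff]
    intro c _
    have h1 : (c : A) ∈ H.map C.subtype := by rw [h]; exact c.2
    obtain ⟨c', hc', hcc⟩ := h1
    have h2 : c' = c := Subtype.ext hcc
    rw [← h2]; exact hc'
  have hnP : ¬ ∀ W' : Subgroup N, (∀ c ∈ H.map C.subtype, ∀ n ∈ W', φ c n ∈ W') →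
      W' = ⊥ ∨ W' = ⊤ := fun h => hmin _ h hlt
  push Not at hnP
  obtain ⟨W, hWinv, hW0', hW1'⟩ := hnP
  refine ⟨C, H, W, ?_, hH, ?_, hW0', hW1'⟩
  · intro W' h
    exact hPC' W' (fun c hc n hn => h ⟨c, hc⟩ n hn)
  · intro c hc n hn
    exact hWinv c ⟨c, hc, rfl⟩ n hn

/-- Multiplication by units as automorphisms of the additive group of a field. -/
noncomputable def unitAut (F : Type) [Field F] : Fˣ →* MulAut (Multiplicative F) where
  toFun u := AddEquiv.toMultiplicative (DistribMulAction.toAddAut Fˣ F u)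
  map_one' := by rw [map_one]; rfl
  map_mul' u v := by rw [map_mul]; rfl

theorem unitAut_apply (F : Type) [Field F] (u : Fˣ) (x : Multiplicative F) :
    unitAut F u x = Multiplicative.ofAdd ((u : F) * Multiplicative.toAdd x) := rfl

theorem unitAut_irr (F : Type) [Field F] (W : Subgroup (Multiplicative F))
    (hW : ∀ a : Fˣ, ∀ n ∈ W, unitAut F a n ∈ W) : W = ⊥ ∨ W = ⊤ := by
  by_cases hbot : W = ⊥
  · exact Or.inl hbot
  · right
    obtain ⟨w, hwW, hw1⟩ : ∃ w ∈ W, w ≠ 1 := by
      by_contra hcon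
      push Not at hcon
      exact hbot ((Subgroup.eq_bot_iff_forall W).mpr hcon)
    rw [eq_top_iff]
    intro x _
    by_cases hx : x = 1
    · rw [hx]; exact W.one_mem
    · have hw0 : Multiplicative.toAdd w ≠ (0 : F) :=
        fun h => hw1 (Multiplicative.toAdd.injective (h.trans toAdd_one.symm))
      have hx0 : Multiplicative.toAdd x ≠ (0 : F) :=
        fun h => hx (Multiplicative.toAdd.injective (h.trans toAdd_one.symm))
      have h1 := hW (Units.mk0 (Multiplicative.toAdd x / Multiplicative.toAdd w)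
        (div_ne_zero hx0 hw0)) w hwW
      rw [unitAut_apply, Units.val_mk0, div_mul_cancel₀ _ hw0] at h1
      exact h1

/-- For every prime p and every d ≥ 2 there is a finite group G with a maximal subgroup M of index p^d and a maximal subgroup H of M that is not second maximal in G: some maximal subgroup K of G contains H without H being maximal in K. (One may take G the affine group V ⋊ GL(V) of V = 𝔽_p^d, M = GL(V), H the stabiliser in M of a line W of V, and K = V ⋊ H, with H < W ⋊ H < K.) So the prime-index hypothesis in the second-maximality criterion cannot be relaxed to prime-power index. -/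
theorem result (p d : ℕ) (hp : p.Prime)
    (hd : 2 ≤ d) :
    ∃ (G : Type) (_ : Group G) (_ : Finite G) (M H K : Subgroup G), IsCoatom M ∧ M.index = p ^ d ∧ H ≤ M ∧
      IsCoatom (H.subgroupOf M) ∧ IsCoatom K ∧ H ≤ K ∧ ¬ IsCoatom (H.subgroupOf K) := by
  have : Fact p.Prime := ⟨hp⟩
  have hcardN : Nat.card (Multiplicative (GaloisField p d)) = p ^ d := by
    rw [Nat.card_congr Multiplicative.toAdd]; exact GaloisField.card p d (by omega)
  have : Finite (Multiplicative (GaloisField p d)) :=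
    Finite.of_equiv (GaloisField p d) Multiplicative.ofAdd
  obtain ⟨W₀, hW₀⟩ := Sylow.exists_subgroup_card_pow_prime (G := Multiplicative (GaloisField p d))
    p (n := 1) (by rw [hcardN]; exact pow_dvd_pow p (by omega))
  have hW0 : W₀ ≠ ⊥ := by
    intro h
    rw [h, Subgroup.card_bot, pow_one] at hW₀
    have := hp.one_lt
    omega
  have hW1 : W₀ ≠ ⊤ := by
    intro h
    rw [h, Subgroup.card_top, hcardN] at hW₀
    have := Nat.pow_right_injective hp.two_le hW₀
    omega
  obtain ⟨C, H, W, hirrC, hH, hWinv, hW0', hW1'⟩ :=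
    exists_min_irred (unitAut (GaloisField p d)) (unitAut_irr (GaloisField p d)) W₀ hW0 hW1
  obtain ⟨M, H', K, h1, h2, h3, h4, h5, h6, h7⟩ :=
    semidirect_example ((unitAut (GaloisField p d)).comp C.subtype) hirrC H hH W hWinv hW0' hW1'
  exact ⟨Multiplicative (GaloisField p d) ⋊[(unitAut (GaloisField p d)).comp C.subtype] C,
    inferInstance, Finite.of_equiv _ SemidirectProduct.equivProd.symm, M, H', K, h1,
    h2.trans hcardN, h3, h4, h5, h6, h7⟩

end Cfsg.Agent.S5895
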