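import Cfsg.Statements.S5896
import Cfsg.Agent.Helper20.SL2Local

set_option autoImplicit false
open Cfsg

namespace Cfsg.Agent.S5896

/-- Finite perfect groups have solvable maximal subgroups of unbounded derived length: for every d there is a finite perfect group G (equal to its commutator subgroup) with a solvable maximal subgroup H whose derived length exceeds d, i.e. the d-th term of the derived series of H is non-trivial. (Take the derived subgroup of a wreath product S ≀ A₅ with S solvable of large derived length, and H the preimage of a maximal subgroup of A₅.) -/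
theorem result (d : ℕ) :
    ∃ (G : Type) (_ : Group G) (_ : Finite G) (H : Subgroup G), commutator G = ⊤ ∧ IsCoatom H ∧ Group.IsSolvable H ∧
      derivedSeries H d ≠ ⊥ := by
  have hk : 1 ≤ 2 ^ d + 1 := Nat.le_add_left 1 (2 ^ d)
  haveI : NeZero (5 ^ (2 ^ d + 1)) := ⟨by positivity⟩
  have hfin : Finite (Matrix.SpecialLinearGroup (Fin 2) (ZMod (5 ^ (2 ^ d + 1)))) :=
    Finite.of_injective
      (fun g : Matrix.SpecialLinearGroup (Fin 2) (ZMod (5 ^ (2 ^ d + 1))) =>
        (g : Matrix (Fin 2) (Fin 2) (ZMod (5 ^ (2 ^ d + 1))))) (fun a b h => Subtype.ext h)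
  exact ⟨Matrix.SpecialLinearGroup (Fin 2) (ZMod (5 ^ (2 ^ d + 1))), inferInstance,
    hfin,
    Cfsg.Agent.Helper20.SL2Local.Hsub (2 ^ d + 1),
    Cfsg.Agent.Helper20.SL2Local.perfect _ hk,
    Cfsg.Agent.Helper20.SL2Local.coatom _ hk,
    Cfsg.Agent.Helper20.SL2Local.solvable_H _,
    Cfsg.Agent.Helper20.SL2Local.derived_ne_bot d⟩

end Cfsg.Agent.S5896
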