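import Cfsg.Statements.S5902
import Cfsg.Agent.S5901

set_option autoImplicit false
open Cfsg

namespace Cfsg.Agent.S5902

/-- Every subgroup not inside the unique maximal overgroup `M` of `X` has a complement. -/
theorem compl_of_not_le {G : Type*} [Group G] [Finite G] (X M : Subgroup G)
    (hK : ComplementedLattice (Subgroup X))
    (hM : IsCoatom M) (hXM : X ≤ M) (huniq : ∀ M' : Subgroup G, IsCoatom M' → X ≤ M' → M' = M)
    (H : Subgroup G) (hH : ¬ H ≤ M) : ∃ C : Subgroup G, H ⊔ C = ⊤ ∧ H ⊓ C = ⊥ := by
  have hX : X ≠ ⊤ := by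
    rintro rfl
    exact hM.1 (top_le_iff.mp hXM)
  refine Cfsg.Agent.S5901.result ⊥ X M bot_le hX ?_ hM hXM huniq H hH (by simp)
  intro Y _ hYX
  obtain ⟨C', hC'⟩ := hK.exists_isCompl (Y.subgroupOf X)
  refine ⟨C'.map X.subtype, bot_le, Subgroup.map_subtype_le C', ?_, ?_⟩
  · have h1 : (Y.subgroupOf X).map X.subtype = Y := Subgroup.map_subgroupOf_eq_of_le hYX
    conv_lhs => rw [← h1]
    rw [← Subgroup.map_sup, codisjoint_iff.mp hC'.codisjoint, ← MonoidHom.range_eq_map,
      Subgroup.range_subtype]
  · have h1 : (Y.subgroupOf X).map X.subtype = Y := Subgroup.map_subgroupOf_eq_of_le hYX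
    conv_lhs => rw [← h1]
    rw [← Subgroup.map_inf_eq _ _ _ X.subtype_injective, disjoint_iff.mp hC'.disjoint]
    simp

/-- Let G be a finite group, X a subgroup whose own subgroup lattice is complemented, and suppose X lies in exactly one maximal subgroup M of G. Then every subgroup H of G not contained in the normal core of M has a complement in the subgroup lattice of G (some C with H ⊔ C = G and H ⊓ C = 1); in particular the subgroup lattice of G modulo the normal core of M is complemented. -/
theorem result {G : Type*} [Group G] [Finite G] (X M : Subgroup G)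
    (hK : ComplementedLattice (Subgroup X))
    (hM : IsCoatom M) (hXM : X ≤ M) (huniq : ∀ M' : Subgroup G, IsCoatom M' → X ≤ M' → M' = M) :
    (∀ H : Subgroup G, ¬ H ≤ M.normalCore → ∃ C : Subgroup G, H ⊔ C = ⊤ ∧ H ⊓ C = ⊥) ∧
    ComplementedLattice (Subgroup (G ⧸ M.normalCore)) := by
  have key : ∀ H : Subgroup G, ¬ H ≤ M.normalCore → ∃ C : Subgroup G, H ⊔ C = ⊤ ∧ H ⊓ C = ⊥ := by
    intro H hH
    have : ∃ h ∈ H, ∃ b : G, b * h * b⁻¹ ∉ M := by
      by_contra hcon
      push Not at hcon
      exact hH (fun h hh => fun b => hcon h hh b)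
    obtain ⟨h, hh, b, hb⟩ := this
    set e : G ≃* G := MulAut.conj b with he
    have hH' : ¬ H.map e.toMonoidHom ≤ M := by
      intro hle
      apply hb
      have : e h ∈ H.map e.toMonoidHom := Subgroup.mem_map_of_mem _ hh
      have h2 := hle this
      simpa [he, MulAut.conj_apply] using h2
    obtain ⟨C', hsup, hinf⟩ := compl_of_not_le X M hK hM hXM huniq _ hH'
    refine ⟨C'.comap e.toMonoidHom, ?_, ?_⟩
    · have h1 : (H ⊔ C'.comap e.toMonoidHom).map e.toMonoidHom = ⊤ := by
        rw [Subgroup.map_sup, Subgroup.map_comap_eq_self_of_surjective e.surjective, hsup]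
      have h2 := congrArg (Subgroup.comap e.toMonoidHom) h1
      rwa [Subgroup.comap_map_eq_self_of_injective e.injective, Subgroup.comap_top] at h2
    · have h1 : (H ⊓ C'.comap e.toMonoidHom).map e.toMonoidHom = ⊥ := by
        rw [Subgroup.map_inf_eq _ _ _ e.injective,
          Subgroup.map_comap_eq_self_of_surjective e.surjective, hinf]
      exact (Subgroup.map_eq_bot_iff_of_injective _ e.injective).mp h1
  refine ⟨key, ⟨fun A => ?_⟩⟩
  by_cases hA : A = ⊥
  · subst hA
    exact ⟨⊤, isCompl_bot_top⟩
  · set N := M.normalCore with hN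
    have hsurj : Function.Surjective (QuotientGroup.mk' N) := QuotientGroup.mk'_surjective N
    have hHN : ¬ A.comap (QuotientGroup.mk' N) ≤ N := by
      intro hle
      apply hA
      rw [eq_bot_iff]
      intro a ha
      obtain ⟨g, rfl⟩ := hsurj a
      have hg : g ∈ A.comap (QuotientGroup.mk' N) := ha
      have := hle hg
      rw [Subgroup.mem_bot]
      exact (QuotientGroup.eq_one_iff g).mpr this
    obtain ⟨C, hsup, hinf⟩ := key _ hHN
    refine ⟨C.map (QuotientGroup.mk' N), ?_, ?_⟩
    · rw [disjoint_iff, eq_bot_iff]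
      intro x hx
      obtain ⟨hxA, c, hc, rfl⟩ := hx
      have hcH : c ∈ A.comap (QuotientGroup.mk' N) := hxA
      have : c ∈ A.comap (QuotientGroup.mk' N) ⊓ C := ⟨hcH, hc⟩
      rw [hinf, Subgroup.mem_bot] at this
      subst this
      simp
    · rw [codisjoint_iff]
      have h1 : (A.comap (QuotientGroup.mk' N)).map (QuotientGroup.mk' N) = A :=
        Subgroup.map_comap_eq_self_of_surjective hsurj A
      conv_lhs => rw [← h1]
      rw [← Subgroup.map_sup, hsup]
      exact Subgroup.map_top_of_surjective _ hsurj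

end Cfsg.Agent.S5902
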