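import Cfsg.Statements.S5903
import Cfsg.Agent.S5901

set_option autoImplicit false
open Cfsg

namespace Cfsg.Agent.S5903

/-- The interval `[N, X]` is complemented when the subgroup lattice of `X ⧸ N` is. -/
theorem interval_compl {G : Type*} [Group G] (X N : Subgroup G) (hNX : N ≤ X)
    [(N.subgroupOf X).Normal] (hK : ComplementedLattice (Subgroup (X ⧸ N.subgroupOf X)))
    (Y : Subgroup G) (hNY : N ≤ Y) (hYX : Y ≤ X) :
    ∃ C : Subgroup G, N ≤ C ∧ C ≤ X ∧ Y ⊔ C = X ∧ Y ⊓ C = N := by
  set π := QuotientGroup.mk' (N.subgroupOf X) with hπ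
  have hsurj : Function.Surjective π := QuotientGroup.mk'_surjective _
  have hker : π.ker = N.subgroupOf X := QuotientGroup.ker_mk' _
  obtain ⟨C', hC'⟩ := hK.exists_isCompl ((Y.subgroupOf X).map π)
  have hNmap : (N.subgroupOf X).map X.subtype = N := Subgroup.map_subgroupOf_eq_of_le hNX
  have hYmap : (Y.subgroupOf X).map X.subtype = Y := Subgroup.map_subgroupOf_eq_of_le hYX
  have hNY' : N.subgroupOf X ≤ Y.subgroupOf X := Subgroup.subgroupOf_mono X hNY
  have hcm : ((Y.subgroupOf X).map π).comap π = Y.subgroupOf X := by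
    rw [Subgroup.comap_map_eq, hker]
    exact sup_eq_left.mpr hNY'
  refine ⟨(C'.comap π).map X.subtype, ?_, Subgroup.map_subtype_le _, ?_, ?_⟩
  · have h1 : N.subgroupOf X ≤ C'.comap π := hker.symm.le.trans (Subgroup.ker_le_comap π C')
    exact hNmap.symm.le.trans (Subgroup.map_mono h1)
  · conv_lhs => rw [← hYmap]
    rw [← Subgroup.map_sup]
    have h1 : Y.subgroupOf X ⊔ C'.comap π = ⊤ := by
      conv_lhs => rw [← hcm]
      rw [Subgroup.comap_sup_eq _ _ _ hsurj, codisjoint_iff.mp hC'.codisjoint, Subgroup.comap_top]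
    rw [h1, ← MonoidHom.range_eq_map, Subgroup.range_subtype]
  · conv_lhs => rw [← hYmap]
    rw [← Subgroup.map_inf_eq _ _ _ X.subtype_injective]
    have h1 : Y.subgroupOf X ⊓ C'.comap π = N.subgroupOf X := by
      conv_lhs => rw [← hcm]
      rw [← Subgroup.comap_inf, disjoint_iff.mp hC'.disjoint, MonoidHom.comap_bot]
      exact hker
    rw [h1, hNmap]

/-- In a simple group, for a proper non-trivial subgroup `H` some conjugate of `N` is not in `H` while
`H` is not in the corresponding conjugate of `M`. -/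
theorem exists_conj {G : Type*} [Group G] [IsSimpleGroup G] (M N : Subgroup G)
    (hM : IsCoatom M) (hNM : N ≤ M) (hN : N ≠ ⊥) (hcen : ∀ n ∈ N, ∀ m ∈ M, m * n = n * m)
    (H : Subgroup G) (hH0 : H ≠ ⊥) (hH1 : H ≠ ⊤) :
    ∃ z : G, ¬ H ≤ M.map (MulAut.conj z).toMonoidHom ∧ ¬ N.map (MulAut.conj z).toMonoidHom ≤ H := by
  by_contra hcon
  push Not at hcon
  -- hcon : ∀ z, ¬ H ≤ M^z → N^z ≤ H
  set A : Subgroup G := ⨆ z : {z : G // N.map (MulAut.conj z).toMonoidHom ≤ H},
    N.map (MulAut.conj z.1).toMonoidHom with hA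
  set B : Subgroup G := ⨆ z : {z : G // ¬ N.map (MulAut.conj z).toMonoidHom ≤ H},
    N.map (MulAut.conj z.1).toMonoidHom with hB
  have hAH : A ≤ H := iSup_le fun z => z.2
  have hBc : B ≤ Subgroup.centralizer (H : Set G) := by
    refine iSup_le fun z => ?_
    have hHM : H ≤ M.map (MulAut.conj z.1).toMonoidHom := by
      by_contra h
      exact z.2 (hcon z.1 h)
    rintro x ⟨n, hn, rfl⟩
    rw [Subgroup.mem_centralizer_iff]
    intro h hh
    obtain ⟨m, hm, rfl⟩ := hHM hh
    have := hcen n hn m hm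
    simp only [MulEquiv.coe_toMonoidHom, MulAut.conj_apply]
    calc z.1 * m * z.1⁻¹ * (z.1 * n * z.1⁻¹) = z.1 * (m * n) * z.1⁻¹ := by group
      _ = z.1 * (n * m) * z.1⁻¹ := by rw [this]
      _ = z.1 * n * z.1⁻¹ * (z.1 * m * z.1⁻¹) := by group
  have hAB : A ⊔ B = ⊤ := by
    have hnc : Subgroup.normalClosure (N : Set G) = ⊤ := by
      rcases (Subgroup.normalClosure_normal (s := (N : Set G))).eq_bot_or_eq_top with h | h
      · exfalso
        apply hN
        rw [eq_bot_iff, ← h]
        exact Subgroup.le_normalClosure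
      · exact h
    rw [eq_top_iff, ← hnc]
    refine Subgroup.closure_le _ |>.mpr ?_
    intro x hx
    obtain ⟨n, hn, hconj⟩ := Group.mem_conjugatesOfSet_iff.mp hx
    obtain ⟨z, rfl⟩ := isConj_iff.mp hconj
    have hxz : z * n * z⁻¹ ∈ N.map (MulAut.conj z).toMonoidHom := ⟨n, hn, by simp [MulAut.conj_apply]⟩
    by_cases hz : N.map (MulAut.conj z).toMonoidHom ≤ H
    · exact (le_sup_left : A ≤ A ⊔ B) ((le_iSup (fun z : {z : G // N.map (MulAut.conj z).toMonoidHom ≤ H} =>
        N.map (MulAut.conj z.1).toMonoidHom) ⟨z, hz⟩) hxz)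
    · exact (le_sup_right : B ≤ A ⊔ B) ((le_iSup (fun z : {z : G // ¬ N.map (MulAut.conj z).toMonoidHom ≤ H} =>
        N.map (MulAut.conj z.1).toMonoidHom) ⟨z, hz⟩) hxz)
  have hAnormal : A.Normal := by
    rw [← Subgroup.normalizer_eq_top_iff, eq_top_iff, ← hAB]
    refine sup_le Subgroup.le_normalizer ?_
    exact (hBc.trans (Subgroup.centralizer_le hAH)).trans (Subgroup.centralizer_le_normalizer _)
  rcases hAnormal.eq_bot_or_eq_top with h | h
  · -- A = ⊥, so B = ⊤ and H is central
    have hBtop : B = ⊤ := by rw [← hAB, h, bot_sup_eq]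
    have hHc : H ≤ Subgroup.center G := by
      intro x hx
      rw [Subgroup.mem_center_iff]
      intro g
      have hg : g ∈ Subgroup.centralizer (H : Set G) := hBc (hBtop ▸ Subgroup.mem_top g)
      exact (Subgroup.mem_centralizer_iff.mp hg x hx).symm
    rcases (inferInstance : (Subgroup.center G).Normal).eq_bot_or_eq_top with hc | hc
    · exact hH0 (eq_bot_iff.mpr (hc ▸ hHc))
    · -- G abelian: M is normal, so M = ⊥, contradiction with N ≠ ⊥
      have hMn : M.Normal := by
        refine ⟨fun m hm g => ?_⟩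
        have hg : g ∈ Subgroup.center G := hc ▸ Subgroup.mem_top g
        have : g * m = m * g := (Subgroup.mem_center_iff.mp hg m).symm
        rw [this, mul_inv_cancel_right]
        exact hm
      rcases hMn.eq_bot_or_eq_top with hm | hm
      · exact hN (eq_bot_iff.mpr (hm ▸ hNM))
      · exact hM.1 hm
  · exact hH1 (eq_top_iff.mpr (h ▸ hAH))

/-- Let G be a finite simple group, X a subgroup lying in exactly one maximal subgroup M of G, and N a subgroup of prime order with N ≤ X that is central in M. If the subgroup lattice of X/N is complemented, then the subgroup lattice of G is complemented. -/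
theorem result {G : Type*} [Group G] [Finite G] [IsSimpleGroup G] (X M N : Subgroup G)
    (hM : IsCoatom M) (hXM : X ≤ M) (huniq : ∀ M' : Subgroup G, IsCoatom M' → X ≤ M' → M' = M)
    (hNX : N ≤ X) (hN : (Nat.card N).Prime) (hcen : ∀ n ∈ N, ∀ m ∈ M, m * n = n * m)
    [(N.subgroupOf X).Normal] (hK : ComplementedLattice (Subgroup (X ⧸ N.subgroupOf X))) :
    ComplementedLattice (Subgroup G) := by
  refine ⟨fun H => ?_⟩
  by_cases hH0 : H = ⊥
  · subst hH0
    exact ⟨⊤, isCompl_bot_top⟩
  by_cases hH1 : H = ⊤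
  · subst hH1
    exact ⟨⊥, isCompl_top_bot⟩
  have hX : X ≠ ⊤ := by
    rintro rfl
    exact hM.1 (top_le_iff.mp hXM)
  have hNbot : N ≠ ⊥ := by
    rintro rfl
    simp at hN
    exact Nat.not_prime_one hN
  obtain ⟨z, hz1, hz2⟩ := exists_conj M N hM (hNX.trans hXM) hNbot hcen H hH0 hH1
  set e : G ≃* G := MulAut.conj z with he
  have hH'M : ¬ H.comap e.toMonoidHom ≤ M := by
    intro hle
    apply hz1
    have := Subgroup.map_mono (f := e.toMonoidHom) hle
    rwa [Subgroup.map_comap_eq_self_of_surjective e.surjective] at this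
  have hH'N : H.comap e.toMonoidHom ⊓ N = ⊥ := by
    have : Fact (Nat.card N).Prime := ⟨hN⟩
    rcases Subgroup.eq_bot_or_eq_top_of_prime_card ((H.comap e.toMonoidHom).subgroupOf N) with h | h
    · exact disjoint_iff.mp (Subgroup.subgroupOf_eq_bot.mp h)
    · exfalso
      apply hz2
      rw [Subgroup.map_le_iff_le_comap]
      exact Subgroup.subgroupOf_eq_top.mp h
  obtain ⟨C', hsup, hinf⟩ := Cfsg.Agent.S5901.result N X M hNX hX
    (fun Y hNY hYX => interval_compl X N hNX hK Y hNY hYX) hM hXM huniq _ hH'M hH'N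
  have hHmap : (H.comap e.toMonoidHom).map e.toMonoidHom = H :=
    Subgroup.map_comap_eq_self_of_surjective e.surjective H
  refine ⟨C'.map e.toMonoidHom, ?_, ?_⟩
  · rw [disjoint_iff]
    conv_lhs => rw [← hHmap]
    rw [← Subgroup.map_inf_eq _ _ _ e.injective, hinf, Subgroup.map_bot]
  · rw [codisjoint_iff]
    conv_lhs => rw [← hHmap]
    rw [← Subgroup.map_sup, hsup]
    exact Subgroup.map_top_of_surjective _ e.surjective

end Cfsg.Agent.S5903
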