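import Cfsg.Statements.S5904

set_option autoImplicit false
open scoped Pointwise
open Cfsg

namespace Cfsg.Agent.S5904

/-- The subgroup of permutations preserving the partition `{O, Oᶜ}`. -/
def partStab {Ω : Type*} (O : Set Ω) : Subgroup (Equiv.Perm Ω) where
  carrier := {g | g • O = O ∨ g • O = Oᶜ}
  one_mem' := Or.inl (one_smul _ _)
  mul_mem' := by
    rintro g h (hg | hg) (hh | hh)
    · left; rw [mul_smul, hh, hg]
    · right; rw [mul_smul, hh, Set.smul_set_compl, hg]
    · right; rw [mul_smul, hh, hg]
    · left; rw [mul_smul, hh, Set.smul_set_compl, hg, compl_compl]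
  inv_mem' := by
    rintro g (hg | hg)
    · left
      rw [inv_smul_eq_iff, hg]
    · right
      rw [inv_smul_eq_iff, Set.smul_set_compl, hg, compl_compl]

/-- Let Ω be a finite set with more than two elements and O ⊆ Ω a subset with exactly as many elements as its complement. Then the setwise stabilizer of O in the symmetric group on Ω is not a maximal subgroup (it is properly contained in the stabilizer of the partition {O, Ω ∖ O}, which is proper). -/
theorem result {Ω : Type*} [Fintype Ω] [DecidableEq Ω] (hΩ : 2 < Fintype.card Ω)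
    (O : Set Ω) (hO : Nat.card O = Nat.card ↥Oᶜ) :
    ¬ IsCoatom (MulAction.stabilizer (Equiv.Perm Ω) O) := by
  classical
  intro hco
  have hcard : O.ncard + Oᶜ.ncard = Fintype.card Ω := by
    rw [Set.ncard_add_ncard_compl, Nat.card_eq_fintype_card]
  rw [Nat.card_coe_set_eq, Nat.card_coe_set_eq] at hO
  have h2 : 1 < O.ncard := by omega
  have h2' : 1 < Oᶜ.ncard := by omega
  obtain ⟨a, c, ha, hc, hac⟩ := (Set.one_lt_ncard_iff).mp h2
  obtain ⟨b, _, hb, _, _⟩ := (Set.one_lt_ncard_iff).mp h2'
  have hle : MulAction.stabilizer (Equiv.Perm Ω) O ≤ partStab O := by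
    intro g hg
    exact Or.inl (MulAction.mem_stabilizer_iff.mp hg)
  -- a permutation exchanging O and its complement
  have hOO : Nat.card {x // x ∈ O} = Nat.card {x // x ∈ Oᶜ} := by
    rw [Nat.card_coe_set_eq, Nat.card_coe_set_eq]; exact hO
  obtain ⟨e⟩ := Finite.card_eq.mp hOO
  have hσ : e.extendSubtype • O = Oᶜ := by
    ext y
    constructor
    · rintro ⟨x, hx, rfl⟩
      exact e.extendSubtype_mem x hx
    · intro hy
      refine ⟨e.extendSubtype⁻¹ y, ?_, by simp⟩
      by_contra hx
      have := e.extendSubtype_not_mem _ hx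
      simp at this
      exact hy this
  have hne : MulAction.stabilizer (Equiv.Perm Ω) O ≠ partStab O := by
    intro heq
    have hmem : e.extendSubtype ∈ partStab O := Or.inr hσ
    rw [← heq] at hmem
    have h3 : O = Oᶜ := (MulAction.mem_stabilizer_iff.mp hmem).symm.trans hσ
    have : a ∈ Oᶜ := h3 ▸ ha
    exact this ha
  have htop : partStab O = ⊤ := hco.2 _ (lt_of_le_of_ne hle hne)
  have hτ : Equiv.swap a b ∈ partStab O := htop ▸ Subgroup.mem_top _
  have hbmem : b ∈ Equiv.swap a b • O := ⟨a, ha, by simp⟩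
  have hcmem : c ∈ Equiv.swap a b • O := by
    refine ⟨c, hc, ?_⟩
    have hcb : c ≠ b := fun h => hb (h ▸ hc)
    simp [Equiv.swap_apply_of_ne_of_ne (Ne.symm hac) hcb]
  rcases hτ with h | h
  · rw [h] at hbmem
    exact hb hbmem
  · rw [h] at hcmem
    exact hcmem hc

end Cfsg.Agent.S5904
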