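import Mathlib
import Cfsg.Agent.S0827
import Cfsg.Statements.S5908

set_option autoImplicit false
open Cfsg

namespace Cfsg.Agent.S5908

theorem Q8_fact : ∀ q : QuaternionGroup 2, (q ^ 2 = 1 ∨ q ^ 3 = 1) →
    ∀ g : QuaternionGroup 2, g * q = q * g := by
  decide +kernel

theorem Q8_nc : ∃ q g : QuaternionGroup 2, g * q ≠ q * g := by decide +kernel

/-- A group with a normal subgroup of order 9 and quaternion quotient does not have a
complemented subgroup lattice: the preimage of the centre of the quotient contains every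
element of prime order. -/
theorem not_complemented {G : Type*} [Group G] [Finite G] (N : Subgroup G) [N.Normal]
    (hN : Nat.card N = 9) (e : G ⧸ N ≃* QuaternionGroup 2) :
    ¬ ComplementedLattice (Subgroup G) := by
  intro hC
  have hq : Nat.card (QuaternionGroup 2) = 8 := by
    simp [Nat.card_eq_fintype_card, QuaternionGroup.card]
  have hG : Nat.card G = 72 := by
    rw [Subgroup.card_eq_card_quotient_mul_card_subgroup N, hN, Nat.card_congr e.toEquiv, hq]
  obtain ⟨φ, hφs⟩ : ∃ φ : G →* QuaternionGroup 2, Function.Surjective φ :=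
    ⟨e.toMonoidHom.comp (QuotientGroup.mk' N),
      e.surjective.comp (QuotientGroup.mk'_surjective N)⟩
  have hH : ∀ y : G, (y ^ 2 = 1 ∨ y ^ 3 = 1) →
      y ∈ (Subgroup.center (QuaternionGroup 2)).comap φ := by
    intro y hy
    rw [Subgroup.mem_comap, Subgroup.mem_center_iff]
    have hq : φ y ^ 2 = 1 ∨ φ y ^ 3 = 1 := by
      rcases hy with h | h
      · left; rw [← map_pow, h, map_one]
      · right; rw [← map_pow, h, map_one]
    exact Q8_fact (φ y) hq
  have hHtop : (Subgroup.center (QuaternionGroup 2)).comap φ ≠ ⊤ := by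
    intro h
    obtain ⟨q, g, hqg⟩ := Q8_nc
    obtain ⟨y, rfl⟩ := hφs q
    have hy : y ∈ (Subgroup.center (QuaternionGroup 2)).comap φ := by
      rw [h]; exact Subgroup.mem_top y
    rw [Subgroup.mem_comap, Subgroup.mem_center_iff] at hy
    exact hqg (hy g)
  obtain ⟨K, hK⟩ := hC.exists_isCompl ((Subgroup.center (QuaternionGroup 2)).comap φ)
  have hKbot : K ≠ ⊥ := by
    intro h
    apply hHtop
    have h' := hK.sup_eq_top
    rw [h, sup_bot_eq] at h'
    exact h'
  have hex : ∃ x ∈ K, x ≠ 1 := by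
    by_contra hcon
    push_neg at hcon
    exact hKbot ((Subgroup.eq_bot_iff_forall K).2 hcon)
  obtain ⟨x, hxK, hx1⟩ := hex
  have hox : orderOf x ≠ 1 := fun h => hx1 (orderOf_eq_one_iff.1 h)
  obtain ⟨p, hp, hpd⟩ := Nat.exists_prime_and_dvd hox
  have hopos : orderOf x ≠ 0 := (orderOf_pos x).ne'
  obtain ⟨y, hyK, hy⟩ : ∃ y ∈ K, orderOf y = p :=
    ⟨x ^ (orderOf x / p), Subgroup.pow_mem K hxK _, orderOf_pow_orderOf_div hopos hpd⟩
  have hp72 : p ∣ 72 := by
    have h := orderOf_dvd_natCard y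
    rw [hy, hG] at h
    exact h
  have hp23 : p = 2 ∨ p = 3 := by
    have h72 : (72 : ℕ) = 2 ^ 3 * 3 ^ 2 := by norm_num
    rw [h72] at hp72
    rcases (Nat.Prime.dvd_mul hp).1 hp72 with h | h
    · left; exact (Nat.prime_dvd_prime_iff_eq hp Nat.prime_two).1 (hp.dvd_of_dvd_pow h)
    · right; exact (Nat.prime_dvd_prime_iff_eq hp Nat.prime_three).1 (hp.dvd_of_dvd_pow h)
  have hyp : y ^ p = 1 := by rw [← hy]; exact pow_orderOf_eq_one y
  have hyH : y ∈ (Subgroup.center (QuaternionGroup 2)).comap φ := by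
    apply hH
    rcases hp23 with h | h
    · left; rw [h] at hyp; exact hyp
    · right; rw [h] at hyp; exact hyp
  have hybot : y ∈ (⊥ : Subgroup G) := by
    rw [← hK.inf_eq_bot]
    exact Subgroup.mem_inf.2 ⟨hyH, hyK⟩
  rw [Subgroup.mem_bot] at hybot
  rw [hybot, orderOf_one] at hy
  exact hp.ne_one hy.symm

/-- The subgroup lattice of PSU_3(2) is not complemented. -/
theorem result {F : Type*} [Field F] [Fintype F] (hF : Fintype.card F = 4) :
    ¬ ComplementedLattice (Subgroup (Cfsg.PSU 3 F 2)) := by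
  have hcard : Nat.card (Cfsg.PSU 3 F 2) = 72 := (Cfsg.Agent.S0282.result hF).1
  haveI : Finite (Cfsg.PSU 3 F 2) := Nat.finite_of_card_ne_zero (by rw [hcard]; norm_num)
  obtain ⟨N, hNn, hN9, -, ⟨e⟩⟩ := Cfsg.Agent.S0827.result hF
  haveI := hNn
  exact not_complemented N hN9 e

end Cfsg.Agent.S5908
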