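import Mathlib
import Cfsg.Statements.S5909
import Cfsg.Agent.S5905
import Cfsg.Agent.S5911
-- import your own Cfsg.Agent.* helpers here

set_option autoImplicit false
open Cfsg

namespace Cfsg.Agent.S5909


open Equiv Equiv.Perm
open scoped Pointwise

section helpers
variable {Ω : Type*} [Fintype Ω] [DecidableEq Ω] {a b : ℕ} (f : Ω → Fin b)

theorem inv_app (g : Perm Ω) (x : Ω) : g⁻¹ (g x) = x := Equiv.symm_apply_apply g x

theorem conj_mul (h c d : Perm Ω) : (h * c * h⁻¹) * (h * d * h⁻¹) = h * (c * d) * h⁻¹ := by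
  group

theorem fib_exists (hf : ∀ i : Fin b, Nat.card {x : Ω // f x = i} = a) (i : Fin b) (S : Finset Ω)
    (hS : S.card < a) : ∃ z, f z = i ∧ z ∉ S := by
  by_contra hcon
  push_neg at hcon
  have h1 : (Finset.univ.filter (fun x => f x = i)).card = a := by
    rw [← hf i, Nat.card_eq_fintype_card, Fintype.card_subtype]
  have h2 : Finset.univ.filter (fun x => f x = i) ⊆ S := by
    intro z hz
    exact hcon z (by simpa using hz)
  have h3 := Finset.card_le_card h2
  omega

theorem lab_exists (S : Finset (Fin b)) (hS : S.card < b) : ∃ j, j ∉ S := by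
  apply S5911.exists_notMem S
  rw [Fintype.card_fin]; exact hS

theorem fib_two (hf : ∀ i : Fin b, Nat.card {x : Ω // f x = i} = a) (ha2 : a = 2) {x y z : Ω}
    (hxy : f y = f x) (hxz : f z = f x) (hyx : y ≠ x) (hzx : z ≠ x) : y = z := by
  by_contra hyz
  have h1 : (Finset.univ.filter (fun w => f w = f x)).card = a := by
    rw [← hf (f x), Nat.card_eq_fintype_card, Fintype.card_subtype]
  have h2 : ({x, y, z} : Finset Ω) ⊆ Finset.univ.filter (fun w => f w = f x) := by
    intro w hw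
    simp only [Finset.mem_insert, Finset.mem_singleton] at hw
    rcases hw with rfl | rfl | rfl <;> simp [*]
  have h3 := Finset.card_le_card h2
  have n1 : x ∉ ({y, z} : Finset Ω) := by
    simp only [Finset.mem_insert, Finset.mem_singleton, not_or]
    exact ⟨fun h => hyx h.symm, fun h => hzx h.symm⟩
  have n2 : y ∉ ({z} : Finset Ω) := by
    simp only [Finset.mem_singleton]; exact hyz
  have h4 : ({x, y, z} : Finset Ω).card = 3 := by
    rw [Finset.card_insert_of_notMem n1, Finset.card_insert_of_notMem n2, Finset.card_singleton]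
  omega

theorem swap_lab {u u' : Ω} (h : f u = f u') (x : Ω) : f (swap u u' x) = f x := by
  by_cases hux : x = u
  · subst hux; rw [swap_apply_left]; exact h.symm
  · by_cases huy : x = u'
    · subst huy; rw [swap_apply_right]; exact h
    · rw [swap_apply_of_ne_of_ne hux huy]

theorem dswap_mem {K : Subgroup (Perm Ω)}
    (hHK : ∀ h : Perm Ω, (∀ x y, f x = f y ↔ f (h x) = f (h y)) → Perm.sign h = 1 → h ∈ K)
    {u u' v v' : Ω} (hu : f u = f u') (huu : u ≠ u') (hv : f v = f v') (hvv : v ≠ v') :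
    swap u u' * swap v v' ∈ K := by
  apply hHK
  · intro x y
    rw [Perm.mul_apply, Perm.mul_apply, swap_lab f hu, swap_lab f hu, swap_lab f hv,
      swap_lab f hv]
  · rw [Perm.sign_mul, Perm.sign_swap huu, Perm.sign_swap hvv]; simp

theorem exists_lab (hf : ∀ i : Fin b, Nat.card {x : Ω // f x = i} = a) (ha : 2 ≤ a)
    {K : Subgroup (Perm Ω)}
    (hHK : ∀ h : Perm Ω, (∀ x y, f x = f y ↔ f (h x) = f (h y)) → Perm.sign h = 1 → h ∈ K)
    (x₀ : Ω) (σ : Perm (Fin b)) : ∃ h ∈ K, ∀ x, f (h x) = σ (f x) := by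
  obtain ⟨t, ht, htx⟩ := fib_exists f hf (f x₀) {x₀} (by rw [Finset.card_singleton]; omega)
  have htx' : t ≠ x₀ := by simpa using htx
  by_cases hs : Perm.sign (S5905.liftPerm f hf σ) = 1
  · exact ⟨S5905.liftPerm f hf σ, hHK _ (S5905.liftPerm_mem f hf σ) hs,
      S5905.liftPerm_label f hf σ⟩
  · have hs' : Perm.sign (S5905.liftPerm f hf σ) = -1 :=
      (Int.units_eq_one_or _).resolve_left hs
    have hl : ∀ x, f ((S5905.liftPerm f hf σ * swap t x₀) x) = σ (f x) := by
      intro x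
      rw [Perm.mul_apply, S5905.liftPerm_label f hf, swap_lab f ht]
    refine ⟨S5905.liftPerm f hf σ * swap t x₀, hHK _ ?_ ?_, hl⟩
    · intro x y
      rw [hl, hl, σ.apply_eq_iff_eq]
    · rw [Perm.sign_mul, hs', Perm.sign_swap htx']; simp

theorem blockP {K : Subgroup (Perm Ω)} {B : Set Ω} (hB : MulAction.IsBlock K B) {k : Perm Ω}
    (hk : k ∈ K) {x : Ω} (hx : x ∈ B) (hkx : k x ∈ B) {y : Ω} (hy : y ∈ B) : k y ∈ B := by
  have h2 : (⟨k, hk⟩ : K) • B = B := hB.smul_eq_of_mem (g := ⟨k, hk⟩) hx hkx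
  rw [← h2]
  exact Set.smul_mem_smul_set (a := (⟨k, hk⟩ : K)) hy

theorem exists_zz (hf : ∀ i : Fin b, Nat.card {x : Ω // f x = i} = a) (ha : 2 ≤ a)
    (hab : 3 ≤ a ∨ 3 ≤ b) (u v : Ω) (huv : f u ≠ f v) :
    ∃ z z', z ≠ z' ∧ f z = f z' ∧ z ≠ u ∧ z' ≠ u ∧ z ≠ v ∧ z' ≠ v := by
  rcases hab with h3 | h3
  · obtain ⟨z, hz, hzS⟩ := fib_exists f hf (f u) {u} (by rw [Finset.card_singleton]; omega)
    obtain ⟨z', hz', hz'S⟩ := fib_exists f hf (f u) {u, z}
      (lt_of_le_of_lt Finset.card_le_two (by omega))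
    simp only [Finset.mem_insert, Finset.mem_singleton, not_or] at hzS hz'S
    refine ⟨z, z', fun h => hz'S.2 h.symm, by rw [hz, hz'], hzS, hz'S.1, ?_, ?_⟩
    · intro e; exact huv (by rw [← hz, e])
    · intro e; exact huv (by rw [← hz', e])
  · obtain ⟨j, hj⟩ := lab_exists ({f u, f v} : Finset (Fin b))
      (lt_of_le_of_lt Finset.card_le_two (by omega))
    simp only [Finset.mem_insert, Finset.mem_singleton, not_or] at hj
    obtain ⟨z, hz, -⟩ := fib_exists f hf j ∅ (by rw [Finset.card_empty]; omega)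
    obtain ⟨z', hz', hz'S⟩ := fib_exists f hf j {z} (by rw [Finset.card_singleton]; omega)
    simp only [Finset.mem_singleton] at hz'S
    refine ⟨z, z', fun h => hz'S h.symm, by rw [hz, hz'], ?_, ?_, ?_, ?_⟩
    · intro e; exact hj.1 (by rw [← hz, e])
    · intro e; exact hj.1 (by rw [← hz', e])
    · intro e; exact hj.2 (by rw [← hz, e])
    · intro e; exact hj.2 (by rw [← hz', e])

theorem blk_step {K : Subgroup (Perm Ω)}
    (hHK : ∀ h : Perm Ω, (∀ x y, f x = f y ↔ f (h x) = f (h y)) → Perm.sign h = 1 → h ∈ K)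
    (hzz : ∀ u v : Ω, f u ≠ f v →
      ∃ z z', z ≠ z' ∧ f z = f z' ∧ z ≠ u ∧ z' ≠ u ∧ z ≠ v ∧ z' ≠ v)
    {B : Set Ω} (hB : MulAction.IsBlock K B) {u v : Ω} (hu : u ∈ B) (hv : v ∈ B)
    (huv : f u ≠ f v) {w : Ω} (hw : f w = f v) : w ∈ B := by
  by_cases hwv : w = v
  · rw [hwv]; exact hv
  obtain ⟨z, z', hzz', hfz, hzu, hz'u, hzv, hz'v⟩ := hzz u v huv
  have hk : swap v w * swap z z' ∈ K := dswap_mem f hHK hw.symm (Ne.symm hwv) hfz hzz'
  have hwu : u ≠ w := fun h => huv (by rw [h, hw])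
  have huv' : u ≠ v := fun h => huv (by rw [h])
  have h1 : (swap v w * swap z z') u = u := by
    rw [Perm.mul_apply, swap_apply_of_ne_of_ne (Ne.symm hzu) (Ne.symm hz'u),
      swap_apply_of_ne_of_ne huv' hwu]
  have h2 : (swap v w * swap z z') v = w := by
    rw [Perm.mul_apply, swap_apply_of_ne_of_ne (Ne.symm hzv) (Ne.symm hz'v), swap_apply_left]
  have := blockP hB hk hu (by rw [h1]; exact hu) hv
  rwa [h2] at this

theorem blk_univ_of_ne (hf : ∀ i : Fin b, Nat.card {x : Ω // f x = i} = a) (ha : 2 ≤ a)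
    (hab : 3 ≤ a ∨ 3 ≤ b) {K : Subgroup (Perm Ω)}
    (hHK : ∀ h : Perm Ω, (∀ x y, f x = f y ↔ f (h x) = f (h y)) → Perm.sign h = 1 → h ∈ K)
    {B : Set Ω} (hB : MulAction.IsBlock K B) {u v : Ω} (hu : u ∈ B) (hv : v ∈ B)
    (huv : f u ≠ f v) : B = Set.univ := by
  have hzz := exists_zz f hf ha hab
  have step : ∀ {u v w : Ω}, u ∈ B → v ∈ B → f u ≠ f v → f w = f v → w ∈ B :=
    fun hu hv huv hw => blk_step f hHK hzz hB hu hv huv hw
  rw [Set.eq_univ_iff_forall]
  intro w
  by_cases h1 : f w = f v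
  · exact step hu hv huv h1
  by_cases h2 : f w = f u
  · exact step hv hu (Ne.symm huv) h2
  obtain ⟨h, hhK, hh⟩ := exists_lab f hf ha hHK u (swap (f v) (f w))
  have h3 : h u ∈ B := by
    apply step hv hu (Ne.symm huv)
    rw [hh, swap_apply_of_ne_of_ne huv (Ne.symm h2)]
  have h4 : h v ∈ B := blockP hB hhK hu h3 hv
  have h5 : f (h v) = f w := by rw [hh, swap_apply_left]
  exact step hu h4 (by rw [h5]; exact Ne.symm h2) h5.symm

theorem blk_univ_of_eq (hf : ∀ i : Fin b, Nat.card {x : Ω // f x = i} = a) (ha : 2 ≤ a)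
    (hb : 2 ≤ b) (hab : 3 ≤ a ∨ 3 ≤ b) {K : Subgroup (Perm Ω)}
    (hHK : ∀ h : Perm Ω, (∀ x y, f x = f y ↔ f (h x) = f (h y)) → Perm.sign h = 1 → h ∈ K)
    {g : Perm Ω} (hgK : g ∈ K) {p q : Ω} (hpq : f p = f q) (hgpq : f (g p) ≠ f (g q))
    {B : Set Ω} (hB : MulAction.IsBlock K B) {u v : Ω} (hu : u ∈ B) (hv : v ∈ B)
    (huv : u ≠ v) (hfuv : f u = f v) : B = Set.univ := by
  have hblk : ∀ w, f w = f u → w ∈ B := by
    intro w hw
    by_cases hwu : w = u
    · rw [hwu]; exact hu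
    by_cases hwv : w = v
    · rw [hwv]; exact hv
    obtain ⟨j, hj⟩ := lab_exists ({f u} : Finset (Fin b)) (by rw [Finset.card_singleton]; omega)
    simp only [Finset.mem_singleton] at hj
    obtain ⟨z, hz, -⟩ := fib_exists f hf j ∅ (by rw [Finset.card_empty]; omega)
    obtain ⟨z', hz', hz'S⟩ := fib_exists f hf j {z} (by rw [Finset.card_singleton]; omega)
    simp only [Finset.mem_singleton] at hz'S
    have hk : swap v w * swap z z' ∈ K :=
      dswap_mem f hHK (by rw [← hfuv, hw]) (Ne.symm hwv) (by rw [hz, hz'])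
        (fun h => hz'S h.symm)
    have hzu : u ≠ z := fun h => hj (by rw [h]; exact hz.symm)
    have hz'u : u ≠ z' := fun h => hj (by rw [h]; exact hz'.symm)
    have hzv : v ≠ z := fun h => hj (by rw [hfuv, h]; exact hz.symm)
    have hz'v : v ≠ z' := fun h => hj (by rw [hfuv, h]; exact hz'.symm)
    have h1 : (swap v w * swap z z') u = u := by
      rw [Perm.mul_apply, swap_apply_of_ne_of_ne hzu hz'u,
        swap_apply_of_ne_of_ne huv (Ne.symm hwu)]
    have h2 : (swap v w * swap z z') v = w := by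
      rw [Perm.mul_apply, swap_apply_of_ne_of_ne hzv hz'v, swap_apply_left]
    have := blockP hB hk hu (by rw [h1]; exact hu) hv
    rwa [h2] at this
  obtain ⟨h', hh'K, hh'⟩ := exists_lab f hf ha hHK u (swap (f u) (f p))
  obtain ⟨k₂, hk₂K, hk₂⟩ := exists_lab f hf ha hHK u (swap (f (g p)) (f u))
  have hp : h' p ∈ B := hblk _ (by rw [hh', swap_apply_right])
  have hq : h' q ∈ B := hblk _ (by rw [hh', ← hpq, swap_apply_right])
  have hkK : k₂ * g * h'⁻¹ ∈ K := K.mul_mem (K.mul_mem hk₂K hgK) (K.inv_mem hh'K)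
  have e1 : (k₂ * g * h'⁻¹) (h' p) = k₂ (g p) := by simp [Perm.mul_apply]
  have e2 : (k₂ * g * h'⁻¹) (h' q) = k₂ (g q) := by simp [Perm.mul_apply]
  have hgp : k₂ (g p) ∈ B := hblk _ (by rw [hk₂, swap_apply_left])
  have hgq : k₂ (g q) ∈ B := by
    have := blockP hB hkK hp (by rw [e1]; exact hgp) hq
    rwa [e2] at this
  apply blk_univ_of_ne f hf ha hab hHK hB hgp hgq
  rw [hk₂, hk₂]
  exact fun h => hgpq ((swap (f (g p)) (f u)).injective h)

theorem trans_K (hf : ∀ i : Fin b, Nat.card {x : Ω // f x = i} = a) (ha : 2 ≤ a)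
    (hb : 2 ≤ b) {K : Subgroup (Perm Ω)}
    (hHK : ∀ h : Perm Ω, (∀ x y, f x = f y ↔ f (h x) = f (h y)) → Perm.sign h = 1 → h ∈ K)
    (x y : Ω) : ∃ k ∈ K, k x = y := by
  obtain ⟨h, hhK, hh⟩ := exists_lab f hf ha hHK x (swap (f x) (f y))
  have h1 : f (h x) = f y := by rw [hh, swap_apply_left]
  by_cases hxy : h x = y
  · exact ⟨h, hhK, hxy⟩
  obtain ⟨j, hj⟩ := lab_exists ({f y} : Finset (Fin b)) (by rw [Finset.card_singleton]; omega)
  simp only [Finset.mem_singleton] at hj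
  obtain ⟨z, hz, -⟩ := fib_exists f hf j ∅ (by rw [Finset.card_empty]; omega)
  obtain ⟨z', hz', hz'S⟩ := fib_exists f hf j {z} (by rw [Finset.card_singleton]; omega)
  simp only [Finset.mem_singleton] at hz'S
  have hk : swap (h x) y * swap z z' ∈ K :=
    dswap_mem f hHK h1 hxy (by rw [hz, hz']) (fun e => hz'S e.symm)
  refine ⟨swap (h x) y * swap z z' * h, K.mul_mem hk hhK, ?_⟩
  have hz1 : h x ≠ z := fun e => hj (by rw [← hz, ← e, h1])
  have hz2 : h x ≠ z' := fun e => hj (by rw [← hz', ← e, h1])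
  rw [Perm.mul_apply, Perm.mul_apply, swap_apply_of_ne_of_ne hz1 hz2, swap_apply_left]

theorem wit {K : Subgroup (Perm Ω)} {g : Perm Ω} (hgK : g ∈ K)
    (hg : ¬ ∀ x y, f x = f y ↔ f (g x) = f (g y)) :
    ∃ k ∈ K, ∃ p q, f p = f q ∧ f (k p) ≠ f (k q) := by
  obtain ⟨x, hx⟩ := not_forall.mp hg
  obtain ⟨y, hxy⟩ := not_forall.mp hx
  by_cases h : f x = f y
  · exact ⟨g, hgK, x, y, h, fun h' => hxy ⟨fun _ => h', fun _ => h⟩⟩
  · have h' : f (g x) = f (g y) := by
      by_contra h'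
      exact hxy ⟨fun e => absurd e h, fun e => absurd e h'⟩
    refine ⟨g⁻¹, K.inv_mem hgK, g x, g y, h', ?_⟩
    rw [inv_app, inv_app]; exact h

theorem prim (hf : ∀ i : Fin b, Nat.card {x : Ω // f x = i} = a) (ha : 2 ≤ a)
    (hb : 2 ≤ b) (hab : 3 ≤ a ∨ 3 ≤ b) {K : Subgroup (Perm Ω)}
    (hHK : ∀ h : Perm Ω, (∀ x y, f x = f y ↔ f (h x) = f (h y)) → Perm.sign h = 1 → h ∈ K)
    {g : Perm Ω} (hgK : g ∈ K) (hg : ¬ ∀ x y, f x = f y ↔ f (g x) = f (g y)) :
    MulAction.IsPreprimitive K Ω := by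
  obtain ⟨k, hkK, p, q, hpq, hkpq⟩ := wit f hgK hg
  have htr : MulAction.IsPretransitive K Ω := by
    constructor
    intro x y
    obtain ⟨k, hk, hkx⟩ := trans_K f hf ha hb hHK x y
    exact ⟨⟨k, hk⟩, hkx⟩
  apply MulAction.IsPreprimitive.mk
  intro B hB
  by_cases hsub : B.Subsingleton
  · exact Or.inl hsub
  right
  rw [Set.not_subsingleton_iff] at hsub
  obtain ⟨u, hu, v, hv, huv⟩ := hsub
  by_cases hfuv : f u = f v
  · exact blk_univ_of_eq f hf ha hb hab hHK hkK hpq hkpq hB hu hv huv hfuv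
  · exact blk_univ_of_ne f hf ha hab hHK hB hu hv hfuv

theorem three_a (hf : ∀ i : Fin b, Nat.card {x : Ω // f x = i} = a) (ha : 3 ≤ a)
    {K : Subgroup (Perm Ω)}
    (hHK : ∀ h : Perm Ω, (∀ x y, f x = f y ↔ f (h x) = f (h y)) → Perm.sign h = 1 → h ∈ K)
    (x₀ : Ω) : ∃ c ∈ K, Perm.IsThreeCycle c := by
  obtain ⟨y, hy, hyS⟩ := fib_exists f hf (f x₀) {x₀} (by rw [Finset.card_singleton]; omega)
  obtain ⟨z, hz, hzS⟩ := fib_exists f hf (f x₀) {x₀, y}
    (lt_of_le_of_lt Finset.card_le_two (by omega))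
  simp only [Finset.mem_insert, Finset.mem_singleton, not_or] at hyS hzS
  exact ⟨swap x₀ y * swap x₀ z,
    dswap_mem f hHK hy.symm (Ne.symm hyS) hz.symm (Ne.symm hzS.1),
    isThreeCycle_swap_mul_swap_same (Ne.symm hyS) (Ne.symm hzS.1) (Ne.symm hzS.2)⟩

theorem three_L2 (hf : ∀ i : Fin b, Nat.card {x : Ω // f x = i} = a) (ha2 : a = 2)
    {K : Subgroup (Perm Ω)}
    (hHK : ∀ h : Perm Ω, (∀ x y, f x = f y ↔ f (h x) = f (h y)) → Perm.sign h = 1 → h ∈ K)
    {p q p' q' s : Ω} (hpq : f p ≠ f q) (hp' : f p' = f p) (hpp' : p' ≠ p)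
    (hq' : f q' = f q) (hqq' : q' ≠ q) (hsp : s ≠ p) (hsq : s ≠ q) (hsp' : s ≠ p')
    (hsq' : s ≠ q') (hk : swap p q * swap p' s ∈ K) : ∃ c ∈ K, Perm.IsThreeCycle c := by
  have hpq0 : p ≠ q := fun h => hpq (by rw [h])
  have hp'q' : p' ≠ q' := fun h => hpq (by rw [← hp', h, hq'])
  have hp'q : p' ≠ q := fun h => hpq (by rw [← hp', h])
  have hpq' : p ≠ q' := fun h => hpq (by rw [h, hq'])
  have hlab : ∀ x, f ((swap p q * swap p' q') x) = swap (f p) (f q) (f x) := by
    intro x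
    rw [Perm.mul_apply]
    by_cases h1 : x = p
    · rw [h1, swap_apply_of_ne_of_ne (Ne.symm hpp') hpq', swap_apply_left, swap_apply_left]
    by_cases h2 : x = q
    · rw [h2, swap_apply_of_ne_of_ne (Ne.symm hp'q) (Ne.symm hqq'), swap_apply_right,
        swap_apply_right]
    by_cases h3 : x = p'
    · rw [h3, swap_apply_left, swap_apply_of_ne_of_ne (Ne.symm hpq') hqq', hp',
        swap_apply_left, hq']
    by_cases h4 : x = q'
    · rw [h4, swap_apply_right, swap_apply_of_ne_of_ne hpp' hp'q, hq', swap_apply_right, hp']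
    · rw [swap_apply_of_ne_of_ne h3 h4, swap_apply_of_ne_of_ne h1 h2]
      have e1 : f x ≠ f p := fun e => h3 (fib_two f hf ha2 e hp' h1 hpp')
      have e2 : f x ≠ f q := fun e => h4 (fib_two f hf ha2 e hq' h2 hqq')
      rw [swap_apply_of_ne_of_ne e1 e2]
  have hhK : swap p q * swap p' q' ∈ K := by
    apply hHK
    · intro x y; rw [hlab, hlab, (swap (f p) (f q)).apply_eq_iff_eq]
    · rw [Perm.sign_mul, Perm.sign_swap hpq0, Perm.sign_swap hp'q']; simp
  have hhp : (swap p q * swap p' q') p = q := by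
    rw [Perm.mul_apply, swap_apply_of_ne_of_ne (Ne.symm hpp') hpq', swap_apply_left]
  have hhq : (swap p q * swap p' q') q = p := by
    rw [Perm.mul_apply, swap_apply_of_ne_of_ne (Ne.symm hp'q) (Ne.symm hqq'), swap_apply_right]
  have hhp' : (swap p q * swap p' q') p' = q' := by
    rw [Perm.mul_apply, swap_apply_left, swap_apply_of_ne_of_ne (Ne.symm hpq') hqq']
  have hhs : (swap p q * swap p' q') s = s := by
    rw [Perm.mul_apply, swap_apply_of_ne_of_ne hsp' hsq', swap_apply_of_ne_of_ne hsp hsq]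
  have hconj : swap q p * swap q' s
      = (swap p q * swap p' q') * (swap p q * swap p' s) * (swap p q * swap p' q')⁻¹ := by
    have e1 := Equiv.swap_apply_apply (swap p q * swap p' q') p q
    have e2 := Equiv.swap_apply_apply (swap p q * swap p' q') p' s
    rw [hhp, hhq] at e1
    rw [hhp', hhs] at e2
    rw [e1, e2, conj_mul]
  have hc : swap p q * swap p' s * (swap q p * swap q' s) = swap s p' * swap s q' := by
    rw [S5911.swap_comm_of_disjoint hpp' hp'q hsp hsq, swap_comm q p, swap_comm p' s,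
      swap_comm q' s]
    rw [mul_assoc, ← mul_assoc (swap p q), swap_mul_self, one_mul]
  refine ⟨swap s p' * swap s q', ?_, isThreeCycle_swap_mul_swap_same hsp' hsq' hp'q'⟩
  rw [← hc, hconj]
  exact K.mul_mem hk (K.mul_mem (K.mul_mem hhK hk) (K.inv_mem hhK))

theorem three_two (hf : ∀ i : Fin b, Nat.card {x : Ω // f x = i} = a) (ha2 : a = 2)
    (hb3 : 3 ≤ b) (hb4 : b ≠ 4) {K : Subgroup (Perm Ω)}
    (hHK : ∀ h : Perm Ω, (∀ x y, f x = f y ↔ f (h x) = f (h y)) → Perm.sign h = 1 → h ∈ K)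
    {g : Perm Ω} (hgK : g ∈ K) {x x₁ : Ω} (hxx : f x = f x₁) (hg : f (g x) ≠ f (g x₁)) :
    ∃ c ∈ K, Perm.IsThreeCycle c := by
  have ha : 2 ≤ a := by omega
  have hxx₁ : x ≠ x₁ := fun h => hg (by rw [h])
  obtain ⟨p', hp', hp'S⟩ := fib_exists f hf (f (g x)) {g x}
    (by rw [Finset.card_singleton]; omega)
  obtain ⟨q', hq', hq'S⟩ := fib_exists f hf (f (g x₁)) {g x₁}
    (by rw [Finset.card_singleton]; omega)
  simp only [Finset.mem_singleton] at hp'S hq'S
  obtain ⟨j, hj⟩ := lab_exists ({f x, f (g⁻¹ p')} : Finset (Fin b))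
    (lt_of_le_of_lt Finset.card_le_two (by omega))
  simp only [Finset.mem_insert, Finset.mem_singleton, not_or] at hj
  obtain ⟨y, hy, -⟩ := fib_exists f hf j ∅ (by rw [Finset.card_empty]; omega)
  obtain ⟨y₁, hy₁, hy₁S⟩ := fib_exists f hf j {y} (by rw [Finset.card_singleton]; omega)
  simp only [Finset.mem_singleton] at hy₁S
  have hyx : y ≠ x := fun e => hj.1 (by rw [← hy, e])
  have hyx₁ : y ≠ x₁ := fun e => hj.1 (by rw [← hy, e, hxx])
  have hy₁x : y₁ ≠ x := fun e => hj.1 (by rw [← hy₁, e])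
  have hy₁x₁ : y₁ ≠ x₁ := fun e => hj.1 (by rw [← hy₁, e, hxx])
  have hrp : g y ≠ g x := fun e => hyx (g.injective e)
  have hrq : g y ≠ g x₁ := fun e => hyx₁ (g.injective e)
  have hsp : g y₁ ≠ g x := fun e => hy₁x (g.injective e)
  have hsq : g y₁ ≠ g x₁ := fun e => hy₁x₁ (g.injective e)
  have hrs : g y ≠ g y₁ := fun e => hy₁S (g.injective e).symm
  have hrp' : g y ≠ p' := fun e => hj.2 (by rw [← e, inv_app, hy])
  have hsp' : g y₁ ≠ p' := fun e => hj.2 (by rw [← e, inv_app, hy₁])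
  have hk₁ : swap (g x) (g x₁) * swap (g y) (g y₁) ∈ K := by
    have e : swap (g x) (g x₁) * swap (g y) (g y₁) = g * (swap x x₁ * swap y y₁) * g⁻¹ := by
      rw [Equiv.swap_apply_apply g x x₁, Equiv.swap_apply_apply g y y₁, conj_mul]
    rw [e]
    exact K.mul_mem (K.mul_mem hgK (dswap_mem f hHK hxx hxx₁ (by rw [hy, hy₁])
      (fun e => hy₁S e.symm))) (K.inv_mem hgK)
  generalize g x = p at *
  generalize g x₁ = q at *
  generalize g y = r at *
  generalize g y₁ = s at *
  have hpq0 : p ≠ q := fun h => hg (by rw [h])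
  have hpq' : p ≠ q' := fun h => hg (by rw [h, hq'])
  by_cases hrq' : r = q'
  · have hsq' : s ≠ q' := fun e => hrs (by rw [hrq', e])
    apply three_L2 f hf ha2 hHK (Ne.symm hg) hq' hq'S hp' hp'S hsq hsp hsq' hsp'
    rw [swap_comm q p, ← hrq']; exact hk₁
  by_cases hsq' : s = q'
  · apply three_L2 f hf ha2 hHK (Ne.symm hg) hq' hq'S hp' hp'S hrq hrp hrq' hrp'
    rw [swap_comm q p, ← hsq', swap_comm s r]; exact hk₁
  by_cases hfrs : f r = f s
  · have hh : swap q q' * swap r s ∈ K := dswap_mem f hHK hq'.symm (Ne.symm hq'S) hfrs hrs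
    refine ⟨swap q p * swap q q', ?_,
      isThreeCycle_swap_mul_swap_same (Ne.symm hpq0) (Ne.symm hq'S) hpq'⟩
    have e : swap q p * swap q q' = swap p q * swap r s * (swap q q' * swap r s) := by
      rw [S5911.swap_comm_of_disjoint (a := q) (b := q') (c := r) (d := s) hrq hrq' hsq hsq',
        swap_comm q p]
      rw [mul_assoc, ← mul_assoc (swap r s), swap_mul_self, one_mul]
    rw [e]; exact K.mul_mem hk₁ hh
  · have hfrp : f r ≠ f p := fun e => hrp' (fib_two f hf ha2 e hp' hrp hp'S)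
    have hfrq : f r ≠ f q := fun e => hrq' (fib_two f hf ha2 e hq' hrq hq'S)
    have hfsp : f s ≠ f p := fun e => hsp' (fib_two f hf ha2 e hp' hsp hp'S)
    have hfsq : f s ≠ f q := fun e => hsq' (fib_two f hf ha2 e hq' hsq hq'S)
    have n1 : f p ∉ ({f q, f r, f s} : Finset (Fin b)) := by
      simp only [Finset.mem_insert, Finset.mem_singleton, not_or]
      exact ⟨hg, Ne.symm hfrp, Ne.symm hfsp⟩
    have n2 : f q ∉ ({f r, f s} : Finset (Fin b)) := by
      simp only [Finset.mem_insert, Finset.mem_singleton, not_or]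
      exact ⟨Ne.symm hfrq, Ne.symm hfsq⟩
    have n3 : f r ∉ ({f s} : Finset (Fin b)) := by
      simp only [Finset.mem_singleton]; exact hfrs
    have h4 : ({f p, f q, f r, f s} : Finset (Fin b)).card = 4 := by
      rw [Finset.card_insert_of_notMem n1, Finset.card_insert_of_notMem n2,
        Finset.card_insert_of_notMem n3, Finset.card_singleton]
    have hb5 : 5 ≤ b := by
      have := Finset.card_le_univ ({f p, f q, f r, f s} : Finset (Fin b))
      rw [h4, Fintype.card_fin] at this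
      omega
    obtain ⟨j', hj'⟩ := lab_exists ({f p, f q, f r, f s} : Finset (Fin b)) (by rw [h4]; omega)
    simp only [Finset.mem_insert, Finset.mem_singleton, not_or] at hj'
    obtain ⟨t, ht, -⟩ := fib_exists f hf j' ∅ (by rw [Finset.card_empty]; omega)
    obtain ⟨t₁, ht₁, ht₁S⟩ := fib_exists f hf j' {t} (by rw [Finset.card_singleton]; omega)
    simp only [Finset.mem_singleton] at ht₁S
    have hh : swap q q' * swap t t₁ ∈ K :=
      dswap_mem f hHK hq'.symm (Ne.symm hq'S) (by rw [ht, ht₁]) (fun e => ht₁S e.symm)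
    have tp : p ≠ t := fun e => hj'.1 (by rw [e, ht])
    have t₁p : p ≠ t₁ := fun e => hj'.1 (by rw [e, ht₁])
    have tq : q ≠ t := fun e => hj'.2.1 (by rw [e, ht])
    have t₁q : q ≠ t₁ := fun e => hj'.2.1 (by rw [e, ht₁])
    have tr : r ≠ t := fun e => hj'.2.2.1 (by rw [e, ht])
    have t₁r : r ≠ t₁ := fun e => hj'.2.2.1 (by rw [e, ht₁])
    have ts : s ≠ t := fun e => hj'.2.2.2 (by rw [e, ht])
    have t₁s : s ≠ t₁ := fun e => hj'.2.2.2 (by rw [e, ht₁])
    have hhp : (swap q q' * swap t t₁) p = p := by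
      rw [Perm.mul_apply, swap_apply_of_ne_of_ne tp t₁p, swap_apply_of_ne_of_ne hpq0 hpq']
    have hhq : (swap q q' * swap t t₁) q = q' := by
      rw [Perm.mul_apply, swap_apply_of_ne_of_ne tq t₁q, swap_apply_left]
    have hhr : (swap q q' * swap t t₁) r = r := by
      rw [Perm.mul_apply, swap_apply_of_ne_of_ne tr t₁r, swap_apply_of_ne_of_ne hrq hrq']
    have hhs : (swap q q' * swap t t₁) s = s := by
      rw [Perm.mul_apply, swap_apply_of_ne_of_ne ts t₁s, swap_apply_of_ne_of_ne hsq hsq']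
    have hconj : swap p q' * swap r s
        = (swap q q' * swap t t₁) * (swap p q * swap r s) * (swap q q' * swap t t₁)⁻¹ := by
      have e1 := Equiv.swap_apply_apply (swap q q' * swap t t₁) p q
      have e2 := Equiv.swap_apply_apply (swap q q' * swap t t₁) r s
      rw [hhp, hhq] at e1
      rw [hhr, hhs] at e2
      rw [← conj_mul, ← e1, ← e2]
    have hc : swap p q * swap r s * (swap p q' * swap r s) = swap p q * swap p q' := by
      rw [S5911.swap_comm_of_disjoint (a := p) (b := q') (c := r) (d := s) hrp hrq' hsp hsq']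
      rw [mul_assoc, ← mul_assoc (swap r s), swap_mul_self, one_mul]
    refine ⟨swap p q * swap p q', ?_,
      isThreeCycle_swap_mul_swap_same hpq0 hpq' (Ne.symm hq'S)⟩
    rw [← hc, hconj]
    exact K.mul_mem hk₁ (K.mul_mem (K.mul_mem hh hk₁) (K.inv_mem hh))

theorem main_le (h8 : Fintype.card Ω ≠ 8)
    (hf : ∀ i : Fin b, Nat.card {x : Ω // f x = i} = a) (ha : 2 ≤ a) (hb : 2 ≤ b)
    (K : Subgroup (Perm Ω))
    (hHK : ∀ h : Perm Ω, (∀ x y, f x = f y ↔ f (h x) = f (h y)) → Perm.sign h = 1 → h ∈ K)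
    (hKA : K ≤ alternatingGroup Ω) {g : Perm Ω} (hgK : g ∈ K)
    (hg : ¬ ∀ x y, f x = f y ↔ f (g x) = f (g y)) : alternatingGroup Ω ≤ K := by
  have hcard : Fintype.card Ω = a * b := by
    rw [Fintype.card_congr (S5905.fibreEquiv f hf), Fintype.card_prod, Fintype.card_fin,
      Fintype.card_fin, mul_comm]
  obtain ⟨k, hkK, x, x₁, hxx, hkx⟩ := wit f hgK hg
  by_cases h22 : a = 2 ∧ b = 2
  · obtain ⟨ha2, hb2⟩ := h22
    have hc4 : Fintype.card Ω = 4 := by rw [hcard, ha2, hb2]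
    let H : Subgroup (Perm Ω) :=
      Subgroup.closure {h : Perm Ω | ∀ x y : Ω, f x = f y ↔ f (h x) = f (h y)} ⊓
        alternatingGroup Ω
    have hHmem : ∀ h : Perm Ω, (∀ x y, f x = f y ↔ f (h x) = f (h y)) → Perm.sign h = 1 →
        h ∈ H := by
      intro h hp hs
      exact Subgroup.mem_inf.mpr ⟨Subgroup.subset_closure hp, Perm.mem_alternatingGroup.mpr hs⟩
    have hHK' : H ≤ K := by
      intro h hh
      obtain ⟨h1, h2⟩ := Subgroup.mem_inf.mp hh
      exact hHK h (S5905.closure_preserves f h h1) (Perm.mem_alternatingGroup.mp h2)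
    have hne : H ≠ K := by
      intro e
      apply hg
      have hgH : g ∈ H := by rw [e]; exact hgK
      exact S5905.closure_preserves f g (Subgroup.mem_inf.mp hgH).1
    have hH4 : 4 ≤ Nat.card H := by
      have hsurj : Function.Surjective (fun h : H => (h : Perm Ω) x) := by
        intro y
        obtain ⟨k, hk, hkx⟩ := trans_K f hf ha hb hHmem x y
        exact ⟨⟨k, hk⟩, hkx⟩
      have h1 := Nat.card_le_card_of_surjective _ hsurj
      rwa [Nat.card_eq_fintype_card, hc4] at h1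
    have hd1 : Nat.card H ∣ Nat.card K := Subgroup.card_dvd_of_le hHK'
    have hd2 : Nat.card K ∣ Nat.card (alternatingGroup Ω) := Subgroup.card_dvd_of_le hKA
    have hlt : Nat.card H < Nat.card K := by
      by_contra hcon
      exact hne (Subgroup.eq_of_le_of_card_ge hHK' (not_lt.mp hcon))
    have hA : Nat.card (alternatingGroup Ω) = 12 := by
      have hnt : Nontrivial Ω := Fintype.one_lt_card_iff_nontrivial.mp (by omega)
      rw [nat_card_alternatingGroup, Nat.card_eq_fintype_card, hc4]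
      rfl
    rw [hA] at hd2
    obtain ⟨m, hm⟩ := hd1
    obtain ⟨l, hl⟩ := hd2
    have hm2 : 2 ≤ m := by
      by_contra hm'
      have hm01 : m = 0 ∨ m = 1 := by omega
      rcases hm01 with rfl | rfl <;> omega
    have hK8 : 8 ≤ Nat.card K := by
      rw [hm]
      calc 8 = 4 * 2 := rfl
        _ ≤ Nat.card H * m := Nat.mul_le_mul hH4 hm2
    have hl1 : l = 1 := by
      have hl0 : l ≠ 0 := by rintro rfl; omega
      by_contra hl'
      have h2l : 2 ≤ l := by omega
      have h3 := Nat.mul_le_mul_left (Nat.card K) h2l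
      omega
    have hK12 : Nat.card K = 12 := by rw [hl1] at hl; omega
    exact (Subgroup.eq_of_le_of_card_ge hKA (by rw [hA, hK12])).ge
  have hab : 3 ≤ a ∨ 3 ≤ b := by omega
  have hprim := prim f hf ha hb hab hHK hgK hg
  have h3 : ∃ c ∈ K, Perm.IsThreeCycle c := by
    by_cases ha3 : 3 ≤ a
    · exact three_a f hf ha3 hHK x
    · have ha2 : a = 2 := by omega
      have hb3 : 3 ≤ b := by omega
      have hb4 : b ≠ 4 := by
        intro hb4; apply h8; rw [hcard, ha2, hb4]
      exact three_two f hf ha2 hb3 hb4 hHK hkK hxx hkx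
  obtain ⟨c, hcK, hc3⟩ := h3
  exact alternatingGroup_le_of_isPreprimitive_of_isThreeCycle_mem hprim hc3 hcK

end helpers


/-- Let Ω be a finite set whose size is not 8, and f : Ω → Fin b a labelling with b ≥ 2 whose fibres all have the same size a ≥ 2 (a partition into b blocks of size a). Then the even permutations preserving the partition — the intersection of the imprimitive wreath product S_a ≀ S_b with the alternating group — form a maximal subgroup of the alternating group on Ω. -/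
theorem result {Ω : Type*} [Fintype Ω] [DecidableEq Ω] (h8 : Fintype.card Ω ≠ 8) (a b : ℕ) (ha : 2 ≤ a) (hb : 2 ≤ b)
    (f : Ω → Fin b) (hf : ∀ i : Fin b, Nat.card {x : Ω // f x = i} = a) :
    IsCoatom ((Subgroup.closure {g : Equiv.Perm Ω | ∀ x y : Ω, f x = f y ↔ f (g x) = f (g y)} ⊓ alternatingGroup Ω).subgroupOf (alternatingGroup Ω)) := by
  constructor
  · intro htop
    obtain ⟨x, hx, -⟩ := fib_exists f hf ⟨0, by omega⟩ ∅ (by rw [Finset.card_empty]; omega)
    obtain ⟨x', hx', hx'S⟩ := fib_exists f hf ⟨0, by omega⟩ {x}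
      (by rw [Finset.card_singleton]; omega)
    obtain ⟨j, hj⟩ := lab_exists ({(⟨0, by omega⟩ : Fin b)} : Finset (Fin b))
      (by rw [Finset.card_singleton]; omega)
    obtain ⟨y, hy, -⟩ := fib_exists f hf j ∅ (by rw [Finset.card_empty]; omega)
    simp only [Finset.mem_singleton] at hx'S hj
    have hxy : x ≠ y := fun e => hj (by rw [← hy, ← e, hx])
    have hx'y : x' ≠ y := fun e => hj (by rw [← hy, ← e, hx'])
    have hc : Equiv.swap x x' * Equiv.swap x y ∈ alternatingGroup Ω :=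
      (Equiv.Perm.isThreeCycle_swap_mul_swap_same (Ne.symm hx'S) hxy hx'y).mem_alternatingGroup
    have hmem : (⟨Equiv.swap x x' * Equiv.swap x y, hc⟩ : alternatingGroup Ω) ∈
        (⊤ : Subgroup (alternatingGroup Ω)) := Subgroup.mem_top _
    rw [← htop, Subgroup.mem_subgroupOf] at hmem
    have hpres := S5905.closure_preserves f _ (Subgroup.mem_inf.mp hmem).1
    have e1 : (Equiv.swap x x' * Equiv.swap x y) x = y := by
      rw [Equiv.Perm.mul_apply, Equiv.swap_apply_left,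
        Equiv.swap_apply_of_ne_of_ne (Ne.symm hxy) (Ne.symm hx'y)]
    have e2 : (Equiv.swap x x' * Equiv.swap x y) x' = x := by
      rw [Equiv.Perm.mul_apply, Equiv.swap_apply_of_ne_of_ne hx'S hx'y, Equiv.swap_apply_right]
    have h1 := (hpres x x').mp (by rw [hx, hx'])
    rw [e1, e2, hy, hx] at h1
    exact hj h1
  · intro Y hY
    have hKA : Y.map (alternatingGroup Ω).subtype ≤ alternatingGroup Ω := by
      rintro _ ⟨y, -, rfl⟩; exact y.2
    have hHK : ∀ h : Equiv.Perm Ω, (∀ x y, f x = f y ↔ f (h x) = f (h y)) →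
        Equiv.Perm.sign h = 1 → h ∈ Y.map (alternatingGroup Ω).subtype := by
      intro h hp hs
      have hA : h ∈ alternatingGroup Ω := Equiv.Perm.mem_alternatingGroup.mpr hs
      have h1 : (⟨h, hA⟩ : alternatingGroup Ω) ∈ (Subgroup.closure {g : Equiv.Perm Ω |
          ∀ x y : Ω, f x = f y ↔ f (g x) = f (g y)} ⊓ alternatingGroup Ω).subgroupOf
          (alternatingGroup Ω) := by
        rw [Subgroup.mem_subgroupOf]
        exact Subgroup.mem_inf.mpr ⟨Subgroup.subset_closure hp, hA⟩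
      exact Subgroup.mem_map.mpr ⟨⟨h, hA⟩, hY.le h1, rfl⟩
    obtain ⟨y, hyY, hyX⟩ := SetLike.exists_of_lt hY
    have hgK : (y : Equiv.Perm Ω) ∈ Y.map (alternatingGroup Ω).subtype :=
      Subgroup.mem_map.mpr ⟨y, hyY, rfl⟩
    have hg : ¬ ∀ x z, f x = f z ↔ f ((y : Equiv.Perm Ω) x) = f ((y : Equiv.Perm Ω) z) := by
      intro hp
      apply hyX
      rw [Subgroup.mem_subgroupOf]
      exact Subgroup.mem_inf.mpr ⟨Subgroup.subset_closure hp, y.2⟩
    have hle := main_le f h8 hf ha hb _ hHK hKA hgK hg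
    rw [eq_top_iff]
    intro z _
    obtain ⟨w, hwY, hw⟩ := Subgroup.mem_map.mp (hle z.2)
    have hwz : w = z := Subtype.ext hw
    rw [← hwz]; exact hwY

end Cfsg.Agent.S5909
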