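import Mathlib
import Cfsg.Statements.S5910
import Cfsg.Agent.S5905
-- import your own Cfsg.Agent.* helpers here

set_option autoImplicit false
open Cfsg

namespace Cfsg.Agent.S5910


open Equiv Equiv.Perm

/-- The 8-point affine space over the field with two elements. -/
abbrev V8 : Type := (Fin 2 × Fin 2) × Fin 2

/-- Affine permutations of `V8`. -/
def affV : Subgroup (Perm V8) where
  carrier := {ρ | ∀ x y z : V8, ρ (x + y + z) = ρ x + ρ y + ρ z}
  mul_mem' := by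
    intro ρ σ hρ hσ x y z
    have hρ' : ∀ x y z : V8, ρ (x + y + z) = ρ x + ρ y + ρ z := hρ
    have hσ' : ∀ x y z : V8, σ (x + y + z) = σ x + σ y + σ z := hσ
    show ρ (σ (x + y + z)) = ρ (σ x) + ρ (σ y) + ρ (σ z)
    rw [hσ', hρ']
  one_mem' := by intro x y z; rfl
  inv_mem' := by
    intro ρ hρ x y z
    have hρ' : ∀ x y z : V8, ρ (x + y + z) = ρ x + ρ y + ρ z := hρ
    apply ρ.injective
    rw [hρ']
    simp

theorem mem_affV (ρ : Perm V8) :
    ρ ∈ affV ↔ ∀ x y z : V8, ρ (x + y + z) = ρ x + ρ y + ρ z := Iff.rfl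

theorem perm2 : ∀ σ : Perm (Fin 2), σ = 1 ∨ σ = swap 0 1 := by decide

theorem even4 : ∀ d : Fin 2 × Fin 2 → Fin 2, (∏ i, (if d i = 0 then (1 : ℤˣ) else -1)) = 1 →
    ∀ x y z, d (x + y + z) = d x + d y + d z := by decide

set_option maxRecDepth 100000 in
theorem aff4 : ∀ σ : Perm (Fin 2 × Fin 2), ∀ x y z, σ (x + y + z) = σ x + σ y + σ z := by
  decide

theorem key_aff (ρ : Perm V8) (hρ : ∀ u v : V8, u.1 = v.1 ↔ (ρ u).1 = (ρ v).1)
    (hs : Perm.sign ρ = 1) : ρ ∈ affV := by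
  have h1 : ∀ (i : Fin 2 × Fin 2) (t : Fin 2), (ρ (i, t)).1 = (ρ (i, 0)).1 :=
    fun i t => (hρ (i, t) (i, 0)).mp rfl
  have hinj : Function.Injective (fun i : Fin 2 × Fin 2 => (ρ (i, 0)).1) := by
    intro i j hij
    exact (hρ (i, 0) (j, 0)).mpr hij
  have hcinj : ∀ i : Fin 2 × Fin 2, Function.Injective (fun t : Fin 2 => (ρ (i, t)).2) := by
    intro i t s hts
    have h2 : ρ (i, t) = ρ (i, s) := Prod.ext ((h1 i t).trans (h1 i s).symm) hts
    have h3 := ρ.injective h2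
    exact (Prod.mk.inj h3).2
  obtain ⟨pb, hpb⟩ : ∃ pb : Perm (Fin 2 × Fin 2), ∀ i, pb i = (ρ (i, 0)).1 :=
    ⟨Equiv.ofBijective _ (Finite.injective_iff_bijective.mp hinj), fun i => rfl⟩
  obtain ⟨c, hc⟩ : ∃ c : Fin 2 × Fin 2 → Perm (Fin 2), ∀ i t, c i t = (ρ (i, t)).2 :=
    ⟨fun i => Equiv.ofBijective _ (Finite.injective_iff_bijective.mp (hcinj i)),
      fun i t => rfl⟩
  have hval : ∀ v : V8, ρ v = (pb v.1, c v.1 v.2) := by
    rintro ⟨i, t⟩
    exact Prod.ext ((h1 i t).trans (hpb i).symm) (hc i t).symm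
  have hdecomp : ρ = Equiv.prodCongrLeft (fun _ : Fin 2 => pb) * Equiv.prodCongrRight c := by
    ext1 v
    rw [hval v]
    rfl
  have hsgn : ∏ i, Perm.sign (c i) = 1 := by
    rw [hdecomp, Perm.sign_mul, Perm.sign_prodCongrLeft, Perm.sign_prodCongrRight] at hs
    simp only [Fin.prod_univ_two, Int.units_mul_self, one_mul] at hs
    exact hs
  have hd : ∀ i t, c i t = t + c i 0 := by
    intro i t
    rcases perm2 (c i) with h | h
    · rw [h]; simp
    · rw [h]; revert t; decide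
  have hsg : ∀ i, Perm.sign (c i) = if c i 0 = 0 then 1 else -1 := by
    intro i
    rcases perm2 (c i) with h | h
    · rw [h]; simp
    · rw [h, Perm.sign_swap (by decide)]; simp
  have hsum := even4 (fun i => c i 0)
    ((Finset.prod_congr rfl (fun i _ => (hsg i).symm)).trans hsgn)
  rw [mem_affV]
  intro x y z
  rw [hval (x + y + z), hval x, hval y, hval z]
  apply Prod.ext
  · show pb (x.1 + y.1 + z.1) = pb x.1 + pb y.1 + pb z.1
    exact aff4 pb _ _ _
  · show c (x.1 + y.1 + z.1) (x.2 + y.2 + z.2) = c x.1 x.2 + c y.1 y.2 + c z.1 z.2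
    rw [hd (x.1 + y.1 + z.1) (x.2 + y.2 + z.2), hd x.1 x.2, hd y.1 y.2, hd z.1 z.2]
    have h5 : c (x.1 + y.1 + z.1) 0 = c x.1 0 + c y.1 0 + c z.1 0 := hsum x.1 y.1 z.1
    rw [h5]; abel

theorem pres_iff {Ω : Type*} (f : Ω → Fin 4) (Φ : Ω ≃ V8)
    (e4 : Fin 4 ≃ Fin 2 × Fin 2) (hΦ : ∀ x, (Φ x).1 = e4 (f x)) (π : Perm Ω) :
    (∀ x y : Ω, f x = f y ↔ f (π x) = f (π y)) ↔
      (∀ u v : V8, u.1 = v.1 ↔ (Φ.permCongr π u).1 = (Φ.permCongr π v).1) := by
  have hperm : ∀ u, Φ.permCongr π u = Φ (π (Φ.symm u)) := fun u => rfl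
  constructor
  · intro h u v
    have hu : u.1 = e4 (f (Φ.symm u)) := by rw [← hΦ, Φ.apply_symm_apply]
    have hv : v.1 = e4 (f (Φ.symm v)) := by rw [← hΦ, Φ.apply_symm_apply]
    rw [hperm, hperm, hΦ, hΦ, hu, hv, e4.apply_eq_iff_eq, e4.apply_eq_iff_eq]
    exact h _ _
  · intro h x y
    have h1 := h (Φ x) (Φ y)
    rw [hperm, hperm, Φ.symm_apply_apply, Φ.symm_apply_apply, hΦ, hΦ, hΦ, hΦ,
      e4.apply_eq_iff_eq, e4.apply_eq_iff_eq] at h1
    exact h1

/-- An even affine permutation not preserving the partition into cosets of the last coordinate. -/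
def rho2 : Perm V8 := swap ((0, 0), 1) ((0, 1), 0) * swap ((1, 0), 1) ((1, 1), 0)

/-- A three-cycle, which is not affine. -/
def rho3 : Perm V8 := swap ((0, 0), 0) ((1, 0), 0) * swap ((0, 0), 0) ((0, 1), 0)

theorem rho2_sign : Perm.sign rho2 = 1 := by
  unfold rho2
  rw [Perm.sign_mul, Perm.sign_swap (by decide), Perm.sign_swap (by decide)]; simp

theorem rho3_sign : Perm.sign rho3 = 1 := by
  unfold rho3
  rw [Perm.sign_mul, Perm.sign_swap (by decide), Perm.sign_swap (by decide)]; simp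

set_option maxRecDepth 100000 in
theorem rho2_aff : rho2 ∈ affV := by
  rw [mem_affV]; decide

theorem rho2_not_pres : ¬ ∀ u v : V8, u.1 = v.1 ↔ (rho2 u).1 = (rho2 v).1 := by
  intro h
  have h1 := (h ((0, 0), 0) ((0, 0), 1)).mp rfl
  revert h1
  decide

theorem rho3_not_aff : rho3 ∉ affV := by
  rw [mem_affV]
  intro h
  have h1 := h ((0, 0), 0) ((1, 0), 0) ((0, 0), 1)
  revert h1
  decide


/-- Let Ω be a set with 8 elements and f : Ω → Fin 4 a labelling whose four fibres all have size 2 (a partition of the 8 points into 4 pairs). Then the group of even permutations preserving this partition, (S₂ ≀ S₄) ∩ A₈, is not a maximal subgroup of the alternating group A₈ (it lies in a subgroup isomorphic to the affine group AGL₃(2)). -/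
theorem result {Ω : Type*} [Fintype Ω] [DecidableEq Ω] (h8 : Fintype.card Ω = 8)
    (f : Ω → Fin 4) (hf : ∀ i : Fin 4, Nat.card {x : Ω // f x = i} = 2) :
    ¬ IsCoatom ((Subgroup.closure {g : Equiv.Perm Ω | ∀ x y : Ω, f x = f y ↔ f (g x) = f (g y)} ⊓ alternatingGroup Ω).subgroupOf (alternatingGroup Ω)) := by
  intro hco
  let e4 : Fin 4 ≃ Fin 2 × Fin 2 := (finProdFinEquiv (m := 2) (n := 2)).symm
  let Φ : Ω ≃ V8 := (S5905.fibreEquiv f hf).trans (Equiv.prodCongr e4 (Equiv.refl (Fin 2)))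
  have hΦ : ∀ x, (Φ x).1 = e4 (f x) := fun x => rfl
  let AffΩ : Subgroup (Equiv.Perm Ω) :=
    affV.comap (Φ.permCongrHom : Equiv.Perm Ω ≃* Equiv.Perm V8).toMonoidHom
  have hmemA : ∀ π : Equiv.Perm Ω, π ∈ AffΩ ↔ Φ.permCongr π ∈ affV := fun π => Iff.rfl
  let Y : Subgroup (alternatingGroup Ω) :=
    (AffΩ ⊓ alternatingGroup Ω).subgroupOf (alternatingGroup Ω)
  have hXY : (Subgroup.closure {g : Equiv.Perm Ω | ∀ x y : Ω, f x = f y ↔ f (g x) = f (g y)} ⊓
      alternatingGroup Ω).subgroupOf (alternatingGroup Ω) ≤ Y := by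
    intro z hz
    rw [Subgroup.mem_subgroupOf] at hz ⊢
    obtain ⟨h1, h2⟩ := Subgroup.mem_inf.mp hz
    refine Subgroup.mem_inf.mpr ⟨?_, h2⟩
    rw [hmemA]
    apply key_aff
    · exact (pres_iff f Φ e4 hΦ _).mp (S5905.closure_preserves f _ h1)
    · rw [Equiv.Perm.sign_permCongr]; exact Equiv.Perm.mem_alternatingGroup.mp h2
  have hback : ∀ ρ : Equiv.Perm V8, Φ.permCongr (Φ.symm.permCongr ρ) = ρ := by
    intro ρ
    ext1 v
    simp [Equiv.permCongr_apply]
  have h2A : Φ.symm.permCongr rho2 ∈ alternatingGroup Ω := by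
    rw [Equiv.Perm.mem_alternatingGroup, Equiv.Perm.sign_permCongr]; exact rho2_sign
  have h3A : Φ.symm.permCongr rho3 ∈ alternatingGroup Ω := by
    rw [Equiv.Perm.mem_alternatingGroup, Equiv.Perm.sign_permCongr]; exact rho3_sign
  have hlt : (Subgroup.closure {g : Equiv.Perm Ω | ∀ x y : Ω, f x = f y ↔ f (g x) = f (g y)} ⊓
      alternatingGroup Ω).subgroupOf (alternatingGroup Ω) < Y := by
    refine lt_of_le_of_ne hXY ?_
    intro e
    have hY2 : (⟨Φ.symm.permCongr rho2, h2A⟩ : alternatingGroup Ω) ∈ Y := by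
      rw [Subgroup.mem_subgroupOf]
      refine Subgroup.mem_inf.mpr ⟨?_, h2A⟩
      rw [hmemA, hback]; exact rho2_aff
    rw [← e, Subgroup.mem_subgroupOf] at hY2
    have hp := S5905.closure_preserves f _ (Subgroup.mem_inf.mp hY2).1
    have hp' := (pres_iff f Φ e4 hΦ _).mp hp
    rw [hback] at hp'
    exact rho2_not_pres hp'
  have hYtop : Y ≠ ⊤ := by
    intro e
    have hm : (⟨Φ.symm.permCongr rho3, h3A⟩ : alternatingGroup Ω) ∈ Y := by
      rw [e]; exact Subgroup.mem_top _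
    rw [Subgroup.mem_subgroupOf] at hm
    have hm1 := (Subgroup.mem_inf.mp hm).1
    rw [hmemA, hback] at hm1
    exact rho3_not_aff hm1
  exact hYtop (hco.2 Y hlt)

end Cfsg.Agent.S5910
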