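import Mathlib
import Cfsg.Statements.S5912
import Cfsg.Agent.S5911
import Cfsg.Agent.Helper16.SymIndex
-- import your own Cfsg.Agent.* helpers here

set_option autoImplicit false
open Cfsg

namespace Cfsg.Agent.S5912

open Equiv Equiv.Perm Cfsg.Agent.S5911 Cfsg.Agent.Helper16.SymIndex


/-- The symmetric group on a 6-element set Ω has exactly two conjugacy classes of subgroups of index 6: there are two non-conjugate subgroups of index 6 (a point stabilizer and a transitive subgroup isomorphic to S₅), and every subgroup of index 6 is conjugate to one of them. -/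
theorem result {Ω : Type*} [Fintype Ω] [DecidableEq Ω] (h6 : Fintype.card Ω = 6) :
    ∃ H₁ H₂ : Subgroup (Equiv.Perm Ω), H₁.index = 6 ∧ H₂.index = 6 ∧
      (¬ ∃ g : Equiv.Perm Ω, Subgroup.map (MulAut.conj g).toMonoidHom H₁ = H₂) ∧
      ∀ H : Subgroup (Equiv.Perm Ω), H.index = 6 →
        ∃ g : Equiv.Perm Ω, Subgroup.map (MulAut.conj g).toMonoidHom H₁ = H ∨ Subgroup.map (MulAut.conj g).toMonoidHom H₂ = H := by
  obtain ⟨x₁⟩ : Nonempty Ω := Fintype.card_pos_iff.mp (by omega)
  obtain ⟨H₂, hH₂, hnf₂⟩ := exists_exotic h6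
  have hst : ∀ x : Ω, (MulAction.stabilizer (Perm Ω) x).index = 6 := fun x => by
    rw [MulAction.index_stabilizer_of_transitive, Nat.card_eq_fintype_card, h6]
  refine ⟨MulAction.stabilizer (Perm Ω) x₁, H₂, hst x₁, hH₂, ?_, ?_⟩
  · rintro ⟨g, hg⟩
    rw [← MulAction.stabilizer_smul_eq_stabilizer_map_conj] at hg
    obtain ⟨h, hh, hne⟩ := hnf₂ (g • x₁)
    rw [← hg, MulAction.mem_stabilizer_iff] at hh
    exact hne hh
  · intro H hH
    by_cases hfix : ∃ a : Ω, ∀ h ∈ H, h a = a
    · obtain ⟨a, ha⟩ := hfix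
      refine ⟨swap x₁ a, Or.inl ?_⟩
      rw [← MulAction.stabilizer_smul_eq_stabilizer_map_conj]
      have h1 : swap x₁ a • x₁ = a := swap_apply_left x₁ a
      rw [h1]
      exact (fix_imp_eq H (by rw [hH, h6]) a ha).symm
    · push_neg at hfix
      obtain ⟨g, hg⟩ := conj_of_nofix h6 H₂ H hH₂ hH hnf₂ hfix
      exact ⟨g, Or.inr hg⟩

end Cfsg.Agent.S5912
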