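import Cfsg.Statements.S5913

set_option autoImplicit false
open Cfsg

namespace Cfsg.Agent.S5913

/-- In a non-commutative simple group, a non-trivial element fails to commute with something. -/
theorem exists_not_commute {S : Type*} [Group S] [IsSimpleGroup S] (hS : ¬ IsMulCommutative S)
    (a : S) (ha : a ≠ 1) : ∃ s : S, a * s ≠ s * a := by
  by_contra hcon
  push Not at hcon
  have hacen : a ∈ Subgroup.center S := by
    rw [Subgroup.mem_center_iff]
    intro g
    exact (hcon g).symm
  rcases (inferInstance : (Subgroup.center S).Normal).eq_bot_or_eq_top with hc | hc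
  · rw [hc, Subgroup.mem_bot] at hacen
    exact ha hacen
  · apply hS
    refine ⟨⟨fun x y => ?_⟩⟩
    have hx : x ∈ Subgroup.center S := hc ▸ Subgroup.mem_top x
    exact ((Subgroup.mem_center_iff.mp hx) y).symm

/-- If some element of the normal subgroup `N` is non-trivial at `i`, then `N` contains the whole `i`-th factor. -/
theorem mulSingle_mem {S : Type*} [Group S] [IsSimpleGroup S] (hS : ¬ IsMulCommutative S) (n : ℕ)
    (N : Subgroup (Fin n → S)) [N.Normal] (i : Fin n) (x : Fin n → S) (hx : x ∈ N) (hxi : x i ≠ 1)
    (s : S) : Pi.mulSingle i s ∈ N := by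
  set K : Subgroup S := N.comap (MonoidHom.mulSingle (fun _ : Fin n => S) i) with hK
  have hKn : K.Normal := Subgroup.Normal.comap inferInstance _
  obtain ⟨t, ht⟩ := exists_not_commute hS (x i) hxi
  have hc : x * Pi.mulSingle i t * x⁻¹ * (Pi.mulSingle i t)⁻¹ ∈ N := by
    have h1 : Pi.mulSingle i t * x⁻¹ * (Pi.mulSingle i t)⁻¹ ∈ N :=
      Subgroup.Normal.conj_mem inferInstance _ (N.inv_mem hx) _
    have h2 := N.mul_mem hx h1
    simpa [mul_assoc] using h2
  have hc' : x * Pi.mulSingle i t * x⁻¹ * (Pi.mulSingle i t)⁻¹
      = Pi.mulSingle i (x i * t * (x i)⁻¹ * t⁻¹) := by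
    funext j
    by_cases hj : j = i
    · subst hj
      simp
    · simp [Pi.mulSingle_eq_of_ne hj]
  rw [hc'] at hc
  have hmem : x i * t * (x i)⁻¹ * t⁻¹ ∈ K := hc
  have hne : x i * t * (x i)⁻¹ * t⁻¹ ≠ 1 := by
    intro h
    apply ht
    have h1 : x i * t * (x i)⁻¹ = t := by
      rw [mul_inv_eq_one] at h
      exact h
    rw [mul_inv_eq_iff_eq_mul] at h1
    exact h1
  rcases hKn.eq_bot_or_eq_top with hb | htop
  · rw [hb, Subgroup.mem_bot] at hmem
    exact absurd hmem hne
  · have : s ∈ K := htop ▸ Subgroup.mem_top s
    exact this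

/-- Let S be a non-abelian simple group and n a natural number. Every normal subgroup N of the direct power S^n (functions Fin n → S) is a subproduct: there is a set T of coordinates such that N consists exactly of the elements whose coordinates outside T are trivial. In particular the minimal normal subgroups of S^n are its n factors. -/
theorem result {S : Type*} [Group S] [IsSimpleGroup S] (hS : ¬ IsMulCommutative S) (n : ℕ)
    (N : Subgroup (Fin n → S)) [N.Normal] :
    ∃ T : Finset (Fin n), ∀ x : Fin n → S, x ∈ N ↔ ∀ i, i ∉ T → x i = 1 := by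
  classical
  refine ⟨Finset.univ.filter (fun i => ∃ x ∈ N, x i ≠ 1), fun x => ⟨?_, ?_⟩⟩
  · intro hx i hi
    by_contra hne
    exact hi (Finset.mem_filter.mpr ⟨Finset.mem_univ i, x, hx, hne⟩)
  · -- induction on the support
    have key : ∀ s : Finset (Fin n), (∀ i ∈ s, ∃ x ∈ N, x i ≠ 1) →
        ∀ x : Fin n → S, (∀ i, i ∉ s → x i = 1) → x ∈ N := by
      intro s
      induction s using Finset.induction_on with
      | empty =>
        intro _ x hx
        have : x = 1 := funext fun i => hx i (Finset.notMem_empty i)
        rw [this]
        exact N.one_mem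
      | insert a s has ih =>
        intro hT x hx
        obtain ⟨y, hy, hya⟩ := hT a (Finset.mem_insert_self a s)
        have h1 : Pi.mulSingle a (x a) ∈ N := mulSingle_mem hS n N a y hy hya (x a)
        have h2 : Function.update x a 1 ∈ N := by
          apply ih (fun i hi => hT i (Finset.mem_insert_of_mem hi))
          intro i hi
          by_cases hia : i = a
          · subst hia; simp
          · rw [Function.update_of_ne hia]
            exact hx i (by simp [hia, hi])
        have h3 : x = Pi.mulSingle a (x a) * Function.update x a 1 := by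
          funext j
          by_cases hj : j = a
          · subst hj; simp
          · simp [Pi.mulSingle_eq_of_ne hj, Function.update_of_ne hj]
        rw [h3]
        exact N.mul_mem h1 h2
    intro hx
    apply key (Finset.univ.filter (fun i => ∃ x ∈ N, x i ≠ 1)) _ x hx
    intro i hi
    exact (Finset.mem_filter.mp hi).2

end Cfsg.Agent.S5913
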