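import Cfsg.Statements.S5914
import Cfsg.Agent.Helper29.DirectPower

set_option autoImplicit false
open Cfsg

namespace Cfsg.Agent.S5914

/-- A non-trivial finite group G is characteristically simple (its only characteristic subgroups are 1 and G) if and only if G is isomorphic to a direct power S^n (n ≥ 1) of some simple group S (possibly cyclic of prime order). -/
theorem result {G : Type*} [Group G] [Finite G] [Nontrivial G] :
    (∀ H : Subgroup G, H.Characteristic → H = ⊥ ∨ H = ⊤) ↔
    ∃ (S : Type) (_ : Group S) (_ : IsSimpleGroup S) (n : ℕ), 1 ≤ n ∧ Nonempty (G ≃* (Fin n → S)) := by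
  constructor
  · intro hchar
    obtain ⟨T, hT, m, hsimple, hm, he⟩ :=
      Cfsg.Agent.Helper29.direct_power (⊤ : Subgroup (MulAut G)) (by
        intro M _ hMinv
        apply hchar
        rw [Subgroup.characteristic_iff_map_le]
        intro φ
        rintro _ ⟨n, hn, rfl⟩
        exact hMinv φ (Subgroup.mem_top φ) n hn)
    exact ⟨T, hT, hsimple, m, hm, he⟩
  · rintro ⟨S, hS, hsimple, n, hn, ⟨e⟩⟩ H hH
    have hK := Cfsg.Agent.Helper29.pi_invariant_subgroup n (H.map e.toMonoidHom) (by
      intro φ x hx
      obtain ⟨h, hh, rfl⟩ := hx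
      -- the automorphism e⁻¹ φ e of G
      have h1 : H.map ((e.trans (φ.trans e.symm) : G ≃* G)).toMonoidHom ≤ H :=
        Subgroup.characteristic_iff_map_le.mp hH _
      have h2 : e.symm (φ (e h)) ∈ H := h1 ⟨h, hh, rfl⟩
      refine ⟨e.symm (φ (e h)), h2, ?_⟩
      exact e.apply_symm_apply _)
    rcases hK with h | h
    · left
      exact (Subgroup.map_eq_bot_iff_of_injective H e.injective).mp h
    · right
      rw [eq_top_iff]
      intro g _
      have hg : e g ∈ H.map e.toMonoidHom := by rw [h]; trivial
      obtain ⟨g', hg', hgg⟩ := hg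
      have h3 : g' = g := e.injective hgg
      rw [← h3]; exact hg'

end Cfsg.Agent.S5914
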