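import Mathlib
import Cfsg.Statements.S5945
import Cfsg.Agent.S5911
import Cfsg.Agent.Helper16.SymIndex
-- import your own Cfsg.Agent.* helpers here

set_option autoImplicit false
open Cfsg

namespace Cfsg.Agent.S5945

open Equiv Equiv.Perm Cfsg.Agent.S5911 Cfsg.Agent.Helper16.SymIndex

theorem iso_S5 (H : Subgroup (Perm (Fin 6))) (hH : H.index = 6) :
    Nonempty (H ≃* Perm (Fin 5)) := by
  classical
  have h6 : Fintype.card (Fin 6) = 6 := Fintype.card_fin 6
  have : Fintype (Perm (Fin 6) ⧸ H) := Fintype.ofFinite _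
  have hcX : Fintype.card (Perm (Fin 6) ⧸ H) = 6 := by
    rw [← Nat.card_eq_fintype_card, ← Subgroup.index_eq_card, hH]
  obtain ⟨φ, hφ⟩ : ∃ φ : Perm (Fin 6) ≃* Perm (Perm (Fin 6) ⧸ H), ∀ g x, φ g x = g • x :=
    ⟨MulEquiv.ofBijective _ (coset_bij H (by rw [hH, h6]) (by omega)), fun g x => rfl⟩
  obtain ⟨x₀, hx₀⟩ : ∃ x₀ : Perm (Fin 6) ⧸ H, x₀ = QuotientGroup.mk 1 := ⟨_, rfl⟩
  have hmem : ∀ σ : Perm {x : Perm (Fin 6) ⧸ H // x ≠ x₀},
      (φ.symm.toMonoidHom.comp Equiv.Perm.ofSubtype) σ ∈ H := by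
    intro σ
    have h1 : φ ((φ.symm.toMonoidHom.comp Equiv.Perm.ofSubtype) σ) x₀ = x₀ := by
      show φ (φ.symm (ofSubtype σ)) x₀ = x₀
      rw [MulEquiv.apply_symm_apply]
      exact ofSubtype_apply_of_not_mem σ (by simp)
    subst hx₀
    rw [hφ, MulAction.Quotient.smul_mk, QuotientGroup.eq] at h1
    simpa using h1
  have hinj : Function.Injective
      ((φ.symm.toMonoidHom.comp Equiv.Perm.ofSubtype).codRestrict H hmem) := by
    intro σ τ hστ
    have h1 : (φ.symm.toMonoidHom.comp Equiv.Perm.ofSubtype) σ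
        = (φ.symm.toMonoidHom.comp Equiv.Perm.ofSubtype) τ := congrArg Subtype.val hστ
    have h2 : φ.symm (ofSubtype σ) = φ.symm (ofSubtype τ) := h1
    exact ofSubtype_injective (φ.symm.injective h2)
  have hc5 : Fintype.card {x : Perm (Fin 6) ⧸ H // x ≠ x₀} = 5 := by
    rw [Fintype.card_of_subtype (Finset.univ.erase x₀) (by simp),
      Finset.card_erase_of_mem (Finset.mem_univ _), Finset.card_univ, hcX]
  have hcH : Nat.card H = 120 := by
    have h0 := Subgroup.card_mul_index H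
    rw [hH, Nat.card_eq_fintype_card (α := Perm (Fin 6)), Fintype.card_perm, h6] at h0
    have h720 : Nat.factorial 6 = 720 := rfl
    omega
  have hbij : Function.Bijective
      ((φ.symm.toMonoidHom.comp Equiv.Perm.ofSubtype).codRestrict H hmem) := by
    apply hinj.bijective_of_nat_card_le
    rw [hcH, Nat.card_eq_fintype_card, Fintype.card_perm, hc5]
    exact le_of_eq rfl
  exact ⟨(MulEquiv.ofBijective _ hbij).symm.trans (Fintype.equivFinOfCardEq hc5).permCongrHom⟩

theorem count_twelve (H₂ : Subgroup (Perm (Fin 6))) (hH₂ : H₂.index = 6)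
    (hnf₂ : ∀ a : Fin 6, ∃ h ∈ H₂, h a ≠ a) :
    Nat.card {H : Subgroup (Perm (Fin 6)) // H.index = 6} = 12 := by
  classical
  have h6 : Fintype.card (Fin 6) = 6 := Fintype.card_fin 6
  have : Fintype (Perm (Fin 6) ⧸ H₂) := Fintype.ofFinite _
  have hcX : Fintype.card (Perm (Fin 6) ⧸ H₂) = 6 := by
    rw [← Nat.card_eq_fintype_card, ← Subgroup.index_eq_card, hH₂]
  have hbij := coset_bij H₂ (by rw [hH₂, h6]) (by omega)
  have hstΩ : ∀ a : Fin 6, (MulAction.stabilizer (Perm (Fin 6)) a).index = 6 := fun a => by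
    rw [MulAction.index_stabilizer_of_transitive, Nat.card_eq_fintype_card, h6]
  have hstX : ∀ y : Perm (Fin 6) ⧸ H₂, (MulAction.stabilizer (Perm (Fin 6)) y).index = 6 :=
    fun y => by
      rw [MulAction.index_stabilizer_of_transitive, Nat.card_eq_fintype_card, hcX]
  have hmoveX : ∀ (y : Perm (Fin 6) ⧸ H₂) (a : Fin 6),
      ∃ h ∈ MulAction.stabilizer (Perm (Fin 6)) y, h a ≠ a := by
    intro y a
    obtain ⟨g, rfl⟩ := QuotientGroup.mk_surjective y
    obtain ⟨h, hh, hne⟩ := hnf₂ (g⁻¹ a)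
    refine ⟨g * h * g⁻¹, ?_, ?_⟩
    · rw [MulAction.mem_stabilizer_iff, MulAction.Quotient.smul_mk, QuotientGroup.eq]
      simpa [smul_eq_mul, mul_assoc] using H₂.inv_mem hh
    · intro hcon
      apply hne
      have h1 : g (h (g⁻¹ a)) = a := hcon
      have h2 := congrArg (⇑g⁻¹) h1
      simpa using h2
  obtain ⟨f, hfl, hfr⟩ : ∃ f : Fin 6 ⊕ (Perm (Fin 6) ⧸ H₂) →
      {H : Subgroup (Perm (Fin 6)) // H.index = 6},
      (∀ a, (f (Sum.inl a)).1 = MulAction.stabilizer (Perm (Fin 6)) a) ∧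
      (∀ y, (f (Sum.inr y)).1 = MulAction.stabilizer (Perm (Fin 6)) y) :=
    ⟨fun s => Sum.elim (fun a => ⟨MulAction.stabilizer (Perm (Fin 6)) a, hstΩ a⟩)
      (fun y => ⟨MulAction.stabilizer (Perm (Fin 6)) y, hstX y⟩) s, fun a => rfl, fun y => rfl⟩
  have hinj : Function.Injective f := by
    rintro (a | y) (b | z) hab
    · have h1 : MulAction.stabilizer (Perm (Fin 6)) a = MulAction.stabilizer (Perm (Fin 6)) b := by
        rw [← hfl, ← hfl, hab]
      by_contra hne
      have hne' : a ≠ b := fun h => hne (by rw [h])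
      obtain ⟨c, hc⟩ := exists_notMem ({a, b} : Finset (Fin 6))
        (lt_of_le_of_lt Finset.card_le_two (by simp))
      simp only [Finset.mem_insert, Finset.mem_singleton, not_or] at hc
      have h2 : swap b c ∈ MulAction.stabilizer (Perm (Fin 6)) a := by
        rw [MulAction.mem_stabilizer_iff]
        exact swap_apply_of_ne_of_ne hne' (Ne.symm hc.1)
      rw [h1, MulAction.mem_stabilizer_iff] at h2
      have h3 : swap b c b = c := swap_apply_left b c
      exact hc.2 (h3.symm.trans h2)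
    · exfalso
      have h1 : MulAction.stabilizer (Perm (Fin 6)) a = MulAction.stabilizer (Perm (Fin 6)) z := by
        rw [← hfl, ← hfr, hab]
      obtain ⟨h, hh, hne⟩ := hmoveX z a
      rw [← h1, MulAction.mem_stabilizer_iff] at hh
      exact hne hh
    · exfalso
      have h1 : MulAction.stabilizer (Perm (Fin 6)) y = MulAction.stabilizer (Perm (Fin 6)) b := by
        rw [← hfl, ← hfr, hab]
      obtain ⟨h, hh, hne⟩ := hmoveX y b
      rw [h1, MulAction.mem_stabilizer_iff] at hh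
      exact hne hh
    · have h1 : MulAction.stabilizer (Perm (Fin 6)) y = MulAction.stabilizer (Perm (Fin 6)) z := by
        rw [← hfr, ← hfr, hab]
      by_contra hne
      have hne' : y ≠ z := fun h => hne (by rw [h])
      obtain ⟨w, hw⟩ := exists_notMem ({y, z} : Finset (Perm (Fin 6) ⧸ H₂))
        (lt_of_le_of_lt Finset.card_le_two (by omega))
      simp only [Finset.mem_insert, Finset.mem_singleton, not_or] at hw
      obtain ⟨k, hk⟩ := hbij.2 (swap z w)
      have hk' : ∀ x : Perm (Fin 6) ⧸ H₂, k • x = swap z w x := fun x => by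
        rw [← hk]; rfl
      have h2 : k ∈ MulAction.stabilizer (Perm (Fin 6)) y := by
        rw [MulAction.mem_stabilizer_iff, hk']
        exact swap_apply_of_ne_of_ne hne' (Ne.symm hw.1)
      rw [h1, MulAction.mem_stabilizer_iff, hk', swap_apply_left] at h2
      exact hw.2 h2
  have hsurj : Function.Surjective f := by
    rintro ⟨H, hH⟩
    by_cases hfix : ∃ a : Fin 6, ∀ h ∈ H, h a = a
    · obtain ⟨a, ha⟩ := hfix
      refine ⟨Sum.inl a, Subtype.ext ?_⟩
      rw [hfl]
      exact (fix_imp_eq H (by rw [hH, h6]) a ha).symm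
    · push_neg at hfix
      obtain ⟨g, hg⟩ := conj_of_nofix h6 H₂ H hH₂ hH hnf₂ hfix
      refine ⟨Sum.inr (QuotientGroup.mk g), Subtype.ext ?_⟩
      rw [hfr]
      have h1 : (QuotientGroup.mk g : Perm (Fin 6) ⧸ H₂)
          = g • (QuotientGroup.mk 1 : Perm (Fin 6) ⧸ H₂) := by
        rw [MulAction.Quotient.smul_mk, smul_eq_mul, mul_one]
      rw [h1, MulAction.stabilizer_smul_eq_stabilizer_map_conj, MulAction.stabilizer_quotient, hg]
  rw [← Nat.card_congr (Equiv.ofBijective f ⟨hinj, hsurj⟩), Nat.card_sum,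
    Nat.card_eq_fintype_card, Nat.card_eq_fintype_card, h6, hcX]


/-- The symmetric group S_6 has exactly 12 subgroups of index 6; each of them is isomorphic to S_5, and at least one of them is not the stabilizer of any point. -/
theorem result : Nat.card {H : Subgroup (Equiv.Perm (Fin 6)) // H.index = 6} = 12 ∧ (∀ H : Subgroup (Equiv.Perm (Fin 6)), H.index = 6 → Nonempty (H ≃* Equiv.Perm (Fin 5))) ∧ ∃ H : Subgroup (Equiv.Perm (Fin 6)), H.index = 6 ∧ ∀ a : Fin 6, H ≠ MulAction.stabilizer (Equiv.Perm (Fin 6)) a := by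
  have h6 : Fintype.card (Fin 6) = 6 := Fintype.card_fin 6
  obtain ⟨H₂, hH₂, hnf₂⟩ := exists_exotic h6
  refine ⟨count_twelve H₂ hH₂ hnf₂, fun H hH => iso_S5 H hH, H₂, hH₂, ?_⟩
  intro a ha
  obtain ⟨h, hh, hne⟩ := hnf₂ a
  rw [ha, MulAction.mem_stabilizer_iff] at hh
  exact hne hh

end Cfsg.Agent.S5945
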