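import Cfsg.Statements.S5946

set_option autoImplicit false
open Cfsg

namespace Cfsg.Agent.S5946

/-- Let F ⊆ K be finite fields with [K : F] = n ≥ 2 and regard K as an n-dimensional F-vector space. The Singer group M ≤ GL_F(K) of multiplications by the non-zero elements of K is self-centralizing: every F-linear automorphism of K commuting with all of M lies in M. -/
theorem result {F K : Type*} [Field F] [Fintype F] [Field K] [Fintype K] [Algebra F K] (n : ℕ) (hn : 2 ≤ n) (hdim : Module.finrank F K = n) :
    Subgroup.centralizer (((Units.map ((Algebra.lmul F K : K →ₐ[F] Module.End F K) : K →* Module.End F K)).range : Subgroup (Module.End F K)ˣ) : Set (Module.End F K)ˣ) = (Units.map ((Algebra.lmul F K : K →ₐ[F] Module.End F K) : K →* Module.End F K)).range := by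
  set φ : K →* Module.End F K := ((Algebra.lmul F K : K →ₐ[F] Module.End F K) : K →* Module.End F K) with hφ
  have hφ_apply : ∀ x y : K, φ x y = x * y := fun x y => rfl
  ext g
  constructor
  · intro hg
    rw [Subgroup.mem_centralizer_iff] at hg
    have hcomm : ∀ x : K, x ≠ 0 → ∀ y : K, g.val (x * y) = x * g.val y := by
      intro x hx y
      have h1 := hg (Units.map φ (Units.mk0 x hx)) ⟨Units.mk0 x hx, rfl⟩
      have h2 := congrArg (fun u : (Module.End F K)ˣ => u.val y) h1
      simp only [Units.val_mul, Units.coe_map, Units.val_mk0, Module.End.mul_apply] at h2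
      rw [hφ_apply, hφ_apply] at h2
      exact h2.symm
    have hc : g.val 1 ≠ 0 := by
      intro h0
      have h1 : (g⁻¹.val * g.val) (1 : K) = 1 := by
        rw [← Units.val_mul, inv_mul_cancel]; rfl
      rw [Module.End.mul_apply, h0, map_zero] at h1
      exact zero_ne_one h1
    refine ⟨Units.mk0 (g.val 1) hc, ?_⟩
    apply Units.ext
    apply LinearMap.ext
    intro x
    simp only [Units.coe_map, Units.val_mk0]
    rw [hφ_apply]
    by_cases hx : x = 0
    · subst hx; simp
    · have := hcomm x hx 1
      rw [mul_one] at this
      rw [this, mul_comm]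
  · rintro ⟨u, rfl⟩
    rw [Subgroup.mem_centralizer_iff]
    rintro h ⟨v, rfl⟩
    rw [← map_mul, ← map_mul, mul_comm]

end Cfsg.Agent.S5946
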